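import Cfsg.Statements.S1054
import Cfsg.Agent.S1051
import Cfsg.Agent.S1052
import Cfsg.Agent.Chev.Tab.Conn

set_option autoImplicit false
open Cfsg

namespace Cfsg.Agent.S1054

/-- The Chevalley groups of types D₄, F₄, E₆, E₇, E₈ are simple over every field. -/
theorem result {F : Type*} [Field F] (D : Cfsg.Lie.ChevalleyDatum)
    (hD : D ∈ [Cfsg.Lie.chevD4, Cfsg.Lie.chevF4, Cfsg.Lie.chevE6, Cfsg.Lie.chevE7, Cfsg.Lie.chevE8]) :
    IsSimpleGroup ↥(D.group F) ∧ ¬ IsMulCommutative ↥(D.group F) := by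
  simp only [List.mem_cons, List.not_mem_nil, or_false] at hD
  rcases hD with rfl | rfl | rfl | rfl | rfl
  · exact (Cfsg.Agent.Chev.relsD4 F).simple Cfsg.Agent.Chev.good2D4 Cfsg.Agent.Chev.connD4
      (Cfsg.Agent.S1052.result _ (by simp) (by intro h; rcases h with h | h <;> exact absurd (congrArg Cfsg.Lie.ChevalleyDatum.rank h) (by decide)))
      (Cfsg.Agent.S1051.result _ (by simp))
  · exact (Cfsg.Agent.Chev.relsF4 F).simple Cfsg.Agent.Chev.good2F4 Cfsg.Agent.Chev.connF4
      (Cfsg.Agent.S1052.result _ (by simp) (by intro h; rcases h with h | h <;> exact absurd (congrArg Cfsg.Lie.ChevalleyDatum.rank h) (by decide)))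
      (Cfsg.Agent.S1051.result _ (by simp))
  · exact (Cfsg.Agent.Chev.relsE6 F).simple Cfsg.Agent.Chev.good2E6 Cfsg.Agent.Chev.connE6
      (Cfsg.Agent.S1052.result _ (by simp) (by intro h; rcases h with h | h <;> exact absurd (congrArg Cfsg.Lie.ChevalleyDatum.rank h) (by decide)))
      (Cfsg.Agent.S1051.result _ (by simp))
  · exact (Cfsg.Agent.Chev.relsE7 F).simple Cfsg.Agent.Chev.good2E7 Cfsg.Agent.Chev.connE7
      (Cfsg.Agent.S1052.result _ (by simp) (by intro h; rcases h with h | h <;> exact absurd (congrArg Cfsg.Lie.ChevalleyDatum.rank h) (by decide)))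
      (Cfsg.Agent.S1051.result _ (by simp))
  · exact (Cfsg.Agent.Chev.relsE8 F).simple Cfsg.Agent.Chev.good2E8 Cfsg.Agent.Chev.connE8
      (Cfsg.Agent.S1052.result _ (by simp) (by intro h; rcases h with h | h <;> exact absurd (congrArg Cfsg.Lie.ChevalleyDatum.rank h) (by decide)))
      (Cfsg.Agent.S1051.result _ (by simp))

end Cfsg.Agent.S1054
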