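import Cfsg.Statements.S0646
import Cfsg.Agent.Tr.MC2
-- import your own Cfsg.Agent.* helpers here

set_option autoImplicit false
open Cfsg

open Cfsg.Agent.Tr.MC

namespace Cfsg.Agent.S0646

/-- Classification of non-abelian 2-groups with a cyclic maximal subgroup: dihedral, generalized quaternion, and for order at least 16 the modular group and the semidihedral group, each given by generators a (of index 2) and b with the stated relations. -/
theorem result {G : Type*} [Group G] [Finite G] (n : ℕ) (hn : 3 ≤ n) (hG : Nat.card G = 2 ^ n) (C : Subgroup G) (hC : IsCyclic C) (hCi : C.index = 2) (hna : ∃ x y : G, x * y ≠ y * x) : ∃ a b : G, orderOf a = 2 ^ (n - 1) ∧ b ∉ Subgroup.zpowers a ∧ ((b ^ 2 = 1 ∧ b * a * b⁻¹ = a⁻¹) ∨ (b ^ 2 = a ^ (2 ^ (n - 2)) ∧ b * a * b⁻¹ = a⁻¹) ∨ (4 ≤ n ∧ b ^ 2 = 1 ∧ b * a * b⁻¹ = a ^ (1 + 2 ^ (n - 2))) ∨ (4 ≤ n ∧ b ^ 2 = 1 ∧ b * a * b⁻¹ = a ^ (2 ^ (n - 2) - 1))) := by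
  obtain ⟨m, rfl⟩ : ∃ m, n = m + 1 := ⟨n - 1, by omega⟩
  have hm : 2 ≤ m := by omega
  obtain ⟨g, hg⟩ := hC.exists_generator
  have hcardC : Nat.card C = 2 ^ m := by
    have h := C.card_mul_index
    rw [hCi, hG, pow_succ] at h
    exact Nat.eq_of_mul_eq_mul_right (by norm_num) h
  have hog : orderOf g = 2 ^ m := by
    rw [orderOf_eq_card_of_forall_mem_zpowers hg, hcardC]
  have ha : orderOf (g : G) = 2 ^ m := by rw [Subgroup.orderOf_coe, hog]
  have hna' : ¬ ∀ x y : G, x * y = y * x := by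
    obtain ⟨x, y, hxy⟩ := hna
    intro h
    exact hxy (h x y)
  obtain ⟨b, hb, h⟩ := classify hm hG (g : G) ha hna'
  have e1 : m + 1 - 1 = m := by omega
  have e2 : m + 1 - 2 = m - 1 := by omega
  refine ⟨(g : G), b, by rw [e1, ha], hb, ?_⟩
  rw [e2]
  rcases h with h | h | ⟨h3, h1, h2⟩ | ⟨h3, h1, h2⟩
  · exact Or.inl h
  · exact Or.inr (Or.inl h)
  · exact Or.inr (Or.inr (Or.inl ⟨by omega, h1, by rw [h2, pow_add, pow_one]⟩))
  · refine Or.inr (Or.inr (Or.inr ⟨by omega, h1, ?_⟩))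
    rw [h2]
    have hpos : 1 ≤ 2 ^ (m - 1) := Nat.one_le_two_pow
    rw [inv_mul_eq_iff_eq_mul, ← pow_succ', Nat.sub_add_cancel hpos]

end Cfsg.Agent.S0646
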