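import Cfsg.Statements.S2303

set_option autoImplicit false
open Cfsg

namespace Cfsg.Agent.S2303

open Matrix

variable {F : Type*} [Field F]

theorem comm_entries (g h : GL (Fin 2) F) :
    h * g = g * h ↔
      ((h : Matrix (Fin 2) (Fin 2) F) 0 0 * (g : Matrix (Fin 2) (Fin 2) F) 0 0 + (h : Matrix (Fin 2) (Fin 2) F) 0 1 * (g : Matrix (Fin 2) (Fin 2) F) 1 0
        = (g : Matrix (Fin 2) (Fin 2) F) 0 0 * (h : Matrix (Fin 2) (Fin 2) F) 0 0 + (g : Matrix (Fin 2) (Fin 2) F) 0 1 * (h : Matrix (Fin 2) (Fin 2) F) 1 0) ∧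
      ((h : Matrix (Fin 2) (Fin 2) F) 0 0 * (g : Matrix (Fin 2) (Fin 2) F) 0 1 + (h : Matrix (Fin 2) (Fin 2) F) 0 1 * (g : Matrix (Fin 2) (Fin 2) F) 1 1
        = (g : Matrix (Fin 2) (Fin 2) F) 0 0 * (h : Matrix (Fin 2) (Fin 2) F) 0 1 + (g : Matrix (Fin 2) (Fin 2) F) 0 1 * (h : Matrix (Fin 2) (Fin 2) F) 1 1) ∧
      ((h : Matrix (Fin 2) (Fin 2) F) 1 0 * (g : Matrix (Fin 2) (Fin 2) F) 0 0 + (h : Matrix (Fin 2) (Fin 2) F) 1 1 * (g : Matrix (Fin 2) (Fin 2) F) 1 0
        = (g : Matrix (Fin 2) (Fin 2) F) 1 0 * (h : Matrix (Fin 2) (Fin 2) F) 0 0 + (g : Matrix (Fin 2) (Fin 2) F) 1 1 * (h : Matrix (Fin 2) (Fin 2) F) 1 0) ∧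
      ((h : Matrix (Fin 2) (Fin 2) F) 1 0 * (g : Matrix (Fin 2) (Fin 2) F) 0 1 + (h : Matrix (Fin 2) (Fin 2) F) 1 1 * (g : Matrix (Fin 2) (Fin 2) F) 1 1
        = (g : Matrix (Fin 2) (Fin 2) F) 1 0 * (h : Matrix (Fin 2) (Fin 2) F) 0 1 + (g : Matrix (Fin 2) (Fin 2) F) 1 1 * (h : Matrix (Fin 2) (Fin 2) F) 1 1) := by
  constructor
  · intro H
    have H' : (h : Matrix (Fin 2) (Fin 2) F) * g = g * h := by
      rw [← GeneralLinearGroup.coe_mul, H, GeneralLinearGroup.coe_mul]
    have h00 := congrFun (congrFun H' 0) 0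
    have h01 := congrFun (congrFun H' 0) 1
    have h10 := congrFun (congrFun H' 1) 0
    have h11 := congrFun (congrFun H' 1) 1
    simp only [Matrix.mul_apply, Fin.sum_univ_two] at h00 h01 h10 h11
    exact ⟨h00, h01, h10, h11⟩
  · rintro ⟨h00, h01, h10, h11⟩
    apply GeneralLinearGroup.ext
    intro i j
    rw [GeneralLinearGroup.coe_mul, GeneralLinearGroup.coe_mul]
    fin_cases i <;> fin_cases j <;> simp only [Matrix.mul_apply, Fin.sum_univ_two] <;> assumption

/-- diagonal matrix in `GL₂`. -/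
noncomputable def dg (u : Fˣ × Fˣ) : GL (Fin 2) F :=
  GeneralLinearGroup.mkOfDetNeZero !![(u.1 : F), 0; 0, (u.2 : F)] (by
    rw [Matrix.det_fin_two_of]; simp)

theorem dg_coe (u : Fˣ × Fˣ) : (dg u : Matrix (Fin 2) (Fin 2) F) = !![(u.1 : F), 0; 0, (u.2 : F)] := rfl

theorem part1 [Fintype F] (g : GL (Fin 2) F) (h01 : (g : Matrix (Fin 2) (Fin 2) F) 0 1 = 0)
    (h10 : (g : Matrix (Fin 2) (Fin 2) F) 1 0 = 0)
    (hne : (g : Matrix (Fin 2) (Fin 2) F) 0 0 ≠ (g : Matrix (Fin 2) (Fin 2) F) 1 1) :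
    Nat.card (Subgroup.centralizer ({g} : Set (GL (Fin 2) F))) = (Fintype.card F - 1) ^ 2 := by
  have hset : ((Subgroup.centralizer ({g} : Set (GL (Fin 2) F)) : Subgroup _) : Set (GL (Fin 2) F)) = Set.range dg := by
    ext k
    rw [SetLike.mem_coe, Subgroup.mem_centralizer_singleton_iff, comm_entries, h01, h10]
    constructor
    · rintro ⟨-, e01, e10, -⟩
      have k01 : (k : Matrix (Fin 2) (Fin 2) F) 0 1 = 0 := by
        have : (k : Matrix (Fin 2) (Fin 2) F) 0 1 * ((g : Matrix (Fin 2) (Fin 2) F) 0 0 - (g : Matrix (Fin 2) (Fin 2) F) 1 1) = 0 := by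
          linear_combination -e01
        exact (mul_eq_zero.mp this).resolve_right (sub_ne_zero.mpr hne)
      have k10 : (k : Matrix (Fin 2) (Fin 2) F) 1 0 = 0 := by
        have : (k : Matrix (Fin 2) (Fin 2) F) 1 0 * ((g : Matrix (Fin 2) (Fin 2) F) 0 0 - (g : Matrix (Fin 2) (Fin 2) F) 1 1) = 0 := by
          linear_combination e10
        exact (mul_eq_zero.mp this).resolve_right (sub_ne_zero.mpr hne)
      have hdet : (k : Matrix (Fin 2) (Fin 2) F).det ≠ 0 := by
        have := (Matrix.isUnit_iff_isUnit_det _).mp k.isUnit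
        exact this.ne_zero
      rw [Matrix.det_fin_two, k01, k10] at hdet
      simp only [mul_zero, sub_zero] at hdet
      have k00 := left_ne_zero_of_mul hdet
      have k11 := right_ne_zero_of_mul hdet
      refine ⟨(Units.mk0 _ k00, Units.mk0 _ k11), ?_⟩
      apply GeneralLinearGroup.ext
      intro i j
      rw [dg_coe]
      fin_cases i <;> fin_cases j <;> simp [k01, k10]
    · rintro ⟨u, rfl⟩
      rw [dg_coe]
      simp [mul_comm]
  have hinj : Function.Injective (dg : Fˣ × Fˣ → GL (Fin 2) F) := by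
    intro u v huv
    have e := congrArg (fun k : GL (Fin 2) F => (k : Matrix (Fin 2) (Fin 2) F)) huv
    simp only [dg_coe] at e
    have e0 := congrFun (congrFun e 0) 0
    have e1 := congrFun (congrFun e 1) 1
    simp at e0 e1
    exact Prod.ext (Units.ext e0) (Units.ext e1)
  change Nat.card ((Subgroup.centralizer ({g} : Set (GL (Fin 2) F)) : Subgroup _) : Set (GL (Fin 2) F)) = _
  rw [hset, Nat.card_range_of_injective hinj, Nat.card_prod, Nat.card_units, Nat.card_eq_fintype_card, sq]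

theorem det_ne_zero_of_noEig (g : GL (Fin 2) F)
    (hg : ∀ (c : F) (v : Fin 2 → F), v ≠ 0 → (g : Matrix (Fin 2) (Fin 2) F).mulVec v ≠ c • v)
    (w : F × F) (hw : w ≠ 0) :
    (w.1 • (1 : Matrix (Fin 2) (Fin 2) F) + w.2 • (g : Matrix (Fin 2) (Fin 2) F)).det ≠ 0 := by
  intro hdet
  obtain ⟨v, hv, hv0⟩ := Matrix.exists_mulVec_eq_zero_iff.mpr hdet
  rw [Matrix.add_mulVec, Matrix.smul_mulVec, Matrix.smul_mulVec, Matrix.one_mulVec] at hv0
  by_cases hy : w.2 = 0
  · rw [hy, zero_smul, add_zero] at hv0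
    have hx : w.1 = 0 := (smul_eq_zero.mp hv0).resolve_right hv
    exact hw (Prod.ext hx hy)
  · apply hg (-(w.2⁻¹ * w.1)) v hv
    have : w.2 • ((g : Matrix (Fin 2) (Fin 2) F).mulVec v) = -(w.1 • v) := by
      rw [eq_neg_iff_add_eq_zero, add_comm]; exact hv0
    calc (g : Matrix (Fin 2) (Fin 2) F).mulVec v = w.2⁻¹ • (w.2 • ((g : Matrix (Fin 2) (Fin 2) F).mulVec v)) := by
          rw [smul_smul, inv_mul_cancel₀ hy, one_smul]
      _ = -(w.2⁻¹ * w.1) • v := by rw [this, smul_neg, smul_smul, neg_smul]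

theorem part2 [Fintype F] (g : GL (Fin 2) F)
    (hg : ∀ (c : F) (v : Fin 2 → F), v ≠ 0 → (g : Matrix (Fin 2) (Fin 2) F).mulVec v ≠ c • v) :
    Nat.card (Subgroup.centralizer ({g} : Set (GL (Fin 2) F))) = Fintype.card F ^ 2 - 1 := by
  have hb : (g : Matrix (Fin 2) (Fin 2) F) 0 1 ≠ 0 := by
    intro hb
    apply hg ((g : Matrix (Fin 2) (Fin 2) F) 1 1) ![0, 1] (by intro h; simpa using congrFun h 1)
    ext i
    fin_cases i <;> simp [Matrix.mulVec, dotProduct, Fin.sum_univ_two, hb]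
  let f : {w : F × F // w ≠ 0} → GL (Fin 2) F := fun w =>
    GeneralLinearGroup.mkOfDetNeZero _ (det_ne_zero_of_noEig g hg w.1 w.2)
  have hf : ∀ w, (f w : Matrix (Fin 2) (Fin 2) F) = w.1.1 • (1 : Matrix (Fin 2) (Fin 2) F) + w.1.2 • (g : Matrix (Fin 2) (Fin 2) F) :=
    fun w => rfl
  have hset : ((Subgroup.centralizer ({g} : Set (GL (Fin 2) F)) : Subgroup _) : Set (GL (Fin 2) F)) = Set.range f := by
    ext k
    rw [SetLike.mem_coe, Subgroup.mem_centralizer_singleton_iff]
    constructor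
    · intro hk
      obtain ⟨e00, e01, e10, e11⟩ := (comm_entries g k).mp hk
      set a := (g : Matrix (Fin 2) (Fin 2) F) 0 0
      set b := (g : Matrix (Fin 2) (Fin 2) F) 0 1
      set c := (g : Matrix (Fin 2) (Fin 2) F) 1 0
      set d := (g : Matrix (Fin 2) (Fin 2) F) 1 1
      set p := (k : Matrix (Fin 2) (Fin 2) F) 0 0
      set q := (k : Matrix (Fin 2) (Fin 2) F) 0 1
      set r := (k : Matrix (Fin 2) (Fin 2) F) 1 0
      set s := (k : Matrix (Fin 2) (Fin 2) F) 1 1
      have hmat : (k : Matrix (Fin 2) (Fin 2) F) = (p - q / b * a) • (1 : Matrix (Fin 2) (Fin 2) F) + (q / b) • (g : Matrix (Fin 2) (Fin 2) F) := by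
        ext i j
        fin_cases i <;> fin_cases j <;> simp
        · change p = p - q / b * a + q / b * a
          ring
        · change q = q / b * b
          field_simp
        · change r = q / b * c
          field_simp
          linear_combination -e00
        · change s = p - q / b * a + q / b * d
          field_simp
          linear_combination -e01
      have hw : ((p - q / b * a, q / b) : F × F) ≠ 0 := by
        intro h0
        have h1 := congrArg Prod.fst h0
        have h2 := congrArg Prod.snd h0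
        simp only [Prod.fst_zero, Prod.snd_zero] at h1 h2
        rw [h1, h2] at hmat
        simp only [zero_smul, add_zero] at hmat
        have := k.isUnit
        rw [hmat] at this
        exact not_isUnit_zero this
      refine ⟨⟨_, hw⟩, ?_⟩
      apply Units.ext
      rw [hf, hmat]
    · rintro ⟨w, rfl⟩
      apply Units.ext
      rw [Units.val_mul, Units.val_mul, hf]
      simp [add_mul, mul_add]
  have hinj : Function.Injective f := by
    intro u v huv
    have e := congrArg (fun k : GL (Fin 2) F => (k : Matrix (Fin 2) (Fin 2) F)) huv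
    simp only [hf] at e
    have e0 := congrFun (congrFun e 0) 0
    have e1 := congrFun (congrFun e 0) 1
    simp at e0 e1
    have h2 : u.1.2 = v.1.2 := e1.resolve_right hb
    rw [h2] at e0
    have h1 : u.1.1 = v.1.1 := by simpa using e0
    exact Subtype.ext (Prod.ext h1 h2)
  change Nat.card ((Subgroup.centralizer ({g} : Set (GL (Fin 2) F)) : Subgroup _) : Set (GL (Fin 2) F)) = _
  rw [hset, Nat.card_range_of_injective hinj]
  classical
  rw [Nat.card_eq_fintype_card, Fintype.card_subtype_compl]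
  simp [sq]

theorem result {F : Type*} [Field F] [Fintype F] (g : Matrix.GeneralLinearGroup (Fin 2) F) :
    ((g : Matrix (Fin 2) (Fin 2) F) 0 1 = 0 → (g : Matrix (Fin 2) (Fin 2) F) 1 0 = 0 → (g : Matrix (Fin 2) (Fin 2) F) 0 0 ≠ (g : Matrix (Fin 2) (Fin 2) F) 1 1 →
      Nat.card (Subgroup.centralizer ({g} : Set (Matrix.GeneralLinearGroup (Fin 2) F))) = (Fintype.card F - 1) ^ 2) ∧
    ((∀ (c : F) (v : Fin 2 → F), v ≠ 0 → (g : Matrix (Fin 2) (Fin 2) F).mulVec v ≠ c • v) →
      Nat.card (Subgroup.centralizer ({g} : Set (Matrix.GeneralLinearGroup (Fin 2) F))) = Fintype.card F ^ 2 - 1) :=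
  ⟨part1 g, part2 g⟩

end Cfsg.Agent.S2303
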