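import Mathlib
import Cfsg.Agent.Lib.Helper18.Pres168
import Cfsg.Agent.Lib.Helper18.SLGen
import Cfsg.Agent.S0243
import Cfsg.Statements.S0255
-- import your own Cfsg.Agent.* helpers here

set_option autoImplicit false
open Cfsg

namespace Cfsg.Agent.S0255

open Matrix

def A7 : Matrix.SpecialLinearGroup (Fin 2) (ZMod 7) := ⟨!![0, 1; -1, 0], by decide +kernel⟩
def B7 : Matrix.SpecialLinearGroup (Fin 2) (ZMod 7) := ⟨!![0, 1; -1, -1], by decide +kernel⟩
def A2 : Matrix.SpecialLinearGroup (Fin 3) (ZMod 2) := ⟨!![0, 0, 1; 0, 1, 0; 1, 0, 0], by decide +kernel⟩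
def B2 : Matrix.SpecialLinearGroup (Fin 3) (ZMod 2) := ⟨!![0, 1, 0; 1, 0, 1; 1, 1, 0], by decide +kernel⟩

theorem A7_rel : A7 ^ 2 = -1 := by decide +kernel
theorem B7_rel : B7 ^ 3 = 1 := by decide +kernel
theorem AB7_rel : (A7 * B7) ^ 7 = -1 := by decide +kernel
theorem C7_rel : (A7 * B7 * A7 * B7 * B7) ^ 4 = 1 ∨ (A7 * B7 * A7 * B7 * B7) ^ 4 = -1 := by decide +kernel
theorem A2_rel : A2 ^ 2 = 1 := by decide +kernel
theorem B2_rel : B2 ^ 3 = 1 := by decide +kernel
theorem AB2_rel : (A2 * B2) ^ 7 = 1 := by decide +kernel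
theorem C2_rel : (A2 * B2 * A2 * B2 * B2) ^ 4 = 1 := by decide +kernel

theorem map_entry_ne {n : Type*} [Fintype n] [DecidableEq n] {R F : Type*} [CommRing R] [Field F]
    (f : R →+* F) (g : Matrix.SpecialLinearGroup n R) (i j : n) (h : g i j = 1 ∨ g i j = -1) :
    (Matrix.SpecialLinearGroup.map f g) i j ≠ 0 := by
  have h1 : (Matrix.SpecialLinearGroup.map f g) i j = f (g i j) := by
    simp [Matrix.SpecialLinearGroup.map_apply_coe]
  rw [h1]
  rcases h with h | h <;> rw [h] <;> simp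


/-- PSL_2(7) is isomorphic to PSL_3(2). -/
theorem result {F K : Type*} [Field F] [Fintype F] [Field K] [Fintype K] (hF : Fintype.card F = 7) (hK : Fintype.card K = 2) : Nonempty (Matrix.ProjectiveSpecialLinearGroup (Fin 2) F ≃* Matrix.ProjectiveSpecialLinearGroup (Fin 3) K) := by
  have hcF : CharP F 7 := Cfsg.Agent.Lib.Helper18.charP_of_card_eq_prime_pow 7 1 (by norm_num) (by simpa using hF)
  have hcK : CharP K 2 := Cfsg.Agent.Lib.Helper18.charP_of_card_eq_prime_pow 2 1 (by norm_num) (by simpa using hK)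
  -- PSL2(7)
  have hG1s : IsSimpleGroup (Matrix.ProjectiveSpecialLinearGroup (Fin 2) F) :=
    Matrix.ProjectiveSpecialLinearGroup.rank_two_simple (by rw [Nat.card_eq_fintype_card, hF]; norm_num)
  have hG1c : Nat.card (Matrix.ProjectiveSpecialLinearGroup (Fin 2) F) = 168 := by
    have h1 := Cfsg.Agent.Lib.Helper18.card_PSL2 (F := F)
    rw [hF] at h1
    norm_num at h1
    omega
  let f1 : ZMod 7 →+* F := ZMod.castHom (dvd_refl 7) F
  let π1 : Matrix.SpecialLinearGroup (Fin 2) (ZMod 7) →* Matrix.ProjectiveSpecialLinearGroup (Fin 2) F :=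
    (QuotientGroup.mk' _).comp (Matrix.SpecialLinearGroup.map f1)
  have hneg : π1 (-1) = 1 := by
    change (QuotientGroup.mk (Matrix.SpecialLinearGroup.map f1 (-1)) : Matrix.ProjectiveSpecialLinearGroup (Fin 2) F) = 1
    rw [QuotientGroup.eq_one_iff, Matrix.SpecialLinearGroup.mem_center_iff]
    refine ⟨-1, by simp, ?_⟩
    ext a b; fin_cases a <;> fin_cases b <;> simp
  have e1 : Nonempty (PresentedGroup Cfsg.Agent.Lib.Helper18.rels168 ≃* Matrix.ProjectiveSpecialLinearGroup (Fin 2) F) := by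
    apply Cfsg.Agent.Lib.Helper18.simple168_equiv hG1c (π1 A7) (π1 B7)
    · rw [← map_pow, A7_rel, hneg]
    · rw [← map_pow, B7_rel, map_one]
    · rw [← map_mul, ← map_pow, AB7_rel, hneg]
    · simp only [← map_mul, ← map_pow]
      rcases C7_rel with h | h
      · rw [h, map_one]
      · rw [h, hneg]
    · apply Cfsg.Agent.Lib.Helper18.mk_ne_one_of_offdiag _ 0 1 (by decide)
      exact map_entry_ne f1 A7 0 1 (by decide +kernel)
    · apply Cfsg.Agent.Lib.Helper18.mk_ne_one_of_offdiag _ 0 1 (by decide)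
      exact map_entry_ne f1 B7 0 1 (by decide +kernel)
    · rw [← map_mul]
      apply Cfsg.Agent.Lib.Helper18.mk_ne_one_of_offdiag _ 0 1 (by decide)
      exact map_entry_ne f1 (A7 * B7) 0 1 (by decide +kernel)
  -- PSL3(2)
  have hG2s : IsSimpleGroup (Matrix.ProjectiveSpecialLinearGroup (Fin 3) K) :=
    Cfsg.Agent.Lib.Helper18.PSL_isSimpleGroup (by simp)
  have hG2c : Nat.card (Matrix.ProjectiveSpecialLinearGroup (Fin 3) K) = 168 := by
    have h1 := Cfsg.Agent.S0243.result (F := K) hK 3 (by norm_num)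
    simp [Fin.prod_univ_three] at h1
    exact h1
  let f2 : ZMod 2 →+* K := ZMod.castHom (dvd_refl 2) K
  let π2 : Matrix.SpecialLinearGroup (Fin 3) (ZMod 2) →* Matrix.ProjectiveSpecialLinearGroup (Fin 3) K :=
    (QuotientGroup.mk' _).comp (Matrix.SpecialLinearGroup.map f2)
  have e2 : Nonempty (PresentedGroup Cfsg.Agent.Lib.Helper18.rels168 ≃* Matrix.ProjectiveSpecialLinearGroup (Fin 3) K) := by
    apply Cfsg.Agent.Lib.Helper18.simple168_equiv hG2c (π2 A2) (π2 B2)
    · rw [← map_pow, A2_rel, map_one]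
    · rw [← map_pow, B2_rel, map_one]
    · rw [← map_mul, ← map_pow, AB2_rel, map_one]
    · simp only [← map_mul, ← map_pow]
      rw [C2_rel, map_one]
    · apply Cfsg.Agent.Lib.Helper18.mk_ne_one_of_offdiag _ 0 2 (by decide)
      exact map_entry_ne f2 A2 0 2 (by decide +kernel)
    · apply Cfsg.Agent.Lib.Helper18.mk_ne_one_of_offdiag _ 0 1 (by decide)
      exact map_entry_ne f2 B2 0 1 (by decide +kernel)
    · rw [← map_mul]
      apply Cfsg.Agent.Lib.Helper18.mk_ne_one_of_offdiag _ 0 1 (by decide)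
      exact map_entry_ne f2 (A2 * B2) 0 1 (by decide +kernel)
  obtain ⟨e1⟩ := e1
  obtain ⟨e2⟩ := e2
  exact ⟨e1.symm.trans e2⟩

end Cfsg.Agent.S0255
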