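import Cfsg.Statements.S0188
import Mathlib
import Cfsg.Agent.CharLib.Orth

set_option autoImplicit false
open Cfsg

namespace Cfsg.Agent.S0188

/-- The irreducible complex characters of G × H are precisely the functions (g, h) ↦ φ g * ψ h with φ, ψ irreducible characters of G and H. -/
theorem result {G : Type*} [Group G] [Finite G] {H : Type*} [Group H] [Finite H] (θ : G × H → ℂ) : Cfsg.IsIrrCharacter (G × H) θ ↔ ∃ (φ : G → ℂ) (ψ : H → ℂ), Cfsg.IsIrrCharacter G φ ∧ Cfsg.IsIrrCharacter H ψ ∧ θ = fun x => φ x.1 * ψ x.2 := by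
  classical
  cases nonempty_fintype G
  cases nonempty_fintype H
  have P1 : ∀ (φ φ' : G → ℂ) (ψ ψ' : H → ℂ),
      classInner (fun x : G × H => φ x.1 * ψ x.2) (fun x : G × H => φ' x.1 * ψ' x.2) =
        classInner φ φ' * classInner ψ ψ' := by
    intro φ φ' ψ ψ'
    simp only [classInner, Nat.card_prod, Nat.cast_mul, mul_inv, map_mul]
    rw [Fintype.sum_prod_type]
    have : (∑ g : G, φ g * (starRingEnd ℂ) (φ' g)) * (∑ h : H, ψ h * (starRingEnd ℂ) (ψ' h)) =
        ∑ x : G, ∑ y : H, φ x * ψ y * ((starRingEnd ℂ) (φ' x) * (starRingEnd ℂ) (ψ' y)) := by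
      rw [Finset.sum_mul_sum]
      refine Finset.sum_congr rfl fun x _ => Finset.sum_congr rfl fun y _ => ?_
      ring
    rw [← this]
    ring
  have P2 : ∀ (φ : G → ℂ) (ψ : H → ℂ), IsIrrCharacter G φ → IsIrrCharacter H ψ →
      IsIrrCharacter (G × H) (fun x => φ x.1 * ψ x.2) := by
    intro φ ψ hφ hψ
    apply Cfsg.Agent.CharLib.isIrrCharacter_of_norm_one
    · exact Cfsg.Agent.CharLib.isCharacter_mul
        (Cfsg.Agent.CharLib.isCharacter_comp (Cfsg.Agent.CharLib.isCharacter_of_irr hφ)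
          (MonoidHom.fst G H))
        (Cfsg.Agent.CharLib.isCharacter_comp (Cfsg.Agent.CharLib.isCharacter_of_irr hψ)
          (MonoidHom.snd G H))
    · rw [P1, Cfsg.Agent.CharLib.classInner_irr_self hφ, Cfsg.Agent.CharLib.classInner_irr_self hψ,
        mul_one]
  constructor
  · intro hθ
    let F : IrrCharacter G × IrrCharacter H → IrrCharacter (G × H) :=
      fun p => ⟨fun x => (p.1 : G → ℂ) x.1 * (p.2 : H → ℂ) x.2, P2 _ _ p.1.2 p.2.2⟩
    have hinj : Function.Injective F := by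
      rintro ⟨φ, ψ⟩ ⟨φ', ψ'⟩ h
      have h1 : classInner ((F (φ, ψ)) : G × H → ℂ) (F (φ', ψ')) = 1 := by
        rw [h]; exact Cfsg.Agent.CharLib.classInner_irr_self (F (φ', ψ')).2
      have h2 := P1 φ φ' ψ ψ'
      have h3 : classInner (φ : G → ℂ) φ' * classInner (ψ : H → ℂ) ψ' = 1 := by
        rw [← h2]; exact h1
      rw [Cfsg.Agent.CharLib.classInner_irr φ.2 φ'.2, Cfsg.Agent.CharLib.classInner_irr ψ.2 ψ'.2] at h3
      by_cases e1 : (φ : G → ℂ) = φ'
      · by_cases e2 : (ψ : H → ℂ) = ψ'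
        · exact Prod.ext (Subtype.ext e1) (Subtype.ext e2)
        · rw [if_neg e2] at h3; simp at h3
      · rw [if_neg e1] at h3; simp at h3
    have hcard : Nat.card (IrrCharacter G × IrrCharacter H) = Nat.card (IrrCharacter (G × H)) := by
      rw [Nat.card_prod, Cfsg.Agent.CharLib.card_irrCharacter, Cfsg.Agent.CharLib.card_irrCharacter,
        Cfsg.Agent.CharLib.card_irrCharacter]
      have h1 := commProb_prod (M := G) H
      rw [commProb_def', commProb_def', commProb_def', Nat.card_prod] at h1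
      have hG : (Nat.card G : ℚ) ≠ 0 := by exact_mod_cast Nat.card_pos.ne'
      have hH : (Nat.card H : ℚ) ≠ 0 := by exact_mod_cast Nat.card_pos.ne'
      push_cast at h1
      field_simp at h1
      exact_mod_cast h1.symm
    have hbij : Function.Bijective F := by
      rw [Fintype.bijective_iff_injective_and_card]
      refine ⟨hinj, ?_⟩
      rw [← Nat.card_eq_fintype_card, ← Nat.card_eq_fintype_card, hcard]
    obtain ⟨⟨φ, ψ⟩, hp⟩ := hbij.2 ⟨θ, hθ⟩
    exact ⟨φ, ψ, φ.2, ψ.2, (congrArg Subtype.val hp).symm⟩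
  · rintro ⟨φ, ψ, hφ, hψ, rfl⟩
    exact P2 φ ψ hφ hψ

end Cfsg.Agent.S0188
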