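import Cfsg.Statements.S4341
import Cfsg.Agent.Lib.Helper23.SylowNumber

set_option autoImplicit false
open Cfsg

namespace Cfsg.Agent.S4341

open Cfsg.Agent.Lib.Helper23 in
open scoped Pointwise in

/-- Let K be a normal subgroup of a finite group G, p a prime and P a Sylow p-subgroup of G; let N be the normalizer of P ∩ K inside the subgroup PK. Then the number of Sylow p-subgroups of G equals the product of the numbers of Sylow p-subgroups of G/K, of K, and of N/(P ∩ K). (The normality of P ∩ K in N, which always holds, is assumed as a hypothesis so that the quotient can be formed.) -/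
theorem result {G : Type*} [Group G] [Finite G]
    (p : ℕ) [Fact p.Prime] (K : Subgroup G) [K.Normal] (P : Sylow p G) (N : Subgroup G)
    (hN : N = ((P : Subgroup G) ⊔ K) ⊓ Subgroup.normalizer (((P : Subgroup G) ⊓ K : Subgroup G) : Set G))
    [hn : (((P : Subgroup G) ⊓ K).subgroupOf N).Normal] :
    Nat.card (Sylow p G) =
      Nat.card (Sylow p (G ⧸ K)) * Nat.card (Sylow p K) * Nat.card (Sylow p (N ⧸ ((P : Subgroup G) ⊓ K).subgroupOf N)) := by
  have hK : ∀ g : G, K.map (↑(MulAut.conj g) : G →* G) = K := fun g =>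
    Subgroup.mem_normalizer_iff_map_conj_eq.1 (by rw [Subgroup.normalizer_eq_top]; trivial)
  have h1 : Subgroup.normalizer ((P : Subgroup G) : Set G) ≤
      Subgroup.normalizer (((P : Subgroup G) ⊓ K : Subgroup G) : Set G) := by
    intro g hg
    rw [Subgroup.mem_normalizer_iff_map_conj_eq] at hg ⊢
    rw [Subgroup.map_inf _ _ _ (MulAut.conj g).injective, hg, hK]
  have hP : (P : Subgroup G) ≤ Subgroup.normalizer (((P : Subgroup G) ⊓ K : Subgroup G) : Set G) :=
    Subgroup.le_normalizer.trans h1
  set M := Subgroup.normalizer (((P : Subgroup G) ⊓ K : Subgroup G) : Set G) with hM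
  have hN2 : N = (P : Subgroup G) ⊔ (K ⊓ M) := by
    rw [hN]
    apply le_antisymm
    · intro x hx
      obtain ⟨hx1, hx2⟩ := hx
      have hx3 : x ∈ ((P : Subgroup G) : Set G) * (K : Set G) := by
        rw [← Subgroup.mul_normal]; exact hx1
      obtain ⟨a, ha, k, hk, rfl⟩ := hx3
      refine mul_mem (Subgroup.mem_sup_left ha) (Subgroup.mem_sup_right ⟨hk, ?_⟩)
      exact (Subgroup.mul_mem_cancel_left _ (hP ha)).1 hx2
    · exact sup_le (le_inf le_sup_left hP) (le_inf (inf_le_left.trans le_sup_right) inf_le_right)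
  have hPN : (P : Subgroup G) ≤ N := by rw [hN2]; exact le_sup_left
  have h2 : (P : Subgroup G) ≤ Subgroup.normalizer ((K ⊓ M : Subgroup G) : Set G) := by
    intro g hg
    rw [Subgroup.mem_normalizer_iff_map_conj_eq]
    rw [Subgroup.map_inf _ _ _ (MulAut.conj g).injective, hK]
    congr 1
    exact Subgroup.mem_normalizer_iff_map_conj_eq.1 (Subgroup.le_normalizer (hP hg))
  have h3 : Nat.card (Sylow p (N ⧸ ((P : Subgroup G) ⊓ K).subgroupOf N)) =
      (Subgroup.normalizer ((P : Subgroup G) : Set G)).relIndex (K ⊓ M) := by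
    rw [card_sylow_quotient_pgroup, card_sylow_subgroup_eq_relIndex P hPN, hN2]
    · exact relIndex_sup_eq_of_le Subgroup.le_normalizer h2
    · exact (P.2.to_le inf_le_left).comap_of_injective N.subtype N.subtype_injective
  rw [h3, card_sylow_normal_eq_relIndex P K, card_sylow_eq_card_quotient_mul_relIndex P K, mul_assoc]
  congr 1
  rw [← Subgroup.inf_relIndex_right, ← Subgroup.inf_relIndex_right M K,
    ← Subgroup.inf_relIndex_right _ (K ⊓ M), mul_comm]
  have h4 : Subgroup.normalizer ((P : Subgroup G) : Set G) ⊓ (K ⊓ M) =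
      Subgroup.normalizer ((P : Subgroup G) : Set G) ⊓ K := by
    rw [← inf_assoc]
    exact inf_eq_left.2 (inf_le_left.trans h1)
  rw [h4, inf_comm K M]
  exact (Subgroup.relIndex_mul_relIndex _ _ _ (inf_le_inf_right _ h1) inf_le_right).symm

end Cfsg.Agent.S4341
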