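import Cfsg.Statements.S0600
import Cfsg.Agent.H1.Fit

set_option autoImplicit false
open Cfsg

namespace Cfsg.Agent.S0600

/-- A normal elementary abelian p-subgroup generated by the fixed points of the Sylow p-subgroups admits no nontrivial normal p-subgroup of G modulo its centralizer. -/
theorem result {G : Type*} [Group G] [Finite G] {p : ℕ} [Fact p.Prime] (V : Subgroup G) [V.Normal] (hV : Cfsg.IsElementaryAbelian p V) (hgen : V = ⨆ S : Sylow p G, V ⊓ Subgroup.centralizer ((S : Subgroup G) : Set G)) : Cfsg.pCore p (G ⧸ Subgroup.centralizer (V : Set G)) = ⊥ := by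
  rw [eq_bot_iff]
  intro q hq
  obtain ⟨d, rfl⟩ := QuotientGroup.mk_surjective q
  rw [Subgroup.mem_bot, QuotientGroup.eq_one_iff]
  have key : V ≤ Subgroup.centralizer ((Subgroup.zpowers d : Subgroup G) : Set G) := by
    rw [hgen]
    apply iSup_le
    intro S
    rw [Cfsg.H1.pCore_eq_iInf_sylow, Subgroup.mem_iInf] at hq
    have h1 := hq (S.mapSurjective (QuotientGroup.mk'_surjective (Subgroup.centralizer (V : Set G))))
    rw [Sylow.coe_mapSurjective] at h1
    obtain ⟨s, hs, hsd⟩ := h1
    have h2 : s⁻¹ * d ∈ Subgroup.centralizer (V : Set G) := QuotientGroup.eq.mp hsd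
    rw [Subgroup.le_centralizer_iff, Subgroup.zpowers_le, Subgroup.mem_centralizer_iff]
    intro w hw
    have h3 := Subgroup.mem_centralizer_iff.mp hw.2 s hs
    have h4 := Subgroup.mem_centralizer_iff.mp h2 w hw.1
    calc w * d = (w * s) * (s⁻¹ * d) := by group
      _ = s * (w * (s⁻¹ * d)) := by rw [← h3]; group
      _ = s * ((s⁻¹ * d) * w) := by rw [h4]
      _ = d * w := by group
  rw [Subgroup.le_centralizer_iff] at key
  exact key (Subgroup.mem_zpowers d)

end Cfsg.Agent.S0600
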