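import Cfsg.Statements.S0601
import Cfsg.Agent.Lib.Helper13.Omega
import Cfsg.Agent.S0600

set_option autoImplicit false
open Cfsg

namespace Cfsg.Agent.S0601

open Cfsg.Agent.Lib.Helper13

/-- When O_p(G) contains its centralizer, the normal closure of Ω₁(Z(S)) is elementary abelian and G has no nontrivial normal p-subgroup modulo its centralizer. -/
theorem result {G : Type*} [Group G] [Finite G] {p : ℕ} [Fact p.Prime] (hc : Subgroup.centralizer (Cfsg.pCore p G : Set G) ≤ Cfsg.pCore p G) : (⨆ S : Sylow p G, Cfsg.omegaOne p (((S : Subgroup G)) ⊓ Subgroup.centralizer ((S : Subgroup G) : Set G))).Normal ∧ Cfsg.IsElementaryAbelian p (⨆ S : Sylow p G, Cfsg.omegaOne p (((S : Subgroup G)) ⊓ Subgroup.centralizer ((S : Subgroup G) : Set G))) ∧ ∀ D : Subgroup G, D.Normal → Subgroup.centralizer ((⨆ S : Sylow p G, Cfsg.omegaOne p (((S : Subgroup G)) ⊓ Subgroup.centralizer ((S : Subgroup G) : Set G)) : Subgroup G) : Set G) ≤ D → (∃ k : ℕ, (Subgroup.centralizer ((⨆ S : Sylow p G, Cfsg.omegaOne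 p (((S : Subgroup G)) ⊓ Subgroup.centralizer ((S : Subgroup G) : Set G)) : Subgroup G) : Set G)).relIndex D = p ^ k) → D = Subgroup.centralizer ((⨆ S : Sylow p G, Cfsg.omegaOne p (((S : Subgroup G)) ⊓ Subgroup.centralizer ((S : Subgroup G) : Set G)) : Subgroup G) : Set G) := by
  have hN := iSup_omega_normal (G := G) (p := p)
  have hle : ∀ S : Sylow p G, Cfsg.omegaOne p (((S : Subgroup G)) ⊓ Subgroup.centralizer ((S : Subgroup G) : Set G)) ≤
      ⨆ S : Sylow p G, Cfsg.omegaOne p (((S : Subgroup G)) ⊓ Subgroup.centralizer ((S : Subgroup G) : Set G)) :=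
    fun S => le_iSup (fun S : Sylow p G => Cfsg.omegaOne p (((S : Subgroup G)) ⊓ Subgroup.centralizer ((S : Subgroup G) : Set G))) S
  set V := ⨆ S : Sylow p G, Cfsg.omegaOne p (((S : Subgroup G)) ⊓ Subgroup.centralizer ((S : Subgroup G) : Set G)) with hVdef
  have hEA : IsElementaryAbelian p V := by
    apply IsEA.mono _ (isEA_omegaOne_center (p := p) (Cfsg.pCore p G))
    apply iSup_le
    intro S
    apply omegaOne_mono
    have hOS : Cfsg.pCore p G ≤ S := by
      rw [Cfsg.H1.pCore_eq_iInf_sylow]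
      exact iInf_le _ S
    intro x hx
    have h1 : x ∈ Subgroup.centralizer (Cfsg.pCore p G : Set G) := Subgroup.centralizer_le hOS hx.2
    exact ⟨hc h1, h1⟩
  refine ⟨hN, hEA, ?_⟩
  intro D hD hCD hk
  obtain ⟨k, hk⟩ := hk
  have hgen : V = ⨆ S : Sylow p G, V ⊓ Subgroup.centralizer ((S : Subgroup G) : Set G) := by
    apply le_antisymm
    · apply iSup_le
      intro S
      refine le_trans (le_inf (hle S) ?_) (le_iSup (fun S : Sylow p G => V ⊓ Subgroup.centralizer ((S : Subgroup G) : Set G)) S)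
      exact (omegaOne_le _).trans inf_le_right
    · exact iSup_le (fun S => inf_le_left)
  have h0 := Cfsg.Agent.S0600.result V hEA hgen
  have h1 : (D.map (QuotientGroup.mk' (Subgroup.centralizer (V : Set G)))).Normal :=
    hD.map _ (QuotientGroup.mk'_surjective _)
  have h2 : IsPGroup p (D.map (QuotientGroup.mk' (Subgroup.centralizer (V : Set G)))) := by
    apply IsPGroup.of_card (n := k)
    rw [← Subgroup.relIndex_ker, QuotientGroup.ker_mk']
    exact hk
  have h3 := Cfsg.H1.le_pCore h1 h2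
  rw [h0, le_bot_iff, Subgroup.map_eq_bot_iff, QuotientGroup.ker_mk'] at h3
  exact le_antisymm h3 hCD

end Cfsg.Agent.S0601
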