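import Cfsg.Statements.S0752
import Mathlib
-- import your own Cfsg.Agent.* helpers here

set_option autoImplicit false
open Cfsg

namespace Cfsg.Agent.S0752

universe u v

theorem alt_swap {F : Type*} {V : Type*} [Field F] [AddCommGroup V] [Module F V]
    (B : LinearMap.BilinForm F V) (hA : B.IsAlt) (u v : V) : B u v = - B v u := by
  have := LinearMap.IsAlt.neg hA v u
  rw [← this]

theorem exists_symp_family {F : Type v} [Field F] : ∀ (n : ℕ) (U : Type u) [AddCommGroup U] [Module F U]
    [FiniteDimensional F U] (B : LinearMap.BilinForm F U), B.IsAlt → (∀ x, (∀ y, B x y = 0) → x = 0) →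
    Module.finrank F U = n → ∃ (m : ℕ) (e f : Fin m → U), 2 * m = n ∧
      (∀ i j, B (e i) (f j) = if i = j then 1 else 0) ∧ (∀ i j, B (e i) (e j) = 0) ∧
      (∀ i j, B (f i) (f j) = 0) := by
  intro n
  induction n using Nat.strong_induction_on with
  | _ n ih =>
    intro U _ _ _ B hA hsep hn
    rcases Nat.eq_zero_or_pos n with rfl | hpos
    · exact ⟨0, Fin.elim0, Fin.elim0, rfl, fun i => i.elim0, fun i => i.elim0, fun i => i.elim0⟩
    have : Nontrivial U := Module.nontrivial_of_finrank_pos (R := F) (by omega)
    obtain ⟨u, hu⟩ := exists_ne (0 : U)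
    have : ∃ v₀, B u v₀ ≠ 0 := by
      by_contra hcon
      push Not at hcon
      exact hu (hsep u hcon)
    obtain ⟨v₀, hv₀⟩ := this
    set v := (B u v₀)⁻¹ • v₀ with hv
    have huv : B u v = 1 := by rw [hv, map_smul, smul_eq_mul, inv_mul_cancel₀ hv₀]
    have hvu : B v u = -1 := by rw [alt_swap B hA, huv]
    set φ : U →ₗ[F] F × F := (B u).prod (B v) with hφ
    set W := LinearMap.ker φ with hW
    have hWmem : ∀ x, x ∈ W ↔ B u x = 0 ∧ B v x = 0 := by
      intro x
      simp [hW, hφ, LinearMap.mem_ker, Prod.ext_iff]
    have hsurj : LinearMap.range φ = ⊤ := by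
      rw [LinearMap.range_eq_top]
      rintro ⟨a, b⟩
      refine ⟨a • v - b • u, ?_⟩
      simp [hφ, huv, hvu, hA u, hA v]
    have hdim : Module.finrank F W + 2 = n := by
      have h1 : Module.finrank F (LinearMap.range φ) + Module.finrank F W = Module.finrank F U :=
        LinearMap.finrank_range_add_finrank_ker φ
      rw [hsurj, finrank_top, Module.finrank_prod, Module.finrank_self, hn] at h1
      omega
    have hsepW : ∀ x : W, (∀ y : W, B.restrict W x y = 0) → x = 0 := by
      intro x hx
      apply Subtype.ext
      apply hsep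
      intro y
      have hxW := (hWmem x).mp x.2
      set y' := y + (B v y) • u - (B u y) • v with hy'
      have hy'W : y' ∈ W := by
        rw [hWmem]
        constructor
        · simp [hy', hA u, huv]
        · simp [hy', hA v, hvu]
      have h1 := hx ⟨y', hy'W⟩
      simp only [LinearMap.BilinForm.restrict_apply, LinearMap.domRestrict_apply] at h1
      rw [hy'] at h1
      simp only [map_add, map_sub, map_smul, smul_eq_mul] at h1
      rw [alt_swap B hA (x : U) u, alt_swap B hA (x : U) v, hxW.1, hxW.2] at h1
      simpa using h1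
    obtain ⟨m', e', f', hm', hef, hee, hff⟩ := ih (n - 2) (by omega) W (B.restrict W) (fun x => hA x) hsepW (by omega)
    refine ⟨m' + 1, Fin.cons u (fun i => (e' i : U)), Fin.cons v (fun i => (f' i : U)), by omega, ?_, ?_, ?_⟩
    · intro i j
      refine Fin.cases ?_ (fun i => ?_) i <;> refine Fin.cases ?_ (fun j => ?_) j
      · simp [huv]
      · simp only [Fin.cons_zero, Fin.cons_succ]
        rw [((hWmem _).mp (f' j).2).1]
        simp [Fin.succ_ne_zero, eq_comm]
      · simp only [Fin.cons_zero, Fin.cons_succ]
        rw [alt_swap B hA, ((hWmem _).mp (e' i).2).2]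
        simp [Fin.succ_ne_zero]
      · simp only [Fin.cons_succ, Fin.succ_inj]
        exact hef i j
    · intro i j
      refine Fin.cases ?_ (fun i => ?_) i <;> refine Fin.cases ?_ (fun j => ?_) j
      · simp [hA u]
      · simp only [Fin.cons_zero, Fin.cons_succ]
        exact ((hWmem _).mp (e' j).2).1
      · simp only [Fin.cons_zero, Fin.cons_succ]
        rw [alt_swap B hA, ((hWmem _).mp (e' i).2).1, neg_zero]
      · simp only [Fin.cons_succ]
        exact hee i j
    · intro i j
      refine Fin.cases ?_ (fun i => ?_) i <;> refine Fin.cases ?_ (fun j => ?_) j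
      · simp [hA v]
      · simp only [Fin.cons_zero, Fin.cons_succ]
        exact ((hWmem _).mp (f' j).2).2
      · simp only [Fin.cons_zero, Fin.cons_succ]
        rw [alt_swap B hA, ((hWmem _).mp (f' i).2).2, neg_zero]
      · simp only [Fin.cons_succ]
        exact hff i j


/-- Classification of alternating forms: for an alternating bilinear form B on a finite-dimensional space over any field there is a basis indexed by (Fin m ⊕ Fin m) ⊕ Fin k such that B (e_i, f_j) = δ_ij, the e's are pairwise orthogonal, the f's are pairwise orthogonal, and the last k basis vectors are orthogonal to everything (they span the radical). -/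
theorem result {F V : Type*} [Field F] [AddCommGroup V] [Module F V] [FiniteDimensional F V] (B : LinearMap.BilinForm F V) (hA : B.IsAlt) : ∃ (m k : ℕ) (b : Module.Basis ((Fin m ⊕ Fin m) ⊕ Fin k) F V), (∀ i j : Fin m, B (b (Sum.inl (Sum.inl i))) (b (Sum.inl (Sum.inr j))) = if i = j then 1 else 0) ∧ (∀ i j : Fin m, B (b (Sum.inl (Sum.inl i))) (b (Sum.inl (Sum.inl j))) = 0) ∧ (∀ i j : Fin m, B (b (Sum.inl (Sum.inr i))) (b (Sum.inl (Sum.inr j))) = 0) ∧ (∀ (j : Fin k) (v : V), B (b (Sum.inr j)) v = 0) := by
  classical
  set R := LinearMap.ker B with hR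
  obtain ⟨U, hU⟩ := Submodule.exists_isCompl R
  have hRmem : ∀ r ∈ R, ∀ y, B r y = 0 := by
    intro r hr y
    have : B r = 0 := hr
    rw [this]; rfl
  have hsepU : ∀ x : U, (∀ y : U, B.restrict U x y = 0) → x = 0 := by
    intro x hx
    have hxR : (x : V) ∈ R := by
      rw [hR, LinearMap.mem_ker]
      ext y
      have hy : y ∈ R ⊔ U := by rw [hU.sup_eq_top]; trivial
      obtain ⟨r, hr, y', hy', rfl⟩ := Submodule.mem_sup.mp hy
      have h1 := hx ⟨y', hy'⟩
      simp only [LinearMap.BilinForm.restrict_apply, LinearMap.domRestrict_apply] at h1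
      rw [map_add, h1, alt_swap B hA, hRmem r hr]
      simp
    have : (x : V) ∈ R ⊓ U := ⟨hxR, x.2⟩
    rw [hU.inf_eq_bot] at this
    exact Subtype.ext this
  obtain ⟨m, e, f, hm, hef, hee, hff⟩ := exists_symp_family _ U (B.restrict U) (fun x => hA x) hsepU rfl
  set k := Module.finrank F R with hk
  let r := Module.finBasis F R
  let g : (Fin m ⊕ Fin m) ⊕ Fin k → V := Sum.elim (Sum.elim (fun i => (e i : V)) (fun i => (f i : V))) (fun j => (r j : V))
  have hef' : ∀ i j, B (e i : V) (f j : V) = if i = j then 1 else 0 := hef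
  have hee' : ∀ i j, B (e i : V) (e j : V) = 0 := hee
  have hff' : ∀ i j, B (f i : V) (f j : V) = 0 := hff
  have hr' : ∀ j y, B (r j : V) y = 0 := fun j y => hRmem _ (r j).2 y
  have hli : LinearIndependent F g := by
    rw [Fintype.linearIndependent_iff]
    intro c hc
    simp only [Fintype.sum_sum_type, g, Sum.elim_inl, Sum.elim_inr] at hc
    have h1 : ∀ j, c (Sum.inl (Sum.inl j)) = 0 := by
      intro j
      have := congrArg (fun z => B z (f j : V)) hc
      simp only [map_add, map_sum, map_smul, LinearMap.add_apply, LinearMap.sum_apply, LinearMap.smul_apply,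
        hef', hff', hr', smul_eq_mul, mul_zero, Finset.sum_const_zero, add_zero, LinearMap.zero_apply,
        mul_ite, mul_one, Finset.sum_ite_eq', Finset.mem_univ, if_true, map_zero] at this
      exact this
    have h2 : ∀ j, c (Sum.inl (Sum.inr j)) = 0 := by
      intro j
      have := congrArg (fun z => B (e j : V) z) hc
      simp only [map_add, map_sum, map_smul, hef', hee', smul_eq_mul, mul_zero, Finset.sum_const_zero, add_zero, zero_add,
        mul_ite, mul_one, Finset.sum_ite_eq, Finset.mem_univ, if_true] at this
      have h3 : ∀ x, B (e j : V) (r x : V) = 0 := fun x => by rw [alt_swap B hA, hr', neg_zero]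
      simpa [h3] using this
    have h3 : ∀ j, c (Sum.inr j) = 0 := by
      simp only [h1, h2, zero_smul, Finset.sum_const_zero, zero_add] at hc
      have h4 : ∑ j, c (Sum.inr j) • r j = 0 := by
        apply Subtype.ext
        simpa using hc
      exact Fintype.linearIndependent_iff.mp r.linearIndependent _ h4
    rintro ((i | i) | j)
    · exact h1 i
    · exact h2 i
    · exact h3 j
  have hcard : Fintype.card ((Fin m ⊕ Fin m) ⊕ Fin k) = Module.finrank F V := by
    have := Submodule.finrank_add_eq_of_isCompl hU
    simp only [Fintype.card_sum, Fintype.card_fin]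
    omega
  refine ⟨m, k, Module.Basis.mk hli (le_of_eq (hli.span_eq_top_of_card_eq_finrank' hcard).symm), ?_, ?_, ?_, ?_⟩
  · intro i j
    simp only [Module.Basis.coe_mk, g, Sum.elim_inl, Sum.elim_inr]
    exact hef' i j
  · intro i j
    simp only [Module.Basis.coe_mk, g, Sum.elim_inl, Sum.elim_inr]
    exact hee' i j
  · intro i j
    simp only [Module.Basis.coe_mk, g, Sum.elim_inl, Sum.elim_inr]
    exact hff' i j
  · intro j v
    simp only [Module.Basis.coe_mk, g, Sum.elim_inr]
    exact hr' j v

end Cfsg.Agent.S0752
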