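import Mathlib
import Cfsg.Agent.Lib.Helper18.SpTv2
import Cfsg.Agent.Lib.Helper15.Disc
import Cfsg.Statements.S0246
-- import your own Cfsg.Agent.* helpers here

set_option autoImplicit false
open Cfsg Cfsg.Agent.Lib.Helper18 Matrix Cfsg.Agent.H5Symp

namespace Cfsg.Agent.S0246

theorem central_scalar {F : Type*} [Field F] {m : ℕ} (g : symplecticGroup (Fin m) F)
    (hg : g ∈ Subgroup.center (symplecticGroup (Fin m) F)) :
    ∃ a : F, ∀ x, (g : Matrix (Fin m ⊕ Fin m) (Fin m ⊕ Fin m) F) *ᵥ x = a • x := by
  have key := LinearMap.exists_eq_smul_id_of_forall_notLinearIndependent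
    (f := (g : Matrix (Fin m ⊕ Fin m) (Fin m ⊕ Fin m) F).mulVecLin) (fun v => by
      rw [LinearIndependent.pair_iff]
      intro hli
      by_cases hv : v = 0
      · have := hli 1 0 (by rw [hv]; simp)
        exact one_ne_zero this.1
      · have h1 : tv ((g : Matrix (Fin m ⊕ Fin m) (Fin m ⊕ Fin m) F) *ᵥ v) (1 : F) = tv v 1 := by
          rw [← sp_conj_tv, mul_inv_eq_iff_eq_mul]
          exact (Subgroup.mem_center_iff.1 hg (tv v 1)).symm
        obtain ⟨z, _, hz⟩ := nondeg_top v trivial hv
        have hz' : sympForm m F z v ≠ 0 := by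
          rw [form_swap]
          exact neg_ne_zero.2 hz
        have h2 := congrArg (fun t : symplecticGroup (Fin m) F =>
          (t : Matrix (Fin m ⊕ Fin m) (Fin m ⊕ Fin m) F) *ᵥ z) h1
        simp only [tv_coe_mulVec, one_mul] at h2
        have h3 := add_left_cancel h2
        have := hli (sympForm m F z v) (-sympForm m F z
          ((g : Matrix (Fin m ⊕ Fin m) (Fin m ⊕ Fin m) F) *ᵥ v)) (by
            rw [Matrix.mulVecLin_apply, neg_smul, h3, add_neg_cancel])
        exact hz' this.1)
  obtain ⟨a, ha⟩ := key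
  refine ⟨a, fun x => ?_⟩
  have := congrArg (fun f : (Fin m ⊕ Fin m → F) →ₗ[F] (Fin m ⊕ Fin m → F) => f x) ha
  simpa using this

/-- `-1` as an element of the symplectic group -/
def spNegOne (F : Type*) [Field F] (m : ℕ) : symplecticGroup (Fin m) F :=
  ⟨-1, SymplecticGroup.neg_mem (one_mem _)⟩

theorem center_eq {F : Type*} [Field F] {m : ℕ} (hm : 1 ≤ m) :
    ((Subgroup.center (symplecticGroup (Fin m) F) : Subgroup _) : Set (symplecticGroup (Fin m) F))
      = {1, spNegOne F m} := by
  ext g
  simp only [SetLike.mem_coe, Set.mem_insert_iff, Set.mem_singleton_iff]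
  constructor
  · intro hg
    obtain ⟨a, ha⟩ := central_scalar g hg
    have h1 := sp_form g (Pi.single (Sum.inr ⟨0, hm⟩) 1) (Pi.single (Sum.inl ⟨0, hm⟩) 1)
    rw [ha, ha, form_smul_left, form_smul_right, form_single_inl] at h1
    simp only [Pi.single_eq_same, mul_one] at h1
    have h2 : (a - 1) * (a + 1) = 0 := by linear_combination h1
    rcases mul_eq_zero.1 h2 with h | h
    · left
      apply sp_ext
      intro x
      rw [ha, sub_eq_zero.1 h]
      simp
    · right
      apply sp_ext
      intro x
      rw [ha, eq_neg_of_add_eq_zero_left h]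
      simp [spNegOne, Matrix.neg_mulVec]
  · rintro (rfl | rfl)
    · exact Subgroup.one_mem _
    · rw [Subgroup.mem_center_iff]
      intro h
      apply Subtype.ext
      simp [spNegOne]

/-- The centre of Sp_{2m}(q), m at least 1, is {1, -1}: it has order gcd(2, q-1). -/
theorem result {F : Type*} [Field F] [Fintype F] {q : ℕ} (hF : Fintype.card F = q) (m : ℕ) (hm : 1 ≤ m) : Nat.card (Subgroup.center (Matrix.symplecticGroup (Fin m) F)) = Nat.gcd 2 (q - 1) := by
  classical
  rw [← SetLike.coe_sort_coe, Nat.card_coe_set_eq, center_eq hm]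
  rcases Nat.even_or_odd q with hq | hq
  · have h2 : (2 : F) = 0 := by
      have h3 : ringChar F = 2 := FiniteField.even_card_iff_char_two.2 (by
        rw [hF]
        exact Nat.even_iff.1 hq)
      have : CharP F 2 := by
        rw [← h3]
        exact ringChar.charP F
      exact CharTwo.two_eq_zero
    have h1 : spNegOne F m = 1 := by
      apply Subtype.ext
      show (-1 : Matrix (Fin m ⊕ Fin m) (Fin m ⊕ Fin m) F) = 1
      have : (-1 : F) = 1 := by linear_combination (-1 : F) * h2
      ext i j
      by_cases hij : i = j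
      · subst hij
        simp [this]
      · simp [hij]
    rw [h1, Set.pair_eq_singleton, Set.ncard_singleton]
    have hq0 : 0 < q := by
      rw [← hF]
      exact Fintype.card_pos
    obtain ⟨r, hr⟩ := hq
    have : q - 1 = 2 * (r - 1) + 1 := by omega
    rw [this]
    simp
  · have h2 := Cfsg.Agent.Lib.Helper15.two_ne_zero_of_odd hF hq
    have h1 : (1 : symplecticGroup (Fin m) F) ≠ spNegOne F m := by
      intro h
      have := congrFun (congrFun (congrArg Subtype.val h) (Sum.inl ⟨0, hm⟩)) (Sum.inl ⟨0, hm⟩)
      simp [spNegOne] at this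
      apply h2
      linear_combination this
    rw [Set.ncard_pair h1]
    obtain ⟨r, hr⟩ := hq
    have : q - 1 = 2 * r := by omega
    rw [this]
    simp

end Cfsg.Agent.S0246
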