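import Cfsg.Statements.S3031
import Cfsg.Agent.Lib.Helper16.HSub
import Cfsg.Agent.H1.FrobNPC

set_option autoImplicit false
open Cfsg

namespace Cfsg.Agent.S3031

/-- Let G be a finite group, p the smallest prime dividing |G| and P a Sylow p-subgroup. Suppose that P is cyclic, or that P has a subgroup D with 1 < |D| < |P| such that every subgroup E of P of order |D|, and also every subgroup E of P of order 4 when |D| = 2, satisfies g E g⁻¹ ∩ N_G(E) ≤ E for all g ∈ G (E is strongly closed in its normalizer with respect to G). Then G has a normal p-complement. -/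
theorem result {G : Type*} [Group G] [Finite G] {p : ℕ} [Fact p.Prime] (hdiv : p ∣ Nat.card G)
    (hmin : ∀ q : ℕ, q.Prime → q ∣ Nat.card G → p ≤ q) (P : Sylow p G)
    (h : IsCyclic ↥(P : Subgroup G) ∨ ∃ D : Subgroup G, D ≤ (P : Subgroup G) ∧ 1 < Nat.card D ∧ Nat.card D < Nat.card (P : Subgroup G) ∧
      ∀ E : Subgroup G, E ≤ (P : Subgroup G) → (Nat.card E = Nat.card D ∨ (Nat.card D = 2 ∧ Nat.card E = 4)) →
        ∀ g : G, E.map (MulAut.conj g).toMonoidHom ⊓ Subgroup.normalizer (E : Set G) ≤ E) :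
    Cfsg.HasNormalPComplement p G := by
  rcases h with hcyc | ⟨D, hDP, h1, h2, hH⟩
  · obtain ⟨N, hN, hc⟩ := (Cfsg.H1.frobenius_npc P).2 (by
      intro Q hQ g hg hco
      have : IsCyclic Q :=
        isCyclic_of_injective (Subgroup.inclusion hQ) (Subgroup.inclusion_injective hQ)
      exact Cfsg.Agent.Lib.Helper16.mem_centralizer_of_isCyclic (P.2.to_le hQ) this hg
        (Cfsg.Agent.Lib.Helper16.bigOrd_of_coprime hmin hco))
    exact ⟨P, N, hN, hc⟩
  · obtain ⟨d, hd⟩ := IsPGroup.iff_card.1 (P.2.to_le hDP)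
    have hd0 : d ≠ 0 := by
      rintro rfl
      rw [hd] at h1
      simp at h1
    rw [hd] at h2
    apply Cfsg.Agent.Lib.Helper16.hasNormalPComplement_of_hsub hmin P hd0 h2
    intro E hE hcard
    rw [← hd] at hcard
    exact hH E hE hcard

end Cfsg.Agent.S3031
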