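import Mathlib
import Cfsg.Statements.S2578
import Cfsg.Agent.Lib.Helper18.SLCard
-- import your own Cfsg.Agent.* helpers here

set_option autoImplicit false
open Cfsg

namespace Cfsg.Agent.S2578

section lin
variable {F : Type*} [Field F] {V : Type*} [AddCommGroup V] [Module F V] [FiniteDimensional F V]

theorem det_add_nilpotent (S : Module.End F V) (hS : IsNilpotent S) (a : F) :
    LinearMap.det (algebraMap F (Module.End F V) a + S) = a ^ Module.finrank F V := by
  have h1 : IsNilpotent (-S) := hS.neg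
  have h2 := LinearMap.eval_charpoly (-S) a
  rw [IsNilpotent.charpoly_eq_X_pow_finrank h1, sub_neg_eq_add] at h2
  simpa using h2.symm

theorem finrank_ker_pow_le (N : Module.End F V) (h1 : Module.finrank F (LinearMap.ker N) = 1) (k : ℕ) :
    Module.finrank F (LinearMap.ker (N ^ k)) ≤ k := by
  induction k with
  | zero =>
    rw [pow_zero]
    have : LinearMap.ker (1 : Module.End F V) = ⊥ := LinearMap.ker_id
    rw [this, finrank_bot]
  | succ k ih =>
    have hr := LinearMap.finrank_range_add_finrank_ker (N.domRestrict (LinearMap.ker (N ^ (k + 1))))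
    have h2 : LinearMap.range (N.domRestrict (LinearMap.ker (N ^ (k + 1)))) ≤ LinearMap.ker (N ^ k) := by
      rintro _ ⟨w, rfl⟩
      have h3 : (N ^ (k + 1)) w.1 = 0 := w.2
      rw [LinearMap.mem_ker]
      show (N ^ k) (N w.1) = 0
      rw [← Module.End.mul_apply, ← pow_succ]
      exact h3
    have h3 : Module.finrank F (LinearMap.ker (N.domRestrict (LinearMap.ker (N ^ (k + 1))))) ≤
        Module.finrank F (LinearMap.ker N) := by
      let j : LinearMap.ker (N.domRestrict (LinearMap.ker (N ^ (k + 1)))) →ₗ[F] LinearMap.ker N :=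
        LinearMap.codRestrict _ ((LinearMap.ker (N ^ (k + 1))).subtype ∘ₗ
          (LinearMap.ker (N.domRestrict (LinearMap.ker (N ^ (k + 1))))).subtype) (fun x => x.2)
      apply LinearMap.finrank_le_finrank_of_injective (f := j)
      intro x y hxy
      have h4 : (x.1.1 : V) = y.1.1 := congrArg (fun z : LinearMap.ker N => (z : V)) hxy
      exact Subtype.ext (Subtype.ext h4)
    have h4 := Submodule.finrank_mono h2
    omega

omit [FiniteDimensional F V] in
theorem linInd (N : Module.End F V) (n : ℕ) (hn : N ^ n = 0) (v : V) (hv : (N ^ (n - 1)) v ≠ 0) :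
    LinearIndependent F (fun i : Fin n => (N ^ (i : ℕ)) v) := by
  rw [Fintype.linearIndependent_iff]
  intro g hg
  have key : ∀ k : ℕ, ∀ i : Fin n, (i : ℕ) = k → g i = 0 := by
    intro k
    induction k using Nat.strong_induction_on with
    | _ k ih =>
      intro i hi
      have hin := i.2
      have h1 := congrArg (N ^ (n - 1 - k)) hg
      rw [map_sum, map_zero] at h1
      rw [Finset.sum_eq_single i] at h1
      · rw [map_smul, ← Module.End.mul_apply, ← pow_add, hi, show n - 1 - k + k = n - 1 by omega] at h1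
        exact (smul_eq_zero.1 h1).resolve_right hv
      · intro j _ hj
        have hjn := j.2
        rcases lt_or_gt_of_ne (fun h : (j : ℕ) = k => hj (Fin.ext (h.trans hi.symm))) with h | h
        · rw [ih j h j rfl, zero_smul, map_zero]
        · rw [map_smul, ← Module.End.mul_apply, ← pow_add,
            show n - 1 - k + (j : ℕ) = n + ((j : ℕ) - k - 1) by omega, pow_add, hn, zero_mul]
          simp
      · intro h; exact absurd (Finset.mem_univ i) h
  exact fun i => key i i rfl

theorem exists_cyclic (n : ℕ) (hn1 : 1 ≤ n) (M : Module.End F V)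
    (hW : Module.finrank F V = n) (hM : Module.finrank F (LinearMap.ker M) = 1) :
    ∃ v, (M ^ (n - 1)) v ≠ 0 := by
  by_contra hcon
  push Not at hcon
  have h2 : LinearMap.ker (M ^ (n - 1)) = ⊤ := by
    rw [eq_top_iff]
    intro x _
    exact hcon x
  have h3 := finrank_ker_pow_le M hM (n - 1)
  rw [h2, finrank_top, hW] at h3
  omega

/-- two regular nilpotent endomorphisms are conjugate -/
theorem regular_conj {V' : Type*} [AddCommGroup V'] [Module F V'] [FiniteDimensional F V']
    (n : ℕ) (hn1 : 1 ≤ n) (hV : Module.finrank F V = n) (hV' : Module.finrank F V' = n)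
    (N : Module.End F V) (N' : Module.End F V') (hn : N ^ n = 0) (hn' : N' ^ n = 0)
    (h1 : Module.finrank F (LinearMap.ker N) = 1) (h1' : Module.finrank F (LinearMap.ker N') = 1) :
    ∃ e : V ≃ₗ[F] V', ∀ x, e (N x) = N' (e x) := by
  classical
  haveI : Nonempty (Fin n) := ⟨⟨0, hn1⟩⟩
  obtain ⟨v, hv⟩ := exists_cyclic n hn1 N hV h1
  obtain ⟨v', hv'⟩ := exists_cyclic n hn1 N' hV' h1'
  let b := basisOfLinearIndependentOfCardEqFinrank (linInd N n hn v hv) (by rw [hV]; simp)
  let b' := basisOfLinearIndependentOfCardEqFinrank (linInd N' n hn' v' hv') (by rw [hV']; simp)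
  have hb : ∀ i, b i = (N ^ (i : ℕ)) v := fun i => by
    simp only [b, coe_basisOfLinearIndependentOfCardEqFinrank]
  have hb' : ∀ i, b' i = (N' ^ (i : ℕ)) v' := fun i => by
    simp only [b', coe_basisOfLinearIndependentOfCardEqFinrank]
  refine ⟨b.equiv b' (Equiv.refl _), ?_⟩
  have h2 : (b.equiv b' (Equiv.refl _)).toLinearMap ∘ₗ N = N' ∘ₗ (b.equiv b' (Equiv.refl _)).toLinearMap := by
    apply b.ext
    intro i
    simp only [LinearMap.comp_apply, LinearEquiv.coe_coe, Module.Basis.equiv_apply, Equiv.refl_apply]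
    rw [hb', ← Module.End.mul_apply, ← pow_succ', hb, ← Module.End.mul_apply, ← pow_succ']
    by_cases hi : (i : ℕ) + 1 < n
    · have h3 : (N ^ ((i : ℕ) + 1)) v = b ⟨(i : ℕ) + 1, hi⟩ := (hb ⟨(i : ℕ) + 1, hi⟩).symm
      rw [h3, Module.Basis.equiv_apply, Equiv.refl_apply, hb']
    · have h3 : (i : ℕ) + 1 = n := by have := i.2; omega
      rw [h3, hn, hn']
      simp
  intro x
  exact congrArg (fun f : V →ₗ[F] V' => f x) h2

theorem comm_det (n : ℕ) (hV : Module.finrank F V = n) (N g : Module.End F V) (hn : N ^ n = 0)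
    (h1 : Module.finrank F (LinearMap.ker N) = 1) (hc : ∀ x, g (N x) = N (g x)) :
    ∃ a : F, LinearMap.det g = a ^ n := by
  obtain ⟨w, hw0, hw⟩ := finrank_eq_one_iff'.1 h1
  have hgw : g w.1 ∈ LinearMap.ker N := by
    rw [LinearMap.mem_ker, ← hc]
    have := w.2
    rw [LinearMap.mem_ker] at this
    rw [this, map_zero]
  obtain ⟨a, ha⟩ := hw ⟨g w.1, hgw⟩
  have ha' : a • w.1 = g w.1 := congrArg Subtype.val ha
  have hker : ∀ x, N x = 0 → g x = a • x := by
    intro x hx
    obtain ⟨c, hc1⟩ := hw ⟨x, hx⟩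
    have hc2 : c • w.1 = x := congrArg Subtype.val hc1
    rw [← hc2, map_smul, ← ha', smul_comm]
  refine ⟨a, ?_⟩
  obtain ⟨S, hS⟩ : ∃ S : Module.End F V, S = g - algebraMap F (Module.End F V) a := ⟨_, rfl⟩
  have hSx : ∀ x, S x = g x - a • x := by
    intro x
    rw [hS, LinearMap.sub_apply, Module.algebraMap_end_apply]
  have hSN : ∀ x, S (N x) = N (S x) := by
    intro x
    rw [hSx, hSx, map_sub, map_smul, hc]
  have hSNk : ∀ k x, S ((N ^ k) x) = (N ^ k) (S x) := by
    intro k
    induction k with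
    | zero => intro x; simp
    | succ k ih =>
      intro x
      rw [pow_succ, Module.End.mul_apply, ih, hSN, Module.End.mul_apply]
  have key : ∀ k x, (N ^ k) x = 0 → (S ^ k) x = 0 := by
    intro k
    induction k with
    | zero => intro x hx; simpa using hx
    | succ k ih =>
      intro x hx
      rw [pow_succ', Module.End.mul_apply] at hx
      have h2 : S ((N ^ k) x) = 0 := by
        rw [hSx, hker _ hx, sub_self]
      rw [hSNk] at h2
      rw [pow_succ, Module.End.mul_apply]
      exact ih _ h2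
  have hSn : S ^ n = 0 := by
    apply LinearMap.ext
    intro x
    exact key n x (by rw [hn]; rfl)
  have hg : g = algebraMap F (Module.End F V) a + S := by rw [hS]; abel
  rw [hg, det_add_nilpotent S ⟨n, hSn⟩, hV]

end lin


section mat
variable {F : Type*} [Field F] {n : ℕ}

/-- the standard nilpotent Jordan block -/
def jb (F : Type*) [Field F] (n : ℕ) : Matrix (Fin n) (Fin n) F :=
  Matrix.of fun i j => if (j : ℕ) = (i : ℕ) + 1 then 1 else 0

theorem jb_mulVec (x : Fin n → F) (i : Fin n) :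
    (Matrix.mulVec (jb F n) x) i = if h : (i : ℕ) + 1 < n then x ⟨(i : ℕ) + 1, h⟩ else 0 := by
  classical
  simp only [Matrix.mulVec, dotProduct, jb, Matrix.of_apply]
  split_ifs with h
  · rw [Finset.sum_eq_single ⟨(i : ℕ) + 1, h⟩]
    · simp
    · intro j _ hj
      rw [if_neg, zero_mul]
      intro hj2; exact hj (Fin.ext hj2)
    · intro h2; exact absurd (Finset.mem_univ _) h2
  · apply Finset.sum_eq_zero
    intro j _
    rw [if_neg, zero_mul]
    intro hj; have := j.2; omega

theorem jb_pow_mulVec (k : ℕ) (x : Fin n → F) (i : Fin n) :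
    (Matrix.mulVec ((jb F n) ^ k) x) i = if h : (i : ℕ) + k < n then x ⟨(i : ℕ) + k, h⟩ else 0 := by
  induction k generalizing x with
  | zero =>
    rw [pow_zero, Matrix.one_mulVec, dif_pos (by simp)]
    rfl
  | succ k ih =>
    rw [pow_succ, ← Matrix.mulVec_mulVec, ih]
    by_cases h : (i : ℕ) + k < n
    · rw [dif_pos h, jb_mulVec]
      by_cases h2 : (i : ℕ) + k + 1 < n
      · rw [dif_pos h2, dif_pos (by omega)]
        rfl
      · rw [dif_neg h2, dif_neg (by omega)]
    · rw [dif_neg h, dif_neg (by omega)]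

theorem jb_pow : (jb F n) ^ n = 0 := by
  classical
  apply Matrix.toLin'.injective
  apply LinearMap.ext
  intro x
  funext i
  rw [Matrix.toLin'_apply, jb_pow_mulVec, dif_neg (by omega)]
  simp

theorem rank_iff (M : Matrix (Fin n) (Fin n) F) (hn : 1 ≤ n) :
    M.rank = n - 1 ↔
      Module.finrank F (LinearMap.ker (Matrix.toLinAlgEquiv' M : Module.End F (Fin n → F))) = 1 := by
  have h := LinearMap.finrank_range_add_finrank_ker M.mulVecLin
  rw [Module.finrank_fin_fun] at h
  have h2 : M.rank = Module.finrank F (LinearMap.range M.mulVecLin) := rfl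
  have h3 : (Matrix.toLinAlgEquiv' M : Module.End F (Fin n → F)) = M.mulVecLin := rfl
  rw [h2, h3]
  omega

theorem jb_rank (hn : 1 ≤ n) : (jb F n).rank = n - 1 := by
  classical
  rw [rank_iff _ hn, finrank_eq_one_iff']
  have hmem : ∀ x : Fin n → F, x ∈ LinearMap.ker (Matrix.toLinAlgEquiv' (jb F n) : Module.End F (Fin n → F)) ↔
      Matrix.mulVec (jb F n) x = 0 := by
    intro x
    rw [LinearMap.mem_ker]
    rfl
  have h0 : (Pi.single (⟨0, hn⟩ : Fin n) (1 : F) : Fin n → F) ∈
      LinearMap.ker (Matrix.toLinAlgEquiv' (jb F n) : Module.End F (Fin n → F)) := by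
    rw [hmem]
    funext i
    rw [jb_mulVec]
    split_ifs with h
    · rw [Pi.single_apply, if_neg]
      · rfl
      · intro h2
        have := congrArg Fin.val h2
        simp at this
    · rfl
  refine ⟨⟨_, h0⟩, ?_, ?_⟩
  · intro h
    have h1 := congrArg (fun z : LinearMap.ker (Matrix.toLinAlgEquiv' (jb F n) : Module.End F (Fin n → F)) =>
      (z : Fin n → F) ⟨0, hn⟩) h
    simp at h1
  · intro w
    refine ⟨w.1 ⟨0, hn⟩, ?_⟩
    apply Subtype.ext
    funext j
    show w.1 ⟨0, hn⟩ • (Pi.single (⟨0, hn⟩ : Fin n) (1 : F) : Fin n → F) j = w.1 j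
    have hw := (hmem w.1).1 w.2
    by_cases hj : (j : ℕ) = 0
    · have hj2 : j = ⟨0, hn⟩ := Fin.ext hj
      rw [hj2]
      simp
    · rw [Pi.single_apply, if_neg (fun h2 => hj (congrArg Fin.val h2)), smul_zero]
      have h1 := congrFun hw ⟨(j : ℕ) - 1, by have := j.2; omega⟩
      rw [jb_mulVec, dif_pos (by have := j.2; show (j : ℕ) - 1 + 1 < n; omega)] at h1
      have h2 : (⟨(j : ℕ) - 1 + 1, by have := j.2; omega⟩ : Fin n) = j := Fin.ext (by show (j : ℕ) - 1 + 1 = j; omega)
      rw [← h2]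
      exact h1.symm

end mat

/-- Regular unipotent classes of SL_n(q): for n ≥ 2 over the field with q elements, the matrices u of determinant one with (u − 1)^n = 0 and rank(u − 1) = n − 1 form a single GL_n(q)-class which splits into exactly gcd(n, q − 1) conjugacy classes of SL_n(q). -/
theorem result {F : Type*} [Field F] [Fintype F] {q : ℕ} (hF : Fintype.card F = q) {n : ℕ} (hn : 2 ≤ n) : Nat.card {C : ConjClasses (Matrix.SpecialLinearGroup (Fin n) F) // ∃ u : Matrix.SpecialLinearGroup (Fin n) F, ConjClasses.mk u = C ∧ ((u : Matrix (Fin n) (Fin n) F) - 1) ^ n = 0 ∧ ((u : Matrix (Fin n) (Fin n) F) - 1).rank = n - 1} = Nat.gcd n (q - 1) := by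
  classical
  have hn1 : 1 ≤ n := by omega
  haveI : Nonempty (Fin n) := ⟨⟨0, by omega⟩⟩
  have hfr : Module.finrank F (Fin n → F) = n := by simp
  -- conjugation invariance of regularity
  have hRegConj : ∀ (g : GL (Fin n) F) (M : Matrix (Fin n) (Fin n) F),
      ((M - 1) ^ n = 0 ∧ (M - 1).rank = n - 1) →
      ((g.val * M * g⁻¹.val - 1) ^ n = 0 ∧ (g.val * M * g⁻¹.val - 1).rank = n - 1) := by
    intro g M hM
    have h1 : g.val * M * g⁻¹.val - 1 = g.val * (M - 1) * g⁻¹.val := by
      rw [mul_sub, sub_mul, mul_one, Units.mul_inv]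
    have hu : ∀ k : GL (Fin n) F, IsUnit (k.val).det := fun k =>
      (Matrix.isUnit_iff_isUnit_det _).1 k.isUnit
    rw [h1]
    constructor
    · rw [Units.conj_pow, hM.1, mul_zero, zero_mul]
    · rw [Matrix.rank_mul_eq_left_of_isUnit_det _ _ (hu _),
        Matrix.rank_mul_eq_right_of_isUnit_det _ _ (hu _), hM.2]
  -- the base point
  have hJnil : IsNilpotent (Matrix.toLinAlgEquiv' (jb F n) : Module.End F (Fin n → F)) :=
    ⟨n, by rw [← map_pow, jb_pow, map_zero]⟩
  have hdet0 : (1 + jb F n).det = 1 := by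
    have h1 := det_add_nilpotent _ hJnil 1
    rw [map_one, one_pow, ← map_one (Matrix.toLinAlgEquiv' : Matrix (Fin n) (Fin n) F ≃ₐ[F] _),
      ← map_add] at h1
    rw [← LinearMap.det_toLin']
    exact h1
  have hReg0 : ((1 + jb F n - 1) ^ n = 0 ∧ (1 + jb F n - 1 : Matrix (Fin n) (Fin n) F).rank = n - 1) := by
    rw [add_sub_cancel_left]
    exact ⟨jb_pow, jb_rank hn1⟩
  obtain ⟨u₀, hu₀⟩ : ∃ u₀ : Matrix.SpecialLinearGroup (Fin n) F,
      (u₀ : Matrix (Fin n) (Fin n) F) = 1 + jb F n := ⟨⟨_, hdet0⟩, rfl⟩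
  rw [← hu₀] at hReg0
  obtain ⟨U₀, hU₀⟩ : ∃ U₀ : GL (Fin n) F, U₀ = Matrix.SpecialLinearGroup.toGL u₀ := ⟨_, rfl⟩
  have hU₀v : U₀.val = (u₀ : Matrix (Fin n) (Fin n) F) := by rw [hU₀]; rfl
  -- transitivity of GL
  have key1 : ∀ u : Matrix.SpecialLinearGroup (Fin n) F,
      (((u : Matrix (Fin n) (Fin n) F) - 1) ^ n = 0 ∧ ((u : Matrix (Fin n) (Fin n) F) - 1).rank = n - 1) →
      ∃ g : GL (Fin n) F, g * U₀ * g⁻¹ = Matrix.SpecialLinearGroup.toGL u := by
    intro u hu
    obtain ⟨e, he⟩ := regular_conj n hn1 hfr hfr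
      (Matrix.toLinAlgEquiv' ((u₀ : Matrix (Fin n) (Fin n) F) - 1))
      (Matrix.toLinAlgEquiv' ((u : Matrix (Fin n) (Fin n) F) - 1))
      (by rw [← map_pow, hReg0.1, map_zero]) (by rw [← map_pow, hu.1, map_zero])
      ((rank_iff _ hn1).1 hReg0.2) ((rank_iff _ hn1).1 hu.2)
    let E : GL (Fin n) F :=
      ⟨LinearMap.toMatrix' (e : (Fin n → F) →ₗ[F] (Fin n → F)),
        LinearMap.toMatrix' (e.symm : (Fin n → F) →ₗ[F] (Fin n → F)),
        by rw [← LinearMap.toMatrix'_comp]; simp, by rw [← LinearMap.toMatrix'_comp]; simp⟩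
    have hE : (E : Matrix (Fin n) (Fin n) F) * ((u₀ : Matrix (Fin n) (Fin n) F) - 1) =
        ((u : Matrix (Fin n) (Fin n) F) - 1) * (E : Matrix (Fin n) (Fin n) F) := by
      apply Matrix.toLin'.injective
      rw [Matrix.toLin'_mul, Matrix.toLin'_mul]
      show Matrix.toLin' (LinearMap.toMatrix' (e : (Fin n → F) →ₗ[F] (Fin n → F))) ∘ₗ _ =
        _ ∘ₗ Matrix.toLin' (LinearMap.toMatrix' (e : (Fin n → F) →ₗ[F] (Fin n → F)))
      rw [Matrix.toLin'_toMatrix']
      apply LinearMap.ext
      intro v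
      exact he v
    refine ⟨E, ?_⟩
    rw [mul_inv_eq_iff_eq_mul]
    apply Units.ext
    rw [Units.val_mul, Units.val_mul, hU₀v]
    show (E : Matrix (Fin n) (Fin n) F) * (u₀ : Matrix (Fin n) (Fin n) F) =
      (u : Matrix (Fin n) (Fin n) F) * (E : Matrix (Fin n) (Fin n) F)
    rw [mul_sub, sub_mul, mul_one, one_mul] at hE
    exact sub_left_injective hE
  -- determinants of the centraliser
  have key2 : ∀ k : GL (Fin n) F, k * U₀ = U₀ * k →
      Matrix.GeneralLinearGroup.det k ∈ (powMonoidHom n : Fˣ →* Fˣ).range := by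
    intro k hk
    have hk1 : k.val * (u₀ : Matrix (Fin n) (Fin n) F) = (u₀ : Matrix (Fin n) (Fin n) F) * k.val := by
      have := congrArg Units.val hk
      rw [Units.val_mul, Units.val_mul, hU₀v] at this
      exact this
    have hk2 : k.val * ((u₀ : Matrix (Fin n) (Fin n) F) - 1) =
        ((u₀ : Matrix (Fin n) (Fin n) F) - 1) * k.val := by
      rw [mul_sub, sub_mul, hk1, mul_one, one_mul]
    obtain ⟨a, ha⟩ := comm_det n hfr (Matrix.toLinAlgEquiv' ((u₀ : Matrix (Fin n) (Fin n) F) - 1))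
      (Matrix.toLinAlgEquiv' k.val) (by rw [← map_pow, hReg0.1, map_zero])
      ((rank_iff _ hn1).1 hReg0.2) (by
        intro x
        have h1 : Matrix.toLinAlgEquiv' k.val * Matrix.toLinAlgEquiv' ((u₀ : Matrix (Fin n) (Fin n) F) - 1) =
            Matrix.toLinAlgEquiv' ((u₀ : Matrix (Fin n) (Fin n) F) - 1) * Matrix.toLinAlgEquiv' k.val := by
          rw [← map_mul, ← map_mul, hk2]
        exact congrArg (fun f : Module.End F (Fin n → F) => f x) h1)
    have ha2 : (k.val).det = a ^ n := by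
      rw [← LinearMap.det_toLin']
      exact ha
    have ha0 : a ≠ 0 := by
      intro h0
      rw [h0, zero_pow (by omega)] at ha2
      have := (Matrix.isUnit_iff_isUnit_det _).1 k.isUnit
      rw [ha2] at this
      exact not_isUnit_zero this
    refine ⟨Units.mk0 a ha0, ?_⟩
    apply Units.ext
    rw [powMonoidHom_apply, Units.val_pow_eq_pow_val, Units.val_mk0, Matrix.GeneralLinearGroup.val_det_apply,
      ha2]
  have hdetSL : ∀ s : Matrix.SpecialLinearGroup (Fin n) F,
      Matrix.GeneralLinearGroup.det (Matrix.SpecialLinearGroup.toGL s) = 1 := by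
    intro s
    apply Units.ext
    rw [Matrix.GeneralLinearGroup.val_det_apply]
    exact s.2
  have hmkSL : ∀ g : GL (Fin n) F, Matrix.GeneralLinearGroup.det g = 1 →
      ∃ s : Matrix.SpecialLinearGroup (Fin n) F, Matrix.SpecialLinearGroup.toGL s = g := by
    intro g hg
    have h1 : (g.val).det = 1 := by
      have := congrArg Units.val hg
      rwa [Matrix.GeneralLinearGroup.val_det_apply] at this
    exact ⟨⟨g.val, h1⟩, Units.ext rfl⟩
  have hdsurj := Cfsg.Agent.Lib.Helper18.GL_det_surjective (n := Fin n) (F := F)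
  choose d hd using hdsurj
  have hθex : ∀ c : Fˣ, ∃ s : Matrix.SpecialLinearGroup (Fin n) F,
      Matrix.SpecialLinearGroup.toGL s = d c * U₀ * (d c)⁻¹ := by
    intro c
    apply hmkSL
    rw [map_mul, map_mul, map_inv, hU₀, hdetSL, mul_one, mul_inv_cancel]
  choose θ hθ using hθex
  have hθreg : ∀ c, (((θ c : Matrix (Fin n) (Fin n) F) - 1) ^ n = 0 ∧
      ((θ c : Matrix (Fin n) (Fin n) F) - 1).rank = n - 1) := by
    intro c
    have h1 : (θ c : Matrix (Fin n) (Fin n) F) = (d c).val * (u₀ : Matrix (Fin n) (Fin n) F) * (d c)⁻¹.val := by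
      have := congrArg Units.val (hθ c)
      rw [Units.val_mul, Units.val_mul, hU₀v] at this
      exact this
    rw [h1]
    exact hRegConj _ _ hReg0
  have hconjSL : ∀ (x y : Matrix.SpecialLinearGroup (Fin n) F) (g : GL (Fin n) F),
      Matrix.GeneralLinearGroup.det g = 1 →
      g * Matrix.SpecialLinearGroup.toGL x * g⁻¹ = Matrix.SpecialLinearGroup.toGL y → IsConj x y := by
    intro x y g hg hxy
    obtain ⟨s, hs⟩ := hmkSL g hg
    rw [isConj_iff]
    refine ⟨s, ?_⟩
    apply Matrix.SpecialLinearGroup.toGL_injective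
    rw [map_mul, map_mul, map_inv, hs, hxy]
  let Θ : Fˣ → {C : ConjClasses (Matrix.SpecialLinearGroup (Fin n) F) //
      ∃ u : Matrix.SpecialLinearGroup (Fin n) F, ConjClasses.mk u = C ∧
      ((u : Matrix (Fin n) (Fin n) F) - 1) ^ n = 0 ∧ ((u : Matrix (Fin n) (Fin n) F) - 1).rank = n - 1} :=
    fun c => ⟨ConjClasses.mk (θ c), θ c, rfl, hθreg c⟩
  have hΘ : ∀ c c' : Fˣ, Θ c = Θ c' ↔ c⁻¹ * c' ∈ (powMonoidHom n : Fˣ →* Fˣ).range := by
    intro c c'
    constructor
    · intro h
      have h1 : ConjClasses.mk (θ c) = ConjClasses.mk (θ c') := congrArg Subtype.val h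
      rw [ConjClasses.mk_eq_mk_iff_isConj, isConj_iff] at h1
      obtain ⟨s, hs⟩ := h1
      have h2 := congrArg Matrix.SpecialLinearGroup.toGL hs
      rw [map_mul, map_mul, map_inv, hθ, hθ] at h2
      have h3 : ((d c')⁻¹ * Matrix.SpecialLinearGroup.toGL s * d c) * U₀ *
          ((d c')⁻¹ * Matrix.SpecialLinearGroup.toGL s * d c)⁻¹ = U₀ := by
        calc ((d c')⁻¹ * Matrix.SpecialLinearGroup.toGL s * d c) * U₀ *
            ((d c')⁻¹ * Matrix.SpecialLinearGroup.toGL s * d c)⁻¹
            = (d c')⁻¹ * (Matrix.SpecialLinearGroup.toGL s * (d c * U₀ * (d c)⁻¹) *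
              (Matrix.SpecialLinearGroup.toGL s)⁻¹) * d c' := by group
          _ = (d c')⁻¹ * (d c' * U₀ * (d c')⁻¹) * d c' := by rw [h2]
          _ = U₀ := by group
      have h4 := key2 _ (mul_inv_eq_iff_eq_mul.1 h3)
      rw [map_mul, map_mul, map_inv, hdetSL, hd, hd, mul_one] at h4
      have h5 := Subgroup.inv_mem _ h4
      rwa [mul_inv_rev, inv_inv] at h5
    · rintro ⟨a, ha⟩
      rw [powMonoidHom_apply] at ha
      apply Subtype.ext
      show ConjClasses.mk (θ c) = ConjClasses.mk (θ c')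
      rw [ConjClasses.mk_eq_mk_iff_isConj]
      obtain ⟨z, hz⟩ : ∃ z : GL (Fin n) F, z = Units.map
          (algebraMap F (Matrix (Fin n) (Fin n) F)).toMonoidHom a := ⟨_, rfl⟩
      have hzc : ∀ g : GL (Fin n) F, z * g = g * z := by
        intro g
        apply Units.ext
        rw [Units.val_mul, Units.val_mul, hz]
        exact Algebra.commutes (a : F) g.val
      have hzdet : Matrix.GeneralLinearGroup.det z = a ^ n := by
        apply Units.ext
        rw [Matrix.GeneralLinearGroup.val_det_apply, hz]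
        show (algebraMap F (Matrix (Fin n) (Fin n) F) (a : F)).det = _
        rw [Algebra.algebraMap_eq_smul_one, Matrix.det_smul, Matrix.det_one, mul_one, Fintype.card_fin,
          Units.val_pow_eq_pow_val]
      apply hconjSL _ _ (d c' * z⁻¹ * (d c)⁻¹)
      · rw [map_mul, map_mul, map_inv, map_inv, hd, hd, hzdet, ha]
        group
      · rw [hθ, hθ]
        have h1 : z⁻¹ * U₀ * z = U₀ := by rw [mul_assoc, ← hzc, inv_mul_cancel_left]
        calc d c' * z⁻¹ * (d c)⁻¹ * (d c * U₀ * (d c)⁻¹) * (d c' * z⁻¹ * (d c)⁻¹)⁻¹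
            = d c' * (z⁻¹ * U₀ * z) * (d c')⁻¹ := by group
          _ = d c' * U₀ * (d c')⁻¹ := by rw [h1]
  have hΘsurj : Function.Surjective Θ := by
    rintro ⟨C, u, hu, hreg⟩
    obtain ⟨g, hg⟩ := key1 u hreg
    refine ⟨Matrix.GeneralLinearGroup.det g, ?_⟩
    apply Subtype.ext
    show ConjClasses.mk (θ _) = C
    rw [← hu, ConjClasses.mk_eq_mk_iff_isConj]
    apply hconjSL _ _ (g * (d (Matrix.GeneralLinearGroup.det g))⁻¹)
    · rw [map_mul, map_inv, hd, mul_inv_cancel]
    · rw [hθ, ← hg]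
      group
  let Ψ : Fˣ ⧸ (powMonoidHom n : Fˣ →* Fˣ).range → {C : ConjClasses (Matrix.SpecialLinearGroup (Fin n) F) //
      ∃ u : Matrix.SpecialLinearGroup (Fin n) F, ConjClasses.mk u = C ∧
      ((u : Matrix (Fin n) (Fin n) F) - 1) ^ n = 0 ∧ ((u : Matrix (Fin n) (Fin n) F) - 1).rank = n - 1} :=
    Quotient.lift Θ (fun a b hab => (hΘ a b).2 (QuotientGroup.leftRel_apply.1 hab))
  have hΨ : Function.Bijective Ψ := by
    constructor
    · intro x y
      induction x using QuotientGroup.induction_on with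
      | H a =>
        induction y using QuotientGroup.induction_on with
        | H b =>
          intro h
          have h1 : Θ a = Θ b := h
          exact QuotientGroup.eq.2 ((hΘ a b).1 h1)
    · intro X
      obtain ⟨c, hc⟩ := hΘsurj X
      exact ⟨QuotientGroup.mk c, hc⟩
  rw [← Nat.card_congr (Equiv.ofBijective Ψ hΨ)]
  have h1 := IsCyclic.index_powMonoidHom_range (G := Fˣ) n
  rw [Nat.card_eq_fintype_card, Fintype.card_units, hF, Nat.gcd_comm] at h1
  exact h1

end Cfsg.Agent.S2578
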