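import Cfsg.Statements.S0078
import Cfsg.Agent.Tr.Gruen
-- import your own Cfsg.Agent.* helpers here

set_option autoImplicit false
open Cfsg

open Cfsg.Agent.Tr Cfsg.Agent.H12

namespace Cfsg.Agent.S0078

/-- In a p-normal group, a Sylow p-subgroup P meets O^p(G) exactly where it meets O^p(V), for any subgroup V containing the normalizer of the centre of P. -/
theorem result {G : Type*} [Group G] [Finite G] {p : ℕ} [Fact p.Prime] (P : Sylow p G) (hn : ∀ Q : Sylow p G, (P : Subgroup G) ⊓ Subgroup.centralizer (P : Set G) ≤ (Q : Subgroup G) → (Q : Subgroup G) ⊓ Subgroup.centralizer (Q : Set G) = (P : Subgroup G) ⊓ Subgroup.centralizer (P : Set G)) (V : Subgroup G) (hV : Subgroup.normalizer (((P : Subgroup G) ⊓ Subgroup.centralizer (P : Set G) : Subgroup G) : Set G) ≤ V) : (P : Subgroup G) ⊓ Cfsg.pResidual p G = (P : Subgroup G) ⊓ (Cfsg.pResidual p V).map V.subtype := by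
  set Z := (P : Subgroup G) ⊓ Subgroup.centralizer ((P : Subgroup G) : Set G) with hZ
  have hPN : (P : Subgroup G) ≤ Subgroup.normalizer (Z : Set G) := by
    intro y hy
    rw [Subgroup.mem_normalizer_iff]
    intro z
    have hcomm : ∀ z ∈ Z, y * z * y⁻¹ = z := by
      intro z hz
      have := Subgroup.mem_centralizer_iff.mp hz.2 y hy
      rw [this]; group
    constructor
    · intro hz
      rw [hcomm z hz]; exact hz
    · intro hz
      have h1 : y⁻¹ * (y * z * y⁻¹) * y⁻¹⁻¹ = y * z * y⁻¹ := by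
        have := Subgroup.mem_centralizer_iff.mp hz.2 y⁻¹ (inv_mem hy)
        rw [this]; group
      have h2 : y⁻¹ * (y * z * y⁻¹) * y⁻¹⁻¹ = z := by group
      rw [← h2, h1]; exact hz
  have hwc : ∀ (w : G) (P₁ : Sylow p G), Z ≤ P₁ → Z.map (MulAut.conj w).toMonoidHom ≤ P₁ →
      Z.map (MulAut.conj w).toMonoidHom = Z := by
    intro w P₁ h1 h2
    have e1 : (P₁ : Subgroup G) ⊓ Subgroup.centralizer ((P₁ : Subgroup G) : Set G) = Z := hn P₁ h1
    have h3 : Z ≤ ((w⁻¹ • P₁ : Sylow p G) : Subgroup G) := by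
      have : ((w⁻¹ • P₁ : Sylow p G) : Subgroup G) = (P₁ : Subgroup G).map (MulAut.conj w⁻¹).toMonoidHom := rfl
      rw [this, ← map_conj_le_iff]; exact h2
    have e2 : cj (P₁ : Subgroup G) w ⊓ Subgroup.centralizer ((cj (P₁ : Subgroup G) w : Subgroup G) : Set G) = Z :=
      hn _ h3
    rw [centralizer_cj, ← cj_inf, e1] at e2
    -- `cj Z w = Z`
    have h4 : w ∈ Subgroup.normalizer (Z : Set G) := cj_eq_self_iff.mp e2
    exact Subgroup.mem_normalizer_iff_map_conj_eq.mp h4
  apply inf_pResidual_eq_of_control P V (hPN.trans hV)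
  intro Q hQ g hg
  obtain ⟨n, hn', e⟩ := control_of_weaklyClosed_central P Z inf_le_left inf_le_right hwc Q hQ g hg
  exact ⟨n, hV hn', e⟩

end Cfsg.Agent.S0078
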