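import Cfsg.Statements.S4252
import Cfsg.Agent.Lib.Helper22.Frobenius

set_option autoImplicit false
open Cfsg Cfsg.Agent.Lib.Helper22

namespace Cfsg.Agent.S4252

/-- Let a finite group G act on a finite set Ω with more than one point, transitively but not regularly, so that no non-identity element of G fixes two distinct points. Then the stabilizer H of any point is a Frobenius complement in G (nontrivial, proper, meeting its other conjugates trivially), and the Frobenius kernel of G with respect to H (the identity together with the elements lying in no conjugate of H) is exactly the set consisting of the identity and the elements fixing no point. -/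
theorem result {G Ω : Type*} [Group G] [Finite G] [Fintype Ω] [MulAction G Ω] (hΩ : 1 < Fintype.card Ω)
    (htrans : ∀ α β : Ω, ∃ g : G, g • α = β) (hnreg : ∃ g : G, g ≠ 1 ∧ ∃ α : Ω, g • α = α)
    (hfix : ∀ g : G, g ≠ 1 → ∀ α β : Ω, g • α = α → g • β = β → α = β) (α : Ω) :
    Cfsg.IsFrobeniusComplement (MulAction.stabilizer G α) ∧
      Cfsg.frobeniusKernel (MulAction.stabilizer G α) = {g : G | g = 1 ∨ ∀ ω : Ω, g • ω ≠ ω} := by
  constructor
  · rw [isFrobeniusComplement_iff]
    refine ⟨?_, ?_, ?_⟩
    · obtain ⟨g, hg, β, hβ⟩ := hnreg
      obtain ⟨k, hk⟩ := htrans α β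
      intro hbot
      have h1 : k⁻¹ * g * k ∈ MulAction.stabilizer G α := by
        rw [MulAction.mem_stabilizer_iff, mul_smul, mul_smul, hk, hβ, ← hk, inv_smul_smul]
      rw [hbot, Subgroup.mem_bot] at h1
      apply hg
      have : g = k * (k⁻¹ * g * k) * k⁻¹ := by group
      rw [this, h1]; group
    · intro htop
      obtain ⟨β, hβ⟩ := Fintype.exists_ne_of_one_lt_card hΩ α
      obtain ⟨g, hg⟩ := htrans α β
      have : g ∈ MulAction.stabilizer G α := htop ▸ Subgroup.mem_top g
      rw [MulAction.mem_stabilizer_iff] at this
      exact hβ (hg ▸ this)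
    · intro u x hu hx hx'
      by_contra hx1
      rw [MulAction.mem_stabilizer_iff] at hu hx hx'
      apply hu
      have h2 : x • (u • α) = u • α := by
        rw [mul_smul, mul_smul, inv_smul_eq_iff] at hx'
        exact hx'
      exact hfix x hx1 _ _ h2 hx
  · ext x
    rw [mem_frobeniusKernel_iff, Set.mem_setOf_eq]
    refine or_congr Iff.rfl ?_
    constructor
    · intro h ω hω
      obtain ⟨g, rfl⟩ := htrans α ω
      apply h g
      rw [MulAction.mem_stabilizer_iff, mul_smul, mul_smul, hω, inv_smul_smul]
    · intro h g hg
      apply h (g • α)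
      rw [MulAction.mem_stabilizer_iff, mul_smul, mul_smul, inv_smul_eq_iff] at hg
      exact hg

end Cfsg.Agent.S4252
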