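import Cfsg.Statements.S4494
import Cfsg.Agent.Lib.Helper23.Trunc4

set_option autoImplicit false
open Cfsg

namespace Cfsg.Agent.S4494

open Cfsg Cfsg.Agent.CharLib Cfsg.Agent.BlockLib Cfsg.Agent.Lib.Helper23 Cfsg.Agent.Lib.Helper23.Trunc Cfsg.Agent.Lib.Helper23.MinMax
open scoped ComplexConjugate

/-- The Brauer–Feit bound. Let B be a p-block of the finite group G (relative to a maximal ideal M of the algebraic integers containing p) and let d be its defect. Then the number k(B) of irreducible characters in B satisfies k(B) ≤ p^(2d)/4 + 1, stated here as 4·k(B) ≤ p^(2d) + 4. -/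
theorem result {G : Type*} [Group G] [Finite G] (p : ℕ) [Fact p.Prime] (M : Ideal Cfsg.AlgInt) (hM : Cfsg.IsPModular p M) (B : Set (Cfsg.IrrCharacter G)) (hB : Cfsg.IsPBlock M B) : 4 * Nat.card B ≤ p ^ (2 * Cfsg.blockDefect p B) + 4 := by
  classical
  have hp : p.Prime := Fact.out
  cases nonempty_fintype G
  have hMp := isPrime_of_isPModular hM
  have htop := ne_top_of_isPModular hM
  have hp0 : (p : ℂ) ≠ 0 := by exact_mod_cast hp.ne_zero
  have hne := nonempty_of_isPBlock htop hB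
  obtain ⟨χ, hχ, hh⟩ := exists_minExp (p := p) hne
  set d := Cfsg.blockDefect p B with hd
  have hea : minExp p B ≤ (Nat.card G).factorization p := minExp_le_card hne
  have hd' : d = (Nat.card G).factorization p - minExp p B := blockDefect_eq p B
  have hz : ∀ ν : IrrCharacter G, ∃ z : ℤ,
      classInner (trunc p ((p : ℂ) ^ d) (χ : G → ℂ)) (ν : G → ℂ) = z := fun ν =>
    exists_int_classInner_trunc hp χ ν d (by omega)
  choose z hz using hz
  have hz0 : ∀ ν ∈ B, z ν ≠ 0 := by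
    intro ν hν h0
    have h1 := card_mul_int_eq χ ν d (hz ν)
    rw [h0] at h1
    simp only [Int.cast_zero, mul_zero] at h1
    have h2 := not_memLocalIdeal_omega_cf hM hB hχ hh hν
    have h3 : omega (ν : G → ℂ) (cf p (χ : G → ℂ)) ≠ 0 := ne_zero_of_not_memLocalIdeal htop h2
    have h4 : (charDegree (ν : G → ℂ) : ℂ) ≠ 0 := by
      exact_mod_cast (charDegree_pos_irr ν).ne'
    exact (mul_ne_zero (pow_ne_zero d hp0) (mul_ne_zero h4 h3)) h1.symm
  set Ψ := trunc p ((p : ℂ) ^ d) (χ : G → ℂ) with hΨ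
  have hΨc : IsClassFunction G Ψ := isClassFunction_trunc p _ (isClassFunction_of_irr χ.2)
  have hexp : Ψ = ∑ ν : IrrCharacter G, (z ν : ℂ) • (ν : G → ℂ) := by
    conv_lhs => rw [classFunction_eq_sum hΨc]
    apply Finset.sum_congr rfl
    intro ν _
    rw [hz ν]
  have hnorm1 : classInner Ψ Ψ = ((∑ ν : IrrCharacter G, z ν ^ 2 : ℤ) : ℂ) := by
    conv_lhs => rw [hexp]
    rw [classInner_sum_sum]
    push_cast
    apply Finset.sum_congr rfl
    intro ν _
    simp only [map_intCast]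
    ring
  have hnorm2 : classInner Ψ Ψ = (((p : ℤ) ^ d * z χ : ℤ) : ℂ) := by
    have h1 : classInner Ψ Ψ = classInner Ψ (((p : ℂ) ^ d) • (χ : G → ℂ)) := by
      rw [classInner, classInner]
      congr 1
      apply Finset.sum_congr rfl
      intro g _
      rw [hΨ, trunc_apply]
      split_ifs
      · simp
      · simp
    rw [h1, classInner_smul_right, hz χ]
    simp
  have hsum : ∑ ν : IrrCharacter G, z ν ^ 2 = (p : ℤ) ^ d * z χ := by
    rw [hnorm1] at hnorm2
    exact_mod_cast hnorm2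
  set BB := Finset.univ.filter (fun ν : IrrCharacter G => ν ∈ B) with hBB
  have hcard : Nat.card B = BB.card := by
    rw [Nat.card_eq_fintype_card, Fintype.card_subtype]
  have hχBB : χ ∈ BB := Finset.mem_filter.2 ⟨Finset.mem_univ _, hχ⟩
  have hlow : z χ ^ 2 + ((BB.card : ℤ) - 1) ≤ ∑ ν : IrrCharacter G, z ν ^ 2 := by
    have h1 : ∑ ν ∈ BB, z ν ^ 2 ≤ ∑ ν : IrrCharacter G, z ν ^ 2 :=
      Finset.sum_le_sum_of_subset_of_nonneg (Finset.subset_univ _) (fun ν _ _ => sq_nonneg _)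
    have h2 : ∑ ν ∈ BB, z ν ^ 2 = z χ ^ 2 + ∑ ν ∈ BB.erase χ, z ν ^ 2 :=
      (Finset.add_sum_erase _ _ hχBB).symm
    have h3 : ((BB.erase χ).card : ℤ) ≤ ∑ ν ∈ BB.erase χ, z ν ^ 2 := by
      have : ((BB.erase χ).card : ℤ) = ∑ ν ∈ BB.erase χ, (1 : ℤ) := by simp
      rw [this]
      apply Finset.sum_le_sum
      intro ν hν
      have hνB : ν ∈ B := (Finset.mem_filter.1 (Finset.mem_of_mem_erase hν)).2
      have := hz0 ν hνB
      have h5 : 0 < z ν ^ 2 := by positivity
      omega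
    have h4 : ((BB.erase χ).card : ℤ) = (BB.card : ℤ) - 1 := by
      rw [Finset.card_erase_of_mem hχBB]
      have : 1 ≤ BB.card := Finset.card_pos.2 ⟨χ, hχBB⟩
      push_cast [Nat.cast_sub this]
      ring
    omega
  rw [hsum] at hlow
  rw [hcard]
  have hfin : 4 * (BB.card : ℤ) ≤ ((p : ℤ) ^ d) ^ 2 + 4 := by
    nlinarith [sq_nonneg ((p : ℤ) ^ d - 2 * z χ)]
  have : ((4 * BB.card : ℕ) : ℤ) ≤ ((p ^ (2 * d) + 4 : ℕ) : ℤ) := by
    push_cast
    rw [mul_comm 2 d, pow_mul]
    exact hfin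
  exact_mod_cast this

end Cfsg.Agent.S4494
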