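import Cfsg.Statements.S4511
import Cfsg.Agent.Lib.Helper23.Sect2

set_option autoImplicit false
open Cfsg

namespace Cfsg.Agent.S4511

open Cfsg

open Cfsg Cfsg.Agent.CharLib Cfsg.Agent.BlockLib Cfsg.Agent.Lib.Helper23 Cfsg.Agent.Lib.Helper23.Trunc Cfsg.Agent.Lib.Helper23.MinMax Cfsg.Agent.Lib.Helper23.Sect
open scoped ComplexConjugate

/-- Brauer's count of the irreducible characters in a block by subsections. Let M be a maximal ideal of the algebraic integers containing the prime p, B a p-block of the finite group G, and X a set of representatives of the conjugacy classes of p-elements of G (elements of p-power order, the identity included: every p-element is conjugate to exactly one member of X). Then the number of irreducible characters in B is the sum, over x ∈ X and over the blocks b of C_G(x) that induce B, of the p-regular rank of b (the number of irreducible Brauer characters of b, here the dimension of the span of the restrictions of the members of b to the p-regular elements of C_G(x)). -/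
theorem result {G : Type*} [Group G] [Finite G] (p : ℕ) (M : Ideal Cfsg.AlgInt) (hM : Cfsg.IsPModular p M)
    (B : Set (Cfsg.IrrCharacter G)) (hB : Cfsg.IsPBlock M B) (X : Finset G)
    (hX : ∀ x ∈ X, ∃ k : ℕ, orderOf x = p ^ k)
    (hXrep : ∀ g : G, (∃ k : ℕ, orderOf g = p ^ k) → ∃! x, x ∈ X ∧ IsConj g x) :
    Nat.card B = ∑ x ∈ X, ∑ᶠ b ∈ {b : Set (Cfsg.IrrCharacter ↥(Subgroup.centralizer ({x} : Set G))) | Cfsg.IsInducedBlock M (Subgroup.centralizer ({x} : Set G)) b B},
      Cfsg.blockRank p b := by
  classical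
  cases nonempty_fintype G
  have hp : p.Prime := hM.1
  have : Fact p.Prime := ⟨hp⟩
  have hMp := isPrime_of_isPModular hM
  have htop := ne_top_of_isPModular hM
  have hG0 : (Nat.card G : ℂ) ≠ 0 := card_ne_zero_complex
  set BB := Finset.univ.filter (fun ν : IrrCharacter G => ν ∈ B) with hBB
  have hcard : Nat.card B = BB.card := by
    rw [Nat.card_eq_fintype_card, Fintype.card_subtype]
  -- finsum to finset sum
  have hfs : ∀ x : G, ∑ᶠ b ∈ {b : Set (Cfsg.IrrCharacter ↥(Subgroup.centralizer ({x} : Set G))) | Cfsg.IsInducedBlock M (Subgroup.centralizer ({x} : Set G)) b B}, Cfsg.blockRank p b =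
      ∑ b ∈ (pblocks M (Subgroup.centralizer ({x} : Set G))).filter
        (fun b => IsInducedBlock M (Subgroup.centralizer ({x} : Set G)) b B), Cfsg.blockRank p b := by
    intro x
    rw [← finsum_mem_coe_finset]
    have hset : {b : Set (Cfsg.IrrCharacter ↥(Subgroup.centralizer ({x} : Set G))) | Cfsg.IsInducedBlock M (Subgroup.centralizer ({x} : Set G)) b B} =
        (((pblocks M (Subgroup.centralizer ({x} : Set G))).filter
        (fun b => IsInducedBlock M (Subgroup.centralizer ({x} : Set G)) b B) : Finset _) : Set _) := by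
      ext b
      simp only [Set.mem_ofPred_eq, Finset.coe_filter, mem_pblocks]
      exact ⟨fun h => ⟨h.1, h⟩, fun h => h.2⟩
    rw [hset]
  simp only [hfs]
  -- norms
  have hone : ∀ χ : IrrCharacter G, (1 : ℂ) = ∑ x ∈ X,
      (Nat.card (Subgroup.centralizer ({x} : Set G)) : ℂ)⁻¹ *
      ∑ y : Subgroup.centralizer ({x} : Set G), (if p ∣ orderOf y then 0 else
        (χ : G → ℂ) (x * y) * conj ((χ : G → ℂ) (x * y))) := by
    intro χ
    have h1 := classInner_irr_self χ.2
    rw [classInner, sum_eq_sum_sections hp X hX hXrep (F := fun g => (χ : G → ℂ) g * conj ((χ : G → ℂ) g))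
      (by intro g h; simp only [isClassFunction_of_irr χ.2 g h]), Finset.mul_sum] at h1
    rw [← h1]
    apply Finset.sum_congr rfl
    intro x _
    rw [← mul_assoc]
    congr 1
    have h2 : (Nat.card G : ℂ) = (Nat.card (Subgroup.centralizer ({x} : Set G)) : ℂ) *
        ((Subgroup.centralizer ({x} : Set G)).index : ℂ) := by
      rw [← Nat.cast_mul, Subgroup.card_mul_index]
    have h3 := index_centralizer_ne_zero x
    have h5 : (Nat.card (Subgroup.centralizer ({x} : Set G)) : ℂ) ≠ 0 := by
      exact_mod_cast Nat.card_pos.ne'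
    rw [h2]
    field_simp
  have hmain : ((Nat.card B : ℕ) : ℂ) = ((∑ x ∈ X, ∑ b ∈ (pblocks M (Subgroup.centralizer ({x} : Set G))).filter
        (fun b => IsInducedBlock M (Subgroup.centralizer ({x} : Set G)) b B), Cfsg.blockRank p b : ℕ) : ℂ) := by
    rw [hcard]
    have h1 : ((BB.card : ℕ) : ℂ) = ∑ χ ∈ BB, (1 : ℂ) := by simp
    rw [h1]
    have h2 : ∑ χ ∈ BB, (1 : ℂ) = ∑ χ ∈ BB, ∑ x ∈ X,
      (Nat.card (Subgroup.centralizer ({x} : Set G)) : ℂ)⁻¹ *
      ∑ y : Subgroup.centralizer ({x} : Set G), (if p ∣ orderOf y then 0 else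
        (χ : G → ℂ) (x * y) * conj ((χ : G → ℂ) (x * y))) :=
      Finset.sum_congr rfl (fun χ _ => hone χ)
    rw [h2, Finset.sum_comm]
    push_cast
    apply Finset.sum_congr rfl
    intro x hx
    obtain ⟨k, hk⟩ := hX x hx
    rw [← Finset.mul_sum]
    have h3 : ∑ χ ∈ BB, ∑ y : Subgroup.centralizer ({x} : Set G), (if p ∣ orderOf y then 0 else
        (χ : G → ℂ) (x * y) * conj ((χ : G → ℂ) (x * y))) =
        ∑ χ ∈ BB, ∑ b ∈ (pblocks M (Subgroup.centralizer ({x} : Set G))).filter
        (fun b => IsInducedBlock M (Subgroup.centralizer ({x} : Set G)) b B),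
      ∑ y : Subgroup.centralizer ({x} : Set G), (if p ∣ orderOf y then 0 else
        blockPart b (fun c : Subgroup.centralizer ({x} : Set G) => (χ : G → ℂ) (x * c)) y *
        conj (blockPart b (fun c : Subgroup.centralizer ({x} : Set G) => (χ : G → ℂ) (x * c)) y)) :=
      Finset.sum_congr rfl (fun χ hχ => sum_reg_sq_eq hM hk hB (Finset.mem_filter.1 hχ).2)
    rw [h3, Finset.sum_comm, Finset.mul_sum]
    apply Finset.sum_congr rfl
    intro b hb
    rw [sum_block_sum_reg hM hk rfl (Finset.mem_filter.1 hb).2]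
    have h5 : (Nat.card (Subgroup.centralizer ({x} : Set G)) : ℂ) ≠ 0 := by
      exact_mod_cast Nat.card_pos.ne'
    rw [inv_mul_cancel_left₀ h5]
  exact_mod_cast hmain

end Cfsg.Agent.S4511
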