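import Cfsg.Statements.S4916
import Mathlib
import Cfsg.Agent.H25.BlockSum
import Cfsg.Agent.H25.Codeg
import Cfsg.Agent.S0907

set_option autoImplicit false
open Cfsg

namespace Cfsg.Agent.S4916

/-- Let G be a finite group, p a prime and M a maximal ideal of the algebraic integers containing p. Then the principal character is the only irreducible character of degree prime to p in the principal p-block of G if and only if p does not divide the order of G. -/
theorem result {G : Type*} [Group G] [Finite G] (p : ℕ) [Fact p.Prime] (M : Ideal Cfsg.AlgInt) (hM : Cfsg.IsPModular p M) : (∀ χ : Cfsg.IrrCharacter G, χ ∈ Cfsg.principalBlock M G → ¬ p ∣ Cfsg.charDegree (χ : G → ℂ) → (χ : G → ℂ) = fun _ => (1 : ℂ)) ↔ ¬ p ∣ Nat.card G := by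
  classical
  cases nonempty_fintype G
  have hpp : p.Prime := Fact.out
  have hprime : M.IsPrime := BlockLib.isPrime_of_isPModular hM
  have htop : M ≠ ⊤ := BlockLib.ne_top_of_isPModular hM
  let χ₀ : Cfsg.IrrCharacter G := ⟨fun _ => 1, CharLib.isIrrCharacter_one⟩
  constructor
  · intro hall hpG
    obtain ⟨x, hx⟩ := exists_prime_orderOf_dvd_card' p hpG
    have hB : Cfsg.IsPBlock M (Cfsg.principalBlock M G) := ⟨χ₀, rfl⟩
    have h1 := Cfsg.Agent.S0907.result p M hM _ hB 1 x (by rw [orderOf_one]; exact hpp.one_lt.ne' ∘ Nat.dvd_one.1)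
      (by rw [hx])
    rw [finsum_mem_eq_finite_toFinset_sum _ (Set.toFinite _)] at h1
    have hmem0 : χ₀ ∈ (Set.toFinite (Cfsg.principalBlock M G)).toFinset := by
      rw [Set.Finite.mem_toFinset]
      intro g
      rw [sub_self]
      exact BlockLib.memLocalIdeal_zero htop
    rw [← Finset.add_sum_erase _ _ hmem0] at h1
    have h2 : Cfsg.MemLocalIdeal M (∑ χ ∈ ((Set.toFinite (Cfsg.principalBlock M G)).toFinset).erase χ₀,
        (χ : G → ℂ) 1 * (starRingEnd ℂ) ((χ : G → ℂ) x)) := by
      apply BlockLib.memLocalIdeal_sum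
      intro χ hχ
      have hne : χ ≠ χ₀ := Finset.ne_of_mem_erase hχ
      have hmem : χ ∈ Cfsg.principalBlock M G := by
        have := Finset.mem_of_mem_erase hχ
        rwa [Set.Finite.mem_toFinset] at this
      have hdvd : p ∣ Cfsg.charDegree (χ : G → ℂ) := by
        by_contra hnd
        exact hne (Subtype.ext (hall χ hmem hnd))
      apply BlockLib.memLocalIdeal_mul_right
      · rw [H25.charDegree_irr χ]
        exact (BlockLib.memLocalIdeal_natCast_iff hM _).2 hdvd
      · rw [← CharLib.isCharacter_inv (CharLib.isCharacter_of_irr χ.2)]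
        exact BlockLib.memLocalRing_of_isIntegral htop
          (CharLib.isCharacter_isIntegral (CharLib.isCharacter_of_irr χ.2) _)
    have h3 : (χ₀ : G → ℂ) 1 * (starRingEnd ℂ) ((χ₀ : G → ℂ) x) = 1 := by simp [χ₀]
    rw [h3] at h1
    have h4 : (1 : ℂ) = -(∑ χ ∈ ((Set.toFinite (Cfsg.principalBlock M G)).toFinset).erase χ₀,
        (χ : G → ℂ) 1 * (starRingEnd ℂ) ((χ : G → ℂ) x)) := by linear_combination h1
    apply BlockLib.not_memLocalIdeal_one (M := M)
    rw [h4]
    exact BlockLib.memLocalIdeal_neg h2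
  · intro hpG χ hχ _
    by_contra hne
    have h1 := H25.memLocalIdeal_sum_of_sameBlock (M := M)
      (CharLib.isClassFunction_of_irr (CharLib.isIrrCharacter_one (G := G)))
      (CharLib.isClassFunction_of_irr χ.2) hχ (c := fun _ => (Nat.card G : ℂ)⁻¹) (fun _ _ => rfl)
      (fun _ => BlockLib.memLocalRing_natCast_inv hM hpG)
    have h2 := CharLib.classInner_irr_ne χ.2 CharLib.isIrrCharacter_one hne
    rw [CharLib.classInner_def] at h2
    simp only [map_one, mul_one] at h2
    have h3 : ∑ g : G, (χ : G → ℂ) g = 0 := by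
      rcases mul_eq_zero.1 h2 with h | h
      · exact absurd (inv_eq_zero.1 h) CharLib.card_ne_zero_complex
      · exact h
    have h4 : ∑ g : G, (Nat.card G : ℂ)⁻¹ * ((1 : ℂ) / 1 - (χ : G → ℂ) g / (χ : G → ℂ) 1) = 1 := by
      rw [← Finset.mul_sum, Finset.sum_sub_distrib, ← Finset.sum_div _ _ ((χ : G → ℂ) 1), h3]
      simp only [div_one, Finset.sum_const, Finset.card_univ, nsmul_eq_mul, mul_one, zero_div,
        sub_zero]
      rw [← Nat.card_eq_fintype_card]
      exact inv_mul_cancel₀ CharLib.card_ne_zero_complex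
    rw [h4] at h1
    exact BlockLib.not_memLocalIdeal_one h1

end Cfsg.Agent.S4916
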