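import Cfsg.Statements.S0228
import Cfsg.Agent.Tr.Syl3

set_option autoImplicit false
open Cfsg

namespace Cfsg.Agent.S0228

open Cfsg.Agent.Tr.Syl3

/-- A group of order 12 in which no involution is central is isomorphic to the alternating group on four letters. -/
theorem result {G : Type*} [Group G] [Finite G] (hG : Nat.card G = 12) (hz : ∀ z : G, orderOf z = 2 → z ∉ Subgroup.center G) : Nonempty (G ≃* alternatingGroup (Fin 4)) := by
  classical
  have : Fact (Nat.Prime 3) := ⟨Nat.prime_three⟩
  have : Fact (Nat.Prime 2) := ⟨Nat.prime_two⟩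
  have hcardP : ∀ P : Sylow 3 G, Nat.card P = 3 := by
    intro P
    rw [P.card_eq_multiplicity, hG]
    have : (12 : ℕ).factorization 3 = 1 := by decide +kernel
    rw [this, pow_one]
  have hcardT : ∀ T : Sylow 2 G, Nat.card T = 2 ^ 2 := by
    intro T
    rw [T.card_eq_multiplicity, hG]
    have : (12 : ℕ).factorization 2 = 2 := by decide +kernel
    rw [this]
  obtain ⟨P⟩ : Nonempty (Sylow 3 G) := inferInstance
  have hidx : (P : Subgroup G).index = 4 := by
    have := (P : Subgroup G).card_mul_index
    rw [hcardP P, hG] at this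
    omega
  have hn1 := card_sylow_modEq_one 3 G
  have hn2 := P.card_dvd_index
  rw [hidx] at hn2
  have hn3 : Nat.card (Sylow 3 G) = 1 ∨ Nat.card (Sylow 3 G) = 4 := by
    have hle := Nat.le_of_dvd (by norm_num) hn2
    unfold Nat.ModEq at hn1
    generalize Nat.card (Sylow 3 G) = n at *
    interval_cases n <;> simp_all
  rcases hn3 with hn3 | hn3
  · exfalso
    have hsub : Subsingleton (Sylow 3 G) := (Nat.card_eq_one_iff_unique.1 hn3).1
    have hN : (P : Subgroup G).Normal := Sylow.normal_of_subsingleton P
    obtain ⟨t, ht, htc⟩ := exists_involution_commute (P : Subgroup G) (hcardP P) (by rw [hG]; decide)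
    have hpg : IsPGroup 2 (Subgroup.zpowers t) :=
      IsPGroup.of_card (n := 1) (by rw [Nat.card_zpowers, ht, pow_one])
    obtain ⟨T, hT⟩ := hpg.exists_le_sylow
    have htT : t ∈ (T : Subgroup G) := hT (Subgroup.mem_zpowers t)
    have hcomm : IsMulCommutative (T : Subgroup G) :=
      IsPGroup.isMulCommutative_of_card_eq_prime_sq (hcardT T)
    have h1 : (P : Subgroup G) ≤ Subgroup.centralizer {t} := by
      intro x hx
      rw [Subgroup.mem_centralizer_singleton_iff]
      exact (htc x hx).symm
    have h2 : (T : Subgroup G) ≤ Subgroup.centralizer {t} := by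
      intro x hx
      rw [Subgroup.mem_centralizer_singleton_iff]
      have := hcomm.is_comm.comm (⟨x, hx⟩ : (T : Subgroup G)) ⟨t, htT⟩
      exact congrArg Subtype.val this
    have h3 := Subgroup.card_dvd_of_le h1
    have h4 := Subgroup.card_dvd_of_le h2
    rw [hcardP P] at h3
    rw [hcardT T] at h4
    have h5 : 12 ∣ Nat.card (Subgroup.centralizer {t}) := by
      have : Nat.Coprime 3 (2 ^ 2) := by decide
      exact this.mul_dvd_of_dvd_of_dvd h3 h4
    have h6 : Subgroup.centralizer {t} = ⊤ := by
      apply Subgroup.eq_top_of_card_eq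
      apply Nat.le_antisymm (Subgroup.card_le_card_group _)
      rw [hG]
      exact Nat.le_of_dvd Nat.card_pos h5
    apply hz t ht
    rw [Subgroup.mem_center_iff]
    intro g
    have : g ∈ Subgroup.centralizer {t} := h6 ▸ Subgroup.mem_top g
    rw [Subgroup.mem_centralizer_singleton_iff] at this
    exact this
  · let φ := MulAction.toPermHom G (Sylow 3 G)
    have hk3 : ¬ 3 ∣ Nat.card φ.ker := not_dvd_card_ker hcardP (by rw [hn3]; decide)
    have hnorm : Nat.card (Subgroup.normalizer ((P : Subgroup G) : Set G)) = 3 := by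
      have h1 := (Subgroup.normalizer ((P : Subgroup G) : Set G)).card_mul_index
      have h2 : (Subgroup.normalizer ((P : Subgroup G) : Set G)).index = 4 :=
        P.card_eq_index_normalizer.symm.trans hn3
      rw [h2, hG] at h1
      omega
    have hk6 : Nat.card φ.ker ∣ 3 := by
      have h1 := Subgroup.card_dvd_of_le (ker_le_normalizer P)
      rw [hnorm] at h1
      exact h1
    have hk : Nat.card φ.ker = 1 := by
      rcases (Nat.dvd_prime Nat.prime_three).1 hk6 with h | h
      · exact h
      · exact absurd (by rw [h]) hk3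
    have hker : φ.ker = ⊥ := Subgroup.card_eq_one.1 hk
    have hinj : Function.Injective φ := (MonoidHom.ker_eq_bot_iff φ).1 hker
    have hcardS : Nat.card (Equiv.Perm (Sylow 3 G)) = 24 := by
      have : Fintype (Sylow 3 G) := Fintype.ofFinite _
      rw [Nat.card_eq_fintype_card, Fintype.card_perm, ← Nat.card_eq_fintype_card, hn3]
      rfl
    have e0 : G ≃* φ.range := MonoidHom.ofInjective hinj
    have hr : Nat.card φ.range = 12 := by rw [← Nat.card_congr e0.toEquiv, hG]
    have hri : φ.range.index = 2 := by
      have := φ.range.card_mul_index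
      rw [hr, hcardS] at this
      omega
    have : Fintype (Sylow 3 G) := Fintype.ofFinite _
    have hra : φ.range = alternatingGroup (Sylow 3 G) :=
      Equiv.Perm.eq_alternatingGroup_of_index_eq_two hri
    have e2 : Sylow 3 G ≃ Fin 4 := (Finite.equivFinOfCardEq hn3)
    exact ⟨(e0.trans (MulEquiv.subgroupCongr hra)).trans (Equiv.altCongrHom e2)⟩

end Cfsg.Agent.S0228
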