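import Cfsg.Statements.S4333
import Cfsg.Agent.Lib.Helper23.Zipper

set_option autoImplicit false
open Pointwise
open Cfsg

namespace Cfsg.Agent.S4333

open Pointwise

open Cfsg.Agent.Lib.Helper23 in
theorem aux (n : ℕ) : ∀ (G : Type*) [Group G] [Finite G], Nat.card G = n → ∀ (A : Subgroup G),
    (∀ a ∈ A, ∀ g : G, (A.subgroupOf (A ⊔ MulAut.conj (g⁻¹ * a * g) • A)).IsSubnormal) →
    A.IsSubnormal := by
  induction n using Nat.strong_induction_on with
  | _ n ih =>
    intro G _ _ hn A h
    by_contra hA
    have hprop : ∀ V : Subgroup G, A ≤ V → V ≠ ⊤ → (A.subgroupOf V).IsSubnormal := by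
      intro V hAV hV
      have hlt : Nat.card V < n := by
        rw [← hn]
        by_contra hcon
        exact hV (Subgroup.eq_top_of_card_eq V (le_antisymm (Subgroup.card_le_card_group V) (not_lt.1 hcon)))
      apply ih _ hlt V rfl
      intro a ha g
      have h1 := h a ha g
      have hx : MulAut.conj ((g : G)⁻¹ * (a : G) * (g : G)) • A ≤ V :=
        Subgroup.conj_smul_le_of_le hAV (g⁻¹ * a * g)
      have h2 := isSubnormal_subgroupOf_subgroupOf (H := V) (sup_le hAV hx) h1
      rw [Subgroup.subgroupOf_sup hAV hx] at h2
      have h3 := Subgroup.conj_smul_subgroupOf hAV (g⁻¹ * a * g)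
      rw [h3]
      exact h2
    obtain ⟨M, hAM, hM, hmax⟩ := zipper A hprop hA
    have hsm : ∀ (g : G) (V : Subgroup G), V ≠ ⊤ → MulAut.conj g • V ≠ ⊤ := by
      intro g V hV h1
      apply hV
      rw [eq_top_iff] at h1 ⊢
      intro x _
      have h2 : g * x * g⁻¹ ∈ MulAut.conj g • V := h1 (Subgroup.mem_top _)
      rw [mem_conj_smul_iff'] at h2
      simpa [mul_assoc] using h2
    have key : ∀ a ∈ A, ∀ g : G, MulAut.conj (g⁻¹ * a * g)⁻¹ • M ≤ M := by
      intro a ha g
      apply hmax _ _ (hsm _ _ hM)
      have h1 : A ⊔ MulAut.conj (g⁻¹ * a * g) • A ≤ M := by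
        apply hmax _ le_sup_left
        intro htop
        apply hA
        have h2 := h a ha g
        rw [htop] at h2
        exact isSubnormal_of_subgroupOf_top h2
      intro x hx
      rw [mem_conj_smul_iff']
      apply h1
      apply Subgroup.mem_sup_right
      rw [mem_conj_smul_iff']
      simpa [mul_assoc] using hx
    have hN : Subgroup.normalClosure (A : Set G) ≤ Subgroup.normalizer (M : Set G) := by
      unfold Subgroup.normalClosure
      rw [Subgroup.closure_le]
      intro x hx
      rw [Group.mem_conjugatesOfSet_iff] at hx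
      obtain ⟨a, ha, hax⟩ := hx
      rw [isConj_iff] at hax
      obtain ⟨c, rfl⟩ := hax
      apply Cfsg.Agent.H4.mem_normalizer_of_conj_smul_le
      · have := key a⁻¹ (inv_mem ha) c⁻¹
        simpa [mul_assoc] using this
      · have := key a ha c⁻¹
        simpa [mul_assoc] using this
    by_cases hNt : Subgroup.normalClosure (A : Set G) = ⊤
    · rw [hNt, top_le_iff, Subgroup.normalizer_eq_top_iff] at hN
      apply hM
      rw [eq_top_iff, ← hNt]
      exact Subgroup.normalClosure_le_normal hAM
    · apply hA
      exact Subgroup.IsSubnormal.trans Subgroup.le_normalClosure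
        (hprop _ Subgroup.le_normalClosure hNt) (Subgroup.normalClosure_normal).isSubnormal

/-- Let A be a subgroup of a finite group G. If A is subnormal in the subgroup generated by A and its conjugate by g⁻¹ a g, for every a ∈ A and every g ∈ G, then A is subnormal in G. (A sharpening of Wielandt's subnormality criterion: only conjugates of A by conjugates of elements of A are needed.) -/
theorem result {G : Type*} [Group G] [Finite G]
    (A : Subgroup G)
    (h : ∀ a ∈ A, ∀ g : G, (A.subgroupOf (A ⊔ MulAut.conj (g⁻¹ * a * g) • A)).IsSubnormal) :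
    A.IsSubnormal := by
  exact aux _ G rfl A h

end Cfsg.Agent.S4333
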