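import Cfsg.Statements.S0107
import Cfsg.Agent.Tr.Dihedral
-- import your own Cfsg.Agent.* helpers here

set_option autoImplicit false
open Cfsg

open Cfsg.Agent.Tr Cfsg.Agent.H12 Cfsg.Agent.Tr.Dih DihedralGroup

namespace Cfsg.Agent.S0107

/-- A finite group with no nontrivial 2-group quotient and dihedral Sylow 2-subgroups of order at least 8 has a single class of involutions. -/
theorem result {G : Type*} [Group G] [Finite G] (T : Sylow 2 G) (n : ℕ) (hn : 2 ≤ n) (hT : Nonempty ((T : Subgroup G) ≃* DihedralGroup (2 ^ n))) (hO : Cfsg.pResidual 2 G = ⊤) (x y : G) (hx : orderOf x = 2) (hy : orderOf y = 2) : ∃ g : G, g * x * g⁻¹ = y := by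
  obtain ⟨e⟩ := hT
  have hn1 : 1 ≤ n := by omega
  set z₀ : (T : Subgroup G) := e.symm (r ((2 ^ (n - 1) : ℕ) : ZMod (2 ^ n))) with hz₀
  -- involutions among the rotations
  have hrot : ∀ u : G, orderOf u = 2 → u ∈ rot (T : Subgroup G) e → u = z₀ := by
    intro u hu hur
    obtain ⟨h, i, hi⟩ := mem_rot.mp hur
    have h1 : orderOf (r i) = 2 := by
      rw [← hi, MulEquiv.orderOf_eq, Subgroup.orderOf_mk, hu]
    rw [r_eq_of_orderOf_two hn1 h1] at hi
    have : (⟨u, h⟩ : (T : Subgroup G)) = z₀ := by rw [hz₀, ← hi, MulEquiv.symm_apply_apply]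
    exact congrArg Subtype.val this
  have hord : ∀ (g u : G), orderOf (g * u * g⁻¹) = orderOf u := by
    intro g u
    have := (MulAut.conj g).orderOf_eq u
    simpa using this
  have key : ∀ u : G, orderOf u = 2 → ∃ g : G, g * u * g⁻¹ = z₀ := by
    intro u hu
    have hp : IsPGroup 2 (Subgroup.zpowers u) := by
      apply IsPGroup.of_card (n := 1)
      rw [Nat.card_zpowers, hu, pow_one]
    obtain ⟨a, ha⟩ := exists_conj_le_sylow T hp
    have huT : a * u * a⁻¹ ∈ (T : Subgroup G) := ha (conj_mem_map_conj (Subgroup.mem_zpowers u))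
    by_cases hr : a * u * a⁻¹ ∈ rot (T : Subgroup G) e
    · exact ⟨a, hrot _ (by rw [hord, hu]) hr⟩
    · rcases Cfsg.Agent.S0111.result T (rot (T : Subgroup G) e) (rot_le _ _) (relIndex_rot _ _) (a * u * a⁻¹)
        (by rw [hord, hu]) huT hr with ⟨M, hM, hMi, -⟩ | ⟨g, hg⟩
      · exfalso
        have hq : IsPGroup 2 (G ⧸ M) := IsPGroup.of_card (n := 1) (by rw [pow_one]; exact hMi)
        have := pResidual_le hq
        rw [hO, top_le_iff] at this
        rw [this, Subgroup.index_top] at hMi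
        omega
      · refine ⟨g * a, ?_⟩
        have := hrot _ (by rw [hord, hord, hu]) hg
        rw [← this]; group
  obtain ⟨a, ha⟩ := key x hx
  obtain ⟨b, hb⟩ := key y hy
  refine ⟨b⁻¹ * a, ?_⟩
  calc b⁻¹ * a * x * (b⁻¹ * a)⁻¹ = b⁻¹ * (a * x * a⁻¹) * b := by group
    _ = b⁻¹ * (b * y * b⁻¹) * b := by rw [ha, hb]
    _ = y := by group

end Cfsg.Agent.S0107
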