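import Cfsg.Statements.S0154
import Mathlib
import Cfsg.Agent.CharLib.L.Linear
import Cfsg.Agent.CharLib.Orth

set_option autoImplicit false
open Cfsg

namespace Cfsg.Agent.S0154

/-- A finite group has exactly as many irreducible complex characters of degree 1 as the index of its commutator subgroup. -/
theorem result {G : Type*} [Group G] [Finite G] : Nat.card {χ : Cfsg.IrrCharacter G // (χ : G → ℂ) 1 = 1} = (commutator G).index := by
  classical
  have e1 : Nat.card {χ : Cfsg.IrrCharacter G // (χ : G → ℂ) 1 = 1} = Nat.card (G →* ℂˣ) := by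
    apply Nat.card_congr
    symm
    refine Equiv.ofBijective (fun lam => ⟨⟨fun g => (lam g : ℂ),
      Cfsg.Agent.CharLib.isIrrCharacter_of_hom lam⟩, by simp⟩) ⟨?_, ?_⟩
    · intro lam lam' h
      ext g
      exact congrFun (congrArg (fun x => (x.1.1 : G → ℂ)) h) g
    · rintro ⟨χ, hχ⟩
      have hmul := Cfsg.Agent.CharLib.L.irr_mul_of_apply_one_eq_one χ hχ
      have hne : ∀ g : G, (χ : G → ℂ) g ≠ 0 := by
        intro g h0
        have := hmul g g⁻¹
        rw [mul_inv_cancel, hχ, h0, zero_mul] at this
        exact one_ne_zero this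
      refine ⟨{ toFun := fun g => Units.mk0 ((χ : G → ℂ) g) (hne g)
                map_one' := by ext; simp [hχ]
                map_mul' := by intro a b; ext; simp [hmul] }, ?_⟩
      apply Subtype.ext; apply Subtype.ext
      funext g
      rfl
  have e2 : Nat.card (G →* ℂˣ) = Nat.card (Abelianization G →* ℂˣ) :=
    Nat.card_congr (Abelianization.lift (G := G) (A := ℂˣ))
  have : NeZero (Monoid.exponent (Abelianization G)) :=
    ⟨(Monoid.exponent_ne_zero_of_finite)⟩
  rw [e1, e2, CommGroup.card_monoidHom_of_hasEnoughRootsOfUnity]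
  rfl

end Cfsg.Agent.S0154
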