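import Cfsg.Statements.S0208
import Mathlib
import Cfsg.Agent.Lib.Helper2.Dihedral

set_option autoImplicit false
open Cfsg

namespace Cfsg.Agent.S0208

/-- If x, y are involutions and xy has odd order, then some element of the subgroup generated by x and y conjugates x to y. -/
theorem result {G : Type*} [Group G] [Finite G] (x y : G) (hx : orderOf x = 2) (hy : orderOf y = 2) (hodd : Odd (orderOf (x * y))) : ∃ d ∈ Subgroup.closure ({x, y} : Set G), d * x * d⁻¹ = y := by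
  have hx2 := Cfsg.Agent.Lib.Helper2.sq_eq_one_of_orderOf_two hx
  have hy2 := Cfsg.Agent.Lib.Helper2.sq_eq_one_of_orderOf_two hy
  obtain ⟨m, hm⟩ := hodd
  refine ⟨(x * y) ^ (m : ℤ), ?_, ?_⟩
  · exact (Cfsg.Agent.Lib.Helper2.mem_closure_pair_iff hx2 hy2 _).mpr ⟨m, Or.inl rfl⟩
  · rw [Cfsg.Agent.Lib.Helper2.conj_zpow_x hx2 hy2]
    have h1 : (x * y) ^ (2 * (m : ℤ)) = ((x * y) ^ (1 : ℤ))⁻¹ := by
      rw [eq_inv_iff_mul_eq_one, ← zpow_add]
      have : (2 * (m : ℤ) + 1) = ((orderOf (x * y) : ℕ) : ℤ) := by rw [hm]; push_cast; ring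
      rw [this, zpow_natCast, pow_orderOf_eq_one]
    rw [h1]
    exact (Cfsg.Agent.Lib.Helper2.y_eq hx2 hy2).symm

end Cfsg.Agent.S0208
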