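import Cfsg.Statements.S0338
import Cfsg.Agent.Lib.Helper22.Zass1

set_option autoImplicit false
open Cfsg

namespace Cfsg.Agent.S0338

/-- A Zassenhaus group of odd degree is a simple group. -/
theorem result {G Ω : Type*} [Group G] [MulAction G Ω] [Fintype Ω]
    (hZ : Cfsg.IsZassenhausGroup G Ω) (hodd : Odd (Fintype.card Ω)) : IsSimpleGroup G := by
  classical
  obtain ⟨a, b, K, hab, hKmem, hKtrans, hKN⟩ := Cfsg.Agent.Lib.Helper22.zass_kernel hZ
  obtain ⟨hfaith, h2, h3, ⟨g0, hg0, -⟩, hnoreg⟩ := hZ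
  haveI := hfaith
  haveI : Finite G := Finite.of_injective _ (MulAction.toPerm_injective (α := G) (β := Ω))
  rw [MulAction.is_two_pretransitive_iff] at h2
  -- involutions fix exactly one point
  have stepA : ∀ t : G, t ≠ 1 → t * t = 1 →
      ∃ c : Ω, t • c = c ∧ ∀ c' : Ω, t • c' = c' → c' = c := by
    intro t ht1 htt
    haveI : Fact (Nat.Prime 2) := ⟨Nat.prime_two⟩
    have hf : (show Function.End Ω from fun x => t • x) ^ 2 ^ 1 = 1 := by
      rw [pow_one, pow_two]
      funext x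
      show t • t • x = x
      rw [← mul_smul, htt, one_smul]
    have hmod := Equiv.Perm.card_fixedPoints_modEq hf
    have hoddF : Odd (Fintype.card (Function.fixedPoints (fun x : Ω => t • x))) := by
      rw [Nat.odd_iff] at hodd ⊢
      have : Fintype.card Ω % 2 = Fintype.card (Function.fixedPoints (fun x : Ω => t • x)) % 2 :=
        hmod
      omega
    have hpos : 0 < Fintype.card (Function.fixedPoints (fun x : Ω => t • x)) := hoddF.pos
    obtain ⟨⟨c, hc⟩⟩ := Fintype.card_pos_iff.mp hpos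
    refine ⟨c, hc, ?_⟩
    intro c' hc'
    by_contra hne
    have h1 : 1 < Fintype.card (Function.fixedPoints (fun x : Ω => t • x)) :=
      Fintype.one_lt_card_iff.mpr ⟨⟨c', hc'⟩, ⟨c, hc⟩, fun h => hne (congrArg Subtype.val h)⟩
    have h2' : 2 < Fintype.card (Function.fixedPoints (fun x : Ω => t • x)) := by
      rcases hoddF with ⟨k, hk⟩
      omega
    obtain ⟨x, y, z, hxy, hxz, hyz⟩ := Fintype.two_lt_card_iff.mp h2'
    exact ht1 (h3 t x.1 y.1 z.1 (fun h => hxy (Subtype.ext h)) (fun h => hyz (Subtype.ext h))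
      (fun h => hxz (Subtype.ext h)) x.2 y.2 z.2)
  set H : Subgroup G := MulAction.stabilizer G a ⊓ MulAction.stabilizer G b with hH
  have hHmem : ∀ h, h ∈ H ↔ h • a = a ∧ h • b = b := fun h => Iff.rfl
  have hHodd : Odd (Nat.card H) := by
    rw [← Nat.not_even_iff_odd, even_iff_two_dvd]
    intro hdvd
    haveI : Fact (Nat.Prime 2) := ⟨Nat.prime_two⟩
    obtain ⟨x, hx⟩ := exists_prime_orderOf_dvd_card' 2 hdvd
    have hx1 : (x : G) ≠ 1 := by
      intro h
      have : x = 1 := Subtype.ext h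
      rw [this, orderOf_one] at hx
      omega
    have hxx : (x : G) * x = 1 := by
      have := pow_orderOf_eq_one x
      rw [hx, pow_two] at this
      exact congrArg Subtype.val this
    obtain ⟨c, -, hc⟩ := stepA x hx1 hxx
    have e1 := hc a ((hHmem _).mp x.2).1
    have e2 := hc b ((hHmem _).mp x.2).2
    exact hab (e1.trans e2.symm)
  -- the involution swapping a and b
  obtain ⟨g, hga, hgb⟩ := h2 hab hab.symm
  have hggH : g * g ∈ H := by
    rw [hHmem]
    exact ⟨by rw [mul_smul, hga, hgb], by rw [mul_smul, hgb, hga]⟩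
  obtain ⟨j, hj⟩ := hHodd
  have hpow : (g * g) ^ (Nat.card H) = 1 := by
    have := pow_card_eq_one' (x := (⟨g * g, hggH⟩ : H))
    exact congrArg Subtype.val this
  set t := g ^ (Nat.card H) with ht
  have htt : t * t = 1 := by
    rw [ht, ← (Commute.refl g).mul_pow]; exact hpow
  have hteq : t = (g * g) ^ j * g := by
    rw [ht, hj, pow_succ, pow_mul, pow_two]
  have hjH : (g * g) ^ j ∈ H := H.pow_mem hggH j
  have hta : t • a = b := by rw [hteq, mul_smul, hga, ((hHmem _).mp hjH).2]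
  have htb : t • b = a := by rw [hteq, mul_smul, hgb, ((hHmem _).mp hjH).1]
  have ht1 : t ≠ 1 := by
    intro h
    rw [h, one_smul] at hta
    exact hab hta
  have htinv : t⁻¹ = t := inv_eq_of_mul_eq_one_left htt
  obtain ⟨c, hc, hcu⟩ := stepA t ht1 htt
  have hca : a ≠ c := by
    intro h; rw [← h, hta] at hc; exact hab hc.symm
  have hcb : b ≠ c := by
    intro h; rw [← h, htb] at hc; exact hab hc
  have stepD : ∀ h ∈ H, t * h = h * t → h = 1 := by
    intro h hh hcomm
    have e : h • c = c := by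
      apply hcu
      rw [← mul_smul, hcomm, mul_smul, hc]
    exact h3 h a b c hab hcb hca ((hHmem _).mp hh).1 ((hHmem _).mp hh).2 e
  have hconjH : ∀ h ∈ H, t * h * t⁻¹ ∈ H := by
    intro h hh
    rw [hHmem, htinv]
    exact ⟨by rw [mul_smul, mul_smul, hta, ((hHmem _).mp hh).2, htb],
      by rw [mul_smul, mul_smul, htb, ((hHmem _).mp hh).1, hta]⟩
  have hsurj : Function.Surjective
      (fun h : H => (⟨(h : G)⁻¹ * (t * h * t⁻¹), H.mul_mem (H.inv_mem h.2) (hconjH h h.2)⟩ : H)) := by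
    apply Finite.surjective_of_injective
    intro h1 h2' e
    have e1 : (h1 : G)⁻¹ * (t * h1 * t⁻¹) = (h2' : G)⁻¹ * (t * h2' * t⁻¹) :=
      congrArg Subtype.val e
    have e2 : t * ((h2' : G) * (h1 : G)⁻¹) = ((h2' : G) * (h1 : G)⁻¹) * t := by
      have e3 : (h1 : G)⁻¹ * t * h1 = (h2' : G)⁻¹ * t * h2' := by
        have := congrArg (· * t) e1
        simpa [mul_assoc] using this
      calc t * ((h2' : G) * (h1 : G)⁻¹) = h2' * ((h2' : G)⁻¹ * t * h2') * (h1 : G)⁻¹ := by group
        _ = h2' * ((h1 : G)⁻¹ * t * h1) * (h1 : G)⁻¹ := by rw [e3]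
        _ = ((h2' : G) * (h1 : G)⁻¹) * t := by group
    have e4 := stepD _ (H.mul_mem h2'.2 (H.inv_mem h1.2)) e2
    exact Subtype.ext (mul_inv_eq_one.mp e4).symm
  haveI : Nontrivial G := ⟨⟨g0, 1, hg0⟩⟩
  refine ⟨fun N hN => ?_⟩
  by_cases hN0 : N = ⊥
  · exact Or.inl hN0
  right
  obtain ⟨hKle, -⟩ := hKN N hN hN0
  have hNtrans := Cfsg.Agent.Lib.Helper22.normal_trans_of_two_trans (Ω := Ω) h2 N hN hN0
  have htN : t ∈ N := by
    obtain ⟨g1, -, hg1⟩ := hNtrans a c
    have hx : g1⁻¹ * t * g1 ∈ K := by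
      rw [hKmem]
      refine ⟨by rw [mul_smul, mul_smul, hg1, hc, ← hg1, inv_smul_smul], Or.inr ?_⟩
      intro ω hω e
      apply hω
      rw [mul_smul, mul_smul, inv_smul_eq_iff] at e
      have := hcu _ e
      rw [← hg1] at this
      exact smul_left_cancel g1 this
    have := hN.conj_mem _ (hKle hx) g1
    simpa [mul_assoc] using this
  have hHN : H ≤ N := by
    intro h hh
    obtain ⟨h', e⟩ := hsurj ⟨h, hh⟩
    have e1 : (h' : G)⁻¹ * (t * h' * t⁻¹) = h := congrArg Subtype.val e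
    rw [← e1]
    have m1 : (h' : G)⁻¹ * t * ((h' : G)⁻¹)⁻¹ ∈ N := hN.conj_mem t htN _
    have m2 := N.mul_mem m1 (N.inv_mem htN)
    simpa [mul_assoc] using m2
  rw [eq_top_iff]
  intro x _
  obtain ⟨n, hn, e1⟩ := hNtrans a (x • a)
  have f1 : (n⁻¹ * x) • a = a := by rw [mul_smul, ← e1, inv_smul_smul]
  have f2 : (n⁻¹ * x) • b ≠ a := by
    intro e
    rw [← f1] at e
    exact hab (smul_left_cancel _ e).symm
  obtain ⟨k, hk, e2⟩ := hKtrans b _ hab.symm f2
  have f3 : k⁻¹ * (n⁻¹ * x) ∈ H := by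
    rw [hHmem]
    constructor
    · rw [mul_smul, f1, inv_smul_eq_iff, ((hKmem k).mp hk).1]
    · rw [mul_smul, ← e2, inv_smul_smul]
  have : x = n * (k * (k⁻¹ * (n⁻¹ * x))) := by group
  rw [this]
  exact N.mul_mem hn (N.mul_mem (hKle hk) (hHN f3))

end Cfsg.Agent.S0338
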