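import Mathlib
import Cfsg.Statements.S0436

set_option autoImplicit false
open Cfsg

namespace Cfsg.Agent.S0436

theorem sq_one {G : Type*} [Group G] {E : Set G} (hE : Cfsg.IsThreeTranspositionSet E) {a : G}
    (ha : a ∈ E) : a * a = 1 := by
  have := pow_orderOf_eq_one a
  rwa [hE.1 a ha, pow_two] at this

/-- two members either commute or satisfy the braid relation -/
theorem comm_or_braid {G : Type*} [Group G] {E : Set G} (hE : Cfsg.IsThreeTranspositionSet E)
    {e a : G} (he : e ∈ E) (ha : a ∈ E) : Commute e a ∨ e * (a * e) = a * (e * a) := by
  have ha2 := sq_one hE ha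
  have he2 := sq_one hE he
  have ha2' : ∀ x, a * (a * x) = x := fun x => by rw [← mul_assoc, ha2, one_mul]
  have he2' : ∀ x, e * (e * x) = x := fun x => by rw [← mul_assoc, he2, one_mul]
  rcases hE.2 e he a ha with h2 | h3
  · left
    show e * a = a * e
    have : e * (a * (e * a)) = 1 := by rw [pow_two] at h2; simpa [mul_assoc] using h2
    have h3 := congrArg (fun z => a * (e * z)) this
    simp only [he2', ha2', mul_one] at h3
    exact h3
  · right
    have h3' : e * (a * (e * (a * (e * a)))) = 1 := by
      rw [pow_succ, pow_two] at h3; simpa [mul_assoc] using h3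
    have := congrArg (fun z => e * (a * (e * z))) h3'
    simp only [he2', ha2', mul_one] at this
    exact this.symm

/-- For distinct commuting members a, b of a set of 3-transpositions E, a member e of E centralises the product a * b if and only if it centralises both a and b. -/
theorem result {G : Type*} [Group G] {E : Set G} (hE : Cfsg.IsThreeTranspositionSet E) {a b e : G} (ha : a ∈ E) (hb : b ∈ E) (he : e ∈ E) (hab : a ≠ b) (hcomm : Commute a b) : Commute e (a * b) ↔ (Commute e a ∧ Commute e b) := by
  constructor
  swap
  · rintro ⟨h1, h2⟩
    exact h1.mul_right h2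
  intro h
  have ha2 := sq_one hE ha
  have hb2 := sq_one hE hb
  have he2 := sq_one hE he
  have ha2' : ∀ x, a * (a * x) = x := fun x => by rw [← mul_assoc, ha2, one_mul]
  have hb2' : ∀ x, b * (b * x) = x := fun x => by rw [← mul_assoc, hb2, one_mul]
  have he2' : ∀ x, e * (e * x) = x := fun x => by rw [← mul_assoc, he2, one_mul]
  -- it suffices to show e commutes with a
  suffices hea : Commute e a by
    refine ⟨hea, ?_⟩
    have : b = a * (a * b) := (ha2' b).symm
    rw [this]
    exact hea.mul_right h
  have h' : e * (a * b) = a * (b * e) := by
    have := h.eq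
    rwa [mul_assoc] at this
  rcases comm_or_braid hE he ha with h2 | hbraid
  · exact h2
  · have h1 : b * (e * b) = a * (e * a) := by
      calc b * (e * b) = a * ((a * (b * e)) * b) := by simp only [mul_assoc, ha2']
        _ = a * ((e * (a * b)) * b) := by rw [h']
        _ = a * (e * a) := by simp only [mul_assoc, hb2, mul_one]
    rcases comm_or_braid hE hb he with h4 | h4
    · -- b e = e b
      have h5 : b * (e * b) = e := by
        rw [← mul_assoc, h4.eq, mul_assoc, hb2, mul_one]
      rw [h5, ← hbraid] at h1
      have h6 := congrArg (fun z => e * z) h1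
      simp only [he2', he2] at h6
      -- 1 = a * e
      have : a = e := by
        have h7 := congrArg (fun z => z * e) h6
        simp only [mul_assoc, he2, mul_one, one_mul] at h7
        exact h7.symm
      rw [this]
    · exfalso
      apply hab
      rw [h4, ← hbraid] at h1
      have h6 := mul_left_cancel h1
      exact (mul_right_cancel h6).symm

end Cfsg.Agent.S0436
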