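import Mathlib
import Cfsg.Statements.S0437
import Cfsg.Agent.S0436

set_option autoImplicit false
open Cfsg

namespace Cfsg.Agent.S0437

open Cfsg.Agent.S0436 in
/-- For three distinct, pairwise commuting members a, b, c of a set of 3-transpositions E, a member e of E centralises a * b * c if and only if it centralises each of a, b and c. -/
theorem result {G : Type*} [Group G] {E : Set G} (hE : Cfsg.IsThreeTranspositionSet E) {a b c e : G} (ha : a ∈ E) (hb : b ∈ E) (hc : c ∈ E) (he : e ∈ E) (hab : a ≠ b) (hac : a ≠ c) (hbc : b ≠ c) (h₁ : Commute a b) (h₂ : Commute a c) (h₃ : Commute b c) : Commute e (a * b * c) ↔ (Commute e a ∧ Commute e b ∧ Commute e c) := by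
  constructor
  swap
  · rintro ⟨h1, h2, h3⟩
    exact (h1.mul_right h2).mul_right h3
  intro h
  have ha2 := sq_one hE ha
  have hb2 := sq_one hE hb
  have hc2 := sq_one hE hc
  have he2 := sq_one hE he
  have ha2' : ∀ x, a * (a * x) = x := fun x => by rw [← mul_assoc, ha2, one_mul]
  have hb2' : ∀ x, b * (b * x) = x := fun x => by rw [← mul_assoc, hb2, one_mul]
  have hc2' : ∀ x, c * (c * x) = x := fun x => by rw [← mul_assoc, hc2, one_mul]
  have he2' : ∀ x, e * (e * x) = x := fun x => by rw [← mul_assoc, he2, one_mul]
  -- if e commutes with a we are done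
  have stepA : Commute e a → (Commute e a ∧ Commute e b ∧ Commute e c) := by
    intro hea
    have : Commute e (b * c) := by
      have h1 : b * c = a * (a * b * c) := by simp only [mul_assoc, ha2']
      rw [h1]
      exact hea.mul_right h
    exact ⟨hea, (Cfsg.Agent.S0436.result hE hb hc he hbc h₃).1 this⟩
  have stepB : Commute e b → (Commute e a ∧ Commute e b ∧ Commute e c) := by
    intro heb
    have : Commute e (a * c) := by
      have h1 : a * c = b * (a * b * c) := by
        rw [h₁.eq]; simp only [mul_assoc, hb2']
      rw [h1]
      exact heb.mul_right h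
    have := (Cfsg.Agent.S0436.result hE ha hc he hac h₂).1 this
    exact ⟨this.1, heb, this.2⟩
  have stepC : Commute e c → (Commute e a ∧ Commute e b ∧ Commute e c) := by
    intro hec
    have : Commute e (a * b) := by
      have h1 : a * b = (a * b * c) * c := by
        simp only [mul_assoc, hc2, mul_one]
      rw [h1]
      exact h.mul_right hec
    have := (Cfsg.Agent.S0436.result hE ha hb he hab h₁).1 this
    exact ⟨this.1, this.2, hec⟩
  rcases comm_or_braid hE he ha with hA | hA
  · exact stepA hA
  rcases comm_or_braid hE he hb with hB | hB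
  · exact stepB hB
  rcases comm_or_braid hE he hc with hC | hC
  · exact stepC hC
  -- all three braid: derive c = e a e = a e a, so that a commutes with e
  apply stepA
  have h' : e * (a * (b * c)) = a * (b * (c * e)) := by
    have := h.eq
    simpa only [mul_assoc] using this
  -- (e a e)(e b e)(e c e) = a b c
  have h1 : (e * (a * e)) * ((e * (b * e)) * (e * (c * e))) = a * (b * c) := by
    have : (e * (a * e)) * ((e * (b * e)) * (e * (c * e))) = e * (a * (b * c)) * e := by
      simp only [mul_assoc, he2']
    rw [this, h']
    simp only [mul_assoc, he2, mul_one]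
  rw [hA, hB, hC] at h1
  -- a e a b e b c e c = a b c
  have h2 : e * (a * (b * (e * (b * (c * e))))) = b := by
    have := congrArg (fun z => a * z * c) h1
    simp only [mul_assoc, ha2', hc2, mul_one] at this
    exact this
  -- e (a b) e = b e (b c) = (b e b) c = (e b e) c
  have h3 : e * (a * (b * e)) = e * (b * (e * c)) := by
    have := congrArg (fun z => z * e * c * b) h2
    simp only [mul_assoc, he2, hc2, hb2, mul_one, he2', hc2', hb2'] at this
    -- this : e a b e = b e c b
    rw [this, ← h₃.eq]
    have : b * (e * (b * c)) = (b * (e * b)) * c := by simp only [mul_assoc]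
    rw [this, ← hB]
    simp only [mul_assoc]
  have h4 : a * (b * e) = b * (e * c) := mul_left_cancel h3
  have h5 : a * e = e * c := by
    rw [← mul_assoc, h₁.eq, mul_assoc] at h4
    exact mul_left_cancel h4
  have h6 : c = a * (e * a) := by
    rw [← hA, h5, he2']
  -- c commutes with a
  have h7 := h₂.eq
  rw [h6] at h7
  simp only [mul_assoc, ha2', ha2, mul_one] at h7
  exact h7

end Cfsg.Agent.S0437
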