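import Cfsg.Statements.S1696
import Cfsg.Agent.Lib.Helper11.SimpleMaster
import Cfsg.Agent.Lib.Helper11.Fi22aEnc
import Cfsg.Agent.Lib.Helper11.Fi22aLB
import Cfsg.Agent.Lib.Helper11.Fi22OrderUB

set_option autoImplicit false
open Cfsg

namespace Cfsg.Agent.S1696

open Cfsg.Agent.Lib.Helper11 Cfsg.Agent.Lib.Helper11.TC

set_option maxRecDepth 100000

def xw : List ℕ := [8, 4, 10, 6, 16, 2, 0, 14]

def cs : List (List ℕ) := [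
  [2, 4, 6, 8, 10, 14, 6, 4, 2, 8, 6, 16, 14, 6, 4, 8, 6, 2],
  [2, 4, 6, 8, 10, 14, 6, 4, 2, 8, 6, 16, 14, 6, 4, 8, 6, 2, 8, 10],
  [2, 4, 6, 8, 10, 14, 6, 4, 2, 8, 6, 16, 14, 6, 4, 8, 6, 2],
  [2, 4, 6, 8, 10, 14, 6, 4, 2, 8, 6, 16, 14, 6, 4, 8, 6, 2, 8, 10],
  [2, 4, 6, 8, 10, 14, 6, 4, 2, 8, 6, 16, 14, 6, 4, 8, 6, 2],
  [2, 4, 6, 8, 10, 14, 6, 4, 2, 8, 6, 16, 14, 6, 4, 8, 6, 2, 8, 10],
  [2, 4, 6, 8, 10, 14, 6, 4, 2, 8, 6, 16, 14, 6, 4, 8, 6, 2],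
  [2, 4, 6, 8, 10, 14, 6, 4, 2, 8, 6, 16, 14, 6, 4, 8, 6, 2, 8, 10],
  [2, 4, 6, 8, 10, 14, 6, 4, 2, 8, 6, 16, 14, 6, 4, 8, 6, 2],
  [2, 4, 6, 8, 10, 14, 6, 4, 2, 8, 6, 16, 14, 6, 4, 8, 6, 2, 8, 10],
  [2, 4, 6, 8, 10, 14, 6, 4, 2, 8, 6, 16, 14, 6, 4, 8, 6, 2],
  [2, 4, 6, 8, 10, 14, 6, 4, 2, 8, 6, 16, 14, 6, 4, 8, 6, 2, 8, 10],
  [2, 4, 6, 8, 10, 14, 6, 4, 2, 8, 6, 16, 14, 6, 4, 8, 6, 2],
  [2, 4, 6, 8, 10, 14, 6, 4, 2, 8, 6, 16, 14, 6, 4, 8, 6, 2, 8, 10]]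

/-- The presented Fischer group Fi22 is simple of the expected order (that is, it is a simple group of the order of the Fischer group Fi₂₂). -/
theorem result : Cfsg.IsFi22 Cfsg.Spor.Fi22 := by
  have h := Cox.simple_master Fi22a.enc (n := 3510) (N := 64561751654400) Fi22a.tables Fi22a.relsOK Fi22a.orbits
    Fi22Order.card_le Fi22a.lbase (by decide) Fi22a.lb (by norm_num) (by decide +kernel) (by decide +kernel)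
    13 (by norm_num) xw (by decide) (by decide +kernel) 0 (by decide) cs (by decide +kernel)
    (by decide +kernel) 7 (by decide +kernel)
  exact ⟨h.1, h.2⟩

end Cfsg.Agent.S1696
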