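import Cfsg.Statements.S1697
import Cfsg.Agent.Lib.Helper11.SimpleMaster
import Cfsg.Agent.Lib.Helper11.Fi23aEnc
import Cfsg.Agent.Lib.Helper11.Fi23aLB
import Cfsg.Agent.Lib.Helper11.Fi23OrderUB

set_option autoImplicit false
open Cfsg

namespace Cfsg.Agent.S1697

open Cfsg.Agent.Lib.Helper11 Cfsg.Agent.Lib.Helper11.TC

set_option maxRecDepth 100000

def xw : List ℕ := [18, 10, 2, 4, 6, 2, 8, 14, 0, 12, 4]

def cs : List (List ℕ) := [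
  [2, 4, 6, 8, 10, 12, 18, 0, 2, 4, 6, 8],
  [2, 4, 6, 8, 10, 12, 18, 0, 2, 4, 6, 8, 2, 6, 8],
  [2, 4, 6, 8, 10, 12, 18, 0, 2, 4, 6, 8],
  [2, 4, 6, 8, 10, 12, 18, 0, 2, 4, 6, 8, 2, 6, 8],
  [2, 4, 6, 8, 10, 12, 18, 0, 2, 4, 6, 8],
  [2, 4, 6, 8, 10, 12, 18, 0, 2, 4, 6, 8, 2, 6, 8],
  [2, 4, 6, 8, 10, 12, 18, 0, 2, 4, 6, 8],
  [2, 4, 6, 8, 10, 12, 18, 0, 2, 4, 6, 8, 2, 6, 8],
  [2, 4, 6, 8, 10, 12, 18, 0, 2, 4, 6, 8],
  [2, 4, 6, 8, 10, 12, 18, 0, 2, 4, 6, 8, 2, 6, 8],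
  [2, 4, 6, 8, 10, 12, 18, 0, 2, 4, 6, 8],
  [2, 4, 6, 8, 10, 12, 18, 0, 2, 4, 6, 8, 2, 6, 8],
  [2, 4, 6, 8, 10, 12, 18, 0, 2, 4, 6, 8],
  [2, 4, 6, 8, 10, 12, 18, 0, 2, 4, 6, 8, 2, 6, 8]]

/-- The presented Fischer group Fi23 is simple of the expected order (that is, it is a simple group of the order of the Fischer group Fi₂₃). -/
theorem result : Cfsg.IsFi23 Cfsg.Spor.Fi23 := by
  have h := Cox.simple_master Fi23a.enc (n := 31671) (N := 4089470473293004800) Fi23a.tables Fi23a.relsOK Fi23a.orbits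
    Fi23Order.card_le Fi23a.lbase (by decide) Fi23a.lb (by norm_num) (by decide +kernel) (by decide +kernel)
    17 (by norm_num) xw (by decide) (by decide +kernel) 0 (by decide) cs (by decide +kernel)
    (by decide +kernel) 8 (by decide +kernel)
  exact ⟨h.1, h.2⟩

end Cfsg.Agent.S1697
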