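import Cfsg.Statements.S1688
import Cfsg.Agent.Lib.Helper11.DoubleCover
import Cfsg.Agent.Lib.Helper11.Fi22aEnc
import Cfsg.Agent.Lib.Helper11.Fi23aLB
import Cfsg.Agent.Lib.Helper11.Fi23OrderUB
import Cfsg.Agent.S1689
import Cfsg.Agent.S1696
import Cfsg.Agent.S1697

set_option autoImplicit false
open Cfsg

namespace Cfsg.Agent.S1688

open Cfsg.Agent.Lib.Helper11 Cfsg.Agent.Lib.Helper11.TC

set_option maxRecDepth 100000

/-- the word of the central involution -/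
def zw : List ℕ := (List.replicate 9 [2, 4, 6, 8, 10, 12, 14]).flatten

/-- the relators used to show that there is no subgroup of index two -/
def rels9 : List (List ℕ) := [
  [0, 2, 0, 2, 0, 2], [2, 4, 2, 4, 2, 4], [4, 6, 4, 6, 4, 6], [6, 8, 6, 8, 6, 8], [6, 14, 6, 14, 6, 14],
  [8, 10, 8, 10, 8, 10], [10, 12, 10, 12, 10, 12], [14, 16, 14, 16, 14, 16],
  (List.replicate 9 [0, 2, 4, 6, 8, 10, 14]).flatten]

theorem collapse : Simp.Collapses Fi22a.Ls (rels9 ++ DC.sqW Fi22a.Ls) 31 :=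
  DC.collapses_of_derived
    [([0, 2, 0, 2, 0, 2], [0, 2, 0, 2]), ([2, 4, 2, 4, 2, 4], [2, 4, 2, 4]),
     ([4, 6, 4, 6, 4, 6], [4, 6, 4, 6]), ([6, 8, 6, 8, 6, 8], [6, 8, 6, 8]),
     ([6, 14, 6, 14, 6, 14], [6, 14, 6, 14]), ([8, 10, 8, 10, 8, 10], [8, 10, 8, 10]),
     ([10, 12, 10, 12, 10, 12], [10, 12, 10, 12]), ([14, 16, 14, 16, 14, 16], [14, 16, 14, 16])]
    (by decide +kernel) (Simp.collapses_of_idIter _ _ 31 2 (by decide +kernel))

abbrev gen : ℕ → Cfsg.Spor.Fi23 := Cox.genOf Fi23a.dec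
  (PresentedGroup.of : Cfsg.Spor.Fi23.Gen → Cfsg.Spor.CoxPresented Cfsg.Spor.Fi23.Gen Cfsg.Spor.Fi23.edges Cfsg.Spor.Fi23.extra)

theorem main : Cfsg.IsNonsplitDoubleCover (Subgroup.closure {x | ∃ l ∈ Fi22a.Ls, x = gen l})
    Cfsg.Spor.Fi22 := by
  obtain ⟨φ, hφ⟩ := Cox.exists_rep Fi23a.enc Fi23a.tables Fi23a.relsOK
  obtain ⟨hcard, hinj, hwp⟩ := Cox.order_master Fi23a.enc Fi23a.tables φ hφ Fi23Order.card_le
    Fi23a.lbase (by decide) Fi23a.lb (by norm_num)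
  have hfinG : Finite Cfsg.Spor.Fi23 := Fi23Order.card_le.1
  have hsq : ∀ l, gen l * gen l = 1 := Cox.gen_sq Fi23a.enc
  have hz2 : ev gen zw * ev gen zw = 1 := by
    rw [← Simp.ev_append]
    exact hwp _ (by decide +kernel) (by decide +kernel)
  have hfin22 : Finite Cfsg.Spor.Fi22 := Nat.finite_of_card_ne_zero (by
    rw [Cfsg.Agent.S1696.result.2]; norm_num)
  apply DC.doubleCover Fi22a.enc gen hsq (by decide) inferInstance zw (by decide +kernel) _ hz2 _ _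
    hfin22 Cfsg.Agent.S1696.result.1 (by rw [Cfsg.Agent.S1696.result.2]; norm_num) _ rels9 _ collapse
  · -- z ≠ 1
    intro h
    have h1 : ev (PR.pg 31671 Fi23a.tbl (fun l => l) Fi23a.Ls) zw = 1 := by
      rw [← PR.map_ev φ gen _ Fi23a.Ls hφ zw (by decide +kernel), h, map_one]
    have h2 := PR.ev_pg_inv_apply Fi23a.tables zw (by decide +kernel) (⟨1, by norm_num⟩ : Fin 31671)
    rw [h1] at h2
    simp only [inv_one, Equiv.Perm.coe_one, id_eq] at h2
    revert h2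
    decide +kernel
  · -- z is central
    intro l hl
    have h1 : ev gen ([l] ++ zw ++ ([l] ++ zw.reverse)) = 1 := by
      apply hwp
      · revert l; decide +kernel
      · revert l; decide +kernel
    rw [Simp.ev_append, Simp.ev_append, Simp.ev_append, Simp.ev_reverse gen hsq] at h1
    simp only [ev_cons, ev_nil, mul_one] at h1
    have h2 : gen l * ev gen zw = (gen l * (ev gen zw)⁻¹)⁻¹ := eq_inv_of_mul_eq_one_left h1
    rw [h2, mul_inv_rev, inv_inv, ← eq_inv_of_mul_eq_one_left (hsq l)]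
  · -- the relators of Fi22
    intro r hr
    have h1 : ∀ r ∈ Fi22a.coxW ++ Fi22a.extraW, r ∈ Fi23a.coxW ++ Fi23a.extraW ∨ r = zw := by
      decide +kernel
    rcases h1 r hr with h | h
    · exact Or.inl (Cox.words_hold Fi23a.enc r h)
    · exact Or.inr h
  · -- the order
    have hidx := Cfsg.Agent.S1689.result.1
    rw [MonoidHom.map_closure, Cfsg.Agent.S1689.hS] at hidx
    have hset : {g | ∃ s ∈ Fi23a.subs, g = ev gen s} = {x | ∃ l ∈ Fi22a.Ls, x = gen l} := by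
      ext g
      simp only [Set.mem_setOf_eq, Fi23a.subs, Fi22a.Ls, List.mem_cons, List.mem_nil_iff, or_false,
        exists_eq_or_imp, exists_eq_left, ev_cons, ev_nil, mul_one]
    rw [hset] at hidx
    have h2 := Subgroup.index_mul_card (Subgroup.closure {x | ∃ l ∈ Fi22a.Ls, x = gen l})
    rw [hidx, hcard] at h2
    rw [Cfsg.Agent.S1696.result.2]
    omega
  · intro r hr
    have h1 : ∀ r ∈ rels9, r ∈ Fi23a.coxW ++ Fi23a.extraW ∧ ∀ l ∈ r, l ∈ Fi22a.Ls := by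
      decide +kernel
    exact ⟨Cox.words_hold Fi23a.enc r (h1 r hr).1, (h1 r hr).2⟩

/-- In the presented Fischer group Fi₂₃, the subgroup generated by the images of a, …, i is a non-split double cover of the presented Fischer group Fi₂₂. -/
theorem result : Cfsg.IsNonsplitDoubleCover (((Subgroup.closure ({Cfsg.Spor.Fi23.a, Cfsg.Spor.Fi23.b, Cfsg.Spor.Fi23.c, Cfsg.Spor.Fi23.d, Cfsg.Spor.Fi23.e, Cfsg.Spor.Fi23.f, Cfsg.Spor.Fi23.g, Cfsg.Spor.Fi23.h, Cfsg.Spor.Fi23.i} : Set (FreeGroup Cfsg.Spor.Fi23.Gen))).map (PresentedGroup.mk (Cfsg.Spor.coxRelators Cfsg.Spor.Fi23.edges ∪ {r | r ∈ Cfsg.Spor.Fi23.extra})))) Cfsg.Spor.Fi22 := by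
  rw [MonoidHom.map_closure, Cfsg.Agent.S1689.hS]
  have hset : {g | ∃ s ∈ Fi23a.subs, g = ev gen s} = {x | ∃ l ∈ Fi22a.Ls, x = gen l} := by
    ext g
    simp only [Set.mem_setOf_eq, Fi23a.subs, Fi22a.Ls, List.mem_cons, List.mem_nil_iff, or_false,
      exists_eq_or_imp, exists_eq_left, ev_cons, ev_nil, mul_one]
  rw [hset]
  exact main

end Cfsg.Agent.S1688
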