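import Cfsg.Statements.S0493
import Mathlib
import Cfsg.Agent.S0073
import Cfsg.Agent.S0144
import Cfsg.Agent.H4.SolvMin

set_option autoImplicit false
open Cfsg

namespace Cfsg.Agent.S0493

theorem two_prime (n : ℕ) (h0 : 0 < n) (h : n ≤ 100) :
    (∃ p q a b : ℕ, p.Prime ∧ q.Prime ∧ n = p ^ a * q ^ b) ∨
      (n = 30 ∨ n = 42 ∨ n = 60 ∨ n = 66 ∨ n = 70 ∨ n = 78 ∨ n = 84 ∨ n = 90) := by
  interval_cases n
  · exact Or.inl ⟨2, 3, 0, 0, by norm_num, by norm_num, by norm_num⟩
  · exact Or.inl ⟨2, 3, 1, 0, by norm_num, by norm_num, by norm_num⟩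
  · exact Or.inl ⟨3, 2, 1, 0, by norm_num, by norm_num, by norm_num⟩
  · exact Or.inl ⟨2, 3, 2, 0, by norm_num, by norm_num, by norm_num⟩
  · exact Or.inl ⟨5, 2, 1, 0, by norm_num, by norm_num, by norm_num⟩
  · exact Or.inl ⟨2, 3, 1, 1, by norm_num, by norm_num, by norm_num⟩
  · exact Or.inl ⟨7, 2, 1, 0, by norm_num, by norm_num, by norm_num⟩
  · exact Or.inl ⟨2, 3, 3, 0, by norm_num, by norm_num, by norm_num⟩
  · exact Or.inl ⟨3, 2, 2, 0, by norm_num, by norm_num, by norm_num⟩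
  · exact Or.inl ⟨2, 5, 1, 1, by norm_num, by norm_num, by norm_num⟩
  · exact Or.inl ⟨11, 2, 1, 0, by norm_num, by norm_num, by norm_num⟩
  · exact Or.inl ⟨2, 3, 2, 1, by norm_num, by norm_num, by norm_num⟩
  · exact Or.inl ⟨13, 2, 1, 0, by norm_num, by norm_num, by norm_num⟩
  · exact Or.inl ⟨2, 7, 1, 1, by norm_num, by norm_num, by norm_num⟩
  · exact Or.inl ⟨3, 5, 1, 1, by norm_num, by norm_num, by norm_num⟩
  · exact Or.inl ⟨2, 3, 4, 0, by norm_num, by norm_num, by norm_num⟩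
  · exact Or.inl ⟨17, 2, 1, 0, by norm_num, by norm_num, by norm_num⟩
  · exact Or.inl ⟨2, 3, 1, 2, by norm_num, by norm_num, by norm_num⟩
  · exact Or.inl ⟨19, 2, 1, 0, by norm_num, by norm_num, by norm_num⟩
  · exact Or.inl ⟨2, 5, 2, 1, by norm_num, by norm_num, by norm_num⟩
  · exact Or.inl ⟨3, 7, 1, 1, by norm_num, by norm_num, by norm_num⟩
  · exact Or.inl ⟨2, 11, 1, 1, by norm_num, by norm_num, by norm_num⟩
  · exact Or.inl ⟨23, 2, 1, 0, by norm_num, by norm_num, by norm_num⟩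
  · exact Or.inl ⟨2, 3, 3, 1, by norm_num, by norm_num, by norm_num⟩
  · exact Or.inl ⟨5, 2, 2, 0, by norm_num, by norm_num, by norm_num⟩
  · exact Or.inl ⟨2, 13, 1, 1, by norm_num, by norm_num, by norm_num⟩
  · exact Or.inl ⟨3, 2, 3, 0, by norm_num, by norm_num, by norm_num⟩
  · exact Or.inl ⟨2, 7, 2, 1, by norm_num, by norm_num, by norm_num⟩
  · exact Or.inl ⟨29, 2, 1, 0, by norm_num, by norm_num, by norm_num⟩
  · right; simp
  · exact Or.inl ⟨31, 2, 1, 0, by norm_num, by norm_num, by norm_num⟩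
  · exact Or.inl ⟨2, 3, 5, 0, by norm_num, by norm_num, by norm_num⟩
  · exact Or.inl ⟨3, 11, 1, 1, by norm_num, by norm_num, by norm_num⟩
  · exact Or.inl ⟨2, 17, 1, 1, by norm_num, by norm_num, by norm_num⟩
  · exact Or.inl ⟨5, 7, 1, 1, by norm_num, by norm_num, by norm_num⟩
  · exact Or.inl ⟨2, 3, 2, 2, by norm_num, by norm_num, by norm_num⟩
  · exact Or.inl ⟨37, 2, 1, 0, by norm_num, by norm_num, by norm_num⟩
  · exact Or.inl ⟨2, 19, 1, 1, by norm_num, by norm_num, by norm_num⟩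
  · exact Or.inl ⟨3, 13, 1, 1, by norm_num, by norm_num, by norm_num⟩
  · exact Or.inl ⟨2, 5, 3, 1, by norm_num, by norm_num, by norm_num⟩
  · exact Or.inl ⟨41, 2, 1, 0, by norm_num, by norm_num, by norm_num⟩
  · right; simp
  · exact Or.inl ⟨43, 2, 1, 0, by norm_num, by norm_num, by norm_num⟩
  · exact Or.inl ⟨2, 11, 2, 1, by norm_num, by norm_num, by norm_num⟩
  · exact Or.inl ⟨3, 5, 2, 1, by norm_num, by norm_num, by norm_num⟩
  · exact Or.inl ⟨2, 23, 1, 1, by norm_num, by norm_num, by norm_num⟩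
  · exact Or.inl ⟨47, 2, 1, 0, by norm_num, by norm_num, by norm_num⟩
  · exact Or.inl ⟨2, 3, 4, 1, by norm_num, by norm_num, by norm_num⟩
  · exact Or.inl ⟨7, 2, 2, 0, by norm_num, by norm_num, by norm_num⟩
  · exact Or.inl ⟨2, 5, 1, 2, by norm_num, by norm_num, by norm_num⟩
  · exact Or.inl ⟨3, 17, 1, 1, by norm_num, by norm_num, by norm_num⟩
  · exact Or.inl ⟨2, 13, 2, 1, by norm_num, by norm_num, by norm_num⟩
  · exact Or.inl ⟨53, 2, 1, 0, by norm_num, by norm_num, by norm_num⟩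
  · exact Or.inl ⟨2, 3, 1, 3, by norm_num, by norm_num, by norm_num⟩
  · exact Or.inl ⟨5, 11, 1, 1, by norm_num, by norm_num, by norm_num⟩
  · exact Or.inl ⟨2, 7, 3, 1, by norm_num, by norm_num, by norm_num⟩
  · exact Or.inl ⟨3, 19, 1, 1, by norm_num, by norm_num, by norm_num⟩
  · exact Or.inl ⟨2, 29, 1, 1, by norm_num, by norm_num, by norm_num⟩
  · exact Or.inl ⟨59, 2, 1, 0, by norm_num, by norm_num, by norm_num⟩
  · right; simp
  · exact Or.inl ⟨61, 2, 1, 0, by norm_num, by norm_num, by norm_num⟩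
  · exact Or.inl ⟨2, 31, 1, 1, by norm_num, by norm_num, by norm_num⟩
  · exact Or.inl ⟨3, 7, 2, 1, by norm_num, by norm_num, by norm_num⟩
  · exact Or.inl ⟨2, 3, 6, 0, by norm_num, by norm_num, by norm_num⟩
  · exact Or.inl ⟨5, 13, 1, 1, by norm_num, by norm_num, by norm_num⟩
  · right; simp
  · exact Or.inl ⟨67, 2, 1, 0, by norm_num, by norm_num, by norm_num⟩
  · exact Or.inl ⟨2, 17, 2, 1, by norm_num, by norm_num, by norm_num⟩
  · exact Or.inl ⟨3, 23, 1, 1, by norm_num, by norm_num, by norm_num⟩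
  · right; simp
  · exact Or.inl ⟨71, 2, 1, 0, by norm_num, by norm_num, by norm_num⟩
  · exact Or.inl ⟨2, 3, 3, 2, by norm_num, by norm_num, by norm_num⟩
  · exact Or.inl ⟨73, 2, 1, 0, by norm_num, by norm_num, by norm_num⟩
  · exact Or.inl ⟨2, 37, 1, 1, by norm_num, by norm_num, by norm_num⟩
  · exact Or.inl ⟨3, 5, 1, 2, by norm_num, by norm_num, by norm_num⟩
  · exact Or.inl ⟨2, 19, 2, 1, by norm_num, by norm_num, by norm_num⟩
  · exact Or.inl ⟨7, 11, 1, 1, by norm_num, by norm_num, by norm_num⟩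
  · right; simp
  · exact Or.inl ⟨79, 2, 1, 0, by norm_num, by norm_num, by norm_num⟩
  · exact Or.inl ⟨2, 5, 4, 1, by norm_num, by norm_num, by norm_num⟩
  · exact Or.inl ⟨3, 2, 4, 0, by norm_num, by norm_num, by norm_num⟩
  · exact Or.inl ⟨2, 41, 1, 1, by norm_num, by norm_num, by norm_num⟩
  · exact Or.inl ⟨83, 2, 1, 0, by norm_num, by norm_num, by norm_num⟩
  · right; simp
  · exact Or.inl ⟨5, 17, 1, 1, by norm_num, by norm_num, by norm_num⟩
  · exact Or.inl ⟨2, 43, 1, 1, by norm_num, by norm_num, by norm_num⟩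
  · exact Or.inl ⟨3, 29, 1, 1, by norm_num, by norm_num, by norm_num⟩
  · exact Or.inl ⟨2, 11, 3, 1, by norm_num, by norm_num, by norm_num⟩
  · exact Or.inl ⟨89, 2, 1, 0, by norm_num, by norm_num, by norm_num⟩
  · right; simp
  · exact Or.inl ⟨7, 13, 1, 1, by norm_num, by norm_num, by norm_num⟩
  · exact Or.inl ⟨2, 23, 2, 1, by norm_num, by norm_num, by norm_num⟩
  · exact Or.inl ⟨3, 31, 1, 1, by norm_num, by norm_num, by norm_num⟩
  · exact Or.inl ⟨2, 47, 1, 1, by norm_num, by norm_num, by norm_num⟩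
  · exact Or.inl ⟨5, 19, 1, 1, by norm_num, by norm_num, by norm_num⟩
  · exact Or.inl ⟨2, 3, 5, 1, by norm_num, by norm_num, by norm_num⟩
  · exact Or.inl ⟨97, 2, 1, 0, by norm_num, by norm_num, by norm_num⟩
  · exact Or.inl ⟨2, 7, 1, 2, by norm_num, by norm_num, by norm_num⟩
  · exact Or.inl ⟨3, 11, 2, 1, by norm_num, by norm_num, by norm_num⟩
  · exact Or.inl ⟨2, 5, 2, 2, by norm_num, by norm_num, by norm_num⟩

/-- A finite simple group of order at most 100 that is not cyclic has order 60. -/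
theorem result {G : Type*} [Group G] [Finite G] [IsSimpleGroup G]
    (hG : ¬ IsCyclic G) (h : Nat.card G ≤ 100) : Nat.card G = 60 := by
  have hnc : ∃ x y : G, x * y ≠ y * x := by
    by_contra hcon
    push Not at hcon
    apply hG
    let _ : CommGroup G := { (inferInstance : Group G) with mul_comm := hcon }
    exact IsSimpleGroup.isCyclic
  have hns : ¬ Group.IsSolvable G := by
    intro hs
    obtain ⟨x, y, hxy⟩ := hnc
    exact hxy (IsSimpleGroup.comm_iff_isSolvable.mpr hs x y)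
  have h73 := Cfsg.Agent.S0073.result hnc
  rcases two_prime (Nat.card G) Nat.card_pos h with ⟨p, q, a, b, hp, hq, hc⟩ | hc
  · exact absurd (Cfsg.Agent.S0144.result p q a b hp hq hc) hns
  · rcases hc with hc | hc | hc | hc | hc | hc | hc | hc
    · rw [hc] at h73; norm_num at h73
    · rw [hc] at h73; norm_num at h73
    · exact hc
    · rw [hc] at h73; norm_num at h73
    · rw [hc] at h73; norm_num at h73
    · rw [hc] at h73; norm_num at h73
    · exfalso
      have : Fact (Nat.Prime 7) := ⟨by norm_num⟩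
      obtain ⟨P⟩ : Nonempty (Sylow 7 G) := inferInstance
      have h1 : Nat.card (Sylow 7 G) ∣ 84 := by
        rw [← hc]
        exact (P.card_dvd_index).trans (Subgroup.index_dvd_card _)
      have h2 : Nat.card (Sylow 7 G) ≡ 1 [MOD 7] := card_sylow_modEq_one 7 G
      have h3 : Nat.card (Sylow 7 G) = 1 := by
        have h4 : Nat.card (Sylow 7 G) ≤ 84 := Nat.le_of_dvd (by norm_num) h1
        unfold Nat.ModEq at h2
        generalize Nat.card (Sylow 7 G) = k at h1 h2 h4
        interval_cases k <;> first | rfl | omega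
      have h5 : (P : Subgroup G).Normal := by
        have : Subsingleton (Sylow 7 G) := (Nat.card_eq_one_iff_unique.mp h3).1
        exact Sylow.normal_of_subsingleton P
      rcases h5.eq_bot_or_eq_top with h6 | h6
      · exact P.ne_bot_of_dvd_card (by rw [hc]; norm_num) h6
      · apply hns
        have h7 : IsPGroup 7 G := Cfsg.Agent.H4.isPGroup_of_eq_top P.2 h6
        have := h7.isNilpotent
        infer_instance
    · rw [hc] at h73; norm_num at h73

end Cfsg.Agent.S0493
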