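import Cfsg.Statements.S0556
import Mathlib
import Cfsg.Agent.H4.FrobThm4
import Cfsg.Agent.H4.Basic2
import Cfsg.Agent.H4.Frattini
import Cfsg.Agent.H4.Subnormal2

set_option autoImplicit false
open Cfsg

namespace Cfsg.Agent.S0556

open Subgroup Cfsg.Agent.H4 Cfsg.Agent.Lib.Helper22
open scoped Pointwise commutatorElement

/-- if `G = K A` with `K` normal abelian and `A` abelian then `G'' = 1`. -/
theorem derived_two_of_metabelian {X : Type*} [Group X] (K A : Subgroup X) [hK : K.Normal]
    (hsup : K ⊔ A = ⊤) (hKc : ∀ a ∈ K, ∀ b ∈ K, a * b = b * a)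
    (hAc : ∀ a ∈ A, ∀ b ∈ A, a * b = b * a) : derivedSeries X 2 = ⊥ := by
  have h1 : derivedSeries X 1 ≤ K := by
    rw [derivedSeries_succ, derivedSeries_zero, Subgroup.commutator_le]
    intro x _ y _
    have hx : x ∈ K ⊔ A := hsup ▸ mem_top x
    have hy : y ∈ K ⊔ A := hsup ▸ mem_top y
    obtain ⟨k, hk, a, ha, rfl⟩ := mem_sup_of_normal_left.mp hx
    obtain ⟨k', hk', a', ha', rfl⟩ := mem_sup_of_normal_left.mp hy
    rw [← QuotientGroup.eq_one_iff, ← QuotientGroup.mk'_apply, map_commutatorElement,
      commutatorElement_eq_one_iff_mul_comm, map_mul, map_mul]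
    have e1 : QuotientGroup.mk' K k = 1 := (QuotientGroup.eq_one_iff k).mpr hk
    have e2 : QuotientGroup.mk' K k' = 1 := (QuotientGroup.eq_one_iff k').mpr hk'
    rw [e1, e2, one_mul, one_mul, ← map_mul, ← map_mul, hAc a ha a' ha']
  rw [derivedSeries_succ, eq_bot_iff]
  refine (Subgroup.commutator_mono h1 h1).trans ?_
  rw [Subgroup.commutator_le]
  intro x hx y hy
  rw [mem_bot, commutatorElement_eq_one_iff_mul_comm]
  exact hKc x hx y hy

/-- If a finite group has a maximal subgroup that is abelian, then the third term of its derived series is trivial (so the group is solvable of derived length at most three). -/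
theorem result {G : Type*} [Group G] [Finite G] (A : Subgroup G) (hA : IsCoatom A) [IsMulCommutative A] : derivedSeries G 3 = ⊥ := by
  have hAc : ∀ a ∈ A, ∀ b ∈ A, a * b = b * a := fun a ha b hb => comm_of_mem ha hb
  by_cases hAn : A.Normal
  · -- normal case
    obtain ⟨x, hx⟩ : ∃ x, x ∉ A := by
      by_contra hcon
      push Not at hcon
      exact hA.1 (eq_top_iff.mpr fun y _ => hcon y)
    have hsup : A ⊔ zpowers x = ⊤ := by
      apply hA.2
      refine lt_of_le_of_ne le_sup_left fun h => hx ?_
      rw [h]
      exact mem_sup_right (mem_zpowers x)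
    have h2 := derived_two_of_metabelian A (zpowers x) hsup hAc (by
      rintro _ ⟨i, rfl⟩ _ ⟨j, rfl⟩
      simp only
      rw [← zpow_add, ← zpow_add, add_comm])
    rw [derivedSeries_succ, h2, Subgroup.commutator_bot_left]
  · -- non-normal case: `G / Z(G)` is a Frobenius group with complement `A / Z(G)`
    have hNA : normalizer (A : Set G) = A := by
      rcases hA.le_iff.mp (le_normalizer : A ≤ normalizer (A : Set G)) with h | h
      · exact absurd (normalizer_eq_top_iff.mp h) hAn
      · exact h
    set Z := center G with hZ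
    have hZA : Z ≤ A := by
      rw [← hNA]
      intro z hz
      rw [mem_normalizer_iff]
      intro a
      have : z * a * z⁻¹ = a := by
        rw [← mem_center_iff.mp hz a]; group
      rw [this]
    have hint : ∀ g : G, g ∉ A → ∀ a ∈ A, g⁻¹ * a * g ∈ A → a ∈ Z := by
      intro g hg a ha hga
      have h1 : A ≤ centralizer {a} := by
        intro b hb
        rw [mem_centralizer_singleton_iff]
        exact hAc b hb a ha
      have h2 : MulAut.conj g • A ≤ centralizer {a} := by
        intro b hb
        rw [mem_conj_smul_iff] at hb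
        rw [mem_centralizer_singleton_iff]
        have h3 := hAc _ hb _ hga
        calc b * a = g * ((g⁻¹ * b * g) * (g⁻¹ * a * g)) * g⁻¹ := by group
          _ = g * ((g⁻¹ * a * g) * (g⁻¹ * b * g)) * g⁻¹ := by rw [h3]
          _ = a * b := by group
      have h3 : ¬ MulAut.conj g • A ≤ A := by
        intro h
        apply hg
        rw [← hNA, ← conj_smul_eq_iff_mem_normalizer]
        exact eq_of_le_of_card_ge h (by rw [card_conj_smul'])
      have h4 : centralizer {a} = ⊤ := by
        apply hA.2
        refine lt_of_le_of_ne h1 fun h => h3 ?_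
        exact h2.trans h.ge
      rw [hZ, mem_center_iff]
      intro b
      have : b ∈ centralizer {a} := h4 ▸ mem_top b
      exact (mem_centralizer_singleton_iff.mp this)
    set π := QuotientGroup.mk' Z with hπ
    have hker : ∀ x : G, π x = 1 ↔ x ∈ Z := fun x => QuotientGroup.eq_one_iff x
    have hmemA : ∀ x : G, π x ∈ A.map π → x ∈ A := by
      rintro x ⟨a, ha, hax⟩
      have h1 : π (a⁻¹ * x) = 1 := by rw [map_mul, map_inv, hax, inv_mul_cancel]
      rw [hker] at h1
      have := A.mul_mem ha (hZA h1)
      rwa [mul_inv_cancel_left] at this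
    have hF : Cfsg.IsFrobeniusComplement (A.map π) := by
      rw [isFrobeniusComplement_iff]
      refine ⟨?_, ?_, ?_⟩
      · intro h
        apply hAn
        have h1 : A ≤ Z := by
          intro a ha
          rw [← hker]
          have : π a ∈ A.map π := mem_map_of_mem π ha
          rwa [h, mem_bot] at this
        rw [le_antisymm h1 hZA]
        infer_instance
      · intro h
        apply hA.1
        rw [eq_top_iff]
        intro x _
        exact hmemA x (h ▸ mem_top _)
      · intro u x hu hx hux
        obtain ⟨g, rfl⟩ := QuotientGroup.mk'_surjective Z u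
        obtain ⟨a, ha, rfl⟩ := hx
        have hg : g ∉ A := fun h => hu (mem_map_of_mem π h)
        rw [hker]
        apply hint g hg a ha
        apply hmemA
        rw [map_mul, map_mul, map_inv]
        exact hux
    obtain ⟨K, -, hKn, hKc⟩ := frobenius_kernel _ hF
    obtain ⟨V, hVK, hV0, hVc, hAV⟩ := frob_exists_invariant_abelian hF K hKc
    have hco : IsCoatom (A.map π) := isCoatom_map_mk' Z hA hZA
    have hd : K ⊓ A.map π = ⊥ := hKc.disjoint.eq_bot
    have hsupV : V ⊔ A.map π = ⊤ := by
      apply hco.2
      refine lt_of_le_of_ne le_sup_right fun h => hV0 ?_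
      have h1 : V ≤ A.map π := by rw [h]; exact le_sup_left
      rw [eq_bot_iff, ← hd]
      exact le_inf hVK h1
    have hVn : V.Normal := by
      rw [← normalizer_eq_top_iff, eq_top_iff, ← hsupV]
      exact sup_le le_normalizer hAV
    have h2 := derived_two_of_metabelian V (A.map π) hsupV hVc (by
      rintro _ ⟨a, ha, rfl⟩ _ ⟨b, hb, rfl⟩
      rw [← map_mul, ← map_mul, hAc a ha b hb])
    have h3 : derivedSeries G 2 ≤ Z := by
      have h4 := map_derivedSeries_eq (QuotientGroup.mk'_surjective Z) 2
      rw [h2, Subgroup.map_eq_bot_iff, QuotientGroup.ker_mk'] at h4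
      exact h4
    rw [derivedSeries_succ, eq_bot_iff]
    refine (Subgroup.commutator_mono h3 h3).trans ?_
    rw [Subgroup.commutator_le]
    intro x hx y _
    rw [mem_bot, commutatorElement_eq_one_iff_mul_comm]
    exact (mem_center_iff.mp hx y).symm

end Cfsg.Agent.S0556
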