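import Cfsg.Statements.S0640
import Mathlib
import Cfsg.Agent.S4400
import Cfsg.Agent.S0126
import Cfsg.Agent.S0093
import Cfsg.Agent.S0120
import Cfsg.Agent.S0121
import Cfsg.Agent.S0096
import Cfsg.Agent.S0012

set_option autoImplicit false
open Cfsg

namespace Cfsg.Agent.S0640

theorem card_le_cube {V : Type*} [Group V] [Finite V] {p : ℕ} [Fact p.Prime] (hp : p ≠ 2)
    (hV : IsPGroup p V) (hexp : ∀ v : V, v ^ p = 1) (hrk : Cfsg.PRankLE p 2 V) :
    Nat.card V ≤ p ^ 3 := by
  classical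
  have hpp : p.Prime := Fact.out
  by_cases hc : IsCyclic V
  · have h1 := hrk ⊤ ⟨⟨fun a b => Subtype.ext
      ((IsCyclic.isMulCommutative (α := V)).is_comm.comm a.1 b.1)⟩⟩ (fun a _ => hexp a)
    rw [Subgroup.card_top] at h1
    exact h1.trans (Nat.pow_le_pow_right hpp.pos (by norm_num))
  obtain ⟨A, hAn, ⟨hAc, _⟩, hAcard⟩ := Cfsg.Agent.S0126.result hp hV hc
  haveI := hAn
  have hAbot : A ≠ ⊥ := by
    rintro rfl
    rw [Subgroup.card_bot] at hAcard
    have := hpp.two_le
    nlinarith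
  obtain ⟨z, hzA, hz1, hzc⟩ := Cfsg.Agent.S4400.exists_center_of_normal hV A hAbot
  have hordz : orderOf z ≤ p := Nat.le_of_dvd hpp.pos (orderOf_dvd_of_pow_eq_one (hexp z))
  obtain ⟨e, heA, hez⟩ : ∃ e ∈ A, e ∉ Subgroup.zpowers z := by
    apply SetLike.not_le_iff_exists.mp
    intro hle
    have h1 := Subgroup.card_le_of_le hle
    rw [hAcard, Nat.card_zpowers] at h1
    have := hpp.two_le
    nlinarith
  have hB : Subgroup.zpowers z ⊔ Subgroup.zpowers e = A := by
    have hle : Subgroup.zpowers z ⊔ Subgroup.zpowers e ≤ A :=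
      sup_le (Subgroup.zpowers_le.mpr hzA) (Subgroup.zpowers_le.mpr heA)
    apply Subgroup.eq_of_le_of_card_ge hle
    have hd : Nat.card ↥(Subgroup.zpowers z ⊔ Subgroup.zpowers e) ∣ p ^ 2 :=
      hAcard ▸ Subgroup.card_dvd_of_le hle
    obtain ⟨i, hi, hi'⟩ := (Nat.dvd_prime_pow hpp).mp hd
    rw [hAcard, hi']
    apply Nat.pow_le_pow_right hpp.pos
    by_contra hlt
    have hi1 : i ≤ 1 := by omega
    have h2 : Nat.card ↥(Subgroup.zpowers z ⊔ Subgroup.zpowers e) ≤ p := by
      rw [hi']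
      calc p ^ i ≤ p ^ 1 := Nat.pow_le_pow_right hpp.pos hi1
        _ = p := pow_one p
    have hordz' : orderOf z = p := by
      rcases (Nat.dvd_prime hpp).mp (orderOf_dvd_of_pow_eq_one (hexp z)) with h | h
      · exact absurd (orderOf_eq_one_iff.mp h) hz1
      · exact h
    have h3 : Subgroup.zpowers z = Subgroup.zpowers z ⊔ Subgroup.zpowers e :=
      Subgroup.eq_of_le_of_card_ge le_sup_left (by rw [Nat.card_zpowers, hordz']; exact h2)
    apply hez
    rw [h3]
    exact (le_sup_right : Subgroup.zpowers e ≤ _) (Subgroup.mem_zpowers e)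
  have hAcomm : ∀ a ∈ A, ∀ b ∈ A, Commute a b := fun a ha b hb =>
    congrArg Subtype.val (hAc.is_comm.comm ⟨a, ha⟩ ⟨b, hb⟩)
  -- the centralizer of e lies in A
  have hSt : ∀ c : V, c * e = e * c → c ∈ A := by
    intro c hce
    have hcA : ∀ a ∈ A, Commute c a := by
      intro a ha
      have h1 : A ≤ Subgroup.centralizer {c} := by
        rw [← hB]
        refine sup_le (Subgroup.zpowers_le.mpr ?_) (Subgroup.zpowers_le.mpr ?_)
        · rw [Subgroup.mem_centralizer_singleton_iff]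
          exact (Subgroup.mem_center_iff.mp hzc c).symm
        · rw [Subgroup.mem_centralizer_singleton_iff]
          exact hce.symm
      exact (Subgroup.mem_centralizer_singleton_iff.mp (h1 ha)).symm
    have hE : Nat.card ↥(A ⊔ Subgroup.zpowers c) ≤ p ^ 2 := by
      apply hrk _ _ (fun a _ => hexp a)
      refine ⟨⟨fun x y => Subtype.ext ?_⟩⟩
      obtain ⟨a, ha, w, hw, hx⟩ := Subgroup.mem_sup_of_normal_left.mp x.2
      obtain ⟨b, hb, w', hw', hy⟩ := Subgroup.mem_sup_of_normal_left.mp y.2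
      obtain ⟨i, rfl⟩ := Subgroup.mem_zpowers_iff.mp hw
      obtain ⟨j, rfl⟩ := Subgroup.mem_zpowers_iff.mp hw'
      show (x : V) * (y : V) = (y : V) * (x : V)
      rw [← hx, ← hy]
      have c1 : Commute a b := hAcomm a ha b hb
      have c2 : Commute a (c ^ j) := ((hcA a ha).symm).zpow_right j
      have c3 : Commute (c ^ i) b := (hcA b hb).zpow_left i
      have c4 : Commute (c ^ i) (c ^ j) := ((Commute.refl c).zpow_left i).zpow_right j
      exact ((c1.mul_right c2).mul_left (c3.mul_right c4)).eq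
    have h2 : A = A ⊔ Subgroup.zpowers c :=
      Subgroup.eq_of_le_of_card_ge le_sup_left (by rw [hAcard]; exact hE)
    rw [h2]
    exact (le_sup_right : Subgroup.zpowers c ≤ _) (Subgroup.mem_zpowers c)
  letI : MulAction V A := MulAction.compHom A (MulAut.conjNormal (H := A))
  have hsm : ∀ (g : V) (n : A), ((g • n : A) : V) = g * n * g⁻¹ := fun g n => rfl
  set ea : A := ⟨e, heA⟩ with hea
  have he1 : e ≠ 1 := fun h => hez (h ▸ Subgroup.one_mem _)
  have i1 := MulAction.index_stabilizer V ea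
  have i2 : (MulAction.orbit V ea).ncard < p ^ 2 := by
    have h1 : MulAction.orbit V ea ⊆ ({1}ᶜ : Set A) := by
      rintro _ ⟨g, rfl⟩ h
      have h2 : ((g • ea : A) : V) = 1 := congrArg Subtype.val h
      rw [hsm] at h2
      apply he1
      have h3 : e = g⁻¹ * (g * e * g⁻¹) * g := by group
      rw [h3]
      rw [show ((ea : A) : V) = e from rfl] at h2
      rw [h2]; group
    have h2 := Set.ncard_le_ncard h1 (Set.toFinite _)
    have h3 : ({1}ᶜ : Set A).ncard = Nat.card A - 1 := by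
      rw [Set.ncard_compl, Set.ncard_singleton]
    rw [h3, hAcard] at h2
    have : 0 < p ^ 2 := pow_pos hpp.pos 2
    omega
  obtain ⟨n, hn⟩ := hV.index (MulAction.stabilizer V ea)
  have i3 : (MulAction.stabilizer V ea).index ≤ p := by
    rw [← i1, hn] at i2
    rw [hn]
    have hn2 : n < 2 := (Nat.pow_lt_pow_iff_right hpp.one_lt).mp i2
    calc p ^ n ≤ p ^ 1 := Nat.pow_le_pow_right hpp.pos (by omega)
      _ = p := pow_one p
  have i4 : MulAction.stabilizer V ea ≤ A := by
    intro c hc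
    apply hSt
    have h2 : ((c • ea : A) : V) = e := congrArg Subtype.val hc
    rw [hsm] at h2
    calc c * e = (c * e * c⁻¹) * c := by group
      _ = e * c := by rw [show ((ea : A) : V) = e from rfl] at h2; rw [h2]
  have i5 := Subgroup.card_le_of_le i4
  rw [hAcard] at i5
  rw [← (MulAction.stabilizer V ea).card_mul_index]
  calc _ ≤ p ^ 2 * p := Nat.mul_le_mul i5 i3
    _ = p ^ 3 := by ring

theorem fix_modEq {R : Type*} [Group R] [Finite R] (α : MulAut R) {q : ℕ} [Fact q.Prime]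
    (hα : IsPGroup q (Subgroup.zpowers α)) (Y : Subgroup R) (hY : ∀ y ∈ Y, α y ∈ Y) :
    Nat.card Y ≡ Nat.card (Y ⊓ (α.toMonoidHom).eqLocus (MonoidHom.id R) : Subgroup R) [MOD q] := by
  have hpow : ∀ n : ℕ, ∀ y ∈ Y, (α ^ n) y ∈ Y := by
    intro n
    induction n with
    | zero => intro y hy; simpa using hy
    | succ n ih => intro y hy; rw [pow_succ, MulAut.mul_apply]; exact ih _ (hY y hy)
  have hT : ∀ a ∈ Subgroup.zpowers α, ∀ y ∈ Y, a y ∈ Y := by
    intro a ha y hy
    obtain ⟨n, rfl⟩ := (mem_powers_iff_mem_zpowers).mpr ha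
    exact hpow n y hy
  letI : MulAction (Subgroup.zpowers α) Y :=
    { smul := fun t y => ⟨(t : MulAut R) y, hT t t.2 y y.2⟩
      one_smul := fun y => rfl
      mul_smul := fun a b y => rfl }
  have h1 := hα.card_modEq_card_fixedPoints Y
  have h2 : Nat.card (MulAction.fixedPoints (Subgroup.zpowers α) Y) =
      Nat.card (Y ⊓ (α.toMonoidHom).eqLocus (MonoidHom.id R) : Subgroup R) := by
    apply Nat.card_congr
    refine
      { toFun := fun y => ⟨y.1.1, Subgroup.mem_inf.mpr ⟨y.1.2, ?_⟩⟩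
        invFun := fun y => ⟨⟨y.1, (Subgroup.mem_inf.mp y.2).1⟩, ?_⟩
        left_inv := fun y => rfl
        right_inv := fun y => rfl }
    · exact congrArg Subtype.val (y.2 ⟨α, Subgroup.mem_zpowers α⟩)
    · intro t
      apply Subtype.ext
      change (t : MulAut R) y.1 = y.1
      have hy : α y.1 = y.1 := (Subgroup.mem_inf.mp y.2).2
      have hst : α ∈ MulAction.stabilizer (MulAut R) (y.1 : R) := hy
      exact (Subgroup.zpowers_le.mpr hst) t.2
  rw [h2] at h1
  exact h1

theorem arith {p q i j : ℕ} (hp : p.Prime) (hq : q.Prime) (hqp : q ≠ p) (hji : j < i)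
    (hij : i ≤ j + 2) (h : p ^ i ≡ p ^ j [MOD q]) : q ∣ p ^ 2 - 1 := by
  obtain ⟨d, rfl⟩ : ∃ d, i = j + d := ⟨i - j, by omega⟩
  have h1 : q ∣ p ^ (j + d) - p ^ j :=
    (Nat.modEq_iff_dvd' (Nat.pow_le_pow_right hp.pos (by omega))).mp h.symm
  have h2 : p ^ (j + d) - p ^ j = p ^ j * (p ^ d - 1) := by
    rw [pow_add, Nat.mul_sub, mul_one]
  rw [h2] at h1
  have hcop : Nat.Coprime q (p ^ j) := Nat.Coprime.pow_right j ((Nat.coprime_primes hq hp).mpr hqp)
  have h3 : q ∣ p ^ d - 1 := hcop.dvd_of_dvd_mul_left h1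
  have hd : d = 1 ∨ d = 2 := by omega
  rcases hd with rfl | rfl
  · have h4 : p ^ 2 - 1 = (p ^ 1 - 1) * (p + 1) := by
      obtain ⟨k, rfl⟩ : ∃ k, p = k + 1 := ⟨p - 1, by have := hp.pos; omega⟩
      simp only [pow_one, Nat.add_sub_cancel]
      have : (k + 1) ^ 2 = k * (k + 1 + 1) + 1 := by ring
      omega
    rw [h4]
    exact Dvd.dvd.mul_right h3 _
  · exact h3

theorem arith2 {p q : ℕ} (hp : p.Prime) (hp2 : p ≠ 2) (hq : q.Prime) (h : q ∣ p ^ 2 - 1) : q < p := by
  have h4 : p ^ 2 - 1 = (p - 1) * (p + 1) := by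
    obtain ⟨k, rfl⟩ : ∃ k, p = k + 1 := ⟨p - 1, by have := hp.pos; omega⟩
    simp only [Nat.add_sub_cancel]
    have : (k + 1) ^ 2 = k * (k + 1 + 1) + 1 := by ring
    omega
  have hp3 : 3 ≤ p := by
    have := hp.two_le
    omega
  rw [h4] at h
  rcases (Nat.Prime.dvd_mul hq).mp h with h | h
  · have := Nat.le_of_dvd (by omega) h
    omega
  · obtain ⟨m, hm⟩ := hp.odd_of_ne_two hp2
    have h5 : p + 1 = 2 * (m + 1) := by omega
    rw [h5] at h
    rcases (Nat.Prime.dvd_mul hq).mp h with h | h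
    · have := Nat.le_of_dvd (by norm_num) h
      omega
    · have := Nat.le_of_dvd (by omega) h
      omega


/-- For odd p, a prime q ≠ p dividing the order of the automorphism group of a p-group of rank at most 2 divides p² - 1 and is less than p. -/
theorem result {R : Type*} [Group R] [Finite R] {p : ℕ} [Fact p.Prime] (hp : p ≠ 2) (hR : IsPGroup p R) (hrk : Cfsg.PRankLE p 2 R) (q : ℕ) (hq : q.Prime) (hqp : q ≠ p) (hdvd : q ∣ Nat.card (MulAut R)) : q ∣ p ^ 2 - 1 ∧ q < p := by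
  classical
  have hpp : p.Prime := Fact.out
  haveI : Fact q.Prime := ⟨hq⟩
  obtain ⟨α, hα⟩ := exists_prime_orderOf_dvd_card' q hdvd
  have hαcop : Nat.Coprime (orderOf α) p := by
    rw [hα]; exact (Nat.coprime_primes hq hpp).mpr hqp
  have hα1 : α ≠ 1 := by
    rintro rfl
    rw [orderOf_one] at hα
    exact hq.one_lt.ne hα
  have hαq : IsPGroup q (Subgroup.zpowers α) :=
    IsPGroup.of_card (n := 1) (by rw [Nat.card_zpowers, hα, pow_one])
  obtain ⟨H, hHc, h1, h2, h3⟩ := Cfsg.Agent.S0093.result hR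
  have hex : ∃ x ∈ H, α x ≠ x := by
    by_contra hcon
    push Not at hcon
    exact hα1 (Cfsg.Agent.S0121.result hR H hHc h1 h2 h3 α hαcop hcon)
  have hHinv : ∀ (a : MulAut R) (x : R), x ∈ H → a x ∈ H := fun a x hx =>
    (SetLike.ext_iff.mp (hHc.fixed a) x).mpr hx
  let res : MulAut R →* MulAut H :=
    { toFun := fun a =>
        { toFun := fun x => ⟨a x, hHinv a x x.2⟩
          invFun := fun x => ⟨a⁻¹ x, hHinv a⁻¹ x x.2⟩
          left_inv := fun x => Subtype.ext (by simp)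
          right_inv := fun x => Subtype.ext (by simp)
          map_mul' := fun x y => Subtype.ext (by simp) }
      map_one' := rfl
      map_mul' := fun a b => rfl }
  have hH : IsPGroup p H := hR.to_subgroup H
  have hβcop : Nat.Coprime (orderOf (res α)) p :=
    Nat.Coprime.coprime_dvd_left (orderOf_map_dvd res α) hαcop
  obtain ⟨x0, hx0p, hx0⟩ : ∃ x : H, x ^ p = 1 ∧ res α x ≠ x := by
    by_contra hcon
    push Not at hcon
    have h4 := Cfsg.Agent.S0120.result hp hH (res α) hβcop hcon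
    obtain ⟨x, hx, hx'⟩ := hex
    apply hx'
    have h5 : res α ⟨x, hx⟩ = ⟨x, hx⟩ := by rw [h4]; rfl
    exact congrArg Subtype.val h5
  have hx0' : α (x0 : R) ≠ x0 := fun h => hx0 (Subtype.ext h)
  set W : Subgroup R := Subgroup.closure {x : R | x ∈ H ∧ x ^ p = 1} with hW
  have hWH : W ≤ H := (Subgroup.closure_le _).mpr (fun x hx => hx.1)
  have hWexp : ∀ w ∈ W, w ^ p = 1 := by
    have hcl2 : ⁅commutator ↥H, (⊤ : Subgroup ↥H)⁆ = ⊥ := by
      rw [Subgroup.commutator_eq_bot_iff_le_centralizer]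
      intro c hc
      have hcF : c ∈ frattini ↥H := (Cfsg.Agent.S0012.result p hH).1 hc
      have h4 : (c : R) ∈ Subgroup.centralizer (H : Set R) := h1 ⟨c, hcF, rfl⟩
      rw [Subgroup.mem_centralizer_iff]
      intro y _
      exact Subtype.ext (Subgroup.mem_centralizer_iff.mp h4 y y.2)
    have hmap : W = (Subgroup.closure {x : ↥H | x ^ p = 1}).map H.subtype := by
      rw [MonoidHom.map_closure]
      have hset : {x : R | x ∈ H ∧ x ^ p = 1} = H.subtype '' {x : ↥H | x ^ p = 1} := by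
        ext x
        constructor
        · rintro ⟨hx, hxp⟩
          exact ⟨⟨x, hx⟩, Subtype.ext hxp, rfl⟩
        · rintro ⟨y, hy, rfl⟩
          exact ⟨y.2, congrArg Subtype.val hy⟩
      rw [hW, hset]
    intro w hw
    rw [hmap] at hw
    obtain ⟨y, hy, rfl⟩ := hw
    exact congrArg Subtype.val (Cfsg.Agent.S0096.result hp hH hcl2 y hy)
  have hWinv : ∀ (a : MulAut R), ∀ w ∈ W, a w ∈ W := by
    intro a w hw
    have h4 : W ≤ W.comap a.toMonoidHom := (Subgroup.closure_le _).mpr (fun x hx =>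
      Subgroup.subset_closure ⟨hHinv a x hx.1, by
        show (a x) ^ p = 1
        rw [← map_pow, hx.2, map_one]⟩)
    exact h4 hw
  have hx0W : (x0 : R) ∈ W := Subgroup.subset_closure ⟨x0.2, congrArg Subtype.val hx0p⟩
  have hWp : IsPGroup p W := hR.to_subgroup W
  have hW3 : Nat.card W ≤ p ^ 3 := by
    apply card_le_cube hp hWp (fun v => Subtype.ext (hWexp v v.2))
    intro B hBc hBe
    rw [← Subgroup.card_map_of_injective W.subtype_injective]
    apply hrk
    · refine ⟨⟨fun a b => Subtype.ext ?_⟩⟩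
      obtain ⟨a', ha', hae⟩ := a.2
      obtain ⟨b', hb', hbe⟩ := b.2
      show (a : R) * (b : R) = (b : R) * (a : R)
      rw [← hae, ← hbe]
      exact congrArg (fun t : B => ((t : W) : R)) (hBc.is_comm.comm ⟨a', ha'⟩ ⟨b', hb'⟩)
    · rintro _ ⟨a', ha', rfl⟩
      exact congrArg Subtype.val (hBe a' ha')
  set F : Subgroup R := (α.toMonoidHom).eqLocus (MonoidHom.id R) with hF
  set Z : Subgroup R := W ⊓ Subgroup.centralizer (W : Set R) with hZ
  have hZinv : ∀ z ∈ Z, α z ∈ Z := by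
    intro z hz
    refine Subgroup.mem_inf.mpr ⟨hWinv α z hz.1, ?_⟩
    rw [Subgroup.mem_centralizer_iff]
    intro w hw
    have h4 := Subgroup.mem_centralizer_iff.mp hz.2 (α⁻¹ w) (hWinv α⁻¹ w hw)
    have h5 := congrArg α h4
    simpa using h5
  have hZ2 : Nat.card Z ≤ p ^ 2 := by
    apply hrk
    · exact ⟨⟨fun a b => Subtype.ext (Subgroup.mem_centralizer_iff.mp b.2.2 a a.2.1)⟩⟩
    · exact fun a ha => hWexp a ha.1
  have hZ1 : Nat.card Z ≠ 1 := by
    intro h
    have hZbot : Z = ⊥ := Subgroup.card_eq_one.mp h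
    haveI : Nontrivial W := ⟨⟨⟨x0, hx0W⟩, 1, fun h => hx0' (by
      have h6 : (x0 : R) = 1 := congrArg Subtype.val h
      rw [h6, map_one])⟩⟩
    haveI := IsPGroup.center_nontrivial hWp
    obtain ⟨⟨z, hzc⟩, hz1⟩ := exists_ne (1 : Subgroup.center W)
    have hzZ : (z : R) ∈ Z := by
      refine Subgroup.mem_inf.mpr ⟨z.2, ?_⟩
      rw [Subgroup.mem_centralizer_iff]
      intro w hw
      exact congrArg Subtype.val (Subgroup.mem_center_iff.mp hzc ⟨w, hw⟩)
    rw [hZbot, Subgroup.mem_bot] at hzZ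
    exact hz1 (Subtype.ext (Subtype.ext hzZ))
  have m1 := fix_modEq α hαq W (hWinv α)
  have m2 := fix_modEq α hαq Z hZinv
  obtain ⟨i, hi⟩ := hWp.exists_card_eq
  obtain ⟨j, hj⟩ := (hR.to_subgroup (W ⊓ F)).exists_card_eq
  obtain ⟨l, hl⟩ := (hR.to_subgroup Z).exists_card_eq
  obtain ⟨l', hl'⟩ := (hR.to_subgroup (Z ⊓ F)).exists_card_eq
  have hpow_le : ∀ a b : ℕ, p ^ a ≤ p ^ b → a ≤ b := fun a b h =>
    (Nat.pow_le_pow_iff_right hpp.one_lt).mp h
  have hi3 : i ≤ 3 := hpow_le _ _ (hi ▸ hW3)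
  have hl2 : l ≤ 2 := hpow_le _ _ (hl ▸ hZ2)
  have hl0 : l ≠ 0 := by
    rintro rfl
    exact hZ1 (by rw [hl, pow_zero])
  have hji : j < i := by
    by_contra hcon
    push Not at hcon
    have h4 : (W ⊓ F : Subgroup R) = W := Subgroup.eq_of_le_of_card_ge inf_le_left (by
      rw [hi, hj]; exact Nat.pow_le_pow_right hpp.pos hcon)
    have h5 : (x0 : R) ∈ (W ⊓ F : Subgroup R) := by rw [h4]; exact hx0W
    exact hx0' h5.2
  have hl'l : l' ≤ l := hpow_le _ _ (by
    rw [← hl, ← hl']; exact Subgroup.card_le_of_le inf_le_left)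
  have hmain : q ∣ p ^ 2 - 1 := by
    rcases Nat.lt_or_ge l' l with hlt | hge
    · rw [hl, hl'] at m2
      exact arith hpp hq hqp hlt (by omega) m2
    · have h4 : (Z ⊓ F : Subgroup R) = Z := Subgroup.eq_of_le_of_card_ge inf_le_left (by
        rw [hl, hl']; exact Nat.pow_le_pow_right hpp.pos hge)
      have h5 : Z ≤ W ⊓ F := le_inf inf_le_left (h4 ▸ inf_le_right)
      have h6 : l ≤ j := hpow_le _ _ (by rw [← hl, ← hj]; exact Subgroup.card_le_of_le h5)
      rw [hi, hj] at m1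
      exact arith hpp hq hqp hji (by omega) m1
  exact ⟨hmain, arith2 hpp hp hq hmain⟩

end Cfsg.Agent.S0640
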