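import Cfsg.Statements.S0662
import Mathlib
import Cfsg.Agent.H1.Small5
import Cfsg.Agent.H1.Small2
import Cfsg.Agent.S4584

set_option autoImplicit false
open Cfsg

namespace Cfsg.Agent.S0662

open Subgroup in
theorem comm_le_of_index_prime {G : Type*} [Group G] {p : ℕ} (hp : p.Prime) (M : Subgroup G) [M.Normal]
    (hM : M.index = p) : _root_.commutator G ≤ M := by
  apply Subgroup.Normal.quotient_commutative_iff_commutator_le.mp
  have h1 : Nat.card (G ⧸ M) = p := hM
  haveI : Fact p.Prime := ⟨hp⟩
  haveI := isCyclic_of_prime_card h1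
  exact ⟨⟨fun a b => IsCyclic.commGroup.mul_comm a b⟩⟩

theorem eq_top_of_sup {G : Type*} [Group G] [Finite G] {p : ℕ} [Fact p.Prime] (hG : IsPGroup p G)
    (H : Subgroup G) (h : _root_.commutator G ⊔ H = ⊤) : H = ⊤ := by
  by_contra hne
  obtain ⟨M, hM, hHM⟩ := (eq_top_or_exists_le_coatom H).resolve_left hne
  obtain ⟨hn, hi⟩ := Cfsg.H1.coatom_of_pgroup hG M hM
  haveI := hn
  have h1 := comm_le_of_index_prime (Fact.out : p.Prime) M hi
  apply hM.1
  rw [eq_top_iff, ← h]
  exact sup_le h1 hHM

theorem count {S : Type*} [Group S] [Finite S] (p : ℕ) (hp : p.Prime) (Z : Subgroup S)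
    (hZ2 : Z.index = p ^ 2)
    (G1 : ∀ B : Subgroup S, B.Normal → B.index = p → Z ≤ B)
    (G2 : ∀ x : S, x ∉ Z → (Z ⊔ Subgroup.zpowers x).Normal ∧ Z ⊔ Subgroup.zpowers x ≠ ⊤) :
    Nat.card {B : Subgroup S // B.Normal ∧ B.index = p} = p + 1 := by
  classical
  have hxm : ∀ x : S, x ∈ Z ⊔ Subgroup.zpowers x := fun x =>
    (le_sup_right : Subgroup.zpowers x ≤ Z ⊔ Subgroup.zpowers x) (Subgroup.mem_zpowers x)
  have hCi : ∀ x : S, x ∉ Z → (Z ⊔ Subgroup.zpowers x).index = p := fun x hx =>
    Cfsg.Agent.S4584.idx hp Z _ hZ2 le_sup_left x (hxm x) hx (G2 x hx).2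
  let f : {x : S // x ∉ Z} → {B : Subgroup S // B.Normal ∧ B.index = p} :=
    fun x => ⟨Z ⊔ Subgroup.zpowers x.1, (G2 x.1 x.2).1, hCi x.1 x.2⟩
  have hfib : ∀ B : {B : Subgroup S // B.Normal ∧ B.index = p},
      Nat.card {x : {x : S // x ∉ Z} // f x = B} + Nat.card ↥Z = p * Nat.card ↥Z := by
    intro B
    have hBZ : Z ≤ B.1 := G1 B.1 B.2.1 B.2.2
    have e1 : Nat.card {x : {x : S // x ∉ Z} // f x = B} = ((B.1 : Set S) \ (Z : Set S)).ncard := by
      rw [← Nat.card_coe_set_eq]
      apply Nat.card_congr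
      exact
        { toFun := fun x => ⟨x.1.1, by
            have h1 : Z ⊔ Subgroup.zpowers x.1.1 = B.1 := congrArg Subtype.val x.2
            have h2 := hxm x.1.1
            rw [h1] at h2
            exact ⟨h2, x.1.2⟩⟩
          invFun := fun y => ⟨⟨y.1, y.2.2⟩, by
            apply Subtype.ext
            show Z ⊔ Subgroup.zpowers y.1 = B.1
            have hle : Z ⊔ Subgroup.zpowers y.1 ≤ B.1 :=
              sup_le hBZ ((Subgroup.zpowers_le).2 y.2.1)
            apply le_antisymm hle
            intro g hg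
            by_contra hgB
            have h3 := Cfsg.Agent.S4584.top_of_lt hp _ B.1 (hCi y.1 y.2.2) hle g hg hgB
            have h4 := B.2.2
            rw [h3, Subgroup.index_top] at h4
            exact hp.one_lt.ne h4⟩
          left_inv := fun x => rfl
          right_inv := fun y => rfl }
    have e2 : ((B.1 : Set S) \ (Z : Set S)).ncard + (Z : Set S).ncard = (B.1 : Set S).ncard :=
      Set.ncard_sdiff_add_ncard_of_subset hBZ
    have e3 : (Z : Set S).ncard = Nat.card ↥Z := (Nat.card_coe_set_eq _).symm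
    have e4 : (B.1 : Set S).ncard = Nat.card ↥B.1 := (Nat.card_coe_set_eq _).symm
    have e5 : B.1.index * Nat.card ↥B.1 = Nat.card S := Subgroup.index_mul_card B.1
    have e6 : Z.index * Nat.card ↥Z = Nat.card S := Subgroup.index_mul_card Z
    rw [B.2.2] at e5
    rw [hZ2] at e6
    have e7 : Nat.card ↥B.1 = p * Nat.card ↥Z := by
      apply Nat.eq_of_mul_eq_mul_left hp.pos
      rw [e5, ← e6]; ring
    rw [e1, ← e3, e2, e4, e7, e3]
  haveI := Fintype.ofFinite {B : Subgroup S // B.Normal ∧ B.index = p}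
  obtain ⟨c, hc⟩ : ∃ c, c + Nat.card ↥Z = p * Nat.card ↥Z :=
    ⟨p * Nat.card ↥Z - Nat.card ↥Z, Nat.sub_add_cancel (Nat.le_mul_of_pos_left _ hp.pos)⟩
  have hfib' : ∀ B : {B : Subgroup S // B.Normal ∧ B.index = p},
      Nat.card {x : {x : S // x ∉ Z} // f x = B} = c := by
    intro B
    have := hfib B
    omega
  have hsum : Nat.card {x : S // x ∉ Z}
      = Nat.card {B : Subgroup S // B.Normal ∧ B.index = p} * c := by
    rw [← Nat.card_congr (Equiv.sigmaFiberEquiv f), Nat.card_sigma,
      Finset.sum_congr rfl (fun B _ => hfib' B), Finset.sum_const, Finset.card_univ, smul_eq_mul,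
      Nat.card_eq_fintype_card]
  have htot : Nat.card {x : S // x ∉ Z} + Nat.card ↥Z = p ^ 2 * Nat.card ↥Z := by
    have e2 : ((Set.univ : Set S) \ (Z : Set S)).ncard + (Z : Set S).ncard = (Set.univ : Set S).ncard :=
      Set.ncard_sdiff_add_ncard_of_subset (Set.subset_univ _)
    have e1 : Nat.card {x : S // x ∉ Z} = ((Set.univ : Set S) \ (Z : Set S)).ncard := by
      rw [← Nat.card_coe_set_eq]
      apply Nat.card_congr
      apply Equiv.subtypeEquivRight
      intro x
      simp
    have e3 : (Z : Set S).ncard = Nat.card ↥Z := (Nat.card_coe_set_eq _).symm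
    have e6 : Z.index * Nat.card ↥Z = Nat.card S := Subgroup.index_mul_card Z
    rw [hZ2] at e6
    rw [e1, ← e3, e2, Set.ncard_univ, ← e6, e3]
  set n := Nat.card {B : Subgroup S // B.Normal ∧ B.index = p} with hn
  set z := Nat.card ↥Z with hz
  have hzpos : 0 < z := Nat.card_pos
  have hcpos : 0 < c := by
    have : 2 * z ≤ p * z := Nat.mul_le_mul_right z hp.two_le
    omega
  rw [hsum] at htot
  have E3 : n * c = (p + 1) * c := by
    have h1 : (p + 1) * (c + z) = (p + 1) * (p * z) := by rw [hc]
    nlinarith [h1, htot]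
  exact Nat.eq_of_mul_eq_mul_right hcpos E3

/-- In a p-group of maximal class of order at least p³ the normal subgroups of index at least p² are exactly the terms of the lower central series, and there are exactly p + 1 normal subgroups of index p. -/
theorem result {G : Type*} [Group G] [Finite G] {p : ℕ} [Fact p.Prime] (n : ℕ) (hG : Nat.card G = p ^ n) (hcl : Group.nilpotencyClass G = n - 1) (hn : 3 ≤ n) : (∀ (N : Subgroup G) [N.Normal] (r : ℕ), 2 ≤ r → N.index = p ^ r → N = (⊤ : Subgroup G).lowerCentralSeries (r - 1)) ∧ Nat.card {N : Subgroup G // N.Normal ∧ N.index = p} = p + 1 := by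
  classical
  have hp : p.Prime := Fact.out
  have hPG : IsPGroup p G := IsPGroup.of_card hG
  haveI := hPG.isNilpotent
  set L : ℕ → Subgroup G := fun i => (⊤ : Subgroup G).lowerCentralSeries i with hL
  have hLanti : Antitone L := Subgroup.lowerCentralSeries_antitone _
  have hLbot : L (n - 1) = ⊥ := by
    rw [← hcl]; exact Subgroup.lowerCentralSeries_nilpotencyClass
  -- strictness
  have hstab : ∀ i, L (i + 1) = L i → ∀ k, L (i + k) = L i := by
    intro i hi k
    induction k with
    | zero => rfl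
    | succ k ih =>
      show (⊤ : Subgroup G).lowerCentralSeries (i + k + 1) = _
      rw [Subgroup.lowerCentralSeries_succ]
      have : (⊤ : Subgroup G).lowerCentralSeries (i + k) = L i := ih
      rw [this]
      exact hi
  have hstrict : ∀ i, i < n - 1 → L (i + 1) ≠ L i := by
    intro i hi he
    have h1 := hstab i he (n - 1 - i)
    rw [show i + (n - 1 - i) = n - 1 by omega, hLbot] at h1
    have h2 : Group.nilpotencyClass G ≤ i :=
      Subgroup.lowerCentralSeries_eq_bot_iff_nilpotencyClass_le.1 h1.symm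
    omega
  -- lower bound of orders
  have hlow : ∀ j, j ≤ n - 1 → p ^ j ≤ Nat.card (L (n - 1 - j)) := by
    intro j
    induction j with
    | zero => intro _; rw [pow_zero]; exact Nat.card_pos
    | succ j ih =>
      intro hj
      have h1 := ih (by omega)
      have hle : L (n - 1 - j) ≤ L (n - 1 - (j + 1)) := hLanti (by omega)
      have hne : L (n - 1 - j) ≠ L (n - 1 - (j + 1)) := by
        have := hstrict (n - 1 - (j + 1)) (by omega)
        rwa [show n - 1 - (j + 1) + 1 = n - 1 - j by omega] at this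
      have h2 : (L (n - 1 - j)).relIndex (L (n - 1 - (j + 1))) * Nat.card (L (n - 1 - j))
          = Nat.card (L (n - 1 - (j + 1))) := by
        rw [mul_comm]
        have := Subgroup.relIndex_mul_relIndex ⊥ _ _ bot_le hle
        rwa [Subgroup.relIndex_bot_left, Subgroup.relIndex_bot_left] at this
      have h3 : (L (n - 1 - j)).relIndex (L (n - 1 - (j + 1))) ∣ p ^ n := by
        rw [← hG]
        exact (Dvd.intro _ h2).trans (Subgroup.card_subgroup_dvd_card _)
      obtain ⟨k, _, hk⟩ := (Nat.dvd_prime_pow hp).1 h3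
      have hk0 : k ≠ 0 := by
        rintro rfl
        rw [pow_zero, Subgroup.relIndex_eq_one] at hk
        exact hne (le_antisymm hle hk)
      have h4 : p ≤ (L (n - 1 - j)).relIndex (L (n - 1 - (j + 1))) := by
        rw [hk]
        calc p = p ^ 1 := (pow_one p).symm
          _ ≤ p ^ k := Nat.pow_le_pow_right hp.pos (by omega)
      rw [← h2, pow_succ, mul_comm]
      exact Nat.mul_le_mul h4 h1
  -- part 1
  have part1 : ∀ (N : Subgroup G) [N.Normal] (r : ℕ), 2 ≤ r → N.index = p ^ r → N = L (r - 1) := by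
    intro N _ r hr hN
    have hrn : r ≤ n := by
      have : p ^ r ∣ p ^ n := by rw [← hN, ← hG]; exact Subgroup.index_dvd_card N
      exact (Nat.pow_dvd_pow_iff_le_right hp.one_lt).1 this
    have hQ : Nat.card (G ⧸ N) = p ^ r := hN
    have hcl' := Cfsg.H1.nilpotencyClass_pgroup p r hQ (by omega)
    haveI : Group.IsNilpotent (G ⧸ N) := (IsPGroup.of_card hQ).isNilpotent
    have h1 : (⊤ : Subgroup (G ⧸ N)).lowerCentralSeries (r - 1) = ⊥ :=
      Subgroup.lowerCentralSeries_eq_bot_iff_nilpotencyClass_le.2 hcl'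
    have h2 : (L (r - 1)).map (QuotientGroup.mk' N) = ⊥ := by
      rw [Subgroup.map_lowerCentralSeries, ← MonoidHom.range_eq_map,
        MonoidHom.range_eq_top.2 (QuotientGroup.mk'_surjective N), h1]
    have h3 : L (r - 1) ≤ N := by
      have := (Subgroup.map_eq_bot_iff _).1 h2
      rwa [QuotientGroup.ker_mk'] at this
    have h4 := hlow (n - r) (by omega)
    rw [show n - 1 - (n - r) = r - 1 by omega] at h4
    have h5 : Nat.card N = p ^ (n - r) := by
      have := Subgroup.index_mul_card N
      rw [hN, hG, show p ^ n = p ^ r * p ^ (n - r) by rw [← pow_add]; congr 1; omega] at this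
      exact Nat.eq_of_mul_eq_mul_left (pow_pos hp.pos r) this
    exact (Subgroup.eq_of_le_of_card_ge h3 (by rw [h5]; exact h4)).symm
  refine ⟨part1, ?_⟩
  -- part 2
  have hL1 : L 1 = _root_.commutator G := Subgroup.top_lowerCentralSeries_one
  have hnc : ∀ x : G, Subgroup.zpowers x ≠ ⊤ := by
    intro x hx
    have hcomm : IsMulCommutative G := by
      refine ⟨⟨fun a b => ?_⟩⟩
      have ha : a ∈ Subgroup.zpowers x := hx ▸ Subgroup.mem_top a
      have hb : b ∈ Subgroup.zpowers x := hx ▸ Subgroup.mem_top b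
      obtain ⟨i, rfl⟩ := Subgroup.mem_zpowers_iff.1 ha
      obtain ⟨j, rfl⟩ := Subgroup.mem_zpowers_iff.1 hb
      rw [← zpow_add, ← zpow_add, add_comm]
    have := (Group.IsNilpotent.nilpotencyClass_le_one_iff (G := G)).2 hcomm
    omega
  have hidx : (L 1).index = p ^ 2 := by
    have h4 := hlow (n - 2) (by omega)
    rw [show n - 1 - (n - 2) = 1 by omega] at h4
    have h5 := Subgroup.index_mul_card (L 1)
    obtain ⟨s, _, hs⟩ := (Nat.dvd_prime_pow hp).1 (hG ▸ Subgroup.index_dvd_card (L 1))
    have hs2 : s ≤ 2 := by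
      by_contra hcon
      have h6 : p ^ 3 * p ^ (n - 2) ≤ p ^ n := by
        rw [← hG, ← h5, hs]
        exact Nat.mul_le_mul (Nat.pow_le_pow_right hp.pos (by omega)) h4
      rw [← pow_add] at h6
      have := (Nat.pow_le_pow_iff_right hp.one_lt).1 h6
      omega
    interval_cases s
    · exfalso
      rw [pow_zero, Subgroup.index_eq_one] at hs
      have := eq_top_of_sup hPG (Subgroup.zpowers 1) (by rw [← hL1, hs]; simp)
      exact hnc 1 this
    · exfalso
      rw [pow_one] at hs
      have hne : L 1 ≠ ⊤ := by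
        intro h
        rw [h, Subgroup.index_top] at hs
        exact hp.one_lt.ne hs
      obtain ⟨x, hx⟩ : ∃ x, x ∉ L 1 := by
        by_contra hcon
        push Not at hcon
        exact hne (eq_top_iff.2 fun y _ => hcon y)
      have h7 := Cfsg.Agent.S4584.top_of_lt hp (L 1) (L 1 ⊔ Subgroup.zpowers x) hs le_sup_left x
        ((le_sup_right : Subgroup.zpowers x ≤ _) (Subgroup.mem_zpowers x)) hx
      rw [hL1] at h7
      exact hnc x (eq_top_of_sup hPG _ h7)
    · exact hs
  apply count p hp (L 1) hidx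
  · intro B hB hBi
    haveI := hB
    rw [hL1]
    exact comm_le_of_index_prime hp B hBi
  · intro x hx
    refine ⟨?_, ?_⟩
    · apply Subgroup.Normal.of_commutator_le
      rw [← hL1]
      exact le_sup_left
    · intro h
      rw [hL1] at h
      exact hnc x (eq_top_of_sup hPG _ h)

end Cfsg.Agent.S0662
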