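import Cfsg.Statements.S0749
import Mathlib
-- import your own Cfsg.Agent.* helpers here

set_option autoImplicit false
open Cfsg

namespace Cfsg.Agent.S0749

variable {F V : Type*} [Field F] [AddCommGroup V] [Module F V]

/-- the transvection `z ↦ z + c B(z,w) w` as a linear map -/
noncomputable def tvl (B : LinearMap.BilinForm F V) (w : V) (c : F) : V →ₗ[F] V :=
  LinearMap.id + c • (B.flip w).smulRight w

theorem tvl_apply (B : LinearMap.BilinForm F V) (w : V) (c : F) (z : V) :
    tvl B w c z = z + (c * B z w) • w := by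
  simp [tvl, mul_smul]

theorem tvl_comp (B : LinearMap.BilinForm F V) (hA : B.IsAlt) (w : V) (c : F) :
    (tvl B w c).comp (tvl B w (-c)) = LinearMap.id := by
  ext z
  simp only [LinearMap.comp_apply, tvl_apply, LinearMap.id_apply, map_add, LinearMap.add_apply, map_smul,
    LinearMap.smul_apply, hA w, smul_eq_mul, mul_zero, add_zero]
  module

/-- the transvection as a linear equivalence -/
noncomputable def tve (B : LinearMap.BilinForm F V) (hA : B.IsAlt) (w : V) (c : F) : V ≃ₗ[F] V :=
  LinearEquiv.ofLinear (tvl B w c) (tvl B w (-c)) (tvl_comp B hA w c)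
    (by have := tvl_comp B hA w (-c); rwa [neg_neg] at this)

theorem tve_apply (B : LinearMap.BilinForm F V) (hA : B.IsAlt) (w : V) (c : F) (z : V) :
    tve B hA w c z = z + (c * B z w) • w := tvl_apply B w c z

theorem alt_swap (B : LinearMap.BilinForm F V) (hA : B.IsAlt) (u v : V) : B u v = - B v u := by
  have := LinearMap.IsAlt.neg hA v u
  rw [← this]

theorem tve_isom (B : LinearMap.BilinForm F V) (hA : B.IsAlt) (w : V) (c : F) (u v : V) :
    B (tve B hA w c u) (tve B hA w c v) = B u v := by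
  simp only [tve_apply, map_add, LinearMap.add_apply, map_smul, LinearMap.smul_apply, hA w, smul_eq_mul]
  rw [alt_swap B hA w v]
  ring

theorem moveA (B : LinearMap.BilinForm F V) (hA : B.IsAlt) (H : Submodule F V) (a y : V)
    (hperp : ∀ h ∈ H, B h (a - y) = 0) (hay : B a y ≠ 0) :
    ∃ t : V ≃ₗ[F] V, (∀ u v, B (t u) (t v) = B u v) ∧ (∀ h ∈ H, t h = h) ∧ t a = y := by
  refine ⟨tve B hA (a - y) (B a y)⁻¹, tve_isom B hA _ _, ?_, ?_⟩
  · intro h hh
    rw [tve_apply, hperp h hh]; simp
  · rw [tve_apply, map_sub, hA a, zero_sub, mul_neg, inv_mul_cancel₀ hay]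
    module

theorem exists_perp [FiniteDimensional F V] (B : LinearMap.BilinForm F V) (hB : B.Nondegenerate) (hA : B.IsAlt)
    (H : Submodule F V) (a : V) (ha : a ∉ H) : ∃ w, (∀ h ∈ H, B h w = 0) ∧ B a w ≠ 0 := by
  obtain ⟨f, hfx, hfZ⟩ := Submodule.exists_le_ker_of_notMem ha
  set w := (B.toDual hB).symm f with hw
  have hy : ∀ v, B w v = f v := by
    intro v
    rw [hw, ← LinearMap.BilinForm.toDual_def hB, LinearEquiv.apply_symm_apply]
  refine ⟨w, ?_, ?_⟩
  · intro h hh
    rw [alt_swap B hA, hy]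
    have : f h = 0 := hfZ hh
    rw [this, neg_zero]
  · rw [alt_swap B hA, hy]
    exact neg_ne_zero.mpr hfx

theorem move [FiniteDimensional F V] (B : LinearMap.BilinForm F V) (hB : B.Nondegenerate) (hA : B.IsAlt)
    (H : Submodule F V) (a y : V)
    (hperp : ∀ h ∈ H, B h (a - y) = 0) (ha : a ∉ H) (hy : y ∉ H) :
    ∃ t : V ≃ₗ[F] V, (∀ u v, B (t u) (t v) = B u v) ∧ (∀ h ∈ H, t h = h) ∧ t a = y := by
  by_cases hay : B a y ≠ 0
  · exact moveA B hA H a y hperp hay
  · push Not at hay
    have hw : ∃ w, (∀ h ∈ H, B h w = 0) ∧ B a w ≠ 0 ∧ B y w ≠ 0 := by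
      obtain ⟨w₁, hw₁, h₁⟩ := exists_perp B hB hA H a ha
      obtain ⟨w₂, hw₂, h₂⟩ := exists_perp B hB hA H y hy
      by_cases h3 : B y w₁ = 0
      · by_cases h4 : B a w₂ = 0
        · refine ⟨w₁ + w₂, ?_, ?_, ?_⟩
          · intro h hh; rw [map_add, hw₁ h hh, hw₂ h hh, add_zero]
          · rw [map_add, h4, add_zero]; exact h₁
          · rw [map_add, h3, zero_add]; exact h₂
        · exact ⟨w₂, hw₂, h4, h₂⟩
      · exact ⟨w₁, hw₁, h₁, h3⟩
    obtain ⟨w, hwH, hw1, hw2⟩ := hw
    obtain ⟨t₁, i₁, f₁, e₁⟩ := moveA B hA H a (a + w) (by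
      intro h hh
      have : a - (a + w) = -w := by abel
      rw [this, map_neg, hwH h hh, neg_zero]) (by rw [map_add, hA a, zero_add]; exact hw1)
    obtain ⟨t₂, i₂, f₂, e₂⟩ := moveA B hA H (a + w) y (by
      intro h hh
      have : a + w - y = (a - y) + w := by abel
      rw [this, map_add, hperp h hh, hwH h hh, add_zero]) (by
      rw [map_add, LinearMap.add_apply, hay, zero_add, alt_swap B hA]
      exact neg_ne_zero.mpr hw2)
    refine ⟨t₁.trans t₂, ?_, ?_, ?_⟩
    · intro u v
      simp only [LinearEquiv.trans_apply, i₂, i₁]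
    · intro h hh
      simp only [LinearEquiv.trans_apply, f₁ h hh, f₂ h hh]
    · simp only [LinearEquiv.trans_apply, e₁, e₂]

theorem witt_aux [FiniteDimensional F V] (B : LinearMap.BilinForm F V) (hB : B.Nondegenerate) (hA : B.IsAlt)
    (s : Finset V) : ∀ ψ : V →ₗ[F] V,
    (∀ x ∈ Submodule.span F (s : Set V), ∀ x' ∈ Submodule.span F (s : Set V), B (ψ x) (ψ x') = B x x') →
    (∀ x ∈ Submodule.span F (s : Set V), ψ x = 0 → x = 0) →
    ∃ g : V ≃ₗ[F] V, (∀ u v, B (g u) (g v) = B u v) ∧ ∀ x ∈ Submodule.span F (s : Set V), g x = ψ x := by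
  classical
  induction s using Finset.induction_on with
  | empty =>
    intro ψ _ _
    refine ⟨LinearEquiv.refl F V, fun u v => rfl, ?_⟩
    intro x hx
    simp only [Finset.coe_empty, Submodule.span_empty, Submodule.mem_bot] at hx
    subst hx
    simp
  | insert a s _ ih =>
    intro ψ hiso hinj
    have hle : Submodule.span F (s : Set V) ≤ Submodule.span F ((insert a s : Finset V) : Set V) := by
      apply Submodule.span_mono
      simp
    have haX : a ∈ Submodule.span F ((insert a s : Finset V) : Set V) :=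
      Submodule.subset_span (by simp)
    obtain ⟨g₀, hg₀, hg₀'⟩ := ih ψ (fun x hx x' hx' => hiso x (hle hx) x' (hle hx')) (fun x hx => hinj x (hle hx))
    by_cases ha : a ∈ Submodule.span F (s : Set V)
    · refine ⟨g₀, hg₀, ?_⟩
      intro x hx
      rw [Finset.coe_insert, Submodule.span_insert_eq_span ha] at hx
      exact hg₀' x hx
    · set y := g₀.symm (ψ a) with hy
      have hgy : g₀ y = ψ a := by rw [hy, LinearEquiv.apply_symm_apply]
      have hperp : ∀ h ∈ Submodule.span F (s : Set V), B h (a - y) = 0 := by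
        intro h hh
        rw [map_sub, ← hg₀ h y, hgy, hg₀' h hh, hiso h (hle hh) a haX, sub_self]
      have hyH : y ∉ Submodule.span F (s : Set V) := by
        intro hyH
        have h1 : ψ (a - y) = 0 := by
          rw [map_sub, ← hg₀' y hyH, hgy, sub_self]
        have h2 := hinj (a - y) (Submodule.sub_mem _ haX (hle hyH)) h1
        rw [sub_eq_zero] at h2
        exact ha (h2 ▸ hyH)
      obtain ⟨t, it, ft, et⟩ := move B hB hA _ a y hperp ha hyH
      refine ⟨t.trans g₀, ?_, ?_⟩
      · intro u v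
        simp only [LinearEquiv.trans_apply, hg₀, it]
      · intro x hx
        rw [Finset.coe_insert, Submodule.mem_span_insert] at hx
        obtain ⟨c, h, hh, rfl⟩ := hx
        simp only [LinearEquiv.trans_apply, map_add, map_smul, et, ft h hh, hgy, hg₀' h hh]


/-- Witt's Lemma for alternating forms. If B is a non-degenerate alternating bilinear form on a finite-dimensional vector space V (over any field) and φ is a linear equivalence between subspaces X and Y of V preserving B, then φ extends to a B-preserving linear automorphism of V. -/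
theorem result {F V : Type*} [Field F] [AddCommGroup V] [Module F V] [FiniteDimensional F V] (B : LinearMap.BilinForm F V) (hB : B.Nondegenerate) (hA : B.IsAlt) (X Y : Submodule F V) (φ : X ≃ₗ[F] Y) (hφ : ∀ x x' : X, B (φ x : V) (φ x' : V) = B (x : V) (x' : V)) : ∃ g : V ≃ₗ[F] V, (∀ u v : V, B (g u) (g v) = B u v) ∧ ∀ x : X, g (x : V) = (φ x : V) := by
  obtain ⟨ψ, hψ⟩ := LinearMap.exists_extend (Y.subtype.comp φ.toLinearMap)
  have hψ' : ∀ x : X, ψ (x : V) = (φ x : V) := by
    intro x
    have := congrArg (fun f => f x) hψ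
    simpa using this
  obtain ⟨s, hs⟩ : X.FG := IsNoetherian.noetherian X
  obtain ⟨g, hg, hg'⟩ := witt_aux B hB hA s ψ (by
    intro x hx x' hx'
    rw [hs] at hx hx'
    rw [hψ' ⟨x, hx⟩, hψ' ⟨x', hx'⟩, hφ]) (by
    intro x hx h0
    rw [hs] at hx
    rw [hψ' ⟨x, hx⟩] at h0
    have : φ ⟨x, hx⟩ = 0 := Subtype.ext h0
    have h2 := φ.map_eq_zero_iff.mp this
    exact congrArg Subtype.val h2)
  refine ⟨g, hg, ?_⟩
  intro x
  rw [hg' x (hs ▸ x.2), hψ']

end Cfsg.Agent.S0749
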