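import Cfsg.Statements.S0875
import Mathlib
import Cfsg.Agent.CharLib.BrauerRing
import Cfsg.Agent.CharLib.HallCompl

set_option autoImplicit false
open Cfsg Cfsg.Agent.CharLib Cfsg.Agent.CharLib.H2
open scoped ComplexConjugate

namespace Cfsg.Agent.S0875

/-- Let G be a finite group of order m * n with m and n coprime, and g an element whose order is coprime to m. Every x in G factors uniquely as x = u * v with u, v commuting, the order of u coprime to n and the order of v coprime to m; let ϑ be the function on G equal to n at those x whose factor v is conjugate to g and equal to 0 elsewhere. Then ϑ is a linear combination of the irreducible characters of G with algebraic-integer coefficients. -/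
theorem result {G : Type*} [Group G] [Fintype G] (m n : ℕ) (hmn : Nat.card G = m * n) (hcop : Nat.Coprime m n) (g : G) (hg : Nat.Coprime (orderOf g) m) (ϑ : G → ℂ) (hϑ1 : ∀ x : G, (∃ v : G, IsConj v g ∧ (∃ u : G, x = u * v ∧ Commute u v ∧ Nat.Coprime (orderOf u) n ∧ Nat.Coprime (orderOf v) m)) → ϑ x = n) (hϑ0 : ∀ x : G, (¬ ∃ v : G, IsConj v g ∧ (∃ u : G, x = u * v ∧ Commute u v ∧ Nat.Coprime (orderOf u) n ∧ Nat.Coprime (orderOf v) m)) → ϑ x = 0) : ∃ c : Cfsg.IrrCharacter G → ℂ, (∀ χ, c χ ∈ Cfsg.AlgInt) ∧ ϑ = ∑ᶠ χ : Cfsg.IrrCharacter G, c χ • (χ : G → ℂ) := by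
  classical
  obtain ⟨e, hem, hen⟩ := exists_crt_exponent n m hcop.symm
  have hord : ∀ x : G, (orderOf x : ℤ) ∣ (m : ℤ) * n := by
    intro x
    have := orderOf_dvd_natCard x
    rw [hmn] at this
    exact_mod_cast this
  have hchar : ∀ x : G, (∃ v : G, IsConj v g ∧ (∃ u : G, x = u * v ∧ Commute u v ∧
      Nat.Coprime (orderOf u) n ∧ Nat.Coprime (orderOf v) m)) ↔ IsConj (x ^ e) g := by
    intro x
    constructor
    · rintro ⟨v, hv, u, rfl, hcomm, hu, hv2⟩
      have hu1 : orderOf u ∣ m := by
        have := orderOf_dvd_natCard u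
        rw [hmn] at this
        exact hu.dvd_of_dvd_mul_right this
      have hv1 : orderOf v ∣ n := by
        have := orderOf_dvd_natCard v
        rw [hmn] at this
        exact hv2.dvd_of_dvd_mul_left this
      have e1 : u ^ e = 1 := by
        rw [← orderOf_dvd_iff_zpow_eq_one]
        exact (Int.natCast_dvd_natCast.mpr hu1).trans hem
      have e2 : v ^ e = v := by
        have h1 : v ^ (1 - e) = 1 := by
          rw [← orderOf_dvd_iff_zpow_eq_one]
          exact (Int.natCast_dvd_natCast.mpr hv1).trans hen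
        rw [zpow_sub, zpow_one, mul_inv_eq_one] at h1
        exact h1.symm
      rw [hcomm.mul_zpow, e1, e2, one_mul]
      exact hv
    · intro h
      refine ⟨x ^ e, h, x ^ (1 - e), ?_, Commute.zpow_zpow_self x _ _, ?_, ?_⟩
      · rw [← zpow_add]; simp
      · have h1 : orderOf (x ^ (1 - e)) ∣ m := by
          apply orderOf_dvd_of_pow_eq_one
          rw [← zpow_natCast, ← zpow_mul, ← orderOf_dvd_iff_zpow_eq_one]
          refine (hord x).trans ?_
          rw [mul_comm]
          exact mul_dvd_mul hen dvd_rfl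
        exact Nat.Coprime.coprime_dvd_left h1 hcop
      · have h1 : orderOf (x ^ e) ∣ n := by
          apply orderOf_dvd_of_pow_eq_one
          rw [← zpow_natCast, ← zpow_mul, ← orderOf_dvd_iff_zpow_eq_one]
          refine (hord x).trans ?_
          exact mul_dvd_mul hem dvd_rfl
        exact Nat.Coprime.coprime_dvd_left h1 hcop.symm
  have hϑ : ∀ x, ϑ x = if IsConj (x ^ e) g then (n : ℂ) else 0 := by
    intro x
    split_ifs with h
    · exact hϑ1 x ((hchar x).mpr h)
    · exact hϑ0 x (fun h' => h ((hchar x).mp h'))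
  have hcf : IsClassFunction G ϑ := by
    intro x k
    rw [hϑ, hϑ, conj_zpow]
    have : IsConj (k * x ^ e * k⁻¹) g ↔ IsConj (x ^ e) g := by
      constructor
      · intro h
        exact (isConj_iff.mpr ⟨k, rfl⟩ : IsConj (x ^ e) (k * x ^ e * k⁻¹)).trans h
      · intro h
        exact (isConj_iff.mpr ⟨k, rfl⟩ : IsConj (x ^ e) (k * x ^ e * k⁻¹)).symm.trans h
    simp only [this]
  refine ⟨fun χ => classInner ϑ χ, ?_, ?_⟩
  swap
  · rw [finsum_eq_sum_of_fintype]; exact classFunction_eq_sum hcf
  intro χ
  change classInner ϑ χ ∈ Cfsg.AlgInt.toSubring.toAddSubgroup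
  apply classInner_mem_of_elementary _ hcf _ (isCharacter_of_irr χ.2)
  intro E _ r hr hE ψ hψ
  change classInner (fun e : E => ϑ e) ψ ∈ Cfsg.AlgInt
  have hcardE : Nat.card E ∣ n * m := by
    rw [mul_comm, ← hmn]; exact Subgroup.card_subgroup_dvd_card E
  obtain ⟨f, hf⟩ := exists_zpow_hom_of_isElementary hr hE n m hcop.symm hcardE e hem hen
  letI : Fintype f.range := Fintype.ofFinite _
  set β : f.range → ℂ := fun b => if IsConj ((b : E) : G) g then (n : ℂ) else 0 with hβ
  have hβcf : IsClassFunction f.range β := by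
    intro b k
    simp only [hβ, Subgroup.coe_mul, Subgroup.coe_inv]
    have : IsConj (((k : E) : G) * ((b : E) : G) * ((k : E) : G)⁻¹) g ↔ IsConj ((b : E) : G) g := by
      constructor
      · intro h
        exact (isConj_iff.mpr ⟨_, rfl⟩ : IsConj ((b : E) : G) (((k : E) : G) * ((b : E) : G) * ((k : E) : G)⁻¹)).trans h
      · intro h
        exact (isConj_iff.mpr ⟨_, rfl⟩ : IsConj ((b : E) : G) (((k : E) : G) * ((b : E) : G) * ((k : E) : G)⁻¹)).symm.trans h
    simp only [this]
  have hres : (fun x : E => ϑ x) = fun x => β (f.rangeRestrict x) := by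
    funext x
    rw [hϑ]
    simp only [hβ, MonoidHom.coe_rangeRestrict, hf, Subgroup.coe_zpow]
  have hexp := classFunction_eq_sum hβcf
  have hres2 : (fun x : E => ϑ x) = ∑ ψ' : IrrCharacter f.range,
      classInner β ψ' • (fun x : E => (ψ' : f.range → ℂ) (f.rangeRestrict x)) := by
    rw [hres]
    funext x
    have := congrFun hexp (f.rangeRestrict x)
    simp only [Finset.sum_apply, Pi.smul_apply] at this ⊢
    exact this
  rw [hres2, classInner_sum_left]
  apply Subalgebra.sum_mem
  intro ψ' _
  rw [classInner_smul_left]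
  apply Subalgebra.mul_mem
  · have hcardB : Nat.card f.range ∣ n := by
      apply card_dvd_of_forall_pow_eq_one n m hcop.symm
        ((Subgroup.card_subgroup_dvd_card _).trans hcardE)
      rintro ⟨y, x, rfl⟩
      apply Subtype.ext
      apply Subtype.ext
      simp only [Subgroup.coe_pow, OneMemClass.coe_one]
      rw [hf, Subgroup.coe_zpow, ← zpow_natCast, ← zpow_mul, ← orderOf_dvd_iff_zpow_eq_one]
      refine (hord x).trans ?_
      exact mul_dvd_mul hem dvd_rfl
    obtain ⟨t, ht⟩ := hcardB
    have hB0 : (Nat.card f.range : ℂ) ≠ 0 := card_ne_zero_complex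
    have h1 : classInner β ψ' = ∑ b : f.range,
        (if IsConj ((b : E) : G) g then (t : ℂ) else 0) * conj ((ψ' : f.range → ℂ) b) := by
      rw [classInner, Finset.mul_sum]
      refine Finset.sum_congr rfl fun b _ => ?_
      simp only [hβ]
      split_ifs
      · rw [ht]; push_cast; field_simp
      · simp
    rw [h1]
    apply Subalgebra.sum_mem
    intro b _
    apply Subalgebra.mul_mem
    · split_ifs
      · exact natCast_mem _ t
      · exact Subalgebra.zero_mem _
    · exact isCharacter_isIntegral (isCharacter_conj (isCharacter_of_irr ψ'.2)) b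
  · obtain ⟨k, hk⟩ := classInner_char_nat
      (isCharacter_comp (isCharacter_of_irr ψ'.2) f.rangeRestrict) hψ
    rw [hk]
    exact natCast_mem _ k

end Cfsg.Agent.S0875
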