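import Cfsg.Statements.S0876
import Mathlib
import Cfsg.Agent.CharLib.PSection
import Cfsg.Agent.S0875

set_option autoImplicit false
open Cfsg Cfsg.Agent.CharLib Cfsg.Agent.CharLib.H2 Cfsg.Agent.BlockLib
open scoped ComplexConjugate

namespace Cfsg.Agent.S0876

/-- Let G be a finite group, p a prime and M a maximal ideal of the ring of algebraic integers containing p. Let x, y be elements with p-parts a and b (so a⁻¹ * x and b⁻¹ * y are their p-regular parts). Then a⁻¹ * x and b⁻¹ * y are conjugate in G if and only if, for every irreducible character χ, the difference χ x - χ y lies in the local ideal at M. -/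
theorem result {G : Type*} [Group G] [Finite G] (p : ℕ) (M : Ideal Cfsg.AlgInt) (hM : Cfsg.IsPModular p M) (x y a b : G) (ha : Cfsg.IsPPart p x a) (hb : Cfsg.IsPPart p y b) : IsConj (a⁻¹ * x) (b⁻¹ * y) ↔ ∀ χ : Cfsg.IrrCharacter G, Cfsg.MemLocalIdeal M ((χ : G → ℂ) x - (χ : G → ℂ) y) := by
  classical
  letI : Fintype G := Fintype.ofFinite G
  haveI := isPrime_of_isPModular hM
  have hMt := ne_top_of_isPModular hM
  have hp : p.Prime := hM.1
  obtain ⟨x', hx1, hx2, ⟨kx, hx3⟩, hx4⟩ := ha
  obtain ⟨y', hy1, hy2, ⟨ky, hy3⟩, hy4⟩ := hb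
  have ex : a⁻¹ * x = x' := by rw [← hx1]; group
  have ey : b⁻¹ * y = y' := by rw [← hy1]; group
  rw [ex, ey]
  have hxs : ∀ χ : Cfsg.IrrCharacter G, MemLocalIdeal M ((χ : G → ℂ) x - (χ : G → ℂ) x') := by
    intro χ
    rw [← hx1]
    exact memLocalIdeal_char_mul_sub hM (isCharacter_of_irr χ.2) hx2 (k := kx)
      (by rw [← hx3]; exact pow_orderOf_eq_one a)
  have hys : ∀ χ : Cfsg.IrrCharacter G, MemLocalIdeal M ((χ : G → ℂ) y - (χ : G → ℂ) y') := by
    intro χ
    rw [← hy1]
    exact memLocalIdeal_char_mul_sub hM (isCharacter_of_irr χ.2) hy2 (k := ky)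
      (by rw [← hy3]; exact pow_orderOf_eq_one b)
  constructor
  · intro hconj χ
    have h1 : (χ : G → ℂ) x' = (χ : G → ℂ) y' :=
      isClassFunction_apply_of_isConj (isClassFunction_of_irr χ.2) hconj
    have h2 := memLocalIdeal_sub (hxs χ) (hys χ)
    have h3 : (χ : G → ℂ) x - (χ : G → ℂ) x' - ((χ : G → ℂ) y - (χ : G → ℂ) y') =
        (χ : G → ℂ) x - (χ : G → ℂ) y := by rw [h1]; ring
    rwa [h3] at h2
  · intro hall
    by_contra hnc
    set m := p ^ (Nat.card G).factorization p with hm
    set n := Nat.card G / p ^ (Nat.card G).factorization p with hn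
    have hG0 : Nat.card G ≠ 0 := Nat.card_pos.ne'
    have hmn : Nat.card G = m * n := (Nat.ordProj_mul_ordCompl_eq_self (Nat.card G) p).symm
    have hpn : Nat.Coprime p n := Nat.coprime_ordCompl hp hG0
    have hcop : Nat.Coprime m n := Nat.Coprime.pow_left _ hpn
    have hreg : ∀ w : G, ¬ p ∣ orderOf w → Nat.Coprime (orderOf w) m := fun w hw =>
      Nat.Coprime.pow_right _ ((Nat.Prime.coprime_iff_not_dvd hp).mpr hw).symm
    let ϑ : G → ℂ := fun w => if (∃ v : G, IsConj v x' ∧ (∃ u : G, w = u * v ∧ Commute u v ∧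
      Nat.Coprime (orderOf u) n ∧ Nat.Coprime (orderOf v) m)) then (n : ℂ) else 0
    obtain ⟨c, hc, hϑ⟩ := Cfsg.Agent.S0875.result m n hmn hcop x' (hreg x' hx4) ϑ
      (fun w hw => if_pos hw) (fun w hw => if_neg hw)
    have hϑx : ϑ x = n := by
      apply if_pos
      refine ⟨x', IsConj.refl _, a, hx1.symm, hx2, ?_, hreg x' hx4⟩
      rw [hx3]; exact Nat.Coprime.pow_left _ hpn
    have hϑy : ϑ y = 0 := by
      apply if_neg
      rintro ⟨v, hv, u, huv, hcomm, hu, hv2⟩
      apply hnc
      obtain ⟨e, hem, hen⟩ := exists_crt_exponent n m hcop.symm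
      have key : ∀ u v : G, Commute u v → Nat.Coprime (orderOf u) n → Nat.Coprime (orderOf v) m →
          (u * v) ^ e = v := by
        intro u v hcomm hu hv2
        have hu1 : orderOf u ∣ m := by
          have := orderOf_dvd_natCard u
          rw [hmn] at this
          exact hu.dvd_of_dvd_mul_right this
        have hv1 : orderOf v ∣ n := by
          have := orderOf_dvd_natCard v
          rw [hmn] at this
          exact hv2.dvd_of_dvd_mul_left this
        have e1 : u ^ e = 1 := by
          rw [← orderOf_dvd_iff_zpow_eq_one]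
          exact (Int.natCast_dvd_natCast.mpr hu1).trans hem
        have e2 : v ^ e = v := by
          have h1 : v ^ (1 - e) = 1 := by
            rw [← orderOf_dvd_iff_zpow_eq_one]
            exact (Int.natCast_dvd_natCast.mpr hv1).trans hen
          rw [zpow_sub, zpow_one, mul_inv_eq_one] at h1
          exact h1.symm
        rw [hcomm.mul_zpow, e1, e2, one_mul]
      have k1 := key u v hcomm hu hv2
      have k2 := key b y' hy2 (by rw [hy3]; exact Nat.Coprime.pow_left _ hpn) (hreg y' hy4)
      rw [← huv] at k1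
      rw [hy1] at k2
      rw [← k2, k1]
      exact hv.symm
    have h1 : (n : ℂ) = ∑ χ : Cfsg.IrrCharacter G, c χ * ((χ : G → ℂ) x - (χ : G → ℂ) y) := by
      rw [finsum_eq_sum_of_fintype] at hϑ
      have e1 := congrFun hϑ x
      have e2 := congrFun hϑ y
      simp only [Finset.sum_apply, Pi.smul_apply, smul_eq_mul] at e1 e2
      rw [hϑx] at e1
      rw [hϑy] at e2
      simp only [mul_sub, Finset.sum_sub_distrib]
      rw [← e1, ← e2, sub_zero]
    have h2 : MemLocalIdeal M (n : ℂ) := by
      rw [h1]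
      apply memLocalIdeal_sum
      intro χ _
      exact memLocalIdeal_mul_left (memLocalRing_of_isIntegral hMt (hc χ)) (hall χ)
    rw [memLocalIdeal_natCast_iff hM] at h2
    exact hp.one_lt.ne' (Nat.eq_one_of_dvd_coprimes hpn dvd_rfl h2)

end Cfsg.Agent.S0876
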