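import Mathlib
import Cfsg.Prelude.Def_Characters
import Cfsg.Prelude.Def_Transfer
import Cfsg.Agent.H6.Extraspecial
import Cfsg.Agent.S0154

set_option autoImplicit false

namespace Cfsg.Agent.S0894

open Cfsg Module Cfsg.Agent.CharLib Cfsg.Agent.CharLib.H2 Cfsg.Agent.H6

theorem result {P : Type*} [Group P] [Finite P] (p n : ℕ) [Fact p.Prime] (hP : Cfsg.IsExtraspecial p P) (hcard : Nat.card P = p ^ (2 * n + 1)) : (∀ χ : Cfsg.IrrCharacter P, (χ : P → ℂ) 1 = 1 ∨ (χ : P → ℂ) 1 = (p : ℂ) ^ n) ∧ Nat.card {χ : Cfsg.IrrCharacter P // (χ : P → ℂ) 1 = (p : ℂ) ^ n} = p - 1 := by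
  classical
  have hp : p.Prime := Fact.out
  have hdich : ∀ χ : Cfsg.IrrCharacter P, (χ : P → ℂ) 1 = 1 ∨ (χ : P → ℂ) 1 = (p : ℂ) ^ n := by
    rintro ⟨_, d, ρ, hirr, rfl⟩
    haveI := hirr
    have h1 : ρ.character 1 = (d : ℂ) := by rw [Representation.char_one, Module.finrank_fin_fun]
    simp only [h1]
    by_cases hd : d = 1
    · left; rw [hd]; simp
    · right
      have h2 := extraspecial_degree p hP ρ hd
      rw [hcard, pow_succ, mul_comm] at h2
      have h3 : d ^ 2 = (p ^ n) ^ 2 := by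
        rw [← pow_mul, mul_comm n 2]
        exact Nat.eq_of_mul_eq_mul_right hp.pos h2
      have h4 : d = p ^ n := Nat.pow_left_injective (n := 2) (by norm_num) h3
      rw [h4]; push_cast; rfl
  refine ⟨hdich, ?_⟩
  have hcomm : commutator P = Subgroup.center P := hP.1.2.2
  have hcardZ : Nat.card (Subgroup.center P) = p := hP.2
  -- n ≥ 1
  have hn : n ≠ 0 := by
    intro h0
    subst h0
    have h1 : Nat.card P = p := by simpa using hcard
    have htop : Subgroup.center P = ⊤ := by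
      apply Subgroup.eq_top_of_card_eq
      rw [hcardZ, h1]
    have hbot : commutator P = ⊥ := by
      rw [commutator_eq_bot_iff_center_eq_top]; exact htop
    rw [hcomm, htop] at hbot
    have h2 : Nat.card (⊤ : Subgroup P) = 1 := by rw [hbot]; simp
    rw [Subgroup.card_top, h1] at h2
    exact hp.one_lt.ne' h2
  have hpn1 : (p : ℂ) ^ n ≠ 1 := by
    have : p ^ n ≠ 1 := by
      intro h
      rcases Nat.pow_eq_one.mp h with h | h
      · exact hp.one_lt.ne' h
      · exact hn h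
    exact_mod_cast this
  have hlin : Nat.card {χ : Cfsg.IrrCharacter P // (χ : P → ℂ) 1 = 1} = p ^ (2 * n) := by
    rw [Cfsg.Agent.S0154.result, hcomm]
    have h1 := (Subgroup.center P).card_mul_index
    rw [hcardZ, hcard, pow_succ, mul_comm] at h1
    exact Nat.eq_of_mul_eq_mul_right hp.pos h1
  have hsum := sum_irr_sq (G := P)
  rw [← Finset.sum_filter_add_sum_filter_not Finset.univ
    (fun χ : Cfsg.IrrCharacter P => (χ : P → ℂ) 1 = 1)] at hsum
  have hs1 : ∑ χ ∈ Finset.univ.filter (fun χ : Cfsg.IrrCharacter P => (χ : P → ℂ) 1 = 1),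
      (χ : P → ℂ) 1 ^ 2 = (p ^ (2 * n) : ℕ) := by
    rw [← hlin, Nat.card_eq_fintype_card, Fintype.card_subtype, Finset.card_eq_sum_ones]
    push_cast
    refine Finset.sum_congr rfl fun χ hχ => ?_
    rw [(Finset.mem_filter.mp hχ).2]; simp
  have hfilt : Finset.univ.filter (fun χ : Cfsg.IrrCharacter P => ¬ (χ : P → ℂ) 1 = 1) =
      Finset.univ.filter (fun χ : Cfsg.IrrCharacter P => (χ : P → ℂ) 1 = (p : ℂ) ^ n) := by
    ext χ
    simp only [Finset.mem_filter, Finset.mem_univ, true_and]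
    constructor
    · intro h; exact (hdich χ).resolve_left h
    · intro h h'; rw [h] at h'; exact hpn1 h'
  have hs2 : ∑ χ ∈ Finset.univ.filter (fun χ : Cfsg.IrrCharacter P => ¬ (χ : P → ℂ) 1 = 1),
      (χ : P → ℂ) 1 ^ 2 =
      ((Nat.card {χ : Cfsg.IrrCharacter P // (χ : P → ℂ) 1 = (p : ℂ) ^ n} * p ^ (2 * n) : ℕ) : ℂ) := by
    rw [hfilt, Nat.card_eq_fintype_card, Fintype.card_subtype, Finset.card_eq_sum_ones]
    push_cast
    rw [Finset.sum_mul]
    refine Finset.sum_congr rfl fun χ hχ => ?_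
    rw [(Finset.mem_filter.mp hχ).2, one_mul, ← pow_mul, mul_comm]
  rw [hs1, hs2, hcard] at hsum
  have hnat : p ^ (2 * n) + Nat.card {χ : Cfsg.IrrCharacter P // (χ : P → ℂ) 1 = (p : ℂ) ^ n} * p ^ (2 * n)
      = p ^ (2 * n + 1) := by exact_mod_cast hsum
  have hpos : 0 < p ^ (2 * n) := pow_pos hp.pos _
  have h5 : (1 + Nat.card {χ : Cfsg.IrrCharacter P // (χ : P → ℂ) 1 = (p : ℂ) ^ n}) * p ^ (2 * n)
      = p * p ^ (2 * n) := by
    rw [add_mul, one_mul, hnat, pow_succ, mul_comm]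
  have h6 := Nat.eq_of_mul_eq_mul_right hpos h5
  omega

end Cfsg.Agent.S0894
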