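import Cfsg.Statements.S0927
import Cfsg.Agent.H25.HeightZero
import Cfsg.Agent.CharLib.PSection

set_option autoImplicit false
open Cfsg

namespace Cfsg.Agent.S0927

/-- Let B be a block of the finite group G relative to a maximal ideal M of the algebraic integers containing p, let y represent a defect class of B and let P be a Sylow p-subgroup of the centralizer of y. (a) If x ∈ P and χ ∈ B has height zero, then χ (x * y) is not in the local ideal at M. (b) If x lies in the centre of P, then for every χ ∈ B the central character of χ at x * y is not in the local ideal at M. -/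
theorem result {G : Type*} [Group G] [Finite G] (p : ℕ) [Fact p.Prime] (M : Ideal Cfsg.AlgInt) (hM : Cfsg.IsPModular p M) (B : Set (Cfsg.IrrCharacter G)) (hB : Cfsg.IsPBlock M B) (y : G) (hy : Cfsg.IsDefectClass M B y) (P : Sylow p (Subgroup.centralizer ({y} : Set G))) (x : Subgroup.centralizer ({y} : Set G)) (hx : x ∈ (P : Subgroup (Subgroup.centralizer ({y} : Set G)))) : (∀ χ ∈ B, Cfsg.blockHeight p B (χ : G → ℂ) = 0 → ¬ Cfsg.MemLocalIdeal M ((χ : G → ℂ) ((x : G) * y))) ∧ ((∀ w ∈ (P : Subgroup (Subgroup.centralizer ({y} : Set G))), x * w = w * x) → ∀ χ ∈ B, ¬ Cfsg.MemLocalIdeal M (Cfsg.centralChar (χ : G → ℂ) ((x : G) * y))) := by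
  classical
  cases nonempty_fintype G
  have hPr := Cfsg.Agent.BlockLib.isPrime_of_isPModular hM
  have htop := Cfsg.Agent.BlockLib.ne_top_of_isPModular hM
  have hp := hM.1
  obtain ⟨k, hk⟩ := P.2 ⟨x, hx⟩
  have hxk : (x : G) ^ (p ^ k) = 1 := by
    have := congrArg (fun u : (P : Subgroup (Subgroup.centralizer ({y} : Set G))) =>
      ((u : Subgroup.centralizer ({y} : Set G)) : G)) hk
    simpa using this
  have hc : Commute (x : G) y := (Subgroup.mem_centralizer_iff.1 x.2 y (by simp)).symm
  have ha : ∀ χ ∈ B, Cfsg.blockHeight p B (χ : G → ℂ) = 0 →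
      ¬ Cfsg.MemLocalIdeal M ((χ : G → ℂ) ((x : G) * y)) := by
    intro χ hχ h0 hmem
    apply Cfsg.Agent.H25.not_memLocalIdeal_apply_of_height_zero hM hB hy hχ
      (Cfsg.Agent.H25.minExp_eq_of_height_zero hχ h0)
    have h1 := Cfsg.Agent.CharLib.H2.memLocalIdeal_char_mul_sub hM
      (Cfsg.Agent.CharLib.isCharacter_of_irr χ.2) hc hxk
    have h2 : (χ : G → ℂ) y = (χ : G → ℂ) ((x : G) * y) -
        ((χ : G → ℂ) ((x : G) * y) - (χ : G → ℂ) y) := by ring
    rw [h2]
    exact Cfsg.Agent.BlockLib.memLocalIdeal_sub hmem h1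
  refine ⟨ha, fun hxz χ hχ => ?_⟩
  obtain ⟨χ₀, hχ₀, hmin⟩ := Cfsg.Agent.Lib.Helper23.MinMax.exists_minExp (p := p)
    (Cfsg.Agent.BlockLib.pb_nonempty hB)
  have hreg := (Cfsg.Agent.Lib.Helper23.MinMax.of_isDefectClass hM hB hy).1
  -- `y` is a power of `x * y`
  have hypow : y ∈ Subgroup.zpowers ((x : G) * y) := by
    have hcop : Nat.Coprime (p ^ k) (orderOf y) :=
      Nat.Coprime.pow_left _ ((Nat.Prime.coprime_iff_not_dvd hp).2 hreg)
    obtain ⟨m, hm1, hm2⟩ := Nat.chineseRemainder hcop 0 1
    refine ⟨(m : ℤ), ?_⟩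
    simp only [zpow_natCast]
    rw [hc.mul_pow]
    have e1 : (x : G) ^ m = 1 := by
      obtain ⟨c, hc'⟩ := (Nat.modEq_zero_iff_dvd.1 hm1)
      rw [hc', pow_mul, hxk, one_pow]
    have e2 : y ^ m = y := by
      have := (pow_eq_pow_iff_modEq (x := y) (n := m) (m := 1)).2 hm2
      simpa using this
    rw [e1, e2, one_mul]
  have hle : Subgroup.centralizer ({(x : G) * y} : Set G) ≤ Subgroup.centralizer ({y} : Set G) := by
    intro g hg
    rw [Subgroup.mem_centralizer_singleton_iff] at hg ⊢
    obtain ⟨m, hm⟩ := hypow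
    have : Commute g ((x : G) * y) := hg
    rw [← hm]
    exact (this.zpow_right m)
  have hPle : (P : Subgroup (Subgroup.centralizer ({y} : Set G))).map
      (Subgroup.centralizer ({y} : Set G)).subtype ≤ Subgroup.centralizer ({(x : G) * y} : Set G) := by
    rintro _ ⟨w, hw, rfl⟩
    rw [Subgroup.mem_centralizer_singleton_iff]
    have h1 : (x : G) * (w : G) = (w : G) * (x : G) := congrArg Subtype.val (hxz w hw)
    have h2 : (w : G) * y = y * (w : G) := (Subgroup.mem_centralizer_singleton_iff.1 w.2)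
    simp only [Subgroup.coe_subtype]
    calc (w : G) * ((x : G) * y) = ((x : G) * (w : G)) * y := by rw [h1, mul_assoc]
      _ = (x : G) * y * (w : G) := by rw [mul_assoc, h2, mul_assoc]
  have hcardP : Nat.card ((P : Subgroup (Subgroup.centralizer ({y} : Set G))).map
      (Subgroup.centralizer ({y} : Set G)).subtype) =
      p ^ (Nat.card (Subgroup.centralizer ({y} : Set G))).factorization p := by
    rw [Subgroup.card_map_of_injective (Subgroup.subtype_injective _)]
    exact P.card_eq_multiplicity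
  have h1 : (Nat.card (Subgroup.centralizer ({y} : Set G))).factorization p ≤
      (Nat.card (Subgroup.centralizer ({(x : G) * y} : Set G))).factorization p := by
    have := Subgroup.card_dvd_of_le hPle
    rw [hcardP] at this
    exact (Nat.Prime.pow_dvd_iff_le_factorization hp Nat.card_pos.ne').1 this
  have h2 : (Nat.card (Subgroup.centralizer ({(x : G) * y} : Set G))).factorization p ≤
      (Nat.card (Subgroup.centralizer ({y} : Set G))).factorization p :=
    (Nat.factorization_le_iff_dvd Nat.card_pos.ne' Nat.card_pos.ne').2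
      (Subgroup.card_dvd_of_le hle) p
  have hidx : (Subgroup.centralizer ({(x : G) * y} : Set G)).index.factorization p =
      Cfsg.Agent.Lib.Helper23.MinMax.minExp p B := by
    rw [← Cfsg.Agent.H25.factorization_index_of_isDefectClass hM hB hy]
    have e1 := Subgroup.card_mul_index (Subgroup.centralizer ({(x : G) * y} : Set G))
    have e2 := Subgroup.card_mul_index (Subgroup.centralizer ({y} : Set G))
    have e3 := congrArg (fun n => n.factorization p) e1
    have e4 := congrArg (fun n => n.factorization p) e2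
    simp only [Nat.factorization_mul Nat.card_pos.ne' Subgroup.index_ne_zero_of_finite,
      Finsupp.add_apply] at e3 e4
    omega
  have h0 : Cfsg.blockHeight p B (χ₀ : G → ℂ) = 0 :=
    Cfsg.Agent.H25.height_zero_of_minExp_eq hmin
  have h3 : ¬ Cfsg.MemLocalIdeal M (Cfsg.centralChar (χ₀ : G → ℂ) ((x : G) * y)) := by
    rw [centralChar, ← Cfsg.Agent.Lib.Helper23.charDegree_cast_irr,
      Cfsg.Agent.H25.memLocalIdeal_mul_div_iff hM Subgroup.index_ne_zero_of_finite
      (Cfsg.Agent.Lib.Helper23.charDegree_pos_irr χ₀).ne' (by rw [hidx, hmin])]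
    exact ha χ₀ hχ₀ h0
  intro hmem
  apply h3
  have h4 := Cfsg.Agent.Lib.Helper23.MinMax.sameBlock_of_mem hB hχ hχ₀ ((x : G) * y)
  have h5 : Cfsg.centralChar (χ₀ : G → ℂ) ((x : G) * y) =
      Cfsg.centralChar (χ : G → ℂ) ((x : G) * y) -
      (Cfsg.centralChar (χ : G → ℂ) ((x : G) * y) - Cfsg.centralChar (χ₀ : G → ℂ) ((x : G) * y)) := by
    ring
  rw [h5]
  exact Cfsg.Agent.BlockLib.memLocalIdeal_sub hmem h4

end Cfsg.Agent.S0927
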