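import Cfsg.Statements.S0939
import Mathlib
import Cfsg.Agent.H25.BlockSum2
import Cfsg.Agent.H25.Codeg2
import Cfsg.Agent.S0967
import Cfsg.Agent.S0915
import Cfsg.Agent.H12.Cores

set_option autoImplicit false
open Cfsg

namespace Cfsg.Agent.S0939

/-- Let G be a finite group with a normal p-complement (the largest normal subgroup O_p'(G) of order prime to p has p-power index). Then, relative to any maximal ideal M of the algebraic integers containing p, the principal block of G is the set of irreducible characters χ with χ n = χ 1 for every n ∈ O_p'(G). -/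
theorem result {G : Type*} [Group G] [Finite G] (p : ℕ) [Fact p.Prime] (M : Ideal Cfsg.AlgInt) (hM : Cfsg.IsPModular p M) (hnc : ∃ k : ℕ, (Cfsg.pPrimeCore p G).index = p ^ k) : Cfsg.principalBlock M G = {χ : Cfsg.IrrCharacter G | ∀ n ∈ Cfsg.pPrimeCore p G, (χ : G → ℂ) n = (χ : G → ℂ) 1} := by
  classical
  have hpp : p.Prime := Fact.out
  have hprime : M.IsPrime := BlockLib.isPrime_of_isPModular hM
  have hchar : (Cfsg.pPrimeCore p G).Characteristic := H12.pPrimeCore_characteristic p G
  have hKn : (Cfsg.pPrimeCore p G).Normal := inferInstance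
  set K := Cfsg.pPrimeCore p G with hK
  have hKp : ¬ p ∣ Nat.card K := H12.not_dvd_card_pPrimeCore p
  let χ₀ : Cfsg.IrrCharacter (G ⧸ K) := ⟨fun _ => 1, CharLib.isIrrCharacter_one⟩
  ext ψ
  constructor
  · intro hψ
    obtain ⟨ψ', hψ', -⟩ := Cfsg.Agent.S0967.result p M hM K hKp χ₀ ψ hψ
    intro n hn
    rw [hψ']
    simp only [Function.comp]
    rw [(QuotientGroup.eq_one_iff n).2 hn]; rfl
  · intro hψ
    obtain ⟨ψ', hψ'⟩ := H25.exists_quotient_irr ψ K (fun n hn => hψ n hn)
    obtain ⟨k, hk⟩ := hnc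
    have hcard : Nat.card (G ⧸ K) = p ^ k := by rw [← Subgroup.index_eq_card, hk]
    have hsolv : Cfsg.IsPSolvable p (G ⧸ K) := by
      refine ⟨1, ![⊥, ⊤], rfl, rfl, ?_, ?_, ?_⟩
      · intro i j hij
        fin_cases i <;> fin_cases j <;> simp at hij ⊢
      · intro i
        fin_cases i
        · exact (inferInstance : (⊥ : Subgroup (G ⧸ K)).Normal)
        · exact (inferInstance : (⊤ : Subgroup (G ⧸ K)).Normal)
      · intro i
        left
        refine ⟨k, ?_⟩
        fin_cases i
        show (⊥ : Subgroup (G ⧸ K)).relIndex ⊤ = p ^ k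
        rw [Subgroup.relIndex_top_right, Subgroup.index_bot, hcard]
    have hcore : Cfsg.pPrimeCore p (G ⧸ K) = ⊥ := H12.pPrimeCore_quotient_eq_bot p
    have h1 := Cfsg.Agent.S0915.result p M hM hsolv hcore χ₀ ψ'
    have h2 := H25.sameBlock_inflation K h1
    have e : (ψ' : G ⧸ K → ℂ) ∘ QuotientGroup.mk = (ψ : G → ℂ) := funext hψ'
    rw [e] at h2
    exact h2

end Cfsg.Agent.S0939
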