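import Cfsg.Statements.S0941
import Cfsg.Agent.H25.QuotBlock

set_option autoImplicit false
open Cfsg

namespace Cfsg.Agent.S0941

/-- Let P be a normal p-subgroup of the finite group G such that the index of C_G(P) is a power of p, and fix a maximal ideal M of the algebraic integers containing p. Then (i) two irreducible characters of G ⧸ P lie in the same block if and only if their inflations to G do, and (ii) every block of G contains the inflation of some irreducible character of G ⧸ P; so inflation induces a bijection between the blocks of G ⧸ P and the blocks of G. -/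
theorem result {G : Type*} [Group G] [Finite G] (p : ℕ) [Fact p.Prime] (M : Ideal Cfsg.AlgInt) (hM : Cfsg.IsPModular p M) (P : Subgroup G) [P.Normal] (hP : IsPGroup p P) (hC : ∃ k : ℕ, (Subgroup.centralizer (P : Set G)).index = p ^ k) : (∀ χ ψ : Cfsg.IrrCharacter (G ⧸ P), Cfsg.SameBlock M (χ : G ⧸ P → ℂ) (ψ : G ⧸ P → ℂ) ↔ Cfsg.SameBlock M ((χ : G ⧸ P → ℂ) ∘ QuotientGroup.mk) ((ψ : G ⧸ P → ℂ) ∘ QuotientGroup.mk)) ∧ ∀ B : Set (Cfsg.IrrCharacter G), Cfsg.IsPBlock M B → ∃ χ : Cfsg.IrrCharacter (G ⧸ P), ∃ θ ∈ B, (θ : G → ℂ) = (χ : G ⧸ P → ℂ) ∘ QuotientGroup.mk := by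
  have hMp := Cfsg.Agent.BlockLib.isPrime_of_isPModular hM
  refine ⟨fun χ ψ => ⟨fun h => Cfsg.Agent.H25.sameBlock_inflation P h, fun h => ?_⟩,
    fun B hB => Cfsg.Agent.H25.QuotBlock.exists_inflation_mem hM P hP B hB⟩
  apply Cfsg.Agent.H25.QuotBlock.sameBlock_of_inflation hM P hP _ χ ψ h
  intro g hg hgC
  exfalso
  apply hgC
  obtain ⟨k, hk⟩ := hC
  have hn : (Subgroup.centralizer (P : Set G)).Normal := inferInstance
  have h1 : g ^ (p ^ k) ∈ Subgroup.centralizer (P : Set G) := by
    rw [← hk]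
    exact Subgroup.pow_index_mem _ g
  have hp : p.Prime := Fact.out
  have hco : (p ^ k).Coprime (orderOf g) :=
    Nat.Coprime.pow_left k ((Nat.Prime.coprime_iff_not_dvd hp).mpr hg)
  obtain ⟨m, hm⟩ := exists_pow_eq_self_of_coprime hco
  rw [← hm]
  exact Subgroup.pow_mem _ h1 m

end Cfsg.Agent.S0941
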