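import Cfsg.Statements.S0969
import Cfsg.Agent.H25.CentralDefect
import Cfsg.Agent.S0912
import Cfsg.Agent.BlockLib.KG.DefectTr

set_option autoImplicit false
open Cfsg

namespace Cfsg.Agent.S0969

/-- Let D be a central p-subgroup of the finite group G and χ an irreducible character with the exponent of p in χ(1) equal to the exponent of p in the index of D; fix a maximal ideal M of the algebraic integers containing p. Then D is a defect group of the block of χ, and χ g = 0 whenever the p-part of g does not lie in D. -/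
theorem result {G : Type*} [Group G] [Finite G] (p : ℕ) [Fact p.Prime] (M : Ideal Cfsg.AlgInt) (hM : Cfsg.IsPModular p M) (D : Subgroup G) (hD : IsPGroup p D) (hDZ : D ≤ Subgroup.center G) (χ : Cfsg.IrrCharacter G) (hdeg : (Cfsg.charDegree (χ : G → ℂ)).factorization p = D.index.factorization p) : Cfsg.IsDefectGroup p M (Cfsg.blockOf M (χ : G → ℂ)) D ∧ ∀ g x : G, Cfsg.IsPPart p g x → x ∉ D → (χ : G → ℂ) g = 0 := by
  classical
  cases nonempty_fintype G
  have hPr := Cfsg.Agent.BlockLib.isPrime_of_isPModular hM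
  have hp := hM.1
  refine ⟨?_, (Cfsg.Agent.H25.central_main hp hD hDZ χ hdeg).2⟩
  have hB : Cfsg.IsPBlock M (Cfsg.blockOf M (χ : G → ℂ)) := ⟨χ, rfl⟩
  have hχ := Cfsg.Agent.BlockLib.mem_blockOf_self (M := M) χ
  have hmin := Cfsg.Agent.H25.central_minExp hM hD hDZ hB hχ hdeg
  obtain ⟨P, hP⟩ : ∃ P, Cfsg.IsDefectGroup p M (Cfsg.blockOf M (χ : G → ℂ)) P := by
    obtain ⟨P, hP⟩ := Cfsg.Agent.BlockLib.CA.exists_isDefGrp (p := p)
      (Cfsg.Agent.BlockLib.isBlk_eps hB)
    exact ⟨P, (Cfsg.Agent.BlockLib.isDefectGroup_iff hB P).2 hP⟩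
  have h1 := Cfsg.Agent.S0912.result p M hM _ hB P hP
  have hDn : D.Normal := ⟨fun n hn g => by
    have := Subgroup.mem_center_iff.1 (hDZ hn) g
    rw [this, mul_inv_cancel_right]; exact hn⟩
  have h2 : D ≤ Cfsg.pCore p G := le_sSup ⟨hDn, hD⟩
  have c1 := Cfsg.Agent.Lib.Helper23.MinMax.card_of_isDefectGroup hM hB hP
  obtain ⟨j, hj⟩ := IsPGroup.iff_card.mp hD
  have ha : (Nat.card G).factorization p = j + D.index.factorization p := by
    rw [← Subgroup.card_mul_index D, Nat.factorization_mul Nat.card_pos.ne'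
      Subgroup.index_ne_zero_of_finite, hj]
    simp [hp.factorization_self]
  have hd : Cfsg.blockDefect p (Cfsg.blockOf M (χ : G → ℂ)) = j := by
    rw [Cfsg.Agent.Lib.Helper23.MinMax.blockDefect_eq, ← hmin, hdeg]
    omega
  have : D = P := Subgroup.eq_of_le_of_card_ge (h2.trans h1) (by rw [c1, hd, hj])
  rw [this]
  exact hP

end Cfsg.Agent.S0969
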