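import Cfsg.Statements.S0970
import Cfsg.Agent.H25.StabBridge
import Cfsg.Agent.H25.Fong
import Cfsg.Agent.BlockLib.KG.DefSubTr
import Cfsg.Agent.Lib.Helper23.MinMax

set_option autoImplicit false
open Cfsg

namespace Cfsg.Agent.S0970

/-- Let N be a normal subgroup of the finite group G and fix a maximal ideal M of the algebraic integers containing the prime p. Let b be a block of N that is invariant under conjugation by G, and B a block of G covering b (some χ ∈ B has a constituent in b) whose defect is at least that of every block covering b. If P is a defect group of B, then p does not divide the index of P ⊔ N, the subgroup P ∩ N of N is a defect group of b, and the defect of B equals the defect of b plus the exponent of p in the index of N. -/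
theorem result {G : Type*} [Group G] [Fintype G] (p : ℕ) [Fact p.Prime] (M : Ideal Cfsg.AlgInt) (hM : Cfsg.IsPModular p M) (N : Subgroup G) [hN : N.Normal] [Fintype N] (b : Set (Cfsg.IrrCharacter N)) (hb : Cfsg.IsPBlock M b) (hinv : ∀ g : G, ∀ θ ∈ b, ∀ θ' : Cfsg.IrrCharacter N, (∀ n : N, (θ' : N → ℂ) n = (θ : N → ℂ) ⟨g * n * g⁻¹, hN.conj_mem n n.2 g⟩) → θ' ∈ b) (B : Set (Cfsg.IrrCharacter G)) (hB : Cfsg.IsPBlock M B) (hcov : ∃ χ ∈ B, ∃ θ ∈ b, Cfsg.classInner (fun n : N => (χ : G → ℂ) n) (θ : N → ℂ) ≠ 0) (hmax : ∀ B' : Set (Cfsg.IrrCharacter G), Cfsg.IsPBlock M B' → (∃ χ ∈ B', ∃ θ ∈ b, Cfsg.classInner (fun n : N => (χ : G → ℂ) n) (θ : N → ℂ) ≠ 0) → Cfsg.blockDefect p B' ≤ Cfsg.blockDefect p B) (P : Subgroup G) (hP : Cfsg.IsDefectGroup p M B P) : ¬ p ∣ (P ⊔ N).index ∧ Cfsg.IsDefectGroup p M b ((P ⊓ N).subgroupOf N) ∧ Cfsg.blockDefect p B = Cfsg.blockDefect p b + N.index.factorization p := by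
  classical
  have hPr := Cfsg.Agent.BlockLib.isPrime_of_isPModular hM
  have hch := Cfsg.Agent.BlockLib.charP_resField hM
  have hp := hM.1
  open Cfsg.Agent.BlockLib Cfsg.Agent.H25 Cfsg.Agent.Lib.Helper23.MinMax in
  have hfix : epsS M N b ∈ CA.fix (⊤ : Subgroup G) :=
    CA.mem_fix_iff_cj.mpr fun g _ => (cj_epsS_eq_iff hb g).1 (hinv g)
  open Cfsg.Agent.BlockLib Cfsg.Agent.H25 Cfsg.Agent.Lib.Helper23.MinMax in
  have key := fong (p := p) (isBlk_epsS hb) hfix (isBlk_eps hB)
    ((covers_iff_mul_ne_zero hB hb).1 hcov) ((isDefectGroup_iff hB P).1 hP) (by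
      intro β' P' hβ' hne hP''
      obtain ⟨B', hB', rfl⟩ := exists_eps_eq hβ'
      have h1 := hmax B' hB' ((covers_iff_mul_ne_zero hB' hb).2 hne)
      rw [card_of_isDefectGroup hM hB' ((isDefectGroup_iff hB' P').2 hP''),
        card_of_isDefectGroup hM hB hP]
      exact Nat.pow_le_pow_right hp.pos h1)
  have hdb : Cfsg.IsDefectGroup p M b ((P ⊓ N).subgroupOf N) :=
    (Cfsg.Agent.BlockLib.isDefectGroup_subgroupOf_iff hb inf_le_right).2 key.2
  refine ⟨key.1, hdb, ?_⟩
  have c1 := Cfsg.Agent.Lib.Helper23.MinMax.card_of_isDefectGroup hM hB hP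
  have c2 := Cfsg.Agent.Lib.Helper23.MinMax.card_of_isDefectGroup hM hb hdb
  have c3 : Nat.card ((P ⊓ N).subgroupOf N) = Nat.card (P ⊓ N : Subgroup G) :=
    Nat.card_congr (Subgroup.subgroupOfEquivOfLe inf_le_right).toEquiv
  rw [c3] at c2
  have e1 : N.relIndex (P ⊔ N) * (P ⊔ N).index = N.index :=
    Subgroup.relIndex_mul_index le_sup_right
  rw [Subgroup.relIndex_sup_right] at e1
  have e2 : Nat.card (P ⊓ N : Subgroup G) * (P ⊓ N).relIndex P = Nat.card P := by
    have := Subgroup.relIndex_mul_relIndex ⊥ (P ⊓ N) P bot_le inf_le_left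
    rwa [Subgroup.relIndex_bot_left, Subgroup.relIndex_bot_left] at this
  rw [Subgroup.inf_relIndex_left, c1, c2] at e2
  have hr : N.relIndex P ≠ 0 := Subgroup.index_ne_zero_of_finite
  have hi : (P ⊔ N).index ≠ 0 := Subgroup.index_ne_zero_of_finite
  have f1 := congrArg (fun n => n.factorization p) e1
  have f2 := congrArg (fun n => n.factorization p) e2
  simp only [Nat.factorization_mul hr hi, Nat.factorization_mul (pow_ne_zero _ hp.ne_zero) hr,
    Finsupp.add_apply, Nat.Prime.factorization_pow hp, Finsupp.single_eq_same] at f1 f2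
  have f3 : (P ⊔ N).index.factorization p = 0 := Nat.factorization_eq_zero_of_not_dvd key.1
  omega

end Cfsg.Agent.S0970
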