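import Cfsg.Statements.S0987
import Cfsg.Agent.S3032
import Cfsg.Agent.H4.PrimeIndex
import Cfsg.Agent.H4.Supersolvable2

set_option autoImplicit false
open Cfsg

namespace Cfsg.Agent.S0987

/-- If a finite group has order pqr for primes p < q < r, then its Sylow r-subgroups are normal. -/
theorem result {G : Type*} [Group G] [Finite G] (p q r : ℕ) (hp : p.Prime) (hq : q.Prime) [Fact r.Prime] (hpq : p < q) (hqr : q < r) (hG : Nat.card G = p * q * r) (R : Sylow r G) : (R : Subgroup G).Normal := by
  have hr : r.Prime := Fact.out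
  have hsq : Squarefree (p * q * r) := by
    have h1 : Nat.Coprime p q := (Nat.coprime_primes hp hq).2 hpq.ne
    have h2 : Nat.Coprime (p * q) r :=
      Nat.Coprime.mul_left ((Nat.coprime_primes hp hr).2 (hpq.trans hqr).ne)
        ((Nat.coprime_primes hq hr).2 hqr.ne)
    rw [Nat.squarefree_mul h2, Nat.squarefree_mul h1]
    exact ⟨⟨hp.prime.squarefree, hq.prime.squarefree⟩, hr.prime.squarefree⟩
  have hss : Cfsg.IsSupersolvable G := by
    have hsub : Subsingleton (G ⧸ (⊤ : Subgroup G)) := QuotientGroup.subsingleton_quotient_top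
    apply Cfsg.Agent.S3032.result (⊤ : Subgroup G) Cfsg.Agent.H4.isSupersolvable_of_subsingleton
    intro s hs P _ hP _ hcyc
    exfalso
    apply hcyc
    have : Fact s.Prime := ⟨hs⟩
    obtain ⟨k, hk⟩ := IsPGroup.iff_card.1 hP
    have hd : s ^ k ∣ p * q * r := by rw [← hk, ← hG]; exact Subgroup.card_subgroup_dvd_card P
    have hk1 : k ≤ 1 := by
      by_contra hcon
      have h2 : s * s ∣ p * q * r := by
        refine dvd_trans ?_ hd
        rw [← pow_two]
        exact pow_dvd_pow s (by omega)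
      exact hs.one_lt.ne' (Nat.isUnit_iff.1 (hsq s h2))
    apply isCyclic_of_card_dvd_prime (p := s)
    rw [hk]
    calc s ^ k ∣ s ^ 1 := pow_dvd_pow s hk1
      _ = s := pow_one s
  apply Cfsg.Agent.H4.sylow_normal_of_prime_index
    (fun M hM => Cfsg.Agent.H4.index_prime_of_isCoatom hss M hM) _ R
  intro t ht htd
  rw [hG] at htd
  rcases (Nat.Prime.dvd_mul ht).1 htd with h1 | h1
  · rcases (Nat.Prime.dvd_mul ht).1 h1 with h2 | h2
    · rw [(Nat.prime_dvd_prime_iff_eq ht hp).1 h2]; exact (hpq.trans hqr).le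
    · rw [(Nat.prime_dvd_prime_iff_eq ht hq).1 h2]; exact hqr.le
  · rw [(Nat.prime_dvd_prime_iff_eq ht hr).1 h1]

end Cfsg.Agent.S0987
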