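import Cfsg.Statements.S1244
import Cfsg.Agent.Lib.Helper8.AbelianSylow
import Cfsg.Agent.Lib.Helper8.Isolated

set_option autoImplicit false
open Cfsg

namespace Cfsg.Agent.S1244

open Cfsg.Agent.Lib.Helper8

open scoped IsMulCommutative in
theorem aux {G : Type*} [Group G] [Finite G] (hG : ∀ H : Subgroup G, H.index ≠ 2) (S : Sylow 2 G) (hS : IsMulCommutative (S : Subgroup G)) (r : ℕ) (hr1 : 1 ≤ r) (hSr : Cfsg.PRankLE 2 r (S : Subgroup G)) (R : Subgroup G) (hRS : R ≤ S) (hRr : (r = 1 ∨ ¬ Cfsg.PRankLE 2 (r - 2) R)) (t : G) (ht : orderOf t = 2) (htS : t ∈ S) : ∃ n ∈ Subgroup.normalizer ((S : Subgroup G) : Set G), n * t * n⁻¹ ∈ R := by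
  classical
  by_contra hcon
  push Not at hcon
  have htt : t * t = 1 := mul_self_of_orderOf_two ht
  have hti : t⁻¹ = t := inv_eq_self_of_mul_self htt
  have htR : t ∉ R := by
    have := hcon 1 (Subgroup.one_mem _)
    simpa using this
  obtain ⟨A, hAR, hA2, hAcard⟩ : ∃ A : Subgroup G, A ≤ R ∧ (∀ a ∈ A, a * a = 1) ∧
      2 ^ (r - 1) ≤ Nat.card A := by
    rcases hRr with rfl | h
    · exact ⟨⊥, bot_le, by simp, by simp⟩
    · unfold Cfsg.PRankLE at h
      push Not at h
      obtain ⟨A', hc, h2, hcard⟩ := h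
      refine ⟨A'.map R.subtype, Subgroup.map_subtype_le _, ?_, ?_⟩
      · rintro _ ⟨a, ha, rfl⟩
        have := h2 a ha
        rw [pow_two] at this
        exact congrArg Subtype.val this
      · rw [Subgroup.card_map_of_injective R.subtype_injective]
        have hpg : IsPGroup 2 A' := fun a => ⟨1, by
          have := h2 a a.2
          apply Subtype.ext
          simpa using this⟩
        obtain ⟨k, hk⟩ := IsPGroup.iff_card.mp hpg
        rw [hk] at hcard ⊢
        have : r - 2 < k := (Nat.pow_lt_pow_iff_right (by norm_num)).mp hcard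
        exact Nat.pow_le_pow_right (by norm_num) (by omega)
  have hAS : A ≤ S := hAR.trans hRS
  let ES : Subgroup (S : Subgroup G) := (powMonoidHom 2 : (S : Subgroup G) →* (S : Subgroup G)).ker
  have hmemES : ∀ x : (S : Subgroup G), x ∈ ES ↔ (x : G) * x = 1 := by
    intro x
    show x ^ 2 = 1 ↔ _
    rw [pow_two, ← Subgroup.coe_mul, OneMemClass.coe_eq_one]
  have hEScard : Nat.card ES ≤ 2 ^ r := hSr ES inferInstance (fun a ha => ha)
  let AS : Subgroup (S : Subgroup G) := A.subgroupOf S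
  have hASES : AS ≤ ES := by
    intro x hx
    rw [hmemES]; exact hA2 _ (Subgroup.mem_subgroupOf.mp hx)
  have hAScard : Nat.card AS = Nat.card A :=
    Nat.card_congr (Subgroup.subgroupOfEquivOfLe hAS).toEquiv
  let AE : Subgroup ES := AS.subgroupOf ES
  have hAEcard : Nat.card AE = Nat.card A := by
    rw [← hAScard]; exact Nat.card_congr (Subgroup.subgroupOfEquivOfLe hASES).toEquiv
  have htES : (⟨t, htS⟩ : (S : Subgroup G)) ∈ ES := by rw [hmemES]; exact htt
  have hmemAE : ∀ (x : G) (hx : x ∈ S) (hx2 : (⟨x, hx⟩ : (S : Subgroup G)) ∈ ES),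
      (⟨⟨x, hx⟩, hx2⟩ : ES) ∈ AE ↔ x ∈ A := by
    intro x hx hx2
    rfl
  have hidx : AE.index = 2 := by
    have h1 := AE.card_mul_index
    rw [hAEcard] at h1
    have h2 : AE.index ≠ 1 := by
      intro h
      rw [Subgroup.index_eq_one] at h
      have : (⟨⟨t, htS⟩, htES⟩ : ES) ∈ AE := by rw [h]; exact Subgroup.mem_top _
      exact htR (hAR ((hmemAE t htS htES).mp this))
    have h3 : AE.index ≠ 0 := Subgroup.index_ne_zero_of_finite
    have h4 : 2 ^ (r - 1) * AE.index ≤ 2 ^ (r - 1) * 2 := by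
      calc 2 ^ (r - 1) * AE.index ≤ Nat.card A * AE.index := Nat.mul_le_mul_right _ hAcard
        _ = Nat.card ES := h1
        _ ≤ 2 ^ r := hEScard
        _ = 2 ^ (r - 1) * 2 := by rw [← pow_succ]; congr 1; omega
    have h5 : AE.index ≤ 2 := Nat.le_of_mul_le_mul_left h4 (by positivity)
    omega
  have hstep : ∀ n ∈ Subgroup.normalizer ((S : Subgroup G) : Set G), (n * t * n⁻¹) * t⁻¹ ∈ A := by
    intro n hn
    have hsS : n * t * n⁻¹ ∈ (S : Subgroup G) := (Subgroup.mem_normalizer_iff.mp hn t).mp htS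
    have hsES : (⟨n * t * n⁻¹, hsS⟩ : (S : Subgroup G)) ∈ ES := by
      rw [hmemES]; exact conj_mul_self htt n
    have h1 := Subgroup.mul_mem_iff_of_index_two hidx (a := (⟨⟨n * t * n⁻¹, hsS⟩, hsES⟩ : ES))
      (b := (⟨⟨t, htS⟩, htES⟩ : ES))
    have h2 : (⟨⟨n * t * n⁻¹, hsS⟩, hsES⟩ : ES) ∉ AE := fun h =>
      hcon n hn (hAR ((hmemAE _ hsS hsES).mp h))
    have h3 : (⟨⟨t, htS⟩, htES⟩ : ES) ∉ AE := fun h => htR (hAR ((hmemAE _ htS htES).mp h))
    have h4 := h1.mpr (iff_of_false h2 h3)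
    rw [hti]
    exact h4
  obtain ⟨c, hcS, hcinv, m, hm, hcm⟩ := exists_norm S t htS A hstep
  have htm : t ^ m = t := by
    have hodd : Odd m := Nat.not_even_iff_odd.mp (fun h => hm (even_iff_two_dvd.mp h))
    obtain ⟨j, rfl⟩ := hodd
    rw [pow_succ, pow_mul, pow_two, htt, one_pow, one_mul]
  rw [htm, hti] at hcm
  have hc1 : c ≠ 1 := by
    rintro rfl
    rw [one_mul] at hcm
    exact htR (hAR hcm)
  obtain ⟨H, hH⟩ := exists_index_of_invariant S c hcS hc1 hcinv
  exact hG H hH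

/-- Let G be a finite group with no subgroup of index 2 whose Sylow 2-subgroup S is commutative, and let R ≤ S be a subgroup whose 2-rank is exactly one less than the 2-rank r of S. Then every involution of S is conjugate, by an element of N_G(S), to an element of R. -/
theorem result {G : Type*} [Group G] [Finite G] (hG : ∀ H : Subgroup G, H.index ≠ 2) (S : Sylow 2 G) (hS : IsMulCommutative (S : Subgroup G)) (r : ℕ) (hr1 : 1 ≤ r) (hSr : Cfsg.PRankLE 2 r (S : Subgroup G) ∧ ¬ Cfsg.PRankLE 2 (r - 1) (S : Subgroup G)) (R : Subgroup G) (hRS : R ≤ S) (hRr : Cfsg.PRankLE 2 (r - 1) R ∧ (r = 1 ∨ ¬ Cfsg.PRankLE 2 (r - 2) R)) (t : G) (ht : orderOf t = 2) (htS : t ∈ S) : ∃ n ∈ Subgroup.normalizer ((S : Subgroup G) : Set G), n * t * n⁻¹ ∈ R := by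
  exact aux hG S hS r hr1 hSr.1 R hRS hRr.2 t ht htS

end Cfsg.Agent.S1244
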