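import Cfsg.Statements.S1255
import Cfsg.Agent.S0107
import Cfsg.Agent.S1244
import Cfsg.Agent.H12.IndexP
import Cfsg.Agent.H6.KleinAct
import Cfsg.Agent.H14.Klein
import Cfsg.Agent.Lib.Helper8.Fus
import Cfsg.Agent.Lib.Helper8.QDF1

set_option autoImplicit false
open Cfsg

namespace Cfsg.Agent.S1255

open Cfsg.Agent.H6.KleinAct in
theorem exists_move {X : Type*} [Group X] {U : Subgroup X} (hU : IsKleinFour U)
    (h1 : (Subgroup.centralizer (U : Set X)).relIndex (Subgroup.normalizer (U : Set X)) ≠ 1)
    (h2 : (Subgroup.centralizer (U : Set X)).relIndex (Subgroup.normalizer (U : Set X)) ≠ 2)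
    {e : X} (he : e ∈ U) (he1 : e ≠ 1) :
    ∃ g ∈ Subgroup.normalizer (U : Set X), g * e * g⁻¹ ≠ e := by
  by_contra hcon
  push Not at hcon
  haveI := hU
  obtain ⟨a, ha, ha1, hea⟩ := exists_third (P := U) (u := e)
  have key : ∀ g ∈ Subgroup.normalizer (U : Set X), g * a * g⁻¹ = a ∨ g * a * g⁻¹ = e * a := by
    intro g hg
    have hw : g * a * g⁻¹ ∈ U := (Subgroup.mem_normalizer_iff.mp hg a).mp ha
    rcases cases_of_mem he ha hw he1 ha1 hea with h | h | h | h
    · exact absurd (by simpa using h) ha1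
    · exfalso
      rw [← hcon g hg] at h
      exact hea (by simpa using h.symm)
    · exact Or.inl h
    · exact Or.inr h
  by_cases hall : ∀ g ∈ Subgroup.normalizer (U : Set X), g * a * g⁻¹ = a
  · apply h1
    rw [Subgroup.relIndex_eq_one]
    intro g hg
    exact mem_centralizer_of_fix_two he ha he1 ha1 hea (hcon g hg) (hall g hg)
  · push Not at hall
    obtain ⟨g₀, hg₀, hg₀a⟩ := hall
    apply h2
    rw [Subgroup.relIndex_eq_two_iff_exists_notMem_and]
    refine ⟨g₀, hg₀, ?_, ?_⟩
    · intro h
      apply hg₀a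
      have := Subgroup.mem_centralizer_iff.mp h a ha
      rw [← this]; group
    · intro g hg
      rcases key g hg with h | h
      · right; exact mem_centralizer_of_fix_two he ha he1 ha1 hea (hcon g hg) h
      · left
        apply mem_centralizer_of_fix_two he ha he1 ha1 hea (hcon _ (mul_mem hg hg₀))
        have h0 : g₀ * a * g₀⁻¹ = e * a := (key g₀ hg₀).resolve_left hg₀a
        calc g * g₀ * a * (g * g₀)⁻¹ = g * (g₀ * a * g₀⁻¹) * g⁻¹ := by group
          _ = (g * e * g⁻¹) * (g * a * g⁻¹) := by rw [h0]; group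
          _ = e * (e * a) := by rw [hcon g hg, h]
          _ = a := by rw [← mul_assoc, mul_self_of_mem he, one_mul]

open Cfsg.Agent.H6.KleinAct in
theorem klein_all_conj {X : Type*} [Group X] {U : Subgroup X} (hU : IsKleinFour U)
    (h1 : (Subgroup.centralizer (U : Set X)).relIndex (Subgroup.normalizer (U : Set X)) ≠ 1)
    (h2 : (Subgroup.centralizer (U : Set X)).relIndex (Subgroup.normalizer (U : Set X)) ≠ 2)
    {a b : X} (ha : a ∈ U) (hb : b ∈ U) (ha1 : a ≠ 1) (hb1 : b ≠ 1) : IsConj a b := by
  haveI := hU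
  by_cases hab : a = b
  · subst hab; exact IsConj.refl _
  have mv : ∀ e ∈ U, e ≠ 1 → ∃ e' ∈ U, e' ≠ 1 ∧ e' ≠ e ∧ IsConj e e' := by
    intro e he he1
    obtain ⟨g, hg, hne⟩ := exists_move hU h1 h2 he he1
    refine ⟨g * e * g⁻¹, (Subgroup.mem_normalizer_iff.mp hg e).mp he, ?_, hne,
      isConj_iff.mpr ⟨g, rfl⟩⟩
    intro h; exact he1 (by simpa using h)
  obtain ⟨a', ha', ha'1, ha'a, hca⟩ := mv a ha ha1
  obtain ⟨b', hb', hb'1, hb'b, hcb⟩ := mv b hb hb1
  rcases cases_of_mem ha hb ha' ha1 hb1 hab with h | h | h | h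
  · exact absurd h ha'1
  · exact absurd h ha'a
  · rw [h] at hca; exact hca
  · rcases cases_of_mem ha hb hb' ha1 hb1 hab with h' | h' | h' | h'
    · exact absurd h' hb'1
    · rw [h'] at hcb; exact hcb.symm
    · exact absurd h' hb'b
    · rw [h] at hca; rw [h'] at hcb; exact hca.trans hcb.symm

theorem ord2 {X : Type*} [Group X] {t : X} : orderOf t = 2 ↔ t ≠ 1 ∧ t * t = 1 := by
  rw [orderOf_eq_iff (by norm_num)]
  constructor
  · rintro ⟨h1, h2⟩
    refine ⟨fun h => h2 1 (by norm_num) (by norm_num) (by simpa using h), by rw [← sq]; exact h1⟩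
  · rintro ⟨h1, h2⟩
    refine ⟨by rw [sq]; exact h2, fun m hm hm0 => ?_⟩
    have : m = 1 := by omega
    subst this
    simpa using h1

/-- Let X be a finite group whose Sylow 2-subgroup S is dihedral of order 2m ≥ 4. Then X has no subgroup of index 2 and no isolated involution if and only if either all involutions of X are conjugate, or for every Klein four-subgroup U ≤ S the index |N_X(U) : C_X(U)| equals 3 when |S| = 4 and equals 6 when |S| > 4. -/
theorem result {X : Type*} [Group X] [Finite X] (S : Sylow 2 X) (m : ℕ) (hm : 2 ≤ m) (eS : (S : Subgroup X) ≃* DihedralGroup m) : ((∀ H : Subgroup X, H.index ≠ 2) ∧ (∀ z : X, ¬ Cfsg.IsIsolatedInvolution z)) ↔ ((∀ a b : X, orderOf a = 2 → orderOf b = 2 → IsConj a b) ∨ (∀ U : Subgroup X, U ≤ S → IsKleinFour U → (Subgroup.centralizer (U : Set X)).relIndex (Subgroup.normalizer (U : Set X)) = (if Nat.card S = 4 then 3 else 6))) := by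
  haveI : Fact (Nat.Prime 2) := ⟨Nat.prime_two⟩
  have hcard : Nat.card S = 2 * m := by
    rw [Nat.card_congr eS.toEquiv, DihedralGroup.nat_card]
  -- the structure facts
  obtain ⟨c, hcS, hc1, hcc, hccomm⟩ : ∃ c ∈ S, c ≠ 1 ∧ c * c = 1 ∧ ∀ s ∈ S, s * c = c * s := by
    haveI : Nontrivial S := by
      rw [← Finite.one_lt_card_iff_nontrivial]; omega
    haveI := S.2.center_nontrivial
    have h2 : 2 ∣ Nat.card (Subgroup.center S) := by
      obtain ⟨n, hn⟩ := IsPGroup.iff_card.mp (S.2.to_subgroup (Subgroup.center S))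
      have : 1 < Nat.card (Subgroup.center S) := Finite.one_lt_card
      rw [hn] at this ⊢
      have hn0 : n ≠ 0 := by rintro rfl; simp at this
      exact dvd_pow_self 2 hn0
    obtain ⟨c, hc⟩ := exists_prime_orderOf_dvd_card' 2 h2
    have hc' : orderOf ((c : S) : X) = 2 := by
      rw [Subgroup.orderOf_coe, Subgroup.orderOf_coe]; exact hc
    obtain ⟨h3, h4⟩ := ord2.mp hc'
    refine ⟨((c : S) : X), (c : S).2, h3, h4, fun s hs => ?_⟩
    have := Subgroup.mem_center_iff.mp c.2 ⟨s, hs⟩
    exact congrArg Subtype.val this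
  let j : DihedralGroup m → X := fun d => (eS.symm d : X)
  have hjS : ∀ d, j d ∈ S := fun d => (eS.symm d).2
  have hjmul : ∀ d d', j (d * d') = j d * j d' := fun d d' => by
    show ((eS.symm (d * d') : S) : X) = _
    rw [map_mul]; rfl
  have hj1 : ∀ d, j d = 1 → d = 1 := fun d hd => by
    have : eS.symm d = 1 := Subtype.ext hd
    simpa using this
  have hjone : j 1 = 1 := by show ((eS.symm 1 : S) : X) = 1; rw [map_one]; rfl
  have hsr : ∀ i : ZMod m, orderOf (j (DihedralGroup.sr i)) = 2 := by
    intro i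
    rw [ord2]
    refine ⟨fun h => ?_, ?_⟩
    · have := hj1 _ h
      rw [DihedralGroup.one_def] at this
      cases this
    · rw [← hjmul, DihedralGroup.sr_mul_sr, sub_self, ← DihedralGroup.one_def, hjone]
  -- a second involution
  obtain ⟨w, hwS, hw2, hwc⟩ : ∃ w ∈ S, orderOf w = 2 ∧ w ≠ c := by
    by_cases h : j (DihedralGroup.sr 0) = c
    · refine ⟨j (DihedralGroup.sr 1), hjS _, hsr _, fun h' => ?_⟩
      have h3 : eS.symm (DihedralGroup.sr 1) = eS.symm (DihedralGroup.sr 0) :=
        Subtype.ext (h'.trans h.symm)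
      have h4 := eS.symm.injective h3
      simp only [DihedralGroup.sr.injEq] at h4
      haveI : Fact (1 < m) := ⟨by omega⟩
      exact one_ne_zero h4
    · exact ⟨_, hjS _, hsr _, h⟩
  obtain ⟨hw1, hww⟩ := ord2.mp hw2
  have hc2 : orderOf c = 2 := ord2.mpr ⟨hc1, hcc⟩
  -- generation by involutions
  have hgen : ∀ H : Subgroup X, (∀ t : X, orderOf t = 2 → t ∈ H) → (S : Subgroup X) ≤ H := by
    intro H hH s hs
    have hs' : s = j (eS ⟨s, hs⟩) := by simp [j]
    rw [hs']
    rcases eS ⟨s, hs⟩ with i | i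
    · have : (DihedralGroup.r i : DihedralGroup m) = DihedralGroup.sr 0 * DihedralGroup.sr i := by
        simp
      rw [this, hjmul]
      exact mul_mem (hH _ (hsr _)) (hH _ (hsr _))
    · exact hH _ (hsr _)
  -- A implies LHS
  have hA : (∀ a b : X, orderOf a = 2 → orderOf b = 2 → IsConj a b) →
      ((∀ H : Subgroup X, H.index ≠ 2) ∧ (∀ z : X, ¬ Cfsg.IsIsolatedInvolution z)) := by
    intro hconj
    constructor
    · intro H hH
      haveI : H.Normal := Subgroup.normal_of_index_eq_two hH
      obtain ⟨t₀, ht₀, ht₀H⟩ : ∃ t₀ : X, orderOf t₀ = 2 ∧ t₀ ∈ H := by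
        by_cases h1 : c ∈ H
        · exact ⟨c, hc2, h1⟩
        by_cases h2 : w ∈ H
        · exact ⟨w, hw2, h2⟩
        refine ⟨c * w, ?_, (Subgroup.mul_mem_iff_of_index_two hH).mpr (by tauto)⟩
        rw [ord2]
        refine ⟨fun h => hwc ?_, ?_⟩
        · have : c * w = c * c := by rw [h, hcc]
          exact mul_left_cancel this
        · rw [mul_assoc, ← mul_assoc w, hccomm w hwS, mul_assoc, hww, mul_one, hcc]
      have hle := hgen H (fun t ht => by
        obtain ⟨g, hg⟩ := isConj_iff.mp (hconj t₀ t ht₀ ht)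
        rw [← hg]
        exact ‹H.Normal›.conj_mem _ ht₀H g)
      have := Subgroup.index_dvd_of_le hle
      rw [hH] at this
      exact S.not_dvd_index this
    · rintro z ⟨hz2, hz⟩
      obtain ⟨h, hh⟩ := isConj_iff.mp (hconj z c hz2 hc2)
      obtain ⟨h', hh'⟩ := isConj_iff.mp (hconj z w hz2 hw2)
      have e1 : (h⁻¹ * h') * z * (h⁻¹ * h')⁻¹ = h⁻¹ * w * h := by rw [← hh']; group
      have e2 : z = h⁻¹ * c * h := by rw [← hh]; group
      have h3 := hz (h⁻¹ * h') (by
        rw [e1]
        show z * _ = _ * z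
        rw [e2]
        calc h⁻¹ * c * h * (h⁻¹ * w * h) = h⁻¹ * (c * w) * h := by group
          _ = h⁻¹ * (w * c) * h := by rw [hccomm w hwS]
          _ = _ := by group)
      rw [e1, e2] at h3
      apply hwc
      have : h * (h⁻¹ * w * h) * h⁻¹ = h * (h⁻¹ * c * h) * h⁻¹ := by rw [h3]
      simpa [mul_assoc] using this
  have hreduce : (∀ t ∈ S, orderOf t = 2 → IsConj t c) →
      (∀ a b : X, orderOf a = 2 → orderOf b = 2 → IsConj a b) := by
    intro h a b ha hb
    obtain ⟨g, hg⟩ := Cfsg.Agent.Lib.Helper8.exists_conj_mem_sylow S (k := 1) (t := a) (by simpa using ha)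
    obtain ⟨g', hg'⟩ := Cfsg.Agent.Lib.Helper8.exists_conj_mem_sylow S (k := 1) (t := b) (by simpa using hb)
    have h1 : IsConj a (g * a * g⁻¹) := isConj_iff.mpr ⟨g, rfl⟩
    have h2 : IsConj b (g' * b * g'⁻¹) := isConj_iff.mpr ⟨g', rfl⟩
    have o1 : orderOf (g * a * g⁻¹) = 2 := by
      rw [show g * a * g⁻¹ = MulAut.conj g a from rfl, MulEquiv.orderOf_eq]; exact ha
    have o2 : orderOf (g' * b * g'⁻¹) = 2 := by
      rw [show g' * b * g'⁻¹ = MulAut.conj g' b from rfl, MulEquiv.orderOf_eq]; exact hb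
    exact (h1.trans (h _ hg o1)).trans ((h2.trans (h _ hg' o2)).symm)
  constructor
  · rintro ⟨hidx, -⟩
    left
    obtain ⟨n, hn⟩ := IsPGroup.iff_card.mp S.2
    rw [hcard] at hn
    obtain ⟨k, rfl⟩ : ∃ k, n = k + 1 := by
      rcases n with _ | k
      · omega
      · exact ⟨k, rfl⟩
    have hmk : m = 2 ^ k := by rw [pow_succ] at hn; omega
    subst hmk
    have hk1 : 1 ≤ k := by
      rcases k with _ | k
      · simp at hm
      · omega
    rcases Nat.lt_or_ge k 2 with hk | hk
    · -- Klein four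
      have hk : k = 1 := by omega
      subst hk
      let e2 : (S : Subgroup X) ≃* DihedralGroup 2 := eS
      have hsq : ∀ s : S, s * s = 1 := fun s => by
        apply e2.injective
        rw [map_mul, map_one]
        exact IsKleinFour.mul_self _
      have hc4 : Nat.card S = 4 := by rw [hcard]; norm_num
      have hK : IsKleinFour (S : Subgroup X) :=
        Cfsg.Agent.H14.isKleinFour_of_card_of_sq hc4 (fun v hv => congrArg Subtype.val (hsq ⟨v, hv⟩))
      have hcomm : IsMulCommutative (S : Subgroup X) :=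
        ⟨⟨fun a b => mul_comm_of_exponent_two hK.exponent_two a b⟩⟩
      have hR2 : Nat.card (Subgroup.zpowers c) = 2 := by rw [Nat.card_zpowers, hc2]
      apply hreduce
      intro t htS ht2
      obtain ⟨n, -, hn⟩ := Cfsg.Agent.S1244.result hidx S hcomm 2 (by norm_num)
        ⟨fun A _ _ => by
            have := Subgroup.card_le_card_group A
            rw [hc4] at this
            simpa using this,
         fun h => by
            have := h ⊤ ⟨⟨fun a b => Subtype.ext (hcomm.1.1 a.1 b.1)⟩⟩
              (fun a _ => by rw [sq]; exact hsq a)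
            rw [Subgroup.card_top, hc4] at this
            norm_num at this⟩
        (Subgroup.zpowers c) (by rw [Subgroup.zpowers_le]; exact hcS)
        ⟨fun A _ _ => by
            have := Subgroup.card_le_card_group A
            rw [hR2] at this
            simpa using this,
         Or.inr (fun h => by
            have := h ⊤ ⟨⟨fun a b => Subtype.ext (IsCyclic.commGroup.mul_comm a.1 b.1)⟩⟩
              (fun a _ => by rw [← hR2]; exact pow_card_eq_one')
            rw [Subgroup.card_top, hR2] at this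
            norm_num at this)⟩
        t ht2 htS
      have h5 : n * t * n⁻¹ = c := by
        obtain ⟨ht1, -⟩ := ord2.mp ht2
        rcases Cfsg.Agent.Lib.Helper8.mem_zpowers_of_mul_self hcc hn with h | h
        · exact absurd (by simpa using h) ht1
        · exact h
      exact isConj_iff.mpr ⟨n, h5⟩
    · intro a b ha hb
      have hO : Cfsg.pResidual 2 X = ⊤ := by
        by_contra h
        obtain ⟨N, _, hN⟩ := Cfsg.Agent.H12.exists_normal_index_p_of_pResidual_ne_top h
        exact hidx N hN
      obtain ⟨g, hg⟩ := Cfsg.Agent.S0107.result S k hk ⟨eS⟩ hO a b ha hb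
      exact isConj_iff.mpr ⟨g, hg⟩
  · rintro (h | h)
    · exact hA h
    · apply hA
      apply hreduce
      intro t htS ht2
      by_cases htc : t = c
      · rw [htc]
      obtain ⟨ht1, htt⟩ := ord2.mp ht2
      have hU := Cfsg.Agent.H14.isKleinFour_closure htt hcc (hccomm t htS) ht1 hc1 htc
      have hUS : Subgroup.closure ({t, c} : Set X) ≤ S := by
        rw [Subgroup.closure_le]
        intro x hx
        simp only [Set.mem_insert_iff, Set.mem_singleton_iff] at hx
        rcases hx with rfl | rfl <;> assumption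
      have h3 := h _ hUS hU
      refine klein_all_conj hU ?_ ?_ (Subgroup.subset_closure (by simp))
        (Subgroup.subset_closure (by simp)) ht1 hc1
      · rw [h3]; split_ifs <;> norm_num
      · rw [h3]; split_ifs <;> norm_num

end Cfsg.Agent.S1255
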