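import Mathlib
import Cfsg.Statements.S1302
import Cfsg.Agent.H9.PQOdd
import Cfsg.Agent.H9.PConstr
import Cfsg.Agent.Lib.Helper13.Thompson

set_option autoImplicit false
open Cfsg
open scoped commutatorElement

namespace Cfsg.Agent.S1302

/-- Let X be a finite p-constrained group, p an odd prime, and A an abelian p-subgroup of X containing every element of order p of C_X(A). Then every subgroup of X of order prime to p that is normalized by A lies in O_{p'}(X). -/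
theorem result {X : Type*} [Group X] [Finite X] (p : ℕ) [Fact p.Prime] (hp : p ≠ 2) (hX : Cfsg.IsPConstrained p X) (A : Subgroup X) (hA : IsMulCommutative ↥A) (hAp : IsPGroup p ↥A) (hΩ : ∀ x ∈ Subgroup.centralizer (A : Set X), orderOf x = p → x ∈ A) (Q : Subgroup X) (hQ : ¬ p ∣ Nat.card ↥Q) (hAQ : A ≤ Subgroup.normalizer (Q : Set X)) : Q ≤ Cfsg.pPrimeCore p X := by
  classical
  have hpp : p.Prime := Fact.out
  obtain ⟨N, hN⟩ : ∃ N, N = Cfsg.pPrimeCore p X := ⟨_, rfl⟩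
  obtain ⟨M, hM⟩ : ∃ M, M = Cfsg.pPrimePCore p X := ⟨_, rfl⟩
  haveI hNn : N.Normal := by rw [hN]; infer_instance
  haveI hMn : M.Normal := by rw [hM]; unfold Cfsg.pPrimePCore; infer_instance
  rw [← hN]
  have hNcop : (Nat.card N).Coprime p := by rw [hN]; exact Cfsg.H9.pPrimeCore_coprime p
  obtain ⟨S, hAS⟩ := hAp.exists_le_sylow
  obtain ⟨T, hT⟩ := Cfsg.Agent.Lib.Helper13.exists_sylow_inf_normal S M
  obtain ⟨R, hR⟩ : ∃ R, R = (S : Subgroup X) ⊓ M := ⟨_, rfl⟩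
  rw [← hR] at hT
  have hRp : IsPGroup p R := by rw [hR]; exact S.isPGroup'.to_le inf_le_left
  have hcon : Subgroup.centralizer (R : Set X) ≤ M := by
    subst hM
    rw [← hT]
    exact hX T
  have hmap : R.map (QuotientGroup.mk' (Cfsg.pPrimeCore p X)) =
      Cfsg.pCore p (X ⧸ Cfsg.pPrimeCore p X) := by
    rw [← hT]
    exact Cfsg.H9.map_sylow_pPrimePCore M hM T
  -- `M = N R`
  have hMNR : ∀ c ∈ M, ∃ n ∈ N, ∃ r ∈ R, c = n * r := by
    intro c hc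
    have h1 : QuotientGroup.mk' (Cfsg.pPrimeCore p X) c ∈
        Cfsg.pCore p (X ⧸ Cfsg.pPrimeCore p X) := by
      rw [hM] at hc
      exact hc
    rw [← hmap] at h1
    obtain ⟨r, hr, hrc⟩ := h1
    refine ⟨c * r⁻¹, ?_, r, hr, by group⟩
    rw [hN, ← QuotientGroup.eq_one_iff]
    show QuotientGroup.mk' (Cfsg.pPrimeCore p X) (c * r⁻¹) = 1
    rw [map_mul, map_inv, hrc, mul_inv_cancel]
  have hAR : A ≤ Subgroup.normalizer (R : Set X) := by
    rw [Subgroup.le_normalizer_iff]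
    intro a ha x hx
    rw [hR] at hx ⊢
    obtain ⟨h1, h2⟩ := Subgroup.mem_inf.mp hx
    exact Subgroup.mem_inf.mpr ⟨(S : Subgroup X).mul_mem ((S : Subgroup X).mul_mem (hAS ha) h1)
      ((S : Subgroup X).inv_mem (hAS ha)), hMn.conj_mem x h2 a⟩
  obtain ⟨Q', hQ'⟩ : ∃ Q', Q' = Q ⊔ N := ⟨_, rfl⟩
  have hQ'cop : (Nat.card Q').Coprime p := by
    have h1 : Nat.card Q' ∣ Nat.card Q * Nat.card N := by rw [hQ']; exact Cfsg.H9.card_sup_dvd Q N
    refine Nat.Coprime.coprime_dvd_left h1 (Nat.Coprime.mul_left ?_ hNcop)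
    exact ((Nat.Prime.coprime_iff_not_dvd hpp).mpr hQ).symm
  have hAQ' : A ≤ Subgroup.normalizer (Q' : Set X) := by
    rw [hQ']
    refine le_trans (le_inf hAQ ?_) (Subgroup.normalizer_inf_normalizer_le_normalizer_sup Q N)
    rw [Subgroup.normalizer_eq_top]
    exact le_top
  obtain ⟨Q₁, hQ₁⟩ : ∃ Q₁, Q₁ = Q' ⊓ Subgroup.normalizer (R : Set X) := ⟨_, rfl⟩
  have hQ₁cop : (Nat.card Q₁).Coprime p :=
    Nat.Coprime.coprime_dvd_left (Subgroup.card_dvd_of_le (hQ₁ ▸ inf_le_left)) hQ'cop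
  have hQ₁R : Q₁ ≤ Subgroup.normalizer (R : Set X) := hQ₁ ▸ inf_le_right
  have hAQ₁ : A ≤ Subgroup.normalizer (Q₁ : Set X) := by
    rw [Subgroup.le_normalizer_iff]
    intro a ha x hx
    rw [hQ₁] at hx ⊢
    obtain ⟨h1, h2⟩ := Subgroup.mem_inf.mp hx
    exact Subgroup.mem_inf.mpr ⟨Subgroup.le_normalizer_iff.mp hAQ' a ha x h1,
      (Subgroup.normalizer (R : Set X)).mul_mem
        ((Subgroup.normalizer (R : Set X)).mul_mem (hAR ha) h2)
        ((Subgroup.normalizer (R : Set X)).inv_mem (hAR ha))⟩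
  have hdisj : ∀ c, c ∈ R → c ∈ Q₁ → c = 1 := by
    intro c hcR hcQ
    have h1 : c ^ Nat.card Q₁ = 1 := by
      have := pow_card_eq_one' (G := Q₁) (x := ⟨c, hcQ⟩)
      exact congrArg Subtype.val this
    exact Cfsg.H9.PQOdd.eq_one_of_pow hRp hQ₁cop hcR h1
  have hkey : Q₁ ≤ Subgroup.centralizer (R : Set X) := by
    refine Cfsg.H9.PQOdd.key hp A Q₁ hAp hQ₁cop hAQ₁ _ R rfl hRp hAR hQ₁R ?_
    intro x hxR hxp hxA
    by_cases hx1 : x = 1
    · rw [hx1]; exact Subgroup.one_mem _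
    have hord : orderOf x = p := orderOf_eq_prime hxp hx1
    have hxA' : x ∈ A := hΩ x hxA hord
    rw [Subgroup.mem_centralizer_iff]
    intro q hq
    have h1 : x * q * x⁻¹ * q⁻¹ ∈ Q₁ :=
      Q₁.mul_mem (Subgroup.le_normalizer_iff.mp hAQ₁ x hxA' q hq) (Q₁.inv_mem hq)
    have h2 : x * q * x⁻¹ * q⁻¹ ∈ R := by
      have e : x * q * x⁻¹ * q⁻¹ = x * (q * x⁻¹ * q⁻¹) := by group
      rw [e]
      exact R.mul_mem hxR (Subgroup.le_normalizer_iff.mp hQ₁R q hq _ (R.inv_mem hxR))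
    have h3 := hdisj _ h2 h1
    calc q * x = (x * q * x⁻¹ * q⁻¹)⁻¹ * (x * q) := by group
      _ = x * q := by rw [h3]; group
  have hQ₁N : Q₁ ≤ N := by
    intro q hq
    have hqM : q ∈ M := hcon (hkey hq)
    obtain ⟨n, hn, r, hr, hqr⟩ := hMNR q hqM
    -- the image of `q` is a `p`-element of order prime to `p`
    have h1 : q ^ Nat.card Q₁ = 1 := by
      have := pow_card_eq_one' (G := Q₁) (x := ⟨q, hq⟩)
      exact congrArg Subtype.val this
    have h2 : QuotientGroup.mk' (Cfsg.pPrimeCore p X) q ∈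
        Cfsg.pCore p (X ⧸ Cfsg.pPrimeCore p X) := by
      rw [hM] at hqM
      exact hqM
    have h3 : (QuotientGroup.mk' (Cfsg.pPrimeCore p X) q) ^ Nat.card Q₁ = 1 := by
      rw [← map_pow, h1, map_one]
    have h4 := Cfsg.H9.PQOdd.eq_one_of_pow (Cfsg.H9.pCore_isPGroup p) hQ₁cop h2 h3
    rw [hN]
    exact (QuotientGroup.eq_one_iff q).mp h4
  intro q hq
  have hqQ' : q ∈ Q' := hQ' ▸ (le_sup_left : Q ≤ Q ⊔ N) hq
  have hNQ' : N ≤ Q' := hQ' ▸ le_sup_right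
  obtain ⟨c, hc, n, hn, hqcn⟩ := Cfsg.Agent.Lib.Helper13.frattini_inf S M q
  rw [← hR] at hn
  obtain ⟨n₀, hn₀, r, hr, hcr⟩ := hMNR c hc
  have h1 : r * n ∈ Q₁ := by
    rw [hQ₁]
    refine Subgroup.mem_inf.mpr ⟨?_, (Subgroup.normalizer (R : Set X)).mul_mem
      (Subgroup.le_normalizer hr) hn⟩
    have e : r * n = n₀⁻¹ * q := by rw [hqcn, hcr]; group
    rw [e]
    exact Q'.mul_mem (Q'.inv_mem (hNQ' hn₀)) hqQ'
  have e : q = n₀ * (r * n) := by rw [hqcn, hcr]; group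
  rw [e]
  exact N.mul_mem hn₀ (hQ₁N h1)

end Cfsg.Agent.S1302
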