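import Cfsg.Statements.S2427
import Mathlib
-- import your own Cfsg.Agent.* helpers here
import Cfsg.Agent.Tr.SL23
import Cfsg.Agent.S4584

set_option autoImplicit false
open Cfsg

namespace Cfsg.Agent.S2427


open Cfsg.Agent.Tr.SL23

set_option maxRecDepth 100000 in
theorem D_cen : ∀ z : S, (∀ g : S, g * z = z * g) ↔ (z = 1 ∨ z = -1) := by decide +kernel

set_option maxRecDepth 100000 in
theorem D_comm1 : ∀ g h : S, ∃ x : X, f x = g * h * g⁻¹ * h⁻¹ := by decide +kernel

set_option maxRecDepth 100000 in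
theorem D_comm2 : ∀ x : X, ∃ g h : S, f x = g * h * g⁻¹ * h⁻¹ := by decide +kernel

set_option maxRecDepth 100000 in
theorem D_conj : ∀ x y : X, (f x ≠ 1 ∧ f x ≠ -1 ∧ f y ≠ 1 ∧ f y ≠ -1) →
    ∃ g : S, f y = g * f x * g⁻¹ := by decide +kernel

set_option maxRecDepth 100000 in
theorem D_sq : ∀ x : X, f x ≠ 1 → f x ≠ -1 → (f x) ^ 2 = -1 := by decide +kernel

set_option maxRecDepth 100000 in
theorem D_out : ∀ s : S, (∀ x : X, f x ≠ s) →
    ∃ g : S, ∃ x : X, f x = g * s * g⁻¹ * s⁻¹ ∧ f x ≠ 1 ∧ f x ≠ -1 := by decide +kernel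

theorem one_ne_neg : (1 : S) ≠ -1 := by decide +kernel

theorem hinj : Function.Injective ψX := fun x y h => f_inj x y h

theorem cardR : Nat.card ↥(ψX.range) = 8 := by
  rw [← Nat.card_congr (MonoidHom.ofInjective hinj).toEquiv, Nat.card_eq_fintype_card,
    QuaternionGroup.card]

theorem comm_eq : commutator S = ψX.range := by
  apply le_antisymm
  · apply Cfsg.Agent.S4584.comm_le
    intro g h
    obtain ⟨x, hx⟩ := D_comm1 g h
    exact ⟨x, hx⟩
  · rintro _ ⟨x, rfl⟩
    obtain ⟨g, h, hx⟩ := D_comm2 x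
    have : ψX x = g * h * g⁻¹ * h⁻¹ := hx
    rw [this]
    exact Cfsg.Agent.S4584.mem_comm g h

theorem cardZ : Nat.card ↥(Subgroup.center S) = 2 := by
  have h := Nat.subtype_card ({1, -1} : Finset S) (p := fun z => z ∈ Subgroup.center S) (by
    intro z
    rw [Subgroup.mem_center_iff, D_cen]
    simp)
  rw [Finset.card_pair one_ne_neg] at h
  exact h

theorem R_le (N : Subgroup S) (hN : N.Normal) (x0 : X) (hx0 : f x0 ∈ N) (h1 : f x0 ≠ 1)
    (h2 : f x0 ≠ -1) : ψX.range ≤ N := by
  rintro _ ⟨y, rfl⟩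
  show f y ∈ N
  by_cases hy1 : f y = 1
  · rw [hy1]; exact N.one_mem
  by_cases hy2 : f y = -1
  · rw [hy2, ← D_sq x0 h1 h2]; exact N.pow_mem hx0 2
  obtain ⟨g, hg⟩ := D_conj x0 y ⟨h1, h2, hy1, hy2⟩
  rw [hg]; exact hN.conj_mem _ hx0 g


/-- The group SL₂ over the field with 3 elements has order 24 and centre of order 2; its commutator subgroup has order 8, is isomorphic to the quaternion group of order 8 and is complemented by every Sylow 3-subgroup (so the group is a semidirect product of a quaternion group of order 8 by a cyclic group of order 3); and its only normal subgroups besides the trivial subgroup and the whole group are the centre and the commutator subgroup. -/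
theorem result :
    Nat.card (Matrix.SpecialLinearGroup (Fin 2) (ZMod 3)) = 24 ∧
    Nat.card (Subgroup.center (Matrix.SpecialLinearGroup (Fin 2) (ZMod 3))) = 2 ∧
    Nat.card (commutator (Matrix.SpecialLinearGroup (Fin 2) (ZMod 3))) = 8 ∧
    Nonempty (commutator (Matrix.SpecialLinearGroup (Fin 2) (ZMod 3)) ≃* QuaternionGroup 2) ∧
    (∀ P : Sylow 3 (Matrix.SpecialLinearGroup (Fin 2) (ZMod 3)),
      Subgroup.IsComplement' (commutator (Matrix.SpecialLinearGroup (Fin 2) (ZMod 3)))
        (P : Subgroup (Matrix.SpecialLinearGroup (Fin 2) (ZMod 3)))) ∧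
    ∀ N : Subgroup (Matrix.SpecialLinearGroup (Fin 2) (ZMod 3)), N.Normal →
      N = ⊥ ∨ N = ⊤ ∨ N = Subgroup.center (Matrix.SpecialLinearGroup (Fin 2) (ZMod 3)) ∨
        N = commutator (Matrix.SpecialLinearGroup (Fin 2) (ZMod 3)) := by
  classical
  have hRi : (ψX.range).index = 3 := by
    have h := Subgroup.index_mul_card (ψX.range)
    rw [cardR, cardS] at h
    omega
  refine ⟨cardS, cardZ, by rw [comm_eq]; exact cardR,
    ⟨(MulEquiv.subgroupCongr comm_eq).trans (MonoidHom.ofInjective hinj).symm⟩, ?_, ?_⟩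
  · intro P
    have hP3 : Nat.card ↥(P : Subgroup S) = 3 := by
      obtain ⟨k, hk⟩ := (IsPGroup.iff_card).mp P.2
      have h1 := Subgroup.index_mul_card (P : Subgroup S)
      have h2 := P.not_dvd_index
      rw [cardS] at h1
      have hk' : Nat.card ↥(P : Subgroup S) = 3 ^ k := hk
      rw [hk'] at h1
      have hk1 : k ≤ 1 := by
        by_contra hlt
        have h9 : 3 ^ 2 ∣ 3 ^ k := pow_dvd_pow 3 (by omega)
        have : 3 ^ 2 ∣ 24 := h1 ▸ (h9.trans (Dvd.intro_left _ rfl))
        omega
      interval_cases k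
      · exfalso
        apply h2
        rw [pow_zero, mul_one] at h1
        rw [h1]; norm_num
      · rw [hk']; norm_num
    apply Subgroup.isComplement'_of_coprime
    · rw [comm_eq, cardR, hP3, cardS]
    · rw [comm_eq, cardR, hP3]; norm_num
  · intro N hN
    by_cases h1 : ∃ s ∈ N, s ∉ ψX.range
    · right; left
      obtain ⟨s, hsN, hsR⟩ := h1
      obtain ⟨g, x, hx, hx1, hx2⟩ := D_out s (fun x hx => hsR ⟨x, hx⟩)
      have hxN : f x ∈ N := by
        rw [hx]; exact N.mul_mem (hN.conj_mem s hsN g) (N.inv_mem hsN)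
      exact Cfsg.Agent.S4584.top_of_lt Nat.prime_three _ N hRi (R_le N hN x hxN hx1 hx2) s hsN hsR
    · push_neg at h1
      by_cases h2 : ∃ s ∈ N, s ∉ Subgroup.center S
      · right; right; right
        obtain ⟨s, hsN, hsZ⟩ := h2
        obtain ⟨x, hx⟩ := h1 s hsN
        have hx' : f x = s := hx
        rw [Subgroup.mem_center_iff, D_cen] at hsZ
        push_neg at hsZ
        rw [comm_eq]
        exact le_antisymm h1 (R_le N hN x (hx' ▸ hsN) (hx' ▸ hsZ.1) (hx' ▸ hsZ.2))
      · push_neg at h2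
        have hle : N ≤ Subgroup.center S := h2
        have hd : Nat.card ↥N ∣ 2 := by
          have h3 := Subgroup.card_dvd_of_le hle
          rw [cardZ] at h3
          exact h3
        rcases (Nat.dvd_prime Nat.prime_two).mp hd with h | h
        · left; exact Subgroup.card_eq_one.mp h
        · right; right; left
          exact Subgroup.eq_of_le_of_card_ge hle (by rw [h, cardZ])

end Cfsg.Agent.S2427
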