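import Cfsg.Statements.S1303
import Mathlib
-- import your own Cfsg.Agent.* helpers here
import Cfsg.Agent.S2427

set_option autoImplicit false
open Cfsg

namespace Cfsg.Agent.S1303


open Cfsg.Agent.Tr.SL23 Cfsg.Agent.S2427

set_option maxRecDepth 100000 in
theorem D_cR : ∀ z : S, (∀ x : X, f x * z = z * f x) → ∃ y : X, f y = z := by decide +kernel

set_option maxRecDepth 100000 in
theorem D_inv : ∀ t : S, t ^ 2 = 1 → t = 1 ∨ t = -1 := by decide +kernel

def U : S := ⟨!![1,1;0,1], by decide⟩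

theorem U3 : U ^ 3 = 1 := by decide +kernel
theorem U1 : U ≠ 1 := by decide +kernel


/-- The group X = SL(2, 3): it is 2-constrained, O_{2'}(X) = 1, its centre A = Z(X) contains every involution of X = C_X(A), and X has a subgroup of order 3 (normalized by A) not contained in O_{2'}(X). -/
theorem result : Cfsg.IsPConstrained 2 (Matrix.SpecialLinearGroup (Fin 2) (ZMod 3)) ∧ Cfsg.pPrimeCore 2 (Matrix.SpecialLinearGroup (Fin 2) (ZMod 3)) = ⊥ ∧ (∀ t : Matrix.SpecialLinearGroup (Fin 2) (ZMod 3), orderOf t = 2 → t ∈ Subgroup.center (Matrix.SpecialLinearGroup (Fin 2) (ZMod 3))) ∧ ∃ Q : Subgroup (Matrix.SpecialLinearGroup (Fin 2) (ZMod 3)), Nat.card ↥Q = 3 ∧ ¬ (Q ≤ Cfsg.pPrimeCore 2 (Matrix.SpecialLinearGroup (Fin 2) (ZMod 3))) := by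
  classical
  haveI : Fact (Nat.Prime 2) := ⟨Nat.prime_two⟩
  have hO : Cfsg.pPrimeCore 2 S = ⊥ := by
    unfold Cfsg.pPrimeCore
    rw [eq_bot_iff]
    apply sSup_le
    rintro N ⟨hN, hc⟩
    obtain ⟨_, _, _, _, _, hcl⟩ := Cfsg.Agent.S2427.result
    rcases hcl N hN with h | h | h | h
    · rw [h]
    · exfalso
      rw [h, Subgroup.card_top, cardS] at hc
      norm_num at hc
    · exfalso
      rw [h, cardZ] at hc
      norm_num at hc
    · exfalso
      rw [h, comm_eq, cardR] at hc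
      norm_num at hc
  have hR2 : IsPGroup 2 ↥(ψX.range) := IsPGroup.of_card (n := 3) (by rw [cardR]; norm_num)
  haveI hRn : (ψX.range).Normal := by rw [← comm_eq]; infer_instance
  have hRT : ψX.range ≤ Cfsg.pPrimePCore 2 S := by
    unfold Cfsg.pPrimePCore
    rw [← Subgroup.map_le_iff_le_comap]
    unfold Cfsg.pCore
    apply le_sSup
    exact ⟨hRn.map _ (QuotientGroup.mk'_surjective _), hR2.map _⟩
  refine ⟨?_, hO, ?_, ?_⟩
  · intro P
    haveI : ((ψX.range).subgroupOf (Cfsg.pPrimePCore 2 S)).Normal := inferInstance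
    have h1 : (ψX.range).subgroupOf (Cfsg.pPrimePCore 2 S) ≤ (P : Subgroup _) := by
      apply IsPGroup.le_sylow_of_normal
      exact hR2.comap_subtype
    intro z hz
    apply hRT
    obtain ⟨y, hy⟩ := D_cR z (by
      intro x
      rw [Subgroup.mem_centralizer_iff] at hz
      apply hz
      refine ⟨⟨f x, hRT ⟨x, rfl⟩⟩, h1 ?_, rfl⟩
      rw [Subgroup.mem_subgroupOf]
      exact ⟨x, rfl⟩)
    exact ⟨y, hy⟩
  · intro t ht
    have h1 : t ^ 2 = 1 := by
      have h0 := pow_orderOf_eq_one t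
      rw [ht] at h0
      exact h0
    rw [Subgroup.mem_center_iff, D_cen]
    exact D_inv t h1
  · refine ⟨Subgroup.zpowers U, ?_, ?_⟩
    · rw [Nat.card_zpowers]
      haveI : Fact (Nat.Prime 3) := ⟨Nat.prime_three⟩
      exact orderOf_eq_prime U3 U1
    · rw [hO]
      intro h
      exact U1 (Subgroup.mem_bot.mp (h (Subgroup.mem_zpowers U)))

end Cfsg.Agent.S1303
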