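import Cfsg.Statements.S3752
import Cfsg.Agent.H20.PLocal
import Cfsg.Agent.H20.Component
import Cfsg.Agent.H9.FStar

set_option autoImplicit false
set_option linter.style.haveILetI false
open Cfsg

namespace Cfsg.Agent.S3752

section aux
open Subgroup Cfsg.Agent.H20
open scoped commutatorElement
variable {G : Type*} [Group G]

theorem inf_centralizer_map_le {M : Subgroup G} {N : Subgroup ↥M}
    (h : centralizer (N : Set ↥M) ≤ N) :
    M ⊓ centralizer (N.map M.subtype : Set G) ≤ N.map M.subtype := by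
  rintro x ⟨hxM, hx⟩
  refine ⟨⟨x, hxM⟩, h ?_, rfl⟩
  rw [mem_centralizer_iff]
  intro y hy
  apply Subtype.ext
  exact (mem_centralizer_iff.1 hx) y.1 ⟨y, hy, rfl⟩

theorem hMO (s : ℕ) (M : Subgroup G) : M ≤ normalizer (Op s M : Set G) :=
  le_normalizer.trans (normalizer_le_normalizer_Op s M)

theorem comm_of_ne {r s : ℕ} (hr : r.Prime) (hs : s.Prime) (hne : r ≠ s) {A B : Subgroup G}
    (hA : IsPGroup r A) (hB : IsPGroup s B) (h1 : A ≤ normalizer (B : Set G))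
    (h2 : B ≤ normalizer (A : Set G)) : A ≤ centralizer (B : Set G) := by
  haveI := Fact.mk hr
  haveI := Fact.mk hs
  rw [← commutator_eq_bot_iff_le_centralizer, eq_bot_iff]
  have hd := IsPGroup.disjoint_of_ne r s hne A B hA hB
  rw [← hd.eq_bot]
  apply le_inf
  · exact (le_normalizer_iff_commutator_le_left).1 h2
  · rw [commutator_comm]
    exact (le_normalizer_iff_commutator_le_left).1 h1

theorem conj_mem_centralizer {A : Subgroup G} {g x : G} (hg : g ∈ normalizer (A : Set G))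
    (hx : x ∈ centralizer (A : Set G)) : g * x * g⁻¹ ∈ centralizer (A : Set G) := by
  rw [mem_centralizer_iff] at hx ⊢
  intro a ha
  have h1 : g⁻¹ * a * g ∈ A := by
    have := (mem_normalizer_iff.1 (inv_mem hg) a).1 ha
    simpa using this
  have h2 := hx _ h1
  calc a * (g * x * g⁻¹) = g * ((g⁻¹ * a * g) * x) * g⁻¹ := by group
    _ = g * (x * (g⁻¹ * a * g)) * g⁻¹ := by rw [h2]
    _ = g * x * g⁻¹ * a := by group

theorem pow_card_of_mem {H : Subgroup G} {x : G} (hx : x ∈ H) : x ^ Nat.card H = 1 := by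
  have := pow_card_eq_one' (x := (⟨x, hx⟩ : ↥H))
  exact congrArg Subtype.val this

theorem eq_one_of_pow_coprime {x : G} {m n : ℕ} (h : m.Coprime n) (h1 : x ^ m = 1) (h2 : x ^ n = 1) :
    x = 1 := by
  have h3 := Nat.dvd_gcd (orderOf_dvd_of_pow_eq_one h1) (orderOf_dvd_of_pow_eq_one h2)
  rw [h.gcd_eq_one, Nat.dvd_one] at h3
  exact orderOf_eq_one_iff.1 h3

/-- one-sided hypotheses -/
structure PP (M₁ M₂ : Subgroup G) : Prop where
  prim : ∀ A : Subgroup G, A ≠ ⊥ → A ≤ M₁ ⊓ M₂ → M₁ ≤ normalizer (A : Set G) →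
    M₂ ⊓ normalizer (A : Set G) = M₁ ⊓ M₂
  le : ∀ s : ℕ, s.Prime → Op s M₁ ≤ M₂
  le' : ∀ s : ℕ, s.Prime → Op s M₂ ≤ M₁
  cent : ∀ x ∈ M₂, (∀ s : ℕ, s.Prime → x ∈ centralizer (Op s M₂ : Set G)) →
    x ∈ ⨆ s : Nat.Primes, Op (s : ℕ) M₂

theorem card_Op_coprime [Finite G] {s q : ℕ} (hs : s.Prime) (hq : q.Prime) (hne : s ≠ q)
    (M : Subgroup G) : (Nat.card (Cfsg.pCore s ↥M)).Coprime q := by
  haveI := Fact.mk hs
  obtain ⟨n, hn⟩ := IsPGroup.iff_card.1 (Cfsg.H1.pCore_isPGroup (G := ↥M) s)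
  rw [hn]
  exact Nat.Coprime.pow_left _ ((Nat.coprime_primes hs hq).2 hne)

theorem key_comm [Finite G] {M₁ M₂ : Subgroup G} (h : PP M₁ M₂) {p q : ℕ} (hp : p.Prime)
    (hq : q.Prime) (hpq : p ≠ q) {k y : G} (hk : k ∈ M₂) (hkp : ∃ n : ℕ, k ^ (p ^ n) = 1)
    (hkc : ∀ s : ℕ, s.Prime → s ≠ p → k ∈ centralizer (Op s M₂ : Set G)) (hy : y ∈ Op q M₁) :
    k * y * k⁻¹ * y⁻¹ = 1 := by
  haveI := Fact.mk hp
  haveI := Fact.mk hq
  have hyM2 : y ∈ M₂ := h.le q hq hy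
  have hQ1c : ∀ s : ℕ, s.Prime → s ≠ q → Op q M₁ ≤ centralizer (Op s M₂ : Set G) := fun s hs hsq =>
    comm_of_ne hq hs (Ne.symm hsq) (Op_isPGroup q M₁) (Op_isPGroup s M₂)
      ((h.le q hq).trans (hMO s M₂)) ((h.le' s hs).trans (hMO q M₁))
  obtain ⟨c, hc⟩ : ∃ c, c = k * y * k⁻¹ * y⁻¹ := ⟨_, rfl⟩
  have hcM : c ∈ M₂ := by
    rw [hc]
    exact M₂.mul_mem (M₂.mul_mem (M₂.mul_mem hk hyM2) (M₂.inv_mem hk)) (M₂.inv_mem hyM2)
  have hcc : ∀ s : ℕ, s.Prime → c ∈ centralizer (Op s M₂ : Set G) := by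
    intro s hs
    by_cases hsq : s = q
    · have hsp : s ≠ p := by rw [hsq]; exact Ne.symm hpq
      have h1 := conj_mem_centralizer (hMO s M₂ hyM2) (inv_mem (hkc s hs hsp))
      have h2 := mul_mem (hkc s hs hsp) h1
      have h3 : k * (y * k⁻¹ * y⁻¹) = c := by rw [hc]; group
      rwa [h3] at h2
    · have h1 := conj_mem_centralizer (hMO s M₂ hk) (hQ1c s hs hsq hy)
      have h2 := mul_mem h1 (inv_mem (hQ1c s hs hsq hy))
      rwa [← hc] at h2
  have hcF := h.cent c hcM hcc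
  rw [iSup_split_single (fun s : Nat.Primes => Op (s : ℕ) M₂) (⟨q, hq⟩ : Nat.Primes)] at hcF
  obtain ⟨X, hX⟩ : ∃ X : Subgroup G, X = ⨆ (s : Nat.Primes) (_ : s ≠ ⟨q, hq⟩), Op (s : ℕ) M₂ := ⟨_, rfl⟩
  rw [← hX] at hcF
  have hsne : ∀ s : Nat.Primes, s ≠ ⟨q, hq⟩ → (s : ℕ) ≠ q := fun s hs h0 => hs (Subtype.ext h0)
  have hX1 : X ≤ centralizer (Op q M₂ : Set G) := by
    rw [hX]
    refine iSup₂_le (fun s hs => ?_)
    exact comm_of_ne s.2 hq (hsne s hs) (Op_isPGroup _ M₂) (Op_isPGroup q M₂)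
      ((H20.Op_le _ M₂).trans (hMO q M₂)) ((H20.Op_le _ M₂).trans (hMO _ M₂))
  have hX2 : X ≤ centralizer (Op q M₁ : Set G) := by
    rw [hX]
    refine iSup₂_le (fun s hs => ?_)
    rw [le_centralizer_iff]
    exact hQ1c s s.2 (hsne s hs)
  have hX3 : X ≤ (Cfsg.pPrimeCore q ↥M₂).map M₂.subtype := by
    rw [hX]
    refine iSup₂_le (fun s hs => ?_)
    exact map_mono (Cfsg.H9.le_pPrimeCore q (Cfsg.H1.pCore_normal _)
      (card_Op_coprime s.2 hq (hsne s hs) M₂))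
  have hmem : c ∈ ((Op q M₂ ⊔ X : Subgroup G) : Set G) := hcF
  rw [coe_mul_of_right_le_normalizer_left _ _ (hX1.trans (centralizer_le_normalizer _))] at hmem
  obtain ⟨a, ha, b, hb, hab⟩ := hmem
  have ha : a ∈ Op q M₂ := ha
  have hb : b ∈ X := hb
  have hab : a * b = c := hab
  have hba : Commute b a := ((mem_centralizer_iff.1 (hX1 hb)) a ha).symm
  have hby : Commute b y := ((mem_centralizer_iff.1 (hX2 hb)) y hy).symm
  have hQQ : IsPGroup q (Op q M₁ ⊔ Op q M₂ : Subgroup G) :=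
    IsPGroup.to_sup_of_normal_right' (Op_isPGroup q M₁) (Op_isPGroup q M₂)
      ((h.le q hq).trans (hMO q M₂))
  obtain ⟨n, hn⟩ := IsPGroup.iff_card.1 hQQ
  have hy1 : y ^ (q ^ n) = 1 := by
    rw [← hn]; exact pow_card_of_mem ((le_sup_left : Op q M₁ ≤ Op q M₁ ⊔ Op q M₂) hy)
  have hay1 : (a * y) ^ (q ^ n) = 1 := by
    rw [← hn]
    exact pow_card_of_mem (mul_mem ((le_sup_right : Op q M₂ ≤ Op q M₁ ⊔ Op q M₂) ha)
      ((le_sup_left : Op q M₁ ≤ Op q M₁ ⊔ Op q M₂) hy))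
  have hcy : c * y = k * y * k⁻¹ := by rw [hc]; group
  have hcy1 : (c * y) ^ (q ^ n) = 1 := by
    rw [hcy, conj_pow, hy1]; group
  have hb1 : b ^ (q ^ n) = 1 := by
    have h1 : c * y = b * (a * y) := by rw [← hab, hba.eq.symm, mul_assoc]
    rw [h1, (hba.mul_right hby).mul_pow, hay1, mul_one] at hcy1
    exact hcy1
  have hb2 : b ^ (Nat.card ((Cfsg.pPrimeCore q ↥M₂).map M₂.subtype)) = 1 := pow_card_of_mem (hX3 hb)
  have hcop : (q ^ n).Coprime (Nat.card ((Cfsg.pPrimeCore q ↥M₂).map M₂.subtype)) := by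
    rw [Nat.card_congr ((Cfsg.pPrimeCore q ↥M₂).equivMapOfInjective _ M₂.subtype_injective).symm.toEquiv]
    exact Nat.Coprime.pow_left _ (Cfsg.H9.pPrimeCore_coprime q).symm
  have hb0 : b = 1 := eq_one_of_pow_coprime hcop hb1 hb2
  rw [hb0, mul_one] at hab
  rw [hab] at ha
  have hkc' : Commute k c := ((mem_centralizer_iff.1 (hkc q hq (Ne.symm hpq))) c ha).symm
  have hind : ∀ m : ℕ, k ^ m * y * (k ^ m)⁻¹ = c ^ m * y := by
    intro m
    induction m with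
    | zero => simp
    | succ m ih =>
      calc k ^ (m + 1) * y * (k ^ (m + 1))⁻¹ = k * (k ^ m * y * (k ^ m)⁻¹) * k⁻¹ := by
            rw [pow_succ']; group
        _ = k * (c ^ m * y) * k⁻¹ := by rw [ih]
        _ = (k * c ^ m) * y * k⁻¹ := by group
        _ = (c ^ m * k) * y * k⁻¹ := by rw [(hkc'.pow_right m).eq]
        _ = c ^ m * (k * y * k⁻¹) := by group
        _ = c ^ m * (c * y) := by rw [hcy]
        _ = c ^ (m + 1) * y := by rw [pow_succ]; group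
  obtain ⟨e, he⟩ := hkp
  have h1 := hind (p ^ e)
  rw [he] at h1
  have h2 : c ^ (p ^ e) = 1 := by
    have : y = c ^ (p ^ e) * y := by simpa using h1
    exact (mul_eq_right.1 this.symm)
  obtain ⟨f, hf⟩ := IsPGroup.iff_card.1 (Op_isPGroup q M₂)
  have h3 : c ^ (q ^ f) = 1 := by rw [← hf]; exact pow_card_of_mem ha
  have h4 : c = 1 := eq_one_of_pow_coprime
    (Nat.Coprime.pow _ _ ((Nat.coprime_primes hp hq).2 hpq)) h2 h3
  rw [← hc, h4]

theorem Op_le_Op [Finite G] {M₁ M₂ : Subgroup G} (h : PP M₁ M₂) {p q : ℕ} (hp : p.Prime)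
    (hq : q.Prime) (hpq : p ≠ q) (hQ : Op q M₁ ≠ ⊥) : Op p M₁ ≤ Op p M₂ := by
  obtain ⟨S, hS⟩ : ∃ S : Set G, S = {k | k ∈ M₂ ∧ (∃ n : ℕ, k ^ (p ^ n) = 1) ∧
      ∀ s : ℕ, s.Prime → s ≠ p → k ∈ centralizer (Op s M₂ : Set G)} := ⟨_, rfl⟩
  have hNM2 : closure S ≤ M₂ := (closure_le _).2 (fun k hk => by rw [hS] at hk; exact hk.1)
  have hNc : closure S ≤ centralizer (Op q M₁ : Set G) := (closure_le _).2 (fun k hk => by
    rw [hS] at hk
    rw [SetLike.mem_coe, mem_centralizer_iff]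
    intro y hy
    have h1 := key_comm h hp hq hpq hk.1 hk.2.1 hk.2.2 hy
    have h2 : k * y = y * k := by
      have : k * y = (k * y * k⁻¹ * y⁻¹) * (y * k) := by group
      rw [this, h1, one_mul]
    exact h2.symm)
  have hND : closure S ≤ M₁ := by
    have h1 : closure S ≤ M₂ ⊓ normalizer (Op q M₁ : Set G) :=
      le_inf hNM2 (hNc.trans (centralizer_le_normalizer _))
    rw [h.prim _ hQ (le_inf (H20.Op_le q M₁) (h.le q hq)) (hMO q M₁)] at h1
    exact h1.trans inf_le_left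
  have hNn : M₂ ≤ normalizer (closure S : Set G) := by
    apply le_normalizer_of_forall_conj_le
    intro t ht
    rw [MonoidHom.map_closure, closure_le]
    rintro _ ⟨k, hk, rfl⟩
    apply Subgroup.subset_closure
    rw [hS] at hk ⊢
    refine ⟨?_, ?_, ?_⟩
    · exact M₂.mul_mem (M₂.mul_mem ht hk.1) (M₂.inv_mem ht)
    · obtain ⟨n, hn⟩ := hk.2.1
      refine ⟨n, ?_⟩
      show (t * k * t⁻¹) ^ (p ^ n) = 1
      rw [conj_pow, hn]; group
    · intro s hs hsp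
      exact conj_mem_centralizer (hMO s M₂ ht) (hk.2.2 s hs hsp)
  have hP1N : Op p M₁ ≤ closure S := by
    intro x hx
    apply Subgroup.subset_closure
    rw [hS]
    refine ⟨h.le p hp hx, ?_, ?_⟩
    · obtain ⟨n, hn⟩ := (Op_isPGroup p M₁) ⟨x, hx⟩
      exact ⟨n, congrArg Subtype.val hn⟩
    · intro s hs hsp
      exact comm_of_ne hp hs (Ne.symm hsp) (Op_isPGroup p M₁) (Op_isPGroup s M₂)
        ((h.le p hp).trans (hMO s M₂)) ((h.le' s hs).trans (hMO p M₁)) hx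
  exact (le_Op hP1N (Op_isPGroup p M₁) (hND.trans (hMO p M₁))).trans
    (le_Op ((H20.Op_le p _).trans hNM2) (Op_isPGroup p _)
      (hNn.trans (normalizer_le_normalizer_Op p _)))

theorem no_two [Finite G] {M₁ M₂ : Subgroup G} (h12 : PP M₁ M₂) (h21 : PP M₂ M₁) (hne : M₁ ≠ M₂)
    {p q : ℕ} (hp : p.Prime) (hq : q.Prime) (hpq : p ≠ q) (hP : Op p M₁ ≠ ⊥) (hQ : Op q M₁ ≠ ⊥) :
    False := by
  have h1 := Op_le_Op h12 hp hq hpq hQ
  have h2 := Op_le_Op h12 hq hp hpq.symm hP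
  have hQ2 : Op q M₂ ≠ ⊥ := fun h0 => hQ (by rw [← le_bot_iff, ← h0]; exact h2)
  have h3 := Op_le_Op h21 hp hq hpq hQ2
  have e : Op p M₁ = Op p M₂ := le_antisymm h1 h3
  have e1 := h12.prim _ hP (le_inf (H20.Op_le p M₁) (h12.le p hp)) (hMO p M₁)
  have e2 := h21.prim _ (e ▸ hP) (le_inf (H20.Op_le p M₂) (h21.le p hp)) (hMO p M₂)
  rw [e, inf_eq_left.2 (hMO p M₂)] at e1
  rw [← e, inf_eq_left.2 (hMO p M₁), inf_comm] at e2
  exact hne (e2.trans e1.symm)

theorem mem_centralizer_bot' (x : G) : x ∈ centralizer ((⊥ : Subgroup G) : Set G) := by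
  rw [mem_centralizer_iff]
  intro y hy
  have : y = 1 := hy
  rw [this]; simp

theorem eq_bot_of_forall {M₁ M₂ : Subgroup G} (h : PP M₁ M₂) (h0 : ∀ s : ℕ, s.Prime → Op s M₂ = ⊥) :
    M₂ = ⊥ := by
  rw [eq_bot_iff]
  intro x hx
  have := h.cent x hx (fun s hs => by rw [h0 s hs]; exact mem_centralizer_bot' x)
  have h1 : (⨆ s : Nat.Primes, Op (s : ℕ) M₂) = ⊥ := by
    rw [eq_bot_iff]
    exact iSup_le (fun s => (h0 s s.2).le)
  rwa [h1] at this

theorem iSup_eq_of_unique {M : Subgroup G} {p : ℕ} (h0 : ∀ s : ℕ, s.Prime → s ≠ p → Op s M = ⊥) :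
    (⨆ s : Nat.Primes, Op (s : ℕ) M) ≤ Op p M := by
  refine iSup_le (fun s => ?_)
  by_cases hs : (s : ℕ) = p
  · rw [hs]
  · rw [h0 s s.2 hs]; exact bot_le

theorem char_of_unique {M₁ M₂ : Subgroup G} (h : PP M₁ M₂) {p : ℕ}
    (h0 : ∀ s : ℕ, s.Prime → s ≠ p → Op s M₂ = ⊥) :
    centralizer (Cfsg.pCore p ↥M₂ : Set ↥M₂) ≤ Cfsg.pCore p ↥M₂ := by
  intro x hx
  have h1 := h.cent x.1 x.2 (fun s hs => by
    by_cases hsp : s = p
    · rw [hsp, mem_centralizer_iff]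
      rintro _ ⟨y, hy, rfl⟩
      exact congrArg Subtype.val ((mem_centralizer_iff.1 hx) y hy)
    · rw [h0 s hs hsp]; exact mem_centralizer_bot' _)
  obtain ⟨x', hx', he⟩ := iSup_eq_of_unique h0 h1
  have : x' = x := Subtype.ext he
  rwa [← this]

theorem qs_map {M : Subgroup G} {K : Subgroup ↥M} (hK : IsComponent K) : QS (K.map M.subtype) :=
  QS.of_isQuasisimple (Cfsg.H9.isQuasisimple_of_mulEquiv
    (K.equivMapOfInjective _ (subtype_injective _)) hK.2)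

theorem sn_map {M : Subgroup G} {K : Subgroup ↥M} (hK : IsComponent K) : Sn (K.map M.subtype) M :=
  (isSubnormal_iff_sn_map K).1 hK.1

theorem comp_le {M : Subgroup G} {K : Subgroup ↥M} (hK : IsComponent K) :
    K.map M.subtype ≤ (Cfsg.generalizedFittingSubgroup ↥M).map M.subtype :=
  map_mono ((Cfsg.H9.component_le_layer hK).trans le_sup_left)

theorem compA [Finite G] {M₁ M₂ : Subgroup G}
    (h₁ : (Cfsg.generalizedFittingSubgroup ↥M₁).map M₁.subtype ≤ M₂)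
    (h₂ : (Cfsg.generalizedFittingSubgroup ↥M₂).map M₂.subtype ≤ M₁)
    {K : Subgroup ↥M₁} (hK : IsComponent K) :
    ∃ K' : Subgroup ↥M₂, IsComponent K' ∧ K'.map M₂.subtype = K.map M₁.subtype := by
  by_contra hno
  push Not at hno
  have hQ := qs_map hK
  have hLD : K.map M₁.subtype ≤ M₁ ⊓ M₂ := le_inf (map_subtype_le _) ((comp_le hK).trans h₁)
  have hSn : Sn (K.map M₁.subtype) (M₁ ⊓ M₂) := (sn_map hK).of_le hLD inf_le_left
  have hcomp : ∀ K' : Subgroup ↥M₂, IsComponent K' →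
      K'.map M₂.subtype ≤ centralizer (K.map M₁.subtype : Set G) := by
    intro K' hK'
    have hQ' := qs_map hK'
    have hLD' : K'.map M₂.subtype ≤ M₁ ⊓ M₂ := le_inf ((comp_le hK').trans h₂) (map_subtype_le _)
    have hSn' : Sn (K'.map M₂.subtype) (M₁ ⊓ M₂) := (sn_map hK').of_le hLD' inf_le_right
    rw [← commutator_eq_bot_iff_le_centralizer]
    rcases hQ'.le_or_commutator_eq_bot hSn' hSn with h | h
    · rcases hQ.le_or_commutator_eq_bot hSn hSn' with h' | h'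
      · exact absurd (le_antisymm h h') (hno K' hK')
      · rw [commutator_comm]; exact h'
    · exact h
  have hfit : (Cfsg.fittingSubgroup ↥M₂).map M₂.subtype ≤ centralizer (K.map M₁.subtype : Set G) := by
    have hle : (Cfsg.fittingSubgroup ↥M₂).map M₂.subtype ≤ M₁ ⊓ M₂ :=
      le_inf ((map_mono le_sup_right).trans h₂) (map_subtype_le _)
    have hSnF : Sn ((Cfsg.fittingSubgroup ↥M₂).map M₂.subtype) (M₁ ⊓ M₂) :=
      ((isSubnormal_iff_sn_map _).1
        (inferInstance : (Cfsg.fittingSubgroup ↥M₂).Normal).isSubnormal).of_le hle inf_le_right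
    rw [← commutator_eq_bot_iff_le_centralizer, commutator_comm]
    rcases hQ.le_or_commutator_eq_bot hSn hSnF with h | h
    · exfalso
      apply Cfsg.H9.comp_not_isSolvable hK
      haveI := Cfsg.H9.fitting_isNilpotent (G := ↥M₂)
      have hs1 : Group.IsSolvable ↥((Cfsg.fittingSubgroup ↥M₂).map M₂.subtype) :=
        Group.isSolvable_of_isSolvable_injective
          (f := ((Cfsg.fittingSubgroup ↥M₂).equivMapOfInjective _ M₂.subtype_injective).symm.toMonoidHom)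
          ((Cfsg.fittingSubgroup ↥M₂).equivMapOfInjective _ M₂.subtype_injective).symm.injective
      have hs2 := Cfsg.H9.isSolvable_of_le h hs1
      exact Group.isSolvable_of_isSolvable_injective
        (f := (K.equivMapOfInjective _ M₁.subtype_injective).toMonoidHom)
        (K.equivMapOfInjective _ M₁.subtype_injective).injective
    · exact h
  have hFs : (Cfsg.generalizedFittingSubgroup ↥M₂).map M₂.subtype ≤
      centralizer (K.map M₁.subtype : Set G) := by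
    unfold Cfsg.generalizedFittingSubgroup
    rw [Subgroup.map_sup]
    refine sup_le ?_ hfit
    rw [map_le_iff_le_comap]
    refine sSup_le (fun K' hK' => ?_)
    rw [← map_le_iff_le_comap]
    exact hcomp K' hK'
  have h3 : K.map M₁.subtype ≤ (Cfsg.generalizedFittingSubgroup ↥M₂).map M₂.subtype :=
    (le_inf (hLD.trans inf_le_right) (le_centralizer_iff.1 hFs)).trans
      (inf_centralizer_map_le Cfsg.H9.centralizer_genFitting_le)
  have h4 : ⁅K.map M₁.subtype, K.map M₁.subtype⁆ = ⊥ :=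
    commutator_eq_bot_iff_le_centralizer.2 (h3.trans hFs)
  rw [hQ.perfect] at h4
  exact hQ.ne_bot h4

theorem layer_le [Finite G] {M₁ M₂ : Subgroup G}
    (h₁ : (Cfsg.generalizedFittingSubgroup ↥M₁).map M₁.subtype ≤ M₂)
    (h₂ : (Cfsg.generalizedFittingSubgroup ↥M₂).map M₂.subtype ≤ M₁) :
    (Cfsg.layer ↥M₁).map M₁.subtype ≤ (Cfsg.layer ↥M₂).map M₂.subtype := by
  rw [map_le_iff_le_comap]
  refine sSup_le (fun K hK => ?_)
  rw [← map_le_iff_le_comap]
  obtain ⟨K', hK', he⟩ := compA h₁ h₂ hK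
  rw [← he]
  exact map_mono (Cfsg.H9.component_le_layer hK')

theorem mkPP [Finite G] {M₁ M₂ : Subgroup G}
    (hP : ∀ A : Subgroup G, A ≠ ⊥ → A ≤ M₁ ⊓ M₂ → M₁ ≤ normalizer (A : Set G) →
      M₂ ⊓ normalizer (A : Set G) = M₁ ⊓ M₂)
    (h₁ : (Cfsg.generalizedFittingSubgroup ↥M₁).map M₁.subtype ≤ M₂)
    (h₂ : (Cfsg.generalizedFittingSubgroup ↥M₂).map M₂.subtype ≤ M₁)
    (hl : Cfsg.layer ↥M₂ = ⊥) : PP M₁ M₂ := by
  have hOF : ∀ (M : Subgroup G) (s : ℕ), s.Prime →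
      Op s M ≤ (Cfsg.generalizedFittingSubgroup ↥M).map M.subtype := by
    intro M s hs
    apply map_mono
    refine le_trans ?_ le_sup_right
    rw [Cfsg.H1.fitting_eq_iSup_pCore]
    exact le_iSup (fun p : Nat.Primes => Cfsg.pCore (p : ℕ) ↥M) ⟨s, hs⟩
  refine ⟨hP, fun s hs => (hOF M₁ s hs).trans h₁, fun s hs => (hOF M₂ s hs).trans h₂, ?_⟩
  intro x hx hxc
  have e : (Cfsg.generalizedFittingSubgroup ↥M₂).map M₂.subtype = ⨆ s : Nat.Primes, Op (s : ℕ) M₂ := by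
    unfold Cfsg.generalizedFittingSubgroup
    rw [hl, bot_sup_eq, Cfsg.H1.fitting_eq_iSup_pCore, Subgroup.map_iSup]
    rfl
  rw [← e]
  apply inf_centralizer_map_le Cfsg.H9.centralizer_genFitting_le
  refine ⟨hx, ?_⟩
  have h1 : zpowers x ≤ centralizer
      (((Cfsg.generalizedFittingSubgroup ↥M₂).map M₂.subtype : Subgroup G) : Set G) := by
    rw [le_centralizer_iff, e]
    refine iSup_le (fun s => ?_)
    rw [le_centralizer_iff, zpowers_le]
    exact hxc s s.2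
  exact h1 (mem_zpowers x)

end aux

/-- Bender's Theorem on primitive pairs. Two distinct subgroups M₁, M₂ of G form a primitive pair when, for {i, j} = {1, 2}, every non-trivial normal subgroup A of M_i contained in M₁ ∩ M₂ satisfies N_{M_j}(A) = M₁ ∩ M₂; the pair has characteristic p when moreover C_{M_i}(O_p(M_i)) ≤ O_p(M_i) for both i and O_p(M₁)O_p(M₂) ≤ M₁ ∩ M₂. If (M₁, M₂) is a primitive pair of the finite group G with F*(M₁) ≤ M₂ and F*(M₂) ≤ M₁, then for some prime p the pair has characteristic p. -/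
theorem result {G : Type*} [Group G] [Finite G] (M₁ M₂ : Subgroup G) (hne : M₁ ≠ M₂) (hP : ∀ A : Subgroup G, A ≠ ⊥ → A ≤ M₁ ⊓ M₂ → (M₁ ≤ Subgroup.normalizer (A : Set G) → M₂ ⊓ Subgroup.normalizer (A : Set G) = M₁ ⊓ M₂) ∧ (M₂ ≤ Subgroup.normalizer (A : Set G) → M₁ ⊓ Subgroup.normalizer (A : Set G) = M₁ ⊓ M₂)) (h₁ : (Cfsg.generalizedFittingSubgroup ↥M₁).map M₁.subtype ≤ M₂) (h₂ : (Cfsg.generalizedFittingSubgroup ↥M₂).map M₂.subtype ≤ M₁) : ∃ p : ℕ, p.Prime ∧ Subgroup.centralizer (Cfsg.pCore p ↥M₁ : Set ↥M₁) ≤ Cfsg.pCore p ↥M₁ ∧ Subgroup.centralizer (Cfsg.pCore p ↥M₂ : Set ↥M₂) ≤ Cfsg.pCore p ↥M₂ ∧ (Cfsg.pCore p ↥M₁).map M₁.subtype ⊔ (Cfsg.pCore p ↥M₂).map M₂.subtype ≤ M₁ ⊓ M₂ := by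
  classical
  have hcommon : ∀ A : Subgroup G, A ≠ ⊥ → A ≤ M₁ ⊓ M₂ → M₁ ≤ Subgroup.normalizer (A : Set G) →
      M₂ ≤ Subgroup.normalizer (A : Set G) → False := by
    intro A hA hle h1 h2
    have e1 := (hP A hA hle).1 h1
    have e2 := (hP A hA hle).2 h2
    rw [inf_eq_left.2 h2] at e1
    rw [inf_eq_left.2 h1] at e2
    exact hne (e2.trans e1.symm)
  have hE : (Cfsg.layer ↥M₁).map M₁.subtype = (Cfsg.layer ↥M₂).map M₂.subtype :=
    le_antisymm (layer_le h₁ h₂) (layer_le h₂ h₁)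
  have hE1 : (Cfsg.layer ↥M₁).map M₁.subtype = ⊥ := by
    by_contra hEne
    refine hcommon _ hEne (le_inf (Subgroup.map_subtype_le _) ?_) ?_ ?_
    · rw [hE]; exact Subgroup.map_subtype_le _
    · exact Subgroup.le_normalizer.trans (H20.char_le_normalizer M₁ (Cfsg.layer ↥M₁))
    · rw [hE]
      exact Subgroup.le_normalizer.trans (H20.char_le_normalizer M₂ (Cfsg.layer ↥M₂))
  have hl1 : Cfsg.layer ↥M₁ = ⊥ :=
    (Subgroup.map_eq_bot_iff_of_injective _ M₁.subtype_injective).1 hE1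
  have hl2 : Cfsg.layer ↥M₂ = ⊥ :=
    (Subgroup.map_eq_bot_iff_of_injective _ M₂.subtype_injective).1 (hE ▸ hE1)
  have h12 : PP M₁ M₂ := mkPP (fun A hA hle hn => (hP A hA hle).1 hn) h₁ h₂ hl2
  have h21 : PP M₂ M₁ := mkPP (fun A hA hle hn => by
    have := (hP A hA (by rwa [inf_comm])).2 hn
    rwa [inf_comm M₁ M₂] at this) h₂ h₁ hl1
  have hex1 : ∃ p : ℕ, p.Prime ∧ H20.Op p M₁ ≠ ⊥ := by
    by_contra hcon
    push Not at hcon
    have hM1 : M₁ = ⊥ := eq_bot_of_forall h21 hcon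
    have hM2 : M₂ = ⊥ := eq_bot_of_forall h12 (fun s hs => by
      rw [← le_bot_iff, ← hM1]; exact h12.le' s hs)
    exact hne (hM1.trans hM2.symm)
  have hex2 : ∃ p : ℕ, p.Prime ∧ H20.Op p M₂ ≠ ⊥ := by
    by_contra hcon
    push Not at hcon
    have hM2 : M₂ = ⊥ := eq_bot_of_forall h12 hcon
    have hM1 : M₁ = ⊥ := eq_bot_of_forall h21 (fun s hs => by
      rw [← le_bot_iff, ← hM2]; exact h12.le s hs)
    exact hne (hM1.trans hM2.symm)
  obtain ⟨p, hp, hP1⟩ := hex1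
  obtain ⟨q, hq, hQ2⟩ := hex2
  have hu1 : ∀ s : ℕ, s.Prime → s ≠ p → H20.Op s M₁ = ⊥ := by
    intro s hs hsp
    by_contra h0
    exact no_two h12 h21 hne hs hp hsp h0 hP1
  have hu2 : ∀ s : ℕ, s.Prime → s ≠ q → H20.Op s M₂ = ⊥ := by
    intro s hs hsq
    by_contra h0
    exact no_two h21 h12 hne.symm hs hq hsq h0 hQ2
  have hpq : p = q := by
    by_contra hpq
    apply hP1
    have hle : H20.Op p M₁ ≤ H20.Op q M₂ := by
      intro x hx
      apply iSup_eq_of_unique hu2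
      apply h12.cent x (h12.le p hp hx)
      intro s hs
      by_cases hsq : s = q
      · rw [hsq]
        exact comm_of_ne hp hq hpq (H20.Op_isPGroup p M₁) (H20.Op_isPGroup q M₂)
          ((h12.le p hp).trans (hMO q M₂)) ((h12.le' q hq).trans (hMO p M₁)) hx
      · rw [hu2 s hs hsq]; exact mem_centralizer_bot' x
    haveI := Fact.mk hp
    haveI := Fact.mk hq
    have hd := IsPGroup.disjoint_of_ne p q hpq _ _ (H20.Op_isPGroup p M₁) (H20.Op_isPGroup q M₂)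
    rw [← le_bot_iff, ← hd.eq_bot]
    exact le_inf le_rfl hle
  subst hpq
  exact ⟨p, hp, char_of_unique h21 hu1, char_of_unique h12 hu2,
    sup_le (le_inf (H20.Op_le p M₁) (h12.le p hp)) (le_inf (h12.le' p hp) (H20.Op_le p M₂))⟩

end Cfsg.Agent.S3752
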