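import Cfsg.Statements.S1312
import Cfsg.Agent.S3752

set_option autoImplicit false
open Cfsg

namespace Cfsg.Agent.S1312

section aux
open Subgroup

theorem genFit_le_pCore {X : Type*} [Group X] [Finite X] {p : ℕ} (hp : p.Prime)
    (h : centralizer (Cfsg.pCore p X : Set X) ≤ Cfsg.pCore p X) :
    Cfsg.generalizedFittingSubgroup X ≤ Cfsg.pCore p X := by
  have hpF : Cfsg.pCore p X ≤ Cfsg.fittingSubgroup X := by
    rw [Cfsg.H1.fitting_eq_iSup_pCore]
    exact le_iSup (fun s : Nat.Primes => Cfsg.pCore (s : ℕ) X) ⟨p, hp⟩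
  refine sup_le ?_ ?_
  · have h1 : Cfsg.layer X ≤ centralizer (Cfsg.fittingSubgroup X : Set X) :=
      commutator_eq_bot_iff_le_centralizer.1 Cfsg.H9.layer_comm_fitting
    exact (h1.trans (centralizer_le hpF)).trans h
  · rw [Cfsg.H1.fitting_eq_iSup_pCore]
    refine iSup_le (fun s => ?_)
    by_cases hs : (s : ℕ) = p
    · rw [hs]
    · have n1 : (Cfsg.pCore (s : ℕ) X).Normal := Cfsg.H1.pCore_normal _
      have n2 : (Cfsg.pCore p X).Normal := Cfsg.H1.pCore_normal _
      refine le_trans ?_ h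
      exact S3752.comm_of_ne s.2 hp hs (Cfsg.H1.pCore_isPGroup _) (Cfsg.H1.pCore_isPGroup _)
        (by rw [normalizer_eq_top_iff.2 n2]; exact le_top)
        (by rw [normalizer_eq_top_iff.2 n1]; exact le_top)

end aux

/-- Let G be a non-abelian finite simple group and M ≠ N maximal subgroups of G with F*(M) ≤ N and F*(N) ≤ M. Then there is a prime p such that F*(M) and F*(N) are both p-groups. -/
theorem result {G : Type*} [Group G] [Finite G] [IsSimpleGroup G] (hna : ¬ IsMulCommutative G) (M N : Subgroup G) (hM : IsCoatom M) (hN : IsCoatom N) (hMN : M ≠ N) (h1 : (Cfsg.generalizedFittingSubgroup ↥M).map M.subtype ≤ N) (h2 : (Cfsg.generalizedFittingSubgroup ↥N).map N.subtype ≤ M) : ∃ p : ℕ, p.Prime ∧ IsPGroup p ↥(Cfsg.generalizedFittingSubgroup ↥M) ∧ IsPGroup p ↥(Cfsg.generalizedFittingSubgroup ↥N) := by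
  have key : ∀ (M : Subgroup G), IsCoatom M → ∀ A : Subgroup G, A ≠ ⊥ → A ≤ M →
      M ≤ Subgroup.normalizer (A : Set G) → Subgroup.normalizer (A : Set G) = M := by
    intro M hM A hA hAM hn
    rcases hM.le_iff.1 hn with h | h
    · exfalso
      have hAn : A.Normal := Subgroup.normalizer_eq_top_iff.1 h
      rcases hAn.eq_bot_or_eq_top with h0 | h0
      · exact hA h0
      · exact hM.1 (top_le_iff.1 (h0 ▸ hAM))
    · exact h
  obtain ⟨p, hp, c1, c2, -⟩ := S3752.result M N hMN (fun A hA hle =>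
    ⟨fun hn => by rw [key M hM A hA (hle.trans inf_le_left) hn, inf_comm],
     fun hn => by rw [key N hN A hA (hle.trans inf_le_right) hn]⟩) h1 h2
  exact ⟨p, hp, (Cfsg.H1.pCore_isPGroup p).to_le (genFit_le_pCore hp c1),
    (Cfsg.H1.pCore_isPGroup p).to_le (genFit_le_pCore hp c2)⟩

end Cfsg.Agent.S1312
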