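import Cfsg.Statements.S1349
import Cfsg.Agent.H1.ElemTwoAct
import Cfsg.Agent.H1.Fit
import Cfsg.Agent.H9.Cores
import Cfsg.Agent.Lib.Helper22.FittingSub
import Cfsg.Agent.Lib.Helper2.DihedralHom

set_option autoImplicit false
open Cfsg

namespace Cfsg.Agent.S1349

/-- Let G be finite, L ≤ G solvable of odd order, and A an elementary abelian 2-subgroup of order 2^d (d ≥ 1) normalizing L with C_A(L) = 1. Then there are subgroups A_1, …, A_d of A of order 2 generating A and subgroups L_1, …, L_d of L such that each A_i ⊔ L_i is dihedral of order 2 n_i with n_i odd and at least 3, and A_i ⊔ L_i commutes elementwise with A_j ⊔ L_j for i ≠ j. -/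
theorem result {G : Type*} [Group G] [Finite G] (L A : Subgroup G) (hLs : Group.IsSolvable ↥L) (hLodd : Odd (Nat.card ↥L)) (hA : Cfsg.IsElementaryAbelian 2 A) (d : ℕ) (hd : 1 ≤ d) (hAd : Nat.card ↥A = 2 ^ d) (hAL : A ≤ Subgroup.normalizer (L : Set G)) (hfaith : A ⊓ Subgroup.centralizer (L : Set G) = ⊥) : ∃ (Ai : Fin d → Subgroup G) (Li : Fin d → Subgroup G) (n : Fin d → ℕ), (∀ i, Ai i ≤ A ∧ Nat.card ↥(Ai i) = 2 ∧ Li i ≤ L ∧ Odd (n i) ∧ 3 ≤ n i ∧ Nonempty (↥(Ai i ⊔ Li i) ≃* DihedralGroup (n i))) ∧ (⨆ i, Ai i) = A ∧ ∀ i j, i ≠ j → ∀ x ∈ Ai i ⊔ Li i, ∀ y ∈ Ai j ⊔ Li j, x * y = y * x := by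
  classical
  have hIc : ∀ a ∈ A, ∀ b ∈ A, a * b = b * a := by
    intro a ha b hb
    haveI := hA.1
    exact congrArg Subtype.val (mul_comm' (⟨a, ha⟩ : A) ⟨b, hb⟩)
  have hI2 : ∀ b ∈ A, b * b = 1 := by
    intro b hb
    rw [← sq]; exact hA.2 b hb
  haveI := hLs
  set F0 := Cfsg.fittingSubgroup ↥L with hF0
  set F := F0.map L.subtype with hFdef
  have hFL : F ≤ L := Subgroup.map_subtype_le F0
  have eF : F0 ≃* F := F0.equivMapOfInjective L.subtype L.subtype_injective
  haveI hF0nil : Group.IsNilpotent F0 := Cfsg.Agent.Lib.Helper22.fittingSubgroup_isNilpotent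
  have hFnil : Group.IsNilpotent F := Group.nilpotent_of_mulEquiv eF
  have hFodd : Odd (Nat.card F) := Odd.of_dvd_nat hLodd (Subgroup.card_dvd_of_le hFL)
  have hF0n : F0.Normal := Cfsg.Agent.Lib.Helper22.fittingSubgroup_normal
  have hconjA : ∀ a ∈ Subgroup.normalizer (L : Set G), ∀ y ∈ F, a * y * a⁻¹ ∈ F := by
    intro a ha y hy
    obtain ⟨m, hm, rfl⟩ := hy
    have hchar : F0.Characteristic := Cfsg.H9.fitting_characteristic
    have h1 := (Subgroup.characteristic_iff_le_comap.mp hchar (L.normalizerMonoidHom ⟨a, ha⟩)) hm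
    exact ⟨_, h1, rfl⟩
  have hAF : A ≤ Subgroup.normalizer (F : Set G) := by
    intro a ha
    exact Cfsg.H1.mem_normalizer_of_conj_mem' F a (hconjA a (hAL ha))
  have hCF : L ⊓ Subgroup.centralizer (F : Set G) ≤ F := by
    intro l hl
    obtain ⟨hl1, hl2⟩ := Subgroup.mem_inf.mp hl
    have h1 : (⟨l, hl1⟩ : L) ∈ Subgroup.centralizer (F0 : Set L) := by
      rw [Subgroup.mem_centralizer_iff]
      intro m hm
      apply Subtype.ext
      exact Subgroup.mem_centralizer_iff.mp hl2 (m : G) ⟨m, hm, rfl⟩
    exact ⟨⟨l, hl1⟩, Cfsg.H1.centralizer_fitting_le h1, rfl⟩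
  have hfaithF : A ⊓ Subgroup.centralizer (F : Set G) = ⊥ := by
    rw [eq_bot_iff, ← hfaith]
    intro a ha
    obtain ⟨ha1, ha2⟩ := Subgroup.mem_inf.mp ha
    refine Subgroup.mem_inf.mpr ⟨ha1, ?_⟩
    refine Cfsg.H1.centralizes_of_self_centralizing L F
      (fun y hy n hn => hconjA y (Subgroup.le_normalizer hy) n hn) hCF hLodd a (hI2 a ha1) ?_ ha2
    intro y hy
    exact (Subgroup.mem_normalizer_iff.mp (hAL ha1) y).mp hy
  obtain ⟨x, a, h1, h2, h3, h4, h5, h6, h7, h8, h9⟩ := Cfsg.H1.elem_two_ambient F A hFnil hFodd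
    hAF hIc hI2 d hAd hfaithF
  have hane : ∀ i, a i ≠ 1 := by
    intro i h
    have := h6 i
    rw [h] at this
    apply h3 i
    simpa using this.symm
  have hao : ∀ i, orderOf (a i) = 2 := by
    intro i
    exact orderOf_eq_prime (by rw [sq]; exact hI2 _ (h4 i)) (hane i)
  have hnc : ∀ i, ¬ a i * x i = x i * a i := by
    intro i h
    have := Cfsg.H1.comm_iff_conj.mp h
    rw [h6 i] at this
    exact h3 i this
  have hxodd : ∀ i, Odd (orderOf (x i)) := by
    intro i
    have h5' : orderOf (x i) ∣ Nat.card F := by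
      have : orderOf (⟨x i, h1 i⟩ : F) = orderOf (x i) := Subgroup.orderOf_mk _ _
      rw [← this]; exact orderOf_dvd_natCard _
    exact Odd.of_dvd_nat hFodd h5'
  refine ⟨fun i => Subgroup.zpowers (a i), fun i => Subgroup.zpowers (x i),
    fun i => orderOf (x i), ?_, ?_, ?_⟩
  · intro i
    refine ⟨by rw [Subgroup.zpowers_le]; exact h4 i, by rw [Nat.card_zpowers, hao i],
      by rw [Subgroup.zpowers_le]; exact hFL (h1 i), hxodd i, ?_, ?_⟩
    · have hp2 := (h2 i).two_le
      have hne2 : orderOf (x i) ≠ 2 := by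
        intro h
        have := hxodd i
        rw [h] at this
        exact absurd this (by decide)
      show 3 ≤ orderOf (x i)
      omega
    · have hainv : (a i)⁻¹ = a i := inv_eq_of_mul_eq_one_left (hI2 _ (h4 i))
      have hax2 : (a i * x i) ^ 2 = 1 := by
        rw [sq]
        calc a i * x i * (a i * x i) = (a i * x i * a i) * x i := by group
          _ = (a i * x i * (a i)⁻¹) * x i := by rw [hainv]
          _ = 1 := by rw [h6 i, inv_mul_cancel]
      have hax1 : a i * x i ≠ 1 := by
        intro h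
        apply hnc i
        have hx : x i = (a i)⁻¹ := eq_inv_of_mul_eq_one_right h
        rw [hx, mul_inv_cancel, inv_mul_cancel]
      have haxo : orderOf (a i * x i) = 2 := orderOf_eq_prime hax2 hax1
      obtain ⟨e⟩ := Cfsg.Agent.Lib.Helper2.nonempty_closure_pair_mulEquiv_dihedral (hao i) haxo
      have hprod : a i * (a i * x i) = x i := by
        rw [← mul_assoc, hI2 _ (h4 i), one_mul]
      rw [hprod] at e
      have hcl : Subgroup.zpowers (a i) ⊔ Subgroup.zpowers (x i) =
          Subgroup.closure ({a i, a i * x i} : Set G) := by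
        apply le_antisymm
        · rw [sup_le_iff, Subgroup.zpowers_le, Subgroup.zpowers_le]
          have m1 : a i ∈ Subgroup.closure ({a i, a i * x i} : Set G) :=
            Subgroup.subset_closure (by simp)
          have m2 : a i * x i ∈ Subgroup.closure ({a i, a i * x i} : Set G) :=
            Subgroup.subset_closure (by simp)
          refine ⟨m1, ?_⟩
          have m3 := Subgroup.mul_mem _ m1 m2
          rwa [hprod] at m3
        · rw [Subgroup.closure_le]
          have m1 : a i ∈ Subgroup.zpowers (a i) ⊔ Subgroup.zpowers (x i) :=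
            (le_sup_left : Subgroup.zpowers (a i) ≤ _) (Subgroup.mem_zpowers _)
          have m2 : x i ∈ Subgroup.zpowers (a i) ⊔ Subgroup.zpowers (x i) :=
            (le_sup_right : Subgroup.zpowers (x i) ≤ _) (Subgroup.mem_zpowers _)
          rintro z (rfl | rfl)
          · exact m1
          · exact Subgroup.mul_mem _ m1 m2
      exact ⟨(MulEquiv.subgroupCongr hcl).trans e⟩
  · apply Subgroup.eq_of_le_of_card_ge
    · apply iSup_le
      intro i
      rw [Subgroup.zpowers_le]; exact h4 i
    · have hcard := Cfsg.H1.card_iSup_eq_prod' (fun i => Subgroup.zpowers (a i))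
        (fun i => Subgroup.centralizer ({x i} : Set G))
        (by
          intro i j _ u hu v hv
          obtain ⟨k, rfl⟩ := Subgroup.mem_zpowers_iff.mp hu
          obtain ⟨l, rfl⟩ := Subgroup.mem_zpowers_iff.mp hv
          exact ((show Commute (a i) (a j) from hIc _ (h4 i) _ (h4 j)).zpow_zpow k l).eq)
        (by
          intro i j hij
          rw [Subgroup.zpowers_le, Subgroup.mem_centralizer_singleton_iff]
          exact h7 j i (Ne.symm hij))
        (by
          intro i
          by_contra hne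
          have hle : Subgroup.zpowers (a i) ⊓ Subgroup.centralizer ({x i} : Set G) ≤
            Subgroup.zpowers (a i) := inf_le_left
          have hc : Nat.card ↥(Subgroup.zpowers (a i) ⊓ Subgroup.centralizer ({x i} : Set G)) ∣ 2 := by
            have := Subgroup.card_dvd_of_le hle
            rwa [Nat.card_zpowers, hao i] at this
          rcases (Nat.dvd_prime Nat.prime_two).mp hc with hc1 | hc1
          · exact hne (Subgroup.card_eq_one.mp hc1)
          · have heq := Subgroup.eq_of_le_of_card_ge hle (by rw [hc1, Nat.card_zpowers, hao i])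
            have hmem : a i ∈ Subgroup.zpowers (a i) ⊓ Subgroup.centralizer ({x i} : Set G) := by
              rw [heq]; exact Subgroup.mem_zpowers _
            have := (Subgroup.mem_inf.mp hmem).2
            rw [Subgroup.mem_centralizer_singleton_iff] at this
            exact hnc i this)
      rw [hcard, hAd]
      have : ∀ i : Fin d, Nat.card ↥(Subgroup.zpowers (a i)) = 2 := by
        intro i; rw [Nat.card_zpowers, hao i]
      simp only [this, Finset.prod_const, Finset.card_univ, Fintype.card_fin, le_refl]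
  · intro i j hij u hu v hv
    have key : ∀ g : G, (a j * g = g * a j) → (x j * g = g * x j) →
        g ∈ Subgroup.centralizer
          ((Subgroup.zpowers (a j) ⊔ Subgroup.zpowers (x j) : Subgroup G) : Set G) := by
      intro g hg1 hg2
      have hle : Subgroup.zpowers (a j) ⊔ Subgroup.zpowers (x j) ≤
          Subgroup.centralizer ({g} : Set G) := by
        rw [sup_le_iff, Subgroup.zpowers_le, Subgroup.zpowers_le,
          Subgroup.mem_centralizer_singleton_iff, Subgroup.mem_centralizer_singleton_iff]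
        exact ⟨hg1, hg2⟩
      rw [Subgroup.mem_centralizer_iff]
      intro h hh
      exact Subgroup.mem_centralizer_singleton_iff.mp (hle hh)
    have hle : Subgroup.zpowers (a i) ⊔ Subgroup.zpowers (x i) ≤ Subgroup.centralizer
        ((Subgroup.zpowers (a j) ⊔ Subgroup.zpowers (x j) : Subgroup G) : Set G) := by
      rw [sup_le_iff, Subgroup.zpowers_le, Subgroup.zpowers_le]
      exact ⟨key _ (hIc _ (h4 j) _ (h4 i)) (h7 i j hij).symm,
        key _ (h7 j i (Ne.symm hij)) (h5 j i)⟩
    exact (Subgroup.mem_centralizer_iff.mp (hle hu) v hv).symm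

end Cfsg.Agent.S1349
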