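import Cfsg.Statements.S1478
import Cfsg.Agent.Lib.Helper10.NoThree
import Cfsg.Agent.Lib.Helper10.NoThree2
-- import your own Cfsg.Agent.* helpers here

set_option autoImplicit false
open Cfsg Cfsg.Agent.Lib.Helper10

namespace Cfsg.Agent.S1478

/-- Let G be a minimal simple group of odd order in which every non-identity element has nilpotent centralizer. Then no subgroup of G is a three-step group with respect to any prime. -/
theorem result {G : Type*} [Group G] [Finite G] (hG : Cfsg.IsMinSimpleOddOrder G) (hCN : Cfsg.IsCNGroup G) :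
    ∀ (H : Subgroup G) (p : ℕ), ¬ Cfsg.IsThreeStepGroup p ↥H := by
  intro X p h3
  obtain ⟨hodd, hsimple, hnc, hsolv⟩ := hG
  haveI := hsimple
  have hperf : commutator G = ⊤ := by
    rcases (inferInstance : (commutator G).Normal).eq_bot_or_eq_top with h | h
    · exfalso
      apply hnc
      refine ⟨⟨fun a b => ?_⟩⟩
      have h1 := Subgroup.commutator_mem_commutator (Subgroup.mem_top a) (Subgroup.mem_top b)
      rw [← commutator_def, h, Subgroup.mem_bot] at h1
      exact commutatorElement_eq_one_iff_mul_comm.1 h1
    · exact h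
  rcases eq_top_or_exists_le_coatom X with hX | ⟨M, hM, hXM⟩
  · subst hX
    obtain ⟨hH1, A, -, -, -, -, hnorm, htop, -⟩ := h3
    haveI : IsSimpleGroup ↥(⊤ : Subgroup G) := Subgroup.topEquiv.isSimpleGroup
    rcases hnorm.eq_bot_or_eq_top with h | h
    · exact hH1 (le_bot_iff.1 (h ▸ le_sup_left))
    · exact htop h
  · haveI : Group.IsSolvable M := hsolv M hM.1
    have hCNM : IsCNGroup ↥M := isCNGroup_subgroup hCN M
    have hoddM : Odd (Nat.card M) := Odd.of_dvd_nat hodd (Subgroup.card_subgroup_dvd_card M)
    rcases cn_odd_dichotomy hCNM hoddM with ⟨L, hL, hcomm⟩ | ⟨q, hq, hH1, hCH, T, hTn, hT, n, hTi⟩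
    · have hinj : Function.Injective ((Subgroup.inclusion hXM).subgroupComap L) := by
        intro a b hab
        have h1 : Subgroup.inclusion hXM (a : X) = Subgroup.inclusion hXM (b : X) :=
          congrArg Subtype.val hab
        exact Subtype.ext (Subgroup.inclusion_injective hXM h1)
      have hL' : Group.IsNilpotent (L.comap (Subgroup.inclusion hXM)) :=
        Group.nilpotent_of_mulEquiv (MonoidHom.ofInjective hinj).symm
      refine threeStep_no_nilpotent_derived h3 (L.comap (Subgroup.inclusion hXM)) hL' fun u v => ?_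
      rw [Subgroup.mem_comap, map_mul, map_mul, map_mul, map_inv, map_inv]
      exact hcomm _ _
    · exact no_pquotient_coatom hodd hperf M hM q hq hH1 hCH T hTn hT n hTi

end Cfsg.Agent.S1478
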