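import Cfsg.Statements.S1479
import Cfsg.Agent.Lib.Helper10.MinCN3
-- import your own Cfsg.Agent.* helpers here

set_option autoImplicit false
open Cfsg Cfsg.Agent.Lib.Helper10

namespace Cfsg.Agent.S1479

/-- Let G be a minimal simple group of odd order in which every non-identity element has nilpotent centralizer, and H a nilpotent subgroup contained in no larger nilpotent subgroup. Then the order of H is coprime to its index, H ∩ gHg⁻¹ = 1 whenever gHg⁻¹ ≠ H, N_G(H) is a maximal subgroup, and N_G(H) has a complement E to H acting on H without non-identity fixed points. Conversely, every maximal subgroup M of G has a normal nilpotent subgroup H, maximal among nilpotent subgroups of G, with a complement in M acting on H without non-identity fixed points. -/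
theorem result {G : Type*} [Group G] [Finite G] (hG : Cfsg.IsMinSimpleOddOrder G) (hCN : Cfsg.IsCNGroup G)  :
    (∀ H : Subgroup G, Group.IsNilpotent H → (∀ L : Subgroup G, Group.IsNilpotent L → H ≤ L → L = H) →
        (Nat.card H).Coprime H.index ∧ (∀ g : G, H.map (MulAut.conj g).toMonoidHom ≠ H → H ⊓ H.map (MulAut.conj g).toMonoidHom = ⊥) ∧
        IsCoatom (Subgroup.normalizer (H : Set G)) ∧
        ∃ E : Subgroup G, Cfsg.IsComplIn H E (Subgroup.normalizer (H : Set G)) ∧ E ≠ ⊥ ∧
          ∀ e ∈ E, e ≠ 1 → H ⊓ Subgroup.centralizer ({e} : Set G) = ⊥) ∧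
      ∀ M : Subgroup G, IsCoatom M → ∃ H E : Subgroup G, Group.IsNilpotent H ∧ (∀ L : Subgroup G, Group.IsNilpotent L → H ≤ L → L = H) ∧
        M ≤ Subgroup.normalizer (H : Set G) ∧ Cfsg.IsComplIn H E M ∧ H ≠ ⊥ ∧ E ≠ ⊥ ∧
        ∀ e ∈ E, e ≠ 1 → H ⊓ Subgroup.centralizer ({e} : Set G) = ⊥ := by
  have hns := minSimple_not_solvable hG
  have hsimple : IsSimpleGroup G := hG.2.1
  constructor
  · intro H hH hmax
    have hH1 : H ≠ ⊥ := max_nilpotent_ne_bot hmax
    have hHtop : H ≠ ⊤ := by
      intro h0
      subst h0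
      have : Group.IsNilpotent G := Group.nilpotent_of_mulEquiv Subgroup.topEquiv
      exact hns inferInstance
    obtain ⟨M, hM, hNM⟩ :=
      (eq_top_or_exists_le_coatom _).resolve_left (normalizer_ne_top hG hH1 hHtop)
    have hHK := max_nilpotent_eq_kernel hG hCN hH hmax M hM hNM
    have hN : Subgroup.normalizer (H : Set G) = M := by
      rw [hHK]; exact normalizer_kernel hG hCN M hM
    obtain ⟨E, hc, -, -, -, hE1, hfpf, -, -⟩ := coatom_frob hG hCN M hM
    refine ⟨hall_of_max_nilpotent hCN hH hmax, ?_, hN ▸ hM, E, ?_, hE1, ?_⟩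
    · intro g hg
      obtain ⟨h1, h2⟩ := max_nilpotent_conj hH hmax g
      exact max_nilpotent_inf_eq_bot hG hCN hH hmax h1 h2 (Ne.symm hg)
    · rw [hN, hHK]; exact hc
    · rw [hHK]; exact hfpf
  · intro M hM
    obtain ⟨E, hc, hnorm, hKnil, hK1, hE1, hfpf, -, -⟩ := coatom_frob hG hCN M hM
    exact ⟨fittingHallOf M, E, hKnil, kernel_max_nilpotent hG hCN M hM, hnorm, hc, hK1, hE1, hfpf⟩

end Cfsg.Agent.S1479
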