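import Cfsg.Statements.S1484
import Cfsg.Agent.Lib.Helper10.MinCN3
-- import your own Cfsg.Agent.* helpers here

set_option autoImplicit false
open Cfsg Cfsg.Agent.Lib.Helper10

namespace Cfsg.Agent.S1484

/-- Let G be a minimal simple group of odd order in which every non-identity element has nilpotent centralizer, and M₁, …, M_k maximal subgroups, pairwise non-conjugate, such that every maximal subgroup is conjugate to some M_i. Let H_i be the largest normal nilpotent Hall subgroup of M_i. Then the orders of the H_i are pairwise coprime, their product is the order of G, and every element of G is conjugate to an element of some H_i. -/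
theorem result {G : Type*} [Group G] [Finite G] (hG : Cfsg.IsMinSimpleOddOrder G) (hCN : Cfsg.IsCNGroup G) (k : ℕ) (Mrep : Fin k → Subgroup G) (hmax : ∀ i, IsCoatom (Mrep i))
    (hnc : ∀ i j, i ≠ j → ∀ g : G, Mrep j ≠ (Mrep i).map (MulAut.conj g).toMonoidHom) (hall : ∀ M : Subgroup G, IsCoatom M → ∃ i, ∃ g : G, M = (Mrep i).map (MulAut.conj g).toMonoidHom) :
    (∀ i j, i ≠ j → (Nat.card (Cfsg.fittingHallOf (Mrep i))).Coprime (Nat.card (Cfsg.fittingHallOf (Mrep j)))) ∧
      ∏ i, Nat.card (Cfsg.fittingHallOf (Mrep i)) = Nat.card G ∧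
      ∀ x : G, ∃ i, ∃ g : G, g * x * g⁻¹ ∈ Cfsg.fittingHallOf (Mrep i) := by
  have hns := minSimple_not_solvable hG
  have hsimple : IsSimpleGroup G := hG.2.1
  have hKnil : ∀ i, Group.IsNilpotent (fittingHallOf (Mrep i)) := fun i => by
    obtain ⟨E, -, -, h, -⟩ := coatom_frob hG hCN (Mrep i) (hmax i)
    exact h
  have hKmax := fun i => kernel_max_nilpotent hG hCN (Mrep i) (hmax i)
  have hcop : ∀ i j, i ≠ j →
      (Nat.card (fittingHallOf (Mrep i))).Coprime (Nat.card (fittingHallOf (Mrep j))) := by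
    intro i j hij
    rcases max_nilpotent_conj_or_coprime hCN (hKnil i) (hKmax i) (hKnil j) (hKmax j) with
      ⟨g, hg⟩ | h
    · exfalso
      apply hnc i j hij g
      rw [← normalizer_kernel hG hCN (Mrep j) (hmax j), hg,
        ← Subgroup.map_equiv_normalizer_eq, normalizer_kernel hG hCN (Mrep i) (hmax i)]
    · exact h
  have hconj : ∀ x : G, ∃ i, ∃ g : G, g * x * g⁻¹ ∈ fittingHallOf (Mrep i) := by
    intro x
    have hz : Group.IsNilpotent (Subgroup.zpowers x) := by
      letI : CommGroup (Subgroup.zpowers x) :=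
        { (inferInstance : Group (Subgroup.zpowers x)) with mul_comm := mul_comm' }
      exact CommGroup.isNilpotent
    obtain ⟨H, hxH, hH, hHmax⟩ := exists_max_nilpotent_ge hz
    have hH1 : H ≠ ⊥ := max_nilpotent_ne_bot hHmax
    have hHtop : H ≠ ⊤ := by
      intro h0
      subst h0
      have : Group.IsNilpotent G := Group.nilpotent_of_mulEquiv Subgroup.topEquiv
      exact hns inferInstance
    obtain ⟨M, hM, hNM⟩ :=
      (eq_top_or_exists_le_coatom _).resolve_left (normalizer_ne_top hG hH1 hHtop)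
    have hHK := max_nilpotent_eq_kernel hG hCN hH hHmax M hM hNM
    obtain ⟨i, g, hg⟩ := hall M hM
    obtain ⟨h1, h2⟩ := max_nilpotent_conj (hKnil i) (hKmax i) g
    have h3 : Subgroup.normalizer
        (((fittingHallOf (Mrep i)).map (MulAut.conj g).toMonoidHom : Subgroup G) : Set G) ≤ M := by
      rw [← Subgroup.map_equiv_normalizer_eq, normalizer_kernel hG hCN (Mrep i) (hmax i), hg]
    have h4 := max_nilpotent_eq_kernel hG hCN h1 h2 M hM h3
    have hx : x ∈ (fittingHallOf (Mrep i)).map (MulAut.conj g).toMonoidHom := by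
      rw [h4, ← hHK]
      exact hxH (Subgroup.mem_zpowers x)
    obtain ⟨y, hy, hyx⟩ := hx
    refine ⟨i, g⁻¹, ?_⟩
    have : g⁻¹ * x * g⁻¹⁻¹ = y := by
      rw [← hyx]
      simp [MulAut.conj_apply, mul_assoc]
    rw [this]
    exact hy
  refine ⟨hcop, ?_, hconj⟩
  apply Nat.dvd_antisymm
  · apply Fintype.prod_dvd_of_isRelPrime
    · intro i j hij
      exact Nat.coprime_iff_isRelPrime.1 (hcop i j hij)
    · intro i
      exact Subgroup.card_subgroup_dvd_card _
  · rw [Nat.dvd_iff_prime_pow_dvd_dvd]
    intro p n hp hpn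
    rcases Nat.eq_zero_or_pos n with hn | hn
    · subst hn; simp
    haveI := Fact.mk hp
    have hpG : p ∣ Nat.card G := (dvd_pow_self p hn.ne').trans hpn
    obtain ⟨x, hx⟩ := exists_prime_orderOf_dvd_card' (G := G) p hpG
    obtain ⟨i, g, hg⟩ := hconj x
    have ho : orderOf (g * x * g⁻¹) = p := by
      rw [← hx]; exact (MulAut.conj g).orderOf_eq x
    have hpK : p ∣ Nat.card (fittingHallOf (Mrep i)) := by
      have h1 := orderOf_dvd_natCard (⟨g * x * g⁻¹, hg⟩ : fittingHallOf (Mrep i))
      rwa [Subgroup.orderOf_mk, ho] at h1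
    have hHall := hall_of_max_nilpotent hCN (hKnil i) (hKmax i)
    have h2 : Nat.Coprime (p ^ n) (fittingHallOf (Mrep i)).index :=
      Nat.Coprime.pow_left n (Nat.Coprime.coprime_dvd_left hpK hHall)
    have h3 : p ^ n ∣ Nat.card (fittingHallOf (Mrep i)) * (fittingHallOf (Mrep i)).index := by
      rw [Subgroup.card_mul_index]; exact hpn
    exact (h2.dvd_of_dvd_mul_right h3).trans (Finset.dvd_prod_of_mem _ (Finset.mem_univ i))

end Cfsg.Agent.S1484
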