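import Cfsg.Statements.S2922
import Cfsg.Agent.H17.CharPBridge

set_option autoImplicit false
open Cfsg

namespace Cfsg.Agent.S2922

open Subgroup Cfsg.Agent.Lib.Helper16 Cfsg.Agent.H17

/-- Let p be a prime, X a finite group, B a p-subgroup of X and C a normal subgroup of B. If N_X(C) has characteristic p (its generalized Fitting subgroup is O_p(N_X(C))), then N_X(B) and C_X(B) have characteristic p. -/
theorem result {X : Type*} [Group X] [Finite X] {p : ℕ} [Fact p.Prime] (B C : Subgroup X) (hB : IsPGroup p ↥B) (hCB : C ≤ B) (hCn : (C.subgroupOf B).Normal) (hC : Cfsg.generalizedFittingSubgroup ↥(Subgroup.normalizer (C : Set X)) = Cfsg.pCore p ↥(Subgroup.normalizer (C : Set X))) : Cfsg.generalizedFittingSubgroup ↥(Subgroup.normalizer (B : Set X)) = Cfsg.pCore p ↥(Subgroup.normalizer (B : Set X)) ∧ Cfsg.generalizedFittingSubgroup ↥(Subgroup.centralizer (B : Set X)) = Cfsg.pCore p ↥(Subgroup.centralizer (B : Set X)) := by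
  rw [genFitting_eq_pCore_iff_hasCharP] at hC ⊢
  rw [genFitting_eq_pCore_iff_hasCharP]
  have hBN : B ≤ normalizer (C : Set X) := (normal_subgroupOf_iff_le_normalizer hCB).mp hCn
  have h1 := hC.inf_centralizer hB (hBN.trans le_normalizer)
  have h2 : normalizer (C : Set X) ⊓ centralizer (B : Set X) = centralizer (B : Set X) :=
    inf_eq_right.mpr ((centralizer_le (SetLike.coe_subset_coe.mpr hCB)).trans
      (centralizer_le_normalizer _))
  rw [h2] at h1
  exact ⟨h1.normalizer_of_centralizer hB, h1⟩

end Cfsg.Agent.S2922
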