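import Cfsg.Statements.S1850
import Cfsg.Agent.S2922
import Cfsg.Agent.H17.CharPBridge

set_option autoImplicit false
open Cfsg

namespace Cfsg.Agent.S1850


theorem climb {G : Type*} [Group G] [Finite G] {p : ℕ} [Fact p.Prime] (U : Subgroup G)
    (hU : IsPGroup p ↥U) : ∀ (n : ℕ) (V : Subgroup G), V ≤ U → Nat.card ↥U - Nat.card ↥V ≤ n →
    Cfsg.generalizedFittingSubgroup ↥(Subgroup.normalizer (V : Set G)) =
      Cfsg.pCore p ↥(Subgroup.normalizer (V : Set G)) →
    Cfsg.generalizedFittingSubgroup ↥(Subgroup.normalizer (U : Set G)) =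
      Cfsg.pCore p ↥(Subgroup.normalizer (U : Set G)) := by
  intro n
  induction n with
  | zero =>
    intro V hVU hn hV
    have h1 : Nat.card ↥U ≤ Nat.card ↥V := by omega
    have h2 : V = U := Subgroup.eq_of_le_of_card_ge hVU h1
    rw [← h2]; exact hV
  | succ n ih =>
    intro V hVU hn hV
    by_cases hEq : V = U
    · rw [← hEq]; exact hV
    have hlt : V.subgroupOf U < ⊤ := by
      rw [lt_top_iff_ne_top]
      intro h
      rw [Subgroup.subgroupOf_eq_top] at h
      exact hEq (le_antisymm hVU h)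
    haveI : Group.IsNilpotent ↥U := hU.isNilpotent
    have hnc := Group.normalizerCondition_of_isNilpotent (G := ↥U) (V.subgroupOf U) hlt
    obtain ⟨x, hxN, hxV⟩ := SetLike.exists_of_lt hnc
    have hxN' : (x : G) ∈ Subgroup.normalizer (V : Set G) := by
      rw [Subgroup.mem_normalizer_iff] at hxN ⊢
      intro h
      constructor
      · intro hh
        have := (hxN ⟨h, hVU hh⟩).mp (by rw [Subgroup.mem_subgroupOf]; exact hh)
        rw [Subgroup.mem_subgroupOf] at this
        exact this
      · intro hh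
        have hhU : h ∈ U := by
          have h1 : (x : G) * h * (x : G)⁻¹ ∈ U := hVU hh
          have h2 : (x : G)⁻¹ * ((x : G) * h * (x : G)⁻¹) * (x : G) ∈ U :=
            U.mul_mem (U.mul_mem (U.inv_mem x.2) h1) x.2
          have h3 : (x : G)⁻¹ * ((x : G) * h * (x : G)⁻¹) * (x : G) = h := by group
          rwa [h3] at h2
        have := (hxN ⟨h, hhU⟩).mpr (by rw [Subgroup.mem_subgroupOf]; exact hh)
        rw [Subgroup.mem_subgroupOf] at this
        exact this
    set V' : Subgroup G := Subgroup.normalizer (V : Set G) ⊓ U with hV'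
    have hVV' : V ≤ V' := le_inf Subgroup.le_normalizer hVU
    have hV'U : V' ≤ U := inf_le_right
    have hxV' : (x : G) ∈ V' := ⟨hxN', x.2⟩
    have hne : V < V' := by
      refine lt_of_le_of_ne hVV' ?_
      intro h
      apply hxV
      rw [Subgroup.mem_subgroupOf, h]
      exact hxV'
    have hcard : Nat.card ↥V < Nat.card ↥V' := by
      by_contra hc
      push Not at hc
      exact (ne_of_lt hne) (Subgroup.eq_of_le_of_card_ge hVV' hc)
    have hcard2 : Nat.card ↥V' ≤ Nat.card ↥U := Subgroup.card_le_of_le hV'U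
    have hnorm : (V.subgroupOf V').Normal :=
      Subgroup.normal_subgroupOf_of_le_normalizer inf_le_left
    have hV'p : IsPGroup p ↥V' := hU.to_le hV'U
    have h3 := (Cfsg.Agent.S2922.result V' V hV'p hVV' hnorm hV).1
    exact ih V' hV'U (by omega) h3

/-- Let G be a non-abelian finite simple QTKE-group and T a Sylow 2-subgroup of G. If U is a nontrivial 2-subgroup of G with U ∩ Z(T) ≠ 1, then F*(N_G(U)) = O₂(N_G(U)). -/
theorem result {G : Type*} [Group G] [Finite G] [IsSimpleGroup G]
    (hG : ¬ IsMulCommutative G) (hQ : Cfsg.IsQTKE G) (T : Sylow 2 G) (U : Subgroup G)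
    (hU : IsPGroup 2 ↥U) (hZ : U ⊓ ((T : Subgroup G) ⊓ Subgroup.centralizer ((T : Subgroup G) : Set G)) ≠ ⊥) :
    Subgroup.normalizer (U : Set G) ∈ Cfsg.calHe G := by

  classical
  obtain ⟨z, hz1⟩ := Subgroup.ne_bot_iff_exists_ne_one.mp hZ
  have hzU : (z : G) ∈ U := z.2.1
  have hzT : (z : G) ∈ Subgroup.centralizer ((T : Subgroup G) : Set G) := z.2.2.2
  have hz1' : (z : G) ≠ 1 := by
    intro h; apply hz1; exact Subtype.ext h
  set V : Subgroup G := Subgroup.zpowers (z : G) with hV
  have hVU : V ≤ U := by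
    rw [hV, Subgroup.zpowers_le]; exact hzU
  have hVp : IsPGroup 2 ↥V := hU.to_le hVU
  have hVne : V ≠ ⊥ := by
    intro h
    rw [hV, Subgroup.zpowers_eq_bot] at h
    exact hz1' h
  have hTN : (T : Subgroup G) ≤ Subgroup.normalizer (V : Set G) := by
    intro t ht
    rw [Subgroup.mem_normalizer_iff]
    intro h
    have hcomm : ∀ v ∈ V, t * v * t⁻¹ = v := by
      intro v hv
      obtain ⟨k, rfl⟩ := Subgroup.mem_zpowers_iff.mp hv
      have h1 : t * (z : G) = (z : G) * t := (Subgroup.mem_centralizer_iff.mp hzT t ht)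
      have h2 : Commute t ((z : G) ^ k) := (show Commute t (z : G) from h1).zpow_right k
      rw [h2.eq]; group
    constructor
    · intro hh; rw [hcomm h hh]; exact hh
    · intro hh
      have h1 := hcomm _ hh
      have h2 : t * h * t⁻¹ = h := by
        have : t * (t * h * t⁻¹) * t⁻¹ = t * h * t⁻¹ := h1
        have h3 : t⁻¹ * (t * (t * h * t⁻¹) * t⁻¹) * t = t⁻¹ * (t * h * t⁻¹) * t := by rw [this]
        have h4 : t⁻¹ * (t * (t * h * t⁻¹) * t⁻¹) * t = t * h * t⁻¹ := by group
        have h5 : t⁻¹ * (t * h * t⁻¹) * t = h := by group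
        rw [h4, h5] at h3
        exact h3
      rw [← h2]; exact hh
  have hch : Cfsg.IsOfCharacteristicTwo ↥(Subgroup.normalizer (V : Set G)) :=
    hQ.2.2 _ ⟨V, hVp, hVne, rfl⟩ ⟨T, hTN⟩
  have hF : Cfsg.generalizedFittingSubgroup ↥(Subgroup.normalizer (V : Set G)) =
      Cfsg.pCore 2 ↥(Subgroup.normalizer (V : Set G)) :=
    Cfsg.Agent.H17.genFitting_eq_pCore_iff_centralizer.mpr hch
  exact climb U hU _ V hVU le_rfl hF

end Cfsg.Agent.S1850
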