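import Mathlib
import Cfsg.Statements.S1892
import Cfsg.Agent.H9.Comp
import Cfsg.Agent.H9.Cores
import Cfsg.Agent.Lib.Helper23.PSolv

set_option autoImplicit false
open Cfsg
open scoped commutatorElement

namespace Cfsg.Agent.S1892

/-- Let S be a finite p-solvable group with no nontrivial normal subgroup of order prime to p, A a p-subgroup of S, and Q a nontrivial A-invariant subgroup of order prime to p with [A, Q] = Q. Then the commutator [O_p(S), A, Q] is nontrivial. -/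
theorem result {S : Type*} [Group S] [Finite S] {p : ℕ} [Fact p.Prime]
    (hS : Cfsg.IsPSolvable p S) (hred : Cfsg.pPrimeCore p S = ⊥)
    (A Q : Subgroup S) (hA : IsPGroup p A) (hQ : ¬ p ∣ Nat.card Q) (hQ1 : Q ≠ ⊥)
    (hinv : ∀ a ∈ A, ∀ x ∈ Q, a * x * a⁻¹ ∈ Q) (hAQ : ⁅A, Q⁆ = Q) :
    ⁅⁅Cfsg.pCore p S, A⁆, Q⁆ ≠ ⊥ := by
  classical
  intro hcon
  have hp : p.Prime := Fact.out
  have hRn : (pCore p S).Normal := inferInstance
  have hRp : IsPGroup p (pCore p S) := Cfsg.H9.pCore_isPGroup p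
  have hTR : ⁅pCore p S, A⁆ ≤ pCore p S := Subgroup.commutator_le_left _ _
  rw [Cfsg.H9.comm_iff] at hcon
  have hPr : ∀ g ∈ ⁅A, Q⁆, ∀ y ∈ pCore p S, g * y * g⁻¹ * y⁻¹ ∈ ⁅pCore p S, A⁆ := by
    have hA' : ∀ a ∈ A, ∀ y ∈ pCore p S, a * y * a⁻¹ * y⁻¹ ∈ ⁅pCore p S, A⁆ := by
      intro a ha y hy
      rw [Subgroup.commutator_comm]
      exact Subgroup.commutator_mem_commutator ha hy
    have hmul : ∀ g h : S, (∀ y ∈ pCore p S, g * y * g⁻¹ * y⁻¹ ∈ ⁅pCore p S, A⁆) →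
        (∀ y ∈ pCore p S, h * y * h⁻¹ * y⁻¹ ∈ ⁅pCore p S, A⁆) →
        ∀ y ∈ pCore p S, (g * h) * y * (g * h)⁻¹ * y⁻¹ ∈ ⁅pCore p S, A⁆ := by
      intro g h hg hh y hy
      have e : (g * h) * y * (g * h)⁻¹ * y⁻¹ =
          (g * (h * y * h⁻¹) * g⁻¹ * (h * y * h⁻¹)⁻¹) * (h * y * h⁻¹ * y⁻¹) := by group
      rw [e]
      exact Subgroup.mul_mem _ (hg _ (hRn.conj_mem y hy h)) (hh y hy)
    intro g hg
    unfold Bracket.bracket Subgroup.commutator at hg
    induction hg using Subgroup.closure_induction with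
    | mem x hx =>
      obtain ⟨a, ha, q, hq, rfl⟩ := hx
      have e : ⁅a, q⁆ = a * (q * a⁻¹ * q⁻¹) := by rw [commutatorElement_def]; group
      rw [e]
      apply hmul _ _ (hA' a ha)
      intro y hy
      have h1 := hA' a⁻¹ (A.inv_mem ha) (q⁻¹ * y * q) (by
        have := hRn.conj_mem y hy q⁻¹
        simpa using this)
      have h2 := hcon _ h1 q hq
      have e2 : q * a⁻¹ * q⁻¹ * y * (q * a⁻¹ * q⁻¹)⁻¹ * y⁻¹ =
          q * (a⁻¹ * (q⁻¹ * y * q) * a⁻¹⁻¹ * (q⁻¹ * y * q)⁻¹) * q⁻¹ := by group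
      rw [e2, ← h2, mul_inv_cancel_right]
      exact h1
    | one => intro y _; simp
    | mul g h _ _ ihg ihh => exact hmul g h ihg ihh
    | inv g _ ih =>
      intro y hy
      have h1 := ih (g⁻¹ * y * g) (by
        have := hRn.conj_mem y hy g⁻¹
        simpa using this)
      have e : g⁻¹ * y * g⁻¹⁻¹ * y⁻¹ = (g * (g⁻¹ * y * g) * g⁻¹ * (g⁻¹ * y * g)⁻¹)⁻¹ := by group
      rw [e]
      exact Subgroup.inv_mem _ h1
  rw [hAQ] at hPr
  have hcent : Q ≤ Subgroup.centralizer (pCore p S : Set S) := by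
    intro q hq
    rw [Subgroup.mem_centralizer_iff]
    intro y hy
    have ht := hPr q hq y hy
    have hpow : ∀ n : ℕ, q ^ n * y * (q ^ n)⁻¹ = (q * y * q⁻¹ * y⁻¹) ^ n * y := by
      intro n
      induction n with
      | zero => simp
      | succ n ih =>
        have hc : Commute ((q * y * q⁻¹ * y⁻¹) ^ n) q :=
          (show Commute (q * y * q⁻¹ * y⁻¹) q from hcon _ ht q hq).pow_left n
        calc q ^ (n + 1) * y * (q ^ (n + 1))⁻¹ = q * (q ^ n * y * (q ^ n)⁻¹) * q⁻¹ := by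
              rw [pow_succ']; group
          _ = q * ((q * y * q⁻¹ * y⁻¹) ^ n * y) * q⁻¹ := by rw [ih]
          _ = (q * (q * y * q⁻¹ * y⁻¹) ^ n) * y * q⁻¹ := by group
          _ = ((q * y * q⁻¹ * y⁻¹) ^ n * q) * y * q⁻¹ := by rw [hc.eq]
          _ = (q * y * q⁻¹ * y⁻¹) ^ n * (q * y * q⁻¹ * y⁻¹) * y := by group
          _ = _ := by rw [← pow_succ]
    have h1 := hpow (orderOf q)
    rw [pow_orderOf_eq_one] at h1
    have h2 : (q * y * q⁻¹ * y⁻¹) ^ orderOf q = 1 := by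
      have : y = (q * y * q⁻¹ * y⁻¹) ^ orderOf q * y := by simpa using h1
      exact (mul_eq_right.mp this.symm)
    obtain ⟨k, hk⟩ := IsPGroup.iff_orderOf.mp hRp ⟨_, hTR ht⟩
    rw [Subgroup.orderOf_mk] at hk
    have h3 : orderOf (q * y * q⁻¹ * y⁻¹) ∣ Nat.card Q := by
      refine (orderOf_dvd_of_pow_eq_one h2).trans ?_
      have := orderOf_dvd_natCard (⟨q, hq⟩ : Q)
      rwa [Subgroup.orderOf_mk] at this
    have hk0 : k = 0 := by
      by_contra hk0
      apply hQ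
      exact (dvd_pow_self p hk0).trans (hk ▸ h3)
    rw [hk0, pow_zero, orderOf_eq_one_iff] at hk
    calc y * q = (q * y * q⁻¹ * y⁻¹)⁻¹ * (q * y) := by group
      _ = q * y := by rw [hk]; simp
  have hQR : Q ≤ pCore p S :=
    hcent.trans (Cfsg.Agent.Lib.Helper23.centralizer_pCore_le_of_isPSolvable p hS hred)
  apply hQ1
  obtain ⟨n, hn⟩ := (hRp.to_le hQR).exists_card_eq
  have hn0 : n = 0 := by
    by_contra hn0
    apply hQ
    rw [hn]; exact dvd_pow_self p hn0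
  rw [hn0, pow_zero] at hn
  exact Subgroup.card_eq_one.mp hn

end Cfsg.Agent.S1892
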