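import Cfsg.Statements.S1894
import Cfsg.Agent.Lib.Helper16.Large
import Cfsg.Agent.H4.Supersolvable

set_option autoImplicit false
open Cfsg

namespace Cfsg.Agent.S1894

open Cfsg.Agent.Lib.Helper16


/-- Let P be a finite p-group, A a normal subgroup of P and B an abelian subgroup of A that is normal in P. Then some subgroup C of A containing B is normal in P and is self-centralizing and normal in A (C ∈ SCN(A)). -/
theorem result {P : Type*} [Group P] [Finite P] {p : ℕ} [Fact p.Prime] (hP : IsPGroup p P)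
    (A : Subgroup P) [A.Normal] (B : Subgroup P) [B.Normal] (hBA : B ≤ A) (hB : IsMulCommutative B) :
    ∃ C : Subgroup P, C.Normal ∧ B ≤ C ∧ Cfsg.IsSCN A C := by
  have hBc : B ≤ Subgroup.centralizer (B : Set P) := Subgroup.le_centralizer_iff_isMulCommutative.2 hB
  obtain ⟨C, hBC', hC⟩ := Set.Finite.exists_le_maximal
    (s := {C : Subgroup P | C.Normal ∧ B ≤ C ∧ C ≤ A ∧ C ≤ Subgroup.centralizer (C : Set P)})
    (Set.toFinite _) (a := B) ⟨inferInstance, le_rfl, hBA, hBc⟩
  obtain ⟨hCn, hBC, hCA, hCc⟩ := hC.prop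
  refine ⟨C, hCn, hBC, hCA, ?_, ?_⟩
  · rw [Subgroup.normalizer_eq_top]; exact le_top
  apply le_antisymm _ (le_inf hCA hCc)
  by_contra hcon
  have hDn : (A ⊓ Subgroup.centralizer (C : Set P)).Normal := inferInstance
  have hY : (A ⊓ Subgroup.centralizer (C : Set P)).map (QuotientGroup.mk' C) ≠ ⊥ := by
    intro h
    apply hcon
    rw [Subgroup.map_eq_bot_iff, QuotientGroup.ker_mk'] at h
    exact h
  have hYn : ((A ⊓ Subgroup.centralizer (C : Set P)).map (QuotientGroup.mk' C)).Normal :=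
    hDn.map _ (QuotientGroup.mk'_surjective C)
  have hPq : IsPGroup p (P ⧸ C) := hP.to_quotient C
  have hne := inf_centralizer_ne_bot (hPq.to_subgroup _) (hPq.to_subgroup (⊤ : Subgroup (P ⧸ C))) hY
    (by rw [Subgroup.normalizer_eq_top])
  obtain ⟨y, hy1⟩ := Subgroup.ne_bot_iff_exists_ne_one.1 hne
  obtain ⟨⟨x, hxD, hxy⟩, hyc⟩ := Subgroup.mem_inf.1 y.2
  have hxC : x ∉ C := by
    intro h
    apply hy1
    apply Subtype.ext
    rw [← hxy]
    exact (QuotientGroup.eq_one_iff x).2 h
  have hzn : (Subgroup.zpowers (QuotientGroup.mk' C x)).Normal := by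
    constructor
    intro n hn g
    have h1 : Subgroup.zpowers (QuotientGroup.mk' C x) ≤
        Subgroup.centralizer ((⊤ : Subgroup (P ⧸ C)) : Set (P ⧸ C)) := by
      rw [Subgroup.zpowers_le, hxy]; exact hyc
    have h2 := (Subgroup.mem_centralizer_iff.1 (h1 hn)) g (Subgroup.mem_top g)
    rw [h2]
    simpa using hn
  have hC₁n : (C ⊔ Subgroup.zpowers x).Normal := by
    rw [Cfsg.Agent.H4.sup_zpowers_eq_comap]
    exact hzn.comap _
  have hxc : Subgroup.zpowers x ≤ Subgroup.centralizer (C : Set P) := Subgroup.zpowers_le.2 hxD.2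
  have h1 : C ⊔ Subgroup.zpowers x ≤ Subgroup.centralizer (C : Set P) := sup_le hCc hxc
  have h2 : C ⊔ Subgroup.zpowers x ≤ Subgroup.centralizer ((Subgroup.zpowers x : Subgroup P) : Set P) :=
    sup_le (Subgroup.le_centralizer_iff.1 hxc)
      (Subgroup.le_centralizer_iff_isMulCommutative.2 inferInstance)
  have h3 : C ⊔ Subgroup.zpowers x ≤
      Subgroup.centralizer ((C ⊔ Subgroup.zpowers x : Subgroup P) : Set P) :=
    sup_le (Subgroup.le_centralizer_iff.1 h1) (Subgroup.le_centralizer_iff.1 h2)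
  have h4 := hC.le_of_ge (y := C ⊔ Subgroup.zpowers x)
    ⟨hC₁n, hBC.trans le_sup_left, sup_le hCA (Subgroup.zpowers_le.2 hxD.1), h3⟩ le_sup_left
  exact hxC (h4 (Subgroup.mem_sup_right (Subgroup.mem_zpowers x)))

end Cfsg.Agent.S1894
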