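import Mathlib
import Cfsg.Statements.S1897
import Cfsg.Agent.H14.U33

set_option autoImplicit false
open Cfsg

namespace Cfsg.Agent.S1897

open Cfsg.Agent.H14 in
/-- The projective special unitary group PSU₃(3) (realised over the field with 9 elements) has a subgroup isomorphic to PSL₂(7). -/
theorem result {F : Type*} [Field F] [Fintype F] (hF : Fintype.card F = 9)
    {K : Type*} [Field K] [Fintype K] (hK : Fintype.card K = 7) :
    ∃ H : Subgroup (Cfsg.PSU 3 F 3), Nonempty (H ≃* Matrix.ProjectiveSpecialLinearGroup (Fin 2) K) := by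
  have hF' : Fintype.card F = 3 ^ 2 := by rw [hF]; norm_num
  have h3 : (3 : F) = 0 := by
    have h : ((Fintype.card F : ℕ) : F) = 0 := Nat.cast_card_eq_zero F
    rw [hF] at h
    have h9 : (3 : F) * 3 = 0 := by
      have : ((9 : ℕ) : F) = 3 * 3 := by norm_num
      rw [← this]; exact h
    exact mul_self_eq_zero.mp h9
  obtain ⟨j, hj⟩ : ∃ j : F, j ^ 2 = -1 := by
    have : IsSquare (-1 : F) := by
      rw [FiniteField.isSquare_neg_one_iff, hF]; norm_num
    obtain ⟨j, hj⟩ := this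
    exact ⟨j, by rw [pow_two, hj]⟩
  let a : Cfsg.SU 3 F 3 := Cfsg.Agent.Lib.Helper18.mkSU (uA j) (det_uA j hj h3)
    ((Cfsg.Agent.Lib.Helper18.herm_preserve_iff hF' _).mpr (herm_uA j hj h3))
  let b : Cfsg.SU 3 F 3 := Cfsg.Agent.Lib.Helper18.mkSU (uB j) (det_uB j hj h3)
    ((Cfsg.Agent.Lib.Helper18.herm_preserve_iff hF' _).mpr (herm_uB j hj h3))
  have ext' : ∀ x y : Cfsg.SU 3 F 3,
      (x.1 : Matrix (Fin 3) (Fin 3) F) = (y.1 : Matrix (Fin 3) (Fin 3) F) → x = y :=
    fun x y h => Subtype.ext (Subtype.ext h)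
  have ra : a ^ 2 = 1 := by
    rw [pow_two]; exact ext' _ _ (uA_mul_uA j hj h3)
  have rb : b ^ 3 = 1 := by
    rw [pow_succ, pow_two]
    apply ext'
    show uB j * uB j * uB j = 1
    rw [uB_mul_uB j hj h3, uB2_mul_uB j hj h3]
  have rc : (a * b) ^ 7 = 1 := by
    have e : (a * b) ^ 7 = (a * b) * (a * b) * ((a * b) * (a * b)) * ((a * b) * (a * b)) * (a * b) := by
      simp only [pow_succ, pow_zero, one_mul, mul_assoc]
    rw [e]
    apply ext'
    show uA j * uB j * (uA j * uB j) * (uA j * uB j * (uA j * uB j)) * (uA j * uB j * (uA j * uB j))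
      * (uA j * uB j) = 1
    rw [uA_mul_uB j hj h3, uC_mul_uC j hj h3, uC2_mul_uC2 j hj h3, uC4_mul_uC2 j hj h3,
      uC6_mul_uC j hj h3]
  have rd : (a * b * a * b * b) ^ 4 = 1 := by
    have e : (a * b * a * b * b) ^ 4 = ((a * b) * (a * b) * b) * ((a * b) * (a * b) * b) *
        (((a * b) * (a * b) * b) * ((a * b) * (a * b) * b)) := by
      simp only [pow_succ, pow_zero, one_mul, mul_assoc]
    rw [e]
    apply ext'
    show uA j * uB j * (uA j * uB j) * uB j * (uA j * uB j * (uA j * uB j) * uB j) *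
      (uA j * uB j * (uA j * uB j) * uB j * (uA j * uB j * (uA j * uB j) * uB j)) = 1
    rw [uA_mul_uB j hj h3, uC_mul_uC j hj h3, uC2_mul_uB j hj h3, uD_mul_uD j hj h3,
      uD2_mul_uD2 j hj h3]
  have hnc : a * b ≠ b * a := by
    intro h
    have h1 := congrArg (fun x : Cfsg.SU 3 F 3 => (x.1 : Matrix (Fin 3) (Fin 3) F) 0 0) h
    have h2 : (uA j * uB j) 0 0 = (uB j * uA j) 0 0 := h1
    simp [uA, uB, Matrix.mul_apply, Fin.sum_univ_three] at h2
    have h4 : (1 : F) = 0 := by linear_combination h3 + h2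
    exact one_ne_zero h4
  let π : Cfsg.SU 3 F 3 →* Cfsg.PSU 3 F 3 := QuotientGroup.mk' _
  apply exists_psl27_subgroup (π a) (π b) _ _ _ _ _ hK
  · rw [← map_pow, ra, map_one]
  · rw [← map_pow, rb, map_one]
  · rw [← map_mul, ← map_pow, rc, map_one]
  · simp only [← map_mul, ← map_pow]
    rw [rd, map_one]
  · intro h
    apply hnc
    have := (QuotientGroup.eq_one_iff a).mp h
    exact ((Subgroup.mem_center_iff.mp this) b).symm

end Cfsg.Agent.S1897
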