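import Cfsg.Statements.S1899
-- import your own Cfsg.Agent.* helpers here

set_option autoImplicit false
open Cfsg

namespace Cfsg.Agent.S1899

/-- Let a dihedral group of order 2n, n odd and n > 1, act on a finite abelian 2-group A through automorphisms d and t with d^n = 1, t² = 1 and t d t⁻¹ = d⁻¹, and suppose that d fixes only the identity. Then A is the internal direct product of C_A(t) and its image under d. -/
theorem result {A : Type*} [CommGroup A] [Finite A] (hA : IsPGroup 2 A)
    {n : ℕ} (hn : Odd n) (hn1 : 1 < n) (d t : MulAut A) (hd : d ^ n = 1) (ht : t ^ 2 = 1) (hdt : t * d * t⁻¹ = d⁻¹)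
    (hfix : ∀ a : A, d a = a → a = 1) :
    (MulEquiv.toMonoidHom t).eqLocus (MonoidHom.id A) ⊓ ((MulEquiv.toMonoidHom t).eqLocus (MonoidHom.id A)).map d.toMonoidHom = ⊥ ∧
      (MulEquiv.toMonoidHom t).eqLocus (MonoidHom.id A) ⊔ ((MulEquiv.toMonoidHom t).eqLocus (MonoidHom.id A)).map d.toMonoidHom = ⊤ := by
  have htd : ∀ x, t (d x) = d⁻¹ (t x) := by
    intro x
    have h : t * d = d⁻¹ * t := by
      calc t * d = (t * d * t⁻¹) * t := by group
        _ = d⁻¹ * t := by rw [hdt]
    have := congrArg (fun f : MulAut A => f x) h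
    simpa [MulAut.mul_apply] using this
  have hdt' : ∀ x, d (t x) = t (d⁻¹ x) := by
    intro x
    have h : d * t = t * d⁻¹ := by
      calc d * t = (t * d * t⁻¹)⁻¹ * t := by rw [hdt]; group
        _ = t * d⁻¹ := by group
    have := congrArg (fun f : MulAut A => f x) h
    simpa [MulAut.mul_apply] using this
  have htt : ∀ x, t (t x) = x := by
    intro x
    have := congrArg (fun f : MulAut A => f x) ht
    simpa [pow_two, MulAut.mul_apply] using this
  have hfix2 : ∀ b, d (d b) = b → b = 1 := by
    intro b hb
    apply hfix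
    obtain ⟨m, hm⟩ := hn
    have h1 : d = (d ^ 2) ^ (m + 1) := by
      rw [← pow_mul]
      have : 2 * (m + 1) = n + 1 := by omega
      rw [this, pow_succ, hd, one_mul]
    have hpow : ∀ k : ℕ, ((d ^ 2) ^ k) b = b := by
      intro k
      induction k with
      | zero => simp
      | succ k ih =>
        have h2 : (d ^ 2) b = b := by rw [pow_two, MulAut.mul_apply, hb]
        rw [pow_succ, MulAut.mul_apply, h2, ih]
    rw [h1]; exact hpow (m + 1)
  constructor
  · rw [eq_bot_iff]
    rintro a ⟨ha, b, hb, rfl⟩
    have ha' : t (d b) = d b := ha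
    have hb' : t b = b := hb
    rw [htd, hb'] at ha'
    have h2 : d (d b) = b := by
      rw [← ha']; simp
    have := hfix2 b h2
    rw [this]; simp
  · rw [eq_top_iff]
    intro a _
    let f : A →* A :=
      { toFun := fun x => x * (d (d x))⁻¹
        map_one' := by simp
        map_mul' := by
          intro x y
          simp only [map_mul, mul_inv]
          exact mul_mul_mul_comm _ _ _ _ }
    have hinj : Function.Injective f := by
      rw [injective_iff_map_eq_one]
      intro x hx
      apply hfix2
      have hx' : x * (d (d x))⁻¹ = 1 := hx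
      exact (mul_inv_eq_one.mp hx').symm
    obtain ⟨x, hx⟩ := (Finite.injective_iff_surjective.mp hinj) a
    have hx' : x * (d (d x))⁻¹ = a := hx
    have hu : x * t x ∈ (MulEquiv.toMonoidHom t).eqLocus (MonoidHom.id A) := by
      show t (x * t x) = x * t x
      rw [map_mul, htt, mul_comm]
    have hv : d x * t (d x) ∈ (MulEquiv.toMonoidHom t).eqLocus (MonoidHom.id A) := by
      show t (d x * t (d x)) = d x * t (d x)
      rw [map_mul, htt, mul_comm]
    have hdv : d (d x * t (d x)) = d (d x) * t x := by
      rw [map_mul, hdt']; simp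
    have e : a = (x * t x) * (d (d x * t (d x)))⁻¹ := by
      rw [hdv, ← hx', mul_inv]
      calc x * (d (d x))⁻¹ = x * (t x * (t x)⁻¹) * (d (d x))⁻¹ := by simp
        _ = x * t x * ((d (d x))⁻¹ * (t x)⁻¹) := by
          simp only [mul_assoc]
          congr 2
          exact mul_comm _ _
    rw [e]
    exact mul_mem (Subgroup.mem_sup_left hu) (inv_mem (Subgroup.mem_sup_right ⟨_, hv, rfl⟩))

end Cfsg.Agent.S1899
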