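import Cfsg.Statements.S1900
import Cfsg.Agent.Lib.Helper22.TwoFix
import Cfsg.Agent.S0058
-- import your own Cfsg.Agent.* helpers here

set_option autoImplicit false
open Cfsg

namespace Cfsg.Agent.S1900

/-- Let S = PQ be a finite group with P a normal Sylow p-subgroup and Q elementary abelian of order q², q a prime different from p. If exactly two subgroups X₁, X₂ of order q in Q have a nontrivial centralizer in P, then P is the internal direct product of C_P(X₁) and C_P(X₂): they commute elementwise, meet trivially and generate P. -/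
theorem result {S : Type*} [Group S] [Finite S] {p q : ℕ} [Fact p.Prime] [Fact q.Prime] (hpq : p ≠ q)
    (P : Sylow p S) [(P : Subgroup S).Normal] (Q : Subgroup S) (hQ : Cfsg.IsElementaryAbelian q Q) (hQc : Nat.card Q = q ^ 2)
    (hS : (P : Subgroup S) ⊔ Q = ⊤)
    (X₁ X₂ : Subgroup S) (h₁ : X₁ ≤ Q) (h₂ : X₂ ≤ Q) (h₁₂ : X₁ ≠ X₂) (hc₁ : Nat.card X₁ = q) (hc₂ : Nat.card X₂ = q)
    (hf₁ : (P : Subgroup S) ⊓ Subgroup.centralizer (X₁ : Set S) ≠ ⊥)
    (hf₂ : (P : Subgroup S) ⊓ Subgroup.centralizer (X₂ : Set S) ≠ ⊥)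
    (honly : ∀ X : Subgroup S, X ≤ Q → Nat.card X = q →
      (P : Subgroup S) ⊓ Subgroup.centralizer (X : Set S) ≠ ⊥ → X = X₁ ∨ X = X₂) :
    ⁅(P : Subgroup S) ⊓ Subgroup.centralizer (X₁ : Set S), (P : Subgroup S) ⊓ Subgroup.centralizer (X₂ : Set S)⁆ = ⊥ ∧
      ((P : Subgroup S) ⊓ Subgroup.centralizer (X₁ : Set S)) ⊓ ((P : Subgroup S) ⊓ Subgroup.centralizer (X₂ : Set S)) = ⊥ ∧
      ((P : Subgroup S) ⊓ Subgroup.centralizer (X₁ : Set S)) ⊔ ((P : Subgroup S) ⊓ Subgroup.centralizer (X₂ : Set S)) = P := by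
  classical
  have hp : p.Prime := Fact.out
  have hq : q.Prime := Fact.out
  haveI hQcomm : IsMulCommutative Q := hQ.1
  have hQexp := hQ.2
  have hcommQ : ∀ x ∈ Q, ∀ y ∈ Q, x * y = y * x := by
    intro x hx y hy
    exact congrArg Subtype.val (hQcomm.is_comm.comm ⟨x, hx⟩ ⟨y, hy⟩)
  -- generators
  have hgenX : ∀ X : Subgroup S, Nat.card X = q → ∃ x : S, X = Subgroup.zpowers x := by
    intro X hX
    haveI : IsCyclic X := isCyclic_of_prime_card hX
    obtain ⟨g, hg⟩ := IsCyclic.exists_generator (α := X)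
    refine ⟨g, le_antisymm ?_ (Subgroup.zpowers_le.mpr g.2)⟩
    intro y hy
    obtain ⟨k, hk⟩ := Subgroup.mem_zpowers_iff.mp (hg ⟨y, hy⟩)
    rw [Subgroup.mem_zpowers_iff]
    exact ⟨k, by have := congrArg Subtype.val hk; simpa using this⟩
  obtain ⟨x₁, hx₁⟩ := hgenX X₁ hc₁
  obtain ⟨x₂, hx₂⟩ := hgenX X₂ hc₂
  have hx₁Q : x₁ ∈ Q := h₁ (hx₁ ▸ Subgroup.mem_zpowers x₁)
  have hx₂Q : x₂ ∈ Q := h₂ (hx₂ ▸ Subgroup.mem_zpowers x₂)
  have hcen : ∀ x : S, Subgroup.centralizer ((Subgroup.zpowers x : Subgroup S) : Set S)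
      = Subgroup.centralizer {x} := by
    intro x
    rw [Subgroup.zpowers_eq_closure, Subgroup.centralizer_closure]
  have hC₁ : Subgroup.centralizer (X₁ : Set S) = Subgroup.centralizer {x₁} := by rw [hx₁, hcen]
  have hC₂ : Subgroup.centralizer (X₂ : Set S) = Subgroup.centralizer {x₂} := by rw [hx₂, hcen]
  -- nonidentity elements of Q generate subgroups of order q
  have hcardz : ∀ x ∈ Q, x ≠ 1 → Nat.card (Subgroup.zpowers x) = q := by
    intro x hx hx1
    rw [Nat.card_zpowers]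
    exact orderOf_eq_prime (hQexp x hx) hx1
  have honly' : ∀ x ∈ Q, x ≠ 1 → ∀ y ∈ (P : Subgroup S), y ≠ 1 → x * y = y * x →
      Subgroup.zpowers x = X₁ ∨ Subgroup.zpowers x = X₂ := by
    intro x hx hx1 y hy hy1 hxy
    apply honly _ (Subgroup.zpowers_le.mpr hx) (hcardz x hx hx1)
    intro hbot
    apply hy1
    have : y ∈ (P : Subgroup S) ⊓ Subgroup.centralizer ((Subgroup.zpowers x : Subgroup S) : Set S) := by
      rw [hcen]
      exact ⟨hy, Subgroup.mem_centralizer_singleton_iff.mpr hxy.symm⟩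
    rw [hbot, Subgroup.mem_bot] at this
    exact this
  have hPp : IsPGroup p (P : Subgroup S) := P.isPGroup'
  have hcopQP : (Nat.card Q).Coprime (Nat.card (P : Subgroup S)) := by
    obtain ⟨k, hk⟩ := IsPGroup.iff_card.mp hPp
    rw [hQc, hk]
    exact Nat.Coprime.pow _ _ ((Nat.coprime_primes hq hp).mpr hpq.symm)
  have hx12 : Commute x₁ x₂ := hcommQ x₁ hx₁Q x₂ hx₂Q
  have hx₂not : x₂ ∉ X₁ := by
    intro h
    apply h₁₂
    have hle : X₂ ≤ X₁ := by rw [hx₂]; exact Subgroup.zpowers_le.mpr h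
    exact (Subgroup.eq_of_le_of_card_ge hle (by rw [hc₁, hc₂])).symm
  have hx₁not : x₁ ∉ X₂ := by
    intro h
    apply h₁₂
    have hle : X₁ ≤ X₂ := by rw [hx₁]; exact Subgroup.zpowers_le.mpr h
    exact Subgroup.eq_of_le_of_card_ge hle (by rw [hc₁, hc₂])
  have hfix : ∀ y ∈ (P : Subgroup S), Commute x₁ y → Commute x₂ y → y = 1 := by
    intro y hy h1 h2
    by_contra hy1
    have h3 : (x₁ * x₂) * y = y * (x₁ * x₂) := (h1.mul_left h2).eq
    have hne : x₁ * x₂ ≠ 1 := by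
      intro h
      apply hx₂not
      have : x₂ = x₁⁻¹ := (inv_eq_of_mul_eq_one_right h).symm
      rw [this, hx₁]; exact Subgroup.inv_mem _ (Subgroup.mem_zpowers x₁)
    rcases honly' _ (Q.mul_mem hx₁Q hx₂Q) hne y hy hy1 h3 with h | h
    · apply hx₂not
      have h4 : x₁ * x₂ ∈ X₁ := h ▸ Subgroup.mem_zpowers _
      have h5 : x₁ ∈ X₁ := hx₁ ▸ Subgroup.mem_zpowers x₁
      have := X₁.mul_mem (X₁.inv_mem h5) h4
      simpa using this
    · apply hx₁not
      have h4 : x₁ * x₂ ∈ X₂ := h ▸ Subgroup.mem_zpowers _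
      have h5 : x₂ ∈ X₂ := hx₂ ▸ Subgroup.mem_zpowers x₂
      have := X₂.mul_mem h4 (X₂.inv_mem h5)
      simpa using this
  have hQnc : ¬ IsCyclic Q := by
    intro hc
    obtain ⟨g, hg⟩ := IsCyclic.exists_generator (α := Q)
    have h1 : orderOf g = Nat.card Q := orderOf_eq_card_of_forall_mem_zpowers hg
    have h2 : g ^ q = 1 := Subtype.ext (by simpa using hQexp g g.2)
    have h3 := orderOf_dvd_of_pow_eq_one h2
    rw [h1, hQc] at h3
    have h4 := Nat.le_of_dvd hq.pos h3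
    have := hq.one_lt
    nlinarith
  have hgen : ∀ R : Subgroup S, R.Normal → R ≤ (P : Subgroup S) →
      R ≤ (R ⊓ Subgroup.centralizer {x₁}) ⊔ (R ⊓ Subgroup.centralizer {x₂}) := by
    intro R hRn hRP
    have h1 := Cfsg.Agent.S0058.result Q R hQnc (by rw [Subgroup.normalizer_eq_top]; exact le_top)
      (Nat.Coprime.coprime_dvd_right (Subgroup.card_dvd_of_le hRP) hcopQP)
    conv_lhs => rw [← h1]
    apply iSup₂_le
    rintro a ⟨haQ, ha1⟩
    intro y hy
    by_cases hy1 : y = 1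
    · rw [hy1]; exact Subgroup.one_mem _
    have hya : a * y = y * a := (Subgroup.mem_centralizer_singleton_iff.mp hy.2).symm
    rcases honly' a haQ ha1 y (hRP hy.1) hy1 hya with h | h
    · apply Subgroup.mem_sup_left
      refine ⟨hy.1, ?_⟩
      rw [← hC₁, ← h, hcen]; exact hy.2
    · apply Subgroup.mem_sup_right
      refine ⟨hy.1, ?_⟩
      rw [← hC₂, ← h, hcen]; exact hy.2
  have hcop : (Nat.card (Subgroup.closure ({x₁, x₂} : Set S))).Coprime (Nat.card (P : Subgroup S)) := by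
    apply Nat.Coprime.coprime_dvd_left (Subgroup.card_dvd_of_le ?_) hcopQP
    rw [Subgroup.closure_le]
    rintro t (rfl | rfl)
    · exact hx₁Q
    · exact hx₂Q
  have hmain := Cfsg.Agent.Lib.Helper22.twoFix_aux p _ (P : Subgroup S) x₁ x₂ rfl hPp hx12 hcop hgen hfix
  rw [hC₁, hC₂]
  refine ⟨?_, ?_, ?_⟩
  · rw [Subgroup.commutator_eq_bot_iff_le_centralizer]
    intro a ha
    rw [Subgroup.mem_centralizer_iff]
    intro b hb
    exact (hmain a ha.1 b hb.1 (Subgroup.mem_centralizer_singleton_iff.mp ha.2).symm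
      (Subgroup.mem_centralizer_singleton_iff.mp hb.2).symm).eq.symm
  · rw [eq_bot_iff]
    rintro y ⟨⟨hy, h1⟩, ⟨_, h2⟩⟩
    rw [Subgroup.mem_bot]
    exact hfix y hy (Subgroup.mem_centralizer_singleton_iff.mp h1).symm
      (Subgroup.mem_centralizer_singleton_iff.mp h2).symm
  · exact le_antisymm (sup_le inf_le_left inf_le_left) (hgen _ inferInstance le_rfl)

end Cfsg.Agent.S1900
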