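import Mathlib
import Cfsg.Statements.S1901
import Cfsg.Agent.H9.PSolv2

set_option autoImplicit false
open Cfsg
open scoped commutatorElement

namespace Cfsg.Agent.S1901

/-- Let G be a finite p-solvable group and Q a subgroup of order prime to p such that p divides the index of C_G(Q) in N_G(Q). Then Q normalizes no Sylow p-subgroup of G. -/
theorem result {G : Type*} [Group G] [Finite G] {p : ℕ} [Fact p.Prime]
    (hG : Cfsg.IsPSolvable p G) (Q : Subgroup G) (hQ : ¬ p ∣ Nat.card Q)
    (hA : p ∣ (Subgroup.centralizer (Q : Set G)).relIndex (Subgroup.normalizer (Q : Set G)))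
    (P : Sylow p G) : ¬ Q ≤ Subgroup.normalizer ((P : Subgroup G) : Set G) := by
  intro hQP
  have key := Cfsg.H9.pElement_centralizes_aux p (Nat.card G) G le_rfl hG Q hQ P hQP
  obtain ⟨T⟩ := (inferInstance : Nonempty (Sylow p ↥(Subgroup.normalizer (Q : Set G))))
  have hT : (T : Subgroup ↥(Subgroup.normalizer (Q : Set G))) ≤
      (Subgroup.centralizer (Q : Set G)).subgroupOf (Subgroup.normalizer (Q : Set G)) := by
    intro t ht
    rw [Subgroup.mem_subgroupOf]
    apply key t t.2
    obtain ⟨k, hk⟩ := T.2 ⟨t, ht⟩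
    refine ⟨k, ?_⟩
    have h2 := congrArg (fun z : (T : Subgroup ↥(Subgroup.normalizer (Q : Set G))) =>
      ((z : ↥(Subgroup.normalizer (Q : Set G))) : G)) hk
    simpa only [Subgroup.coe_pow, Subgroup.coe_one] using h2
  exact T.not_dvd_index (hA.trans (Subgroup.index_dvd_of_le hT))

end Cfsg.Agent.S1901
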