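import Mathlib
import Cfsg.Statements.S1902
import Cfsg.Agent.S1302
import Cfsg.Agent.H9.PSolv

set_option autoImplicit false
open Cfsg
open scoped commutatorElement

namespace Cfsg.Agent.S1902

/-- Let p be an odd prime, G a finite p-solvable group, and B an elementary abelian subgroup of order p² such that B is the subgroup generated by the elements of order p of some Sylow p-subgroup of C_G(b₀), for some nontrivial b₀ ∈ B. Then every B-invariant subgroup of G of order prime to p lies in O_{p'}(G). -/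
theorem result {G : Type*} [Group G] [Finite G] {p : ℕ} [Fact p.Prime] (hp : p ≠ 2)
    (hG : Cfsg.IsPSolvable p G) (B : Subgroup G) (hB : Cfsg.IsElementaryAbelian p B) (hBc : Nat.card B = p ^ 2)
    (b₀ : G) (hb₀ : b₀ ∈ B) (hb₁ : b₀ ≠ 1) (P : Sylow p ↥(Subgroup.centralizer ({b₀} : Set G)))
    (hBP : B = Subgroup.closure {x : G | x ∈ ((P : Subgroup ↥(Subgroup.centralizer ({b₀} : Set G))).map
      (Subgroup.centralizer ({b₀} : Set G)).subtype : Subgroup G) ∧ orderOf x = p})
    (Q : Subgroup G) (hQ : ¬ p ∣ Nat.card Q) (hinv : ∀ b ∈ B, ∀ x ∈ Q, b * x * b⁻¹ ∈ Q) :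
    Q ≤ Cfsg.pPrimeCore p G := by
  classical
  have hpp : p.Prime := Fact.out
  have hcons := Cfsg.H9.isPConstrained_of_isPSolvable hG
  have hBp : IsPGroup p B := by
    rintro ⟨b, hb⟩
    exact ⟨1, Subtype.ext (by simpa using hB.2 b hb)⟩
  refine Cfsg.Agent.S1302.result p hp hcons B hB.1 hBp ?_ Q hQ ?_
  · intro x hxB hxo
    obtain ⟨C, hC⟩ : ∃ C, C = Subgroup.centralizer ({b₀} : Set G) := ⟨_, rfl⟩
    subst hC
    have hBcomm : ∀ a ∈ B, ∀ b ∈ B, a * b = b * a := by
      intro a ha b hb
      exact congrArg Subtype.val (hB.1.is_comm.comm ⟨a, ha⟩ ⟨b, hb⟩)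
    have hBC : B ≤ Subgroup.centralizer ({b₀} : Set G) := fun b hb =>
      Subgroup.mem_centralizer_singleton_iff.mpr (hBcomm b hb b₀ hb₀)
    have hxC : x ∈ Subgroup.centralizer ({b₀} : Set G) :=
      Subgroup.mem_centralizer_singleton_iff.mpr
        (Subgroup.mem_centralizer_iff.mp hxB b₀ hb₀).symm
    have hxp : IsPGroup p (Subgroup.zpowers x) := by
      apply IsPGroup.of_card (n := 1)
      rw [Nat.card_zpowers, hxo, pow_one]
    have hxN : Subgroup.zpowers x ≤ Subgroup.normalizer (B : Set G) := by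
      rw [Subgroup.zpowers_le]
      exact Subgroup.centralizer_le_normalizer _ hxB
    have hEp : IsPGroup p (B ⊔ Subgroup.zpowers x : Subgroup G) :=
      hBp.to_sup_of_normal_left' hxp hxN
    have hEC : B ⊔ Subgroup.zpowers x ≤ Subgroup.centralizer ({b₀} : Set G) :=
      sup_le hBC (by rw [Subgroup.zpowers_le]; exact hxC)
    obtain ⟨P₂, hP₂⟩ := (hEp.comap_subtype
      (K := Subgroup.centralizer ({b₀} : Set G))).exists_le_sylow
    obtain ⟨c, hc⟩ := MulAction.exists_smul_eq (↥(Subgroup.centralizer ({b₀} : Set G))) P P₂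
    -- elements of order `p` of `E` are conjugated into `B`
    have hconj : ∀ y ∈ (B ⊔ Subgroup.zpowers x : Subgroup G), orderOf y = p →
        (c : G)⁻¹ * y * c ∈ B := by
      intro y hy hyo
      have h1 : (⟨y, hEC hy⟩ : ↥(Subgroup.centralizer ({b₀} : Set G))) ∈
          (P₂ : Subgroup ↥(Subgroup.centralizer ({b₀} : Set G))) := hP₂ hy
      rw [← hc, Sylow.coe_subgroup_smul, Subgroup.mem_pointwise_smul_iff_inv_smul_mem] at h1
      have h2 : (c⁻¹ * ⟨y, hEC hy⟩ * c : ↥(Subgroup.centralizer ({b₀} : Set G))) ∈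
          (P : Subgroup ↥(Subgroup.centralizer ({b₀} : Set G))) := by
        simpa [MulAut.smul_def] using h1
      rw [hBP]
      apply Subgroup.subset_closure
      refine ⟨⟨_, h2, rfl⟩, ?_⟩
      have hs : SemiconjBy ((c : G)⁻¹) y ((c : G)⁻¹ * y * c) := by
        unfold SemiconjBy
        group
      rw [← hs.orderOf_eq]
      exact hyo
    have hord : ∀ b ∈ B, b ≠ 1 → orderOf b = p := fun b hb hb1 =>
      orderOf_eq_prime (hB.2 b hb) hb1
    have hmapB : ∀ b ∈ B, (c : G)⁻¹ * b * c ∈ B := by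
      intro b hb
      by_cases hb1 : b = 1
      · rw [hb1]; simp
      · exact hconj b (Subgroup.mem_sup_left hb) (hord b hb hb1)
    let f : B → B := fun b => ⟨(c : G)⁻¹ * b * c, hmapB b b.2⟩
    have hfinj : Function.Injective f := by
      intro a b hab
      have h1 : (c : G)⁻¹ * a * c = (c : G)⁻¹ * b * c := congrArg Subtype.val hab
      apply Subtype.ext
      exact mul_left_cancel (mul_right_cancel h1)
    have hfsurj : Function.Surjective f := Finite.surjective_of_injective hfinj
    have hx' : (c : G)⁻¹ * x * c ∈ B :=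
      hconj x (Subgroup.mem_sup_right (Subgroup.mem_zpowers x)) hxo
    obtain ⟨b, hb⟩ := hfsurj ⟨_, hx'⟩
    have h1 : (c : G)⁻¹ * b * c = (c : G)⁻¹ * x * c := congrArg Subtype.val hb
    have h2 : (b : G) = x := mul_left_cancel (mul_right_cancel h1)
    rw [← h2]
    exact b.2
  · rw [Subgroup.le_normalizer_iff]
    exact hinv

end Cfsg.Agent.S1902
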