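import Mathlib
import Cfsg.Statements.S1905
import Cfsg.Agent.H9.StrEmb

set_option autoImplicit false
open Cfsg
open scoped commutatorElement

namespace Cfsg.Agent.S1905

/-- Let M be a subgroup of even order of a finite group S such that M contains the centralizer in S of each of its involutions and the normal core of M in S has odd order. Then all involutions of S are conjugate. If moreover N_S(X) ≤ M for a Sylow 2-subgroup X of M and I is an involution in the centre of X, then all involutions of M are conjugate in M and M = M₀ C_M(I) for some subgroup M₀ of M of odd order. -/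
theorem result {S : Type*} [Group S] [Finite S] (M : Subgroup S) (hM : Even (Nat.card M))
    (hC : ∀ i ∈ M, orderOf i = 2 → Subgroup.centralizer ({i} : Set S) ≤ M) (hcore : Odd (Nat.card M.normalCore)) :
    (∀ x y : S, orderOf x = 2 → orderOf y = 2 → IsConj x y) ∧
      ∀ (X : Sylow 2 M) (I : M), I ∈ (Subgroup.center ↥(X : Subgroup ↥M)).map (X : Subgroup ↥M).subtype → orderOf I = 2 →
        Subgroup.normalizer (((X : Subgroup M).map M.subtype : Subgroup S) : Set S) ≤ M →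
        (∀ x y : M, orderOf x = 2 → orderOf y = 2 → IsConj x y) ∧
          ∃ M₀ : Subgroup M, Odd (Nat.card M₀) ∧
            ∀ m : M, ∃ a ∈ M₀, ∃ c ∈ Subgroup.centralizer ({I} : Set M), m = a * c := by
  classical
  obtain ⟨u, hu2, huM⟩ := Cfsg.H9.SE.exists_invol_not_mem hM hcore
  obtain ⟨i₀, hi₀M, hi₀2⟩ := Cfsg.H9.SE.exists_invol_mem hM
  have hA : ∀ i ∈ M, orderOf i = 2 → ∀ j, j ∉ M → orderOf j = 2 →
      ∃ w : S, w * i * w⁻¹ = j ∧ w * j * w⁻¹ = i :=
    fun i hi hi2 j hj hj2 => Cfsg.H9.SE.swap_of_not_mem hC hi hi2 hj2 hj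
  have hconj_u : ∀ x : S, orderOf x = 2 → IsConj x u := by
    intro x hx
    by_cases hxM : x ∈ M
    · obtain ⟨w, hw, _⟩ := hA x hxM hx u huM hu2
      exact isConj_iff.mpr ⟨w, hw⟩
    · obtain ⟨w, hw, hw'⟩ := hA i₀ hi₀M hi₀2 x hxM hx
      obtain ⟨w2, hw2, _⟩ := hA i₀ hi₀M hi₀2 u huM hu2
      exact (isConj_iff.mpr ⟨w, hw'⟩).trans (isConj_iff.mpr ⟨w2, hw2⟩)
  have part1 : ∀ x y : S, orderOf x = 2 → orderOf y = 2 → IsConj x y :=
    fun x y hx hy => (hconj_u x hx).trans (hconj_u y hy).symm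
  refine ⟨part1, ?_⟩
  intro X I hI hI2 hN
  have hX : Cfsg.Agent.Lib.Helper16.IsSyl 2 ((X : Subgroup M).map M.subtype) M :=
    Cfsg.Agent.Lib.Helper16.isSyl_mk X
  have hE : ∀ g y : S, orderOf y = 2 → y ∈ M → g⁻¹ * y * g ∈ M → g ∈ M :=
    fun g y hy2 hyM hyg => Cfsg.H9.SE.mem_of_invol hC hX hN hy2 hyM hyg
  have hI2' : orderOf (I : S) = 2 := by rw [Subgroup.orderOf_coe, hI2]
  constructor
  · intro x y hx hy
    have hx' : orderOf (x : S) = 2 := by rw [Subgroup.orderOf_coe, hx]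
    have hy' : orderOf (y : S) = 2 := by rw [Subgroup.orderOf_coe, hy]
    obtain ⟨g, hg⟩ := isConj_iff.mp (part1 (x : S) (y : S) hx' hy')
    have hgM : g ∈ M := by
      apply hE g y hy' y.2
      rw [← hg]
      have : g⁻¹ * (g * (x : S) * g⁻¹) * g = x := by group
      rw [this]
      exact x.2
    exact isConj_iff.mpr ⟨⟨g, hgM⟩, Subtype.ext hg⟩
  · obtain ⟨h, hh⟩ := isConj_iff.mp (hconj_u (I : S) hI2')
    have hh' : h⁻¹ * u * h = (I : S) := by rw [← hh]; group
    refine ⟨(M ⊓ M.map (MulAut.conj h).toMonoidHom).subgroupOf M, ?_, ?_⟩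
    · by_contra hodd
      rw [Nat.not_odd_iff_even] at hodd
      obtain ⟨y, hy, hy2⟩ := Cfsg.H9.SE.exists_invol_mem hodd
      rw [Subgroup.mem_subgroupOf, Subgroup.mem_inf, Cfsg.Agent.Lib.Helper16.mem_cj] at hy
      have hy2' : orderOf (y : S) = 2 := by rw [Subgroup.orderOf_coe, hy2]
      have hhM := hE h y hy2' hy.1 hy.2
      apply huM
      rw [← hh]
      exact M.mul_mem (M.mul_mem hhM I.2) (M.inv_mem hhM)
    · intro m
      have ht2M : (m : S) * I * (m : S)⁻¹ ∈ M := (m * I * m⁻¹).2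
      have ht2 : orderOf ((m : S) * I * (m : S)⁻¹) = 2 := by
        have : (m : S) * I * (m : S)⁻¹ = MulAut.conj (m : S) (I : S) := by simp
        rw [this, MulEquiv.orderOf_eq, hI2']
      obtain ⟨w₁, hw₁, hw₁'⟩ := hA I I.2 hI2' u huM hu2
      obtain ⟨w₂, hw₂, hw₂'⟩ := hA _ ht2M ht2 u huM hu2
      have ha : (w₂ * w₁) * (I : S) * (w₂ * w₁)⁻¹ = (m : S) * I * (m : S)⁻¹ := by
        rw [← hw₂', ← hw₁]; group
      have haM : w₂ * w₁ ∈ M := by
        apply hE _ _ ht2 ht2M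
        rw [← ha]
        have : (w₂ * w₁)⁻¹ * (w₂ * w₁ * (I : S) * (w₂ * w₁)⁻¹) * (w₂ * w₁) = I := by group
        rw [this]
        exact I.2
      have h1 : w₁ * h ∈ M := by
        apply hE _ _ hI2' I.2
        have : (w₁ * h)⁻¹ * (I : S) * (w₁ * h) = I := by
          calc (w₁ * h)⁻¹ * (I : S) * (w₁ * h) = h⁻¹ * (w₁⁻¹ * (I : S) * w₁) * h := by group
            _ = h⁻¹ * (w₁⁻¹ * (w₁ * u * w₁⁻¹) * w₁) * h := by rw [hw₁']
            _ = h⁻¹ * u * h := by group
            _ = I := hh'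
        rw [this]
        exact I.2
      have h2 : w₂⁻¹ * h ∈ M := by
        apply hE _ _ ht2 ht2M
        have : (w₂⁻¹ * h)⁻¹ * ((m : S) * I * (m : S)⁻¹) * (w₂⁻¹ * h) = I := by
          calc (w₂⁻¹ * h)⁻¹ * ((m : S) * I * (m : S)⁻¹) * (w₂⁻¹ * h)
              = h⁻¹ * (w₂ * ((m : S) * I * (m : S)⁻¹) * w₂⁻¹) * h := by group
            _ = I := by rw [hw₂, hh']
        rw [this]
        exact I.2
      have haMh : h⁻¹ * (w₂ * w₁) * h ∈ M := by
        have := M.mul_mem (M.inv_mem h2) h1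
        have e : (w₂⁻¹ * h)⁻¹ * (w₁ * h) = h⁻¹ * (w₂ * w₁) * h := by group
        rwa [e] at this
      refine ⟨⟨w₂ * w₁, haM⟩, ?_, (⟨w₂ * w₁, haM⟩ : M)⁻¹ * m, ?_, by group⟩
      · rw [Subgroup.mem_subgroupOf, Subgroup.mem_inf, Cfsg.Agent.Lib.Helper16.mem_cj]
        exact ⟨haM, haMh⟩
      · rw [Subgroup.mem_centralizer_singleton_iff]
        apply Subtype.ext
        simp only [Subgroup.coe_mul, Subgroup.coe_inv]
        calc (w₂ * w₁)⁻¹ * (m : S) * I = (w₂ * w₁)⁻¹ * ((m : S) * I * (m : S)⁻¹) * m := by group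
          _ = I * ((w₂ * w₁)⁻¹ * m) := by rw [← ha]; group

end Cfsg.Agent.S1905
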