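import Cfsg.Statements.S1939
import Cfsg.Agent.H12.Basic

set_option autoImplicit false
open Cfsg
open Cfsg.Agent.H12

namespace Cfsg.Agent.S1939

/-- Let S be a Sylow p-subgroup of the finite group G and a an element of S that is the only G-conjugate of a lying in S. Then every power of a has the same property: for every n, the only G-conjugate of a^n lying in S is a^n. -/
theorem result {G : Type*} [Group G] [Finite G] {p : ℕ} [Fact p.Prime] (S : Sylow p G) (a : G)
    (haS : a ∈ (S : Subgroup G)) (hwc : ∀ g : G, g * a * g⁻¹ ∈ (S : Subgroup G) → g * a * g⁻¹ = a) (n : ℕ) :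
    ∀ g : G, g * a ^ n * g⁻¹ ∈ (S : Subgroup G) → g * a ^ n * g⁻¹ = a ^ n := by
  intro g hg
  have hb'a' : g * a ^ n * g⁻¹ = (g * a * g⁻¹) ^ n := by rw [conj_pow]
  set b' := g * a ^ n * g⁻¹ with hb'
  set a' := g * a * g⁻¹ with ha'
  have hacen : ∀ s ∈ (S : Subgroup G), s * a * s⁻¹ = a :=
    fun s hs => hwc s (mul_mem (mul_mem hs haS) (inv_mem hs))
  have haC : a ∈ Subgroup.centralizer ({b'} : Set G) := by
    rw [Subgroup.mem_centralizer_singleton_iff]
    have := hacen b' hg
    calc a * b' = (b' * a * b'⁻¹) * b' := by rw [this]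
      _ = b' * a := by group
  have ha'C : a' ∈ Subgroup.centralizer ({b'} : Set G) := by
    rw [Subgroup.mem_centralizer_singleton_iff, hb'a']
    rw [← pow_succ', ← pow_succ]
  have hpa : IsPGroup p (Subgroup.zpowers a) := S.2.to_le (by simpa using haS)
  have hpa' : IsPGroup p (Subgroup.zpowers a') := by
    have := isPGroup_map_conj hpa g
    refine this.to_le ?_
    rw [Subgroup.zpowers_le]
    exact conj_mem_map_conj (Subgroup.mem_zpowers a)
  obtain ⟨T, haT, hTC, hT, hTidx⟩ := exists_sylow_rel (H := Subgroup.centralizer ({b'} : Set G))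
    (Q := Subgroup.zpowers a) (by simpa using haC) hpa
  obtain ⟨c, hcC, hc⟩ := exists_conj_le_of_relIndex hTC hT hTidx (Q := Subgroup.zpowers a')
    (by simpa using ha'C) hpa'
  obtain ⟨x, hx⟩ := exists_conj_le_sylow S hT
  have h1 : x * a * x⁻¹ = a := hwc x (hx (conj_mem_map_conj (haT (Subgroup.mem_zpowers a))))
  have h2 : x * (c * a' * c⁻¹) * x⁻¹ ∈ (S : Subgroup G) :=
    hx (conj_mem_map_conj (hc (conj_mem_map_conj (Subgroup.mem_zpowers a'))))
  have h3 : (x * c * g) * a * (x * c * g)⁻¹ = a := hwc _ (by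
    have e : (x * c * g) * a * (x * c * g)⁻¹ = x * (c * a' * c⁻¹) * x⁻¹ := by rw [ha']; group
    rw [e]; exact h2)
  have h4 : c * a' * c⁻¹ = a := by
    have e : c * a' * c⁻¹ = x⁻¹ * ((x * c * g) * a * (x * c * g)⁻¹) * x := by rw [ha']; group
    rw [e, h3]
    calc x⁻¹ * a * x = x⁻¹ * (x * a * x⁻¹) * x := by rw [h1]
      _ = a := by group
  rw [Subgroup.mem_centralizer_singleton_iff] at hcC
  calc b' = c * b' * c⁻¹ := by rw [hcC]; group
    _ = c * a' ^ n * c⁻¹ := by rw [← hb'a']
    _ = (c * a' * c⁻¹) ^ n := conj_pow.symm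
    _ = a ^ n := by rw [h4]

end Cfsg.Agent.S1939
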