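import Cfsg.Statements.S1940
-- import your own Cfsg.Agent.* helpers here

set_option autoImplicit false
open Cfsg

namespace Cfsg.Agent.S1940

/-- Let the finite group L act by automorphisms on the finite abelian group M, and let N be an L-invariant subgroup of M such that M/N is a p-group on which L acts trivially (every l • m lies in the coset mN). If every element of M is a product of an element of N and an element fixed by a Sylow p-subgroup T of L, then every element of M is a product of an element of N and an element fixed by all of L. -/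
theorem result {L : Type*} [Group L] [Finite L] {M : Type*} [CommGroup M] [Finite M] [MulDistribMulAction L M]
    {p : ℕ} [Fact p.Prime] (N : Subgroup M) (hN : ∀ (l : L) (m : M), m ∈ N → l • m ∈ N)
    (hquot : IsPGroup p (M ⧸ N)) (htriv : ∀ (l : L) (m : M), (l • m) * m⁻¹ ∈ N) (T : Sylow p L)
    (hT : ∀ m : M, ∃ n ∈ N, ∃ c : M, (∀ t ∈ (T : Subgroup L), t • c = c) ∧ m = n * c) :
    ∀ m : M, ∃ n ∈ N, ∃ c : M, (∀ l : L, l • c = c) ∧ m = n * c := by
  classical
  intro m
  obtain ⟨n, hn, c, hc, rfl⟩ := hT m
  have : Fintype (L ⧸ (T : Subgroup L)) := Fintype.ofFinite _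
  let f : L ⧸ (T : Subgroup L) → M := Quotient.lift (fun l => l • c) (by
    intro a b hab
    have h1 : a⁻¹ * b ∈ (T : Subgroup L) := QuotientGroup.leftRel_apply.mp hab
    have h2 := hc _ h1
    show a • c = b • c
    calc a • c = a • ((a⁻¹ * b) • c) := by rw [h2]
      _ = b • c := by rw [smul_smul]; simp)
  have hf : ∀ l : L, f (QuotientGroup.mk l) = l • c := fun l => rfl
  set c' := ∏ q, f q with hc'
  have hfix : ∀ l : L, l • c' = c' := by
    intro l
    rw [hc', Finset.smul_prod']
    apply Fintype.prod_equiv (MulAction.toPerm l)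
    intro q
    induction q using QuotientGroup.induction_on with
    | H g =>
      show l • f (QuotientGroup.mk g) = f (QuotientGroup.mk (l * g))
      rw [hf, hf, smul_smul]
  set k := (T : Subgroup L).index with hk
  have hck : c' * (c ^ k)⁻¹ ∈ N := by
    have e : c' * (c ^ k)⁻¹ = ∏ q, (f q * c⁻¹) := by
      rw [Finset.prod_mul_distrib, Finset.prod_const, Finset.card_univ, ← Nat.card_eq_fintype_card]
      simp [k, Subgroup.index, inv_pow, hc']
    rw [e]
    apply Subgroup.prod_mem
    intro q _
    induction q using QuotientGroup.induction_on with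
    | H g => rw [hf]; exact htriv _ _
  obtain ⟨e, he⟩ := IsPGroup.iff_card.mp hquot
  have hcop : Nat.Coprime k (p ^ e) :=
    Nat.Coprime.pow_right e ((Nat.Prime.coprime_iff_not_dvd Fact.out).mpr T.not_dvd_index).symm
  have hbez := Nat.gcd_eq_gcd_ab k (p ^ e)
  rw [hcop] at hbez
  set u := Nat.gcdA k (p ^ e)
  set v := Nat.gcdB k (p ^ e)
  have hcpe : c ^ (p ^ e) ∈ N := by
    rw [← QuotientGroup.eq_one_iff, QuotientGroup.mk_pow, ← he]
    exact pow_card_eq_one'
  have hc1 : c = (c ^ k) ^ u * (c ^ (p ^ e)) ^ v := by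
    rw [← zpow_natCast, ← zpow_natCast, ← zpow_mul, ← zpow_mul, ← zpow_add, ← hbez]
    simp
  refine ⟨n * (((c' * (c ^ k)⁻¹) ^ u)⁻¹ * (c ^ (p ^ e)) ^ v), ?_, c' ^ u, ?_, ?_⟩
  · exact N.mul_mem hn (N.mul_mem (N.inv_mem (N.zpow_mem hck _)) (N.zpow_mem hcpe _))
  · intro l
    have := map_zpow (MulDistribMulAction.toMonoidHom M l) c' u
    simp only [MulDistribMulAction.toMonoidHom_apply] at this
    rw [this, hfix]
  · rw [mul_zpow, mul_assoc]
    congr 1
    conv_lhs => rw [hc1]
    simp only [inv_zpow, mul_inv, inv_inv]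
    rw [mul_comm ((c' ^ u)⁻¹), mul_assoc, mul_assoc, mul_comm ((c' ^ u)⁻¹), mul_assoc, mul_inv_cancel, mul_one]

end Cfsg.Agent.S1940
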