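import Mathlib
import Cfsg.Statements.S1941
import Cfsg.Agent.H9.Cocyc
import Cfsg.Agent.H9.Diag2

set_option autoImplicit false
open Cfsg
open scoped commutatorElement

namespace Cfsg.Agent.S1941

/-- Let G be a finite group with no nontrivial normal subgroup of order prime to p, T a Sylow p-subgroup of G and E(G) the layer of G (the subgroup generated by its components). An automorphism of G of p-power order that fixes T and E(G) elementwise is inner. -/
theorem result {G : Type*} [Group G] [Finite G] {p : ℕ} [Fact p.Prime] (hcore : Cfsg.pPrimeCore p G = ⊥)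
    (T : Sylow p G) (α : MulAut G) (hα : ∃ j : ℕ, orderOf α = p ^ j) (hfixT : ∀ x ∈ (T : Subgroup G), α x = x)
    (hfixE : ∀ x ∈ Cfsg.layer G, α x = x) : ∃ g : G, ∀ x : G, α x = g * x * g⁻¹ := by
  classical
  have hF := Cfsg.H9.fitting_eq_pCore_of_pPrimeCore_eq_bot hcore
  set Fs := generalizedFittingSubgroup G with hFs
  set Z := Subgroup.centralizer (Fs : Set G) with hZ
  haveI hZn : Z.Normal := inferInstance
  have hZF : Z ≤ Fs := Cfsg.H9.centralizer_genFitting_le
  have hZc : ∀ a b : ↥Z, a * b = b * a := by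
    intro a b
    apply Subtype.ext
    exact (Subgroup.mem_centralizer_iff.mp a.2 b (hZF b.2)).symm
  have hZle : Z ≤ pCore p G := by
    rw [← hF]
    exact Cfsg.H9.le_fitting hZn (Cfsg.H9.isNilpotent_of_comm hZc)
  have hpT : pCore p G ≤ (T : Subgroup G) := by
    obtain ⟨Q, hQ⟩ := (Cfsg.H9.pCore_isPGroup p (G := G)).exists_le_sylow
    obtain ⟨g, rfl⟩ := MulAction.exists_smul_eq G Q T
    intro x hx
    rw [Sylow.coe_subgroup_smul, Subgroup.mem_pointwise_smul_iff_inv_smul_mem]
    apply hQ
    have hn : (pCore p G).Normal := inferInstance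
    have := hn.conj_mem x hx g⁻¹
    simpa [MulAut.smul_def] using this
  have hfixF : ∀ x ∈ Fs, α x = x := by
    have hle : Fs ≤ (MonoidHom.eqLocus α.toMonoidHom (MonoidHom.id G)) := by
      refine sup_le ?_ ?_
      · intro x hx
        exact hfixE x hx
      · rw [hF]
        intro x hx
        exact hfixT x (hpT hx)
    intro x hx
    exact hle hx
  have hd : ∀ g, α g * g⁻¹ ∈ Z := by
    intro g
    rw [Subgroup.mem_centralizer_iff]
    intro f hf
    have hn : Fs.Normal := inferInstance
    have h1 := hfixF _ (hn.conj_mem f hf g⁻¹)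
    simp only [map_mul, map_inv, inv_inv, hfixF f hf] at h1
    calc f * (α g * g⁻¹) = α g * ((α g)⁻¹ * f * α g) * g⁻¹ := by group
      _ = α g * g⁻¹ * f := by rw [h1]; group
  haveI : IsMulCommutative ↥Z := ⟨⟨hZc⟩⟩
  have hcop : (Nat.card ↥Z).Coprime (T : Subgroup G).index := by
    obtain ⟨k, hk⟩ := IsPGroup.iff_card.mp ((Cfsg.H9.pCore_isPGroup p (G := G)).to_le hZle)
    rw [hk]
    apply Nat.Coprime.pow_left
    exact (Nat.Prime.coprime_iff_not_dvd Fact.out).mpr T.not_dvd_index
  exact Cfsg.H9.inner_of_cocycle Z (T : Subgroup G) hcop α hd hfixT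

end Cfsg.Agent.S1941
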