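import Cfsg.Statements.S1947
import Cfsg.Agent.Tr.Frobenius
import Cfsg.Agent.Lib.Helper27.CoprimeAut2

set_option autoImplicit false
open Cfsg
open Cfsg.Agent.H12

namespace Cfsg.Agent.S1947

/-- Let G be a finite group and p a prime. If every element of G of order dividing p (dividing 4 when p = 2) lies in some fixed term Z_n(G) of the upper central series, then G has a normal p-complement. -/
theorem result {G : Type*} [Group G] [Finite G] {p : ℕ} [Fact p.Prime] (n : ℕ)
    (h : ∀ a : G, (a ^ p = 1 ∨ (p = 2 ∧ a ^ 4 = 1)) → a ∈ Subgroup.upperCentralSeries G n) : Cfsg.HasNormalPComplement p G := by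

  apply Cfsg.Agent.Tr.Frob.hasNormalPComplement
  intro Q hQ g hg hco
  have hp : p.Prime := Fact.out
  -- the series
  set D : ℕ → Subgroup G := fun i => Q ⊓ Subgroup.upperCentralSeries G (n - i) with hD
  have hgi : g⁻¹ ∈ Subgroup.normalizer (Q : Set G) := inv_mem hg
  have hcent : g ∈ Subgroup.centralizer (D 0 : Set G) := by
    refine centralizes_of_series D (fun i => hQ.to_le inf_le_left) n ?_ ?_ hco
    · simp [hD]
    · intro i
      have hn1 : ∀ j, g ∈ Subgroup.normalizer ((Q ⊓ Subgroup.upperCentralSeries G j : Subgroup G) : Set G) := by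
        intro j
        rw [Subgroup.mem_normalizer_iff]
        intro y
        rw [Subgroup.mem_inf, Subgroup.mem_inf, ← (Subgroup.mem_normalizer_iff.mp hg) y]
        have hN : (Subgroup.upperCentralSeries G j).Normal := inferInstance
        rw [← hN.mem_comm_iff, ← mul_assoc, inv_mul_cancel, one_mul] 
      refine ⟨hn1 _, hn1 _, ?_⟩
      intro a ha
      have ha' := Subgroup.mem_inf.mp ha
      refine Subgroup.mem_inf.mpr ⟨?_, ?_⟩
      · refine Q.mul_mem (Q.inv_mem ha'.1) ?_
        have := (Subgroup.mem_normalizer_iff.mp hgi a).mp ha'.1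
        simpa using this
      · by_cases hi : i < n
        · have e : n - i = (n - (i + 1)) + 1 := by omega
          have h2 := ha'.2
          rw [e, Subgroup.mem_upperCentralSeries_succ_iff] at h2
          have h3 := h2 g⁻¹
          have h4 := (Subgroup.upperCentralSeries G (n - (i + 1))).inv_mem h3
          have hN : (Subgroup.upperCentralSeries G (n - (i+1))).Normal := inferInstance
          have h5 := hN.conj_mem _ h4 a⁻¹
          have e2 : a⁻¹ * (a * g⁻¹ * a⁻¹ * g⁻¹⁻¹)⁻¹ * a⁻¹⁻¹ = a⁻¹ * (g⁻¹ * a * g) := by group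
          rw [commutatorElement_def] at h5
          rwa [e2] at h5
        · have e : n - i = 0 := by omega
          have h2 := ha'.2
          rw [e] at h2
          have h3 : a = 1 := by simpa using h2
          rw [h3]; simp
  have key : ∀ x ∈ Q, (MulAut.conj g) x = x := by
    by_cases hp2 : p = 2
    · refine Cfsg.Agent.Lib.Helper27.fixes_of_fixes_small (k := orderOf g) (e := 4) hco (Or.inr ⟨hp2, rfl⟩)
        (MulAut.conj g) Q hQ ?_ ?_ ?_
      · intro x hx
        exact (Subgroup.mem_normalizer_iff.mp hg x).mp hx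
      · intro x _
        rw [← map_pow, pow_orderOf_eq_one]; simp
      · intro x hx hx4
        have hxD : x ∈ D 0 := Subgroup.mem_inf.mpr ⟨hx, h x (Or.inr ⟨hp2, hx4⟩)⟩
        have := (Subgroup.mem_centralizer_iff.mp hcent) x hxD
        rw [MulAut.conj_apply, ← this]; group
    · refine Cfsg.Agent.Lib.Helper27.fixes_of_fixes_small (k := orderOf g) (e := p) hco (Or.inl ⟨hp2, rfl⟩)
        (MulAut.conj g) Q hQ ?_ ?_ ?_
      · intro x hx
        exact (Subgroup.mem_normalizer_iff.mp hg x).mp hx
      · intro x _
        rw [← map_pow, pow_orderOf_eq_one]; simp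
      · intro x hx hx4
        have hxD : x ∈ D 0 := Subgroup.mem_inf.mpr ⟨hx, h x (Or.inl hx4)⟩
        have := (Subgroup.mem_centralizer_iff.mp hcent) x hxD
        rw [MulAut.conj_apply, ← this]; group
  rw [Subgroup.mem_centralizer_iff]
  intro x hx
  have := key x hx
  rw [MulAut.conj_apply] at this
  calc x * g = (g * x * g⁻¹) * g := by rw [this]
    _ = g * x := by group

end Cfsg.Agent.S1947
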