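import Cfsg.Statements.S1948
import Cfsg.Agent.H9.PSolv
-- import your own Cfsg.Agent.* helpers here

set_option autoImplicit false
open Cfsg

namespace Cfsg.Agent.S1948

theorem isPSolvable_of_chain {G : Type*} [Group G] {p : ℕ} (K M : Subgroup G)
    (hK : K.Normal) (hM : M.Normal) (hKM : K ≤ M) (h1 : (Nat.card K).Coprime p)
    (h2 : ∃ m : ℕ, K.relIndex M = p ^ m) (h3 : M.index.Coprime p) : Cfsg.IsPSolvable p G := by
  refine ⟨3, ![⊥, K, M, ⊤], rfl, rfl, ?_, ?_, ?_⟩
  · apply Fin.monotone_iff_le_succ.2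
    intro i
    fin_cases i
    · exact bot_le
    · exact hKM
    · exact le_top
  · intro i
    fin_cases i
    · exact (inferInstance : (⊥ : Subgroup G).Normal)
    · exact hK
    · exact hM
    · exact (inferInstance : (⊤ : Subgroup G).Normal)
  · intro i
    fin_cases i
    · right
      show ((⊥ : Subgroup G).relIndex K).Coprime p
      rw [Subgroup.relIndex_bot_left]; exact h1
    · left; exact h2
    · right
      show (M.relIndex ⊤).Coprime p
      rw [Subgroup.relIndex_top_right]; exact h3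

theorem forward {G : Type*} [Group G] [Finite G] {p : ℕ} [Fact p.Prime] (S : Sylow p G)
    (h : Subgroup.normalizer ((S : Subgroup G) : Set G) ⊔ Cfsg.pPrimeCore p G = ⊤) :
    Cfsg.IsPConstrained p G ∧
        ∀ Q : Subgroup G, Q ≤ (S : Subgroup G) → ∀ g : G, Q.map (MulAut.conj g).toMonoidHom ≤ (S : Subgroup G) →
          ∃ n ∈ Subgroup.normalizer ((S : Subgroup G) : Set G), ∃ c ∈ Subgroup.centralizer (Q : Set G), g = n * c := by
  have hp : p.Prime := Fact.out
  set K := Cfsg.pPrimeCore p G with hKdef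
  have hKn : K.Normal := inferInstance
  have hKc : (Nat.card K).Coprime p := Cfsg.H9.pPrimeCore_coprime p
  have hSK : (S : Subgroup G) ⊓ K = ⊥ := by
    apply Subgroup.inf_eq_bot_of_coprime
    obtain ⟨n, hn⟩ := S.2.exists_card_eq
    rw [hn]
    exact (Nat.Coprime.pow_right n hKc).symm
  constructor
  · apply Cfsg.H9.isPConstrained_of_isPSolvable
    have hMn : ((S : Subgroup G) ⊔ K).Normal := by
      rw [← Subgroup.normalizer_eq_top_iff, ← top_le_iff, ← h]
      apply sup_le
      · have aux : ∀ n ∈ Subgroup.normalizer ((S : Subgroup G) : Set G), ∀ x ∈ (S : Subgroup G) ⊔ K,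
            n * x * n⁻¹ ∈ (S : Subgroup G) ⊔ K := by
          intro n hn x hx
          rw [Subgroup.mem_sup_of_normal_right] at hx
          obtain ⟨s, hs, k, hk, rfl⟩ := hx
          have e : n * (s * k) * n⁻¹ = (n * s * n⁻¹) * (n * k * n⁻¹) := by group
          rw [e]
          rw [Subgroup.mem_normalizer_iff] at hn
          exact mul_mem (Subgroup.mem_sup_left ((hn s).1 hs))
            (Subgroup.mem_sup_right (hKn.conj_mem _ hk n))
        intro n hn
        rw [Subgroup.mem_normalizer_iff]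
        intro x
        refine ⟨aux n hn x, fun hx => ?_⟩
        have := aux n⁻¹ (inv_mem hn) _ hx
        convert this using 1
        group
      · exact le_sup_right.trans Subgroup.le_normalizer
    apply isPSolvable_of_chain K ((S : Subgroup G) ⊔ K) hKn hMn le_sup_right hKc
    · rw [Subgroup.relIndex_sup_right]
      obtain ⟨n, hn⟩ := S.2.exists_card_eq
      have h1 : K.relIndex (S : Subgroup G) ∣ p ^ n := by
        rw [← hn]; exact Subgroup.relIndex_dvd_card K S
      obtain ⟨m, _, hm⟩ := (Nat.dvd_prime_pow hp).1 h1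
      exact ⟨m, hm⟩
    · have h1 : ((S : Subgroup G) ⊔ K).index ∣ (S : Subgroup G).index :=
        Subgroup.index_dvd_of_le le_sup_left
      exact Nat.Coprime.coprime_dvd_left h1 ((Nat.Prime.coprime_iff_not_dvd hp).2 S.not_dvd_index).symm
  · intro Q hQS g hg
    have hgt : g ∈ Subgroup.normalizer ((S : Subgroup G) : Set G) ⊔ K := by rw [h]; trivial
    rw [Subgroup.mem_sup_of_normal_right] at hgt
    obtain ⟨n, hn, k, hk, rfl⟩ := hgt
    refine ⟨n, hn, k, ?_, rfl⟩
    rw [Subgroup.mem_centralizer_iff]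
    intro q hq
    have h1 : (n * k) * q * (n * k)⁻¹ ∈ (S : Subgroup G) := hg ⟨q, hq, rfl⟩
    have h2 : k * q * k⁻¹ ∈ (S : Subgroup G) := by
      rw [Subgroup.mem_normalizer_iff] at hn
      rw [hn]
      convert h1 using 1
      group
    have h3 : k * q * k⁻¹ * q⁻¹ ∈ (S : Subgroup G) ⊓ K := by
      have hq' : q ∈ (S : Subgroup G) := hQS hq
      refine ⟨(S : Subgroup G).mul_mem h2 ((S : Subgroup G).inv_mem hq'), ?_⟩
      have : k * q * k⁻¹ * q⁻¹ = k * (q * k⁻¹ * q⁻¹) := by group
      rw [this]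
      exact mul_mem hk (hKn.conj_mem _ (inv_mem hk) q)
    rw [hSK, Subgroup.mem_bot] at h3
    have : k * q = q * k := by
      calc k * q = (k * q * k⁻¹ * q⁻¹) * (q * k) := by group
        _ = q * k := by rw [h3, one_mul]
    exact this.symm

theorem backward {G : Type*} [Group G] [Finite G] {p : ℕ} [Fact p.Prime] (S : Sylow p G)
    (hc : Cfsg.IsPConstrained p G)
    (hf : ∀ Q : Subgroup G, Q ≤ (S : Subgroup G) → ∀ g : G, Q.map (MulAut.conj g).toMonoidHom ≤ (S : Subgroup G) →
          ∃ n ∈ Subgroup.normalizer ((S : Subgroup G) : Set G), ∃ c ∈ Subgroup.centralizer (Q : Set G), g = n * c) :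
    Subgroup.normalizer ((S : Subgroup G) : Set G) ⊔ Cfsg.pPrimeCore p G = ⊤ := by
  set K := Cfsg.pPrimeCore p G with hKdef
  have hKn : K.Normal := inferInstance
  set L := Cfsg.pPrimePCore p G with hLdef
  have hLn : L.Normal := by
    rw [hLdef]; unfold Cfsg.pPrimePCore
    exact Subgroup.Normal.comap (inferInstance) _
  obtain ⟨P0⟩ : Nonempty (Sylow p ↥L) := inferInstance
  set P1 := (P0 : Subgroup ↥L).map L.subtype with hP1def
  have hP1 : IsPGroup p P1 := P0.2.map _
  have hC1 : Subgroup.centralizer (P1 : Set G) ≤ L := hc P0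
  have hfrat : Subgroup.normalizer (P1 : Set G) ⊔ L = ⊤ := Sylow.normalizer_sup_eq_top P0
  have hLP : L ≤ P1 ⊔ K := by
    intro l hl
    have h1 := Cfsg.H9.map_sylow_pPrimePCore L hLdef P0
    have h2 : QuotientGroup.mk' K l ∈ Cfsg.pCore p (G ⧸ K) := hl
    rw [← h1] at h2
    obtain ⟨a, ha, hal⟩ := h2
    have h3 : a⁻¹ * l ∈ K := by
      rw [← QuotientGroup.ker_mk' K, MonoidHom.mem_ker, map_mul, map_inv, hal, inv_mul_cancel]
    have : l = a * (a⁻¹ * l) := by group
    rw [this]
    exact mul_mem (Subgroup.mem_sup_left ha) (Subgroup.mem_sup_right h3)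
  obtain ⟨Q', hQ'⟩ := hP1.exists_le_sylow
  obtain ⟨x, hx⟩ := MulAction.exists_smul_eq G Q' S
  have hxS : ∀ a ∈ P1, x * a * x⁻¹ ∈ (S : Subgroup G) := by
    intro a ha
    rw [← hx, Sylow.coe_subgroup_smul]
    exact Subgroup.smul_mem_pointwise_smul _ (MulAut.conj x) _ (hQ' ha)
  set Q := P1.map (MulAut.conj x).toMonoidHom with hQdef
  have hQS : Q ≤ S := by
    rintro _ ⟨a, ha, rfl⟩
    exact hxS a ha
  have hCQ : Subgroup.centralizer (Q : Set G) ≤ L := by
    intro c hc'
    have h1 : x⁻¹ * c * x ∈ Subgroup.centralizer (P1 : Set G) := by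
      rw [Subgroup.mem_centralizer_iff] at hc' ⊢
      intro a ha
      have := hc' (x * a * x⁻¹) ⟨a, ha, rfl⟩
      calc a * (x⁻¹ * c * x) = x⁻¹ * ((x * a * x⁻¹) * c) * x := by group
        _ = x⁻¹ * (c * (x * a * x⁻¹)) * x := by rw [this]
        _ = x⁻¹ * c * x * a := by group
    have h2 := hLn.conj_mem _ (hC1 h1) x
    convert h2 using 1
    group
  have hLle : L ≤ Subgroup.normalizer ((S : Subgroup G) : Set G) ⊔ K := by
    intro l hl
    have h1 : x⁻¹ * l * x ∈ P1 ⊔ K := hLP (by have := hLn.conj_mem l hl x⁻¹; simpa using this)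
    rw [Subgroup.mem_sup_of_normal_right] at h1
    obtain ⟨a, ha, k, hk, hak⟩ := h1
    have : l = (x * a * x⁻¹) * (x * k * x⁻¹) := by
      calc l = x * (x⁻¹ * l * x) * x⁻¹ := by group
        _ = x * (a * k) * x⁻¹ := by rw [hak]
        _ = _ := by group
    rw [this]
    exact mul_mem (Subgroup.mem_sup_left (Subgroup.le_normalizer (hxS a ha)))
      (Subgroup.mem_sup_right (hKn.conj_mem k hk x))
  rw [eq_top_iff]
  intro g _
  have hg : x⁻¹ * g * x ∈ Subgroup.normalizer (P1 : Set G) ⊔ L := by rw [hfrat]; trivial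
  rw [Subgroup.mem_sup_of_normal_right] at hg
  obtain ⟨m, hm, l, hl, hml⟩ := hg
  have hh : Q.map (MulAut.conj (x * m * x⁻¹)).toMonoidHom ≤ S := by
    rintro _ ⟨_, ⟨a, ha, rfl⟩, rfl⟩
    have h1 : m * a * m⁻¹ ∈ P1 := ((Subgroup.mem_normalizer_iff.1 hm) a).1 ha
    have h2 := hxS _ h1
    convert h2 using 1
    simp only [MulEquiv.coe_toMonoidHom, MulAut.conj_apply]
    group
  obtain ⟨n, hn, c, hc', hnc⟩ := hf Q hQS _ hh
  have : g = n * c * (x * l * x⁻¹) := by
    rw [← hnc]
    calc g = x * (x⁻¹ * g * x) * x⁻¹ := by group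
      _ = x * (m * l) * x⁻¹ := by rw [hml]
      _ = _ := by group
  rw [this]
  exact mul_mem (mul_mem (Subgroup.mem_sup_left hn) (hLle (hCQ hc'))) (hLle (hLn.conj_mem l hl x))

/-- Let S be a Sylow p-subgroup of the finite group G. Then G = N_G(S)·O_{p'}(G) if and only if G is p-constrained and N_G(S) controls fusion in S, in the sense that whenever a subgroup Q of S has a conjugate g Q g⁻¹ inside S, the element g is a product n c with n normalizing S and c centralizing Q. -/
theorem result {G : Type*} [Group G] [Finite G] {p : ℕ} [Fact p.Prime] (S : Sylow p G) :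
    Subgroup.normalizer ((S : Subgroup G) : Set G) ⊔ Cfsg.pPrimeCore p G = ⊤ ↔
      (Cfsg.IsPConstrained p G ∧
        ∀ Q : Subgroup G, Q ≤ (S : Subgroup G) → ∀ g : G, Q.map (MulAut.conj g).toMonoidHom ≤ (S : Subgroup G) →
          ∃ n ∈ Subgroup.normalizer ((S : Subgroup G) : Set G), ∃ c ∈ Subgroup.centralizer (Q : Set G), g = n * c) :=
  ⟨forward S, fun h => backward S h.1 h.2⟩

end Cfsg.Agent.S1948
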