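import Cfsg.Statements.S1954
import Cfsg.Agent.H12.AG

set_option autoImplicit false
open Cfsg
open Cfsg.Agent.H12

namespace Cfsg.Agent.S1954

/-- Let N be a normal subgroup of the finite group G, P a Sylow p-subgroup of G, and V a subgroup of P ∩ N normal in P ∩ N such that N_N(V) controls strong fusion in P ∩ N with respect to N (whenever a subgroup A of P ∩ N has n A n⁻¹ ≤ P ∩ N for some n in N, then n = h c with h in N_N(V) and c in C_N(A)). Let W be the subgroup generated by the conjugates of V under N_G(P ∩ N). Then N_G(W) controls strong fusion in P with respect to G. -/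
theorem result {G : Type*} [Group G] [Finite G] {p : ℕ} [Fact p.Prime] (N : Subgroup G) [N.Normal] (P : Sylow p G) (V : Subgroup G)
    (hV : V ≤ (P : Subgroup G) ⊓ N) (hVn : ∀ x ∈ (P : Subgroup G) ⊓ N, V.map (MulAut.conj x).toMonoidHom = V)
    (hctrl : ∀ A : Subgroup G, A ≤ (P : Subgroup G) ⊓ N → ∀ n ∈ N, A.map (MulAut.conj n).toMonoidHom ≤ (P : Subgroup G) ⊓ N →
      ∃ h ∈ N ⊓ Subgroup.normalizer (V : Set G), ∃ c ∈ N ⊓ Subgroup.centralizer (A : Set G), n = h * c)
    (W : Subgroup G) (hW : W = Subgroup.closure (⋃ x ∈ Subgroup.normalizer (((P : Subgroup G) ⊓ N : Subgroup G) : Set G),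
      ((V.map (MulAut.conj x).toMonoidHom : Subgroup G) : Set G))) :
    ∀ A : Subgroup G, A ≤ (P : Subgroup G) → ∀ g : G, A.map (MulAut.conj g).toMonoidHom ≤ (P : Subgroup G) →
        ∃ h ∈ Subgroup.normalizer (W : Set G), ∃ c ∈ Subgroup.centralizer (A : Set G), g = h * c := by
  classical
  set Q := (P : Subgroup G) ⊓ N with hQ
  have hmapN : ∀ {K : Subgroup G} {x : G}, x ∈ Subgroup.normalizer (K : Set G) →
      K.map (MulAut.conj x).toMonoidHom = K := fun h => Subgroup.mem_normalizer_iff_map_conj_eq.mp h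
  have hNn : ∀ x ∈ (⊤ : Subgroup G), cj N x = N := fun x _ => cj_eq_self (by
    rw [Subgroup.normalizer_eq_top]; trivial)
  have hQidx : ¬ p ∣ Q.relIndex N :=
    sylow_rel_inf_normal (X := ⊤) le_top P.2 (sylow_not_dvd_relIndex_top P) le_top hNn
  have hQp : IsPGroup p Q := P.2.to_le inf_le_left
  -- control by each conjugate of `V`
  let 𝒱 : Set (Subgroup G) := {U | ∃ x ∈ Subgroup.normalizer (Q : Set G), U = V.map (MulAut.conj x).toMonoidHom}
  have hone : ∀ U ∈ 𝒱, ∀ A : Subgroup G, A ≤ Q → ∀ n ∈ N, A.map (MulAut.conj n).toMonoidHom ≤ Q →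
      ∃ h ∈ N ⊓ Subgroup.normalizer (U : Set G), ∃ c ∈ N ⊓ Subgroup.centralizer (A : Set G), n = h * c := by
    rintro U ⟨x, hx, rfl⟩ A hA n hn hAn
    have hQx : cj Q x = Q := cj_eq_self hx
    have h1 : cj A x ≤ Q := by rw [← hQx]; exact cj_mono hA x
    have hn' : x⁻¹ * n * x ∈ N := by
      have := ‹N.Normal›.conj_mem n hn x⁻¹
      simpa using this
    have h2 : (cj A x).map (MulAut.conj (x⁻¹ * n * x)).toMonoidHom ≤ Q := by
      have e : (cj A x).map (MulAut.conj (x⁻¹ * n * x)).toMonoidHom =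
          cj (A.map (MulAut.conj n).toMonoidHom) x := by
        unfold cj
        rw [map_conj_mul, map_conj_mul]
        congr 3
        group
      rw [e, ← hQx]; exact cj_mono hAn x
    obtain ⟨h, hh, c, hc, e⟩ := hctrl _ h1 _ hn' h2
    refine ⟨x * h * x⁻¹, Subgroup.mem_inf.mpr ⟨‹N.Normal›.conj_mem h hh.1 x, ?_⟩, x * c * x⁻¹,
      Subgroup.mem_inf.mpr ⟨‹N.Normal›.conj_mem c hc.1 x, ?_⟩, ?_⟩
    · have h3 : Subgroup.normalizer ((V.map (MulAut.conj x).toMonoidHom : Subgroup G) : Set G) =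
          cj (Subgroup.normalizer (V : Set G)) x⁻¹ := by
        rw [← normalizer_cj]; unfold cj; rw [inv_inv]
      rw [h3, mem_cj]
      have : x⁻¹ * (x * h * x⁻¹) * x⁻¹⁻¹ = h := by group
      rw [this]; exact hh.2
    · have h3 := (Subgroup.mem_inf.mp hc).2
      rw [centralizer_cj, mem_cj] at h3
      exact h3
    · calc n = x * (x⁻¹ * n * x) * x⁻¹ := by group
        _ = x * (h * c) * x⁻¹ := by rw [e]
        _ = x * h * x⁻¹ * (x * c * x⁻¹) := by group
  have hall : ∀ s : Finset (Subgroup G), (∀ U ∈ s, U ∈ 𝒱) → ∀ A : Subgroup G, A ≤ Q → ∀ n ∈ N,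
      A.map (MulAut.conj n).toMonoidHom ≤ Q →
      ∃ h ∈ N, (∀ U ∈ s, h ∈ Subgroup.normalizer (U : Set G)) ∧
        ∃ c ∈ N ⊓ Subgroup.centralizer (A : Set G), n = h * c := by
    intro s
    induction s using Finset.induction_on with
    | empty =>
      intro _ A _ n hn _
      exact ⟨n, hn, by simp, 1, one_mem _, by simp⟩
    | insert U s hUs ih =>
      intro hs A hA n hn hAn
      have hU𝒱 : U ∈ 𝒱 := hs U (Finset.mem_insert_self U s)
      have hUQ : U ≤ Q := by
        obtain ⟨x, hx, rfl⟩ := hU𝒱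
        have : cj Q x⁻¹ = Q := cj_eq_self (inv_mem hx)
        rw [← this]
        have := cj_mono hV x⁻¹
        unfold cj at this ⊢
        rwa [inv_inv] at this ⊢
      obtain ⟨h₁, hh₁, c₁, hc₁, e₁⟩ := hone U hU𝒱 A hA n hn hAn
      have hA1 : A.map (MulAut.conj h₁).toMonoidHom = A.map (MulAut.conj n).toMonoidHom := by
        have h3 : A.map (MulAut.conj c₁).toMonoidHom = A :=
          hmapN (Subgroup.centralizer_le_normalizer _ hc₁.2)
        rw [e₁, ← map_conj_mul, h3]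
      have h2 : (A ⊔ U).map (MulAut.conj h₁).toMonoidHom ≤ Q := by
        rw [Subgroup.map_sup, hA1, hmapN hh₁.2]
        exact sup_le hAn hUQ
      obtain ⟨h₂, hh₂, hs₂, c₂, hc₂, e₂⟩ := ih (fun U' hU' => hs U' (Finset.mem_insert_of_mem hU'))
        (A ⊔ U) (sup_le hA hUQ) h₁ hh₁.1 h2
      have hc₂A : c₂ ∈ Subgroup.centralizer (A : Set G) :=
        Subgroup.centralizer_le (show (A : Set G) ⊆ ((A ⊔ U : Subgroup G) : Set G) from (le_sup_left : A ≤ A ⊔ U)) hc₂.2
      have hc₂U : c₂ ∈ Subgroup.centralizer (U : Set G) :=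
        Subgroup.centralizer_le (show (U : Set G) ⊆ ((A ⊔ U : Subgroup G) : Set G) from (le_sup_right : U ≤ A ⊔ U)) hc₂.2
      refine ⟨h₂, hh₂, ?_, c₂ * c₁, ⟨mul_mem hc₂.1 hc₁.1, mul_mem hc₂A hc₁.2⟩, by rw [e₁, e₂, mul_assoc]⟩
      intro U' hU'
      rcases Finset.mem_insert.mp hU' with rfl | hU'
      · have : h₂ = h₁ * c₂⁻¹ := by rw [e₂]; group
        rw [this]
        exact mul_mem hh₁.2 (inv_mem (Subgroup.centralizer_le_normalizer _ hc₂U))
      · exact hs₂ U' hU'
  have hWle : ∀ h : G, (∀ U ∈ 𝒱, h ∈ Subgroup.normalizer (U : Set G)) → h ∈ Subgroup.normalizer (W : Set G) := by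
    intro h hh
    rw [← cj_eq_self_iff]
    apply cj_eq_of_le
    unfold cj
    rw [hW, Subgroup.map_le_iff_le_comap, Subgroup.closure_le]
    intro y hy
    obtain ⟨x, hx, hy⟩ := Set.mem_iUnion₂.mp hy
    have hU : V.map (MulAut.conj x).toMonoidHom ∈ 𝒱 := ⟨x, hx, rfl⟩
    have h1 := conj_mem_cj (g := h) hy
    rw [cj_eq_self (hh _ hU)] at h1
    apply Subgroup.subset_closure
    refine Set.mem_iUnion₂.mpr ⟨x, hx, ?_⟩
    simpa using h1
  have hNQW : Subgroup.normalizer (Q : Set G) ≤ Subgroup.normalizer (W : Set G) := by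
    intro k hk
    rw [← cj_eq_self_iff]
    apply cj_eq_of_le
    unfold cj
    rw [hW, Subgroup.map_le_iff_le_comap, Subgroup.closure_le]
    intro y hy
    obtain ⟨x, hx, hy⟩ := Set.mem_iUnion₂.mp hy
    apply Subgroup.subset_closure
    refine Set.mem_iUnion₂.mpr ⟨k⁻¹ * x, mul_mem (inv_mem hk) hx, ?_⟩
    rw [← map_conj_mul]
    exact ⟨y, hy, rfl⟩
  have hWQ : W ≤ Q := by
    rw [hW, Subgroup.closure_le]
    intro y hy
    obtain ⟨x, hx, hy⟩ := Set.mem_iUnion₂.mp hy
    have : cj Q x⁻¹ = Q := cj_eq_self (inv_mem hx)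
    rw [← this]
    have h1 := cj_mono hV x⁻¹
    unfold cj at h1 ⊢
    rw [inv_inv] at h1 ⊢
    exact h1 hy
  have main := controls_of_elements P W (hWQ.trans inf_le_left) ?_
  · intro A hA g hAg
    obtain ⟨h, hh, hag⟩ := main A hA g⁻¹ (by unfold cj; rwa [inv_inv])
    refine ⟨h⁻¹, inv_mem hh, h * g, ?_, by group⟩
    rw [Subgroup.mem_centralizer_iff]
    intro a ha
    have := hag a ha
    rw [inv_inv] at this
    calc a * (h * g) = h * (h⁻¹ * a * h) * g := by group
      _ = h * (g * a * g⁻¹) * g := by rw [this]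
      _ = h * g * a := by group
  · intro w hw g hg
    obtain ⟨k, hk, y, hy, rfl⟩ := frattini_rel (X := ⊤) hNn inf_le_right hQp hQidx (Subgroup.mem_top g) le_top
    have hkW := hNQW hk.2
    set w' := k⁻¹ * w * k with hw'
    have hw'W : w' ∈ W := by
      have := conj_mem_cj (g := k) hw
      rwa [cj_eq_self hkW] at this
    have e1 : (k * y)⁻¹ * w * (k * y) = y⁻¹ * w' * y := by rw [hw']; group
    rw [e1] at hg ⊢
    have hgQ : y⁻¹ * w' * y ∈ Q := by
      refine ⟨hg, ?_⟩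
      have := ‹N.Normal›.conj_mem w' (hWQ hw'W).2 y⁻¹
      simpa using this
    obtain ⟨h, _, hs, c, hc, e⟩ := hall (Set.toFinite 𝒱).toFinset (by simp) (Subgroup.zpowers w')
      (by simpa using hWQ hw'W) y⁻¹ (inv_mem hy) (by
        rw [MonoidHom.map_zpowers, Subgroup.zpowers_le]
        simpa using hgQ)
    have hhW : h ∈ Subgroup.normalizer (W : Set G) := hWle h (fun U hU => hs U (by simpa using hU))
    refine ⟨k * h⁻¹, mul_mem hkW (inv_mem hhW), ?_⟩
    have hcw : c * w' = w' * c := by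
      have := (Subgroup.mem_centralizer_iff.mp hc.2) w' (Subgroup.mem_zpowers w')
      exact this.symm
    have ey : y = c⁻¹ * h⁻¹ := by
      have : y = (y⁻¹)⁻¹ := by group
      rw [this, e]; group
    calc y⁻¹ * w' * y = h * (c * w') * c⁻¹ * h⁻¹ := by rw [ey]; group
      _ = h * (w' * c) * c⁻¹ * h⁻¹ := by rw [hcw]
      _ = (k * h⁻¹)⁻¹ * w * (k * h⁻¹) := by rw [hw']; group

end Cfsg.Agent.S1954
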