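import Cfsg.Statements.S1957
import Cfsg.Agent.S0058
import Cfsg.Agent.H6.KleinAct
import Cfsg.Agent.H4.Nilp
import Cfsg.Agent.H12.Cores

set_option autoImplicit false
open Cfsg

namespace Cfsg.Agent.S1957


open Subgroup Cfsg.Agent.H12 Cfsg.Agent.H6

theorem chain {H : Type*} [Group H]
    (hchar : centralizer (pCore 2 H : Set H) ≤ pCore 2 H) (u : H) (hu : u * u = 1)
    (hc : ∀ h : H, h * u = u * h) (v : H)
    (hv : ∀ q ∈ pCore 2 H, v * q * v⁻¹ = q ∨ v * q * v⁻¹ = u * q) : v ∈ pCore 2 H := by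
  have hQn : (pCore 2 H).Normal := by
    haveI := pCore_characteristic 2 H
    infer_instance
  have hcu : ∀ c q : H, c * (u * q) * c⁻¹ = u * (c * q * c⁻¹) := by
    intro c q
    rw [← mul_assoc, hc c]; group
  let X : Subgroup H :=
    { carrier := {c | ∀ q ∈ pCore 2 H, c * q * c⁻¹ = q ∨ c * q * c⁻¹ = u * q}
      one_mem' := by intro q _; left; simp
      mul_mem' := by
        intro c d hc' hd q hq
        have e : (c * d) * q * (c * d)⁻¹ = c * (d * q * d⁻¹) * c⁻¹ := by group
        rw [e]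
        rcases hd q hq with h | h
        · rw [h]; exact hc' q hq
        · rw [h, hcu]
          rcases hc' q hq with h' | h'
          · right; rw [h']
          · left; rw [h', ← mul_assoc, hu, one_mul]
      inv_mem' := by
        intro c hc' q hq
        have hq' : c⁻¹ * q * c⁻¹⁻¹ ∈ pCore 2 H := hQn.conj_mem q hq c⁻¹
        have e : c * (c⁻¹ * q * c⁻¹⁻¹) * c⁻¹ = q := by group
        rcases hc' _ hq' with h | h
        · left
          rw [e] at h; exact h.symm
        · right
          rw [e] at h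
          calc c⁻¹ * q * c⁻¹⁻¹ = u * (u * (c⁻¹ * q * c⁻¹⁻¹)) := by rw [← mul_assoc, hu, one_mul]
            _ = u * q := by rw [← h] }
  have hXn : X.Normal := by
    constructor
    intro c hc' h q hq
    have hq' : h⁻¹ * q * h⁻¹⁻¹ ∈ pCore 2 H := hQn.conj_mem q hq h⁻¹
    have e : (h * c * h⁻¹) * q * (h * c * h⁻¹)⁻¹ = h * (c * (h⁻¹ * q * h⁻¹⁻¹) * c⁻¹) * h⁻¹ := by
      group
    rw [e]
    rcases hc' _ hq' with h' | h'
    · left; rw [h']; group
    · right; rw [h', hcu]; group
  have hXp : IsPGroup 2 X := by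
    rintro ⟨c, hc'⟩
    have hsq : c * c ∈ pCore 2 H := by
      apply hchar
      rw [mem_centralizer_iff]
      intro q hq
      have hthis : (c * c) * q * (c * c)⁻¹ = q := by
        have e : (c * c) * q * (c * c)⁻¹ = c * (c * q * c⁻¹) * c⁻¹ := by group
        rw [e]
        rcases hc' q hq with h | h
        · rw [h, h]
        · rw [h, hcu, h, ← mul_assoc, hu, one_mul]
      rw [mul_inv_eq_iff_eq_mul] at hthis
      exact hthis.symm
    obtain ⟨k, hk⟩ := (pCore_isPGroup 2 H) ⟨c * c, hsq⟩
    refine ⟨k + 1, ?_⟩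
    apply Subtype.ext
    have hk' : (c * c) ^ (2 ^ k) = 1 := by simpa using congrArg Subtype.val hk
    change c ^ (2 ^ (k + 1)) = 1
    rw [pow_succ, mul_comm, pow_mul, pow_two]; exact hk'
  exact le_pCore hXn hXp hv

theorem cyc {C : Type*} [Group C] [Finite C] [IsCyclic C] {a b : C} (ha : a * a = 1)
    (hb : b * b = 1) (hb1 : b ≠ 1) : a = 1 ∨ a = b := by
  classical
  by_contra hcon
  push Not at hcon
  haveI := Fintype.ofFinite C
  have h := IsCyclic.card_pow_eq_one_le (α := C) (n := 2) (by norm_num)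
  have hsub : ({1, b, a} : Finset C) ⊆ Finset.univ.filter (fun x => x ^ 2 = 1) := by
    intro x hx
    simp only [Finset.mem_insert, Finset.mem_singleton] at hx
    simp only [Finset.mem_filter, Finset.mem_univ, true_and]
    rcases hx with rfl | rfl | rfl
    · simp
    · rw [pow_two]; exact hb
    · rw [pow_two]; exact ha
  have h3 : ({1, b, a} : Finset C).card = 3 := by
    rw [Finset.card_insert_of_notMem, Finset.card_insert_of_notMem, Finset.card_singleton]
    · simp only [Finset.mem_singleton]; exact fun h => hcon.2 h.symm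
    · simp only [Finset.mem_insert, Finset.mem_singleton, not_or]
      exact ⟨fun h => hb1 h.symm, fun h => hcon.1 h.symm⟩
  have := Finset.card_le_card hsub
  omega

theorem exists_central {G : Type*} [Group G] [Finite G] {P U : Subgroup G} (hP : IsPGroup 2 P)
    (hUP : U ≤ P) (hUn : P ≤ normalizer (U : Set G)) (hU1 : U ≠ ⊥) :
    ∃ z ∈ U, z ≠ 1 ∧ ∀ x ∈ P, x * z = z * x := by
  haveI : Group.IsNilpotent ↥P := hP.isNilpotent
  haveI : (U.subgroupOf P).Normal := normal_subgroupOf_of_le_normalizer hUn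
  have h1 : U.subgroupOf P ≠ ⊥ := by
    intro h0
    rw [subgroupOf_eq_bot, disjoint_iff, inf_eq_left.mpr hUP] at h0
    exact hU1 h0
  have h2 := Cfsg.Agent.H4.normal_inf_center_ne_bot (U.subgroupOf P) h1
  obtain ⟨ζ, hζ⟩ := ne_bot_iff_exists_ne_one.mp h2
  refine ⟨((ζ : ↥P) : G), ?_, ?_, ?_⟩
  · exact mem_subgroupOf.mp ζ.2.1
  · intro h; apply hζ; apply Subtype.ext; apply Subtype.ext; exact h
  · intro x hx
    have := mem_center_iff.mp ζ.2.2 ⟨x, hx⟩
    exact congrArg Subtype.val this

set_option maxHeartbeats 1000000 in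
theorem lemA {G : Type*} [Group G] [Finite G] {P U : Subgroup G} (hP : IsPGroup 2 P) (hUP : U ≤ P)
    (hUn : P ≤ normalizer (U : Set G)) [hU4 : IsKleinFour U]
    (hcyc : IsCyclic ↥(P ⊓ centralizer (P : Set G))) (hne : ¬ P ≤ centralizer (U : Set G)) :
    ((P ⊓ centralizer (U : Set G)).subgroupOf P).index = 2 ∧
    ∀ w ∈ P ⊓ centralizer (U : Set G), (∀ x ∈ P ⊓ centralizer (U : Set G), x * w = w * x) →
      w * w = 1 → w ∈ U := by
  classical
  have hU1 : U ≠ ⊥ := by
    intro h
    have h4 : Nat.card U = 4 := IsKleinFour.card_four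
    rw [h] at h4
    simp at h4
  obtain ⟨z, hzU, hz1, hzc⟩ := exists_central hP hUP hUn hU1
  obtain ⟨y, hyP, hyC⟩ := SetLike.not_le_iff_exists.mp hne
  have hex : ∃ u' ∈ U, y * u' * y⁻¹ ≠ u' := by
    by_contra hcon; push Not at hcon
    exact hyC (KleinAct.mem_centralizer_of_conj' hcon)
  obtain ⟨u', hu'U, hyu'⟩ := hex
  have hu'1 : u' ≠ 1 := by rintro rfl; simp at hyu'
  have hzu' : z ≠ u' := by
    rintro rfl
    apply hyu'
    rw [hzc y hyP]; group
  have hsq : ∀ v ∈ U, v * v = 1 := fun v hv => KleinAct.mul_self_of_mem hv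
  have hact : ∀ x ∈ P, x * u' * x⁻¹ = u' ∨ x * u' * x⁻¹ = z * u' := by
    intro x hx
    have hmem : x * u' * x⁻¹ ∈ U := (mem_normalizer_iff.mp (hUn hx) u').mp hu'U
    have e : u' = x⁻¹ * (x * u' * x⁻¹) * x := by group
    rcases KleinAct.cases_of_mem hzU hu'U hmem hz1 hu'1 hzu' with h | h | h | h
    · exfalso; apply hu'1
      rw [e, h]; group
    · exfalso; apply hzu'
      rw [e, h, mul_assoc, ← hzc x hx]; group
    · left; exact h
    · right; exact h
  have hyz : y * u' * y⁻¹ = z * u' := (hact y hyP).resolve_left hyu'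
  have hP0 : ∀ x ∈ P, (x ∈ centralizer (U : Set G) ↔ x * u' * x⁻¹ = u') := by
    intro x hx
    constructor
    · intro h
      have := mem_centralizer_iff.mp h u' hu'U
      rw [← this]; group
    · intro h
      exact KleinAct.mem_centralizer_of_fix_two hzU hu'U hz1 hu'1 hzu'
        (by rw [hzc x hx]; group) h
  have hzne : z * u' ≠ u' := by
    intro h; apply hz1; exact mul_right_cancel (h.trans (one_mul u').symm)
  have hconjz : ∀ x ∈ P, x * (z * u') * x⁻¹ = z * (x * u' * x⁻¹) := by
    intro x hx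
    rw [← mul_assoc, hzc x hx]; group
  have hprod : ∀ b ∈ P, (b * y ∈ centralizer (U : Set G) ↔ b ∉ centralizer (U : Set G)) := by
    intro b hb
    rw [hP0 (b * y) (P.mul_mem hb hyP), hP0 b hb]
    have e : (b * y) * u' * (b * y)⁻¹ = b * (y * u' * y⁻¹) * b⁻¹ := by group
    rw [e, hyz, hconjz b hb]
    rcases hact b hb with h | h
    · rw [h]; constructor
      · intro h'; exact absurd h' hzne
      · intro h'; exact absurd rfl h'
    · rw [h]
      constructor
      · intro _ h'; exact hzne h'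
      · intro _; rw [← mul_assoc, hsq z hzU, one_mul]
  constructor
  · rw [index_eq_two_iff]
    refine ⟨⟨y, hyP⟩, fun b => ?_⟩
    have h1 : (b * ⟨y, hyP⟩ ∈ (P ⊓ centralizer (U : Set G)).subgroupOf P) ↔
        (b : G) * y ∈ centralizer (U : Set G) := by
      rw [mem_subgroupOf, mem_inf]
      exact ⟨fun h => h.2, fun h => ⟨P.mul_mem b.2 hyP, h⟩⟩
    have h2 : (b ∈ (P ⊓ centralizer (U : Set G)).subgroupOf P) ↔
        (b : G) ∈ centralizer (U : Set G) := by
      rw [mem_subgroupOf, mem_inf]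
      exact ⟨fun h => h.2, fun h => ⟨b.2, h⟩⟩
    rw [h1, h2, hprod b b.2]
    by_cases h : (b : G) ∈ centralizer (U : Set G)
    · right; exact ⟨h, fun h' => h' h⟩
    · left; exact ⟨h, h⟩
  · have hcent : ∀ s ∈ P, (∀ x ∈ P ⊓ centralizer (U : Set G), x * s = s * x) → y * s = s * y →
        s * s = 1 → s = 1 ∨ s = z := by
      intro s hsP hs0 hsy hss
      have hsZ : ∀ x ∈ P, x * s = s * x := by
        intro x hx
        by_cases hxc : x ∈ centralizer (U : Set G)
        · exact hs0 x ⟨hx, hxc⟩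
        · have h1 : x * y ∈ centralizer (U : Set G) := (hprod x hx).mpr hxc
          have h2 := hs0 (x * y) ⟨P.mul_mem hx hyP, h1⟩
          have h3 : x * s = (x * y * s) * y⁻¹ := by
            rw [mul_assoc x y s, hsy]; group
          rw [h3, h2]; group
      have hs' : s ∈ P ⊓ centralizer (P : Set G) := ⟨hsP, mem_centralizer_iff.mpr hsZ⟩
      have hz' : z ∈ P ⊓ centralizer (P : Set G) := ⟨hUP hzU, mem_centralizer_iff.mpr hzc⟩
      have := cyc (C := ↥(P ⊓ centralizer (P : Set G))) (a := ⟨s, hs'⟩) (b := ⟨z, hz'⟩)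
        (Subtype.ext hss) (Subtype.ext (hsq z hzU)) (fun h => hz1 (congrArg Subtype.val h))
      rcases this with h | h
      · left; exact congrArg Subtype.val h
      · right; exact congrArg Subtype.val h
    intro w hw hw0 hww
    obtain ⟨w', hw'⟩ : ∃ w', w' = y * w * y⁻¹ := ⟨_, rfl⟩
    have hw'P : w' ∈ P := by rw [hw']; exact P.mul_mem (P.mul_mem hyP hw.1) (P.inv_mem hyP)
    have hnorm : ∀ x ∈ P ⊓ centralizer (U : Set G), y⁻¹ * x * y ∈ P ⊓ centralizer (U : Set G) := by
      intro x hx
      have hxP : y⁻¹ * x * y ∈ P := P.mul_mem (P.mul_mem (P.inv_mem hyP) hx.1) hyP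
      refine ⟨hxP, ?_⟩
      change y⁻¹ * x * y ∈ centralizer (U : Set G)
      rw [hP0 _ hxP]
      have e : (y⁻¹ * x * y) * u' * (y⁻¹ * x * y)⁻¹ = y⁻¹ * (x * (y * u' * y⁻¹) * x⁻¹) * y := by
        group
      have hx2 : (z * u') * x = x * (z * u') := mem_centralizer_iff.mp hx.2 _ (U.mul_mem hzU hu'U)
      rw [e, hyz, ← hx2, mul_inv_cancel_right, ← hyz]; group
    have hw'0 : ∀ x ∈ P ⊓ centralizer (U : Set G), x * w' = w' * x := by
      intro x hx
      have h1 := hw0 _ (hnorm x hx)
      calc x * w' = y * ((y⁻¹ * x * y) * w) * y⁻¹ := by rw [hw']; group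
        _ = y * (w * (y⁻¹ * x * y)) * y⁻¹ := by rw [h1]
        _ = w' * x := by rw [hw']; group
    have hyy : y * y ∈ P ⊓ centralizer (U : Set G) := ⟨P.mul_mem hyP hyP, (hprod y hyP).mpr hyC⟩
    have h_yw : y * w = w' * y := by rw [hw']; group
    have h_yw' : y * w' = w * y := by
      have h1 := hw0 _ hyy
      calc y * w' = (y * y * w) * y⁻¹ := by rw [hw']; group
        _ = (w * (y * y)) * y⁻¹ := by rw [h1]
        _ = w * y := by group
    have h_ww' : w * w' = w' * w := hw'0 w hw
    have hw'w' : w' * w' = 1 := by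
      calc w' * w' = y * (w * w) * y⁻¹ := by rw [hw']; group
        _ = 1 := by rw [hww]; group
    have ht := hcent (w * w') (P.mul_mem hw.1 hw'P)
      (by
        intro x hx
        calc x * (w * w') = (x * w) * w' := by group
          _ = w * (x * w') := by rw [hw0 x hx]; group
          _ = w * w' * x := by rw [hw'0 x hx]; group)
      (by
        calc y * (w * w') = (y * w) * w' := by group
          _ = w' * (y * w') := by rw [h_yw]; group
          _ = (w' * w) * y := by rw [h_yw']; group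
          _ = (w * w') * y := by rw [h_ww'])
      (by
        calc (w * w') * (w * w') = w * (w' * w) * w' := by group
          _ = (w * w) * (w' * w') := by rw [← h_ww']; group
          _ = 1 := by rw [hww, hw'w', one_mul])
    rcases ht with ht | ht
    · -- w' = w
      have h1 : w' = w := by
        calc w' = (w * w) * w' := by rw [hww, one_mul]
          _ = w * (w * w') := by group
          _ = w := by rw [ht, mul_one]
      have h2 : y * w = w * y := by rw [h_yw, h1]
      rcases hcent w hw.1 hw0 h2 hww with h | h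
      · rw [h]; exact U.one_mem
      · rw [h]; exact hzU
    · have h1 : w' = w * z := by
        calc w' = (w * w) * w' := by rw [hww, one_mul]
          _ = w * (w * w') := by group
          _ = w * z := by rw [ht]
      have hwu : u' * w = w * u' := mem_centralizer_iff.mp hw.2 u' hu'U
      have hyu : y * u' = z * u' * y := by rw [← hyz]; group
      have hs := hcent (w * u') (P.mul_mem hw.1 (hUP hu'U))
        (by
          intro x hx
          have hxu : u' * x = x * u' := mem_centralizer_iff.mp hx.2 u' hu'U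
          calc x * (w * u') = (x * w) * u' := by group
            _ = w * (x * u') := by rw [hw0 x hx]; group
            _ = w * u' * x := by rw [← hxu]; group)
        (by
          calc y * (w * u') = (y * w) * u' := by group
            _ = w * z * (y * u') := by rw [h_yw, h1]; group
            _ = w * (z * z) * u' * y := by rw [hyu]; group
            _ = w * u' * y := by rw [hsq z hzU, mul_one])
        (by
          calc (w * u') * (w * u') = w * (u' * w) * u' := by group
            _ = (w * w) * (u' * u') := by rw [hwu]; group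
            _ = 1 := by rw [hww, hsq u' hu'U, one_mul])
      have hw_eq : w = (w * u') * u'⁻¹ := by group
      rcases hs with h | h
      · rw [hw_eq, h]; exact U.mul_mem U.one_mem (U.inv_mem hu'U)
      · rw [hw_eq, h]; exact U.mul_mem hzU (U.inv_mem hu'U)

theorem card_eq_index_mul {G : Type*} [Group G] {A B : Subgroup G} (h : A ≤ B) :
    Nat.card A * (A.subgroupOf B).index = Nat.card B := by
  rw [← (A.subgroupOf B).card_mul_index, Nat.card_congr (subgroupOfEquivOfLe h).toEquiv]

set_option maxHeartbeats 1000000 in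
theorem core_normalizes {G : Type*} [Group G] [Finite G] (P : Sylow 2 G) (U : Subgroup G)
    (hUP : U ≤ (P : Subgroup G)) (hUn : (P : Subgroup G) ≤ normalizer (U : Set G))
    [hU4 : IsKleinFour U]
    (hUZ : ¬ IsCyclic ↥((P : Subgroup G) ⊓ centralizer ((P : Subgroup G) : Set G)) →
      U ≤ centralizer ((P : Subgroup G) : Set G))
    (Q : Subgroup G) (hQ : IsPGroup 2 Q)
    (hQn : (P : Subgroup G) ⊓ centralizer (U : Set G) ≤ normalizer (Q : Set G)) :
    ∀ q ∈ Q, ∀ v ∈ U, q * v * q⁻¹ ∈ U := by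
  classical
  obtain ⟨P0, hP0def⟩ : ∃ P0 : Subgroup G, P0 = (P : Subgroup G) ⊓ centralizer (U : Set G) :=
    ⟨_, rfl⟩
  rw [← hP0def] at hQn
  have hP0P : P0 ≤ (P : Subgroup G) := by rw [hP0def]; exact inf_le_left
  have hP0p : IsPGroup 2 P0 := P.2.to_le hP0P
  have hP1p : IsPGroup 2 (P0 ⊔ Q : Subgroup G) := IsPGroup.to_sup_of_normal_right' hP0p hQ hQn
  have hcardle : Nat.card (P0 ⊔ Q : Subgroup G) ≤ Nat.card (P : Subgroup G) := by
    obtain ⟨S, hS⟩ := hP1p.exists_le_sylow
    have h1 := Subgroup.card_le_of_le hS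
    have h2 : Nat.card (S : Subgroup G) = Nat.card (P : Subgroup G) := by
      rw [Sylow.card_eq_multiplicity S, Sylow.card_eq_multiplicity P]
    omega
  by_cases hQP0 : Q ≤ P0
  · intro q hq v hv
    have h1 : q ∈ centralizer (U : Set G) := by
      have := hQP0 hq
      rw [hP0def] at this
      exact this.2
    have h2 := mem_centralizer_iff.mp h1 v hv
    rw [← h2, mul_inv_cancel_right]; exact hv
  have hnle : ¬ (P0 ⊔ Q : Subgroup G) ≤ P0 := fun h => hQP0 (le_sup_right.trans h)
  have hne : ¬ (P : Subgroup G) ≤ centralizer (U : Set G) := by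
    intro h
    have hP0eq : P0 = (P : Subgroup G) := by rw [hP0def]; exact inf_eq_left.mpr h
    apply hnle
    have h1 : (P : Subgroup G) ≤ (P0 ⊔ Q : Subgroup G) := by rw [← hP0eq]; exact le_sup_left
    have h2 := Subgroup.eq_of_le_of_card_ge h1 hcardle
    rw [← h2, hP0eq]
  have hcyc : IsCyclic ↥((P : Subgroup G) ⊓ centralizer ((P : Subgroup G) : Set G)) := by
    by_contra h
    exact hne (le_centralizer_iff.mp (hUZ h))
  obtain ⟨hidx, hW⟩ := lemA P.2 hUP hUn hcyc hne
  rw [← hP0def] at hidx hW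
  have hc1 : Nat.card P0 * 2 = Nat.card (P : Subgroup G) := by
    rw [← card_eq_index_mul hP0P, hidx]
  have hc2 := card_eq_index_mul (le_sup_left : P0 ≤ P0 ⊔ Q)
  have hpos : 0 < Nat.card P0 := Nat.card_pos
  have hr : (P0.subgroupOf (P0 ⊔ Q)).index = 2 := by
    have h1 : (P0.subgroupOf (P0 ⊔ Q)).index ≠ 1 := by
      intro h
      rw [index_eq_one, subgroupOf_eq_top] at h
      exact hnle h
    have h0 : (P0.subgroupOf (P0 ⊔ Q)).index ≠ 0 := Subgroup.index_ne_zero_of_finite
    have h2 : Nat.card P0 * (P0.subgroupOf (P0 ⊔ Q)).index ≤ Nat.card P0 * 2 := by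
      rw [hc2, hc1]; exact hcardle
    have h3 := Nat.le_of_mul_le_mul_left h2 hpos
    omega
  have hnorm : (P0.subgroupOf (P0 ⊔ Q)).Normal := normal_of_index_eq_two hr
  have hqN : ∀ q ∈ Q, ∀ x ∈ P0, q * x * q⁻¹ ∈ P0 := by
    intro q hq x hx
    have := hnorm.conj_mem ⟨x, (le_sup_left : P0 ≤ P0 ⊔ Q) hx⟩ (mem_subgroupOf.mpr hx)
      ⟨q, (le_sup_right : Q ≤ P0 ⊔ Q) hq⟩
    exact mem_subgroupOf.mp this
  intro q hq v hv
  have hvP0 : v ∈ P0 := by
    rw [hP0def]
    refine ⟨hUP hv, ?_⟩
    change v ∈ centralizer (U : Set G)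
    rw [mem_centralizer_iff]
    intro a ha
    have := (IsKleinFour.isMulCommutative (G := U)).is_comm.comm ⟨a, ha⟩ ⟨v, hv⟩
    exact congrArg Subtype.val this
  apply hW (q * v * q⁻¹) (hqN q hq v hvP0)
  · intro x hx
    have h1 : q⁻¹ * x * q⁻¹⁻¹ ∈ P0 := hqN q⁻¹ (Q.inv_mem hq) x hx
    rw [hP0def] at h1
    have h2 : v * (q⁻¹ * x * q⁻¹⁻¹) = (q⁻¹ * x * q⁻¹⁻¹) * v := mem_centralizer_iff.mp h1.2 v hv
    calc x * (q * v * q⁻¹) = q * ((q⁻¹ * x * q⁻¹⁻¹) * v) * q⁻¹ := by group
      _ = q * (v * (q⁻¹ * x * q⁻¹⁻¹)) * q⁻¹ := by rw [h2]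
      _ = (q * v * q⁻¹) * x := by group
  · calc (q * v * q⁻¹) * (q * v * q⁻¹) = q * (v * v) * q⁻¹ := by group
      _ = 1 := by rw [KleinAct.mul_self_of_mem hv]; group

/-- Let `G` be a finite non-abelian simple group in which every local subgroup is solvable and which is of characteristic 2 type. Let `P` be a Sylow 2-subgroup of `G` and `U` a normal subgroup of `P` that is a four-group, with `U` central in `P` if the centre of `P` is not cyclic. Then `U` centralizes every subgroup of odd order of `G` that it normalizes. -/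
theorem result {G : Type*} [Group G] [Finite G]
    [IsSimpleGroup G] (hna : ¬ IsMulCommutative G) (hN : Cfsg.IsNGroup G) (h2 : Cfsg.IsCharacteristicTwoType G)
    (P : Sylow 2 G) (U : Subgroup G) (hUP : U ≤ (P : Subgroup G)) (hUn : (P : Subgroup G) ≤ Subgroup.normalizer (U : Set G))
    (hU4 : IsKleinFour ↥U)
    (hUZ : ¬ IsCyclic ↥((P : Subgroup G) ⊓ Subgroup.centralizer ((P : Subgroup G) : Set G)) →
      U ≤ Subgroup.centralizer ((P : Subgroup G) : Set G))
    (K : Subgroup G) (hK : Odd (Nat.card K)) (hUK : U ≤ Subgroup.normalizer (K : Set G)) :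
    U ≤ Subgroup.centralizer (K : Set G) := by

  classical
  haveI := hU4
  have hcopK : (Nat.card K).Coprime 2 := Nat.Coprime.symm (Nat.coprime_two_left.mpr hK)
  have key : ∀ u ∈ U, u ≠ 1 → K ⊓ centralizer {u} ≤ centralizer (U : Set G) := by
    intro u huU hu1
    have huu : u * u = 1 := KleinAct.mul_self_of_mem huU
    obtain ⟨H, hHdef⟩ : ∃ H : Subgroup G, H = normalizer (zpowers u : Set G) := ⟨_, rfl⟩
    have hcommH : ∀ h : G, h * u = u * h → h ∈ H := by
      intro h hh
      rw [hHdef, mem_normalizer_iff]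
      have hcomm : ∀ v ∈ zpowers u, h * v * h⁻¹ = v := by
        intro v hv
        obtain ⟨k, rfl⟩ := mem_zpowers_iff.mp hv
        have h2 : Commute h (u ^ k) := (show Commute h u from hh).zpow_right k
        rw [h2.eq]; group
      intro x
      constructor
      · intro hx; rw [hcomm x hx]; exact hx
      · intro hx
        have h1 := hcomm _ hx
        have h4 : h⁻¹ * (h * (h * x * h⁻¹) * h⁻¹) * h = h * x * h⁻¹ := by group
        have h5 : h⁻¹ * (h * x * h⁻¹) * h = x := by group
        rw [h1, h5] at h4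
        rw [h4]; exact hx
    have hHc : ∀ h ∈ H, h * u = u * h := by
      intro h hh
      rw [hHdef] at hh
      have hmem : h * u * h⁻¹ ∈ zpowers u := (mem_normalizer_iff.mp hh u).mp (mem_zpowers u)
      obtain ⟨k, hk⟩ := mem_zpowers_iff.mp hmem
      have hu2 : u ^ (2 : ℤ) = 1 := by
        rw [zpow_two]; exact huu
      rcases Int.even_or_odd' k with ⟨m, hm | hm⟩
      · exfalso
        rw [hm, zpow_mul, hu2, one_zpow] at hk
        apply hu1
        have e : u = h⁻¹ * (h * u * h⁻¹) * h := by group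
        rw [e, ← hk]; group
      · rw [hm, zpow_add, zpow_mul, hu2, one_zpow, one_mul, zpow_one] at hk
        rw [eq_mul_inv_iff_mul_eq] at hk
        exact hk.symm
    have hZp : IsPGroup 2 (zpowers u) := by
      refine P.2.to_le ?_
      rw [zpowers_le]; exact hUP huU
    have hZ1 : zpowers u ≠ ⊥ := by
      intro h; rw [zpowers_eq_bot] at h; exact hu1 h
    have hchar0 := h2.2 (zpowers u) hZp hZ1
    rw [← hHdef] at hchar0
    have hchar : centralizer (pCore 2 ↥H : Set ↥H) ≤ pCore 2 ↥H := hchar0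
    obtain ⟨Q, hQdef⟩ : ∃ Q : Subgroup G, Q = (pCore 2 ↥H).map H.subtype := ⟨_, rfl⟩
    have hQ : IsPGroup 2 Q := by rw [hQdef]; exact (pCore_isPGroup 2 ↥H).map _
    have hQnorm : ∀ h ∈ H, ∀ q ∈ Q, h * q * h⁻¹ ∈ Q := by
      intro h hh q hq
      rw [hQdef] at hq ⊢
      obtain ⟨q', hq', rfl⟩ := hq
      have hn : (pCore 2 ↥H).Normal := by
        haveI := pCore_characteristic 2 ↥H
        infer_instance
      exact ⟨⟨h, hh⟩ * q' * ⟨h, hh⟩⁻¹, hn.conj_mem q' hq' ⟨h, hh⟩, rfl⟩
    have hHQ : H ≤ normalizer (Q : Set G) := by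
      intro h hh
      rw [mem_normalizer_iff]
      intro q
      constructor
      · exact hQnorm h hh q
      · intro hq
        have := hQnorm h⁻¹ (H.inv_mem hh) _ hq
        have e : h⁻¹ * (h * q * h⁻¹) * h⁻¹⁻¹ = q := by group
        rwa [e] at this
    have hP0H : (P : Subgroup G) ⊓ centralizer (U : Set G) ≤ H := by
      intro x hx
      apply hcommH
      exact (mem_centralizer_iff.mp hx.2 u huU).symm
    have hNU := core_normalizes P U hUP hUn hUZ Q hQ (hP0H.trans hHQ)
    have hUcomm : ∀ a ∈ U, ∀ b ∈ U, a * b = b * a := by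
      intro a ha b hb
      have := (IsKleinFour.isMulCommutative (G := U)).is_comm.comm ⟨a, ha⟩ ⟨b, hb⟩
      exact congrArg Subtype.val this
    have hUH : U ≤ H := fun v hv => hcommH v (hUcomm v hv u huU)
    have hUQ : ∀ v (hv : v ∈ U), (⟨v, hUH hv⟩ : ↥H) ∈ pCore 2 ↥H := by
      intro v hv
      apply chain hchar ⟨u, hUH huU⟩ (Subtype.ext huu) (fun h => Subtype.ext (hHc h h.2))
      intro q hq
      have hqQ : (q : G) ∈ Q := by rw [hQdef]; exact ⟨q, hq, rfl⟩
      have h1 : (q : G) * v * (q : G)⁻¹ ∈ U := hNU q hqQ v hv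
      have hqu : (q : G) * u = u * (q : G) := hHc q q.2
      have h2 : (q : G) * v * (q : G)⁻¹ = v ∨ (q : G) * v * (q : G)⁻¹ = u * v := by
        by_cases hv1 : v = 1
        · left; rw [hv1]; group
        by_cases hvu : u = v
        · left; rw [← hvu, hqu]; group
        have e : v = (q : G)⁻¹ * ((q : G) * v * (q : G)⁻¹) * (q : G) := by group
        rcases KleinAct.cases_of_mem huU hv h1 hu1 hv1 hvu with h | h | h | h
        · exfalso; apply hv1; rw [e, h]; group
        · exfalso; apply hvu; rw [e, h, mul_assoc, ← hqu]; group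
        · left; exact h
        · right; exact h
      rcases h2 with h | h
      · left
        apply Subtype.ext
        change v * (q : G) * v⁻¹ = (q : G)
        rw [mul_inv_eq_iff_eq_mul] at h
        rw [← h]; group
      · right
        apply Subtype.ext
        change v * (q : G) * v⁻¹ = u * (q : G)
        rw [mul_inv_eq_iff_eq_mul] at h
        calc v * (q : G) * v⁻¹ = (u * (u * v * (q : G))) * v⁻¹ := by
              rw [← mul_assoc, ← mul_assoc, huu, one_mul]
          _ = (u * ((q : G) * v)) * v⁻¹ := by rw [← h]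
          _ = u * (q : G) := by group
    intro d hd
    have hdK : d ∈ K := hd.1
    have hdu : d * u = u * d := by
      have := mem_centralizer_iff.mp hd.2 u (Set.mem_singleton u)
      exact this.symm
    have hdH : d ∈ H := hcommH d hdu
    rw [mem_centralizer_iff]
    intro v hv
    have hvQ : v ∈ Q := by rw [hQdef]; exact ⟨⟨v, hUH hv⟩, hUQ v hv, rfl⟩
    have hc1 : d * v * d⁻¹ * v⁻¹ ∈ Q := Q.mul_mem (hQnorm d hdH v hvQ) (Q.inv_mem hvQ)
    have hc2 : d * v * d⁻¹ * v⁻¹ ∈ K := by
      have h1 : v * d⁻¹ * v⁻¹ ∈ K := (mem_normalizer_iff.mp (hUK hv) d⁻¹).mp (K.inv_mem hdK)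
      have e : d * v * d⁻¹ * v⁻¹ = d * (v * d⁻¹ * v⁻¹) := by group
      rw [e]; exact K.mul_mem hdK h1
    have hbot : Q ⊓ K = ⊥ := inf_eq_bot_of_pGroup_of_coprime hQ hcopK
    have hc3 : d * v * d⁻¹ * v⁻¹ = 1 := by
      have : d * v * d⁻¹ * v⁻¹ ∈ Q ⊓ K := ⟨hc1, hc2⟩
      rw [hbot, mem_bot] at this
      exact this
    rw [mul_inv_eq_one, mul_inv_eq_iff_eq_mul] at hc3
    exact hc3.symm
  haveI : IsMulCommutative U := IsKleinFour.isMulCommutative
  have hcop : (Nat.card U).Coprime (Nat.card K) := by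
    rw [IsKleinFour.card_four]
    have : (2 ^ 2).Coprime (Nat.card K) := Nat.Coprime.pow_left 2 hcopK.symm
    exact this
  have hgen := Cfsg.Agent.S0058.result U K IsKleinFour.not_isCyclic hUK hcop
  have hKU : K ≤ centralizer (U : Set G) := by
    rw [← hgen]
    apply iSup₂_le
    intro a ha
    exact key a ha.1 ha.2
  exact le_centralizer_iff.mp hKU

end Cfsg.Agent.S1957
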