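import Cfsg.Statements.S2002
import Cfsg.Agent.H12.ZLoc3

set_option autoImplicit false
open Cfsg
open Cfsg.Agent.H12

namespace Cfsg.Agent.S2002

/-- Let p be a prime dividing the order of the finite group G, P a Sylow p-subgroup, W a conjugacy functor for p on G with Z(H) ≤ W(H) for every nontrivial p-subgroup H, and V a central functor (a conjugacy functor with V(H) ≤ Z(H), and V(H) ≤ V(K) whenever Z(H) ≤ Z(K)). Say that W with V controls strong fusion in a subgroup L when some Sylow p-subgroup Q of L has the property: whenever X ⊆ Q and a ∈ L with a⁻¹Xa ⊆ Q, then a = c b with c ∈ C_L(X) and b = b₁ ⋯ bₙ a product of elements each in N_L(W(Q)) or in C_L(V(Q)) such that every partial conjugate (b₁ ⋯ bₖ)⁻¹ X (b₁ ⋯ bₖ) lies in Q. If W with V controls strong fusion in N_G(H) for every subgroup H with Z(P) ≤ H ≤ P, then W with V controls strong fusion in G. -/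
theorem result {G : Type*} [Group G] [Finite G] {p : ℕ} [Fact p.Prime] (hdiv : p ∣ Nat.card G) (P : Sylow p G) (W V : Subgroup G → Subgroup G) (hW : Cfsg.IsConjugacyFunctor p W) (hV : Cfsg.IsConjugacyFunctor p V) (hWZ : ∀ H : Subgroup G, IsPGroup p ↥H → H ⊓ Subgroup.centralizer ((H : Subgroup G) : Set G) ≤ W H) (hVZ : ∀ H : Subgroup G, IsPGroup p ↥H → V H ≤ H ⊓ Subgroup.centralizer ((H : Subgroup G) : Set G)) (hVmono : ∀ H K : Subgroup G, IsPGroup p ↥H → IsPGroup p ↥K → H ≠ ⊥ → K ≠ ⊥ → H ⊓ Subgroup.centralizer ((H : Subgroup G) : Set G) ≤ K ⊓ Subgroup.centralizer ((K : Subgroup G) : Set G) → V H ≤ V K) (hloc : ∀ H : Subgroup G, (P : Subgroup G) ⊓ Subgroup.centralizer (((P : Subgroup G) : Subgroup G) : Set G) ≤ H → H ≤ (P : Subgroup G) → ∃ Q : Subgroup G, Q ≤ Subgroup.normalizer ((H : Subgroup G) : Set G) ∧ IsPGroup p ↥Q ∧ ¬ p ∣ (Q).relIndex (Subgroup.normalizer ((H : Subgroup G) : Set G)) ∧ ∀ (X : Set G) (a : G), X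 ⊆ Q → a ∈ Subgroup.normalizer ((H : Subgroup G) : Set G) → (fun x => a⁻¹ * x * a) '' X ⊆ Q → ∃ c ∈ Subgroup.normalizer ((H : Subgroup G) : Set G) ⊓ Subgroup.centralizer X, ∃ (n : ℕ) (b : Fin n → G), (∀ i, b i ∈ Subgroup.normalizer ((H : Subgroup G) : Set G) ⊓ Subgroup.normalizer ((W Q : Subgroup G) : Set G) ∨ b i ∈ Subgroup.normalizer ((H : Subgroup G) : Set G) ⊓ Subgroup.centralizer ((V Q : Subgroup G) : Set G)) ∧ a = c * (List.ofFn b).prod ∧ ∀ k : ℕ, k ≤ n → (fun x => (((List.ofFn b).take k).prod)⁻¹ * x * ((List.ofFn b).take k).prod) '' ((fun x => c⁻¹ * x * c) '' X) ⊆ Q) : ∃ Q : Subgroup G, IsPGroup p ↥Q ∧ ¬ p ∣ Q.index ∧ ∀ (X : Set G) (a : G), X ⊆ Q → (fun x => a⁻¹ * x * a) '' X ⊆ Q → ∃ c ∈ Subgroup.centralizer X, ∃ (n : ℕ) (b : Fin n → G), (∀ i, b i ∈ ⊤ ⊓ Subgroup.normalizer ((W Q : Subgroup G) : Set G) ∨ b i ∈ ⊤ ⊓ Subgroup.centralizer ((V Q : Subgroup G) : Set G)) ∧ a = c * (List.ofFn b).prod ∧ ∀ k : ℕ, k ≤ n →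 (fun x => (((List.ofFn b).take k).prod)⁻¹ * x * ((List.ofFn b).take k).prod) '' ((fun x => c⁻¹ * x * c) '' X) ⊆ Q := by
  have key := wv_global hdiv P W V hW hV hWZ hVmono (by
    intro H hZH hHP
    obtain ⟨Q, hQN, hQp, hQidx, hQ⟩ := hloc H hZH hHP
    refine ⟨Q, hQN, hQp, hQidx, ?_⟩
    intro B a hB ha hBa
    obtain ⟨c, hc, n, b, hb, hab, hstay⟩ := hQ (B : Set G) a hB ha (by
      rintro _ ⟨x, hx, rfl⟩
      exact hBa (conj_mem_cj hx))
    have hcB : ∀ x ∈ B, c⁻¹ * x * c = x := by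
      intro x hx
      have := Subgroup.mem_centralizer_iff.mp hc.2 x hx
      rw [mul_assoc, this]; group
    refine ⟨(List.ofFn b).prod, WChain.ofList _ _ ?_ ?_, ?_⟩
    · intro x hx
      rw [List.mem_ofFn] at hx
      obtain ⟨i, rfl⟩ := hx
      rcases hb i with h | h
      · exact Or.inl h.2
      · exact Or.inr h.2
    · intro k hk
      rw [List.length_ofFn] at hk
      intro z hz
      have hz' := mem_cj.mp hz
      have := hstay k hk ⟨_, ⟨_, hz', rfl⟩, rfl⟩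
      simp only [] at this
      rw [hcB _ hz'] at this
      have e : ((List.ofFn b).take k).prod⁻¹ * (((List.ofFn b).take k).prod * z * ((List.ofFn b).take k).prod⁻¹) *
          ((List.ofFn b).take k).prod = z := by group
      rw [e] at this
      exact this
    · intro x hx
      rw [hab]
      calc ((List.ofFn b).prod)⁻¹ * x * (List.ofFn b).prod
          = ((List.ofFn b).prod)⁻¹ * (c⁻¹ * x * c) * (List.ofFn b).prod := by rw [hcB x hx]
        _ = _ := by group)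
  refine ⟨P, P.2, P.not_dvd_index, ?_⟩
  intro X a hX hXa
  have hA : Subgroup.closure X ≤ (P : Subgroup G) := (Subgroup.closure_le _).mpr hX
  obtain ⟨g', hg1, hg2⟩ := key (Subgroup.closure X) a hA (closure_conj_le hXa)
  obtain ⟨l, hl1, hl2, hl3⟩ := hg1.toList hA
  have hcX : ∀ x ∈ X, (a * g'⁻¹)⁻¹ * x * (a * g'⁻¹) = x := by
    intro x hx
    have := hg2 x (Subgroup.subset_closure hx)
    calc (a * g'⁻¹)⁻¹ * x * (a * g'⁻¹) = g' * (a⁻¹ * x * a) * g'⁻¹ := by group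
      _ = g' * (g'⁻¹ * x * g') * g'⁻¹ := by rw [this]
      _ = x := by group
  refine ⟨a * g'⁻¹, ?_, l.length, l.get, ?_, ?_, ?_⟩
  · rw [Subgroup.mem_centralizer_iff]
    intro x hx
    have := hcX x hx
    calc x * (a * g'⁻¹) = (a * g'⁻¹) * ((a * g'⁻¹)⁻¹ * x * (a * g'⁻¹)) := by group
      _ = (a * g'⁻¹) * x := by rw [this]
  · intro i
    rcases hl1 (l.get i) (List.get_mem l i) with h | h
    · exact Or.inl ⟨Subgroup.mem_top _, h⟩
    · exact Or.inr ⟨Subgroup.mem_top _, h⟩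
  · rw [List.ofFn_get, hl2]; group
  · intro k hk
    rw [List.ofFn_get]
    rintro _ ⟨_, ⟨x, hx, rfl⟩, rfl⟩
    change _ * ((a * g'⁻¹)⁻¹ * x * (a * g'⁻¹)) * _ ∈ (P : Subgroup G)
    rw [hcX x hx]
    exact hl3 k hk (conj_mem_cj (Subgroup.subset_closure hx))

end Cfsg.Agent.S2002
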