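import Cfsg.Statements.S2015
import Cfsg.Agent.H12.KTr

set_option autoImplicit false
universe u
open Cfsg
open Cfsg.Agent.H12

namespace Cfsg.Agent.S2015

/-- For p ≥ 5, every finite p-group P has a characteristic subgroup K containing Z(P), depending only on P, whose normalizer controls transfer wherever P is a Sylow subgroup: for every finite group G and every embedding ι of P onto a Sylow p-subgroup of G, the intersection of ι(P) with the derived subgroup of G equals its intersection with the derived subgroup of N_G(ι(K)). -/
theorem result (p : ℕ) [Fact p.Prime] (hp : 5 ≤ p) (P : Type u) [Group P] [Finite P] (hP : IsPGroup p P) : ∃ K : Subgroup P, K.Characteristic ∧ Subgroup.center P ≤ K ∧ ∀ (G : Type u) [Group G] [Finite G] (ι : P →* G), Function.Injective ι → (∃ T : Sylow p G, (T : Subgroup G) = ι.range) → ι.range ⊓ commutator G = ι.range ⊓ (commutator ↥(Subgroup.normalizer ((K.map ι : Subgroup G) : Set G))).map (Subgroup.normalizer ((K.map ι : Subgroup G) : Set G)).subtype := by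

  refine ⟨Cfsg.kInfLower P, ?_, center_le_kInfLower, ?_⟩
  · rw [Subgroup.characteristic_iff_map_eq]
    intro φ
    exact kInfLower_map_equiv φ
  · intro G _ _ ι hι hT
    obtain ⟨T, hT⟩ := hT
    have h1 := controls_at_sylow Cfsg.kInfLower isCharPFunctor_kInfLower (kInfLower_controls (G := G) hp) T
    have h2 : Cfsg.inducedFunctor Cfsg.kInfLower (T : Subgroup G) = (Cfsg.kInfLower P).map ι := by
      have h3 := inducedFunctor_map (isCharPFunctor_kInfLower (p := p)) ι (⊤ : Subgroup P)
        (hP.to_subgroup _) hι.injOn
      rw [← MonoidHom.range_eq_map, ← hT] at h3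
      rw [← h3]
      congr 1
      exact kInfLower_map_equiv Subgroup.topEquiv
    rw [h2, hT] at h1
    rw [h1, Subgroup.map_subtype_commutator]

end Cfsg.Agent.S2015
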