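import Cfsg.Statements.S2163

set_option autoImplicit false
open Cfsg

namespace Cfsg.Agent.S2163

open Matrix

theorem result {F : Type*} [Field F] [Fintype F] [CharP F 2] {n : ℕ} (hn : 3 ≤ n) (ℓ : ℕ) (h1 : 1 ≤ ℓ) (h2 : 2 * ℓ ≤ n) :
    ∃ a : Matrix.SpecialLinearGroup (Fin n) F, (a : Matrix (Fin n) (Fin n) F) = 1 + Matrix.of (fun i j : Fin n => if j.val < ℓ ∧ i.val = j.val + (n - ℓ) then (1 : F) else 0) ∧ orderOf a = 2 ∧ ((a : Matrix (Fin n) (Fin n) F) - 1).rank = ℓ := by
  set N : Matrix (Fin n) (Fin n) F := Matrix.of (fun i j : Fin n => if j.val < ℓ ∧ i.val = j.val + (n - ℓ) then (1 : F) else 0) with hN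
  have hNN : N * N = 0 := by
    ext i j
    rw [Matrix.mul_apply]
    apply Finset.sum_eq_zero
    intro k _
    simp only [hN, Matrix.of_apply]
    by_cases hk : k.val < ℓ ∧ i.val = k.val + (n - ℓ)
    · have : ¬ (j.val < ℓ ∧ k.val = j.val + (n - ℓ)) := by omega
      rw [if_neg this, mul_zero]
    · rw [if_neg hk, zero_mul]
  have : Nonempty (Fin n) := ⟨⟨0, by omega⟩⟩
  have : CharP (Matrix (Fin n) (Fin n) F) 2 := Matrix.charP 2
  have hsq : (1 + N) * (1 + N) = 1 := by
    rw [add_mul, mul_add, mul_add, hNN]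
    simp only [one_mul, mul_one, add_zero]
    rw [add_assoc, CharTwo.add_self_eq_zero, add_zero]
  have hdet : (1 + N).det = 1 := by
    have h : (1 + N).det * (1 + N).det = 1 := by rw [← Matrix.det_mul, hsq, Matrix.det_one]
    have h' : ((1 + N).det + 1) ^ 2 = 0 := by
      rw [CharTwo.add_sq, sq, h, one_pow, CharTwo.add_self_eq_zero]
    exact CharTwo.add_eq_zero.mp (pow_eq_zero_iff two_ne_zero |>.mp h')
  have hNne : N ≠ 0 := by
    intro h0
    have := congrFun (congrFun h0 ⟨n - ℓ, by omega⟩) ⟨0, by omega⟩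
    simp [hN] at this
    omega
  obtain ⟨a, ha⟩ : ∃ a : Matrix.SpecialLinearGroup (Fin n) F, (a : Matrix (Fin n) (Fin n) F) = 1 + N := ⟨⟨_, hdet⟩, rfl⟩
  refine ⟨a, ha, ?_, ?_⟩
  · apply orderOf_eq_prime
    · apply Subtype.ext
      rw [sq, Matrix.SpecialLinearGroup.coe_mul, ha, hsq, Matrix.SpecialLinearGroup.coe_one]
    · intro h
      apply hNne
      have := congrArg (fun k : Matrix.SpecialLinearGroup (Fin n) F => (k : Matrix (Fin n) (Fin n) F)) h
      simp only [ha, Matrix.SpecialLinearGroup.coe_one] at this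
      simpa using this
  · rw [ha, add_sub_cancel_left]
    let r : Fin ℓ → Fin n := fun k => ⟨k.val + (n - ℓ), by omega⟩
    let c : Fin ℓ → Fin n := fun k => ⟨k.val, by omega⟩
    apply le_antisymm
    · calc N.rank ≤ (Finset.univ.image r).card := by
            apply Matrix.rank_le_card_of_support_subset
            intro i hi
            rw [Function.mem_support] at hi
            obtain ⟨j, hj⟩ := Function.ne_iff.mp hi
            simp only [hN, Matrix.row, Matrix.of_apply, Pi.zero_apply, ne_eq, ite_eq_right_iff, one_ne_zero, imp_false, not_not] at hj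
            simp only [Finset.coe_image, Finset.coe_univ, Set.image_univ, Set.mem_range]
            exact ⟨⟨j.val, hj.1⟩, Fin.ext hj.2.symm⟩
        _ ≤ (Finset.univ : Finset (Fin ℓ)).card := Finset.card_image_le
        _ = ℓ := by simp
    · have hsub : N.submatrix r c = 1 := by
        ext k k'
        simp only [hN, Matrix.submatrix_apply, Matrix.of_apply, r, c, Matrix.one_apply]
        by_cases hkk : k = k'
        · subst hkk
          simp
        · have : ¬ (k'.val < ℓ ∧ k.val + (n - ℓ) = k'.val + (n - ℓ)) := by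
            intro h
            apply hkk
            apply Fin.ext
            omega
          rw [if_neg this, if_neg hkk]
      calc ℓ = (1 : Matrix (Fin ℓ) (Fin ℓ) F).rank := by simp
        _ = (N.submatrix r c).rank := by rw [hsub]
        _ ≤ N.rank := Matrix.rank_submatrix_le _ _ _

end Cfsg.Agent.S2163
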