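import Cfsg.Statements.S2165

set_option autoImplicit false
open Cfsg

namespace Cfsg.Agent.S2165

open Matrix

/-- the involution swapping `i` and `i + (n - ℓ)` for `i < ℓ`. -/
def sw (n ℓ : ℕ) (h2 : 2 * ℓ ≤ n) (i : Fin n) : Fin n :=
  ⟨if i.val < ℓ then i.val + (n - ℓ) else if n - ℓ ≤ i.val then i.val - (n - ℓ) else i.val, by
    have := i.2
    split_ifs <;> omega⟩

theorem sw_val (n ℓ : ℕ) (h2 : 2 * ℓ ≤ n) (i : Fin n) :
    (sw n ℓ h2 i).val = if i.val < ℓ then i.val + (n - ℓ) else if n - ℓ ≤ i.val then i.val - (n - ℓ) else i.val := rfl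

theorem sw_sw (n ℓ : ℕ) (h2 : 2 * ℓ ≤ n) (i : Fin n) : sw n ℓ h2 (sw n ℓ h2 i) = i := by
  apply Fin.ext
  have := i.2
  rw [sw_val, sw_val]
  split_ifs <;> omega

theorem result {F : Type*} [Field F] [Fintype F] [CharP F 2] {n q : ℕ} (hF : Fintype.card F = q ^ 2) (hn : 3 ≤ n) (ℓ : ℕ) (h1 : 1 ≤ ℓ) (h2 : 2 * ℓ ≤ n) :
    ∃ a : ↥(Cfsg.SU n F q), (((a : Matrix.SpecialLinearGroup (Fin n) F) : Matrix (Fin n) (Fin n) F) = Matrix.of (fun i j : Fin n => if (j.val < ℓ ∧ i.val = j.val + (n - ℓ)) ∨ (i.val < ℓ ∧ j.val = i.val + (n - ℓ)) ∨ (i = j ∧ ℓ ≤ i.val ∧ i.val < n - ℓ) then (1 : F) else 0)) ∧ orderOf a = 2 ∧ ((((a : Matrix.SpecialLinearGroup (Fin n) F) : Matrix (Fin n) (Fin n) F)) - 1).rank = ℓ := by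
  set M : Matrix (Fin n) (Fin n) F := Matrix.of (fun i j : Fin n => if (j.val < ℓ ∧ i.val = j.val + (n - ℓ)) ∨ (i.val < ℓ ∧ j.val = i.val + (n - ℓ)) ∨ (i = j ∧ ℓ ≤ i.val ∧ i.val < n - ℓ) then (1 : F) else 0) with hM
  let σ : Fin n → Fin n := sw n ℓ h2
  have hσσ : ∀ i, σ (σ i) = i := sw_sw n ℓ h2
  have hMσ : ∀ i j, M i j = if σ i = j then 1 else 0 := by
    intro i j
    simp only [hM, Matrix.of_apply]
    congr 1
    rw [Fin.ext_iff (a := σ i), Fin.ext_iff (a := i), sw_val]
    have := i.2
    have := j.2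
    apply propext
    split_ifs <;> omega
  have hMv : ∀ v : Fin n → F, M *ᵥ v = fun i => v (σ i) := by
    intro v
    ext i
    simp [Matrix.mulVec, dotProduct, hMσ]
  have hMM : M * M = 1 := by
    ext i k
    rw [Matrix.mul_apply]
    simp only [hMσ, Matrix.one_apply]
    simp only [ite_mul, one_mul, zero_mul, Finset.sum_ite_eq, Finset.mem_univ, if_true, hσσ]
  have hdet : M.det = 1 := by
    have h : M.det * M.det = 1 := by rw [← Matrix.det_mul, hMM, Matrix.det_one]
    have h' : (M.det + 1) ^ 2 = 0 := by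
      rw [CharTwo.add_sq, sq, h, one_pow, CharTwo.add_self_eq_zero]
    exact CharTwo.add_eq_zero.mp (pow_eq_zero_iff two_ne_zero |>.mp h')
  obtain ⟨a₀, ha₀⟩ : ∃ a : Matrix.SpecialLinearGroup (Fin n) F, (a : Matrix (Fin n) (Fin n) F) = M := ⟨⟨_, hdet⟩, rfl⟩
  let σe : Equiv.Perm (Fin n) := ⟨σ, σ, hσσ, hσσ⟩
  have hmem : a₀ ∈ Cfsg.SU n F q := by
    intro u v
    have : (slToMat n F) a₀ = M := ha₀
    rw [this, hMv, hMv]
    unfold hermForm
    exact Equiv.sum_comp σe (fun i => u i * v i ^ q)
  have hMne : M ≠ 1 := by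
    intro h
    have := congrFun (congrFun h ⟨0, by omega⟩) ⟨0, by omega⟩
    rw [hMσ, Matrix.one_apply_eq, if_neg] at this
    · exact zero_ne_one this
    · rw [Fin.ext_iff, sw_val]
      simp
      omega
  refine ⟨⟨a₀, hmem⟩, ha₀, ?_, ?_⟩
  · apply orderOf_eq_prime
    · apply Subtype.ext
      apply Subtype.ext
      change ((a₀ ^ 2 : Matrix.SpecialLinearGroup (Fin n) F) : Matrix (Fin n) (Fin n) F) = 1
      rw [sq, Matrix.SpecialLinearGroup.coe_mul, ha₀, hMM]
    · intro h
      apply hMne
      have := congrArg (fun k : ↥(Cfsg.SU n F q) => ((k : Matrix.SpecialLinearGroup (Fin n) F) : Matrix (Fin n) (Fin n) F)) h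
      simpa [ha₀] using this
  · change ((a₀ : Matrix (Fin n) (Fin n) F) - 1).rank = ℓ
    rw [ha₀]
    set D := M - 1 with hD
    have hDij : ∀ i j, D i j = (if σ i = j then 1 else 0) - (if i = j then 1 else 0) := by
      intro i j
      rw [hD, Matrix.sub_apply, hMσ, Matrix.one_apply]
    let r : Fin ℓ → Fin n := fun k => ⟨k.val, by omega⟩
    let c : Fin ℓ → Fin n := fun k => ⟨k.val + (n - ℓ), by omega⟩
    apply le_antisymm
    · rw [Matrix.rank_eq_finrank_span_row]
      have hle : Submodule.span F (Set.range D.row) ≤ Submodule.span F (Set.range (fun k : Fin ℓ => D.row (r k))) := by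
        rw [Submodule.span_le]
        rintro _ ⟨i, rfl⟩
        by_cases hi : i.val < ℓ
        · exact Submodule.subset_span ⟨⟨i.val, hi⟩, rfl⟩
        · by_cases hi' : n - ℓ ≤ i.val
          · have hlt : (σ i).val < ℓ := by
              have := i.2
              rw [sw_val]; split_ifs; omega
            have : D.row i = - D.row (r ⟨(σ i).val, hlt⟩) := by
              ext j
              have hr : r ⟨(σ i).val, hlt⟩ = σ i := rfl
              simp only [Matrix.row, Pi.neg_apply]
              rw [hr, hDij, hDij, hσσ]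
              ring
            rw [this]
            exact Submodule.neg_mem _ (Submodule.subset_span ⟨_, rfl⟩)
          · have hfix : σ i = i := by
              apply Fin.ext
              rw [sw_val, if_neg hi, if_neg hi']
            have : D.row i = 0 := by
              ext j
              simp only [Matrix.row, Pi.zero_apply]
              rw [hDij, hfix, sub_self]
            rw [this]
            exact Submodule.zero_mem _
      calc Module.finrank F (Submodule.span F (Set.range D.row))
          ≤ Module.finrank F (Submodule.span F (Set.range (fun k : Fin ℓ => D.row (r k)))) := Submodule.finrank_mono hle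
        _ ≤ Fintype.card (Fin ℓ) := finrank_range_le_card _
        _ = ℓ := by simp
    · have hsub : D.submatrix r c = 1 := by
        ext k k'
        simp only [Matrix.submatrix_apply, Matrix.one_apply]
        rw [hDij]
        have h1' : ¬ (r k = c k') := by
          rw [Fin.ext_iff]
          have := k.2
          simp only [r, c]
          omega
        rw [if_neg h1', sub_zero]
        congr 1
        apply propext
        rw [Fin.ext_iff, Fin.ext_iff, sw_val]
        have := k.2
        simp only [r, c]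
        split_ifs <;> omega
      calc ℓ = (1 : Matrix (Fin ℓ) (Fin ℓ) F).rank := by simp
        _ = (D.submatrix r c).rank := by rw [hsub]
        _ ≤ D.rank := Matrix.rank_submatrix_le _ _ _

end Cfsg.Agent.S2165
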