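import Cfsg.Statements.S2166
import Cfsg.Agent.Lib.Helper15.NF2
import Cfsg.Agent.Lib.Helper15.SpExtra
import Cfsg.Agent.Lib.Helper18.StdForm
import Cfsg.Agent.S0749
import Cfsg.Agent.S2167

set_option autoImplicit false
open Cfsg

namespace Cfsg.Agent.S2166


open Matrix Module Cfsg.Agent.Lib.Helper15 Cfsg.Agent.Lib.Helper18

variable {F : Type*} [Field F] {m : ℕ}

/-- `a - 1` -/
def spN (a : symplecticGroup (Fin m) F) : (Fin m ⊕ Fin m → F) →ₗ[F] (Fin m ⊕ Fin m → F) := spL a - LinearMap.id

theorem spN_apply (a : symplecticGroup (Fin m) F) (x : Fin m ⊕ Fin m → F) : spN a x = spL a x - x := rfl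

theorem spB_nd (x : Fin m ⊕ Fin m → F) (h : ∀ y, sympB m F x y = 0) : x = 0 := by
  by_contra hx
  obtain ⟨y, hy⟩ := sympB_nondeg x hx
  exact hy (h y)

theorem spN_adj {a : symplecticGroup (Fin m) F} (ha : a * a = 1) (x y : Fin m ⊕ Fin m → F) :
    sympB m F (spN a x) y = sympB m F x (spN a y) := by
  rw [spN_apply, spN_apply, map_sub, map_sub, LinearMap.sub_apply]
  congr 1
  rw [← spL_form a x (spL a y), ← spL_mul, ha, spL_one]

theorem spN_spN [CharP F 2] {a : symplecticGroup (Fin m) F} (ha : a * a = 1) (x : Fin m ⊕ Fin m → F) :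
    spN a (spN a x) = 0 := by
  rw [spN_apply, spN_apply, map_sub, ← spL_mul, ha, spL_one]
  have : x - spL a x - (spL a x - x) = (2 : F) • (x - spL a x) := by rw [two_smul]; abel
  rw [this, CharTwo.two_eq_zero, zero_smul]

noncomputable abbrev spBeta (a : symplecticGroup (Fin m) F) : LinearMap.BilinForm F (Fin m ⊕ Fin m → F) :=
  LinearMap.BilinForm.compRight (sympB m F) (spN a)

theorem spBeta_self (a : symplecticGroup (Fin m) F) (x : Fin m ⊕ Fin m → F) :
    spBeta a x x = sympB m F x (spL a x) := by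
  rw [LinearMap.BilinForm.compRight_apply, spN_apply, map_sub, sympB_isAlt x, sub_zero]

theorem spBeta_symm [CharP F 2] {a : symplecticGroup (Fin m) F} (ha : a * a = 1) (x y : Fin m ⊕ Fin m → F) :
    spBeta a x y = spBeta a y x := by
  rw [LinearMap.BilinForm.compRight_apply, LinearMap.BilinForm.compRight_apply, ← spN_adj ha,
    ← sympB_isAlt.neg_eq, CharTwo.neg_eq]

theorem isConj_of_std [CharP F 2] {a b : symplecticGroup (Fin m) F}
    (ha : a * a = 1) (hb : b * b = 1) {κ : Type*} [Fintype κ] [DecidableEq κ] {σ : κ → κ}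
    (hσ : Function.Involutive σ) (v v' : κ → Fin m ⊕ Fin m → F) (hv : StdGram (spBeta a) σ v)
    (hp : ∀ x, (∀ i, spBeta a (v i) x = 0) → ∀ y, spBeta a x y = 0) (hv' : StdGram (spBeta b) σ v')
    (hp' : ∀ x, (∀ i, spBeta b (v' i) x = 0) → ∀ y, spBeta b x y = 0) : IsConj a b := by
  have hli := nil_li hσ hv
  have hli' := nil_li hσ hv'
  have hzero : ∀ (a : symplecticGroup (Fin m) F), a * a = 1 → ∀ (v : κ → Fin m ⊕ Fin m → F),
      ∀ x ∈ Submodule.span F (Set.range (fun j => spN a (v j))),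
      ∀ y ∈ Submodule.span F (Set.range (fun j => spN a (v j))), sympB m F x y = 0 := by
    intro a ha v x hx y hy
    have hle : Submodule.span F (Set.range (fun j => spN a (v j))) ≤ LinearMap.range (spN a) := by
      rw [Submodule.span_le]
      rintro _ ⟨j, rfl⟩
      exact ⟨v j, rfl⟩
    obtain ⟨p, rfl⟩ := hle hx
    obtain ⟨q, rfl⟩ := hle hy
    rw [spN_adj ha, spN_spN ha, map_zero]
  let bs := Basis.span hli
  let bs' := Basis.span hli'
  obtain ⟨h, hh1, hh2⟩ := Cfsg.Agent.S0749.result (sympB m F)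
    ⟨fun x hx => spB_nd x hx, fun y hy => spB_nd y (fun x => by rw [← sympB_isAlt.neg_eq, hy x, neg_zero])⟩ sympB_isAlt _ _ (bs.equiv bs' (Equiv.refl κ)) (by
    intro x x'
    rw [hzero a ha v _ x.2 _ x'.2, hzero b hb v' _ (Subtype.coe_prop _) _ (Subtype.coe_prop _)])
  have hh3 : ∀ j, h (spN a (v j)) = spN b (v' j) := by
    intro j
    have := hh2 (bs j)
    rw [Basis.equiv_apply, Basis.span_apply, Basis.span_apply] at this
    exact this
  have hM : ∀ x, LinearMap.toMatrix' (h : (Fin m ⊕ Fin m → F) →ₗ[F] (Fin m ⊕ Fin m → F)) *ᵥ x = h x := by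
    intro x
    rw [LinearMap.toMatrix'_mulVec]; rfl
  let c : symplecticGroup (Fin m) F := ⟨LinearMap.toMatrix' (h : (Fin m ⊕ Fin m → F) →ₗ[F] (Fin m ⊕ Fin m → F)),
    mem_sp_of_preserve _ (fun u v => by rw [hM, hM, hh1])⟩
  have hc : ∀ x, spL c x = h x := hM
  rw [isConj_iff]
  refine ⟨c, ?_⟩
  rw [mul_inv_eq_iff_eq_mul]
  apply spL_ext
  intro x
  rw [spL_mul, spL_mul, hc, hc]
  have f1 := nil_formula spB_nd (spN_adj ha) hσ hv hp x
  have f2 := nil_formula spB_nd (spN_adj hb) hσ hv' hp' (h x)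
  have e1 : spL a x = x + spN a x := by rw [spN_apply]; abel
  have e2 : spL b (h x) = h x + spN b (h x) := by rw [spN_apply]; abel
  rw [e1, e2, map_add, f1, f2, map_sum]
  congr 1
  apply Finset.sum_congr rfl
  intro j _
  rw [map_smul, hh3, ← hh3 (σ j), hh1]

theorem finrank_range_spN (a : symplecticGroup (Fin m) F) :
    finrank F (LinearMap.range (spN a)) = ((a : Matrix (Fin m ⊕ Fin m) (Fin m ⊕ Fin m) F) - 1).rank := by
  have : spN a = Matrix.mulVecLin ((a : Matrix (Fin m ⊕ Fin m) (Fin m ⊕ Fin m) F) - 1) := by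
    ext x : 1
    simp [spN, spL]
  rw [this]; rfl

/-- classification of the involutions of `Sp` in characteristic two -/
theorem isConj_of_invariants [Fintype F] [CharP F 2] {a b : symplecticGroup (Fin m) F}
    (ha : a * a = 1) (hb : b * b = 1)
    (hr : finrank F (LinearMap.range (spN a)) = finrank F (LinearMap.range (spN b)))
    (hty : (∀ x, sympB m F x (spL a x) = 0) ↔ ∀ x, sympB m F x (spL b x) = 0) : IsConj a b := by
  have hperf : ∀ c : F, ∃ d, d * d = c := by
    intro c
    obtain ⟨d, hd⟩ := FiniteField.isSquare_of_char_two (ringChar.eq F 2) c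
    exact ⟨d, hd.symm⟩
  by_cases hτ : ∀ x, sympB m F x (spL a x) = 0
  · have halt : ∀ a : symplecticGroup (Fin m) F, (∀ x, sympB m F x (spL a x) = 0) → (spBeta a).IsAlt := by
      intro a h x
      rw [spBeta_self]
      exact h x
    obtain ⟨k, v, hv, hp⟩ := exists_hyperbolic (halt a hτ)
    obtain ⟨k', v', hv', hp'⟩ := exists_hyperbolic (halt b (hty.1 hτ))
    have e1 := nil_finrank spB_nd (spN_adj ha) Sum.swap_swap hv hp
    have e2 := nil_finrank spB_nd (spN_adj hb) Sum.swap_swap hv' hp'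
    have : k = k' := by
      simp only [Fintype.card_sum, Fintype.card_fin] at e1 e2
      omega
    subst this
    exact isConj_of_std ha hb Sum.swap_swap v v' hv hp hv' hp'
  · have hna : ∀ a : symplecticGroup (Fin m) F, (¬ ∀ x, sympB m F x (spL a x) = 0) → ∃ x, spBeta a x x ≠ 0 := by
      intro a h
      push Not at h
      obtain ⟨x, hx⟩ := h
      exact ⟨x, by rw [spBeta_self]; exact hx⟩
    obtain ⟨k, v, hv, hp⟩ := exists_orthonormal hperf (spBeta_symm ha) (hna a hτ)
    obtain ⟨k', v', hv', hp'⟩ := exists_orthonormal hperf (spBeta_symm hb) (hna b (fun h => hτ (hty.2 h)))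
    have e1 := nil_finrank spB_nd (spN_adj ha) (fun _ => rfl) hv hp
    have e2 := nil_finrank spB_nd (spN_adj hb) (fun _ => rfl) hv' hp'
    have : k = k' := by
      simp only [Fintype.card_fin] at e1 e2
      omega
    subst this
    exact isConj_of_std ha hb (fun _ => rfl) v v' hv hp hv' hp'


/-- Conjugacy of involutions in the symplectic group Sp_{2m}(F), F a finite field of characteristic two, m ≥ 2 (Sp taken as the matrices A with A J Aᵀ = J, acting on column vectors, with the alternating form f(u, v) = u ⬝ (J v)). For an involution t write V(t) for the set of vectors v with f(v, t v) = 0 (a subspace). Two involutions a, b are conjugate in Sp_{2m}(F) exactly when a − 1 and b − 1 have the same rank and, in case that rank is even, V(a) and V(b) have the same number of elements. -/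
theorem result {F : Type*} [Field F] [Fintype F] [CharP F 2] {m : ℕ} (hm : 2 ≤ m) (a b : ↥(Matrix.symplecticGroup (Fin m) F)) (ha : orderOf a = 2) (hb : orderOf b = 2) :
    IsConj a b ↔ ((((a : ↥(Matrix.symplecticGroup (Fin m) F)) : Matrix (Fin m ⊕ Fin m) (Fin m ⊕ Fin m) F) - 1).rank = (((b : ↥(Matrix.symplecticGroup (Fin m) F)) : Matrix (Fin m ⊕ Fin m) (Fin m ⊕ Fin m) F) - 1).rank ∧
      (Even (((a : ↥(Matrix.symplecticGroup (Fin m) F)) : Matrix (Fin m ⊕ Fin m) (Fin m ⊕ Fin m) F) - 1).rank → Nat.card {v : Fin m ⊕ Fin m → F // Cfsg.sympForm m F v (Matrix.mulVec ((a : ↥(Matrix.symplecticGroup (Fin m) F)) : Matrix (Fin m ⊕ Fin m) (Fin m ⊕ Fin m) F) v) = 0} = Nat.card {v : Fin m ⊕ Fin m → F // Cfsg.sympForm m F v (Matrix.mulVec ((b : ↥(Matrix.symplecticGroup (Fin m) F)) : Matrix (Fin m ⊕ Fin m) (Fin m ⊕ Fin m) F) v) = 0})) := by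
  classical
  have ha2 : a * a = 1 := by
    have := pow_orderOf_eq_one a
    rwa [ha, _root_.sq] at this
  have hb2 : b * b = 1 := by
    have := pow_orderOf_eq_one b
    rwa [hb, _root_.sq] at this
  have hcardV : Nat.card (Fin m ⊕ Fin m → F) = Fintype.card F ^ (2 * m) := by
    rw [Nat.card_fun, Nat.card_eq_fintype_card, Nat.card_eq_fintype_card, Fintype.card_sum, Fintype.card_fin, two_mul]
  -- alternating type in terms of the cardinality
  have halt : ∀ c : symplecticGroup (Fin m) F, (∀ x, Cfsg.sympForm m F x ((c : Matrix (Fin m ⊕ Fin m) (Fin m ⊕ Fin m) F) *ᵥ x) = 0) ↔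
      Nat.card {v : Fin m ⊕ Fin m → F // Cfsg.sympForm m F v ((c : Matrix (Fin m ⊕ Fin m) (Fin m ⊕ Fin m) F) *ᵥ v) = 0}
        = Fintype.card F ^ (2 * m) := by
    intro c
    constructor
    · intro h
      rw [← hcardV]
      exact Nat.card_congr (Equiv.subtypeUnivEquiv h)
    · intro h x
      by_contra hx
      have := Fintype.card_subtype_lt (p := fun v : Fin m ⊕ Fin m → F =>
        Cfsg.sympForm m F v ((c : Matrix (Fin m ⊕ Fin m) (Fin m ⊕ Fin m) F) *ᵥ v) = 0) hx
      rw [← Nat.card_eq_fintype_card, ← Nat.card_eq_fintype_card, h, hcardV] at this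
      exact lt_irrefl _ this
  constructor
  · intro h
    obtain ⟨c, hc⟩ := isConj_iff.1 h
    constructor
    · have e1 : (b : Matrix (Fin m ⊕ Fin m) (Fin m ⊕ Fin m) F) - 1
          = (c : Matrix (Fin m ⊕ Fin m) (Fin m ⊕ Fin m) F) * ((a : Matrix (Fin m ⊕ Fin m) (Fin m ⊕ Fin m) F) - 1)
            * ((c⁻¹ : symplecticGroup (Fin m) F) : Matrix (Fin m ⊕ Fin m) (Fin m ⊕ Fin m) F) := by
        have e2 : (c : Matrix (Fin m ⊕ Fin m) (Fin m ⊕ Fin m) F)
            * ((c⁻¹ : symplecticGroup (Fin m) F) : Matrix (Fin m ⊕ Fin m) (Fin m ⊕ Fin m) F) = 1 := by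
          have := congrArg (fun g : symplecticGroup (Fin m) F => (g : Matrix (Fin m ⊕ Fin m) (Fin m ⊕ Fin m) F))
            (mul_inv_cancel c)
          exact this
        have e3 : (b : Matrix (Fin m ⊕ Fin m) (Fin m ⊕ Fin m) F)
            = (c : Matrix (Fin m ⊕ Fin m) (Fin m ⊕ Fin m) F) * (a : Matrix (Fin m ⊕ Fin m) (Fin m ⊕ Fin m) F)
            * ((c⁻¹ : symplecticGroup (Fin m) F) : Matrix (Fin m ⊕ Fin m) (Fin m ⊕ Fin m) F) := by
          rw [← hc]; rfl
        rw [mul_sub, sub_mul, mul_one, e2, e3]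
      rw [e1, Matrix.rank_mul_eq_left_of_isUnit_det _ _ (SymplecticGroup.symplectic_det (c⁻¹).2),
        Matrix.rank_mul_eq_right_of_isUnit_det _ _ (SymplecticGroup.symplectic_det c.2)]
    · intro _
      let e : (Fin m ⊕ Fin m → F) ≃ (Fin m ⊕ Fin m → F) :=
        { toFun := spL c
          invFun := spL c⁻¹
          left_inv := fun x => by rw [← spL_mul, inv_mul_cancel, spL_one]
          right_inv := fun x => by rw [← spL_mul, mul_inv_cancel, spL_one] }
      apply Nat.card_congr
      apply Equiv.subtypeEquiv e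
      intro v
      have e4 : spL b (spL c v) = spL c (spL a v) := by
        rw [← spL_mul, ← spL_mul, ← hc]
        congr 2
        group
      show _ ↔ Cfsg.sympForm m F (spL c v) (spL b (spL c v)) = 0
      have e5 : ∀ x y, Cfsg.sympForm m F x y = sympB m F x y := fun x y => (sympB_apply x y).symm
      rw [e4, e5, e5, spL_form]
      rfl
  · rintro ⟨hr, hcd⟩
    apply isConj_of_invariants ha2 hb2
    · rw [finrank_range_spN, finrank_range_spN, hr]
    · have e : ∀ c : symplecticGroup (Fin m) F, (∀ x, sympB m F x (spL c x) = 0) ↔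
          (∀ x, Cfsg.sympForm m F x ((c : Matrix (Fin m ⊕ Fin m) (Fin m ⊕ Fin m) F) *ᵥ x) = 0) := by
        intro c
        constructor
        · intro h x; rw [Cfsg.sympForm, ← sympB_apply]; exact h x
        · intro h x; have := h x; rw [Cfsg.sympForm, ← sympB_apply] at this; exact this
      rw [e, e]
      constructor
      · intro h
        have h1 := (Cfsg.Agent.S2167.result hm a ha).2 h
        rw [halt, ← hcd h1, ← halt]
        exact h
      · intro h
        have h1 := (Cfsg.Agent.S2167.result hm b hb).2 h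
        rw [halt, hcd (hr ▸ h1), ← halt]
        exact h

end Cfsg.Agent.S2166
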