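import Cfsg.Statements.S2168
import Cfsg.Agent.Lib.Helper15.Invol2

set_option autoImplicit false
open Cfsg

namespace Cfsg.Agent.S2168


open Matrix QuadraticMap Module Cfsg.Agent.Lib.Helper15

theorem generic {ι : Type} [Fintype ι] [DecidableEq ι] {F : Type*} [Field F] [Fintype F] [CharP F 2]
    (Q : QuadraticForm F (ι → F)) (hQ : (polarBilin Q).Nondegenerate)
    (t s : ↥(Cfsg.isometryGroup F ⇑Q)) (hs : orderOf s = 2) :
    IsConj t s ↔ ∃ g ∈ Cfsg.preserving (Units.coeHom (Matrix ι ι F)) (fun u v => Q (u + v) - Q u - Q v),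
      g * (t : GL ι F) * g⁻¹ = (s : GL ι F) := by
  constructor
  · intro h
    obtain ⟨c, hc⟩ := isConj_iff.1 h
    refine ⟨(c : GL ι F), ?_, ?_⟩
    · intro u v
      exact polar_act c u v
    · rw [← hc]; rfl
  · rintro ⟨g, hg, hgt⟩
    have hs2 : s * s = 1 := by rw [← _root_.sq, ← hs, pow_orderOf_eq_one]
    exact isConj_of_symp hQ hs2 g hg (mul_inv_eq_iff_eq_mul.1 hgt)


/-- Involutions in the full isometry group O of the hyperbolic quadratic form Σ x_i y_i in dimension 2m over a finite field F of characteristic two, m ≥ 4 (plus type): two elements of order 2 of O are conjugate in O exactly when they are conjugate under the group of all invertible matrices preserving the polar bilinear form (u, v) ↦ Q(u + v) − Q(u) − Q(v) (the symplectic group of that form). -/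
theorem result {F : Type*} [Field F] [Fintype F] [CharP F 2] {m : ℕ} (hm : 4 ≤ m) (t s : ↥(Cfsg.isometryGroup F (Cfsg.quadFormPlus m F))) (ht : orderOf t = 2) (hs : orderOf s = 2) :
    IsConj t s ↔ ∃ g ∈ Cfsg.preserving (Units.coeHom (Matrix (Fin m ⊕ Fin m) (Fin m ⊕ Fin m) F)) (fun u v => Cfsg.quadFormPlus m F (u + v) - Cfsg.quadFormPlus m F u - Cfsg.quadFormPlus m F v), g * ((t : ↥(Cfsg.isometryGroup F (Cfsg.quadFormPlus m F))) : GL (Fin m ⊕ Fin m) F) * g⁻¹ = ((s : ↥(Cfsg.isometryGroup F (Cfsg.quadFormPlus m F))) : GL (Fin m ⊕ Fin m) F) := by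
  have := generic (plusQ m F) (plusQ_nondegenerate m)
  rw [coe_plusQ] at this
  exact this t s hs

end Cfsg.Agent.S2168
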