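import Cfsg.Statements.S2169
import Cfsg.Agent.Lib.Helper15.RankMat

set_option autoImplicit false
open Cfsg

namespace Cfsg.Agent.S2169


open Cfsg.Agent.Lib.Helper15


/-- For the hyperbolic quadratic form Σ x_i y_i in dimension 2m over a finite field F of characteristic two, m ≥ 4 (plus type): an element of order 2 of the full isometry group O lies in the commutator subgroup Ω of O exactly when t − 1 has even rank. -/
theorem result {F : Type*} [Field F] [Fintype F] [CharP F 2] {m : ℕ} (hm : 4 ≤ m) (t : ↥(Cfsg.isometryGroup F (Cfsg.quadFormPlus m F))) (ht : orderOf t = 2) :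
    t ∈ Cfsg.Omega F (Cfsg.quadFormPlus m F) ↔ Even ((((t : ↥(Cfsg.isometryGroup F (Cfsg.quadFormPlus m F))) : GL (Fin m ⊕ Fin m) F) : Matrix (Fin m ⊕ Fin m) (Fin m ⊕ Fin m) F) - 1).rank := by
  classical
  clear ht
  revert t
  rw [← coe_plusQ]
  intro t
  exact mem_Omega_iff_even_rank (plusQ m F) (plusQ_nondegenerate m) (Or.inr (by simp; omega)) t

end Cfsg.Agent.S2169
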