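import Cfsg.Statements.S2172
import Cfsg.Agent.Lib.Helper15.Invol2

set_option autoImplicit false
open Cfsg

namespace Cfsg.Agent.S2172


open Matrix QuadraticMap Module Cfsg.Agent.Lib.Helper15


/-- Splitting of involution classes from O to Ω for the hyperbolic quadratic form Q = Σ x_i y_i in dimension 2m over a finite field F of characteristic two, m ≥ 4. Let t, s be involutions of the commutator subgroup Ω that are conjugate in the full isometry group O. If it is not the case that t − 1 has rank m and Q(v + t v) = 0 for every vector v, then t and s are conjugate by an element of Ω. If t − 1 has rank m and Q(v + t v) = 0 for all v, then t and s are conjugate by an element of Ω exactly when the intersection of the images of t − 1 and s − 1 has even dimension (so the class of t in O meets at most two classes of Ω). -/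
theorem result {F : Type*} [Field F] [Fintype F] [CharP F 2] {m : ℕ} (hm : 4 ≤ m) (t s : ↥(Cfsg.isometryGroup F (Cfsg.quadFormPlus m F))) (ht : orderOf t = 2) (hs : orderOf s = 2) (htO : t ∈ Cfsg.Omega F (Cfsg.quadFormPlus m F)) (hsO : s ∈ Cfsg.Omega F (Cfsg.quadFormPlus m F)) (hconj : IsConj t s) :
    (¬ (((((t : ↥(Cfsg.isometryGroup F (Cfsg.quadFormPlus m F))) : GL (Fin m ⊕ Fin m) F) : Matrix (Fin m ⊕ Fin m) (Fin m ⊕ Fin m) F) - 1).rank = m ∧ ∀ v : Fin m ⊕ Fin m → F, Cfsg.quadFormPlus m F (v + Matrix.mulVec (((t : ↥(Cfsg.isometryGroup F (Cfsg.quadFormPlus m F))) : GL (Fin m ⊕ Fin m) F) : Matrix (Fin m ⊕ Fin m) (Fin m ⊕ Fin m) F) v) = 0) →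
      ∃ g ∈ Cfsg.Omega F (Cfsg.quadFormPlus m F), g * t * g⁻¹ = s) ∧
    ((((((t : ↥(Cfsg.isometryGroup F (Cfsg.quadFormPlus m F))) : GL (Fin m ⊕ Fin m) F) : Matrix (Fin m ⊕ Fin m) (Fin m ⊕ Fin m) F) - 1).rank = m ∧ ∀ v : Fin m ⊕ Fin m → F, Cfsg.quadFormPlus m F (v + Matrix.mulVec (((t : ↥(Cfsg.isometryGroup F (Cfsg.quadFormPlus m F))) : GL (Fin m ⊕ Fin m) F) : Matrix (Fin m ⊕ Fin m) (Fin m ⊕ Fin m) F) v) = 0) →
      ((∃ g ∈ Cfsg.Omega F (Cfsg.quadFormPlus m F), g * t * g⁻¹ = s) ↔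
        Even (Module.finrank F ↥(LinearMap.range (Matrix.toLin' ((((t : ↥(Cfsg.isometryGroup F (Cfsg.quadFormPlus m F))) : GL (Fin m ⊕ Fin m) F) : Matrix (Fin m ⊕ Fin m) (Fin m ⊕ Fin m) F) - 1)) ⊓ LinearMap.range (Matrix.toLin' ((((s : ↥(Cfsg.isometryGroup F (Cfsg.quadFormPlus m F))) : GL (Fin m ⊕ Fin m) F) : Matrix (Fin m ⊕ Fin m) (Fin m ⊕ Fin m) F) - 1)))))) := by
  classical
  have hnd := plusQ_nondegenerate (F := F) m
  have hc : Fintype.card (Fin m ⊕ Fin m) = 2 * m := by simp; omega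
  have hex : Fintype.card F ≠ 2 ∨ Fintype.card (Fin m ⊕ Fin m) ≠ 4 := Or.inr (by rw [hc]; omega)
  have key1 : ∀ t s : ↥(Cfsg.isometryGroup F ⇑(plusQ m F)), orderOf t = 2 → IsConj t s →
      ¬ ((((t : GL (Fin m ⊕ Fin m) F) : Matrix (Fin m ⊕ Fin m) (Fin m ⊕ Fin m) F) - 1).rank = m ∧
        ∀ v : Fin m ⊕ Fin m → F, plusQ m F (v + Matrix.mulVec ((t : GL (Fin m ⊕ Fin m) F) : Matrix (Fin m ⊕ Fin m) (Fin m ⊕ Fin m) F) v) = 0) →
      ∃ g ∈ Cfsg.Omega F ⇑(plusQ m F), g * t * g⁻¹ = s := by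
    intro t s ht hconj hnot
    have ht2 : t * t = 1 := by rw [← _root_.sq, ← ht, pow_orderOf_eq_one]
    rcases exists_fixed_nonsingular_or hnd hc ht2 with ⟨x, hx, htx⟩ | ⟨h1, h2⟩
    · exact exists_Omega_conj hnd hex hconj x hx htx
    · exfalso
      apply hnot
      rw [← finrank_nilRange, ← ts_nilRange_iff]
      exact ⟨h1, h2⟩
  have key2 : ∀ t s : ↥(Cfsg.isometryGroup F ⇑(plusQ m F)), t ∈ Cfsg.Omega F ⇑(plusQ m F) → IsConj t s →
      ((((t : GL (Fin m ⊕ Fin m) F) : Matrix (Fin m ⊕ Fin m) (Fin m ⊕ Fin m) F) - 1).rank = m ∧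
        ∀ v : Fin m ⊕ Fin m → F, plusQ m F (v + Matrix.mulVec ((t : GL (Fin m ⊕ Fin m) F) : Matrix (Fin m ⊕ Fin m) (Fin m ⊕ Fin m) F) v) = 0) →
      ((∃ g ∈ Cfsg.Omega F ⇑(plusQ m F), g * t * g⁻¹ = s) ↔
        Even (Module.finrank F ↥(LinearMap.range (Matrix.toLin' (((t : GL (Fin m ⊕ Fin m) F) : Matrix (Fin m ⊕ Fin m) (Fin m ⊕ Fin m) F) - 1)) ⊓ LinearMap.range (Matrix.toLin' (((s : GL (Fin m ⊕ Fin m) F) : Matrix (Fin m ⊕ Fin m) (Fin m ⊕ Fin m) F) - 1))))) := by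
    intro t s htO hconj h
    rw [← finrank_nilRange, ← ts_nilRange_iff] at h
    rw [← nilRange_eq', ← nilRange_eq']
    exact Omega_conj_iff_even hnd hex hc htO hconj h.1 h.2
  rw [coe_plusQ] at key1 key2
  exact ⟨key1 t s ht hconj, key2 t s htO hconj⟩

end Cfsg.Agent.S2172
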