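import Cfsg.Statements.S2173
import Cfsg.Agent.Lib.Helper15.Invol2

set_option autoImplicit false
open Cfsg

namespace Cfsg.Agent.S2173


open Matrix QuadraticMap Module Cfsg.Agent.Lib.Helper15


/-- For the quadratic form Σ x_i y_i + (z₁² + c z₁ z₂ + d z₂²) in dimension 2m with anisotropic binary part over a finite field F of characteristic two, m ≥ 4 (minus type): two involutions of the commutator subgroup Ω that are conjugate in the full isometry group O are conjugate by an element of Ω (no class of involutions of O inside Ω splits). -/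
theorem result {F : Type*} [Field F] [Fintype F] [CharP F 2] {m : ℕ} (hm : 4 ≤ m) (c d : F) (hcd : ∀ z₁ z₂ : F, z₁ ^ 2 + c * z₁ * z₂ + d * z₂ ^ 2 = 0 → z₁ = 0 ∧ z₂ = 0) (t s : ↥(Cfsg.isometryGroup F (Cfsg.quadFormMinus (m - 1) F c d))) (ht : orderOf t = 2) (hs : orderOf s = 2) (htO : t ∈ Cfsg.Omega F (Cfsg.quadFormMinus (m - 1) F c d)) (hsO : s ∈ Cfsg.Omega F (Cfsg.quadFormMinus (m - 1) F c d)) (hconj : IsConj t s) :
    ∃ g ∈ Cfsg.Omega F (Cfsg.quadFormMinus (m - 1) F c d), g * t * g⁻¹ = s := by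
  classical
  have hnd := minusQ_nondegenerate (m - 1) c d hcd
  have hc : Fintype.card ((Fin (m - 1) ⊕ Fin (m - 1)) ⊕ Fin 2) = 2 * m := by simp; omega
  have key : ∀ t s : ↥(Cfsg.isometryGroup F ⇑(minusQ (m - 1) F c d)), orderOf t = 2 → IsConj t s →
      ∃ g ∈ Cfsg.Omega F ⇑(minusQ (m - 1) F c d), g * t * g⁻¹ = s := by
    intro t s ht hconj
    have ht2 : t * t = 1 := by
      have := pow_orderOf_eq_one t
      rw [ht, _root_.sq] at this
      exact this
    rcases exists_fixed_nonsingular_or hnd hc ht2 with ⟨x, hx, htx⟩ | ⟨h1, h2⟩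
    · exact exists_Omega_conj hnd (Or.inr (by rw [hc]; omega)) hconj x hx htx
    · exfalso
      have := minus_ts_le (m - 1) c d hcd (nilRange t) (fun u hu => by rw [← coe_minusQ]; exact h2 u hu)
      omega
  rw [coe_minusQ] at key
  exact key t s ht hconj

end Cfsg.Agent.S2173
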