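import Cfsg.Statements.S2231
import Cfsg.Agent.Lib.Helper13.AbSylow

set_option autoImplicit false
open Cfsg

namespace Cfsg.Agent.S2231

open Matrix Cfsg.Agent.Lib.Helper13

variable {p : ℕ}

local notation "SL3" => Matrix.SpecialLinearGroup (Fin 3) (ZMod p)
local notation "M3" => Matrix (Fin 3) (Fin 3) (ZMod p)

/-- upper unitriangular. -/
def UT (M : SL3) : Prop :=
  (M : M3) 1 0 = 0 ∧ (M : M3) 2 0 = 0 ∧ (M : M3) 2 1 = 0 ∧ (M : M3) 0 0 = 1 ∧ (M : M3) 1 1 = 1 ∧ (M : M3) 2 2 = 1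

theorem UT_one : UT (1 : SL3) := by
  simp [UT]

theorem UT_mul {A B : SL3} (hA : UT A) (hB : UT B) : UT (A * B) := by
  obtain ⟨a1, a2, a3, a4, a5, a6⟩ := hA
  obtain ⟨b1, b2, b3, b4, b5, b6⟩ := hB
  refine ⟨?_, ?_, ?_, ?_, ?_, ?_⟩ <;>
    simp [Matrix.SpecialLinearGroup.coe_mul, Matrix.mul_apply, Fin.sum_univ_three, a1, a2, a3, a4, a5, a6, b1, b2, b3, b4, b5, b6]

theorem UT_pow {A : SL3} (hA : UT A) (k : ℕ) : UT (A ^ k) := by
  induction k with
  | zero => rw [pow_zero]; exact UT_one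
  | succ k ih => rw [pow_succ]; exact UT_mul ih hA

theorem UT_pow_p [Fact p.Prime] (hp : p ≠ 2) {A : SL3} (hA : UT A) : A ^ p = 1 := by
  have hpp : p.Prime := Fact.out
  obtain ⟨a1, a2, a3, a4, a5, a6⟩ := hA
  apply Subtype.ext
  rw [Matrix.SpecialLinearGroup.coe_pow, Matrix.SpecialLinearGroup.coe_one]
  have : CharP M3 p := Matrix.charP p
  have hN : ((A : M3) - 1) ^ 3 = 0 := by
    rw [pow_succ, sq]
    ext i j
    fin_cases i <;> fin_cases j <;>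
      simp [Matrix.mul_apply, Fin.sum_univ_three, a1, a2, a3, a4, a5, a6]
  have h3 : 3 ≤ p := by
    have := hpp.two_le
    omega
  have h1 : (A : M3) = 1 + ((A : M3) - 1) := by abel
  rw [h1, add_pow_char_of_commute p (Commute.one_left _), one_pow, pow_eq_zero_of_le h3 hN, add_zero]

theorem UT_inv [Fact p.Prime] (hp : p ≠ 2) {A : SL3} (hA : UT A) : UT A⁻¹ := by
  have hpp : p.Prime := Fact.out
  have : A⁻¹ = A ^ (p - 1) := by
    apply inv_eq_of_mul_eq_one_left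
    rw [← pow_succ, Nat.sub_add_cancel hpp.one_le, UT_pow_p hp hA]
  rw [this]
  exact UT_pow hA _

/-- the group of upper unitriangular matrices. -/
def U (p : ℕ) [Fact p.Prime] (hp : p ≠ 2) : Subgroup (Matrix.SpecialLinearGroup (Fin 3) (ZMod p)) where
  carrier := {M | UT M}
  mul_mem' := fun ha hb => UT_mul ha hb
  one_mem' := UT_one
  inv_mem' := fun ha => UT_inv hp ha

theorem U_le_qd [Fact p.Prime] (hp : p ≠ 2) : U p hp ≤ qd p := by
  intro M hM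
  exact Subgroup.subset_closure ⟨hM.2.1, hM.2.2.1, hM.2.2.2.2.2⟩

theorem not_abP_qd [Fact p.Prime] (hp : p ≠ 2) : ¬ AbP p ↥(qd p) := by
  intro h
  have hx : (!![1, 1, 0; 0, 1, 0; 0, 0, 1] : M3).det = 1 := by
    simp [Matrix.det_fin_three]
  have hy : (!![1, 0, 0; 0, 1, 1; 0, 0, 1] : M3).det = 1 := by
    simp [Matrix.det_fin_three]
  obtain ⟨x, hxc⟩ : ∃ x : SL3, (x : M3) = !![1, 1, 0; 0, 1, 0; 0, 0, 1] := ⟨⟨_, hx⟩, rfl⟩
  obtain ⟨y, hyc⟩ : ∃ y : SL3, (y : M3) = !![1, 0, 0; 0, 1, 1; 0, 0, 1] := ⟨⟨_, hy⟩, rfl⟩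
  have hxU : x ∈ U p hp := by
    change UT x
    simp [UT, hxc]
  have hyU : y ∈ U p hp := by
    change UT y
    simp [UT, hyc]
  have hQ : IsPGroup p ((U p hp).subgroupOf (qd p)) := by
    rintro ⟨g, hg⟩
    refine ⟨1, ?_⟩
    apply Subtype.ext
    apply Subtype.ext
    rw [pow_one]
    exact UT_pow_p hp hg
  have hc := h _ hQ ⟨x, U_le_qd hp hxU⟩ hxU ⟨y, U_le_qd hp hyU⟩ hyU
  have hc' : x * y = y * x := congrArg Subtype.val hc
  have hc'' := congrArg (fun k : SL3 => (k : M3) 0 2) hc'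
  simp [Matrix.SpecialLinearGroup.coe_mul, hxc, hyc, Matrix.mul_apply, Fin.sum_univ_three] at hc''

theorem result {p : ℕ} [Fact p.Prime] (hp : p ≠ 2) {K : Type*} [Field K] [Fintype K] [CharP K p] : ¬ Cfsg.Involves ↥(Cfsg.qd p) (Matrix.ProjectiveSpecialLinearGroup (Fin 2) K) := by
  rintro ⟨K₀, R, hn, ⟨e⟩⟩
  have h1 : AbP p (Matrix.SpecialLinearGroup (Fin 2) K) := abP_sl2 p
  have h2 : AbP p (Matrix.ProjectiveSpecialLinearGroup (Fin 2) K) :=
    h1.of_surjective (QuotientGroup.mk' _) (QuotientGroup.mk'_surjective _)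
  have h3 : AbP p K₀ := h2.subgroup K₀
  have h4 : AbP p (K₀ ⧸ R.subgroupOf K₀) :=
    h3.of_surjective (QuotientGroup.mk' _) (QuotientGroup.mk'_surjective _)
  exact not_abP_qd hp (h4.of_injective e.symm.toMonoidHom e.symm.injective)

end Cfsg.Agent.S2231
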