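import Cfsg.Statements.S2268

set_option autoImplicit false
open Cfsg

namespace Cfsg.Agent.S2268

open Subgroup MulAction in
theorem frattini_step {G : Type*} [Group G] [Finite G] {p : ℕ} [Fact p.Prime]
    (P : Sylow p G) (hP : IsMulCommutative (P : Subgroup G)) (Q : Subgroup G) (hQ : Q ≤ (P : Subgroup G))
    (g : G) (hg : g ∈ normalizer (Q : Set G)) :
    ∃ c ∈ centralizer (Q : Set G), c * g ∈ normalizer ((P : Subgroup G) : Set G) := by
  have h1 : (P : Subgroup G) ≤ centralizer (Q : Set G) := by
    intro x hx y hy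
    have := hP.is_comm.comm ⟨x, hx⟩ ⟨y, hQ hy⟩
    exact (congrArg Subtype.val this).symm
  have h2 : ↑(g • P) ≤ centralizer (Q : Set G) := by
    rintro - ⟨z, hz, rfl⟩ y hy
    have hy' : g⁻¹ * y * g ∈ Q := by
      have := (mem_normalizer_iff.mp (inv_mem hg) y).mp hy
      simpa using this
    have := h1 hz _ hy'
    simp only [MulDistribMulAction.toMonoidEnd_apply, MulDistribMulAction.toMonoidHom_apply, MulAut.smul_def, MulAut.conj_apply]
    calc y * (g * z * g⁻¹) = g * ((g⁻¹ * y * g) * z) * g⁻¹ := by group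
      _ = g * (z * (g⁻¹ * y * g)) * g⁻¹ := by rw [this]
      _ = g * z * g⁻¹ * y := by group
  obtain ⟨h, hh⟩ :=
    exists_smul_eq (centralizer (Q : Set G)) ((g • P).subtype h2) (P.subtype h1)
  simp_rw [Sylow.smul_subtype, Subgroup.smul_def, smul_smul] at hh
  exact ⟨h, h.2, Sylow.smul_eq_iff_mem_normalizer.mp (Sylow.subtype_injective hh)⟩

theorem result {G : Type*} [Group G] [Finite G] {p : ℕ} [Fact p.Prime]
    (P : Sylow p G) (hP : IsMulCommutative (P : Subgroup G)) (Q : Subgroup G) (hQ : Q ≤ (P : Subgroup G)) :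
    Subgroup.normalizer (Q : Set G) =
      (Subgroup.normalizer (Q : Set G) ⊓ Subgroup.normalizer ((P : Subgroup G) : Set G)) ⊔ Subgroup.centralizer (Q : Set G) ∧
    ((Subgroup.centralizer (Q : Set G)).subgroupOf (Subgroup.normalizer (Q : Set G))).index ∣ ((Subgroup.centralizer ((P : Subgroup G) : Set G)).subgroupOf (Subgroup.normalizer ((P : Subgroup G) : Set G))).index := by
  have hCN : Subgroup.centralizer (Q : Set G) ≤ Subgroup.normalizer (Q : Set G) :=
    Subgroup.centralizer_le_normalizer _
  have key : Subgroup.normalizer (Q : Set G) =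
      (Subgroup.normalizer (Q : Set G) ⊓ Subgroup.normalizer ((P : Subgroup G) : Set G)) ⊔ Subgroup.centralizer (Q : Set G) := by
    apply le_antisymm
    · intro g hg
      obtain ⟨c, hc, hcg⟩ := frattini_step P hP Q hQ g hg
      have : g = c⁻¹ * (c * g) := by group
      rw [this]
      apply Subgroup.mul_mem
      · exact Subgroup.mem_sup_right (inv_mem hc)
      · exact Subgroup.mem_sup_left ⟨Subgroup.mul_mem _ (hCN hc) hg, hcg⟩
    · exact sup_le inf_le_left hCN
  refine ⟨key, ?_⟩
  set N := Subgroup.normalizer (Q : Set G) with hN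
  set C := Subgroup.centralizer (Q : Set G) with hC
  set NP := Subgroup.normalizer ((P : Subgroup G) : Set G) with hNP
  set CP := Subgroup.centralizer ((P : Subgroup G) : Set G) with hCP
  set A := N ⊓ NP with hA
  have hnorm : (C.subgroupOf N).Normal := by
    rw [Subgroup.normal_subgroupOf_iff_le_normalizer hCN]
    intro g hg
    rw [Subgroup.mem_normalizer_iff]
    have aux : ∀ g ∈ N, ∀ h ∈ C, g * h * g⁻¹ ∈ C := by
      intro g hg h hh y hy
      have hy' : g⁻¹ * y * g ∈ Q := by
        have := (Subgroup.mem_normalizer_iff.mp (inv_mem hg) y).mp hy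
        simpa using this
      have := hh _ hy'
      calc y * (g * h * g⁻¹) = g * ((g⁻¹ * y * g) * h) * g⁻¹ := by group
        _ = g * (h * (g⁻¹ * y * g)) * g⁻¹ := by rw [this]
        _ = g * h * g⁻¹ * y := by group
    intro h
    constructor
    · exact aux g hg h
    · intro hh
      have := aux g⁻¹ (inv_mem hg) _ hh
      simpa [mul_assoc] using this
  have e1 : (C.subgroupOf N).index = C.relIndex A := by
    have htop : A.subgroupOf N ⊔ C.subgroupOf N = ⊤ := by
      rw [← Subgroup.subgroupOf_sup inf_le_left hCN, ← key, Subgroup.subgroupOf_self]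
    rw [← Subgroup.relIndex_top_right, ← htop, Subgroup.relIndex_sup_right,
      Subgroup.relIndex_subgroupOf inf_le_left]
  have hCPC : CP ≤ C := Subgroup.centralizer_le hQ
  have hCPNP : CP ≤ NP := Subgroup.centralizer_le_normalizer _
  have hCPA : CP ≤ C ⊓ A := le_inf hCPC (le_inf (hCPC.trans hCN) hCPNP)
  rw [e1]
  change C.relIndex A ∣ CP.relIndex NP
  rw [← Subgroup.inf_relIndex_right, ← Subgroup.relIndex_mul_relIndex CP A NP (hCPA.trans inf_le_right) inf_le_right,
    ← Subgroup.relIndex_mul_relIndex CP (C ⊓ A) A hCPA inf_le_right]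
  exact Dvd.dvd.mul_right (Dvd.intro_left _ rfl) _

end Cfsg.Agent.S2268
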