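import Cfsg.Statements.S2270

set_option autoImplicit false
open Cfsg

namespace Cfsg.Agent.S2270

/-- If some element of the normalizer of `H` inverts an element `x ∈ H` with `x ^ 2 ≠ 1`, the automizer has even order. -/
theorem even_automizer {G : Type*} [Group G] [Finite G] (H : Subgroup G) (x h : G) (hx : x ∈ H)
    (hh : h ∈ Subgroup.normalizer (H : Set G)) (hinv : h * x * h⁻¹ = x⁻¹) (hx2 : x ^ 2 ≠ 1) :
    2 ∣ ((Subgroup.centralizer (H : Set G)).subgroupOf (Subgroup.normalizer (H : Set G))).index := by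
  rw [← Subgroup.normalizerMonoidHom_ker, Subgroup.index_ker]
  set φ := H.normalizerMonoidHom
  set y : MulAut H := φ ⟨h, hh⟩ with hy
  have hyx : y ⟨x, hx⟩ = ⟨x, hx⟩⁻¹ := by
    apply Subtype.ext
    simpa [hy, φ] using hinv
  have hpow : ∀ k : ℕ, (y ^ (2 * k)) ⟨x, hx⟩ = ⟨x, hx⟩ := by
    intro k
    induction k with
    | zero => simp
    | succ k ih =>
      rw [Nat.mul_succ, pow_add, MulAut.mul_apply, sq, MulAut.mul_apply, hyx, map_inv, hyx, inv_inv, ih]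
  have h2 : 2 ∣ orderOf y := by
    by_contra hnd
    obtain ⟨k, hk⟩ := Nat.odd_iff.mpr (Nat.two_dvd_ne_zero.mp hnd)
    have h1 : (y ^ (2 * k + 1)) ⟨x, hx⟩ = ⟨x, hx⟩ := by
      rw [← hk, pow_orderOf_eq_one]; rfl
    rw [pow_succ, MulAut.mul_apply, hyx, map_inv, hpow] at h1
    apply hx2
    have h3 : x⁻¹ = x := congrArg Subtype.val h1
    rw [sq]
    nth_rewrite 1 [← h3]
    exact inv_mul_cancel x
  have hmem : y ∈ φ.range := MonoidHom.mem_range.mpr ⟨_, rfl⟩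
  have h3 : orderOf (⟨y, hmem⟩ : φ.range) ∣ Nat.card φ.range := orderOf_dvd_natCard _
  rw [Subgroup.orderOf_mk] at h3
  exact h2.trans h3

theorem result (n : ℕ) (hn : 3 ≤ n) {p : ℕ} [Fact p.Prime] (hp : p ≠ 2) (hpn : p ≤ n)
    (P : Sylow p (Equiv.Perm (Fin n))) (hP : IsMulCommutative (P : Subgroup (Equiv.Perm (Fin n)))) :
    2 ∣ ((Subgroup.centralizer ((P : Subgroup (Equiv.Perm (Fin n))) : Set (Equiv.Perm (Fin n)))).subgroupOf (Subgroup.normalizer ((P : Subgroup (Equiv.Perm (Fin n))) : Set (Equiv.Perm (Fin n))))).index := by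
  have hpp : p.Prime := Fact.out
  have hne : (P : Subgroup (Equiv.Perm (Fin n))) ≠ ⊥ := by
    apply Sylow.ne_bot_of_dvd_card
    rw [Nat.card_eq_fintype_card, Fintype.card_perm, Fintype.card_fin]
    exact (Nat.Prime.dvd_factorial hpp).mpr hpn
  obtain ⟨⟨x, hx⟩, hx1'⟩ := Subgroup.ne_bot_iff_exists_ne_one.mp hne
  have hx1 : x ≠ 1 := fun h' => hx1' (Subtype.ext h')
  have hx2 : x ^ 2 ≠ 1 := by
    intro h2
    obtain ⟨k, hk⟩ := (IsPGroup.iff_orderOf.mp P.2) ⟨x, hx⟩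
    rw [Subgroup.orderOf_mk] at hk
    have hd : p ^ k ∣ 2 := hk ▸ orderOf_dvd_of_pow_eq_one h2
    rcases Nat.eq_zero_or_pos k with rfl | hkpos
    · rw [pow_zero, orderOf_eq_one_iff] at hk
      exact hx1 hk
    · have : p ∣ 2 := (dvd_pow_self p hkpos.ne').trans hd
      exact hp ((Nat.prime_dvd_prime_iff_eq hpp Nat.prime_two).mp this)
  have hconj : IsConj x x⁻¹ := by
    rw [Equiv.Perm.isConj_iff_cycleType_eq, Equiv.Perm.cycleType_inv]
  obtain ⟨g, hg⟩ := isConj_iff.mp hconj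
  obtain ⟨k, hk, hkx⟩ := P.conj_eq_normalizer_conj_of_mem x g⁻¹ hx (by
    rw [inv_inv, hg]; exact inv_mem hx)
  rw [inv_inv, hg] at hkx
  exact even_automizer _ x k⁻¹ hx (inv_mem hk) (by rw [inv_inv]; exact hkx.symm) hx2

end Cfsg.Agent.S2270
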