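import Cfsg.Statements.S2336
import Cfsg.Agent.H25.SLVec

set_option autoImplicit false
open Cfsg

namespace Cfsg.Agent.S2336

/-- Let F be a finite field with q elements and n ≥ 3. The permutation character of SL_n(F) on the non-zero vectors of F^n (the function sending a matrix to the number of non-zero vectors it fixes) is the sum of the principal character and q − 1 pairwise distinct irreducible complex characters. -/
theorem result {F : Type*} [Field F] [Fintype F] [DecidableEq F] (n : ℕ) (hn : 3 ≤ n) :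
    ∃ χ : Fin (Fintype.card F - 1) → (Matrix.SpecialLinearGroup (Fin n) F → ℂ),
      (∀ i, Cfsg.IsIrrCharacter (Matrix.SpecialLinearGroup (Fin n) F) (χ i)) ∧ Function.Injective χ ∧
      ∀ g : Matrix.SpecialLinearGroup (Fin n) F,
        (Nat.card {v : Fin n → F // v ≠ 0 ∧ (g : Matrix (Fin n) (Fin n) F).mulVec v = v} : ℂ) = 1 + ∑ i, χ i g := by
  classical
  have hfinG : Finite (Matrix.SpecialLinearGroup (Fin n) F) := Subtype.finite
  have : Fintype (Matrix.SpecialLinearGroup (Fin n) F) := Fintype.ofFinite _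
  have hfinΩ : Finite (Cfsg.Agent.H25.SLVec.Om F n) := Subtype.finite
  have : Fintype (Cfsg.Agent.H25.SLVec.Om F n) := Fintype.ofFinite _
  have := Cfsg.Agent.H25.SLVec.pretransitive (F := F) hn
  have ha : (Pi.single ⟨0, by omega⟩ 1 : Fin n → F) ≠ 0 := by
    intro h
    have := congrFun h ⟨0, by omega⟩
    simp at this
  obtain ⟨b₀, hb₀⟩ := Cfsg.Agent.H25.SLVec.exists_generic hn
    (⟨Pi.single ⟨0, by omega⟩ 1, ha⟩ : Cfsg.Agent.H25.SLVec.Om F n)
  obtain ⟨χ, h1, h2, h3⟩ := Cfsg.Agent.H25.GenPair.main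
    (G := Matrix.SpecialLinearGroup (Fin n) F) (Ω := Cfsg.Agent.H25.SLVec.Om F n) (Z := Fˣ)
    Cfsg.Agent.H25.SLVec.free (Cfsg.Agent.H25.SLVec.gen hn) _ b₀ hb₀
  have hcard : Fintype.card Fˣ = Fintype.card F - 1 := Fintype.card_units F
  refine ⟨fun i => χ (Fin.cast hcard.symm i), fun i => h1 _, ?_, ?_⟩
  · intro i j hij
    exact Fin.cast_injective _ (h2 hij)
  · intro g
    have h4 : Nat.card {v : Fin n → F // v ≠ 0 ∧ (g : Matrix (Fin n) (Fin n) F).mulVec v = v} =
        Nat.card (MulAction.fixedBy (Cfsg.Agent.H25.SLVec.Om F n) g) := by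
      apply Nat.card_congr
      exact
        { toFun := fun v => ⟨⟨v.1, v.2.1⟩, Subtype.ext v.2.2⟩
          invFun := fun w => ⟨w.1.1, w.1.2, congrArg Subtype.val w.2⟩
          left_inv := fun v => rfl
          right_inv := fun w => rfl }
    rw [h4, h3 g]
    congr 1
    exact (Equiv.sum_comp (finCongr hcard.symm) (fun i => χ i g)).symm

end Cfsg.Agent.S2336
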