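import Mathlib
import Cfsg.Agent.Lib.Helper18.SzRep3
import Cfsg.Statements.S2337
-- import your own Cfsg.Agent.* helpers here

set_option autoImplicit false
open Cfsg Cfsg.Agent.Lib.Helper18 Matrix

namespace Cfsg.Agent.S2337

/-- For the Suzuki group Sz(q), q = 2^(2m+1) with m ≥ 1 (realised inside Sp₄ over the field with q elements), every irreducible complex representation of degree at least 2 has degree at least 2^m·(q − 1). -/
theorem result {F : Type*} [Field F] [Fintype F] (m : ℕ) (hm : 1 ≤ m) (hF : Fintype.card F = 2 ^ (2 * m + 1)) :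
    (∀ (k : ℕ) (ρ : Representation ℂ (Cfsg.Lie.Sz F (2 ^ (m + 1))) (Fin k → ℂ)), ρ.IsIrreducible → 2 ≤ k → 2 ^ m * (2 ^ (2 * m + 1) - 1) ≤ k) := by
  intro k ρ hirr hk
  have h := szData_of_card hm hF
  obtain ⟨e, he⟩ : ∃ e : Sz F m ≃* Lie.Sz F (2 ^ (m + 1)), e = LieSzEquiv h := ⟨_, rfl⟩
  obtain ⟨ρ', hρ'⟩ : ∃ ρ' : Representation ℂ (Sz F m) (Fin k → ℂ), ρ' = ρ.comp e.toMonoidHom :=
    ⟨_, rfl⟩
  have hb := szRep_degree_bound h ρ' hF ?_
  · rwa [Module.finrank_fin_fun] at hb
  · have hs := Sz_isSimpleGroup h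
    rcases (MonoidHom.normal_ker ρ').eq_bot_or_eq_top with hk' | hk'
    · refine ⟨1, fun h1 => ?_⟩
      have h2 : szTG h 0 1 ∈ ρ'.ker := h1
      rw [hk', Subgroup.mem_bot, ← szTG_zero h] at h2
      exact one_ne_zero (szTG_inj h h2).2
    · exfalso
      have htriv : ∀ g, ρ g = 1 := by
        intro g
        have h1 : e.symm g ∈ ρ'.ker := hk' ▸ Subgroup.mem_top _
        have h2 := MonoidHom.mem_ker.1 h1
        rw [hρ'] at h2
        simpa using h2
      have hk0 : 0 < k := by omega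
      let σ : Subrepresentation ρ :=
        ⟨Submodule.span ℂ {Pi.single (⟨0, hk0⟩ : Fin k) (1 : ℂ)}, by
          intro g v hv
          rw [htriv g]
          exact hv⟩
      rcases hirr.eq_bot_or_eq_top σ with h1 | h1
      · have h2 : σ.toSubmodule = ⊥ := by rw [h1]; rfl
        have h3 : (Pi.single (⟨0, hk0⟩ : Fin k) (1 : ℂ) : Fin k → ℂ) ∈ σ.toSubmodule :=
          Submodule.mem_span_singleton_self _
        rw [h2, Submodule.mem_bot] at h3
        have h4 := congrFun h3 ⟨0, hk0⟩
        simp at h4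
      · have h2 : σ.toSubmodule = ⊤ := by rw [h1]; rfl
        have h3 : Module.finrank ℂ σ.toSubmodule ≤ 1 := by
          have h4 := finrank_span_le_card (R := ℂ)
            ({Pi.single (⟨0, hk0⟩ : Fin k) (1 : ℂ)} : Set (Fin k → ℂ))
          simpa using h4
        rw [h2, finrank_top, Module.finrank_fin_fun] at h3
        omega

end Cfsg.Agent.S2337
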