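import Mathlib
import Cfsg.Statements.S2352

set_option autoImplicit false
open Cfsg

namespace Cfsg.Agent.S2352

open FreeGroup

variable (S : Finset (FreeGroup ℕ))

/-- left multiplication by a generator, as a partial bijection of `S` -/
def pe (i : ℕ) : {s : S // of i * s.1 ∈ S} ≃ {s : S // (of i)⁻¹ * s.1 ∈ S} where
  toFun s := ⟨⟨of i * s.1.1, s.2⟩, by simp [s.1.2]⟩
  invFun s := ⟨⟨(of i)⁻¹ * s.1.1, s.2⟩, by simp [s.1.2]⟩
  left_inv s := by ext; simp
  right_inv s := by ext; simp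

/-- the permutation of `S` attached to a generator -/
noncomputable def sg (i : ℕ) : Equiv.Perm S := by
  classical
  exact (pe S i).extendSubtype

theorem sg_apply (i : ℕ) (s : S) (h : of i * s.1 ∈ S) : sg S i s = ⟨of i * s.1, h⟩ := by
  classical
  unfold sg
  rw [Equiv.extendSubtype_apply_of_mem (pe S i) s h]
  rfl

theorem sg_inv_apply (i : ℕ) (s : S) (h : (of i)⁻¹ * s.1 ∈ S) : (sg S i)⁻¹ s = ⟨(of i)⁻¹ * s.1, h⟩ := by
  rw [Equiv.Perm.inv_eq_iff_eq, sg_apply S i ⟨(of i)⁻¹ * s.1, h⟩ (by simp [s.2])]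
  ext
  simp

theorem mk_cons (i : ℕ) (b : Bool) (L : List (ℕ × Bool)) :
    (FreeGroup.mk ((i, b) :: L) : FreeGroup ℕ) = (if b then of i else (of i)⁻¹) * FreeGroup.mk L := by
  cases b
  · simp only [Bool.false_eq_true, if_false, of, inv_mk, mul_mk, invRev]
    simp
  · simp only [if_true, of, mul_mk]
    simp

theorem key (L : List (ℕ × Bool)) (hS : ∀ T, T <:+ L → (FreeGroup.mk T : FreeGroup ℕ) ∈ S)
    (h1 : (1 : FreeGroup ℕ) ∈ S) :
      (FreeGroup.lift (sg S) (FreeGroup.mk L) ⟨1, h1⟩).1 = FreeGroup.mk L := by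
  induction L with
  | nil =>
    have : (FreeGroup.mk [] : FreeGroup ℕ) = 1 := rfl
    simp [this]
  | cons a L ih =>
    obtain ⟨i, b⟩ := a
    have hL : (FreeGroup.mk ((i, b) :: L) : FreeGroup ℕ) ∈ S := hS _ (List.suffix_refl _)
    have hL' : (FreeGroup.mk L : FreeGroup ℕ) ∈ S := hS L (List.suffix_cons _ _)
    have ih' := ih (fun T hT => hS T (hT.trans (List.suffix_cons _ _)))
    have ih'' : FreeGroup.lift (sg S) (FreeGroup.mk L) ⟨1, h1⟩ = ⟨FreeGroup.mk L, hL'⟩ := Subtype.ext ih'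
    have e := mk_cons i b L
    rw [e] at hL
    rw [e, _root_.map_mul, Equiv.Perm.mul_apply, ih'']
    cases b
    · simp only [Bool.false_eq_true, if_false] at hL ⊢
      rw [_root_.map_inv, lift_apply_of, sg_inv_apply S i ⟨FreeGroup.mk L, hL'⟩ hL]
    · simp only [if_true] at hL ⊢
      rw [lift_apply_of, sg_apply S i ⟨FreeGroup.mk L, hL'⟩ hL]

/-- an injective homomorphism into the alternating group -/
theorem exists_embedding (α : Type) [Fintype α] [DecidableEq α] (n : ℕ) (hn : 2 * Fintype.card α ≤ n) :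
    ∃ φ : Equiv.Perm α →* alternatingGroup (Fin n), Function.Injective φ := by
  classical
  have hcard : Fintype.card (α ⊕ α) ≤ Fintype.card (Fin n) := by
    rw [Fintype.card_sum, Fintype.card_fin]; omega
  obtain ⟨ι⟩ := Function.Embedding.nonempty_of_card_le hcard
  let ψ : Equiv.Perm α →* Equiv.Perm (Fin n) :=
    (Equiv.Perm.viaEmbeddingHom ι).comp ((Equiv.Perm.sumCongrHom α α).comp (MonoidHom.prod (MonoidHom.id _) (MonoidHom.id _)))
  have hψ : ∀ σ, ψ σ ∈ alternatingGroup (Fin n) := by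
    intro σ
    rw [Equiv.Perm.mem_alternatingGroup]
    simp only [ψ, MonoidHom.comp_apply, Equiv.Perm.viaEmbeddingHom_apply, Equiv.Perm.viaEmbedding,
      Equiv.Perm.sign_extendDomain, MonoidHom.prod_apply, MonoidHom.id_apply, Equiv.Perm.sumCongrHom_apply,
      Equiv.Perm.sign_sumCongr]
    exact Int.units_mul_self _
  refine ⟨ψ.codRestrict _ hψ, ?_⟩
  intro σ τ h
  have h1 : ψ σ = ψ τ := congrArg Subtype.val h
  have h2 := Equiv.Perm.viaEmbeddingHom_injective ι h1
  have h3 := Equiv.Perm.sumCongrHom_injective h2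
  exact congrArg Prod.fst h3

theorem result (w : FreeGroup ℕ) (hw : w ≠ 1) :
    ∃ N : ℕ, ∀ n : ℕ, N ≤ n → ∃ f : ℕ → alternatingGroup (Fin n), FreeGroup.lift f w ≠ 1 := by
  classical
  set L := w.toWord with hL
  have hwL : FreeGroup.mk L = w := FreeGroup.mk_toWord
  set S : Finset (FreeGroup ℕ) := (L.tails.map FreeGroup.mk).toFinset with hS
  have hmem : ∀ T, T <:+ L → (FreeGroup.mk T : FreeGroup ℕ) ∈ S := by
    intro T hT
    rw [hS, List.mem_toFinset, List.mem_map]
    exact ⟨T, (List.mem_tails _ _).mpr hT, rfl⟩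
  have h1 : (1 : FreeGroup ℕ) ∈ S := hmem [] (List.nil_suffix)
  have hkey := key S L hmem h1
  have hne : FreeGroup.lift (sg S) w ≠ 1 := by
    intro h
    rw [hwL, h] at hkey
    simp only [Equiv.Perm.coe_one, id_eq] at hkey
    exact hw hkey.symm
  refine ⟨2 * Fintype.card S, fun n hn => ?_⟩
  obtain ⟨φ, hφ⟩ := exists_embedding S n hn
  refine ⟨fun i => φ (sg S i), ?_⟩
  have hcomp : FreeGroup.lift (fun i => φ (sg S i)) = φ.comp (FreeGroup.lift (sg S)) := by
    ext i
    simp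
  rw [hcomp, MonoidHom.comp_apply]
  intro h
  exact hne (hφ (h.trans (_root_.map_one φ).symm))

end Cfsg.Agent.S2352
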