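import Mathlib
import Cfsg.Statements.S2353
import Cfsg.Agent.H14.SL2b

set_option autoImplicit false
open Cfsg

namespace Cfsg.Agent.S2353

open Matrix Polynomial

section Ring

variable {R : Type*} [CommRing R]

/-- constructor -/
def mk2 (M : Matrix (Fin 2) (Fin 2) R) (h : M.det = 1) : Matrix.SpecialLinearGroup (Fin 2) R := ⟨M, h⟩

@[simp] theorem coe_mk2 (M : Matrix (Fin 2) (Fin 2) R) (h : M.det = 1) :
    ((mk2 M h : Matrix.SpecialLinearGroup (Fin 2) R) : Matrix (Fin 2) (Fin 2) R) = M := rfl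

/-- upper unitriangular -/
def uM (x : R) : Matrix.SpecialLinearGroup (Fin 2) R := mk2 !![1, x; 0, 1] (by simp [Matrix.det_fin_two_of])

/-- lower unitriangular -/
def vM (x : R) : Matrix.SpecialLinearGroup (Fin 2) R := mk2 !![1, 0; x, 1] (by simp [Matrix.det_fin_two_of])

theorem uM_mul (x y : R) : uM x * uM y = uM (x + y) := by
  apply Subtype.ext
  simp only [Matrix.SpecialLinearGroup.coe_mul, uM, coe_mk2]
  ext i j
  fin_cases i <;> fin_cases j <;> simp [Matrix.mul_apply, Fin.sum_univ_two, add_comm]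

theorem vM_mul (x y : R) : vM x * vM y = vM (x + y) := by
  apply Subtype.ext
  simp only [Matrix.SpecialLinearGroup.coe_mul, vM, coe_mk2]
  ext i j
  fin_cases i <;> fin_cases j <;> simp [Matrix.mul_apply, Fin.sum_univ_two]

theorem uM_zero : uM (0 : R) = 1 := by
  apply Subtype.ext
  ext i j
  fin_cases i <;> fin_cases j <;> simp [uM]

theorem vM_zero : vM (0 : R) = 1 := by
  apply Subtype.ext
  ext i j
  fin_cases i <;> fin_cases j <;> simp [vM]

theorem uM_inv (x : R) : (uM x)⁻¹ = uM (-x) := by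
  rw [inv_eq_iff_mul_eq_one, uM_mul, add_neg_cancel, uM_zero]

theorem vM_inv (x : R) : (vM x)⁻¹ = vM (-x) := by
  rw [inv_eq_iff_mul_eq_one, vM_mul, add_neg_cancel, vM_zero]

/-- the generic elements -/
def gen (t : R) (i : ℕ) : Matrix.SpecialLinearGroup (Fin 2) R :=
  uM (t ^ (2 * i + 1)) * vM t * uM (t ^ (2 * i + 2))

theorem map_uM {S : Type*} [CommRing S] (φ : R →+* S) (x : R) :
    Matrix.SpecialLinearGroup.map φ (uM x) = uM (φ x) := by
  apply Subtype.ext
  ext i j
  fin_cases i <;> fin_cases j <;> simp [uM, Matrix.SpecialLinearGroup.map_apply_coe]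

theorem map_vM {S : Type*} [CommRing S] (φ : R →+* S) (x : R) :
    Matrix.SpecialLinearGroup.map φ (vM x) = vM (φ x) := by
  apply Subtype.ext
  ext i j
  fin_cases i <;> fin_cases j <;> simp [vM, Matrix.SpecialLinearGroup.map_apply_coe]

theorem map_gen {S : Type*} [CommRing S] (φ : R →+* S) (t : R) (i : ℕ) :
    Matrix.SpecialLinearGroup.map φ (gen t i) = gen (φ t) i := by
  simp only [gen, map_mul, map_uM, map_vM, map_pow]

theorem map_lift {S : Type*} [CommRing S] (φ : R →+* S) (t : R) (w : FreeGroup ℕ) :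
    Matrix.SpecialLinearGroup.map φ (FreeGroup.lift (gen t) w) = FreeGroup.lift (gen (φ t)) w := by
  have : (Matrix.SpecialLinearGroup.map φ).comp (FreeGroup.lift (gen t)) = FreeGroup.lift (gen (φ t)) := by
    ext i
    simp [map_gen]
  rw [← this]
  rfl

theorem uM_mul_col (x : R) (W : Matrix.SpecialLinearGroup (Fin 2) R) :
    (uM x * W).1 0 0 = W.1 0 0 + x * W.1 1 0 ∧ (uM x * W).1 1 0 = W.1 1 0 := by
  simp [uM, Matrix.mul_apply, Fin.sum_univ_two]

theorem vM_mul_col (x : R) (W : Matrix.SpecialLinearGroup (Fin 2) R) :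
    (vM x * W).1 0 0 = W.1 0 0 ∧ (vM x * W).1 1 0 = x * W.1 0 0 + W.1 1 0 := by
  simp [vM, Matrix.mul_apply, Fin.sum_univ_two]

end Ring

section Field

variable {F : Type*} [Field F]

/-- left parameter of a letter -/
noncomputable def al (l : ℕ × Bool) : F[X] := if l.2 then X ^ (2 * l.1 + 1) else - X ^ (2 * l.1 + 2)
/-- middle parameter of a letter -/
noncomputable def be (l : ℕ × Bool) : F[X] := if l.2 then X else - X
/-- right parameter of a letter -/
noncomputable def ga (l : ℕ × Bool) : F[X] := if l.2 then X ^ (2 * l.1 + 2) else - X ^ (2 * l.1 + 1)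

theorem letter_eq (l : ℕ × Bool) :
    cond l.2 (gen (X : F[X]) l.1) (gen (X : F[X]) l.1)⁻¹ = uM (al l) * vM (be l) * uM (ga l) := by
  obtain ⟨i, b⟩ := l
  cases b
  · simp only [cond_false, gen, al, be, ga, _root_.mul_inv_rev, uM_inv, vM_inv, Bool.false_eq_true, if_false, mul_assoc]
  · simp only [cond_true, gen, al, be, ga, if_true]

theorem degree_be (l : ℕ × Bool) : (be l : F[X]).degree = 1 := by
  obtain ⟨i, b⟩ := l
  cases b <;> simp [be]

theorem degree_aux (m n : ℕ) (hm : 1 ≤ m) (hn : 1 ≤ n) (hmn : m ≠ n) (p q : F[X]) (hp : p.degree = m) (hq : q.degree = n) :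
    1 ≤ (p + q).degree := by
  rcases lt_or_gt_of_ne hmn with h | h
  · rw [degree_add_eq_right_of_degree_lt (by rw [hp, hq]; exact_mod_cast h), hq]
    exact_mod_cast hn
  · rw [degree_add_eq_left_of_degree_lt (by rw [hp, hq]; exact_mod_cast h), hp]
    exact_mod_cast hm

theorem degree_ga_add_al (l l' : ℕ × Bool) (h : l.1 = l'.1 → l.2 = l'.2) : 1 ≤ (ga l + al l' : F[X]).degree := by
  obtain ⟨i, b⟩ := l
  obtain ⟨j, b'⟩ := l'
  cases b <;> cases b' <;> simp only [ga, al, Bool.false_eq_true, if_false, if_true] <;> simp at h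
  · exact degree_aux (2 * i + 1) (2 * j + 2) (by omega) (by omega) (by omega) _ _ (by simp) (by simp)
  · exact degree_aux (2 * i + 1) (2 * j + 1) (by omega) (by omega) (by omega) _ _ (by simp) (by simp)
  · exact degree_aux (2 * i + 2) (2 * j + 2) (by omega) (by omega) (by omega) _ _ (by simp) (by simp)
  · exact degree_aux (2 * i + 2) (2 * j + 1) (by omega) (by omega) (by omega) _ _ (by simp) (by simp)

/-- the product of a word -/
noncomputable def pw (L : List (ℕ × Bool)) : Matrix.SpecialLinearGroup (Fin 2) F[X] :=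
  (L.map fun x => cond x.2 (gen (X : F[X]) x.1) (gen (X : F[X]) x.1)⁻¹).prod

theorem key (l : ℕ × Bool) (L : List (ℕ × Bool)) (h : FreeGroup.IsReduced (l :: L)) :
    ((uM (- al l) * pw (F := F) (l :: L)).1 0 0).degree < ((uM (- al l) * pw (F := F) (l :: L)).1 1 0).degree := by
  induction L generalizing l with
  | nil =>
    have e : uM (- al l) * pw (F := F) [l] = vM (be l) * uM (ga l) := by
      simp only [pw, List.map_cons, List.map_nil, List.prod_cons, List.prod_nil, mul_one, letter_eq]
      rw [← mul_assoc, ← mul_assoc, uM_mul, neg_add_cancel, uM_zero, one_mul]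
    rw [e]
    obtain ⟨h1, h2⟩ := vM_mul_col (be l) (uM (ga l : F[X]))
    rw [h1, h2]
    simp only [uM, coe_mk2]
    simp [degree_be]
  | cons l' L ih =>
    rw [FreeGroup.isReduced_cons_cons] at h
    have ih' := ih l' h.2
    set Y := uM (- al l') * pw (F := F) (l' :: L) with hY
    have e : uM (- al l) * pw (F := F) (l :: l' :: L) = vM (be l) * (uM (ga l + al l') * Y) := by
      have e1 : pw (F := F) (l :: l' :: L) = (uM (al l) * vM (be l) * uM (ga l)) * pw (l' :: L) := by
        simp only [pw, List.map_cons, List.prod_cons, letter_eq]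
      have e2 : pw (F := F) (l' :: L) = uM (al l') * Y := by
        rw [hY, ← mul_assoc, uM_mul, add_neg_cancel, uM_zero, one_mul]
      rw [e1, e2, ← uM_mul]
      simp only [← mul_assoc]
      rw [uM_mul, neg_add_cancel, uM_zero, one_mul]
    rw [e]
    obtain ⟨h1, h2⟩ := vM_mul_col (be l) (uM (ga l + al l') * Y)
    obtain ⟨h3, h4⟩ := uM_mul_col (ga l + al l') Y
    rw [h1, h2, h3, h4]
    set x := Y.1 0 0
    set y := Y.1 1 0
    set ℓ : F[X] := ga l + al l'
    have hℓ : 1 ≤ ℓ.degree := degree_ga_add_al l l' h.1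
    have hy0 : y ≠ 0 := by
      intro h0
      rw [h0, degree_zero] at ih'
      exact not_lt_bot ih'
    have hy : (0 : WithBot ℕ) ≤ y.degree := zero_le_degree_iff.mpr hy0
    have hℓ0 : ℓ ≠ 0 := by
      intro h0
      rw [h0, degree_zero] at hℓ
      exact absurd hℓ (by simp)
    have hℓn : 1 ≤ ℓ.natDegree := by
      rw [degree_eq_natDegree hℓ0] at hℓ
      exact_mod_cast hℓ
    have d1 : y.degree < (ℓ * y).degree := by
      rw [degree_mul, degree_eq_natDegree hy0, degree_eq_natDegree hℓ0]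
      have : y.natDegree < ℓ.natDegree + y.natDegree := by omega
      exact_mod_cast this
    have d2 : (x + ℓ * y).degree = (ℓ * y).degree := degree_add_eq_right_of_degree_lt (ih'.trans d1)
    have d3 : (x + ℓ * y).degree < (be l * (x + ℓ * y)).degree := by
      have hz0 : x + ℓ * y ≠ 0 := by
        intro h0
        rw [h0, degree_zero] at d2
        rw [← d2] at d1
        exact not_lt_bot d1
      rw [degree_mul, degree_be, degree_eq_natDegree hz0]
      have : (x + ℓ * y).natDegree < 1 + (x + ℓ * y).natDegree := by omega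
      exact_mod_cast this
    have d4 : (be l * (x + ℓ * y) + y).degree = (be l * (x + ℓ * y)).degree :=
      degree_add_eq_left_of_degree_lt (by rw [← d2] at d1; exact d1.trans d3)
    rw [d4]
    exact d3

theorem entry_ne_zero (w : FreeGroup ℕ) (hw : w ≠ 1) : (FreeGroup.lift (gen (X : F[X])) w).1 1 0 ≠ 0 := by
  have hL : w.toWord ≠ [] := fun h => hw (FreeGroup.toWord_eq_nil_iff.mp h)
  have hred : FreeGroup.IsReduced w.toWord := FreeGroup.isReduced_toWord
  obtain ⟨l, L, hl⟩ := List.exists_cons_of_ne_nil hL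
  rw [hl] at hred
  have h1 := key (F := F) l L hred
  have h2 : FreeGroup.lift (gen (X : F[X])) w = pw (l :: L) := by
    rw [← hl, pw, ← FreeGroup.lift_mk, FreeGroup.mk_toWord]
  rw [h2]
  rw [(uM_mul_col _ _).2] at h1
  intro h0
  rw [h0, degree_zero] at h1
  exact not_lt_bot h1

end Field

theorem result (w : FreeGroup ℕ) (hw : w ≠ 1) :
    ∃ N : ℕ, ∀ (F : Type*) [Field F] [Fintype F], N ≤ Fintype.card F →
      ∃ f : ℕ → Matrix.ProjectiveSpecialLinearGroup (Fin 2) F, FreeGroup.lift f w ≠ 1 := by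
  refine ⟨((FreeGroup.lift (gen (X : ℤ[X])) w).1 1 0).natDegree + 1, ?_⟩
  intro F _ _ hN
  classical
  set PZ := (FreeGroup.lift (gen (X : ℤ[X])) w).1 1 0 with hPZ
  set PF := (FreeGroup.lift (gen (X : F[X])) w).1 1 0 with hPF
  have h1 : PF = PZ.map (Int.castRingHom F) := by
    have := map_lift (Polynomial.mapRingHom (Int.castRingHom F)) (X : ℤ[X]) w
    simp only [Polynomial.coe_mapRingHom, Polynomial.map_X] at this
    rw [hPF, ← this, Matrix.SpecialLinearGroup.map_apply_coe]
    simp [hPZ]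
  have hne : PF ≠ 0 := entry_ne_zero w hw
  have hdeg : PF.natDegree < Fintype.card F := by
    have : PF.natDegree ≤ PZ.natDegree := by rw [h1]; exact Polynomial.natDegree_map_le
    omega
  obtain ⟨t0, ht0⟩ : ∃ t0 : F, PF.eval t0 ≠ 0 := by
    by_contra hcon
    push Not at hcon
    exact hne (Polynomial.eq_zero_of_natDegree_lt_card_of_eval_eq_zero' PF Finset.univ (fun r _ => hcon r)
      (by rw [Finset.card_univ]; exact hdeg))
  refine ⟨fun i => QuotientGroup.mk (gen t0 i), ?_⟩
  have hcomp : FreeGroup.lift (fun i => (QuotientGroup.mk (gen t0 i) : Matrix.ProjectiveSpecialLinearGroup (Fin 2) F)) =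
      (QuotientGroup.mk' (Subgroup.center (Matrix.SpecialLinearGroup (Fin 2) F))).comp (FreeGroup.lift (gen t0)) := by
    ext i
    simp
  rw [hcomp, MonoidHom.comp_apply, QuotientGroup.mk'_apply]
  intro h
  rw [QuotientGroup.eq_one_iff, Cfsg.Agent.H14.mem_center_iff_isScal] at h
  have h2 := h.2.1
  have h3 := map_lift (Polynomial.evalRingHom t0) (X : F[X]) w
  simp only [Polynomial.coe_evalRingHom, Polynomial.eval_X] at h3
  rw [← h3, Matrix.SpecialLinearGroup.map_apply_coe] at h2
  apply ht0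
  simpa [hPF] using h2

end Cfsg.Agent.S2353
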