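import Mathlib
import Cfsg.Agent.Lib.Helper18.SzLaw1
import Cfsg.Statements.S2354
-- import your own Cfsg.Agent.* helpers here

set_option autoImplicit false
open Cfsg Cfsg.Agent.Lib.Helper18 Matrix

namespace Cfsg.Agent.S2354

/-- A non-trivial law holds in only finitely many Suzuki groups: for every non-trivial element w of the free group on countably many generators there is N such that for q = 2^(2m+1) with m ≥ N some substitution of elements of the Suzuki group over the field with q elements into w is not the identity. -/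
theorem result (w : FreeGroup ℕ) (hw : w ≠ 1) :
    ∃ N : ℕ, ∀ (F : Type*) [Field F] [Fintype F] (m : ℕ), 1 ≤ m → N ≤ m →
      Fintype.card F = 2 ^ (2 * m + 1) →
      ∃ f : ℕ → ↥(Cfsg.Lie.Sz F (2 ^ (m + 1))), FreeGroup.lift f w ≠ 1 := by
  refine ⟨lawBd w.toWord, ?_⟩
  intro F _ _ m hm hN hF
  obtain ⟨f, hf⟩ := Sz_not_law w hw m hm hN hF
  have h := szData_of_card hm hF
  refine ⟨fun i => LieSzEquiv h (f i), fun h1 => hf ?_⟩
  have hcomp : FreeGroup.lift (fun i => LieSzEquiv h (f i)) =
      (LieSzEquiv h).toMonoidHom.comp (FreeGroup.lift f) := by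
    ext i
    simp
  rw [hcomp, MonoidHom.comp_apply] at h1
  exact (LieSzEquiv h).injective (h1.trans (map_one _).symm)

end Cfsg.Agent.S2354
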