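import Mathlib
import Cfsg.Statements.S2569
-- import your own Cfsg.Agent.* helpers here

set_option autoImplicit false
open Cfsg

namespace Cfsg.Agent.S2569

/-- For an irreducible endomorphism `t` of a finite space over a finite field, the determinant is
onto on the commutant of `t`. -/
theorem irr_det_surj {F : Type*} [Field F] [Fintype F] {W : Type*} [AddCommGroup W] [Module F W]
    [Module.Finite F W] [Nontrivial W] (t : Module.End F W)
    (hirr : ∀ U : Submodule F W, (∀ u ∈ U, t u ∈ U) → U = ⊥ ∨ U = ⊤) (d : F) :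
    ∃ a : Module.End F W, a * t = t * a ∧ LinearMap.det a = d := by
  classical
  haveI : Finite W := Module.finite_of_finite F
  haveI : Finite (Module.End F W) :=
    Finite.of_injective (fun f : Module.End F W => (f : W → W)) DFunLike.coe_injective
  obtain ⟨A, hAdef⟩ : ∃ A : Subalgebra F (Module.End F W),
      A = Subalgebra.centralizer F {t} := ⟨_, rfl⟩
  have hmemA : ∀ a : Module.End F W, a ∈ A ↔ t * a = a * t := by
    intro a
    rw [hAdef, Subalgebra.mem_centralizer_iff]
    simp
  have htA : t ∈ A := (hmemA t).2 rfl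
  have hinj : ∀ a : Module.End F W, a ∈ A → a ≠ 0 → ∀ v, a v = 0 → v = 0 := by
    intro a ha ha0
    have h1 : ∀ w ∈ LinearMap.ker a, t w ∈ LinearMap.ker a := by
      intro w hw
      rw [LinearMap.mem_ker] at hw ⊢
      have h2 : a (t w) = (a * t) w := rfl
      rw [h2, ← (hmemA a).1 ha]
      show t (a w) = 0
      rw [hw, map_zero]
    rcases hirr _ h1 with h2 | h2
    · intro v hv
      have : v ∈ LinearMap.ker a := hv
      rw [h2] at this
      exact this
    · exact absurd (LinearMap.ker_eq_top.1 h2) ha0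
  haveI : Nontrivial A := ⟨⟨1, 0, fun h => one_ne_zero (congrArg Subtype.val h)⟩⟩
  haveI : NoZeroDivisors A := by
    constructor
    intro a b hab
    by_cases ha : a = 0
    · exact Or.inl ha
    · right
      have ha' : a.1 ≠ 0 := fun h => ha (Subtype.ext h)
      apply Subtype.ext
      show b.1 = 0
      ext v
      apply hinj a.1 a.2 ha'
      have h1 : a.1 * b.1 = 0 := congrArg Subtype.val hab
      show (a.1 * b.1) v = 0
      rw [h1]
      rfl
  haveI : IsDomain A := NoZeroDivisors.to_isDomain A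
  have hfield : IsField A := Finite.isDomain_to_isField A
  letI : Field A := hfield.toField
  obtain ⟨w₀, hw₀⟩ := exists_ne (0 : W)
  let ψ : A →ₗ[F] W := (LinearMap.applyₗ w₀ : (W →ₗ[F] W) →ₗ[F] W) ∘ₗ A.val.toLinearMap
  have hψ : ∀ a : A, ψ a = a.1 w₀ := fun a => rfl
  have hψinj : Function.Injective ψ := by
    rw [← LinearMap.ker_eq_bot, LinearMap.ker_eq_bot']
    intro a ha
    by_contra hne
    exact hw₀ (hinj a.1 a.2 (fun h => hne (Subtype.ext h)) w₀ ha)
  have hψsurj : Function.Surjective ψ := by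
    rw [← LinearMap.range_eq_top]
    have h1 : ∀ u ∈ LinearMap.range ψ, t u ∈ LinearMap.range ψ := by
      rintro _ ⟨a, rfl⟩
      exact ⟨⟨t, htA⟩ * a, rfl⟩
    rcases hirr _ h1 with h2 | h2
    · exfalso
      have h3 : w₀ ∈ LinearMap.range ψ := ⟨1, rfl⟩
      rw [h2] at h3
      exact hw₀ h3
    · exact h2
  let E : A ≃ₗ[F] W := LinearEquiv.ofBijective ψ ⟨hψinj, hψsurj⟩
  obtain ⟨a, ha⟩ := FiniteField.norm_surjective F A d
  refine ⟨a.1, ((hmemA a.1).1 a.2).symm, ?_⟩
  rw [← ha, Algebra.norm_apply]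
  have h1 : a.1 = (E : A →ₗ[F] W) ∘ₗ (Algebra.lmul F A a) ∘ₗ (E.symm : W →ₗ[F] A) := by
    ext w
    obtain ⟨b, rfl⟩ := E.surjective w
    simp only [LinearMap.comp_apply, LinearEquiv.coe_coe, LinearEquiv.symm_apply_apply]
    rfl
  rw [h1, LinearMap.det_conj]

/-- In GL_n over a finite field of characteristic p, the conjugacy class of a semisimple element (an element of order prime to p) under the special linear group is its whole GL-conjugacy class: for every such x and every invertible g there is h of determinant one with h x h⁻¹ = g x g⁻¹. -/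
theorem result {F : Type*} [Field F] [Fintype F] {p : ℕ} [Fact p.Prime] [CharP F p] {n : ℕ} (x g : GL (Fin n) F) (hx : (orderOf x).Coprime p) : ∃ h : GL (Fin n) F, (h : Matrix (Fin n) (Fin n) F).det = 1 ∧ h * x * h⁻¹ = g * x * g⁻¹ := by
  classical
  have hp : p.Prime := Fact.out
  rcases Nat.eq_zero_or_pos n with hn | hn
  · subst hn
    exact ⟨g, Matrix.det_isEmpty, rfl⟩
  haveI : Nonempty (Fin n) := ⟨⟨0, hn⟩⟩
  obtain ⟨m, hm⟩ : ∃ m, m = orderOf x := ⟨_, rfl⟩
  obtain ⟨X, hXdef⟩ : ∃ X : Matrix (Fin n) (Fin n) F, X = x.val := ⟨_, rfl⟩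
  have hXm : X ^ m = 1 := by
    have h1 := pow_orderOf_eq_one x
    rw [← hm] at h1
    have h2 := congrArg Units.val h1
    rw [Units.val_pow_eq_pow_val, Units.val_one, ← hXdef] at h2
    exact h2
  let Φ : Matrix (Fin n) (Fin n) F ≃ₐ[F] Module.End F (Fin n → F) := Matrix.toLinAlgEquiv'
  obtain ⟨T, hT⟩ : ∃ T : Module.End F (Fin n → F), T = Φ X := ⟨_, rfl⟩
  have hTm : T ^ m = 1 := by rw [hT, ← map_pow, hXm, map_one]
  have hmF : (m : F) ≠ 0 := by
    intro h
    rw [CharP.cast_eq_zero_iff F p m] at h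
    rw [← hm] at hx
    exact hp.one_lt.ne' (Nat.Coprime.eq_one_of_dvd hx.symm h)
  have hss : T.IsSemisimple :=
    Module.End.isSemisimple_of_squarefree_aeval_eq_zero (p := Polynomial.X ^ m - 1)
      ((Polynomial.X_pow_sub_one_separable_iff.2 hmF).squarefree) (by simp [hTm])
  obtain ⟨W, ⟨hW1, hWinv⟩, hWmin⟩ := exists_minimal_of_wellFoundedLT
    (fun U : Submodule F (Fin n → F) => U ≠ ⊥ ∧ ∀ u ∈ U, T u ∈ U)
    ⟨⊤, top_ne_bot, fun _ _ => Submodule.mem_top⟩
  obtain ⟨W', hW'inv, hc⟩ := (Module.End.isSemisimple_iff.1 hss) W (fun u hu => hWinv u hu)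
  let tW : Module.End F W := T.restrict hWinv
  haveI : Nontrivial W := Submodule.nontrivial_iff_ne_bot.2 hW1
  have hirr : ∀ U : Submodule F W, (∀ u ∈ U, tW u ∈ U) → U = ⊥ ∨ U = ⊤ := by
    intro U hU
    by_cases hU1 : U = ⊥
    · exact Or.inl hU1
    · right
      have h1 : U.map W.subtype ≠ ⊥ := by
        intro h
        apply hU1
        rw [eq_bot_iff]
        intro u hu
        have h2 : W.subtype u ∈ U.map W.subtype := Submodule.mem_map_of_mem hu
        rw [h, Submodule.mem_bot] at h2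
        rw [Submodule.mem_bot]
        exact Subtype.ext h2
      have h2 : ∀ u ∈ U.map W.subtype, T u ∈ U.map W.subtype := by
        rintro _ ⟨u, hu, rfl⟩
        exact ⟨tW u, hU u hu, rfl⟩
      have h3 : U.map W.subtype ≤ W := Submodule.map_subtype_le W U
      have h4 := hWmin ⟨h1, h2⟩ h3
      rw [eq_top_iff]
      intro w _
      obtain ⟨u, hu, huw⟩ := h4 w.2
      have h5 : u = w := Subtype.ext huw
      rwa [← h5]
  obtain ⟨a, hat, hdet⟩ := irr_det_surj tW hirr ((g.val.det)⁻¹)
  let e := Submodule.prodEquivOfIsCompl W W' hc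
  have he : ∀ (w : W) (w' : W'), e (w, w') = (w : Fin n → F) + (w' : Fin n → F) := fun w w' => rfl
  let c : Module.End F (Fin n → F) :=
    (e : (W × W') →ₗ[F] (Fin n → F)) ∘ₗ (LinearMap.prodMap a LinearMap.id) ∘ₗ
      (e.symm : (Fin n → F) →ₗ[F] (W × W'))
  have hcdet : LinearMap.det c = (g.val.det)⁻¹ := by
    rw [LinearMap.det_conj, LinearMap.det_prodMap, LinearMap.det_id, mul_one, hdet]
  have hce : ∀ (w : W) (w' : W'), c (e (w, w')) = e (a w, w') := by
    intro w w'
    show e (LinearMap.prodMap a LinearMap.id (e.symm (e (w, w')))) = _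
    rw [LinearEquiv.symm_apply_apply]
    rfl
  have hTe : ∀ (w : W) (w' : W'), T (e (w, w')) = e (tW w, ⟨T w', hW'inv w'.2⟩) := by
    intro w w'
    rw [he, he, map_add]
    rfl
  have hcT : c * T = T * c := by
    apply LinearMap.ext
    intro v
    obtain ⟨⟨w, w'⟩, rfl⟩ := e.surjective v
    show c (T (e (w, w'))) = T (c (e (w, w')))
    rw [hTe, hce, hce, hTe]
    have h1 : a (tW w) = tW (a w) := by
      have := congrArg (fun f : Module.End F W => f w) hat
      exact this
    rw [h1]
  obtain ⟨C, hC⟩ : ∃ C : Matrix (Fin n) (Fin n) F, Φ C = c := ⟨Φ.symm c, Φ.apply_symm_apply c⟩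
  have hCdet : C.det = (g.val.det)⁻¹ := by
    rw [← hcdet, ← hC]
    exact (LinearMap.det_toLin' C).symm
  have hgdet : g.val.det ≠ 0 := by
    have := (Matrix.isUnit_iff_isUnit_det _).1 g.isUnit
    exact this.ne_zero
  have hCX : C * X = X * C := by
    apply Φ.injective
    rw [map_mul, map_mul, hC, ← hT, hcT]
  have hCne : C.det ≠ 0 := by rw [hCdet]; exact inv_ne_zero hgdet
  let cG : GL (Fin n) F := Matrix.GeneralLinearGroup.mkOfDetNeZero C hCne
  have hcomm : cG * x = x * cG := by
    apply Units.ext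
    show C * x.val = x.val * C
    rw [← hXdef]
    exact hCX
  refine ⟨g * cG, ?_, ?_⟩
  · rw [Units.val_mul, Matrix.det_mul]
    show g.val.det * C.det = 1
    rw [hCdet, mul_inv_cancel₀ hgdet]
  · have h1 : g * cG * x * (g * cG)⁻¹ = g * (cG * x * cG⁻¹) * g⁻¹ := by group
    rw [h1, hcomm, mul_inv_cancel_right]

end Cfsg.Agent.S2569
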