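import Mathlib
import Cfsg.Statements.S2388
import Cfsg.Agent.S2569
-- import your own Cfsg.Agent.* helpers here

set_option autoImplicit false
open Cfsg

namespace Cfsg.Agent.S2388

section lin

open Polynomial

universe u v

variable {F : Type v} [Field F]

/-- irreducible endomorphism: no proper nonzero invariant subspace -/
def Irr {W : Type*} [AddCommGroup W] [Module F W] (t : Module.End F W) : Prop :=
  ∀ U : Submodule F W, (∀ u ∈ U, t u ∈ U) → U = ⊥ ∨ U = ⊤

theorem aeval_comm {W : Type*} [AddCommGroup W] [Module F W] (t : Module.End F W) (a : F[X]) (w : W) :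
    aeval t a (t w) = t (aeval t a w) := by
  have h1 : aeval t (a * X) = aeval t a * t := by rw [map_mul, aeval_X]
  have h2 : aeval t (X * a) = t * aeval t a := by rw [map_mul, aeval_X]
  have h3 : aeval t a * t = t * aeval t a := by rw [← h1, ← h2, mul_comm]
  exact congrArg (fun f : Module.End F W => f w) h3

/-- evaluation at a vector -/
noncomputable def ev {W : Type*} [AddCommGroup W] [Module F W] (t : Module.End F W) (w : W) : F[X] →ₗ[F] W :=
  (LinearMap.applyₗ w : (W →ₗ[F] W) →ₗ[F] W) ∘ₗ (aeval t).toLinearMap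

theorem ev_apply {W : Type*} [AddCommGroup W] [Module F W] (t : Module.End F W) (w : W) (a : F[X]) :
    ev t w a = aeval t a w := rfl

theorem ev_X_mul {W : Type*} [AddCommGroup W] [Module F W] (t : Module.End F W) (w : W) (a : F[X]) :
    ev t w (X * a) = t (ev t w a) := by
  rw [ev_apply, ev_apply, map_mul, aeval_X]
  rfl

theorem ev_surj {W : Type*} [AddCommGroup W] [Module F W] {t : Module.End F W} (ht : Irr t) {w : W}
    (hw : w ≠ 0) : Function.Surjective (ev t w) := by
  rw [← LinearMap.range_eq_top]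
  have h1 : ∀ u ∈ LinearMap.range (ev t w), t u ∈ LinearMap.range (ev t w) := by
    rintro _ ⟨a, rfl⟩
    exact ⟨X * a, ev_X_mul t w a⟩
  rcases ht _ h1 with h2 | h2
  · exfalso
    have h3 : w ∈ LinearMap.range (ev t w) := ⟨1, by rw [ev_apply, map_one]; rfl⟩
    rw [h2] at h3
    exact hw h3
  · exact h2

theorem ev_eq_zero_iff {W : Type*} [AddCommGroup W] [Module F W] {t : Module.End F W} (ht : Irr t) {w : W}
    (hw : w ≠ 0) (a : F[X]) : ev t w a = 0 ↔ minpoly F t ∣ a := by
  constructor
  · intro h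
    apply minpoly.dvd
    have h1 : ∀ u ∈ LinearMap.ker (aeval t a), t u ∈ LinearMap.ker (aeval t a) := by
      intro u hu
      rw [LinearMap.mem_ker] at hu ⊢
      rw [aeval_comm, hu, map_zero]
    rcases ht _ h1 with h2 | h2
    · exfalso
      have h3 : w ∈ LinearMap.ker (aeval t a) := h
      rw [h2] at h3
      exact hw h3
    · exact LinearMap.ker_eq_top.1 h2
  · rintro ⟨b, rfl⟩
    rw [ev_apply, map_mul, minpoly.aeval, zero_mul]
    rfl

/-- two irreducible endomorphisms with the same minimal polynomial are conjugate -/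
theorem irr_iso {W₁ W₂ : Type*} [AddCommGroup W₁] [Module F W₁] [AddCommGroup W₂] [Module F W₂]
    [Nontrivial W₁] [Nontrivial W₂]
    {t₁ : Module.End F W₁} {t₂ : Module.End F W₂} (h₁ : Irr t₁) (h₂ : Irr t₂)
    (hμ : minpoly F t₁ = minpoly F t₂) : ∃ e : W₁ ≃ₗ[F] W₂, ∀ w, e (t₁ w) = t₂ (e w) := by
  obtain ⟨w₁, hw₁⟩ := exists_ne (0 : W₁)
  obtain ⟨w₂, hw₂⟩ := exists_ne (0 : W₂)
  have hker : LinearMap.ker (ev t₁ w₁) = LinearMap.ker (ev t₂ w₂) := by
    ext a
    rw [LinearMap.mem_ker, LinearMap.mem_ker, ev_eq_zero_iff h₁ hw₁, ev_eq_zero_iff h₂ hw₂, hμ]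
  let e : W₁ ≃ₗ[F] W₂ := ((ev t₁ w₁).quotKerEquivOfSurjective (ev_surj h₁ hw₁)).symm.trans
    ((Submodule.quotEquivOfEq _ _ hker).trans ((ev t₂ w₂).quotKerEquivOfSurjective (ev_surj h₂ hw₂)))
  have he : ∀ a, e (ev t₁ w₁ a) = ev t₂ w₂ a := by
    intro a
    have h3 : ((ev t₁ w₁).quotKerEquivOfSurjective (ev_surj h₁ hw₁)).symm (ev t₁ w₁ a) =
        Submodule.Quotient.mk a := by
      rw [LinearEquiv.symm_apply_eq]
      rfl
    show ((ev t₂ w₂).quotKerEquivOfSurjective (ev_surj h₂ hw₂)) ((Submodule.quotEquivOfEq _ _ hker)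
      (((ev t₁ w₁).quotKerEquivOfSurjective (ev_surj h₁ hw₁)).symm (ev t₁ w₁ a))) = _
    rw [h3]
    rfl
  refine ⟨e, ?_⟩
  intro w
  obtain ⟨a, rfl⟩ := ev_surj h₁ hw₁ w
  rw [← ev_X_mul, he, he, ev_X_mul]

theorem irr_minpoly_irreducible {W : Type*} [AddCommGroup W] [Module F W] [FiniteDimensional F W]
    [Nontrivial W] {t : Module.End F W} (ht : Irr t) : Irreducible (minpoly F t) := by
  have hint : IsIntegral F t := Algebra.IsIntegral.isIntegral t
  constructor
  · exact minpoly.not_isUnit F t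
  · intro a b hab
    have hne : minpoly F t ≠ 0 := minpoly.ne_zero hint
    have h0 : aeval t a * aeval t b = 0 := by rw [← map_mul, ← hab, minpoly.aeval]
    have h1 : ∀ u ∈ LinearMap.ker (aeval t a), t u ∈ LinearMap.ker (aeval t a) := by
      intro u hu
      rw [LinearMap.mem_ker] at hu ⊢
      rw [aeval_comm, hu, map_zero]
    rcases ht _ h1 with h2 | h2
    · -- a(t) injective so b(t) = 0
      left
      have h3 : aeval t b = 0 := by
        ext v
        have h4 : aeval t a (aeval t b v) = 0 := congrArg (fun f : Module.End F W => f v) h0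
        have h5 : aeval t b v ∈ LinearMap.ker (aeval t a) := h4
        rw [h2] at h5
        exact h5
      obtain ⟨c, hc⟩ := minpoly.dvd F t h3
      rw [hc] at hab
      have h6 : minpoly F t * 1 = minpoly F t * (a * c) := by
        rw [mul_one]
        conv_lhs => rw [hab]
        ring
      have h7 := mul_left_cancel₀ hne h6
      exact IsUnit.of_mul_eq_one _ h7.symm
    · right
      have h3 : aeval t a = 0 := LinearMap.ker_eq_top.1 h2
      obtain ⟨c, hc⟩ := minpoly.dvd F t h3
      rw [hc] at hab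
      have h6 : minpoly F t * 1 = minpoly F t * (b * c) := by
        rw [mul_one]
        conv_lhs => rw [hab]
        ring
      have h7 := mul_left_cancel₀ hne h6
      exact IsUnit.of_mul_eq_one _ h7.symm

theorem irr_charpoly {W : Type*} [AddCommGroup W] [Module F W] [FiniteDimensional F W]
    [Nontrivial W] {t : Module.End F W} (ht : Irr t) : t.charpoly = minpoly F t := by
  have hint : IsIntegral F t := Algebra.IsIntegral.isIntegral t
  have hmon : (minpoly F t).Monic := minpoly.monic hint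
  apply Polynomial.eq_of_monic_of_dvd_of_natDegree_le hmon t.charpoly_monic
    (LinearMap.minpoly_dvd_charpoly t)
  rw [LinearMap.charpoly_natDegree]
  obtain ⟨w, hw⟩ := exists_ne (0 : W)
  let f : Polynomial.degreeLT F (minpoly F t).natDegree →ₗ[F] W :=
    (ev t w) ∘ₗ (Polynomial.degreeLT F (minpoly F t).natDegree).subtype
  have hf : Function.Surjective f := by
    intro u
    obtain ⟨a, rfl⟩ := ev_surj ht hw u
    refine ⟨⟨a %ₘ minpoly F t, ?_⟩, ?_⟩
    · rw [Polynomial.mem_degreeLT]
      exact (Polynomial.degree_modByMonic_lt a hmon).trans_le Polynomial.degree_le_natDegree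
    · show ev t w (a %ₘ minpoly F t) = ev t w a
      have h1 : a - a %ₘ minpoly F t = minpoly F t * (a /ₘ minpoly F t) := by
        have := Polynomial.modByMonic_add_div a (minpoly F t)
        rw [sub_eq_iff_eq_add, add_comm]
        exact this.symm
      have h2 : ev t w (a - a %ₘ minpoly F t) = 0 := by
        rw [ev_eq_zero_iff ht hw, h1]
        exact dvd_mul_right _ _
      rw [map_sub, sub_eq_zero] at h2
      exact h2.symm
  have h3 := LinearMap.finrank_le_finrank_of_surjective hf
  rw [LinearEquiv.finrank_eq (Polynomial.degreeLTEquiv F (minpoly F t).natDegree)] at h3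
  simpa using h3

theorem aeval_restrict {V : Type*} [AddCommGroup V] [Module F V] (T : Module.End F V)
    {W : Submodule F V} (hW : ∀ u ∈ W, T u ∈ W) (a : F[X]) (w : W) :
    ((aeval (T.restrict hW : Module.End F W) a w : W) : V) = aeval T a (w : V) := by
  induction a using Polynomial.induction_on' with
  | add p q hp hq =>
    rw [map_add, map_add, LinearMap.add_apply, LinearMap.add_apply, Submodule.coe_add, hp, hq]
  | monomial n c =>
    rw [aeval_monomial, aeval_monomial, Module.End.mul_apply, Module.End.mul_apply,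
      Module.algebraMap_end_apply, Module.algebraMap_end_apply, Submodule.coe_smul,
      Module.End.pow_restrict n hW]
    rfl

theorem exists_split {V : Type*} [AddCommGroup V] [Module F V] [FiniteDimensional F V]
    {T : Module.End F V} (hss : T.IsSemisimple) (K : Submodule F V) (hK : ∀ u ∈ K, T u ∈ K)
    (hK1 : K ≠ ⊥) :
    ∃ (W W' : Submodule F V) (hW : ∀ u ∈ W, T u ∈ W) (_ : ∀ u ∈ W', T u ∈ W'),
      W ≤ K ∧ W ≠ ⊥ ∧ IsCompl W W' ∧ Irr (T.restrict hW : Module.End F W) := by
  obtain ⟨W, ⟨hW1, hWK, hWinv⟩, hWmin⟩ := exists_minimal_of_wellFoundedLT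
    (fun U : Submodule F V => U ≠ ⊥ ∧ U ≤ K ∧ ∀ u ∈ U, T u ∈ U) ⟨K, hK1, le_refl K, hK⟩
  obtain ⟨W', hW'inv, hc⟩ := (Module.End.isSemisimple_iff.1 hss) W (fun u hu => hWinv u hu)
  refine ⟨W, W', hWinv, fun u hu => hW'inv hu, hWK, hW1, hc, ?_⟩
  intro U hU
  by_cases hU1 : U = ⊥
  · exact Or.inl hU1
  · right
    have h1 : U.map W.subtype ≠ ⊥ := by
      intro h
      apply hU1
      rw [eq_bot_iff]
      intro u hu
      have h2 : W.subtype u ∈ U.map W.subtype := Submodule.mem_map_of_mem hu
      rw [h, Submodule.mem_bot] at h2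
      rw [Submodule.mem_bot]
      exact Subtype.ext h2
    have h2 : ∀ u ∈ U.map W.subtype, T u ∈ U.map W.subtype := by
      rintro _ ⟨u, hu, rfl⟩
      exact ⟨(T.restrict hWinv : Module.End F W) u, hU u hu, rfl⟩
    have h3 : U.map W.subtype ≤ W := Submodule.map_subtype_le W U
    have h4 := hWmin ⟨h1, h3.trans hWK, h2⟩ h3
    rw [eq_top_iff]
    intro w _
    obtain ⟨u, hu, huw⟩ := h4 w.2
    have h5 : u = w := Subtype.ext huw
    rwa [← h5]

theorem charpoly_split {V : Type*} [AddCommGroup V] [Module F V] [FiniteDimensional F V]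
    (T : Module.End F V) {W W' : Submodule F V} (hW : ∀ u ∈ W, T u ∈ W) (hW' : ∀ u ∈ W', T u ∈ W')
    (hc : IsCompl W W') :
    T.charpoly = (T.restrict hW : Module.End F W).charpoly * (T.restrict hW' : Module.End F W').charpoly := by
  have h1 : (Submodule.prodEquivOfIsCompl W W' hc).conj
      (LinearMap.prodMap (T.restrict hW) (T.restrict hW')) = T := by
    apply LinearMap.ext
    intro v
    obtain ⟨⟨w, w'⟩, rfl⟩ := (Submodule.prodEquivOfIsCompl W W' hc).surjective v
    rw [LinearEquiv.conj_apply_apply, LinearEquiv.symm_apply_apply]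
    show ((T.restrict hW w : W) : V) + ((T.restrict hW' w' : W') : V) = T ((w : V) + (w' : V))
    rw [map_add]
    rfl
  conv_lhs => rw [← h1]
  rw [LinearEquiv.charpoly_conj, LinearMap.charpoly_prodMap]

theorem exists_ker_of_dvd_charpoly (d : ℕ) : ∀ (V : Type u) [AddCommGroup V] [Module F V]
    [FiniteDimensional F V] (T : Module.End F V), Module.finrank F V = d → T.IsSemisimple →
    ∀ P : F[X], Irreducible P → P ∣ T.charpoly → ∃ v : V, v ≠ 0 ∧ aeval T P v = 0 := by
  induction d using Nat.strong_induction_on with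
  | _ d ih =>
    intro V _ _ _ T hd hss P hP hdvd
    by_cases htriv : Subsingleton V
    · exfalso
      have h1 : T.charpoly = 1 := by
        apply (Polynomial.Monic.natDegree_eq_zero T.charpoly_monic).1
        rw [LinearMap.charpoly_natDegree]
        exact Module.finrank_zero_of_subsingleton
      rw [h1] at hdvd
      exact hP.not_isUnit (isUnit_of_dvd_one hdvd)
    · haveI : Nontrivial V := not_subsingleton_iff_nontrivial.1 htriv
      obtain ⟨W, W', hW, hW', -, hW1, hc, hirr⟩ :=
        exists_split hss ⊤ (fun _ _ => Submodule.mem_top) top_ne_bot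
      haveI : Nontrivial W := Submodule.nontrivial_iff_ne_bot.2 hW1
      rw [charpoly_split T hW hW' hc] at hdvd
      rcases hP.prime.dvd_or_dvd hdvd with h | h
      · rw [irr_charpoly hirr] at h
        have h2 := hP.dvd_symm (irr_minpoly_irreducible hirr) h
        obtain ⟨w, hw⟩ := exists_ne (0 : W)
        refine ⟨w, fun h0 => hw (Subtype.ext h0), ?_⟩
        rw [← aeval_restrict T hW]
        obtain ⟨c, rfl⟩ := h2
        rw [map_mul, minpoly.aeval, zero_mul]
        rfl
      · have hlt : Module.finrank F W' < d := by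
          have h3 := Submodule.finrank_add_eq_of_isCompl hc
          have h4 : 0 < Module.finrank F W := Module.finrank_pos
          omega
        obtain ⟨v, hv, hv0⟩ := ih _ hlt W' (T.restrict hW') rfl (hss.restrict hW') P hP h
        exact ⟨v, fun h0 => hv (Subtype.ext h0), by rw [← aeval_restrict T hW', hv0]; rfl⟩

/-- semisimple endomorphisms with the same characteristic polynomial are conjugate -/
theorem conj_of_charpoly (d : ℕ) : ∀ (V₁ V₂ : Type u) [AddCommGroup V₁] [Module F V₁]
    [FiniteDimensional F V₁] [AddCommGroup V₂] [Module F V₂] [FiniteDimensional F V₂]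
    (T₁ : Module.End F V₁) (T₂ : Module.End F V₂), Module.finrank F V₁ = d → T₁.IsSemisimple →
    T₂.IsSemisimple → T₁.charpoly = T₂.charpoly → ∃ e : V₁ ≃ₗ[F] V₂, ∀ v, e (T₁ v) = T₂ (e v) := by
  induction d using Nat.strong_induction_on with
  | _ d ih =>
    intro V₁ V₂ _ _ _ _ _ _ T₁ T₂ hd hss₁ hss₂ hχ
    have hd2 : Module.finrank F V₂ = d := by
      rw [← LinearMap.charpoly_natDegree T₂, ← hχ, LinearMap.charpoly_natDegree, hd]
    by_cases htriv : Subsingleton V₁
    · have h0 : d = 0 := by rw [← hd]; exact Module.finrank_zero_of_subsingleton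
      haveI : Subsingleton V₂ := Module.finrank_zero_iff.1 (by rw [hd2, h0])
      exact ⟨LinearEquiv.ofFinrankEq V₁ V₂ (by rw [hd, hd2]), fun v => Subsingleton.elim _ _⟩
    · haveI : Nontrivial V₁ := not_subsingleton_iff_nontrivial.1 htriv
      obtain ⟨W₁, W₁', hW₁, hW₁', -, hW₁1, hc₁, hirr₁⟩ :=
        exists_split hss₁ ⊤ (fun _ _ => Submodule.mem_top) top_ne_bot
      haveI : Nontrivial W₁ := Submodule.nontrivial_iff_ne_bot.2 hW₁1
      obtain ⟨μ, hμ⟩ : ∃ μ, μ = minpoly F (T₁.restrict hW₁ : Module.End F W₁) := ⟨_, rfl⟩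
      have hμirr : Irreducible μ := by rw [hμ]; exact irr_minpoly_irreducible hirr₁
      have hμmon : μ.Monic := by rw [hμ]; exact minpoly.monic (Algebra.IsIntegral.isIntegral _)
      have hχ1 : T₁.charpoly = μ * (T₁.restrict hW₁' : Module.End F W₁').charpoly := by
        rw [charpoly_split T₁ hW₁ hW₁' hc₁, irr_charpoly hirr₁, hμ]
      have hdvd : μ ∣ T₂.charpoly := by rw [← hχ, hχ1]; exact dvd_mul_right _ _
      obtain ⟨v, hv, hv0⟩ := exists_ker_of_dvd_charpoly _ V₂ T₂ rfl hss₂ μ hμirr hdvd
      have hKinv : ∀ u ∈ LinearMap.ker (aeval T₂ μ), T₂ u ∈ LinearMap.ker (aeval T₂ μ) := by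
        intro u hu
        rw [LinearMap.mem_ker] at hu ⊢
        rw [aeval_comm, hu, map_zero]
      have hK1 : LinearMap.ker (aeval T₂ μ) ≠ ⊥ := by
        intro h
        have h1 : v ∈ LinearMap.ker (aeval T₂ μ) := hv0
        rw [h] at h1
        exact hv h1
      obtain ⟨W₂, W₂', hW₂, hW₂', hW₂K, hW₂1, hc₂, hirr₂⟩ := exists_split hss₂ _ hKinv hK1
      haveI : Nontrivial W₂ := Submodule.nontrivial_iff_ne_bot.2 hW₂1
      have hμ2 : minpoly F (T₂.restrict hW₂ : Module.End F W₂) = μ := by
        have h1 : aeval (T₂.restrict hW₂ : Module.End F W₂) μ = 0 := by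
          ext w
          rw [aeval_restrict T₂ hW₂]
          exact hW₂K w.2
        have h2 := minpoly.dvd F _ h1
        have h3 := (irr_minpoly_irreducible hirr₂).dvd_symm hμirr h2
        exact Polynomial.eq_of_monic_of_associated
          (minpoly.monic (Algebra.IsIntegral.isIntegral _)) hμmon (associated_of_dvd_dvd h2 h3)
      obtain ⟨eW, heW⟩ := irr_iso hirr₁ hirr₂ (by rw [hμ2, hμ])
      have hχ2 : T₂.charpoly = μ * (T₂.restrict hW₂' : Module.End F W₂').charpoly := by
        rw [charpoly_split T₂ hW₂ hW₂' hc₂, irr_charpoly hirr₂, hμ2]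
      have hχ' : (T₁.restrict hW₁' : Module.End F W₁').charpoly =
          (T₂.restrict hW₂' : Module.End F W₂').charpoly := by
        rw [hχ1, hχ2] at hχ
        exact mul_left_cancel₀ hμirr.ne_zero hχ
      have hlt : Module.finrank F W₁' < d := by
        have h3 := Submodule.finrank_add_eq_of_isCompl hc₁
        have h4 : 0 < Module.finrank F W₁ := Module.finrank_pos
        omega
      obtain ⟨e', he'⟩ := ih _ hlt W₁' W₂' (T₁.restrict hW₁') (T₂.restrict hW₂') rfl
        (hss₁.restrict hW₁') (hss₂.restrict hW₂') hχ'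
      refine ⟨(Submodule.prodEquivOfIsCompl W₁ W₁' hc₁).symm.trans ((eW.prodCongr e').trans
        (Submodule.prodEquivOfIsCompl W₂ W₂' hc₂)), ?_⟩
      intro x
      obtain ⟨⟨w, w'⟩, rfl⟩ := (Submodule.prodEquivOfIsCompl W₁ W₁' hc₁).surjective x
      have h1 : T₁ ((Submodule.prodEquivOfIsCompl W₁ W₁' hc₁) (w, w')) =
          (Submodule.prodEquivOfIsCompl W₁ W₁' hc₁)
            ((T₁.restrict hW₁ : Module.End F W₁) w, (T₁.restrict hW₁' : Module.End F W₁') w') := by
        show T₁ ((w : V₁) + (w' : V₁)) = _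
        rw [map_add]
        rfl
      rw [h1]
      simp only [LinearEquiv.trans_apply, LinearEquiv.symm_apply_apply]
      show ((eW ((T₁.restrict hW₁ : Module.End F W₁) w) : W₂) : V₂) +
        ((e' ((T₁.restrict hW₁' : Module.End F W₁') w') : W₂') : V₂) =
          T₂ (((eW w : W₂) : V₂) + ((e' w' : W₂') : V₂))
      rw [heW, he', map_add]
      rfl

end lin

/-- In `SL_n(q)`, `q` a power of the prime `p`, two elements of order prime to `p` with the same characteristic polynomial are conjugate in `SL_n(q)` (not merely in `GL_n`). -/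
theorem result {F : Type*} [Field F] [Fintype F] (p : ℕ) [Fact p.Prime] [CharP F p] (n : ℕ)
    (g h : Matrix.SpecialLinearGroup (Fin n) F) (hg : (orderOf g).Coprime p) (hh : (orderOf h).Coprime p)
    (hc : (g : Matrix (Fin n) (Fin n) F).charpoly = (h : Matrix (Fin n) (Fin n) F).charpoly) : IsConj g h := by
  classical
  have hp : p.Prime := Fact.out
  have hss : ∀ x : Matrix.SpecialLinearGroup (Fin n) F, (orderOf x).Coprime p →
      Module.End.IsSemisimple (Matrix.toLin' (x : Matrix (Fin n) (Fin n) F)) := by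
    intro x hx
    obtain ⟨m, hm⟩ : ∃ m, m = orderOf x := ⟨_, rfl⟩
    have hXm : (x : Matrix (Fin n) (Fin n) F) ^ m = 1 := by
      have h1 := pow_orderOf_eq_one x
      rw [← hm] at h1
      have h2 := congrArg (fun y : Matrix.SpecialLinearGroup (Fin n) F => (y : Matrix (Fin n) (Fin n) F)) h1
      simpa using h2
    have hTm : (Matrix.toLin' (x : Matrix (Fin n) (Fin n) F) : Module.End F (Fin n → F)) ^ m = 1 := by
      have h1 : (Matrix.toLinAlgEquiv' (x : Matrix (Fin n) (Fin n) F) : Module.End F (Fin n → F)) ^ m = 1 := by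
        rw [← map_pow, hXm, map_one]
      exact h1
    have hmF : (m : F) ≠ 0 := by
      intro h
      rw [CharP.cast_eq_zero_iff F p m] at h
      rw [← hm] at hx
      exact hp.one_lt.ne' (Nat.Coprime.eq_one_of_dvd hx.symm h)
    exact Module.End.isSemisimple_of_squarefree_aeval_eq_zero (p := Polynomial.X ^ m - 1)
      ((Polynomial.X_pow_sub_one_separable_iff.2 hmF).squarefree) (by simp [hTm])
  obtain ⟨e, he⟩ := conj_of_charpoly _ (Fin n → F) (Fin n → F)
    (Matrix.toLin' (g : Matrix (Fin n) (Fin n) F)) (Matrix.toLin' (h : Matrix (Fin n) (Fin n) F)) rfl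
    (hss g hg) (hss h hh) (by rw [Matrix.charpoly_toLin', Matrix.charpoly_toLin', hc])
  -- the matrix of e
  let E : GL (Fin n) F :=
    ⟨LinearMap.toMatrix' (e : (Fin n → F) →ₗ[F] (Fin n → F)),
      LinearMap.toMatrix' (e.symm : (Fin n → F) →ₗ[F] (Fin n → F)),
      by rw [← LinearMap.toMatrix'_comp]; simp, by rw [← LinearMap.toMatrix'_comp]; simp⟩
  have hE : (E : Matrix (Fin n) (Fin n) F) * (g : Matrix (Fin n) (Fin n) F) =
      (h : Matrix (Fin n) (Fin n) F) * (E : Matrix (Fin n) (Fin n) F) := by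
    apply Matrix.toLin'.injective
    rw [Matrix.toLin'_mul, Matrix.toLin'_mul]
    show Matrix.toLin' (LinearMap.toMatrix' (e : (Fin n → F) →ₗ[F] (Fin n → F))) ∘ₗ _ =
      _ ∘ₗ Matrix.toLin' (LinearMap.toMatrix' (e : (Fin n → F) →ₗ[F] (Fin n → F)))
    rw [Matrix.toLin'_toMatrix']
    apply LinearMap.ext
    intro v
    exact he v
  have hinj : Function.Injective (Matrix.SpecialLinearGroup.toGL :
      Matrix.SpecialLinearGroup (Fin n) F →* GL (Fin n) F) := by
    intro a b hab
    apply Subtype.ext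
    exact congrArg Units.val hab
  have hgo : (orderOf (Matrix.SpecialLinearGroup.toGL g : GL (Fin n) F)).Coprime p := by
    rw [orderOf_injective _ hinj]
    exact hg
  obtain ⟨k, hk1, hk2⟩ := Cfsg.Agent.S2569.result (p := p) (Matrix.SpecialLinearGroup.toGL g) E hgo
  have hEg : E * Matrix.SpecialLinearGroup.toGL g * E⁻¹ = Matrix.SpecialLinearGroup.toGL h := by
    rw [mul_inv_eq_iff_eq_mul]
    apply Units.ext
    exact hE
  rw [hEg, mul_inv_eq_iff_eq_mul] at hk2
  rw [isConj_iff]
  obtain ⟨k', hk'⟩ : ∃ k' : Matrix.SpecialLinearGroup (Fin n) F,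
      (k' : Matrix (Fin n) (Fin n) F) = k.val := ⟨⟨k.val, hk1⟩, rfl⟩
  refine ⟨k', ?_⟩
  rw [mul_inv_eq_iff_eq_mul]
  apply Subtype.ext
  show (k' : Matrix (Fin n) (Fin n) F) * (g : Matrix (Fin n) (Fin n) F) =
    (h : Matrix (Fin n) (Fin n) F) * (k' : Matrix (Fin n) (Fin n) F)
  rw [hk']
  exact congrArg Units.val hk2

end Cfsg.Agent.S2388
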