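import Mathlib
import Cfsg.Statements.S2394
import Cfsg.Agent.S2904
import Cfsg.Agent.S0245
-- import your own Cfsg.Agent.* helpers here

set_option autoImplicit false
open scoped MatrixGroups
open Cfsg

namespace Cfsg.Agent.S2394

/-- The smallest degree of a faithful representation of the symplectic group `Sp_{2n}(q)` over its own field `F_q` is `2n`: every injective homomorphism from `Sp_{2n}(F)` to `GL_d(F)`, `F` the field with `q` elements, has `d ≥ 2n`. -/
theorem result {F : Type*} [Field F] [Fintype F] (n : ℕ) {d : ℕ}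
    (ρ : ↥(Matrix.symplecticGroup (Fin n) F) →* GL (Fin d) F) (hρ : Function.Injective ρ) : 2 * n ≤ d := by
  classical
  by_contra hcon
  push Not at hcon
  obtain ⟨q, hq⟩ : ∃ q, q = Fintype.card F := ⟨_, rfl⟩
  have hq1 : 1 < q := by rw [hq]; exact Fintype.one_lt_card
  have hn1 : 1 ≤ n := by omega
  have hSp := Cfsg.Agent.S0245.result (F := F) hq.symm n
  have hGL : Nat.card (GL (Fin d) F) = ∏ i : Fin d, (q ^ d - q ^ (i : ℕ)) := by
    rw [Matrix.card_GL_field, hq]
  have hdvd : Nat.card (Matrix.symplecticGroup (Fin n) F) ∣ Nat.card (GL (Fin d) F) :=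
    Subgroup.card_dvd_of_injective ρ hρ
  rw [hSp, hGL] at hdvd
  have hGLpos : 0 < ∏ i : Fin d, (q ^ d - q ^ (i : ℕ)) := by
    rw [← hGL]; exact Nat.card_pos
  by_cases h1 : n = 1
  · subst h1
    have hle := Nat.le_of_dvd hGLpos hdvd
    have hq2 : q * q ≥ 4 := by nlinarith
    have hd : d = 0 ∨ d = 1 := by omega
    rcases hd with rfl | rfl
    · simp at hle
      have h3 : q ^ 2 = q * q := by ring
      have h4 : 3 ≤ q ^ 2 - 1 := by omega
      have h5 : q * 3 ≤ q * (q ^ 2 - 1) := Nat.mul_le_mul_left q h4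
      omega
    · simp at hle
      have h3 : q ^ 2 = q * q := by ring
      have h4 : 3 ≤ q ^ 2 - 1 := by omega
      have h5 : q * 3 ≤ q * (q ^ 2 - 1) := Nat.mul_le_mul_left q h4
      omega
  by_cases h2 : q = 2 ∧ 2 * n = 6
  · obtain ⟨hq2, hn3⟩ := h2
    have hn3' : n = 3 := by omega
    subst hn3'
    rw [hq2] at hdvd
    have hd5 : d ≤ 5 := by omega
    interval_cases d <;> simp [Fin.prod_univ_succ, Finset.prod_range_succ] at hdvd
  obtain ⟨r, hr, hrd, hrk⟩ := Cfsg.Agent.S2904.result q (2 * n) hq1 (by omega) h2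
    (by rintro ⟨h3, _⟩; omega)
  have hqn1 : 1 ≤ q ^ (2 * n) := Nat.one_le_pow _ _ (by omega)
  have hrq : ¬ r ∣ q := by
    intro h
    have h1 : r ∣ q ^ (2 * n) := dvd_pow h (by omega)
    have h2 := Nat.dvd_sub h1 hrd
    have h3 : q ^ (2 * n) - (q ^ (2 * n) - 1) = 1 := by omega
    rw [h3] at h2
    exact hr.one_lt.ne' (Nat.dvd_one.1 h2)
  have h3 : r ∣ q ^ (n ^ 2) * ∏ i ∈ Finset.range n, (q ^ (2 * (i + 1)) - 1) := by
    apply Dvd.dvd.mul_left
    refine Dvd.dvd.trans ?_ (Finset.dvd_prod_of_mem _ (Finset.mem_range.2 (by omega : n - 1 < n)))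
    have h4 : 2 * (n - 1 + 1) = 2 * n := by omega
    rw [h4]
    exact hrd
  have h4 := h3.trans hdvd
  obtain ⟨i, _, hi⟩ := (Prime.dvd_finsetProd_iff hr.prime _).1 h4
  have hid := i.2
  have h5 : q ^ d - q ^ (i : ℕ) = q ^ (i : ℕ) * (q ^ (d - (i : ℕ)) - 1) := by
    rw [Nat.mul_sub, mul_one, ← pow_add]
    congr 2
    omega
  rw [h5] at hi
  rcases (Nat.Prime.dvd_mul hr).1 hi with h6 | h6
  · exact hrq (hr.dvd_of_dvd_pow h6)
  · exact hrk _ (by omega) (by omega) h6

end Cfsg.Agent.S2394
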