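import Mathlib
import Cfsg.Statements.S2450
import Cfsg.Agent.H14.SL2b

set_option autoImplicit false
open Cfsg

namespace Cfsg.Agent.S2450

open Cfsg.Agent.H14 Matrix Polynomial

variable {F : Type*} [Field F]

local notation "SL2" => Matrix.SpecialLinearGroup (Fin 2) F
local notation "PSL2" => Matrix.ProjectiveSpecialLinearGroup (Fin 2) F
local notation "M2" => Matrix (Fin 2) (Fin 2) F

/-- squared trace is a class invariant of `PSL₂` -/
theorem trace_sq_eq_of_isConj (Y1 Y2 : SL2)
    (h : IsConj (QuotientGroup.mk Y1 : PSL2) (QuotientGroup.mk Y2)) : Y1.1.trace ^ 2 = Y2.1.trace ^ 2 := by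
  obtain ⟨u, hu⟩ := isConj_iff.mp h
  obtain ⟨U, rfl⟩ := QuotientGroup.mk_surjective u
  rw [← QuotientGroup.mk_inv, ← QuotientGroup.mk_mul, ← QuotientGroup.mk_mul, QuotientGroup.eq] at hu
  rw [mem_center_iff_isScal] at hu
  set Z := (U * Y1 * U⁻¹)⁻¹ * Y2 with hZ
  have hY2 : Y2 = (U * Y1 * U⁻¹) * Z := by rw [hZ]; group
  have hdet := sl2_det Z
  have hsm := hu.eq_smul
  obtain ⟨s1, s2, s3⟩ := hu
  rw [s1, ← s3] at hdet
  have htr : (U * Y1 * U⁻¹).1.trace = Y1.1.trace :=
    (sl2_trace_eq_of_isConj (isConj_iff.mpr ⟨U, rfl⟩)).symm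
  rw [hY2, Matrix.SpecialLinearGroup.coe_mul, hsm, Matrix.mul_smul, mul_one, Matrix.trace_smul, htr, smul_eq_mul]
  linear_combination (-Y1.1.trace ^ 2) * hdet

/-- upper unitriangular element -/
def ut (r : F) : SL2 := mkSL !![1, r; 0, 1] (by simp [Matrix.det_fin_two_of])

theorem trace_formula (α β : F) (δ1 δ2 : Fˣ) (r : F) :
    (ut r * slC α δ1 * (ut r)⁻¹ * slC β δ2).1.trace =
      -((δ1 : F) * δ2) * r ^ 2 + (α * δ2 - δ1 * β) * r + (α * β - δ2 * ((δ1⁻¹ : Fˣ) : F) - δ1 * ((δ2⁻¹ : Fˣ) : F)) := by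
  simp only [Matrix.SpecialLinearGroup.coe_mul, Matrix.SpecialLinearGroup.coe_inv, ut, coe_mkSL, coe_slC,
      Matrix.adjugate_fin_two_of, Matrix.trace_fin_two, Matrix.mul_apply, Fin.sum_univ_two]
  simp
  ring

theorem result {F : Type*} [Field F] [Fintype F] (h4 : 4 ≤ Fintype.card F)
    (a b : Matrix.ProjectiveSpecialLinearGroup (Fin 2) F) (ha : a ≠ 1) (hb : b ≠ 1) (c : Matrix.ProjectiveSpecialLinearGroup (Fin 2) F) :
    {g : Matrix.ProjectiveSpecialLinearGroup (Fin 2) F | ∃ u v : Matrix.ProjectiveSpecialLinearGroup (Fin 2) F, g = (u * a * u⁻¹) * (v * b * v⁻¹)} ≠ {g | IsConj c g} := by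
  classical
  intro hset
  obtain ⟨A, rfl⟩ := QuotientGroup.mk_surjective a
  obtain ⟨B, rfl⟩ := QuotientGroup.mk_surjective b
  have hA : ¬ IsScal A.1 := fun h => ha ((QuotientGroup.eq_one_iff _).mpr ((mem_center_iff_isScal A).mpr h))
  have hB : ¬ IsScal B.1 := fun h => hb ((QuotientGroup.eq_one_iff _).mpr ((mem_center_iff_isScal B).mpr h))
  obtain ⟨δ1, h1⟩ := sl2_exists_isConj_slC A hA
  obtain ⟨δ2, h2⟩ := sl2_exists_isConj_slC B hB
  obtain ⟨c1, hc1⟩ := isConj_iff.mp h1
  obtain ⟨c2, hc2⟩ := isConj_iff.mp h2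
  set α := A.1.trace
  set β := B.1.trace
  have hmem : ∀ r : F, IsConj c (QuotientGroup.mk (ut r * slC α δ1 * (ut r)⁻¹ * slC β δ2)) := by
    intro r
    have : (QuotientGroup.mk (ut r * slC α δ1 * (ut r)⁻¹ * slC β δ2) : Matrix.ProjectiveSpecialLinearGroup (Fin 2) F) ∈
        {g : Matrix.ProjectiveSpecialLinearGroup (Fin 2) F | ∃ u v : Matrix.ProjectiveSpecialLinearGroup (Fin 2) F, g = (u * QuotientGroup.mk A * u⁻¹) * (v * QuotientGroup.mk B * v⁻¹)} := by
      refine ⟨QuotientGroup.mk (ut r * c1), QuotientGroup.mk c2, ?_⟩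
      rw [← hc1, ← hc2]
      simp only [← QuotientGroup.mk_mul, ← QuotientGroup.mk_inv]
      congr 1
      group
    rw [hset] at this
    exact this
  set e : F := -((δ1 : F) * δ2) with he
  have he0 : e ≠ 0 := by
    rw [he]; exact neg_ne_zero.mpr (mul_ne_zero δ1.ne_zero δ2.ne_zero)
  set T1 : F := α * δ2 - δ1 * β with hT1
  set T0 : F := α * β - δ2 * ((δ1⁻¹ : Fˣ) : F) - δ1 * ((δ2⁻¹ : Fˣ) : F) with hT0
  have hsq : ∀ r : F, (e * r ^ 2 + T1 * r + T0) ^ 2 = T0 ^ 2 := by
    intro r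
    have := trace_sq_eq_of_isConj _ _ ((hmem r).symm.trans (hmem 0))
    rw [trace_formula, trace_formula] at this
    rw [← he, ← hT1, ← hT0] at this
    rw [this]
    ring
  rcases Nat.lt_or_ge 4 (Fintype.card F) with h5 | h5
  · -- degree four polynomial with too many roots
    set P : F[X] := (C e * X ^ 2 + C T1 * X + C T0) ^ 2 - C (T0 ^ 2) with hP
    have hdeg : P.natDegree = 4 := by
      rw [hP, natDegree_sub_C, natDegree_pow, natDegree_quadratic he0]
    have hzero : P = 0 := by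
      apply Polynomial.eq_zero_of_natDegree_lt_card_of_eval_eq_zero' P Finset.univ
      · intro r _
        rw [hP]
        simp only [eval_sub, eval_pow, eval_add, eval_mul, eval_C, eval_X]
        rw [hsq r, sub_self]
      · rw [Finset.card_univ]; omega
    rw [hzero] at hdeg
    simp at hdeg
  · have hq : Fintype.card F = 4 := by omega
    have hch : ringChar F = 2 := (FiniteField.even_card_iff_char_two).mpr (by rw [hq])
    have h20 : (2 : F) = 0 := by
      have : CharP F 2 := ringChar.of_eq hch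
      have := CharP.cast_eq_zero F 2
      exact_mod_cast this
    set P : F[X] := C e * X ^ 2 + C T1 * X + C 0 with hP
    have hdeg : P.natDegree = 2 := by
      rw [hP, natDegree_quadratic he0]
    have hzero : P = 0 := by
      apply Polynomial.eq_zero_of_natDegree_lt_card_of_eval_eq_zero' P Finset.univ
      · intro r _
        rw [hP]
        simp only [eval_add, eval_mul, eval_C, eval_X, eval_pow, add_zero]
        have h := hsq r
        have : (e * r ^ 2 + T1 * r) ^ 2 = 0 := by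
          linear_combination h - (e * r ^ 2 + T1 * r) * T0 * h20
        exact pow_eq_zero_iff (by norm_num) |>.mp this
      · rw [Finset.card_univ]; omega
    rw [hzero] at hdeg
    simp at hdeg

end Cfsg.Agent.S2450
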