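import Mathlib
import Cfsg.Statements.S2455
import Cfsg.Agent.H14.SL2b

set_option autoImplicit false
open Cfsg

namespace Cfsg.Agent.S2455

open Cfsg.Agent.H14 Matrix

theorem result {F : Type*} [Field F] [Fintype F] (p : ℕ) [Fact p.Prime] [CharP F p] (hp : p ≠ 2) (h5 : 5 ≤ Fintype.card F)
    (x : Matrix.ProjectiveSpecialLinearGroup (Fin 2) F) (hx2 : 2 < orderOf x) (hxp : ¬ p ∣ orderOf x) : ∀ g : Matrix.ProjectiveSpecialLinearGroup (Fin 2) F, g ≠ 1 → ∃ u v : Matrix.ProjectiveSpecialLinearGroup (Fin 2) F, g = (u * x * u⁻¹) * (v * x * v⁻¹) := by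
  classical
  have hpp : p.Prime := Fact.out
  have hodd : Fintype.card F % 2 = 1 := by
    obtain ⟨n, -, hn⟩ := FiniteField.card F p
    rw [hn]
    have : Odd p := hpp.odd_of_ne_two hp
    exact Nat.odd_iff.mp this.pow
  have h2 : (2 : F) ≠ 0 := odd_two_ne_zero hodd
  obtain ⟨X, rfl⟩ := QuotientGroup.mk_surjective x
  set t := X.1.trace with ht
  -- t ≠ 0
  have ht0 : t ≠ 0 := by
    intro h0
    have h1 := sl2_mul_self X
    rw [← ht, h0, zero_smul, zero_sub] at h1
    have h3 : X * X = -1 := by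
      apply Subtype.ext
      simpa using h1
    have h4 : (QuotientGroup.mk X : Matrix.ProjectiveSpecialLinearGroup (Fin 2) F) ^ 2 = 1 := by
      rw [pow_two, ← QuotientGroup.mk_mul, h3]
      exact (QuotientGroup.eq_one_iff _).mpr neg_one_mem_center
    have := orderOf_le_of_pow_eq_one (by norm_num) h4
    omega
  have key : ∀ X' : Matrix.SpecialLinearGroup (Fin 2) F, X'.1.trace = 2 →
      (QuotientGroup.mk X' : Matrix.ProjectiveSpecialLinearGroup (Fin 2) F) = QuotientGroup.mk X → False := by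
    intro X' h1 h3
    have h4 := sl2_mul_self X'
    rw [h1] at h4
    have h5' : (X'.1 - 1) ^ 2 = 0 := by
      rw [pow_two, sub_mul, mul_sub, mul_sub, h4]
      simp only [mul_one, one_mul, two_smul]
      abel
    have h6 := pow_char_pow_eq_one_of_sub_one_pow p X'.1 1 2 (by rw [pow_one]; exact hpp.two_le) h5'
    rw [pow_one] at h6
    have h7 : X' ^ p = 1 := by
      apply Subtype.ext
      simpa using h6
    have h8 : (QuotientGroup.mk X : Matrix.ProjectiveSpecialLinearGroup (Fin 2) F) ^ p = 1 := by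
      rw [← h3, ← QuotientGroup.mk_pow, h7]
      rfl
    have h9 := orderOf_dvd_of_pow_eq_one h8
    rcases (Nat.dvd_prime hpp).mp h9 with h | h
    · omega
    · exact hxp (h ▸ dvd_rfl)
  have ht4 : t ^ 2 ≠ 4 := by
    intro h4
    have : (t - 2) * (t + 2) = 0 := by linear_combination h4
    rcases mul_eq_zero.mp this with h | h
    · exact key X (by rw [← ht]; linear_combination h) rfl
    · exact key (-X) (by rw [trace_neg_sl2, ← ht]; linear_combination -h) (mk_neg X)
  have hXc : IsConj X (slC t 1) := sl2_isConj_slC_one_of_odd hodd X (not_isScal_of_trace_sq_ne X ht4) ht4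
  intro g hg
  obtain ⟨Y, rfl⟩ := QuotientGroup.mk_surjective g
  have hY : ¬ IsScal Y.1 := by
    intro h
    exact hg ((QuotientGroup.eq_one_iff _).mpr ((mem_center_iff_isScal Y).mpr h))
  -- choose the sign
  obtain ⟨Y', hY'1, hY'2, hY'3⟩ : ∃ Y' : Matrix.SpecialLinearGroup (Fin 2) F,
      (QuotientGroup.mk Y' : Matrix.ProjectiveSpecialLinearGroup (Fin 2) F) = QuotientGroup.mk Y ∧
      ¬ IsScal Y'.1 ∧ Y'.1.trace ≠ 2 := by
    by_cases h : Y.1.trace = 2
    · refine ⟨-Y, mk_neg Y, ?_, ?_⟩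
      · intro hs
        apply hY
        obtain ⟨s1, s2, s3⟩ := hs
        simp only [Matrix.SpecialLinearGroup.coe_neg, Matrix.neg_apply, neg_eq_zero, neg_inj] at s1 s2 s3
        exact ⟨s1, s2, s3⟩
      · rw [trace_neg_sl2, h]
        intro h'
        have : (2 : F) * 2 = 0 := by linear_combination -h'
        exact h2 (mul_self_eq_zero.mp this)
    · exact ⟨Y, rfl, hY, h⟩
  obtain ⟨δ, hδ⟩ := sl2_exists_isConj_slC Y' hY'2
  set s := Y'.1.trace with hs
  obtain ⟨x0, y0, hxy⟩ : ∃ x y : F, x ^ 2 - s * x * y + y ^ 2 - t * x + t * y + 1 = 0 := by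
    by_cases hs4 : s ^ 2 = 4
    · have hs2 : s = -2 := by
        have : (s - 2) * (s + 2) = 0 := by linear_combination hs4
        rcases mul_eq_zero.mp this with h | h
        · exact absurd (by linear_combination h) hY'3
        · linear_combination h
      refine ⟨1 / (2 * t), - (1 / (2 * t)), ?_⟩
      rw [hs2]
      field_simp
      ring
    · exact exists_conic_point_odd hodd t t s hs4
  obtain ⟨A, B, hA, hB, hAB⟩ := exists_factor_slC t t s δ x0 y0 hxy
  have hAc : IsConj X A := by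
    have := sl2_isConj_slC_one_of_odd hodd A (not_isScal_of_trace_sq_ne A (hA ▸ ht4)) (hA ▸ ht4)
    rw [hA] at this
    exact hXc.trans this.symm
  have hBc : IsConj X B := by
    have := sl2_isConj_slC_one_of_odd hodd B (not_isScal_of_trace_sq_ne B (hB ▸ ht4)) (hB ▸ ht4)
    rw [hB] at this
    exact hXc.trans this.symm
  obtain ⟨a, ha⟩ := isConj_iff.mp hAc
  obtain ⟨b, hb⟩ := isConj_iff.mp hBc
  obtain ⟨c, hc⟩ := isConj_iff.mp hδ.symm
  refine ⟨QuotientGroup.mk (c * a), QuotientGroup.mk (c * b), ?_⟩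
  rw [← hY'1, ← hc, ← hAB, ← ha, ← hb]
  simp only [← QuotientGroup.mk_mul, ← QuotientGroup.mk_inv]
  congr 1
  group

end Cfsg.Agent.S2455
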