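import Mathlib
import Cfsg.Statements.S2456
import Cfsg.Agent.H14.SL2c

set_option autoImplicit false
open Cfsg

namespace Cfsg.Agent.S2456

open Cfsg.Agent.H14 Matrix

theorem result {F : Type*} [Field F] [Fintype F] [CharP F 2] (h4 : 4 ≤ Fintype.card F)
    (x : Matrix.ProjectiveSpecialLinearGroup (Fin 2) F) (hx2 : 2 < orderOf x) (hxq : ¬ orderOf x ∣ Fintype.card F + 1) : ∀ g : Matrix.ProjectiveSpecialLinearGroup (Fin 2) F, g ≠ 1 → ∃ u v : Matrix.ProjectiveSpecialLinearGroup (Fin 2) F, g = (u * x * u⁻¹) * (v * x * v⁻¹) := by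
  classical
  have hch : ringChar F = 2 := ringChar.eq F 2
  have h20 : (2 : F) = 0 := by
    have := CharP.cast_eq_zero F 2
    exact_mod_cast this
  obtain ⟨X, rfl⟩ := QuotientGroup.mk_surjective x
  set t := X.1.trace with ht
  have hXs : ¬ IsScal X.1 := by
    intro h
    have : (QuotientGroup.mk X : Matrix.ProjectiveSpecialLinearGroup (Fin 2) F) = 1 :=
      (QuotientGroup.eq_one_iff _).mpr ((mem_center_iff_isScal X).mpr h)
    rw [this, orderOf_one] at hx2
    omega
  -- t ≠ 0
  have ht0 : t ≠ 0 := by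
    intro h0
    have h1 := sl2_mul_self X
    rw [← ht, h0, zero_smul, zero_sub] at h1
    have h3 : X * X = -1 := by
      apply Subtype.ext
      simpa using h1
    have h4 : (QuotientGroup.mk X : Matrix.ProjectiveSpecialLinearGroup (Fin 2) F) ^ 2 = 1 := by
      rw [pow_two, ← QuotientGroup.mk_mul, h3]
      exact (QuotientGroup.eq_one_iff _).mpr neg_one_mem_center
    have := orderOf_le_of_pow_eq_one (by norm_num) h4
    omega
  -- eigenvalue
  obtain ⟨z, hz⟩ : ∃ z : F, z ^ 2 - t * z + 1 = 0 := by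
    by_contra hcon
    push Not at hcon
    have hne : NoEig X := hcon
    apply hxq
    apply orderOf_dvd_of_pow_eq_one
    rw [← QuotientGroup.mk_pow, hne.pow_card_add_one]
    rfl
  have hXc : IsConj X (slC t 1) := sl2_isConj_slC_one_of_char_two hch X hXs
  intro g hg
  obtain ⟨Y, rfl⟩ := QuotientGroup.mk_surjective g
  have hY : ¬ IsScal Y.1 := by
    intro h
    exact hg ((QuotientGroup.eq_one_iff _).mpr ((mem_center_iff_isScal Y).mpr h))
  obtain ⟨δ, hδ⟩ := sl2_exists_isConj_slC Y hY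
  set s := Y.1.trace with hs
  obtain ⟨x0, y0, hxy⟩ : ∃ x y : F, x ^ 2 - s * x * y + y ^ 2 - t * x + t * y + 1 = 0 := by
    by_cases hs0 : s = 0
    · refine ⟨z, 0, ?_⟩
      rw [hs0]
      linear_combination hz
    · obtain ⟨r, hr⟩ := FiniteField.isSquare_of_char_two hch (t ^ 2 / s - 1)
      refine ⟨t / s + r, - (t / s), ?_⟩
      field_simp at hr ⊢
      linear_combination (-s) * hr + (r * s * t  + t ^ 2) * h20
  have scal_of_trace : ∀ A : Matrix.SpecialLinearGroup (Fin 2) F, A.1.trace = t → ¬ IsScal A.1 := by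
    intro A hA hsc
    apply ht0
    obtain ⟨s1, s2, s3⟩ := hsc
    rw [← hA, Matrix.trace_fin_two, ← s3]
    linear_combination (A.1 0 0) * h20
  obtain ⟨A, B, hA, hB, hAB⟩ := exists_factor_slC t t s δ x0 y0 hxy
  have hAc : IsConj X A := by
    have := sl2_isConj_slC_one_of_char_two hch A (scal_of_trace A hA)
    rw [hA] at this
    exact hXc.trans this.symm
  have hBc : IsConj X B := by
    have := sl2_isConj_slC_one_of_char_two hch B (scal_of_trace B hB)
    rw [hB] at this
    exact hXc.trans this.symm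
  obtain ⟨a, ha⟩ := isConj_iff.mp hAc
  obtain ⟨b, hb⟩ := isConj_iff.mp hBc
  obtain ⟨c, hc⟩ := isConj_iff.mp hδ.symm
  refine ⟨QuotientGroup.mk (c * a), QuotientGroup.mk (c * b), ?_⟩
  rw [← hc, ← hAB, ← ha, ← hb]
  simp only [← QuotientGroup.mk_mul, ← QuotientGroup.mk_inv]
  congr 1
  group

end Cfsg.Agent.S2456
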