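import Mathlib
import Cfsg.Statements.S2466
import Cfsg.Agent.Lib.Helper19.AltFacts
-- import your own Cfsg.Agent.* helpers here

set_option autoImplicit false
open Cfsg

namespace Cfsg.Agent.S2466

/-- Adjacency of odd primes in the prime graph of the alternating groups: let r ≠ s be odd primes at most n. The alternating group of degree n has an element of order r·s if and only if r + s ≤ n. -/
theorem result (n r s : ℕ) (hr : r.Prime) (hs : s.Prime) (hr2 : r ≠ 2) (hs2 : s ≠ 2) (hrs : r ≠ s) (hrn : r ≤ n) (hsn : s ≤ n) :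
    (r * s ∈ Set.range (orderOf : alternatingGroup (Fin n) → ℕ)) ↔ r + s ≤ n := by
  constructor
  · rintro ⟨σ, hσ⟩
    by_contra hcon
    rw [← Subgroup.orderOf_coe] at hσ
    exact Lib.Helper19.AF.orderOf_ne_mul hr hs hrs (by omega) _ hσ
  · intro h
    obtain ⟨σ, hσ⟩ := (Equiv.Perm.exists_with_cycleType_iff (α := Fin n) (m := {r, s})).2
      ⟨by simpa using h, by
        intro a ha
        simp only [Multiset.insert_eq_cons, Multiset.mem_cons, Multiset.mem_singleton] at ha
        rcases ha with rfl | rfl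
        · exact hr.two_le
        · exact hs.two_le⟩
    have hodd : ∀ p : ℕ, p.Prime → p ≠ 2 → (-1 : ℤˣ) ^ p = -1 := fun p hp hp2 =>
      (hp.odd_of_ne_two hp2).neg_one_pow
    have hsign : Equiv.Perm.sign σ = 1 := by
      rw [Equiv.Perm.sign_of_cycleType, hσ]
      simp [pow_add, hodd r hr hr2, hodd s hs hs2]
    refine ⟨⟨σ, Equiv.Perm.mem_alternatingGroup.2 hsign⟩, ?_⟩
    rw [← Subgroup.orderOf_coe]
    show orderOf σ = r * s
    rw [← Equiv.Perm.lcm_cycleType, hσ]
    simp only [Multiset.insert_eq_cons, Multiset.lcm_cons, Multiset.lcm_singleton]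
    have : Nat.Coprime r s := (Nat.coprime_primes hr hs).2 hrs
    simp only [normalize_eq]
    exact this.lcm_eq_mul

end Cfsg.Agent.S2466
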