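import Cfsg.Statements.S2467
import Mathlib
-- import your own Cfsg.Agent.* helpers here

set_option autoImplicit false
open Cfsg

namespace Cfsg.Agent.S2467

theorem prime_dvd_mlcm {p : ℕ} (hp : p.Prime) (s : Multiset ℕ) :
    p ∣ s.lcm → ∃ a ∈ s, p ∣ a := by
  induction s using Multiset.induction_on with
  | empty =>
    intro h
    rw [Multiset.lcm_zero] at h
    exact absurd (Nat.dvd_one.1 h) hp.one_lt.ne'
  | cons a s ih =>
    intro h
    rw [Multiset.lcm_cons] at h
    have h2 : p ∣ a * s.lcm := h.trans (Nat.lcm_dvd_mul a s.lcm)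
    rcases (Nat.Prime.dvd_mul hp).1 h2 with h3 | h3
    · exact ⟨a, Multiset.mem_cons_self a s, h3⟩
    · obtain ⟨b, hb, hpb⟩ := ih h3
      exact ⟨b, Multiset.mem_cons_of_mem hb, hpb⟩


/-- Adjacency of 2 and an odd prime in the prime graph of the alternating groups: let r be an odd prime at most n, with n ≥ 4. The alternating group of degree n has an element of order 2r if and only if r + 4 ≤ n. -/
theorem result (n r : ℕ) (hn : 4 ≤ n) (hr : r.Prime) (hr2 : r ≠ 2) (hrn : r ≤ n) :
    (2 * r ∈ Set.range (orderOf : alternatingGroup (Fin n) → ℕ)) ↔ r + 4 ≤ n := by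
  classical
  have hrodd : Odd r := hr.odd_of_ne_two hr2
  have hr3 : 3 ≤ r := by
    have := hr.two_le
    omega
  constructor
  · rintro ⟨⟨g, hg⟩, ho⟩
    have ho' : orderOf g = 2 * r := by
      rw [← ho]; exact (Subgroup.orderOf_mk g hg).symm
    rw [Equiv.Perm.mem_alternatingGroup, Equiv.Perm.sign_of_cycleType'] at hg
    have hsum : g.cycleType.sum ≤ n := by
      have := g.sum_cycleType_le
      rwa [Fintype.card_fin] at this
    have hge : ∀ b ∈ g.cycleType, 2 ≤ b := fun b hb => Equiv.Perm.two_le_of_mem_cycleType hb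
    have hdv : ∀ b ∈ g.cycleType, b ∣ 2 * r := fun b hb => ho' ▸ Equiv.Perm.dvd_of_mem_cycleType hb
    have hlcm : g.cycleType.lcm = 2 * r := by rw [Equiv.Perm.lcm_cycleType, ho']
    obtain ⟨a, ha, hra⟩ := prime_dvd_mlcm hr g.cycleType (by rw [hlcm]; exact Dvd.intro_left 2 rfl)
    obtain ⟨b, hb, h2b⟩ := prime_dvd_mlcm Nat.prime_two g.cycleType (by rw [hlcm]; exact Dvd.intro r rfl)
    obtain ⟨m', hm'⟩ := Multiset.exists_cons_of_mem ha
    rw [hm'] at hg hsum hge hb
    rw [Multiset.map_cons, Multiset.prod_cons] at hg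
    rw [Multiset.sum_cons] at hsum
    obtain ⟨c, rfl⟩ := hra
    have hc : c ∣ 2 := by
      have := hdv _ ha
      rw [mul_comm 2 r] at this
      exact Nat.dvd_of_mul_dvd_mul_left hr.pos this
    have hc' : c = 1 ∨ c = 2 := (Nat.dvd_prime Nat.prime_two).1 hc
    rcases hc' with rfl | rfl
    · rw [mul_one] at hg hsum hb hge
      rw [hrodd.neg_one_pow, neg_neg, one_mul] at hg
      rcases Multiset.mem_cons.1 hb with rfl | hb'
      · exfalso
        rcases hrodd with ⟨k, hk⟩
        omega
      obtain ⟨m'', hm''⟩ := Multiset.exists_cons_of_mem hb'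
      rw [hm''] at hg hsum hge
      rw [Multiset.map_cons, Multiset.prod_cons,
        (even_iff_two_dvd.2 h2b).neg_one_pow] at hg
      rw [Multiset.sum_cons] at hsum
      have hne : m'' ≠ 0 := by
        rintro rfl
        simp at hg
      obtain ⟨d, hd⟩ := Multiset.exists_mem_of_ne_zero hne
      have h1 := hge d (by simp [hd])
      have h2 := hge b (by simp)
      have h3 := Multiset.le_sum_of_mem hd
      omega
    · have he : Even (r * 2) := ⟨r, by ring⟩
      rw [he.neg_one_pow] at hg
      have hne : m' ≠ 0 := by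
        rintro rfl
        simp at hg
      obtain ⟨d, hd⟩ := Multiset.exists_mem_of_ne_zero hne
      have h1 := hge d (by simp [hd])
      have h3 := Multiset.le_sum_of_mem hd
      omega
  · intro h
    obtain ⟨g, hg⟩ := (Equiv.Perm.exists_with_cycleType_iff (α := Fin n)
      (m := r ::ₘ 2 ::ₘ 2 ::ₘ 0)).2
      ⟨by simp only [Multiset.sum_cons, Multiset.sum_zero, Fintype.card_fin]; omega, by
        intro a ha
        simp only [Multiset.mem_cons, Multiset.notMem_zero, or_false] at ha
        rcases ha with rfl | rfl | rfl <;> omega⟩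
    have hsign : g ∈ alternatingGroup (Fin n) := by
      rw [Equiv.Perm.mem_alternatingGroup, Equiv.Perm.sign_of_cycleType, hg]
      simp only [Multiset.sum_cons, Multiset.sum_zero, Multiset.card_cons, Multiset.card_zero]
      apply Even.neg_one_pow
      rcases hrodd with ⟨k, rfl⟩
      exact ⟨k + 4, by ring⟩
    refine ⟨⟨g, hsign⟩, ?_⟩
    rw [Subgroup.orderOf_mk, ← Equiv.Perm.lcm_cycleType, hg]
    simp only [Multiset.lcm_cons, Multiset.lcm_zero]
    have h1 : GCDMonoid.lcm 2 (GCDMonoid.lcm 2 1) = 2 := by decide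
    rw [h1]
    show Nat.lcm r 2 = 2 * r
    rw [Nat.Coprime.lcm_eq_mul, mul_comm]
    exact (Nat.coprime_primes hr Nat.prime_two).2 hr2

end Cfsg.Agent.S2467
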