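import Mathlib
import Cfsg.Statements.S2471
import Cfsg.Agent.H14.SL2d

set_option autoImplicit false
open Cfsg

namespace Cfsg.Agent.S2471

open Cfsg.Agent.H14 Matrix

theorem result {F : Type*} [Field F] [Fintype F] (p : ℕ) [Fact p.Prime] [CharP F p] (hp : p ≠ 2) (h5 : 5 ≤ Fintype.card F) (g : Matrix.ProjectiveSpecialLinearGroup (Fin 2) F) :
    orderOf g ≠ 2 * p := by
  classical
  have hpp : p.Prime := Fact.out
  obtain ⟨n, hn⟩ := FiniteField.card F p
  have hpq : p ∣ Fintype.card F := by
    rw [hn.2]; exact dvd_pow_self p n.ne_zero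
  intro hord
  obtain ⟨X, rfl⟩ := QuotientGroup.mk_surjective g
  by_cases ht : X.1.trace ^ 2 = 4
  · have := orderOf_dvd_of_pow_eq_one (psl2_pow_char_eq_one p X ht)
    rw [hord] at this
    have := Nat.le_of_dvd hpp.pos this
    have := hpp.pos
    omega
  · have hpo : p ∣ orderOf (QuotientGroup.mk X : Matrix.ProjectiveSpecialLinearGroup (Fin 2) F) := by
      rw [hord]; exact dvd_mul_left p 2
    by_cases he : ∃ z : F, z ^ 2 - X.1.trace * z + 1 = 0
    · obtain ⟨z, hz⟩ := he
      obtain ⟨w, -, hw⟩ := sl2_isConj_dg X ht z hz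
      have h1 : X ^ (Fintype.card F - 1) = 1 := by
        obtain ⟨c, hc⟩ := isConj_iff.mp hw.symm
        rw [← hc, conj_pow, dg_pow_card_sub_one]
        simp
      have h2 : (QuotientGroup.mk X : Matrix.ProjectiveSpecialLinearGroup (Fin 2) F) ^ (Fintype.card F - 1) = 1 := by
        rw [← QuotientGroup.mk_pow, h1]; rfl
      have h3 := hpo.trans (orderOf_dvd_of_pow_eq_one h2)
      have h4 : p ∣ 1 := by
        have := (Nat.dvd_sub hpq h3)
        have h6 : Fintype.card F - (Fintype.card F - 1) = 1 := by omega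
        rwa [h6] at this
      exact hpp.one_lt.ne' (Nat.dvd_one.mp h4)
    · push Not at he
      have hne : NoEig X := he
      have h2 : (QuotientGroup.mk X : Matrix.ProjectiveSpecialLinearGroup (Fin 2) F) ^ (Fintype.card F + 1) = 1 := by
        rw [← QuotientGroup.mk_pow, hne.pow_card_add_one]; rfl
      have h3 := hpo.trans (orderOf_dvd_of_pow_eq_one h2)
      have h4 : p ∣ 1 := (Nat.dvd_add_right hpq).mp h3
      exact hpp.one_lt.ne' (Nat.dvd_one.mp h4)

end Cfsg.Agent.S2471
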