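import Mathlib
import Cfsg.Statements.S2475
import Cfsg.Agent.H14.Nonsplit

set_option autoImplicit false
open Cfsg

namespace Cfsg.Agent.S2475

open Cfsg.Agent.H14 Matrix

variable {F : Type*} [Field F]

local notation "SL2" => Matrix.SpecialLinearGroup (Fin 2) F
local notation "PSL2" => Matrix.ProjectiveSpecialLinearGroup (Fin 2) F
local notation "M2" => Matrix (Fin 2) (Fin 2) F

theorem isScal_sq (Y : SL2) (h : IsScal Y.1) : Y ^ 2 = 1 := by
  have hdet := sl2_det Y
  obtain ⟨s1, s2, s3⟩ := h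
  rw [s1, ← s3] at hdet
  apply Subtype.ext
  rw [Matrix.SpecialLinearGroup.coe_pow, pow_two]
  ext i j
  fin_cases i <;> fin_cases j <;> simp [Matrix.mul_apply, Fin.sum_univ_two, s1, s2, ← s3]
  · linear_combination hdet
  · linear_combination hdet

theorem mk_pow_eq_one_iff (X : SL2) (n : ℕ) : (QuotientGroup.mk X : PSL2) ^ n = 1 ↔ IsScal (X ^ n).1 := by
  rw [← QuotientGroup.mk_pow, QuotientGroup.eq_one_iff, mem_center_iff_isScal]

theorem NoEig.isScal_of_sq {X : SL2} (h : NoEig X) (k : ℕ) (hk : X ^ (2 * k) = 1) : IsScal (X ^ k).1 := by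
  obtain ⟨a, b, hab⟩ := exists_pow_eq_lin X k
  have h1 : X.1 ^ k * X.1 ^ k = 1 := by
    rw [← pow_add, ← two_mul]
    have := congrArg (fun g : SL2 => (g : M2)) hk
    simpa using this
  have h2 : lin X (a - 1) b * lin X (a + 1) b = 0 := by
    have e1 : lin X (a - 1) b = X.1 ^ k - 1 := by rw [hab]; simp only [lin, sub_smul, one_smul]; abel
    have e2 : lin X (a + 1) b = X.1 ^ k + 1 := by rw [hab]; simp only [lin, add_smul, one_smul]; abel
    rw [e1, e2, sub_mul, mul_add, h1]
    simp only [mul_one, one_mul]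
    abel
  have h3 := congrArg Matrix.det h2
  rw [Matrix.det_mul, det_lin, det_lin, Matrix.det_zero] at h3
  have hb : b = 0 := by
    rcases mul_eq_zero.mp h3 with h0 | h0
    · by_contra hb
      exact h.form_ne_zero _ _ (fun hh => hb hh.2) h0
    · by_contra hb
      exact h.form_ne_zero _ _ (fun hh => hb hh.2) h0
  rw [Matrix.SpecialLinearGroup.coe_pow, hab, hb]
  simp [lin, IsScal]

theorem nt_aux (Q d : ℕ) (h : (d = 2 ∧ 2 ∣ Q) ∨ (d = 1 ∧ Odd Q)) :
    Q ∣ 2 * (Q / d) ∧ ∀ o, Q ∣ 2 * o → Q / d ∣ o := by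
  rcases h with ⟨rfl, k, rfl⟩ | ⟨rfl, hodd⟩
  · simp only [Nat.mul_div_cancel_left k (by norm_num : 0 < 2)]
    exact ⟨dvd_rfl, fun o ho => Nat.dvd_of_mul_dvd_mul_left (by norm_num) ho⟩
  · simp only [Nat.div_one]
    refine ⟨dvd_mul_left _ _, fun o ho => ?_⟩
    exact (Nat.Coprime.dvd_mul_left (Nat.coprime_two_right.mpr hodd)).mp ho

theorem exists_of_dvd {G : Type*} [Group G] (x : G) (N : ℕ) (hN : 0 < N) (hx : orderOf x = N) (m : ℕ) (hm : m ∣ N) :
    ∃ y : G, orderOf y = m := by
  obtain ⟨k, rfl⟩ := hm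
  have hk : k ≠ 0 := by rintro rfl; simp at hN
  have hm0 : 0 < m := by
    rcases Nat.eq_zero_or_pos m with h | h
    · subst h; simp at hN
    · exact h
  refine ⟨x ^ k, ?_⟩
  rw [orderOf_pow_of_dvd hk (by rw [hx]; exact dvd_mul_left _ _), hx]
  exact Nat.mul_div_cancel _ (Nat.pos_of_ne_zero hk)

theorem result {F : Type*} [Field F] [Fintype F] (p : ℕ) [Fact p.Prime] [CharP F p] (h4 : 4 ≤ Fintype.card F) :
    Set.range (orderOf : Matrix.ProjectiveSpecialLinearGroup (Fin 2) F → ℕ) =
      {m : ℕ | m ∣ p ∨ m ∣ (Fintype.card F - 1) / Nat.gcd 2 (Fintype.card F - 1) ∨ m ∣ (Fintype.card F + 1) / Nat.gcd 2 (Fintype.card F - 1)} := by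
  classical
  have hpp : p.Prime := Fact.out
  set q := Fintype.card F with hq
  set d := Nat.gcd 2 (q - 1) with hd
  have hd1 : (d = 2 ∧ 2 ∣ (q - 1)) ∨ (d = 1 ∧ Odd (q - 1)) := by
    rcases Nat.even_or_odd (q - 1) with he | ho
    · left
      exact ⟨Nat.gcd_eq_left he.two_dvd, he.two_dvd⟩
    · right
      exact ⟨Nat.coprime_two_left.mpr ho, ho⟩
  have hd2 : (d = 2 ∧ 2 ∣ (q + 1)) ∨ (d = 1 ∧ Odd (q + 1)) := by
    rcases hd1 with ⟨h1, h2⟩ | ⟨h1, h2⟩
    · left; exact ⟨h1, by omega⟩
    · right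
      refine ⟨h1, ?_⟩
      rw [Nat.odd_iff] at h2 ⊢
      omega
  obtain ⟨a1, a2⟩ := nt_aux (q - 1) d hd1
  obtain ⟨b1, b2⟩ := nt_aux (q + 1) d hd2
  have hdpos : 0 < d := by rcases hd1 with ⟨h1, _⟩ | ⟨h1, _⟩ <;> omega
  have hdle : d ≤ 2 := by rcases hd1 with ⟨h1, _⟩ | ⟨h1, _⟩ <;> omega
  ext m
  simp only [Set.mem_range, Set.mem_setOf_eq]
  constructor
  · rintro ⟨g, rfl⟩
    obtain ⟨X, rfl⟩ := QuotientGroup.mk_surjective g
    by_cases ht : X.1.trace ^ 2 = 4
    · left
      exact orderOf_dvd_of_pow_eq_one (psl2_pow_char_eq_one p X ht)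
    · right
      by_cases he : ∃ z : F, z ^ 2 - X.1.trace * z + 1 = 0
      · left
        obtain ⟨z, hz⟩ := he
        obtain ⟨w, -, hw⟩ := sl2_isConj_dg X ht z hz
        obtain ⟨c, hc⟩ := isConj_iff.mp hw.symm
        apply orderOf_dvd_of_pow_eq_one
        rw [← hc, QuotientGroup.mk_mul, QuotientGroup.mk_mul, QuotientGroup.mk_inv, conj_pow]
        have : (QuotientGroup.mk (dg w) : Matrix.ProjectiveSpecialLinearGroup (Fin 2) F) ^ ((q - 1) / d) = 1 := by
          rw [mk_pow_eq_one_iff, dg_pow, isScal_dg_iff, ← pow_mul, mul_comm]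
          obtain ⟨k, hk⟩ := a1
          rw [hk, pow_mul]
          have : w ^ (q - 1) = 1 := by
            rw [hq, ← Fintype.card_units]
            exact pow_card_eq_one
          rw [this, one_pow]
        rw [this]
        simp
      · right
        push Not at he
        have hne : NoEig X := he
        apply orderOf_dvd_of_pow_eq_one
        rw [mk_pow_eq_one_iff]
        apply NoEig.isScal_of_sq hne
        obtain ⟨k, hk⟩ := b1
        rw [hk, pow_mul, hne.pow_card_add_one, one_pow]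
  · rintro (hm | hm | hm)
    · rcases (Nat.dvd_prime hpp).mp hm with rfl | rfl
      · exact ⟨1, orderOf_one⟩
      · let u : Matrix.SpecialLinearGroup (Fin 2) F := mkSL !![1, 1; 0, 1] (by simp [Matrix.det_fin_two_of])
        refine ⟨QuotientGroup.mk u, ?_⟩
        apply orderOf_eq_prime
        · apply psl2_pow_char_eq_one
          simp [u, Matrix.trace_fin_two]
          norm_num
        · intro h
          rw [QuotientGroup.eq_one_iff, mem_center_iff_isScal] at h
          have := h.1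
          simp [u] at this
    · obtain ⟨ζ, hζ⟩ := IsCyclic.exists_generator (α := Fˣ)
      have hordζ : orderOf ζ = q - 1 := by
        rw [orderOf_eq_card_of_forall_mem_zpowers hζ, Nat.card_eq_fintype_card, Fintype.card_units]
      apply exists_of_dvd (QuotientGroup.mk (dg ζ) : Matrix.ProjectiveSpecialLinearGroup (Fin 2) F) _ _ _ m hm
      · apply Nat.div_pos _ hdpos
        omega
      · apply Nat.dvd_antisymm
        · apply orderOf_dvd_of_pow_eq_one
          rw [mk_pow_eq_one_iff, dg_pow, isScal_dg_iff, ← pow_mul, mul_comm]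
          obtain ⟨k, hk⟩ := a1
          rw [hk, pow_mul, ← hordζ, pow_orderOf_eq_one, one_pow]
        · apply a2
          have := pow_orderOf_eq_one (QuotientGroup.mk (dg ζ) : Matrix.ProjectiveSpecialLinearGroup (Fin 2) F)
          rw [mk_pow_eq_one_iff, dg_pow, isScal_dg_iff, ← pow_mul, mul_comm] at this
          rw [← hordζ]
          exact orderOf_dvd_of_pow_eq_one this
    · obtain ⟨X, hX, hne⟩ := exists_nonsplit_generator (F := F)
      apply exists_of_dvd (QuotientGroup.mk X : Matrix.ProjectiveSpecialLinearGroup (Fin 2) F) _ _ _ m hm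
      · apply Nat.div_pos _ hdpos
        omega
      · apply Nat.dvd_antisymm
        · apply orderOf_dvd_of_pow_eq_one
          rw [mk_pow_eq_one_iff]
          apply NoEig.isScal_of_sq hne
          obtain ⟨k, hk⟩ := b1
          rw [hk, pow_mul, hne.pow_card_add_one, one_pow]
        · apply b2
          have := pow_orderOf_eq_one (QuotientGroup.mk X : Matrix.ProjectiveSpecialLinearGroup (Fin 2) F)
          rw [mk_pow_eq_one_iff] at this
          have h2 := isScal_sq _ this
          rw [← pow_mul, mul_comm] at h2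
          rw [hq, ← hX]
          exact orderOf_dvd_of_pow_eq_one h2

end Cfsg.Agent.S2475
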