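import Mathlib
import Cfsg.Statements.S2485
import Cfsg.Agent.H14.PGL2b

set_option autoImplicit false

namespace Cfsg.Agent.S2485

open scoped Pointwise

theorem result {q k : ℕ} [Fact q.Prime] (hk : q + 1 = 2 ^ k) (hq : 7 ≤ q)
    (H : Sylow 2 (GL (Fin 2) (ZMod q) ⧸ Subgroup.center (GL (Fin 2) (ZMod q))))
    (x : GL (Fin 2) (ZMod q) ⧸ Subgroup.center (GL (Fin 2) (ZMod q))) :
    (H : Subgroup (GL (Fin 2) (ZMod q) ⧸ Subgroup.center (GL (Fin 2) (ZMod q)))) ⊓ MulAut.conj x • (H : Subgroup _) ≠ ⊥ := by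
  apply Cfsg.Agent.H14.pgl2_sylow2_inter (k := k)
  · rw [ZMod.card]; exact hk
  · rw [ZMod.card]; exact hq

end Cfsg.Agent.S2485
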