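import Mathlib
import Cfsg.Statements.S2503
import Cfsg.Agent.H14.SL2ABA

namespace Cfsg.Agent.S2503

open Cfsg Cfsg.Agent.H14

theorem result {F : Type*} [Field F] [Fintype F]
    (h2 : 2 ∣ Fintype.card F) (h4 : 4 ≤ Fintype.card F) :
    ∃ A B : Subgroup (Matrix.ProjectiveSpecialLinearGroup (Fin 2) F),
      IsCyclic A ∧ Nat.card A = Fintype.card F + 1 ∧ IsMulCommutative B ∧ (∀ b ∈ B, b * b = 1) ∧
        Nat.card B = Fintype.card F ∧
        ∀ g : Matrix.ProjectiveSpecialLinearGroup (Fin 2) F, ∃ a ∈ A, ∃ b ∈ B, ∃ c ∈ A, g = a * b * c := by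
  classical
  have hch : ringChar F = 2 := FiniteField.even_card_iff_char_two.mpr (by omega)
  have h20 : (2 : F) = 0 := by
    have := ringChar.Nat.cast_ringChar (R := F)
    rw [hch] at this
    exact_mod_cast this
  have hm1 : (-1 : Fˣ) = 1 := by
    apply Units.ext
    simp only [Units.val_neg, Units.val_one]
    linear_combination -h20
  obtain ⟨C, hC⟩ := exists_NST (F := F)
  set π := QuotientGroup.mk' (Subgroup.center (Matrix.SpecialLinearGroup (Fin 2) F)) with hπ
  have hinj : Function.Injective π := by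
    rw [injective_iff_map_eq_one]
    intro z hz
    have : z ∈ Subgroup.center (Matrix.SpecialLinearGroup (Fin 2) F) := (QuotientGroup.eq_one_iff z).mp hz
    rcases (mem_center_iff_eq z).mp this with h | h
    · exact h
    · rw [h, hm1, dg_one]
  refine ⟨C.map π, (uHom (F := F)).range.map π, ?_, ?_, ?_, ?_, ?_, ?_⟩
  · haveI := hC.1
    exact isCyclic_of_surjective (C.equivMapOfInjective π hinj) (C.equivMapOfInjective π hinj).surjective
  · rw [Subgroup.card_map_of_injective hinj, hC.2]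
  · refine ⟨⟨?_⟩⟩
    rintro ⟨_, x, hx, rfl⟩ ⟨_, y, hy, rfl⟩
    obtain ⟨c, rfl⟩ := (mem_range_uHom x).mp hx
    obtain ⟨d, rfl⟩ := (mem_range_uHom y).mp hy
    apply Subtype.ext
    simp only [Subgroup.coe_mul]
    rw [← map_mul, ← map_mul, bm_mul, bm_mul]
    congr 2
    simp [add_comm]
  · rintro _ ⟨x, hx, rfl⟩
    obtain ⟨c, rfl⟩ := (mem_range_uHom x).mp hx
    rw [← map_mul, bm_mul]
    have : (1 : Fˣ) * c + c * (((1 : Fˣ)⁻¹ : Fˣ) : F) = 0 := by
      simp
      linear_combination c * h20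
    rw [this, bm_zero]
    simp [dg_one]
  · rw [Subgroup.card_map_of_injective hinj, Nat.card_congr (MonoidHom.ofInjective uHom_injective).symm.toEquiv]
    rw [Nat.card_eq_fintype_card]
    exact Fintype.card_multiplicative F
  · intro g'
    obtain ⟨g, rfl⟩ := QuotientGroup.mk_surjective g'
    obtain ⟨a, ha, c, a', ha', rfl⟩ := aba_sl2 hch hC g
    exact ⟨π a, Subgroup.mem_map_of_mem π ha, π (bm 1 c),
      Subgroup.mem_map_of_mem π ((mem_range_uHom _).mpr ⟨c, rfl⟩), π a', Subgroup.mem_map_of_mem π ha', rfl⟩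

end Cfsg.Agent.S2503
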