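import Mathlib
import Cfsg.Statements.S2504
import Cfsg.Agent.Lib.Helper19.AbelAlt
-- import your own Cfsg.Agent.* helpers here

set_option autoImplicit false
open Cfsg

namespace Cfsg.Agent.S2504

/-- The largest order of an abelian subgroup of the alternating group of degree n is 3^k when n = 3k, 4·3^(k−1) when n = 3k + 1, and 16·3^(k−2) when n = 3k + 2, for every k ≥ 2 (so for all degrees n ≥ 6). -/
theorem result (k : ℕ) (hk : 2 ≤ k) :
    IsGreatest {c : ℕ | ∃ A : Subgroup (alternatingGroup (Fin (3 * k))), IsMulCommutative A ∧ Nat.card A = c} (3 ^ k) ∧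
    IsGreatest {c : ℕ | ∃ A : Subgroup (alternatingGroup (Fin (3 * k + 1))), IsMulCommutative A ∧ Nat.card A = c}
      (4 * 3 ^ (k - 1)) ∧
    IsGreatest {c : ℕ | ∃ A : Subgroup (alternatingGroup (Fin (3 * k + 2))), IsMulCommutative A ∧ Nat.card A = c}
      (16 * 3 ^ (k - 2)) := by
  refine ⟨Cfsg.Agent.Lib.Helper19.AbelPerm.greatestA _ _
      (Cfsg.Agent.Lib.Helper19.AbelPerm.exA_three_mul k) ?_,
    Cfsg.Agent.Lib.Helper19.AbelPerm.greatestA _ _ ?_ ?_,
    Cfsg.Agent.Lib.Helper19.AbelPerm.greatestA _ _ ?_ ?_⟩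
  · intro A hA _
    have := Cfsg.Agent.Lib.Helper19.AbelPerm.card_le_mp A hA
    rwa [Fintype.card_fin, Cfsg.Agent.Lib.Helper19.AbelPerm.mp_three_mul] at this
  · have := Cfsg.Agent.Lib.Helper19.AbelPerm.exA_add Cfsg.Agent.Lib.Helper19.AbelPerm.exA_four
      (Cfsg.Agent.Lib.Helper19.AbelPerm.exA_three_mul (k - 1))
    rwa [show 4 + 3 * (k - 1) = 3 * k + 1 by omega] at this
  · intro A hA _
    have := Cfsg.Agent.Lib.Helper19.AbelPerm.card_le_mp A hA
    rwa [Fintype.card_fin, Cfsg.Agent.Lib.Helper19.AbelPerm.mp_three_mul_add_one k (by omega)] at this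
  · have := Cfsg.Agent.Lib.Helper19.AbelPerm.exA_add
      (Cfsg.Agent.Lib.Helper19.AbelPerm.exA_add Cfsg.Agent.Lib.Helper19.AbelPerm.exA_four
        Cfsg.Agent.Lib.Helper19.AbelPerm.exA_four)
      (Cfsg.Agent.Lib.Helper19.AbelPerm.exA_three_mul (k - 2))
    rwa [show 4 + 4 + 3 * (k - 2) = 3 * k + 2 by omega] at this
  · intro A hA hs
    exact Cfsg.Agent.Lib.Helper19.AbelPerm.card_le_of_even A k hk (by rw [Fintype.card_fin]) hA hs

end Cfsg.Agent.S2504
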