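import Mathlib
import Cfsg.Statements.S2505
import Cfsg.Agent.Lib.Helper19.AbelPerm
-- import your own Cfsg.Agent.* helpers here

set_option autoImplicit false
open Cfsg

namespace Cfsg.Agent.S2505

open Cfsg.Agent.Lib.Helper19.AbelPerm in
theorem greatest (n c : ℕ) (hc : mp n = c) (he : Ex n c) :
    IsGreatest {c : ℕ | ∃ A : Subgroup (Equiv.Perm (Fin n)), IsMulCommutative A ∧ Nat.card A = c} c := by
  constructor
  · obtain ⟨A, hA, hAc⟩ := he
    exact ⟨A, ⟨⟨fun a b => Subtype.ext (hA a a.2 b b.2)⟩⟩, hAc⟩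
  · rintro d ⟨A, hA, rfl⟩
    rw [← hc]
    have := card_le_mp A (fun a ha b hb =>
      congrArg Subtype.val (hA.is_comm.comm (⟨a, ha⟩ : A) ⟨b, hb⟩))
    rwa [Fintype.card_fin] at this

/-- The largest order of an abelian subgroup of the symmetric group of degree n is 3^k when n = 3k, 4·3^(k−1) when n = 3k + 1, and 2·3^k when n = 3k + 2, for every k ≥ 1. -/
theorem result (k : ℕ) (hk : 1 ≤ k) :
    IsGreatest {c : ℕ | ∃ A : Subgroup (Equiv.Perm (Fin (3 * k))), IsMulCommutative A ∧ Nat.card A = c} (3 ^ k) ∧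
    IsGreatest {c : ℕ | ∃ A : Subgroup (Equiv.Perm (Fin (3 * k + 1))), IsMulCommutative A ∧ Nat.card A = c}
      (4 * 3 ^ (k - 1)) ∧
    IsGreatest {c : ℕ | ∃ A : Subgroup (Equiv.Perm (Fin (3 * k + 2))), IsMulCommutative A ∧ Nat.card A = c}
      (2 * 3 ^ k) := by
  refine ⟨greatest _ _ (Cfsg.Agent.Lib.Helper19.AbelPerm.mp_three_mul k)
    (Cfsg.Agent.Lib.Helper19.AbelPerm.ex_three_mul k),
    greatest _ _ (Cfsg.Agent.Lib.Helper19.AbelPerm.mp_three_mul_add_one k hk) ?_,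
    greatest _ _ (Cfsg.Agent.Lib.Helper19.AbelPerm.mp_three_mul_add_two k) ?_⟩
  · have := Cfsg.Agent.Lib.Helper19.AbelPerm.ex_add Cfsg.Agent.Lib.Helper19.AbelPerm.ex_four
      (Cfsg.Agent.Lib.Helper19.AbelPerm.ex_three_mul (k - 1))
    rwa [show 4 + 3 * (k - 1) = 3 * k + 1 by omega] at this
  · have := Cfsg.Agent.Lib.Helper19.AbelPerm.ex_add Cfsg.Agent.Lib.Helper19.AbelPerm.ex_two
      (Cfsg.Agent.Lib.Helper19.AbelPerm.ex_three_mul k)
    rwa [show 2 + 3 * k = 3 * k + 2 by omega] at this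

end Cfsg.Agent.S2505
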