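import Mathlib
import Cfsg.Statements.S2507
import Cfsg.Agent.H14.PSL2Class

namespace Cfsg.Agent.S2507

open Cfsg Cfsg.Agent.H14

theorem result {F : Type*} [Field F] [Fintype F]
    (h2 : 2 ∣ Fintype.card F) (h4 : 4 ≤ Fintype.card F) :
    Set.range (fun g : (Matrix.ProjectiveSpecialLinearGroup (Fin 2) F) => (Subgroup.centralizer ({g} : Set (Matrix.ProjectiveSpecialLinearGroup (Fin 2) F))).index) =
      {1, Fintype.card F * (Fintype.card F - 1), Fintype.card F ^ 2 - 1, Fintype.card F * (Fintype.card F + 1)} := by
  classical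
  have h20 : (2 : F) = 0 := by
    have hc : ringChar F = 2 := FiniteField.even_card_iff_char_two.mpr (by omega)
    have := ringChar.Nat.cast_ringChar (R := F)
    rw [hc] at this
    exact_mod_cast this
  obtain ⟨k, hk⟩ : ∃ k, Fintype.card F = k + 1 := ⟨Fintype.card F - 1, by omega⟩
  -- the four types
  have T2 : ∀ g : Matrix.SpecialLinearGroup (Fin 2) F, ¬ IsScal g.1 → g.1.trace ^ 2 = 4 →
      (Subgroup.centralizer ({(QuotientGroup.mk g : Matrix.ProjectiveSpecialLinearGroup (Fin 2) F)} : Set _)).index =
        Fintype.card F ^ 2 - 1 := by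
    intro g hs ht
    have h := card_Dsub_mul_index g
    rw [Dsub_eq_centralizer g (Or.inr h20), card_centralizer_unip g hs ht, card_sq_eq_one_even h20, one_mul,
      mul_assoc] at h
    have := Nat.eq_of_mul_eq_mul_left (by omega) h
    rw [this, hk]
    simp only [Nat.add_sub_cancel]
    have : (k + 1) ^ 2 = k * (k + 1 + 1) + 1 := by ring
    omega
  have T3 : ∀ g : Matrix.SpecialLinearGroup (Fin 2) F, NoEig g →
      (Subgroup.centralizer ({(QuotientGroup.mk g : Matrix.ProjectiveSpecialLinearGroup (Fin 2) F)} : Set _)).index =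
        Fintype.card F * (Fintype.card F - 1) := by
    intro g hg
    have h := card_Dsub_mul_index g
    rw [Dsub_eq_centralizer g (Or.inr h20), hg.card_centralizer, mul_comm _ (Fintype.card F + 1)] at h
    exact Nat.eq_of_mul_eq_mul_left (by omega) h
  have T4 : ∀ g : Matrix.SpecialLinearGroup (Fin 2) F, g.1.trace ^ 2 ≠ 4 → ¬ NoEig g →
      (Subgroup.centralizer ({(QuotientGroup.mk g : Matrix.ProjectiveSpecialLinearGroup (Fin 2) F)} : Set _)).index =
        Fintype.card F * (Fintype.card F + 1) := by
    intro g ht hg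
    have h := card_Dsub_mul_index g
    rw [Dsub_eq_centralizer g (Or.inr h20), (card_centralizer_split g ht hg).1] at h
    have e : Fintype.card F * (Fintype.card F - 1) * (Fintype.card F + 1) =
        (Fintype.card F - 1) * (Fintype.card F * (Fintype.card F + 1)) := by ring
    rw [e] at h
    exact Nat.eq_of_mul_eq_mul_left (by omega) h
  apply Set.eq_of_subset_of_subset
  · rintro _ ⟨g', rfl⟩
    obtain ⟨g, rfl⟩ := QuotientGroup.mk_surjective g'
    simp only [Set.mem_insert_iff, Set.mem_singleton_iff]
    by_cases hs : IsScal g.1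
    · left; exact index_of_isScal g hs
    · by_cases ht : g.1.trace ^ 2 = 4
      · right; right; left; exact T2 g hs ht
      · by_cases hg : NoEig g
        · right; left; exact T3 g hg
        · right; right; right; exact T4 g ht hg
  · intro n hn
    simp only [Set.mem_insert_iff, Set.mem_singleton_iff] at hn
    rcases hn with rfl | rfl | rfl | rfl
    · exact ⟨QuotientGroup.mk 1, index_of_isScal 1 (by simp [IsScal])⟩
    · obtain ⟨x, hx, -⟩ := exists_noEig_trace_ne_zero (F := F) h4
      exact ⟨QuotientGroup.mk x, T3 x hx⟩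
    · refine ⟨QuotientGroup.mk (bm 1 1), T2 _ (not_isScal_bm 1 one_ne_zero) ?_⟩
      simp [Matrix.trace_fin_two]
      norm_num
    · obtain ⟨a, ha⟩ := exists_unit_ne_one (F := F) (by omega)
      have ha2 : a ^ 2 ≠ 1 := by
        intro h
        rcases units_sq_eq_one a h with h | h
        · exact ha h
        · apply ha
          rw [h]
          apply Units.ext
          simp only [Units.val_neg, Units.val_one]
          linear_combination -h20
      exact ⟨QuotientGroup.mk (dg a), T4 _ (trace_dg_sq_ne a ha2) (bm_zero a ▸ not_noEig_bm a 0)⟩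

end Cfsg.Agent.S2507
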