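import Mathlib
import Cfsg.Statements.S2508
import Cfsg.Agent.H14.PSL2Class

namespace Cfsg.Agent.S2508

open Cfsg Cfsg.Agent.H14

theorem result {F : Type*} [Field F] [Fintype F]
    (hodd : ¬ 2 ∣ Fintype.card F) (h7 : 7 ≤ Fintype.card F) :
    (Fintype.card F % 4 = 1 →
      Set.range (fun g : (Matrix.ProjectiveSpecialLinearGroup (Fin 2) F) => (Subgroup.centralizer ({g} : Set (Matrix.ProjectiveSpecialLinearGroup (Fin 2) F))).index) =
        {1, (Fintype.card F ^ 2 - 1) / 2, Fintype.card F * (Fintype.card F + 1) / 2,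
          Fintype.card F * (Fintype.card F - 1), Fintype.card F * (Fintype.card F + 1)}) ∧
    (Fintype.card F % 4 = 3 →
      Set.range (fun g : (Matrix.ProjectiveSpecialLinearGroup (Fin 2) F) => (Subgroup.centralizer ({g} : Set (Matrix.ProjectiveSpecialLinearGroup (Fin 2) F))).index) =
        {1, (Fintype.card F ^ 2 - 1) / 2, Fintype.card F * (Fintype.card F - 1) / 2,
          Fintype.card F * (Fintype.card F + 1), Fintype.card F * (Fintype.card F - 1)}) := by
  classical
  have h2 : (2 : F) ≠ 0 := odd_two_ne_zero (by omega)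
  obtain ⟨k, hk⟩ : ∃ k, Fintype.card F = k + 1 := ⟨Fintype.card F - 1, by omega⟩
  have t0 : ∀ g : Matrix.SpecialLinearGroup (Fin 2) F, g.1.trace = 0 → g.1.trace ^ 2 ≠ 4 := by
    intro g h h4
    rw [h] at h4
    apply h2
    have : (2 : F) * 2 = 0 := by linear_combination -h4
    exact (mul_self_eq_zero.mp this)
  have T2 : ∀ g : Matrix.SpecialLinearGroup (Fin 2) F, ¬ IsScal g.1 → g.1.trace ^ 2 = 4 →
      (Subgroup.centralizer ({(QuotientGroup.mk g : Matrix.ProjectiveSpecialLinearGroup (Fin 2) F)} : Set _)).index =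
        (Fintype.card F ^ 2 - 1) / 2 := by
    intro g hs ht
    have h := card_Dsub_mul_index g
    rw [Dsub_eq_centralizer g (Or.inl (fun h0 => t0 g h0 ht)), card_centralizer_unip g hs ht,
      card_sq_eq_one_odd h2] at h
    have e : 2 * Fintype.card F * (Subgroup.centralizer ({(QuotientGroup.mk g : Matrix.ProjectiveSpecialLinearGroup (Fin 2) F)} : Set _)).index
        = Fintype.card F * (2 * (Subgroup.centralizer ({(QuotientGroup.mk g : Matrix.ProjectiveSpecialLinearGroup (Fin 2) F)} : Set _)).index) := by ring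
    rw [e, mul_assoc] at h
    have := Nat.eq_of_mul_eq_mul_left (by omega) h
    rw [hk] at this ⊢
    simp only [Nat.add_sub_cancel] at this
    have e2 : (k + 1) ^ 2 = k * (k + 1 + 1) + 1 := by ring
    omega
  have T3 : ∀ g : Matrix.SpecialLinearGroup (Fin 2) F, NoEig g → g.1.trace ≠ 0 →
      (Subgroup.centralizer ({(QuotientGroup.mk g : Matrix.ProjectiveSpecialLinearGroup (Fin 2) F)} : Set _)).index =
        Fintype.card F * (Fintype.card F - 1) := by
    intro g hg h0
    have h := card_Dsub_mul_index g
    rw [Dsub_eq_centralizer g (Or.inl h0), hg.card_centralizer, mul_comm _ (Fintype.card F + 1)] at h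
    exact Nat.eq_of_mul_eq_mul_left (by omega) h
  have T3' : ∀ g : Matrix.SpecialLinearGroup (Fin 2) F, NoEig g → g.1.trace = 0 →
      (Subgroup.centralizer ({(QuotientGroup.mk g : Matrix.ProjectiveSpecialLinearGroup (Fin 2) F)} : Set _)).index =
        Fintype.card F * (Fintype.card F - 1) / 2 := by
    intro g hg h0
    have h := card_Dsub_mul_index g
    rw [Dsub_eq_normalizer h2 g h0, card_normalizer_centralizer h2 g (t0 g h0), hg.card_centralizer] at h
    have e : 2 * (Fintype.card F + 1) * (Subgroup.centralizer ({(QuotientGroup.mk g : Matrix.ProjectiveSpecialLinearGroup (Fin 2) F)} : Set _)).index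
        = (Fintype.card F + 1) * (2 * (Subgroup.centralizer ({(QuotientGroup.mk g : Matrix.ProjectiveSpecialLinearGroup (Fin 2) F)} : Set _)).index) := by ring
    rw [e, mul_comm _ (Fintype.card F + 1)] at h
    have := Nat.eq_of_mul_eq_mul_left (by omega) h
    omega
  have T4 : ∀ g : Matrix.SpecialLinearGroup (Fin 2) F, g.1.trace ^ 2 ≠ 4 → ¬ NoEig g → g.1.trace ≠ 0 →
      (Subgroup.centralizer ({(QuotientGroup.mk g : Matrix.ProjectiveSpecialLinearGroup (Fin 2) F)} : Set _)).index =
        Fintype.card F * (Fintype.card F + 1) := by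
    intro g ht hg h0
    have h := card_Dsub_mul_index g
    rw [Dsub_eq_centralizer g (Or.inl h0), (card_centralizer_split g ht hg).1] at h
    have e : Fintype.card F * (Fintype.card F - 1) * (Fintype.card F + 1) =
        (Fintype.card F - 1) * (Fintype.card F * (Fintype.card F + 1)) := by ring
    rw [e] at h
    exact Nat.eq_of_mul_eq_mul_left (by omega) h
  have T4' : ∀ g : Matrix.SpecialLinearGroup (Fin 2) F, ¬ NoEig g → g.1.trace = 0 →
      (Subgroup.centralizer ({(QuotientGroup.mk g : Matrix.ProjectiveSpecialLinearGroup (Fin 2) F)} : Set _)).index =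
        Fintype.card F * (Fintype.card F + 1) / 2 := by
    intro g hg h0
    have h := card_Dsub_mul_index g
    rw [Dsub_eq_normalizer h2 g h0, card_normalizer_centralizer h2 g (t0 g h0),
      (card_centralizer_split g (t0 g h0) hg).1] at h
    have e : Fintype.card F * (Fintype.card F - 1) * (Fintype.card F + 1) =
        (Fintype.card F - 1) * (Fintype.card F * (Fintype.card F + 1)) := by ring
    have e' : 2 * (Fintype.card F - 1) * (Subgroup.centralizer ({(QuotientGroup.mk g : Matrix.ProjectiveSpecialLinearGroup (Fin 2) F)} : Set _)).index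
        = (Fintype.card F - 1) * (2 * (Subgroup.centralizer ({(QuotientGroup.mk g : Matrix.ProjectiveSpecialLinearGroup (Fin 2) F)} : Set _)).index) := by ring
    rw [e, e'] at h
    have := Nat.eq_of_mul_eq_mul_left (by omega) h
    omega
  -- trace zero elements
  have Z1 : Fintype.card F % 4 = 1 → ∀ g : Matrix.SpecialLinearGroup (Fin 2) F, g.1.trace = 0 → ¬ NoEig g := by
    intro h4 g h0 hg
    obtain ⟨i, hi⟩ := FiniteField.isSquare_neg_one_iff.mpr (by omega : Fintype.card F % 4 ≠ 3)
    apply hg i
    rw [h0]
    linear_combination -hi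
  have Z3 : Fintype.card F % 4 = 3 → ∀ g : Matrix.SpecialLinearGroup (Fin 2) F, g.1.trace = 0 → NoEig g := by
    intro h4 g h0 z hz
    rw [h0] at hz
    have : IsSquare (-1 : F) := ⟨z, by linear_combination -hz⟩
    exact FiniteField.isSquare_neg_one_iff.mp this h4
  -- witnesses
  have W1 : ∃ g' : Matrix.ProjectiveSpecialLinearGroup (Fin 2) F, (Subgroup.centralizer ({g'} : Set _)).index = 1 :=
    ⟨QuotientGroup.mk 1, index_of_isScal 1 (by simp [IsScal])⟩
  have W2 : ∃ g' : Matrix.ProjectiveSpecialLinearGroup (Fin 2) F, (Subgroup.centralizer ({g'} : Set _)).index =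
      (Fintype.card F ^ 2 - 1) / 2 := by
    refine ⟨QuotientGroup.mk (bm 1 1), T2 _ (not_isScal_bm 1 one_ne_zero) ?_⟩
    simp [Matrix.trace_fin_two]
    norm_num
  have W3 : ∃ g' : Matrix.ProjectiveSpecialLinearGroup (Fin 2) F, (Subgroup.centralizer ({g'} : Set _)).index =
      Fintype.card F * (Fintype.card F - 1) := by
    obtain ⟨x, hx, hx0⟩ := exists_noEig_trace_ne_zero (F := F) (by omega)
    exact ⟨QuotientGroup.mk x, T3 x hx hx0⟩
  have W4 : ∃ g' : Matrix.ProjectiveSpecialLinearGroup (Fin 2) F, (Subgroup.centralizer ({g'} : Set _)).index =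
      Fintype.card F * (Fintype.card F + 1) := by
    obtain ⟨a, ha⟩ := exists_unit_pow_four_ne (F := F) (by omega)
    have ha2 : a ^ 2 ≠ 1 := by
      intro h
      apply ha
      have : a ^ 4 = (a ^ 2) ^ 2 := by rw [← pow_mul]
      rw [this, h, one_pow]
    refine ⟨QuotientGroup.mk (dg a), T4 _ (trace_dg_sq_ne a ha2) (bm_zero a ▸ not_noEig_bm a 0) ?_⟩
    rw [trace_dg]
    intro h0
    apply ha
    apply Units.ext
    have h1 : (a : F) * ((a⁻¹ : Fˣ) : F) = 1 := by simp
    simp only [Units.val_pow_eq_pow_val, Units.val_one]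
    have h3 : (a : F) ^ 2 = -1 := by linear_combination (a : F) * h0 - h1
    have : (a : F) ^ 4 = ((a : F) ^ 2) ^ 2 := by rw [← pow_mul]
    rw [this, h3]; ring
  have W5 : ∃ g : Matrix.SpecialLinearGroup (Fin 2) F, g.1.trace = 0 := ⟨slC 0 1, trace_slC 0 1⟩
  constructor
  · intro h4
    apply Set.eq_of_subset_of_subset
    · rintro _ ⟨g', rfl⟩
      obtain ⟨g, rfl⟩ := QuotientGroup.mk_surjective g'
      simp only [Set.mem_insert_iff, Set.mem_singleton_iff]
      by_cases hs : IsScal g.1
      · left; exact index_of_isScal g hs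
      · by_cases ht : g.1.trace ^ 2 = 4
        · right; left; exact T2 g hs ht
        · by_cases h0 : g.1.trace = 0
          · right; right; left; exact T4' g (Z1 h4 g h0) h0
          · by_cases hg : NoEig g
            · right; right; right; left; exact T3 g hg h0
            · right; right; right; right; exact T4 g ht hg h0
    · intro n hn
      simp only [Set.mem_insert_iff, Set.mem_singleton_iff] at hn
      rcases hn with rfl | rfl | rfl | rfl | rfl
      · exact W1
      · exact W2
      · obtain ⟨g, h0⟩ := W5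
        exact ⟨QuotientGroup.mk g, T4' g (Z1 h4 g h0) h0⟩
      · exact W3
      · exact W4
  · intro h4
    apply Set.eq_of_subset_of_subset
    · rintro _ ⟨g', rfl⟩
      obtain ⟨g, rfl⟩ := QuotientGroup.mk_surjective g'
      simp only [Set.mem_insert_iff, Set.mem_singleton_iff]
      by_cases hs : IsScal g.1
      · left; exact index_of_isScal g hs
      · by_cases ht : g.1.trace ^ 2 = 4
        · right; left; exact T2 g hs ht
        · by_cases h0 : g.1.trace = 0
          · right; right; left; exact T3' g (Z3 h4 g h0) h0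
          · by_cases hg : NoEig g
            · right; right; right; right; exact T3 g hg h0
            · right; right; right; left; exact T4 g ht hg h0
    · intro n hn
      simp only [Set.mem_insert_iff, Set.mem_singleton_iff] at hn
      rcases hn with rfl | rfl | rfl | rfl | rfl
      · exact W1
      · exact W2
      · obtain ⟨g, h0⟩ := W5
        exact ⟨QuotientGroup.mk g, T3' g (Z3 h4 g h0) h0⟩
      · exact W4
      · exact W3

end Cfsg.Agent.S2508
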