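import Cfsg.Statements.S2514
import Mathlib
-- import your own Cfsg.Agent.* helpers here

set_option autoImplicit false
open Cfsg

namespace Cfsg.Agent.S2514

theorem mem_of_dvd {X : Type*} [Group X] [Finite X] {n d : ℕ}
    (hn : n ∈ Set.range (orderOf : X → ℕ)) (hd : d ∣ n) : d ∈ Set.range (orderOf : X → ℕ) := by
  obtain ⟨x, rfl⟩ := hn
  obtain ⟨e, he⟩ := hd
  have hpos : 0 < orderOf x := orderOf_pos x
  have he0 : e ≠ 0 := by rintro rfl; rw [mul_zero] at he; omega
  refine ⟨x ^ e, ?_⟩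
  rw [orderOf_pow_of_dvd he0 ⟨d, by rw [he, mul_comm]⟩, he]
  exact Nat.mul_div_cancel _ (Nat.pos_of_ne_zero he0)

theorem exists_max {X : Type*} [Group X] [Finite X] {n : ℕ}
    (hn : n ∈ Set.range (orderOf : X → ℕ)) :
    ∃ m, (m ∈ Set.range (orderOf : X → ℕ) ∧
      ∀ m' ∈ Set.range (orderOf : X → ℕ), m ∣ m' → m' = m) ∧ n ∣ m := by
  classical
  have hfin : ({m | m ∈ Set.range (orderOf : X → ℕ) ∧ n ∣ m}).Finite :=
    (Set.finite_range _).subset (fun m hm => hm.1)
  obtain ⟨m, hm, hmax⟩ := Set.exists_max_image _ id hfin ⟨n, hn, dvd_rfl⟩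
  refine ⟨m, ⟨hm.1, ?_⟩, hm.2⟩
  rintro m' hm' hdvd
  have h1 := hmax m' ⟨hm', hm.2.trans hdvd⟩
  have hpos : 0 < m' := by obtain ⟨x, rfl⟩ := hm'; exact orderOf_pos x
  exact le_antisymm h1 (Nat.le_of_dvd hpos hdvd)


/-- For a finite group X write μ(X) for the set of element orders of X that are maximal under divisibility. Let G and H be finite groups and k ≥ 1 such that μ(H) ⊆ μ(G) and μ(G) has fewer than k elements outside μ(H). Then the direct product of k copies of G has the same set of element orders as the direct product of k − 1 copies of G with H. -/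
theorem result {G H : Type*} [Group G] [Finite G] [Group H] [Finite H] (k : ℕ) (hk : 1 ≤ k)
    (hsub : {n : ℕ | n ∈ Set.range (orderOf : H → ℕ) ∧ ∀ m ∈ Set.range (orderOf : H → ℕ), n ∣ m → m = n} ⊆ {n : ℕ | n ∈ Set.range (orderOf : G → ℕ) ∧ ∀ m ∈ Set.range (orderOf : G → ℕ), n ∣ m → m = n})
    (hfew : ({n : ℕ | n ∈ Set.range (orderOf : G → ℕ) ∧ ∀ m ∈ Set.range (orderOf : G → ℕ), n ∣ m → m = n} \ {n : ℕ | n ∈ Set.range (orderOf : H → ℕ) ∧ ∀ m ∈ Set.range (orderOf : H → ℕ), n ∣ m → m = n}).ncard < k) :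
    Set.range (orderOf : (Fin k → G) → ℕ) = Set.range (orderOf : (Fin (k - 1) → G) × H → ℕ) := by
  classical
  obtain ⟨k, rfl⟩ : ∃ k', k = k' + 1 := ⟨k - 1, by omega⟩
  show _ = Set.range (orderOf : (Fin k → G) × H → ℕ)
  ext N
  constructor
  · rintro ⟨f, rfl⟩
    choose m hm hdvd using fun i => exists_max (X := G) ⟨f i, rfl⟩
    by_cases hcase : ∃ i0, m i0 ∈ {n : ℕ | n ∈ Set.range (orderOf : H → ℕ) ∧ ∀ m ∈ Set.range (orderOf : H → ℕ), n ∣ m → m = n}
    · obtain ⟨i0, hi0⟩ := hcase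
      obtain ⟨h, hh⟩ := mem_of_dvd hi0.1 (hdvd i0)
      refine ⟨(fun j => f (i0.succAbove j), h), ?_⟩
      rw [orderOf_eq_orderOf_iff]
      intro n
      rw [Prod.ext_iff, funext_iff, funext_iff, Fin.forall_iff_succAbove i0]
      simp only [Prod.pow_fst, Prod.pow_snd, Pi.pow_apply, Prod.fst_one, Prod.snd_one, Pi.one_apply]
      rw [← orderOf_dvd_iff_pow_eq_one (x := h), hh, orderOf_dvd_iff_pow_eq_one]
      tauto
    · push_neg at hcase
      obtain ⟨i, -, j, -, hij, hmij⟩ := Set.exists_ne_map_eq_of_ncard_lt_of_maps_to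
        (s := (Set.univ : Set (Fin (k+1))))
        (t := {n : ℕ | n ∈ Set.range (orderOf : G → ℕ) ∧ ∀ m ∈ Set.range (orderOf : G → ℕ), n ∣ m → m = n} \ {n : ℕ | n ∈ Set.range (orderOf : H → ℕ) ∧ ∀ m ∈ Set.range (orderOf : H → ℕ), n ∣ m → m = n})
        (by rw [Set.ncard_univ (Fin (k+1)), Nat.card_fin]; exact hfew)
        (f := m) (fun a _ => ⟨hm a, hcase a⟩)
        ((Set.finite_range (orderOf : G → ℕ)).subset (fun x hx => hx.1.1))
      obtain ⟨y, hy⟩ := mem_of_dvd (hm i).1 (Nat.lcm_dvd (hdvd i) (hmij ▸ hdvd j))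
      refine ⟨(fun l => Function.update f i y (j.succAbove l), 1), ?_⟩
      rw [orderOf_eq_orderOf_iff]
      intro n
      rw [Prod.ext_iff, funext_iff, funext_iff]
      simp only [Prod.pow_fst, Prod.pow_snd, Pi.pow_apply, Prod.fst_one, Prod.snd_one, Pi.one_apply]
      constructor
      · rintro ⟨h1, -⟩ l
        have hy1 : y ^ n = 1 := by
          obtain ⟨l0, hl0⟩ := Fin.exists_succAbove_eq hij
          have := h1 l0
          rw [hl0, Function.update_self] at this
          exact this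
        have hl : Nat.lcm (orderOf (f i)) (orderOf (f j)) ∣ n := by
          rw [← hy]; exact orderOf_dvd_of_pow_eq_one hy1
        by_cases hlj : l = j
        · subst hlj; exact orderOf_dvd_iff_pow_eq_one.1 ((Nat.dvd_lcm_right _ _).trans hl)
        by_cases hli : l = i
        · subst hli; exact orderOf_dvd_iff_pow_eq_one.1 ((Nat.dvd_lcm_left _ _).trans hl)
        obtain ⟨l0, hl0⟩ := Fin.exists_succAbove_eq hlj
        have := h1 l0
        rw [hl0, Function.update_of_ne hli] at this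
        exact this
      · intro h1
        refine ⟨fun l => ?_, one_pow n⟩
        by_cases hli : j.succAbove l = i
        · rw [hli, Function.update_self, ← orderOf_dvd_iff_pow_eq_one, hy]
          exact Nat.lcm_dvd (orderOf_dvd_of_pow_eq_one (h1 i)) (orderOf_dvd_of_pow_eq_one (h1 j))
        · rw [Function.update_of_ne hli]; exact h1 _
  · rintro ⟨⟨f', h⟩, rfl⟩
    obtain ⟨m, hm, hdvd⟩ := exists_max (X := H) ⟨h, rfl⟩
    obtain ⟨y, hy⟩ := mem_of_dvd (hsub hm).1 hdvd
    refine ⟨Fin.cons y f', ?_⟩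
    rw [orderOf_eq_orderOf_iff]
    intro n
    rw [Prod.ext_iff, funext_iff, funext_iff, Fin.forall_fin_succ]
    simp only [Prod.pow_fst, Prod.pow_snd, Pi.pow_apply, Prod.fst_one, Prod.snd_one, Pi.one_apply,
      Fin.cons_zero, Fin.cons_succ]
    rw [← orderOf_dvd_iff_pow_eq_one (x := y), hy, orderOf_dvd_iff_pow_eq_one]
    tauto

end Cfsg.Agent.S2514
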