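import Cfsg.Statements.S2516
import Mathlib
-- import your own Cfsg.Agent.* helpers here

set_option autoImplicit false
open Cfsg

namespace Cfsg.Agent.S2516

/-- Let F be a field of characteristic p > 0, V a non-zero finite-dimensional F-vector space, G a finite group and ρ a representation of G on V; form the semidirect product V ⋊ G. For g ∈ G of order k, the coset Vg contains an element of order pk if and only if the minimal polynomial of ρ(g) does not divide 1 + X + ⋯ + X^(k−1). -/
theorem result {F : Type*} [Field F] (p : ℕ) [Fact p.Prime] [CharP F p] {V : Type*} [AddCommGroup V] [Module F V] [FiniteDimensional F V] [Nontrivial V]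
    {G : Type*} [Group G] [Finite G] (ρ : Representation F G V) (g : G) :
    (∃ x : Multiplicative V ⋊[(MulAutMultiplicative V).symm.toMonoidHom.comp
        ((DistribMulAction.toAddAut ((V →ₗ[F] V)ˣ) V).comp ρ.asGroupHom)] G,
        x.right = g ∧ orderOf x = p * orderOf g) ↔
      ¬ (minpoly F (ρ g) ∣ ∑ i ∈ Finset.range (orderOf g), (Polynomial.X : Polynomial F) ^ i) := by
  classical
  set φ := (MulAutMultiplicative V).symm.toMonoidHom.comp
        ((DistribMulAction.toAddAut ((V →ₗ[F] V)ˣ) V).comp ρ.asGroupHom) with hφ
  have hφa : ∀ (h : G) (v : V), φ h (Multiplicative.ofAdd v) = Multiplicative.ofAdd (ρ h v) := by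
    intro h v
    rfl
  have hpow : ∀ (v : V) (n : ℕ), (⟨Multiplicative.ofAdd v, g⟩ : Multiplicative V ⋊[φ] G) ^ n
      = ⟨Multiplicative.ofAdd (∑ i ∈ Finset.range n, (ρ g ^ i) v), g ^ n⟩ := by
    intro v n
    induction n with
    | zero =>
      rw [pow_zero]
      apply SemidirectProduct.ext
      · simp
      · simp
    | succ n ih =>
      rw [pow_succ, ih]
      apply SemidirectProduct.ext
      · rw [SemidirectProduct.mul_left]
        show _ * φ (g ^ n) (Multiplicative.ofAdd v) = _
        rw [hφa, Finset.sum_range_succ, map_pow, ofAdd_add]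
      · rw [SemidirectProduct.mul_right, pow_succ]
  have haeval : Polynomial.aeval (ρ g) (∑ i ∈ Finset.range (orderOf g), (Polynomial.X : Polynomial F) ^ i)
      = ∑ i ∈ Finset.range (orderOf g), ρ g ^ i := by simp
  have hk : 0 < orderOf g := orderOf_pos g
  have hp : p.Prime := Fact.out
  rw [minpoly.dvd_iff, haeval]
  constructor
  · rintro ⟨x, hxg, hox⟩ hN
    obtain ⟨v, h⟩ := x
    obtain ⟨v, rfl⟩ := Multiplicative.ofAdd.surjective v
    simp only at hxg
    subst hxg
    have h1 := hpow v (orderOf h)
    have h2 : ∑ i ∈ Finset.range (orderOf h), (ρ h ^ i) v = 0 := by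
      have := congrArg (fun f => f v) hN
      simpa using this
    rw [h2, pow_orderOf_eq_one] at h1
    have h3 := orderOf_dvd_of_pow_eq_one (show _ = (1 : Multiplicative V ⋊[φ] G) from h1)
    rw [hox] at h3
    have h4 := Nat.le_of_dvd hk h3
    have := hp.two_le
    nlinarith
  · intro hN
    obtain ⟨v, hv⟩ : ∃ v, (∑ i ∈ Finset.range (orderOf g), ρ g ^ i) v ≠ 0 := by
      by_contra hcon
      push_neg at hcon
      exact hN (LinearMap.ext hcon)
    refine ⟨⟨Multiplicative.ofAdd v, g⟩, rfl, ?_⟩
    set x : Multiplicative V ⋊[φ] G := ⟨Multiplicative.ofAdd v, g⟩ with hx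
    set w : V := (∑ i ∈ Finset.range (orderOf g), ρ g ^ i) v with hw
    have h1 : x ^ orderOf g = SemidirectProduct.inl (Multiplicative.ofAdd w) := by
      rw [hx, hpow v (orderOf g), pow_orderOf_eq_one, hw]
      ext
      · simp
      · simp
    have h2 : orderOf (x ^ orderOf g) = p := by
      apply orderOf_eq_prime
      · rw [h1, ← map_pow, ← ofAdd_nsmul]
        have : p • w = 0 := by
          rw [← Nat.cast_smul_eq_nsmul F, CharP.cast_eq_zero, zero_smul]
        rw [this]
        simp
      · rw [h1]
        intro h
        have := SemidirectProduct.inl_injective (h.trans (map_one _).symm)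
        exact hv (Multiplicative.ofAdd.injective this)
    have h3 : orderOf g ∣ orderOf x := by
      have := orderOf_map_dvd (SemidirectProduct.rightHom : Multiplicative V ⋊[φ] G →* G) x
      simpa [hx] using this
    rw [orderOf_pow_of_dvd hk.ne' h3] at h2
    obtain ⟨c, hc⟩ := h3
    rw [hc, Nat.mul_div_cancel_left _ hk] at h2
    rw [hc, h2, mul_comm]

end Cfsg.Agent.S2516
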