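import Mathlib
import Cfsg.Statements.S2521

set_option autoImplicit false
open Cfsg

namespace Cfsg.Agent.S2521

/-- Let B be a finite group that is the semidirect product of a nilpotent normal subgroup U by an abelian subgroup T (U ∩ T = 1, UT = B), and let t ∈ T have centralizer exactly T. Then every element of the coset tU is conjugate to t in B: for each u ∈ U there is b ∈ B with b t b⁻¹ = t u. -/
theorem result {B : Type*} [Group B] [Finite B] (U T : Subgroup B) [U.Normal] (hU : Group.IsNilpotent ↥U) (hT : IsMulCommutative ↥T)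
    (hcompl : Subgroup.IsComplement' U T) (t : B) (ht : t ∈ T) (hreg : Subgroup.centralizer ({t} : Set B) = T) (u : B) (hu : u ∈ U) :
    ∃ b : B, b * t * b⁻¹ = t * u := by
  classical
  -- the map `U → U`, `x ↦ t⁻¹ x t x⁻¹`
  have hmem : ∀ x : U, t⁻¹ * (x : B) * t * (x : B)⁻¹ ∈ U := by
    intro x
    have h1 : t⁻¹ * (x : B) * t ∈ U := by
      have := (inferInstance : U.Normal).conj_mem (x : B) x.2 t⁻¹
      simpa using this
    exact U.mul_mem h1 (U.inv_mem x.2)
  let f : U → U := fun x => ⟨t⁻¹ * (x : B) * t * (x : B)⁻¹, hmem x⟩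
  have hdisj : ∀ z : B, z ∈ U → z ∈ T → z = 1 := by
    intro z hzU hzT
    have := hcompl.disjoint
    rw [Subgroup.disjoint_def] at this
    exact this hzU hzT
  have hinj : Function.Injective f := by
    intro x y hxy
    have h : t⁻¹ * (x : B) * t * (x : B)⁻¹ = t⁻¹ * (y : B) * t * (y : B)⁻¹ := congrArg Subtype.val hxy
    -- y⁻¹ x commutes with t
    have h2 : (y : B)⁻¹ * x * t = t * ((y : B)⁻¹ * x) := by
      have h3 : (x : B) * t * (x : B)⁻¹ = (y : B) * t * (y : B)⁻¹ := by
        have := congrArg (fun z => t * z) h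
        simpa [mul_assoc] using this
      have h4 : (x : B) * t = (y : B) * t * (y : B)⁻¹ * x := by
        rw [← h3]; group
      calc (y : B)⁻¹ * x * t = (y : B)⁻¹ * (x * t) := by group
        _ = (y : B)⁻¹ * ((y : B) * t * (y : B)⁻¹ * x) := by rw [h4]
        _ = t * ((y : B)⁻¹ * x) := by group
    have h5 : (y : B)⁻¹ * x ∈ Subgroup.centralizer ({t} : Set B) := by
      rw [Subgroup.mem_centralizer_iff]
      intro z hz
      rw [Set.mem_singleton_iff] at hz
      subst hz
      exact h2.symm
    rw [hreg] at h5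
    have h6 : (y : B)⁻¹ * x = 1 := hdisj _ (U.mul_mem (U.inv_mem y.2) x.2) h5
    apply Subtype.ext
    have : (x : B) = y := by
      have := congrArg (fun z => (y : B) * z) h6
      simpa using this
    exact this
  have hsurj : Function.Surjective f := Finite.surjective_of_injective hinj
  obtain ⟨x, hx⟩ := hsurj ⟨u, hu⟩
  have hx' : t⁻¹ * (x : B) * t * (x : B)⁻¹ = u := congrArg Subtype.val hx
  refine ⟨x, ?_⟩
  rw [← hx']
  group

end Cfsg.Agent.S2521
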