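import Cfsg.Statements.S2593
import Cfsg.Agent.S2166
import Cfsg.Agent.Lib.Helper15.NF6

set_option autoImplicit false
open Cfsg

namespace Cfsg.Agent.S2593


open Matrix Module Cfsg.Agent.Lib.Helper15 Cfsg.Agent.Lib.Helper18 Cfsg.Agent.S2166

variable {F : Type*} [Field F] {m : ℕ}

theorem exists_invol_of_family_sp [CharP F 2] {κ : Type*} [Fintype κ]
    [DecidableEq κ] (σ : κ → κ) (hσ : Function.Involutive σ) (w d : κ → Fin m ⊕ Fin m → F)
    (hww : ∀ i j, sympB m F (w i) (w j) = 0) (hwd : ∀ i j, sympB m F (w i) (d j) = if i = j then 1 else 0) :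
    ∃ t : symplecticGroup (Fin m) F, t * t = 1 ∧ finrank F (LinearMap.range (spN t)) = Fintype.card κ ∧
      ((∀ x, sympB m F x (spL t x) = 0) ↔ ∀ j, σ j ≠ j) := by
  have hsw : ∀ x y, sympB m F x y = sympB m F y x := by
    intro x y
    rw [← sympB_isAlt.neg_eq, CharTwo.neg_eq]
  let N : (Fin m ⊕ Fin m → F) →ₗ[F] (Fin m ⊕ Fin m → F) := ∑ j, (sympB m F (w (σ j))).smulRight (w j)
  have hN : ∀ x, N x = ∑ j, sympB m F (w (σ j)) x • w j := by
    intro x
    simp only [N, LinearMap.sum_apply, LinearMap.smulRight_apply]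
  have hNw : ∀ l, N (w l) = 0 := by
    intro l
    rw [hN]
    apply Finset.sum_eq_zero
    intro j _
    rw [hww, zero_smul]
  have hNN : ∀ x, N (N x) = 0 := by
    intro x
    conv_lhs => rw [hN x]
    rw [map_sum]
    apply Finset.sum_eq_zero
    intro j _
    rw [map_smul, hNw, smul_zero]
  have hpN : ∀ x y, sympB m F x (N y) = ∑ j, sympB m F (w (σ j)) y * sympB m F (w j) x := by
    intro x y
    rw [hN, map_sum]
    apply Finset.sum_congr rfl
    intro j _
    rw [map_smul, smul_eq_mul, hsw x]
  have hadj : ∀ x y, sympB m F x (N y) = sympB m F (N x) y := by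
    intro x y
    rw [hsw (N x) y, hpN, hpN]
    rw [← Equiv.sum_comp (Function.Involutive.toPerm σ hσ)]
    apply Finset.sum_congr rfl
    intro j _
    simp only [Function.Involutive.coe_toPerm]
    rw [hσ j, mul_comm]
  let T : (Fin m ⊕ Fin m → F) →ₗ[F] (Fin m ⊕ Fin m → F) := LinearMap.id + N
  have hT : ∀ x, T x = x + N x := fun x => rfl
  have hBT : ∀ x y, sympB m F (T x) (T y) = sympB m F x y := by
    intro x y
    rw [hT, hT, map_add, map_add, LinearMap.add_apply, LinearMap.add_apply, ← hadj x (N y), hNN, map_zero,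
      ← hadj x y]
    rw [add_zero, add_assoc, CharTwo.add_self_eq_zero, add_zero]
  have hM : ∀ x, LinearMap.toMatrix' T *ᵥ x = T x := by
    intro x
    rw [LinearMap.toMatrix'_mulVec]
  let t : symplecticGroup (Fin m) F := ⟨LinearMap.toMatrix' T,
    mem_sp_of_preserve _ (fun u v => by rw [hM, hM, hBT])⟩
  have hact : ∀ x, spL t x = x + N x := hM
  have htt : t * t = 1 := by
    apply spL_ext
    intro x
    rw [spL_mul, spL_one, hact, hact, map_add, hNN, add_zero, add_assoc]
    have : N x + N x = 0 := by
      rw [← two_smul F, CharTwo.two_eq_zero, zero_smul]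
    rw [this, add_zero]
  have hnil : ∀ x, spN t x = N x := by
    intro x
    rw [spN_apply, hact]; abel
  have hNd : ∀ j, N (d j) = w (σ j) := by
    intro j
    rw [hN, Finset.sum_eq_single (σ j)]
    · rw [hσ j, hwd, if_pos rfl, one_smul]
    · intro l _ hl
      rw [hwd, if_neg, zero_smul]
      intro h
      apply hl
      rw [← h, hσ l]
    · intro h; exact absurd (Finset.mem_univ _) h
  have hv : StdGram (spBeta t) σ d := by
    intro i j
    rw [LinearMap.BilinForm.compRight_apply, hnil, hNd, hsw, hwd]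
    simp only [eq_comm]
  have hp : ∀ x, (∀ i, spBeta t (d i) x = 0) → ∀ y, spBeta t x y = 0 := by
    intro x hx y
    have h0 : N x = 0 := by
      rw [hN]
      apply Finset.sum_eq_zero
      intro j _
      have h1 := hx j
      rw [LinearMap.BilinForm.compRight_apply, hnil, hN] at h1
      rw [map_sum, Finset.sum_eq_single j] at h1
      · rw [map_smul, hsw (d j), hwd, if_pos rfl, smul_eq_mul, mul_one] at h1
        rw [h1, zero_smul]
      · intro l _ hl
        rw [map_smul, hsw (d j), hwd, if_neg hl, smul_zero]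
      · intro h; exact absurd (Finset.mem_univ _) h
    rw [spBeta_symm htt, LinearMap.BilinForm.compRight_apply, hnil, h0]
    simp
  refine ⟨t, htt, nil_finrank spB_nd (spN_adj htt) hσ hv hp, ?_⟩
  constructor
  · intro h j hj
    have h1 := h (d j)
    rw [hact, map_add, sympB_isAlt, zero_add, hNd, hj, hsw, hwd, if_pos rfl] at h1
    exact one_ne_zero h1
  · intro h x
    rw [hact, map_add, sympB_isAlt, zero_add, hpN]
    apply Finset.sum_involution (fun j _ => σ j)
    · intro j _
      rw [hσ j, mul_comm, CharTwo.add_self_eq_zero]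
    · intro j _ _
      exact h j
    · intro j _; exact Finset.mem_univ _
    · intro j _; exact hσ j

theorem two_mul_finrank_le [CharP F 2] {t : symplecticGroup (Fin m) F} (ht : t * t = 1) :
    finrank F (LinearMap.range (spN t)) ≤ m := by
  have hle : LinearMap.range (spN t) ≤ LinearMap.ker (spN t) := by
    rintro _ ⟨x, rfl⟩
    rw [LinearMap.mem_ker, spN_spN ht]
  have h2 := LinearMap.finrank_range_add_finrank_ker (spN t)
  have h3 := Submodule.finrank_mono hle
  rw [finrank_fintype_fun_eq_card, Fintype.card_sum, Fintype.card_fin] at h2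
  omega

theorem finrank_pos {t : symplecticGroup (Fin m) F} (ht : t ≠ 1) : 1 ≤ finrank F (LinearMap.range (spN t)) := by
  by_contra h
  have h0 : finrank F (LinearMap.range (spN t)) = 0 := by omega
  rw [Submodule.finrank_eq_zero] at h0
  apply ht
  apply spL_ext
  intro x
  have : spN t x ∈ LinearMap.range (spN t) := ⟨x, rfl⟩
  rw [h0, Submodule.mem_bot, spN_apply, sub_eq_zero] at this
  rw [this, spL_one]

theorem even_finrank_of_alt [CharP F 2] {t : symplecticGroup (Fin m) F} (ht : t * t = 1)
    (hts : ∀ x, sympB m F x (spL t x) = 0) : Even (finrank F (LinearMap.range (spN t))) := by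
  obtain ⟨k, v, hv, hp⟩ := exists_hyperbolic (β := spBeta t) (by
    intro x
    rw [spBeta_self]
    exact hts x)
  have e1 := nil_finrank spB_nd (spN_adj ht) Sum.swap_swap hv hp
  rw [e1]
  simp

open Classical in
/-- the invariants of an involution -/
noncomputable def invSp (t : symplecticGroup (Fin m) F) : ℕ × Bool :=
  (finrank F (LinearMap.range (spN t)), decide (∀ x, sympB m F x (spL t x) = 0))

theorem spN_conj (c a : symplecticGroup (Fin m) F) (x : Fin m ⊕ Fin m → F) :
    spN (c * a * c⁻¹) (spL c x) = spL c (spN a x) := by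
  rw [spN_apply, spN_apply, map_sub, ← spL_mul, ← spL_mul]
  congr 2
  group

theorem finrank_conj_le (c a : symplecticGroup (Fin m) F) :
    finrank F (LinearMap.range (spN a)) ≤ finrank F (LinearMap.range (spN (c * a * c⁻¹))) := by
  have hinj : Function.Injective (spL c) := by
    intro x y h
    have := congrArg (spL c⁻¹) h
    rwa [← spL_mul, ← spL_mul, inv_mul_cancel, spL_one, spL_one] at this
  rw [← LinearMap.finrank_range_of_inj (f := (spL c).domRestrict (LinearMap.range (spN a)))
    (fun x y h => Subtype.ext (hinj h))]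
  apply Submodule.finrank_mono
  rintro _ ⟨⟨_, ⟨x, rfl⟩⟩, rfl⟩
  exact ⟨spL c x, spN_conj c a x⟩

theorem finrank_conj (c a : symplecticGroup (Fin m) F) :
    finrank F (LinearMap.range (spN (c * a * c⁻¹))) = finrank F (LinearMap.range (spN a)) := by
  apply le_antisymm _ (finrank_conj_le c a)
  have := finrank_conj_le c⁻¹ (c * a * c⁻¹)
  rwa [show c⁻¹ * (c * a * c⁻¹) * c⁻¹⁻¹ = a by group] at this

theorem alt_conj_imp (c a : symplecticGroup (Fin m) F) (h : ∀ x, sympB m F x (spL a x) = 0) :
    ∀ x, sympB m F x (spL (c * a * c⁻¹) x) = 0 := by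
  intro x
  rw [← spL_form c⁻¹, ← spL_mul, show c⁻¹ * (c * a * c⁻¹) = a * c⁻¹ by group, spL_mul]
  exact h _

theorem alt_conj (c a : symplecticGroup (Fin m) F) :
    (∀ x, sympB m F x (spL (c * a * c⁻¹) x) = 0) ↔ ∀ x, sympB m F x (spL a x) = 0 := by
  refine ⟨fun h => ?_, alt_conj_imp c a⟩
  have := alt_conj_imp c⁻¹ _ h
  rwa [show c⁻¹ * (c * a * c⁻¹) * c⁻¹⁻¹ = a by group] at this


/-- Number of conjugacy classes of involutions in the symplectic group Sp_2m(F) over a finite field of characteristic two (m ≥ 1): for each s with 1 ≤ s ≤ m there is one class with rank(t − 1) = s if s is odd and two if s is even (according as v ↦ f(v, tv), f the symplectic form, vanishes identically or not), so m + ⌊m/2⌋ classes in all. -/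
theorem result {F : Type*} [Field F] [Fintype F] [CharP F 2] {m : ℕ} (hm : 1 ≤ m) : Nat.card {C : ConjClasses ↥(Matrix.symplecticGroup (Fin m) F) // ∃ g : Matrix.symplecticGroup (Fin m) F, ConjClasses.mk g = C ∧ orderOf g = 2} = m + m / 2 := by
  classical
  have hE1 : ∀ i j : Fin m, sympB m F (Pi.single (Sum.inl i) 1) (Pi.single (Sum.inl j) 1) = 0 := by
    intro i j
    rw [sympB_apply]
    simp [Matrix.J]
  have hE2 : ∀ i j : Fin m, sympB m F (Pi.single (Sum.inl i) 1) (Pi.single (Sum.inr j) 1) = if i = j then 1 else 0 := by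
    intro i j
    rw [sympB_apply]
    simp [Matrix.J, Matrix.one_apply, CharTwo.neg_eq]
  have hdt : ∀ g : symplecticGroup (Fin m) F, (∀ x, sympB m F x (spL g x) = 0) → (invSp g).2 = true := by
    intro g h
    unfold invSp
    exact @decide_eq_true _ (_) h
  have hdf : ∀ g : symplecticGroup (Fin m) F, (¬ ∀ x, sympB m F x (spL g x) = 0) → (invSp g).2 = false := by
    intro g h
    unfold invSp
    exact @decide_eq_false _ (_) h
  have hd1 : ∀ g : symplecticGroup (Fin m) F, (invSp g).1 = finrank F (LinearMap.range (spN g)) := fun g => rfl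
  rw [← card_invSet]
  apply card_classes_eq (fun g => orderOf g = 2) invSp
  · intro g h hg hh
    unfold invSp
    rw [Prod.mk.injEq, decide_eq_decide]
    constructor
    · intro hc
      obtain ⟨c, rfl⟩ := isConj_iff.1 hc
      exact ⟨(finrank_conj c g).symm, (alt_conj c g).symm⟩
    · rintro ⟨h1, h2⟩
      exact isConj_of_invariants (mul_self_of_orderOf hg) (mul_self_of_orderOf hh) h1 h2
  · intro g hg
    rw [show invSp g = ((invSp g).1, (invSp g).2) from rfl, mem_invSet, hd1]
    have h1 := finrank_pos (ne_one_of_orderOf hg)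
    have h2 := two_mul_finrank_le (mul_self_of_orderOf hg)
    by_cases hts : ∀ x, sympB m F x (spL g x) = 0
    · right
      exact ⟨hdt g hts, h1, h2, even_finrank_of_alt (mul_self_of_orderOf hg) hts⟩
    · left
      exact ⟨hdf g hts, h1, h2⟩
  · have hne : ∀ (t : symplecticGroup (Fin m) F) (r : ℕ), 1 ≤ r → finrank F (LinearMap.range (spN t)) = r → t ≠ 1 := by
      rintro t r hr h rfl
      have : LinearMap.range (spN (1 : symplecticGroup (Fin m) F)) = ⊥ := by
        rw [eq_bot_iff]
        rintro _ ⟨x, rfl⟩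
        rw [spN_apply, spL_one, sub_self]
        exact Submodule.zero_mem _
      rw [this, finrank_bot] at h
      omega
    rintro ⟨r, b⟩ hb
    rw [mem_invSet] at hb
    rcases hb with ⟨rfl, h1, h2⟩ | ⟨rfl, h1, h2, h3⟩
    · obtain ⟨t, htt, hrk, hty⟩ := exists_invol_of_family_sp (F := F) (m := m) (κ := Fin r) id (fun _ => rfl)
        (fun i => Pi.single (Sum.inl (Fin.castLE h2 i)) 1) (fun i => Pi.single (Sum.inr (Fin.castLE h2 i)) 1)
        (fun i j => hE1 _ _) (fun i j => by rw [hE2]; simp)
      rw [Fintype.card_fin] at hrk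
      refine ⟨t, orderOf_of_mul_self htt (hne t r h1 hrk), ?_⟩
      apply Prod.ext
      · exact hrk
      · apply hdf
        intro h
        exact hty.1 h ⟨0, h1⟩ rfl
    · obtain ⟨k, rfl⟩ := h3
      let emb : Fin k ⊕ Fin k → Fin m := Sum.elim (fun i => ⟨i, by omega⟩) (fun i => ⟨k + i, by omega⟩)
      have hemb : Function.Injective emb := by
        rintro (a | a) (b | b) h
        · simp only [emb, Sum.elim_inl, Fin.mk.injEq] at h
          rw [Fin.ext h]
        · simp only [emb, Sum.elim_inl, Sum.elim_inr, Fin.mk.injEq] at h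
          omega
        · simp only [emb, Sum.elim_inl, Sum.elim_inr, Fin.mk.injEq] at h
          omega
        · simp only [emb, Sum.elim_inr, Fin.mk.injEq] at h
          rw [Fin.ext (by omega : (a : ℕ) = b)]
      obtain ⟨t, htt, hrk, hty⟩ := exists_invol_of_family_sp (F := F) (m := m) (κ := Fin k ⊕ Fin k) Sum.swap Sum.swap_swap
        (fun i => Pi.single (Sum.inl (emb i)) 1) (fun i => Pi.single (Sum.inr (emb i)) 1)
        (fun i j => hE1 _ _) (fun i j => by rw [hE2]; simp [hemb.eq_iff])
      rw [Fintype.card_sum, Fintype.card_fin] at hrk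
      refine ⟨t, orderOf_of_mul_self htt (hne t _ h1 hrk), ?_⟩
      apply Prod.ext
      · exact hrk
      · apply hdt
        apply hty.2
        rintro (j | j) <;> simp

end Cfsg.Agent.S2593
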