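import Cfsg.Statements.S2898
import Cfsg.Agent.H17.CharP4
import Cfsg.Agent.H17.Comm

set_option autoImplicit false
open Cfsg

namespace Cfsg.Agent.S2898

open Subgroup Cfsg.Agent.Lib.Helper16 Cfsg.Agent.H17

theorem eq_bot_of_hasCharP {G : Type*} [Group G] [Finite G] {p : ℕ} [Fact p.Prime] {X D : Subgroup G}
    (hX : HasCharP p X) (hDX : D ≤ X) (hn : X ≤ normalizer (D : Set G))
    (hD : (Nat.card D).Coprime p) : D = ⊥ := by
  set P := pCoreOf p X with hP
  have hPD : P ⊓ D = ⊥ :=
    Cfsg.Agent.H12.inf_eq_bot_of_pGroup_of_coprime (pCoreOf_isPGroup X) hD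
  have h1 : ⁅P, D⁆ ≤ P := le_normalizer_iff_commutator_le_left.mp (hDX.trans (le_normalizer_pCoreOf X))
  have h2 : ⁅P, D⁆ ≤ D := le_normalizer_iff_commutator_le_right.mp ((pCoreOf_le X).trans hn)
  have h3 : ⁅P, D⁆ = ⊥ := by rw [eq_bot_iff, ← hPD]; exact le_inf h1 h2
  rw [commutator_eq_bot_iff_le_centralizer, le_centralizer_iff] at h3
  rw [eq_bot_iff, ← hPD]
  exact le_inf ((le_inf hDX h3).trans hX) le_rfl

/-- Let G be a finite group of even order with parabolic characteristic 2. If the centre of G ⧸ O(G) is trivial, then O(G) = 1. -/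
theorem result {G : Type*} [Group G] [Finite G] (h2 : 2 ∣ Nat.card G) (hG : Cfsg.IsOfParabolicCharacteristic 2 G) [hN : (Cfsg.oddCore G).Normal] (hZ : Subgroup.center (G ⧸ Cfsg.oddCore G) = ⊥) : Cfsg.oddCore G = ⊥ := by
  set K := Cfsg.oddCore G with hK
  have hKc : (Nat.card K).Coprime 2 := Cfsg.Agent.H12.pPrimeCore_coprime 2
  obtain ⟨S⟩ : Nonempty (Sylow 2 G) := inferInstance
  have hpar := (parabolic_iff S).mp hG
  -- fixed points of central involutions on K are trivial
  have hfix : ∀ z : G, z ≠ 1 → z ∈ Cfsg.omegaOne 2 ((S : Subgroup G) ⊓ centralizer ((S : Subgroup G) : Set G)) →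
      K ⊓ centralizer ({z} : Set G) = ⊥ := by
    intro z hz1 hz
    apply eq_bot_of_hasCharP (hpar z hz1 hz) inf_le_right
    · refine le_trans (le_inf ?_ le_normalizer) inf_normalizer_le_normalizer_inf
      rw [normalizer_eq_top]; exact le_top
    · exact Nat.Coprime.coprime_dvd_left (card_dvd_of_le inf_le_left) hKc
  have hSne : (S : Subgroup G) ≠ ⊥ := by
    intro hb
    have := S.dvd_card_of_dvd_card h2
    rw [hb, card_bot] at this
    omega
  obtain ⟨z, hzS, hoz, hzc⟩ := exists_central_order_p S.2 hSne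
  have hz1 : z ≠ 1 := by
    rintro rfl
    simp at hoz
  have hzsq : z * z = 1 := by rw [← sq, ← hoz, pow_orderOf_eq_one]
  have hzinv : z⁻¹ = z := inv_eq_of_mul_eq_one_left hzsq
  have hzO : z ∈ Cfsg.omegaOne 2 ((S : Subgroup G) ⊓ centralizer ((S : Subgroup G) : Set G)) := by
    apply Subgroup.subset_closure
    refine ⟨Subgroup.mem_inf.mpr ⟨hzS, mem_centralizer_iff.mpr (fun s hs => hzc s hs)⟩, ?_⟩
    rw [sq]; exact hzsq
  have hinv : ∀ k ∈ K, z * k * z⁻¹ = k⁻¹ := by
    set φ : K →* K := (MulAut.conjNormal z : MulAut K).toMonoidHom with hφ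
    have hφa : ∀ k : K, ((φ k : K) : G) = z * k * z⁻¹ := fun k => rfl
    have hfpf : MonoidHom.FixedPointFree φ := by
      intro k hk
      have h1 : z * k * z⁻¹ = k := by rw [← hφa, hk]
      have h2 : (k : G) ∈ K ⊓ centralizer ({z} : Set G) := by
        refine Subgroup.mem_inf.mpr ⟨k.2, ?_⟩
        rw [mem_centralizer_iff]
        intro w hw
        rw [Set.mem_singleton_iff] at hw
        rw [hw]
        exact mul_inv_eq_iff_eq_mul.mp h1
      rw [hfix z hz1 hzO, mem_bot] at h2
      exact Subtype.ext h2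
    have hinvol : Function.Involutive φ := by
      intro k
      apply Subtype.ext
      rw [hφa, hφa, hzinv]
      calc z * (z * k * z) * z = (z * z) * k * (z * z) := by group
        _ = k := by rw [hzsq]; group
    have := MonoidHom.FixedPointFree.coe_eq_inv_of_involutive hfpf hinvol
    intro k hk
    have h3 := congrFun this ⟨k, hk⟩
    have h4 := congrArg Subtype.val h3
    rw [hφa] at h4
    simpa using h4
  have hcomm : ∀ g : G, g * z * g⁻¹ * z⁻¹ ∈ centralizer (K : Set G) := by
    intro g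
    rw [mem_centralizer_iff]
    intro k hk
    have e1 : z * k = k⁻¹ * z := mul_inv_eq_iff_eq_mul.mp (hinv k hk)
    have e2 : z * (g⁻¹ * k⁻¹ * g) = (g⁻¹ * k * g) * z := by
      have hmem : g⁻¹ * k⁻¹ * g ∈ K := by
        have := hN.conj_mem _ (K.inv_mem hk) g⁻¹
        simpa using this
      have := mul_inv_eq_iff_eq_mul.mp (hinv _ hmem)
      rw [this]; group
    symm
    calc g * z * g⁻¹ * z⁻¹ * k = g * z * g⁻¹ * (z * k) := by rw [hzinv]; group
      _ = g * (z * (g⁻¹ * k⁻¹ * g)) * g⁻¹ * z := by rw [e1]; group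
      _ = k * (g * z * g⁻¹ * z) := by rw [e2]; group
      _ = k * (g * z * g⁻¹ * z⁻¹) := by rw [hzinv]
  set C := centralizer (K : Set G) with hC
  have hCn : C.Normal := inferInstance
  by_cases hpar2 : 2 ∣ Nat.card C
  · have hQ : IsSylIn 2 ((S : Subgroup G) ⊓ C) C :=
      (sylow_isSylIn_top S).inf_normal le_top (by rw [normalizer_eq_top])
    have hQne : (S : Subgroup G) ⊓ C ≠ ⊥ := by
      intro hb
      apply hQ.2.2
      rw [hb, relIndex_bot_left]
      exact hpar2
    have hSn : (S : Subgroup G) ≤ normalizer (((S : Subgroup G) ⊓ C : Subgroup G) : Set G) := by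
      refine le_trans (le_inf le_normalizer ?_) inf_normalizer_le_normalizer_inf
      rw [normalizer_eq_top]; exact le_top
    have hne : ((S : Subgroup G) ⊓ C) ⊓ centralizer ((S : Subgroup G) : Set G) ≠ ⊥ := by
      apply Cfsg.Agent.Lib.Helper13.inf_centralizer_ne_bot hQ.2.1 hSn _ _ le_rfl hSn hQne
      intro a ha
      obtain ⟨k, hk⟩ := S.2 ⟨a, ha⟩
      refine ⟨k, ?_⟩
      have : a ^ 2 ^ k = 1 := by simpa using congrArg Subtype.val hk
      rw [this]; exact one_mem _
    obtain ⟨t, ht, hot⟩ := exists_order_p_of_ne_bot (hQ.2.1.to_le inf_le_left) hne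
    have ht1 : t ≠ 1 := by
      rintro rfl
      simp at hot
    have htO : t ∈ Cfsg.omegaOne 2 ((S : Subgroup G) ⊓ centralizer ((S : Subgroup G) : Set G)) := by
      apply Subgroup.subset_closure
      refine ⟨Subgroup.mem_inf.mpr ⟨ht.1.1, ht.2⟩, ?_⟩
      rw [← hot]; exact pow_orderOf_eq_one t
    rw [eq_bot_iff, ← hfix t ht1 htO]
    refine le_inf le_rfl ?_
    intro k hk
    rw [mem_centralizer_iff]
    intro w hw
    rw [Set.mem_singleton_iff] at hw
    rw [hw]
    exact ((mem_centralizer_iff.mp ht.1.2) k hk).symm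
  · exfalso
    have hCK : C ≤ K :=
      Cfsg.Agent.H12.le_pPrimeCore hCn ((Nat.Prime.coprime_iff_not_dvd Nat.prime_two).mpr hpar2).symm
    have hzc' : (QuotientGroup.mk' K z) ∈ center (G ⧸ K) := by
      rw [mem_center_iff]
      intro y
      obtain ⟨g, rfl⟩ := QuotientGroup.mk'_surjective K y
      rw [← map_mul, ← map_mul]
      apply (QuotientGroup.eq).mpr
      have := hCK (hcomm g⁻¹)
      rw [hzinv] at this
      have e : (g * z)⁻¹ * (z * g) = (g⁻¹ * z * g⁻¹⁻¹ * z)⁻¹ := by
        simp only [mul_inv_rev, inv_inv, hzinv, mul_assoc]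
      rw [e]
      exact K.inv_mem this
    rw [hZ, mem_bot] at hzc'
    have hzK : z ∈ K := (QuotientGroup.eq_one_iff z).mp hzc'
    have hd : 2 ∣ Nat.card K := by
      rw [← hoz]
      have := orderOf_dvd_natCard (⟨z, hzK⟩ : K)
      rwa [Subgroup.orderOf_mk] at this
    have := Nat.Coprime.eq_one_of_dvd hKc.symm hd
    omega

end Cfsg.Agent.S2898
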