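import Cfsg.Statements.S2907
-- import your own Cfsg.Agent.* helpers here

set_option autoImplicit false
open Cfsg

namespace Cfsg.Agent.S2907

/-- Let X be a finite semi-extraspecial p-group and x an element of X outside the centre. Then the index of C_X(x) in X equals the order of Z(X), and the commutators [x, y], y ∈ X, form exactly the centre Z(X). -/
theorem result {X : Type*} [Group X] [Finite X] {p : ℕ} [Fact p.Prime] (hX : Cfsg.IsSemiExtraspecial p X) (x : X) (hx : x ∉ Subgroup.center X) : (Subgroup.centralizer ({x} : Set X)).index = Nat.card ↥(Subgroup.center X) ∧ {z : X | ∃ y : X, z = x * y * x⁻¹ * y⁻¹} = (Subgroup.center X : Set X) := by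
  classical
  obtain ⟨hsp, hY⟩ := hX
  have hcomm : ∀ a b : X, a * b * a⁻¹ * b⁻¹ ∈ Subgroup.center X := by
    intro a b
    rw [← hsp.2.2]
    exact Subgroup.commutator_mem_commutator (Subgroup.mem_top a) (Subgroup.mem_top b)
  let f : X →* Subgroup.center X := MonoidHom.mk' (fun y => ⟨x * y * x⁻¹ * y⁻¹, hcomm x y⟩) (by
    intro y z
    apply Subtype.ext
    change x * (y * z) * x⁻¹ * (y * z)⁻¹ = (x * y * x⁻¹ * y⁻¹) * (x * z * x⁻¹ * z⁻¹)
    have h := Subgroup.mem_center_iff.mp (hcomm x z) y⁻¹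
    calc x * (y * z) * x⁻¹ * (y * z)⁻¹ = x * y * x⁻¹ * ((x * z * x⁻¹ * z⁻¹) * y⁻¹) := by group
      _ = x * y * x⁻¹ * (y⁻¹ * (x * z * x⁻¹ * z⁻¹)) := by rw [h]
      _ = _ := by group)
  have hf : ∀ y, ((f y : Subgroup.center X) : X) = x * y * x⁻¹ * y⁻¹ := fun y => rfl
  have hker : f.ker = Subgroup.centralizer {x} := by
    ext y
    rw [MonoidHom.mem_ker, Subgroup.mem_centralizer_singleton_iff]
    constructor
    · intro h
      have h1 : x * y * x⁻¹ * y⁻¹ = 1 := by rw [← hf, h]; rfl
      calc y * x = (x * y * x⁻¹ * y⁻¹) * (y * x) := by rw [h1, one_mul]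
        _ = x * y := by group
    · intro h
      apply Subtype.ext
      rw [hf, ← h]
      simp
  have hsurj : f.range = ⊤ := by
    by_contra hne
    obtain ⟨M, hM, hfM⟩ := (eq_top_or_exists_le_coatom f.range).resolve_left hne
    set Y : Subgroup X := M.map (Subgroup.center X).subtype with hYdef
    have hYle : Y ≤ Subgroup.center X := Subgroup.map_subtype_le M
    have hYM : Y.subgroupOf (Subgroup.center X) = M :=
      Subgroup.comap_map_eq_self_of_injective (Subgroup.subtype_injective _) M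
    obtain ⟨hYn, hex⟩ := hY Y hYle (hYM ▸ hM)
    have hxc : (QuotientGroup.mk x : X ⧸ Y) ∈ Subgroup.center (X ⧸ Y) := by
      rw [Subgroup.mem_center_iff]
      intro q
      obtain ⟨y, rfl⟩ := QuotientGroup.mk_surjective q
      rw [← QuotientGroup.mk_mul, ← QuotientGroup.mk_mul]
      apply QuotientGroup.eq.mpr
      have h1 : f y ∈ M := hfM ⟨y, rfl⟩
      have h2 : x * y * x⁻¹ * y⁻¹ ∈ Y := ⟨f y, h1, rfl⟩
      have h3 : (y * x)⁻¹ * (x * y) = (y * x)⁻¹ * (x * y * x⁻¹ * y⁻¹) * (y * x) := by group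
      rw [h3]
      have := hYn.conj_mem _ h2 (y * x)⁻¹
      rwa [inv_inv] at this
    set Zb : Subgroup (X ⧸ Y) := (Subgroup.center X).map (QuotientGroup.mk' Y) with hZb
    have hZble : Zb ≤ Subgroup.center (X ⧸ Y) := by
      rintro _ ⟨z, hz, rfl⟩
      rw [Subgroup.mem_center_iff]
      intro q
      obtain ⟨y, rfl⟩ := QuotientGroup.mk_surjective q
      change (QuotientGroup.mk y : X ⧸ Y) * QuotientGroup.mk z = QuotientGroup.mk z * QuotientGroup.mk y
      rw [← QuotientGroup.mk_mul, ← QuotientGroup.mk_mul, Subgroup.mem_center_iff.mp hz y]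
    have hZbne : Zb ≠ ⊥ := by
      intro h
      apply hM.1
      rw [eq_top_iff]
      intro z _
      have h1 : (QuotientGroup.mk' Y) (z : X) ∈ Zb := ⟨z, z.2, rfl⟩
      rw [h, Subgroup.mem_bot] at h1
      have h2 : (z : X) ∈ Y := (QuotientGroup.eq_one_iff _).mp h1
      rw [← hYM]
      exact h2
    have hp := (Fact.out : p.Prime)
    have hZbeq : Zb = Subgroup.center (X ⧸ Y) := by
      apply Subgroup.eq_of_le_of_card_ge hZble
      have h1 : Nat.card Zb ∣ p := hex.2 ▸ Subgroup.card_dvd_of_le hZble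
      rcases (Nat.dvd_prime hp).mp h1 with h2 | h2
      · exact absurd (Subgroup.card_eq_one.mp h2) hZbne
      · rw [hex.2, h2]
    rw [← hZbeq] at hxc
    obtain ⟨z, hz, hzx⟩ := hxc
    have h1 : z⁻¹ * x ∈ Y := QuotientGroup.eq.mp hzx
    apply hx
    have h2 := (Subgroup.center X).mul_mem hz (hYle h1)
    rwa [mul_inv_cancel_left] at h2
  constructor
  · rw [← hker, Subgroup.index_ker, hsurj, Subgroup.card_top]
  · ext z
    constructor
    · rintro ⟨y, rfl⟩
      exact hcomm x y
    · intro hz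
      have h1 : (⟨z, hz⟩ : Subgroup.center X) ∈ f.range := by rw [hsurj]; exact Subgroup.mem_top _
      obtain ⟨y, hy⟩ := h1
      exact ⟨y, by rw [← hf, hy]⟩

end Cfsg.Agent.S2907
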