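import Cfsg.Statements.S2909
import Cfsg.Agent.Lib.Helper13.GenCoprime
import Cfsg.Agent.H17.Comm
import Cfsg.Agent.H1.PxQ

set_option autoImplicit false
open Cfsg

namespace Cfsg.Agent.S2909

open Subgroup

/-- Let p be a prime, E a normal p-subgroup of the finite group G, and U a non-cyclic elementary abelian p-subgroup of G such that either C_E(U) = C_E(u) for every nontrivial u ∈ U, or [E, U] = [E, ⟨u⟩] for every nontrivial u ∈ U. If R is a subgroup of order prime to p normalized by U, then [R, U] centralizes E. -/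
theorem result {G : Type*} [Group G] [Finite G] {p : ℕ} [Fact p.Prime] (E : Subgroup G) [E.Normal] (hE : IsPGroup p ↥E) (U : Subgroup G) (hU : Cfsg.IsElementaryAbelian p U) (hnc : ¬ IsCyclic ↥U) (hcond : (∀ u ∈ U, u ≠ 1 → E ⊓ Subgroup.centralizer (U : Set G) = E ⊓ Subgroup.centralizer ({u} : Set G)) ∨ (∀ u ∈ U, u ≠ 1 → ⁅E, U⁆ = ⁅E, Subgroup.zpowers u⁆)) (R : Subgroup G) (hR : ¬ p ∣ Nat.card ↥R) (hRU : U ≤ Subgroup.normalizer (R : Set G)) : ⁅R, U⁆ ≤ Subgroup.centralizer (E : Set G) := by
  have hUc := hU.1
  have hUp : IsPGroup p ↥U := by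
    intro x
    refine ⟨1, ?_⟩
    rw [pow_one]
    exact Subtype.ext (hU.2 x.1 x.2)
  have hcop : (Nat.card U).Coprime (Nat.card R) :=
    (Cfsg.Agent.H17.coprime_card_of_pgroup hUp hR).symm
  have hgen := Cfsg.Agent.Lib.Helper13.gen_commutator_eq U R hRU hcop
  rw [← hgen]
  apply iSup₂_le
  intro B hB
  obtain ⟨hBU, a, ha, hBa⟩ := hB
  have hBne : B ≠ ⊥ := by
    intro hbot
    apply hnc
    rw [hbot, bot_sup_eq] at hBa
    rw [← hBa]
    infer_instance
  obtain ⟨⟨u, hu⟩, hu1'⟩ := Subgroup.ne_bot_iff_exists_ne_one.mp hBne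
  have hu1 : u ≠ 1 := fun h => hu1' (Subtype.ext h)
  have huU : u ∈ U := hBU hu
  set RB := R ⊓ centralizer (B : Set G) with hRB
  set A := ⁅RB, U⁆ with hA
  have hUcB : U ≤ centralizer (B : Set G) := by
    intro x hx
    rw [mem_centralizer_iff]
    intro b hb
    exact congrArg (Subtype.val : U → G) (mul_comm' (⟨b, hBU hb⟩ : U) ⟨x, hx⟩)
  have hAR : A ≤ R := by
    have : ⁅R, U⁆ ≤ R := le_normalizer_iff_commutator_le_left.mp hRU
    exact (commutator_mono inf_le_left le_rfl).trans this
  have hAB : A ≤ centralizer (B : Set G) := Cfsg.Agent.H17.commutator_le_of_le inf_le_right hUcB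
  have hAp : ¬ p ∣ Nat.card ↥A := fun h => hR (h.trans (card_dvd_of_le hAR))
  have hzp : IsPGroup p ↥(zpowers u) := hUp.to_le (by rw [zpowers_le]; exact huU)
  have hzB : zpowers u ≤ B := by rw [zpowers_le]; exact hu
  have hEn : ∀ X : Subgroup G, X ≤ normalizer (E : Set G) := fun X => by
    rw [normalizer_eq_top]; exact le_top
  have hcz : centralizer ((zpowers u : Subgroup G) : Set G) = centralizer ({u} : Set G) := by
    apply le_antisymm
    · exact centralizer_le (by simp)
    · rw [le_centralizer_iff, zpowers_le, mem_centralizer_iff]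
      intro h hh
      exact ((mem_centralizer_iff.mp hh) u rfl).symm
  have hRBu : RB ≤ centralizer ((zpowers u : Subgroup G) : Set G) :=
    inf_le_right.trans (centralizer_le hzB)
  rcases hcond with hc | hc
  · apply Cfsg.H1.thompson_PxQ p (zpowers u) A E hzp
      ((Nat.Prime.coprime_iff_not_dvd Fact.out).mpr hAp).symm hE
    · exact le_centralizer_iff.mp (hAB.trans (centralizer_le hzB))
    · exact hEn _
    · exact hEn _
    · rw [hcz, ← hc u huU hu1]
      set E₀ := E ⊓ centralizer (U : Set G) with hE₀
      rw [le_centralizer_iff, ← commutator_eq_bot_iff_le_centralizer]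
      apply commutator_commutator_eq_bot_of_rotate
      · have : ⁅U, E₀⁆ = ⊥ := by
          rw [commutator_eq_bot_iff_le_centralizer, le_centralizer_iff]
          exact inf_le_right
        rw [this, commutator_bot_left]
      · have h1 : ⁅E₀, RB⁆ ≤ E₀ := by
          rw [← le_normalizer_iff_commutator_le_left, hc u huU hu1, ← hcz]
          refine le_trans (le_inf (hEn RB) ?_) inf_normalizer_le_normalizer_inf
          exact hRBu.trans le_normalizer
        rw [eq_bot_iff]
        refine (commutator_mono h1 le_rfl).trans ?_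
        rw [le_bot_iff, commutator_eq_bot_iff_le_centralizer]
        exact inf_le_right
  · have h1 : ⁅E, A⁆ ≤ ⁅E, zpowers u⁆ := by
      rw [commutator_comm E A]
      have hn1 : RB ≤ normalizer ((⁅E, zpowers u⁆ : Subgroup G) : Set G) :=
        le_trans (le_inf (hEn RB) (hRBu.trans (centralizer_le_normalizer _)))
          (Cfsg.Agent.H17.normalizer_inf_le_normalizer_commutator _ _)
      have hn2 : U ≤ normalizer ((⁅E, zpowers u⁆ : Subgroup G) : Set G) := by
        rw [← hc u huU hu1]
        exact le_trans (le_inf (hEn U) le_normalizer)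
          (Cfsg.Agent.H17.normalizer_inf_le_normalizer_commutator _ _)
      have hn3 : E ≤ normalizer ((⁅E, zpowers u⁆ : Subgroup G) : Set G) := by
        rw [← hc u huU hu1]
        exact normalizer_commutator_ge_left E U
      apply Cfsg.Agent.H17.three_subgroups_rel _ RB U E hn1 hn2 hn3
      · rw [commutator_comm U E, hc u huU hu1]
        exact le_normalizer_iff_commutator_le_left.mp hn1
      · rw [← hc u huU hu1]
        exact commutator_mono (le_normalizer_iff_commutator_le_left.mp (hEn RB)) le_rfl
    have h2 := Cfsg.Agent.H17.commutator_eq_bot_of_le_commutator E (zpowers u) A hE hzp hAp (hEn _) (hEn _)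
      (by
        rw [commutator_eq_bot_iff_le_centralizer]
        exact le_centralizer_iff.mp (hAB.trans (centralizer_le hzB))) h1
    rw [commutator_eq_bot_iff_le_centralizer] at h2
    exact le_centralizer_iff.mp h2

end Cfsg.Agent.S2909
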