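import Cfsg.Statements.S2910
import Cfsg.Agent.S0120
import Cfsg.Agent.Tr.Frobenius

set_option autoImplicit false
open Cfsg

namespace Cfsg.Agent.S2910

open Subgroup

/-- Let p be an odd prime dividing the order of the finite group G and P a Sylow p-subgroup of G. If Ω₁(P) (generated by the elements of order dividing p) is contained in the centre of G, then G has a normal p-complement. In particular, if G is quasisimple then Ω₁(P) is not central in G. -/
theorem result {G : Type*} [Group G] [Finite G] {p : ℕ} [Fact p.Prime] (hp : p ≠ 2) (hdiv : p ∣ Nat.card G) (P : Sylow p G) (hZ : Cfsg.omegaOne p (P : Subgroup G) ≤ Subgroup.center G) : Cfsg.HasNormalPComplement p G ∧ ¬ Cfsg.IsQuasisimple G := by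
  have hF : Cfsg.Agent.Tr.Frob p G := by
    apply Cfsg.Agent.Tr.frob_of_sylow P
    intro Q hQP g hg hco
    set a : MulAut Q := Q.normalizerMonoidHom ⟨g, hg⟩ with ha
    have hoa : Nat.Coprime (orderOf a) p := by
      have h1 : orderOf a ∣ orderOf (⟨g, hg⟩ : normalizer (Q : Set G)) := orderOf_map_dvd _ _
      have h2 : orderOf (⟨g, hg⟩ : normalizer (Q : Set G)) = orderOf g := by
        rw [← Subgroup.orderOf_coe]
      rw [h2] at h1
      exact Nat.Coprime.coprime_dvd_left h1 hco
    have hfix : ∀ x : Q, x ^ p = 1 → a x = x := by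
      intro x hx
      apply Subtype.ext
      have hx1 : (x : G) ∈ Cfsg.omegaOne p (P : Subgroup G) := by
        apply Subgroup.subset_closure
        exact ⟨hQP x.2, by simpa using congrArg Subtype.val hx⟩
      have hx2 := hZ hx1
      rw [Subgroup.mem_center_iff] at hx2
      change g * x * g⁻¹ = x
      rw [hx2 g]; group
    have h1 := Cfsg.Agent.S0120.result hp (P.2.to_le hQP) a hoa hfix
    rw [mem_centralizer_iff]
    intro x hx
    have h2 : a ⟨x, hx⟩ = ⟨x, hx⟩ := by rw [h1]; rfl
    have h3 : g * x * g⁻¹ = x := congrArg Subtype.val h2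
    calc x * g = (g * x * g⁻¹) * g := by rw [h3]
      _ = g * x := by group
  have hN := hF.hasNormalPComplement
  refine ⟨hN, ?_⟩
  rintro ⟨hperf, -⟩
  obtain ⟨P', N, hNn, hc⟩ := hN
  have hidx : N.index = Nat.card P' := hc.symm.index_eq_card
  have hpg : IsPGroup p (G ⧸ N) := by
    obtain ⟨n, hn⟩ := IsPGroup.iff_card.mp P'.2
    apply IsPGroup.of_card (n := n)
    rw [← hn, ← hidx]; rfl
  have hnil : Group.IsNilpotent (G ⧸ N) := hpg.isNilpotent
  have hnt : Nontrivial (G ⧸ N) := by
    rw [← Finite.one_lt_card_iff_nontrivial]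
    change 1 < N.index
    rw [hidx]
    have : p ∣ Nat.card P' := by
      exact Sylow.dvd_card_of_dvd_card P' hdiv
    exact lt_of_lt_of_le (Fact.out : p.Prime).one_lt (Nat.le_of_dvd Nat.card_pos this)
  exact Group.IsPerfect.not_isNilpotent (G ⧸ N) hnil

end Cfsg.Agent.S2910
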