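import Mathlib
import Cfsg.Statements.S2925
import Cfsg.Agent.S0542
import Cfsg.Agent.H9.Comp

set_option autoImplicit false
open Cfsg
open scoped commutatorElement Pointwise

namespace Cfsg.Agent.S2925

/-- Let K be a component of the finite group X and T a Sylow 2-subgroup of X. If some abelian normal subgroup Y of T does not normalize K, then K ⧸ Z(K) has abelian Sylow 2-subgroups. -/
theorem result {X : Type*} [Group X] [Finite X] (K : Subgroup X) (hK : Cfsg.IsComponent K) (T : Sylow 2 X) (Y : Subgroup X) (hYT : Y ≤ (T : Subgroup X)) (hYn : (Y.subgroupOf (T : Subgroup X)).Normal) (hYab : IsMulCommutative ↥Y) (hnot : ¬ Y ≤ Subgroup.normalizer (K : Set X)) (P : Sylow 2 (↥K ⧸ Subgroup.center ↥K)) : IsMulCommutative ↥(P : Subgroup (↥K ⧸ Subgroup.center ↥K)) := by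
  classical
  obtain ⟨a, haY, haN⟩ := SetLike.not_le_iff_exists.mp hnot
  have hK'c : IsComponent (K.map (MulAut.conj a).toMonoidHom) :=
    Cfsg.H9.isComponent_map_equiv (MulAut.conj a) hK
  have hne : K ≠ K.map (MulAut.conj a).toMonoidHom := fun h =>
    haN (Subgroup.mem_normalizer_iff_map_conj_eq.mpr h.symm)
  have hcomm : ⁅K, K.map (MulAut.conj a).toMonoidHom⁆ = ⊥ :=
    (Cfsg.H9.component_eq_or_comm hK hK'c).resolve_left hne
  rw [Cfsg.H9.comm_iff] at hcomm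
  obtain ⟨Q, hQ⟩ := Cfsg.Agent.S0542.result 2 K hK.1 T
  -- u_s ∈ Y
  have hu : ∀ s ∈ (T : Subgroup X), s⁻¹ * (a * s * a⁻¹) ∈ Y := by
    intro s hs
    have h1 := hYn.conj_mem ⟨a, hYT haY⟩ (Subgroup.mem_subgroupOf.mpr haY) ⟨s⁻¹, inv_mem hs⟩
    rw [Subgroup.mem_subgroupOf] at h1
    simp only [Subgroup.coe_mul, InvMemClass.coe_inv, inv_inv] at h1
    have h2 := Y.mul_mem h1 (Y.inv_mem haY)
    convert h2 using 1
    group
  have hmemK' : ∀ s ∈ K, a * s * a⁻¹ ∈ K.map (MulAut.conj a).toMonoidHom := by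
    intro s hs
    exact ⟨s, hs, by simp [MulAut.conj_apply]⟩
  have key : ∀ s ∈ (T : Subgroup X), s ∈ K → ∀ t ∈ (T : Subgroup X), t ∈ K →
      ∀ k ∈ K, (s * t * s⁻¹ * t⁻¹) * k = k * (s * t * s⁻¹ * t⁻¹) := by
    intro s hsT hsK t htT htK k hk
    have hc : (s⁻¹ * (a * s * a⁻¹)) * (t⁻¹ * (a * t * a⁻¹)) =
        (t⁻¹ * (a * t * a⁻¹)) * (s⁻¹ * (a * s * a⁻¹)) := by
      have := hYab.is_comm.comm ⟨_, hu s hsT⟩ ⟨_, hu t htT⟩
      exact congrArg Subtype.val this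
    have e1 : (a * s * a⁻¹) * t⁻¹ = t⁻¹ * (a * s * a⁻¹) :=
      (hcomm t⁻¹ (K.inv_mem htK) _ (hmemK' s hsK)).symm
    have e2 : (a * t * a⁻¹) * s⁻¹ = s⁻¹ * (a * t * a⁻¹) :=
      (hcomm s⁻¹ (K.inv_mem hsK) _ (hmemK' t htK)).symm
    have e3 : s * t * s⁻¹ * t⁻¹ = (a * t * a⁻¹) * (a * s * a⁻¹) * (a * t * a⁻¹)⁻¹ * (a * s * a⁻¹)⁻¹ := by
      have h1 : s⁻¹ * t⁻¹ * ((a * s * a⁻¹) * (a * t * a⁻¹)) =
          t⁻¹ * s⁻¹ * ((a * t * a⁻¹) * (a * s * a⁻¹)) := by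
        calc s⁻¹ * t⁻¹ * ((a * s * a⁻¹) * (a * t * a⁻¹))
            = s⁻¹ * (t⁻¹ * (a * s * a⁻¹)) * (a * t * a⁻¹) := by group
          _ = s⁻¹ * ((a * s * a⁻¹) * t⁻¹) * (a * t * a⁻¹) := by rw [e1]
          _ = (s⁻¹ * (a * s * a⁻¹)) * (t⁻¹ * (a * t * a⁻¹)) := by group
          _ = (t⁻¹ * (a * t * a⁻¹)) * (s⁻¹ * (a * s * a⁻¹)) := hc
          _ = t⁻¹ * ((a * t * a⁻¹) * s⁻¹) * (a * s * a⁻¹) := by group
          _ = t⁻¹ * (s⁻¹ * (a * t * a⁻¹)) * (a * s * a⁻¹) := by rw [e2]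
          _ = t⁻¹ * s⁻¹ * ((a * t * a⁻¹) * (a * s * a⁻¹)) := by group
      have h2 : s * t * (s⁻¹ * t⁻¹ * ((a * s * a⁻¹) * (a * t * a⁻¹))) * ((a * s * a⁻¹) * (a * t * a⁻¹))⁻¹
          = s * t * (t⁻¹ * s⁻¹ * ((a * t * a⁻¹) * (a * s * a⁻¹))) * ((a * s * a⁻¹) * (a * t * a⁻¹))⁻¹ := by
        rw [h1]
      calc s * t * s⁻¹ * t⁻¹
          = s * t * (s⁻¹ * t⁻¹ * ((a * s * a⁻¹) * (a * t * a⁻¹))) * ((a * s * a⁻¹) * (a * t * a⁻¹))⁻¹ := by
            group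
        _ = s * t * (t⁻¹ * s⁻¹ * ((a * t * a⁻¹) * (a * s * a⁻¹))) * ((a * s * a⁻¹) * (a * t * a⁻¹))⁻¹ := h2
        _ = _ := by group
    have hz : s * t * s⁻¹ * t⁻¹ ∈ K.map (MulAut.conj a).toMonoidHom := by
      rw [e3]
      exact mul_mem (mul_mem (mul_mem (hmemK' t htK) (hmemK' s hsK)) (inv_mem (hmemK' t htK)))
        (inv_mem (hmemK' s hsK))
    exact (hcomm k hk _ hz).symm
  -- the image Sylow
  have hsurj : Function.Surjective (QuotientGroup.mk' (Subgroup.center ↥K)) :=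
    QuotientGroup.mk'_surjective _
  obtain ⟨g, hg⟩ := MulAction.exists_smul_eq (↥K ⧸ Subgroup.center ↥K) (Q.mapSurjective hsurj) P
  have hcommQ : ∀ u ∈ ((Q.mapSurjective hsurj : Sylow 2 (↥K ⧸ Subgroup.center ↥K)) :
      Subgroup (↥K ⧸ Subgroup.center ↥K)), ∀ v ∈ ((Q.mapSurjective hsurj :
      Sylow 2 (↥K ⧸ Subgroup.center ↥K)) : Subgroup (↥K ⧸ Subgroup.center ↥K)), u * v = v * u := by
    intro u hu' v hv'
    rw [Sylow.coe_mapSurjective] at hu' hv'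
    obtain ⟨s, hs, rfl⟩ := hu'
    obtain ⟨t, ht, rfl⟩ := hv'
    have hs' : s ∈ (Q : Subgroup ↥K) := hs
    have ht' : t ∈ (Q : Subgroup ↥K) := ht
    rw [hQ, Subgroup.mem_subgroupOf] at hs' ht'
    have hz : s * t * s⁻¹ * t⁻¹ ∈ Subgroup.center ↥K := by
      rw [Subgroup.mem_center_iff]
      intro k
      apply Subtype.ext
      have := key s hs' s.2 t ht' t.2 k k.2
      simpa using this.symm
    have h3 : (QuotientGroup.mk' (Subgroup.center ↥K)) (s * t * s⁻¹ * t⁻¹) = 1 := by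
      rw [QuotientGroup.mk'_apply, QuotientGroup.eq_one_iff]
      exact hz
    rw [map_mul, map_mul, map_mul, map_inv, map_inv] at h3
    calc _ = (QuotientGroup.mk' (Subgroup.center ↥K)) s * (QuotientGroup.mk' (Subgroup.center ↥K)) t *
          ((QuotientGroup.mk' (Subgroup.center ↥K)) s)⁻¹ * ((QuotientGroup.mk' (Subgroup.center ↥K)) t)⁻¹ *
          ((QuotientGroup.mk' (Subgroup.center ↥K)) t * (QuotientGroup.mk' (Subgroup.center ↥K)) s) := by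
            group
      _ = _ := by rw [h3, one_mul]
  refine ⟨⟨fun u v => ?_⟩⟩
  apply Subtype.ext
  have hg' : (P : Subgroup (↥K ⧸ Subgroup.center ↥K)) =
      MulAut.conj g • ((Q.mapSurjective hsurj : Sylow 2 _) : Subgroup (↥K ⧸ Subgroup.center ↥K)) := by
    rw [← hg]; rfl
  have hu' : (u : ↥K ⧸ Subgroup.center ↥K) ∈
      MulAut.conj g • ((Q.mapSurjective hsurj : Sylow 2 _) : Subgroup (↥K ⧸ Subgroup.center ↥K)) := by
    rw [← hg']; exact u.2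
  have hv' : (v : ↥K ⧸ Subgroup.center ↥K) ∈
      MulAut.conj g • ((Q.mapSurjective hsurj : Sylow 2 _) : Subgroup (↥K ⧸ Subgroup.center ↥K)) := by
    rw [← hg']; exact v.2
  obtain ⟨u0, hu0, hu1⟩ := hu'
  obtain ⟨v0, hv0, hv1⟩ := hv'
  have := hcommQ u0 hu0 v0 hv0
  simp only [Subgroup.coe_mul]
  rw [← hu1, ← hv1]
  simp only [MulDistribMulAction.toMonoidEnd_apply, MulDistribMulAction.toMonoidHom_apply]
  rw [← smul_mul', ← smul_mul', this]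

end Cfsg.Agent.S2925
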