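import Cfsg.Statements.S2939
import Mathlib

set_option autoImplicit false
open Cfsg

namespace Cfsg.Agent.S2939

section aux

variable {G : Type*} [Group G] {p : ℕ}

theorem mem_rc {g x : G} {X : Subgroup G} : x ∈ subgroupConjRight g X ↔ g * x * g⁻¹ ∈ X := by
  rw [subgroupConjRight, Subgroup.mem_map_equiv, MulAut.conj_symm_apply, inv_inv]

theorem rc_one (X : Subgroup G) : subgroupConjRight 1 X = X := by
  ext x; rw [mem_rc]; simp

theorem rc_mul (g h : G) (X : Subgroup G) :
    subgroupConjRight (g * h) X = subgroupConjRight h (subgroupConjRight g X) := by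
  ext x; rw [mem_rc, mem_rc, mem_rc]; simp [mul_assoc]

theorem rc_inf (g : G) (A B : Subgroup G) :
    subgroupConjRight g (A ⊓ B) = subgroupConjRight g A ⊓ subgroupConjRight g B := by
  ext x; rw [Subgroup.mem_inf, mem_rc, mem_rc, mem_rc, Subgroup.mem_inf]

theorem card_rc (g : G) (X : Subgroup G) : Nat.card (subgroupConjRight g X) = Nat.card X :=
  Subgroup.card_map_of_injective (MulAut.conj g⁻¹).injective

theorem rc_of_mem {x : G} {X : Subgroup G} (hx : x ∈ X) : subgroupConjRight x X = X := by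
  ext y
  rw [mem_rc]
  constructor
  · intro h
    have := X.mul_mem (X.mul_mem (X.inv_mem hx) h) hx
    have e : x⁻¹ * (x * y * x⁻¹) * x = y := by group
    rwa [e] at this
  · intro h
    exact X.mul_mem (X.mul_mem hx h) (X.inv_mem hx)

theorem rc_eq_iff_mem_normalizer {w : G} {S : Subgroup G} :
    subgroupConjRight w S = S ↔ w ∈ Subgroup.normalizer (S : Set G) := by
  rw [Subgroup.mem_normalizer_iff]
  constructor
  · intro h x
    rw [← mem_rc, h]
  · intro h
    ext x
    rw [mem_rc, ← h x]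

theorem mem_conjRight {g b : G} {A : Set G} : b ∈ conjRight g A ↔ g * b * g⁻¹ ∈ A := by
  unfold conjRight
  constructor
  · rintro ⟨a, ha, rfl⟩
    have e : g * (g⁻¹ * a * g) * g⁻¹ = a := by group
    rwa [e]
  · intro h
    exact ⟨_, h, by group⟩

theorem mem_sylowMembers_iff [Finite G] [Fact p.Prime] {𝓕 : Set (Subgroup G)} {S X : Subgroup G} :
    X ∈ sylowMembers p 𝓕 S ↔
      X ∈ 𝓕 ∧ Nat.card (S ⊓ X : Subgroup G) = p ^ (Nat.card X).factorization p := by
  unfold sylowMembers
  rw [Set.mem_setOf_eq]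
  refine and_congr_right fun _ => ?_
  constructor
  · rintro ⟨P, hP⟩
    rw [← hP, Subgroup.card_map_of_injective X.subtype_injective]
    exact P.card_eq_multiplicity
  · intro h
    refine ⟨Sylow.ofCard ((S ⊓ X).subgroupOf X) ?_, ?_⟩
    · rw [Nat.card_congr (Subgroup.subgroupOfEquivOfLe (inf_le_right : S ⊓ X ≤ X)).toEquiv]
      exact h
    · rw [Sylow.coe_ofCard]
      exact Subgroup.map_subgroupOf_eq_of_le inf_le_right

theorem sylowMembers_rc [Finite G] [Fact p.Prime] {𝓕 : Set (Subgroup G)} (h𝓕 : IsNormalSet 𝓕)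
    {S X : Subgroup G} (g : G) (h : X ∈ sylowMembers p 𝓕 S) :
    subgroupConjRight g X ∈ sylowMembers p 𝓕 (subgroupConjRight g S) := by
  rw [mem_sylowMembers_iff] at h ⊢
  exact ⟨h𝓕 X h.1 g, by rw [← rc_inf, card_rc, card_rc]; exact h.2⟩

/-- conjugate Sylow subgroup -/
noncomputable def sc [Finite G] [Fact p.Prime] (g : G) (S : Sylow p G) : Sylow p G :=
  Sylow.ofCard (subgroupConjRight g S) (by rw [card_rc]; exact S.card_eq_multiplicity)

theorem coe_sc [Finite G] [Fact p.Prime] (g : G) (S : Sylow p G) :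
    (sc g S : Subgroup G) = subgroupConjRight g S := Sylow.coe_ofCard _ _

theorem exists_sc [Finite G] [Fact p.Prime] (S T : Sylow p G) :
    ∃ g : G, (T : Subgroup G) = subgroupConjRight g⁻¹ S := by
  obtain ⟨g, hg⟩ := MulAction.exists_smul_eq G S T
  refine ⟨g, ?_⟩
  rw [← hg]
  ext x
  rw [mem_rc, Sylow.coe_subgroup_smul, Subgroup.mem_pointwise_smul_iff_inv_smul_mem]
  simp [MulAut.smul_def]

theorem forward [Finite G] [Fact p.Prime] (𝓕 : Set (Subgroup G)) (h𝓕 : IsNormalSet 𝓕)
    (hc : ControlsSylowIntersections p 𝓕) : FamilyStronglyControlsFusion p 𝓕 := by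
  rintro S A g hAS ⟨a, haA, ha1⟩ hAg
  have hAT : ∀ b ∈ A, b ∈ subgroupConjRight g⁻¹ (S : Subgroup G) := by
    intro b hb
    rw [mem_rc, inv_inv]
    exact hAg (mem_conjRight.2 (by
      have e : g * (g⁻¹ * b * g) * g⁻¹ = b := by group
      rwa [e]))
  by_cases hST : S = sc g⁻¹ S
  · have h1 : subgroupConjRight g⁻¹ (S : Subgroup G) = S := by
      have := congrArg (fun Q : Sylow p G => (Q : Subgroup G)) hST
      simp only [coe_sc] at this
      exact this.symm
    have h2 : g⁻¹ ∈ Subgroup.normalizer ((S : Subgroup G) : Set G) := rc_eq_iff_mem_normalizer.1 h1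
    refine ⟨0, Fin.elim0, Fin.elim0, g, by simpa using Subgroup.inv_mem _ h2,
      fun i => i.elim0, by simp, fun i => i.elim0⟩
  · have hne : (S : Subgroup G) ⊓ (sc g⁻¹ S : Subgroup G) ≠ ⊥ := by
      intro h
      have : a ∈ (S : Subgroup G) ⊓ (sc g⁻¹ S : Subgroup G) := by
        rw [coe_sc]
        exact ⟨hAS haA, hAT a haA⟩
      rw [h, Subgroup.mem_bot] at this
      exact ha1 this
    obtain ⟨n, c, X, x, hc0, hcn, hstep⟩ := hc S (sc g⁻¹ S) hST hne
    let x' : ℕ → G := fun k => if h : k < n then x ⟨k, h⟩ else 1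
    have hx' : ∀ i : Fin n, x' i = x i := by
      intro i
      simp [x']
    let u : ℕ → G := fun k => Nat.rec 1 (fun j r => x' j * r) k
    have hu0 : u 0 = 1 := rfl
    have hus : ∀ i : Fin n, u (i + 1) = x i * u i := by
      intro i
      rw [← hx' i]
    have claim1 : ∀ j : Fin (n + 1), subgroupConjRight (u j) (c j : Subgroup G) = S := by
      intro j
      induction j using Fin.induction with
      | zero => simp [hu0, rc_one, hc0]
      | succ i ih =>
        rw [Fin.val_succ, hus i, rc_mul, (hstep i).2.2.2.1]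
        exact ih
    let y : Fin n → G := fun i => (u i)⁻¹ * x i * u i
    have claim2 : ∀ k, k ≤ n → ((List.ofFn y).take k).prod = u k := by
      intro k
      induction k with
      | zero => intro _; simp [hu0]
      | succ k ih =>
        intro hk
        rw [List.prod_take_succ _ _ (by simpa using hk), ih (by omega), List.getElem_ofFn]
        have := hus ⟨k, hk⟩
        simp only at this
        rw [this]
        simp only [y]
        group
    have hprod : (List.ofFn y).prod = u n := by
      rw [← claim2 n le_rfl]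
      congr 1
      rw [List.take_of_length_le (by simp)]
    have hn := claim1 (Fin.last n)
    rw [hcn, coe_sc, ← rc_mul, Fin.val_last] at hn
    have hw := rc_eq_iff_mem_normalizer.1 hn
    refine ⟨n, fun i => subgroupConjRight (u i) (X i), y, (u n)⁻¹ * g, ?_, ?_, ?_, ?_⟩
    · have := Subgroup.inv_mem _ hw
      simpa using this
    · intro i
      refine ⟨?_, ?_⟩
      · have := sylowMembers_rc h𝓕 (u i) (hstep i).1
        have h2 := claim1 i.castSucc
        rw [Fin.val_castSucc] at h2
        rwa [h2] at this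
      · rw [mem_rc]
        have e : u i * y i * (u i)⁻¹ = x i := by simp only [y]; group
        rw [e]
        exact (hstep i).2.2.1
    · rw [hprod]; group
    · intro i b hb
      rw [claim2 _ i.2, hus i, mem_conjRight] at hb
      have hb2 : x i * u i * b * (x i * u i)⁻¹ ∈ (c i.succ : Subgroup G) ⊓ X i := by
        apply (hstep i).2.2.2.2
        rw [coe_sc]
        exact ⟨hAS hb, hAT _ hb⟩
      refine ⟨?_, ?_⟩
      · have h2 := claim1 i.succ
        rw [Fin.val_succ, hus i] at h2
        show b ∈ (S : Subgroup G)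
        rw [← h2, mem_rc]
        exact hb2.1
      · show b ∈ subgroupConjRight (u i) (X i)
        rw [mem_rc]
        have h3 := (X i).mul_mem ((X i).mul_mem ((X i).inv_mem (hstep i).2.2.1) hb2.2)
          (hstep i).2.2.1
        have e : (x i)⁻¹ * (x i * u i * b * (x i * u i)⁻¹) * x i = u i * b * (u i)⁻¹ := by group
        rwa [e] at h3

theorem backward [Finite G] [Fact p.Prime] (𝓕 : Set (Subgroup G)) (h𝓕 : IsNormalSet 𝓕)
    (hs : FamilyStronglyControlsFusion p 𝓕) : ControlsSylowIntersections p 𝓕 := by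
  intro S T hST hne
  obtain ⟨g, hg⟩ := exists_sc S T
  obtain ⟨a, ha, ha1⟩ : ∃ a ∈ (((S : Subgroup G) ⊓ T : Subgroup G) : Set G), a ≠ 1 := by
    by_contra hcon
    push Not at hcon
    exact hne ((Subgroup.eq_bot_iff_forall _).2 hcon)
  obtain ⟨n, Y, y, y₀, hy₀, hY, hgy, hA⟩ := hs S (((S : Subgroup G) ⊓ T : Subgroup G) : Set G) g
    (fun b hb => hb.1) ⟨a, ha, ha1⟩ (by
      intro b hb
      rw [mem_conjRight] at hb
      have h1 : g * b * g⁻¹ ∈ (T : Subgroup G) := hb.2
      rw [hg, mem_rc] at h1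
      have e : g⁻¹ * (g * b * g⁻¹) * g⁻¹⁻¹ = b := by group
      rwa [e] at h1)
  let u : ℕ → G := fun k => ((List.ofFn y).take k).prod
  have hu0 : u 0 = 1 := by simp [u]
  have hus : ∀ i : Fin n, u (i + 1) = u i * y i := by
    intro i
    simp only [u]
    rw [List.prod_take_succ _ _ (by simp), List.getElem_ofFn]
  have hun : u n = (List.ofFn y).prod := by
    simp only [u]
    rw [List.take_of_length_le (by simp)]
  have hXeq : ∀ i : Fin n, subgroupConjRight (u (i + 1))⁻¹ (Y i) = subgroupConjRight (u i)⁻¹ (Y i) := by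
    intro i
    rw [hus i, mul_inv_rev, rc_mul, rc_of_mem ((Y i).inv_mem (hY i).2)]
  refine ⟨n, fun j => sc (u j)⁻¹ S, fun i => subgroupConjRight (u i)⁻¹ (Y i),
    fun i => u i * y i * (u i)⁻¹, ?_, ?_, ?_⟩
  · apply Sylow.ext
    rw [coe_sc]
    simp [hu0, rc_one]
  · apply Sylow.ext
    rw [coe_sc, hg, Fin.val_last, hun, hgy, mul_inv_rev, rc_mul,
      rc_eq_iff_mem_normalizer.2 (Subgroup.inv_mem _ hy₀)]
  · intro i
    beta_reduce
    refine ⟨?_, ?_, ?_, ?_, ?_⟩
    · rw [coe_sc, Fin.val_castSucc]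
      exact sylowMembers_rc h𝓕 _ (hY i).1
    · rw [coe_sc, Fin.val_succ, ← hXeq i]
      exact sylowMembers_rc h𝓕 _ (hY i).1
    · rw [mem_rc]
      have e : (u i)⁻¹ * (u i * y i * (u i)⁻¹) * (u i)⁻¹⁻¹ = y i := by group
      rw [e]
      exact (hY i).2
    · rw [coe_sc, coe_sc, Fin.val_succ, Fin.val_castSucc, ← rc_mul, hus i]
      congr 1
      group
    · intro b hb
      have h1 := hA i (mem_conjRight.2 (by
        have e : ((List.ofFn y).take (i.val + 1)).prod *
          ((((List.ofFn y).take (i.val + 1)).prod)⁻¹ * b * ((List.ofFn y).take (i.val + 1)).prod) *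
          (((List.ofFn y).take (i.val + 1)).prod)⁻¹ = b := by group
        rw [e]
        exact hb))
      rw [coe_sc, Fin.val_succ, ← hXeq i, Subgroup.mem_inf]
      refine ⟨?_, ?_⟩
      · rw [mem_rc, inv_inv]
        exact h1.1
      · rw [mem_rc, inv_inv]
        exact h1.2

end aux


/-- Let p be a prime dividing the order of the finite group G and 𝓕 a family of subgroups of G closed under conjugation, with conjugates taken as X^g = g⁻¹Xg. Then 𝓕 controls Sylow p-intersections in G (any two distinct Sylow p-subgroups S and T with S ∩ T ≠ 1 are joined by a chain S = S₀, S₁, …, Sₙ = T of Sylow p-subgroups where, for each i, some member Xᵢ of 𝓕 meets both S_{i-1} and Sᵢ in Sylow p-subgroups of Xᵢ, satisfies S ∩ T ≤ Sᵢ ∩ Xᵢ, and contains an element xᵢ with Sᵢ^{xᵢ} = S_{i-1}) if and only if 𝓕 strongly controls p-fusion in G (whenever A is a subset of a Sylow p-subgroup S, A contains an element other than 1, and A^g ⊆ S, the element g factorises as g = y₁⋯yₙy with y ∈ N_G(S) and each yᵢ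 in a member Yᵢ of 𝓕 that meets S in a Sylow p-subgroup of Yᵢ, with A^{y₁⋯yᵢ} ⊆ S ∩ Yᵢ for each i). -/
theorem result {G : Type*} [Group G] [Finite G] {p : ℕ} [Fact p.Prime] (hdiv : p ∣ Nat.card G) (𝓕 : Set (Subgroup G)) (h𝓕 : Cfsg.IsNormalSet 𝓕) : Cfsg.ControlsSylowIntersections p 𝓕 ↔ Cfsg.FamilyStronglyControlsFusion p 𝓕 := by
  exact ⟨forward 𝓕 h𝓕, backward 𝓕 h𝓕⟩

end Cfsg.Agent.S2939
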