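import Cfsg.Statements.S2940
import Cfsg.Agent.H17.SylowLemmas

set_option autoImplicit false
open Cfsg

namespace Cfsg.Agent.S2940

/-- Let S be a Sylow p-subgroup of the finite group G and G₁, G₂ subgroups containing S with G = G₁G₂. Then for every g ∈ G there is a Sylow p-subgroup U of G with S ∩ S^g ≤ U ≤ G₁ ∩ G₂^g (conjugates taken as X^g = g⁻¹Xg). -/
theorem result {G : Type*} [Group G] [Finite G] {p : ℕ} [Fact p.Prime] (S : Sylow p G) (G₁ G₂ : Subgroup G) (h1 : (S : Subgroup G) ≤ G₁) (h2 : (S : Subgroup G) ≤ G₂) (hfact : ∀ g : G, ∃ g₁ ∈ G₁, ∃ g₂ ∈ G₂, g = g₁ * g₂) (g : G) : ∃ U : Sylow p G, (S : Subgroup G) ⊓ Cfsg.subgroupConjRight g (S : Subgroup G) ≤ (U : Subgroup G) ∧ (U : Subgroup G) ≤ G₁ ⊓ Cfsg.subgroupConjRight g G₂ := by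
  obtain ⟨g₁, hg₁, g₂, hg₂, hg⟩ := hfact g⁻¹
  have hg' : g = g₂⁻¹ * g₁⁻¹ := by
    rw [← inv_inv g, hg]; group
  have hP' : ((g₁ • S : Sylow p G) : Subgroup G) ≤ G₁ ⊓ Cfsg.subgroupConjRight g G₂ := by
    rw [H17.sylow_smul_coe]
    intro x hx
    rw [H17.mem_map_conj_iff] at hx
    refine Subgroup.mem_inf.mpr ⟨?_, ?_⟩
    · have := G₁.mul_mem (G₁.mul_mem hg₁ (h1 hx)) (G₁.inv_mem hg₁)
      simpa [mul_assoc] using this
    · unfold Cfsg.subgroupConjRight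
      rw [H17.mem_map_conj_iff]
      have := G₂.mul_mem (G₂.mul_mem (G₂.inv_mem hg₂) (h2 hx)) hg₂
      rw [hg']
      convert this using 1
      group
  obtain ⟨U, hU1, hU2⟩ := H17.exists_sylow_between (g₁ • S) hP'
    (A := (S : Subgroup G) ⊓ Cfsg.subgroupConjRight g (S : Subgroup G)) (S.2.to_inf_left)
    (inf_le_inf h1 (Subgroup.map_mono h2))
  exact ⟨U, hU1, hU2⟩

end Cfsg.Agent.S2940
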