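import Cfsg.Statements.S4401
import Mathlib
import Cfsg.Agent.S4400

set_option autoImplicit false
open Cfsg

namespace Cfsg.Agent.S4401

theorem mem_sup_comm {S : Type*} [Group S] {A B : Subgroup S}
    (hc : ∀ a ∈ A, ∀ b ∈ B, a * b = b * a) {x : S} (hx : x ∈ A ⊔ B) :
    ∃ a ∈ A, ∃ b ∈ B, a * b = x := by
  have h := MonoidHom.noncommCoprod_range A.subtype B.subtype (fun m n => hc m m.2 n n.2)
  rw [Subgroup.range_subtype, Subgroup.range_subtype] at h
  rw [← h] at hx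
  obtain ⟨⟨a, b⟩, rfl⟩ := hx
  exact ⟨a, a.2, b, b.2, rfl⟩

theorem card_sup_comm {S : Type*} [Group S] [Finite S] {A B : Subgroup S}
    (hc : ∀ a ∈ A, ∀ b ∈ B, a * b = b * a) (hd : A ⊓ B = ⊥) :
    Nat.card ↥(A ⊔ B) = Nat.card A * Nat.card B := by
  have h := MonoidHom.noncommCoprod_range A.subtype B.subtype (fun m n => hc m m.2 n n.2)
  rw [Subgroup.range_subtype, Subgroup.range_subtype] at h
  have hinj : Function.Injective
      (MonoidHom.noncommCoprod A.subtype B.subtype (fun m n => hc m m.2 n n.2)) :=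
    (MonoidHom.noncommCoprod_injective _ _ _).mpr ⟨A.subtype_injective, B.subtype_injective, by
      rw [Subgroup.range_subtype, Subgroup.range_subtype, disjoint_iff]; exact hd⟩
  rw [← h, ← Nat.card_prod]
  exact (Nat.card_congr (MonoidHom.ofInjective hinj).toEquiv).symm

theorem sect_sub {S : Type*} [Group S] {p k : ℕ} (h : Cfsg.SectionalPRankLE p k S)
    (T : Subgroup S) : Cfsg.SectionalPRankLE p k ↥T := by
  intro H N hN A hAc hAe
  let H' : Subgroup S := H.map T.subtype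
  let e : ↥H ≃* ↥H' := H.equivMapOfInjective T.subtype T.subtype_injective
  let N' : Subgroup ↥H' := N.map e.toMonoidHom
  haveI : N'.Normal := hN.map _ e.surjective
  let φ : (↥H ⧸ N) ≃* (↥H' ⧸ N') := QuotientGroup.congr N N' e rfl
  have h1 := h H' N' (A.map φ.toMonoidHom) ?_ ?_
  · have h5 : Nat.card (A.map φ.toMonoidHom) = Nat.card A :=
      Subgroup.card_map_of_injective (f := φ.toMonoidHom) φ.injective
    exact h5 ▸ h1
  · refine ⟨⟨fun a b => Subtype.ext ?_⟩⟩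
    obtain ⟨a', ha', hae⟩ := a.2
    obtain ⟨b', hb', hbe⟩ := b.2
    show (a : ↥H' ⧸ N') * (b : ↥H' ⧸ N') = (b : ↥H' ⧸ N') * (a : ↥H' ⧸ N')
    rw [← hae, ← hbe, ← map_mul, ← map_mul]
    exact congrArg _ (congrArg Subtype.val (hAc.is_comm.comm ⟨a', ha'⟩ ⟨b', hb'⟩))
  · rintro _ ⟨a', ha', rfl⟩
    rw [← map_pow, hAe a' ha', map_one]

theorem mem_center_map {G : Type*} [Group G] (P : Subgroup G) (x : G) :
    x ∈ (Subgroup.center ↥P).map P.subtype ↔ x ∈ P ∧ ∀ y ∈ P, y * x = x * y := by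
  constructor
  · rintro ⟨c, hc, rfl⟩
    exact ⟨c.2, fun y hy => congrArg Subtype.val (Subgroup.mem_center_iff.mp hc ⟨y, hy⟩)⟩
  · rintro ⟨hx, h⟩
    exact ⟨⟨x, hx⟩, Subgroup.mem_center_iff.mpr (fun g => Subtype.ext (h g g.2)), rfl⟩

theorem rel4400 {S : Type*} [Group S] [Finite S] (h2 : IsPGroup 2 S)
    (hr : Cfsg.SectionalPRankLE 2 4 S) (S₀ P Q : Subgroup S) (hPS : P ≤ S₀) (hQS : Q ≤ S₀)
    (hPn : ∀ s ∈ S₀, ∀ x ∈ P, s * x * s⁻¹ ∈ P) (hQn : ∀ s ∈ S₀, ∀ x ∈ Q, s * x * s⁻¹ ∈ Q)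
    (hP : ¬ IsMulCommutative ↥P) (hQ : ¬ IsMulCommutative ↥Q)
    (hZP : Nat.card ↥(Subgroup.center ↥P) = 2) (hZQ : Nat.card ↥(Subgroup.center ↥Q) = 2)
    (hne : (Subgroup.center ↥P).map P.subtype ≠ (Subgroup.center ↥Q).map Q.subtype) :
    (∀ x ∈ P, ∀ y ∈ Q, x * y = y * x) ∧ P ⊓ Q = ⊥ ∧
      ∀ c ∈ S₀, (∀ x ∈ P, x * c = c * x) → (∀ y ∈ Q, y * c = c * y) →
        ∃ a ∈ P, ∃ b ∈ Q, a * b = c := by
  haveI hPn' : (P.subgroupOf S₀).Normal := ⟨fun x hx g => by
    rw [Subgroup.mem_subgroupOf] at hx ⊢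
    exact hPn g g.2 x hx⟩
  haveI hQn' : (Q.subgroupOf S₀).Normal := ⟨fun x hx g => by
    rw [Subgroup.mem_subgroupOf] at hx ⊢
    exact hQn g g.2 x hx⟩
  have key : ∀ (R : Subgroup S) (hRS : R ≤ S₀), ¬ IsMulCommutative ↥R →
      Nat.card ↥(Subgroup.center ↥R) = 2 →
      ¬ IsMulCommutative ↥(R.subgroupOf S₀) ∧
      Nat.card ↥(Subgroup.center ↥(R.subgroupOf S₀)) = 2 := by
    intro R hRS hR hZR
    constructor
    · intro hc
      apply hR
      refine ⟨⟨fun a b => Subtype.ext ?_⟩⟩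
      have := hc.is_comm.comm ⟨⟨a.1, hRS a.2⟩, a.2⟩ ⟨⟨b.1, hRS b.2⟩, b.2⟩
      exact congrArg (fun t : ↥(R.subgroupOf S₀) => ((t : ↥S₀) : S)) this
    · rw [← hZR]
      exact Nat.card_congr (Subgroup.centerCongr (Subgroup.subgroupOfEquivOfLe hRS)).toEquiv
  have hmem : ∀ (R : Subgroup S) (hRS : R ≤ S₀) (x : ↥S₀),
      x ∈ (Subgroup.center ↥(R.subgroupOf S₀)).map (R.subgroupOf S₀).subtype ↔
      (x : S) ∈ (Subgroup.center ↥R).map R.subtype := by
    intro R hRS x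
    rw [mem_center_map, mem_center_map]
    constructor
    · rintro ⟨h1, h3⟩
      exact ⟨h1, fun y hy => congrArg Subtype.val (h3 ⟨y, hRS hy⟩ hy)⟩
    · rintro ⟨h1, h3⟩
      exact ⟨h1, fun y hy => Subtype.ext (h3 y hy)⟩
  have hne' : (Subgroup.center ↥(P.subgroupOf S₀)).map (P.subgroupOf S₀).subtype ≠
      (Subgroup.center ↥(Q.subgroupOf S₀)).map (Q.subgroupOf S₀).subtype := by
    intro h
    apply hne
    ext x
    constructor
    · intro hx
      have hxS : x ∈ S₀ := hPS ((mem_center_map P x).mp hx).1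
      have h3 := (hmem P hPS ⟨x, hxS⟩).mpr hx
      rw [h] at h3
      exact (hmem Q hQS ⟨x, hxS⟩).mp h3
    · intro hx
      have hxS : x ∈ S₀ := hQS ((mem_center_map Q x).mp hx).1
      have h3 := (hmem Q hQS ⟨x, hxS⟩).mpr hx
      rw [← h] at h3
      exact (hmem P hPS ⟨x, hxS⟩).mp h3
  obtain ⟨r1, r2, r3⟩ := Cfsg.Agent.S4400.result (h2.to_subgroup S₀) (sect_sub hr S₀)
    (P.subgroupOf S₀) (Q.subgroupOf S₀) (key P hPS hP hZP).1 (key Q hQS hQ hZQ).1
    (key P hPS hP hZP).2 (key Q hQS hQ hZQ).2 hne'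
  have c1 : ∀ x ∈ P, ∀ y ∈ Q, x * y = y * x := by
    intro x hx y hy
    have h3 := Subgroup.commutator_eq_bot_iff_le_centralizer.mp r1
      (show (⟨x, hPS hx⟩ : ↥S₀) ∈ P.subgroupOf S₀ from hx)
    have h4 := Subgroup.mem_centralizer_iff.mp h3 ⟨y, hQS hy⟩ hy
    exact (congrArg Subtype.val h4).symm
  refine ⟨c1, ?_, ?_⟩
  · rw [eq_bot_iff]
    intro x hx
    have h3 : (⟨x, hPS hx.1⟩ : ↥S₀) ∈ P.subgroupOf S₀ ⊓ Q.subgroupOf S₀ := ⟨hx.1, hx.2⟩
    rw [r2, Subgroup.mem_bot] at h3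
    exact congrArg Subtype.val h3
  · intro c hc hcP hcQ
    have h3 : (⟨c, hc⟩ : ↥S₀) ∈ Subgroup.centralizer
        ((P.subgroupOf S₀ ⊔ Q.subgroupOf S₀ : Subgroup ↥S₀) : Set ↥S₀) := by
      have h4 : P.subgroupOf S₀ ⊔ Q.subgroupOf S₀ ≤ Subgroup.centralizer {(⟨c, hc⟩ : ↥S₀)} := by
        refine sup_le ?_ ?_
        · intro x hx
          rw [Subgroup.mem_centralizer_singleton_iff]
          exact Subtype.ext (hcP x hx)
        · intro x hx
          rw [Subgroup.mem_centralizer_singleton_iff]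
          exact Subtype.ext (hcQ x hx)
      rw [Subgroup.mem_centralizer_iff]
      intro x hx
      exact (Subgroup.mem_centralizer_singleton_iff.mp (h4 hx))
    obtain ⟨a, ha, b, hb, hab⟩ := Subgroup.mem_sup_of_normal_right.mp (r3 h3)
    exact ⟨a, ha, b, hb, congrArg Subtype.val hab⟩

theorem conj_data {S : Type*} [Group S] [Finite S] (P : Subgroup S) (t : S)
    (hP : ¬ IsMulCommutative ↥P) (hZP : Nat.card ↥(Subgroup.center ↥P) = 2) :
    ¬ IsMulCommutative ↥(P.map (MulAut.conj t).toMonoidHom) ∧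
      Nat.card ↥(Subgroup.center ↥(P.map (MulAut.conj t).toMonoidHom)) = 2 := by
  let e : ↥P ≃* ↥(P.map (MulAut.conj t).toMonoidHom) :=
    P.equivMapOfInjective (MulAut.conj t).toMonoidHom (MulAut.conj t).injective
  constructor
  · intro hc
    apply hP
    exact ⟨⟨fun a b => e.injective (by rw [map_mul, map_mul]; exact hc.is_comm.comm _ _)⟩⟩
  · rw [← hZP]
    exact (Nat.card_congr (Subgroup.centerCongr e).toEquiv).symm

theorem zp2 {S : Type*} [Group S] {w x : S} (hw : w ^ 2 = 1) (hx : x ∈ Subgroup.zpowers w) :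
    x = 1 ∨ x = w := by
  obtain ⟨k, rfl⟩ := Subgroup.mem_zpowers_iff.mp hx
  have hw' : w ^ (2 : ℤ) = 1 := by exact_mod_cast hw
  rcases Int.even_or_odd' k with ⟨m, rfl | rfl⟩
  · left; rw [zpow_mul, hw', one_zpow]
  · right; rw [zpow_add, zpow_mul, hw', one_zpow, one_mul, zpow_one]

theorem mem_normalizer_of_conj_le {S : Type*} [Group S] [Finite S] (S₀ : Subgroup S) (v : S)
    (h : ∀ s ∈ S₀, v * s * v⁻¹ ∈ S₀) : v ∈ Subgroup.normalizer (S₀ : Set S) := by
  have hle : S₀.map (MulAut.conj v).toMonoidHom ≤ S₀ := by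
    rintro _ ⟨s, hs, rfl⟩
    exact h s hs
  have hmap : S₀.map (MulAut.conj v).toMonoidHom = S₀ :=
    Subgroup.eq_of_le_of_card_ge hle
      (by rw [Subgroup.card_map_of_injective (MulAut.conj v).injective])
  rw [Subgroup.mem_normalizer_iff]
  intro s
  constructor
  · exact h s
  · intro hs
    rw [← hmap] at hs
    obtain ⟨s', hs', he⟩ := hs
    have : s' = s := (MulAut.conj v).injective he
    exact this ▸ hs'

/-- two commuting disjoint copies of a section -/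
theorem rank_half {S : Type*} [Group S] [Finite S] (hr : Cfsg.SectionalPRankLE 2 4 S)
    (P : Subgroup S) (t : S)
    (hc : ∀ x ∈ P, ∀ y ∈ P.map (MulAut.conj t).toMonoidHom, x * y = y * x)
    (hd : P ⊓ P.map (MulAut.conj t).toMonoidHom = ⊥) : Cfsg.SectionalPRankLE 2 2 ↥P := by
  intro H N hN A hAc hAe
  let f : ↥H →* S := P.subtype.comp H.subtype
  have hf : Function.Injective f := P.subtype_injective.comp H.subtype_injective
  set ct : S →* S := (MulAut.conj t).toMonoidHom with hct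
  have hctinj : Function.Injective ct := (MulAut.conj t).injective
  set B0 : Subgroup ↥H := A.comap (QuotientGroup.mk' N) with hB0
  have hNB0 : N ≤ B0 := by
    intro n hn
    show (QuotientGroup.mk' N) n ∈ A
    have h1 : (QuotientGroup.mk' N) n = 1 := (QuotientGroup.eq_one_iff n).mpr hn
    rw [h1]
    exact A.one_mem
  set B : Subgroup S := B0.map f with hB
  set N' : Subgroup S := N.map f with hN'
  have hN'B : N' ≤ B := Subgroup.map_mono hNB0
  have hBP : B ≤ P := by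
    rintro _ ⟨h, _, rfl⟩
    exact (h : ↥P).2
  have hsq : ∀ b ∈ B, b ^ 2 ∈ N' := by
    rintro _ ⟨h, hh, rfl⟩
    refine ⟨h ^ 2, ?_, map_pow f h 2⟩
    have h1 := hAe _ hh
    rw [← map_pow] at h1
    exact (QuotientGroup.eq_one_iff _).mp h1
  have hcard : Nat.card B = Nat.card N' * Nat.card A := by
    rw [hB, hN', Subgroup.card_map_of_injective hf, Subgroup.card_map_of_injective hf]
    have h1 : N.relIndex B0 = Nat.card A := by
      have h2 : N = (⊥ : Subgroup (↥H ⧸ N)).comap (QuotientGroup.mk' N) := by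
        rw [MonoidHom.comap_bot, QuotientGroup.ker_mk']
      conv_lhs => rw [h2]
      rw [Subgroup.relIndex_comap, hB0,
        Subgroup.map_comap_eq_self_of_surjective (QuotientGroup.mk'_surjective N),
        Subgroup.relIndex_bot_left]
    have h3 := Subgroup.relIndex_mul_relIndex (⊥ : Subgroup ↥H) N B0 bot_le hNB0
    rw [Subgroup.relIndex_bot_left, Subgroup.relIndex_bot_left, h1] at h3
    exact h3.symm
  set Bt : Subgroup S := B.map ct with hBt
  set Nt : Subgroup S := N'.map ct with hNt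
  have hBtP : Bt ≤ P.map ct := Subgroup.map_mono hBP
  have hNtBt : Nt ≤ Bt := Subgroup.map_mono hN'B
  have hcB : ∀ a ∈ B, ∀ b ∈ Bt, a * b = b * a := fun a ha b hb => hc a (hBP ha) b (hBtP hb)
  have hdB : B ⊓ Bt = ⊥ := by
    rw [eq_bot_iff, ← hd]; exact inf_le_inf hBP hBtP
  have hcN : ∀ a ∈ N', ∀ b ∈ Nt, a * b = b * a := fun a ha b hb =>
    hcB a (hN'B ha) b (hNtBt hb)
  have hdN : N' ⊓ Nt = ⊥ := by
    rw [eq_bot_iff, ← hdB]; exact inf_le_inf hN'B hNtBt
  have k1 := card_sup_comm hcB hdB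
  have k2 := card_sup_comm hcN hdN
  rw [hBt, Subgroup.card_map_of_injective hctinj, ← hBt] at k1
  rw [hNt, Subgroup.card_map_of_injective hctinj, ← hNt] at k2
  set BB : Subgroup S := B ⊔ Bt with hBB
  set NN : Subgroup S := N' ⊔ Nt with hNN
  have hNNBB : NN ≤ BB := sup_le_sup hN'B hNtBt
  have hsqBB : ∀ x ∈ BB, x ^ 2 ∈ NN := by
    intro x hx
    obtain ⟨b, hb, c, hcc, rfl⟩ := mem_sup_comm hcB hx
    rw [(show Commute b c from hcB b hb c hcc).mul_pow]
    refine Subgroup.mul_mem_sup (hsq b hb) ?_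
    obtain ⟨b', hb', rfl⟩ := hcc
    exact ⟨b' ^ 2, hsq b' hb', map_pow ct b' 2⟩
  haveI hnorm : (NN.subgroupOf BB).Normal := ⟨fun n hn x => by
    rw [Subgroup.mem_subgroupOf] at hn ⊢
    have e1 : ((x * n * x⁻¹ : ↥BB) : S) =
        ((x : S) * n) ^ 2 * (n : S)⁻¹ * ((x : S)⁻¹) ^ 2 := by
      push_cast
      rw [sq, sq]
      group
    rw [e1]
    exact NN.mul_mem (NN.mul_mem (hsqBB _ (BB.mul_mem x.2 n.2)) (NN.inv_mem hn))
      (hsqBB _ (BB.inv_mem x.2))⟩
  have hexp : ∀ a : ↥BB ⧸ NN.subgroupOf BB, a ^ 2 = 1 := by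
    intro a
    obtain ⟨h, rfl⟩ := QuotientGroup.mk_surjective a
    rw [← QuotientGroup.mk_pow, QuotientGroup.eq_one_iff, Subgroup.mem_subgroupOf]
    exact hsqBB h h.2
  have hab : ∀ a b : ↥BB ⧸ NN.subgroupOf BB, a * b = b * a := by
    intro a b
    have hba := hexp (b * a)
    have ha := hexp a
    have hb := hexp b
    rw [sq] at hba ha hb
    calc a * b = (b * b) * (a * b) * (a * a) := by rw [ha, hb]; simp
      _ = b * ((b * a) * (b * a)) * a := by group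
      _ = b * a := by rw [hba]; simp
  have hle := hr BB (NN.subgroupOf BB) ⊤ ⟨⟨fun a b => Subtype.ext (hab a b)⟩⟩ (fun a _ => hexp a)
  rw [Subgroup.card_top] at hle
  have hle' : NN.relIndex BB ≤ 2 ^ 4 := hle
  have c1 := Subgroup.relIndex_mul_relIndex (⊥ : Subgroup S) NN BB bot_le hNNBB
  rw [Subgroup.relIndex_bot_left, Subgroup.relIndex_bot_left, k1, k2, hcard] at c1
  have n0 : 0 < Nat.card N' := Nat.card_pos
  generalize Nat.card N' = n at *
  generalize Nat.card A = a at *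
  generalize NN.relIndex BB = r at *
  have e : (n * n) * r = (n * n) * (a * a) := by rw [c1]; ring
  have e' := Nat.eq_of_mul_eq_mul_left (Nat.mul_pos n0 n0) e
  by_contra hcon
  push Not at hcon
  have : 5 * 5 ≤ a * a := Nat.mul_le_mul (by omega) (by omega)
  omega


/-- Let S be a finite 2-group of sectional 2-rank at most 4 and P a proper non-abelian subgroup whose centre has order 2. Let S₀ be the centralizer in S of Z(P) and suppose P is normal in S₀. Then either S₀ = S, or P has sectional 2-rank at most 2 and S₀ has index 2 in S. -/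
theorem result {S : Type*} [Group S] [Finite S] (h2 : IsPGroup 2 S) (hr : Cfsg.SectionalPRankLE 2 4 S)
    (P : Subgroup S) (hPlt : P ≠ ⊤) (hP : ¬ IsMulCommutative ↥P) (hZP : Nat.card ↥(Subgroup.center ↥P) = 2)
    (S₀ : Subgroup S) (hS₀ : S₀ = Subgroup.centralizer (((Subgroup.center ↥P).map P.subtype : Subgroup S) : Set S))
    (hPn : ∀ s ∈ S₀, ∀ x ∈ P, s * x * s⁻¹ ∈ P) :
    S₀ = ⊤ ∨ (Cfsg.SectionalPRankLE 2 2 ↥P ∧ S₀.index = 2) := by
  classical
  haveI : Fact (Nat.Prime 2) := ⟨Nat.prime_two⟩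
  by_cases hS₀top : S₀ = ⊤
  · exact Or.inl hS₀top
  right
  haveI : Nontrivial (Subgroup.center ↥P) :=
    Finite.one_lt_card_iff_nontrivial.mp (by rw [hZP]; norm_num)
  obtain ⟨⟨z0, hz0c⟩, hz0⟩ := exists_ne (1 : Subgroup.center ↥P)
  obtain ⟨z, hzP⟩ := z0
  have hz1 : z ≠ 1 := fun h => hz0 (Subtype.ext (Subtype.ext h))
  have hzc : ∀ x ∈ P, x * z = z * x := fun x hx =>
    congrArg Subtype.val (Subgroup.mem_center_iff.mp hz0c ⟨x, hx⟩)
  have hZPeq : (Subgroup.center ↥P).map P.subtype = Subgroup.zpowers z :=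
    Cfsg.Agent.S4400.center_map_eq P hZP z hzP hz1 hzc
  have hmem : ∀ s : S, s ∈ S₀ ↔ s * z = z * s := by
    intro s
    rw [hS₀, hZPeq, Subgroup.mem_centralizer_iff]
    constructor
    · intro h; exact (h z (Subgroup.mem_zpowers z)).symm
    · intro h g hg
      obtain ⟨k, rfl⟩ := Subgroup.mem_zpowers_iff.mp hg
      exact ((show Commute s z from h).zpow_right k).eq.symm
  have hPS : P ≤ S₀ := fun x hx => (hmem x).mpr (hzc x hx)
  have hzS₀ : z ∈ S₀ := hPS hzP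
  have hz2 : z ^ 2 = 1 := by
    have h1 : Nat.card (Subgroup.zpowers z) = 2 := by
      rw [← hZPeq, Subgroup.card_map_of_injective P.subtype_injective, hZP]
    rw [Nat.card_zpowers] at h1
    rw [← h1]; exact pow_orderOf_eq_one z
  set T : Subgroup S := Subgroup.normalizer (S₀ : Set S) with hT
  have hS₀T : S₀ ≤ T := Subgroup.le_normalizer
  have hTc : ∀ t ∈ T, ∀ s ∈ S₀, t * s * t⁻¹ ∈ S₀ := fun t ht s hs =>
    (Subgroup.mem_normalizer_iff.mp ht s).mp hs
  have hTc' : ∀ t ∈ T, ∀ s ∈ S₀, t⁻¹ * s * t ∈ S₀ := fun t ht s hs => by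
    have := hTc t⁻¹ (inv_mem ht) s hs
    simpa using this
  have hTc'' : ∀ t ∈ T, ∀ s : S, t * s * t⁻¹ ∈ S₀ → s ∈ S₀ := fun t ht s hs =>
    (Subgroup.mem_normalizer_iff.mp ht s).mpr hs
  -- the conjugate involutions are centralized by S₀
  have hzt : ∀ t ∈ T, ∀ s ∈ S₀, s * (t * z * t⁻¹) = (t * z * t⁻¹) * s := by
    intro t ht s hs
    have h1 := (hmem _).mp (hTc' t ht s hs)
    calc s * (t * z * t⁻¹) = t * ((t⁻¹ * s * t) * z) * t⁻¹ := by group
      _ = t * (z * (t⁻¹ * s * t)) * t⁻¹ := by rw [h1]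
      _ = (t * z * t⁻¹) * s := by group
  have hPtS : ∀ t ∈ T, P.map (MulAut.conj t).toMonoidHom ≤ S₀ := by
    rintro t ht _ ⟨x, hx, rfl⟩
    exact hTc t ht x (hPS hx)
  have hPtn : ∀ t ∈ T, ∀ s ∈ S₀, ∀ x ∈ P.map (MulAut.conj t).toMonoidHom,
      s * x * s⁻¹ ∈ P.map (MulAut.conj t).toMonoidHom := by
    rintro t ht s hs _ ⟨x, hx, rfl⟩
    refine ⟨(t⁻¹ * s * t) * x * (t⁻¹ * s * t)⁻¹, hPn _ (hTc' t ht s hs) x hx, ?_⟩
    show t * ((t⁻¹ * s * t) * x * (t⁻¹ * s * t)⁻¹) * t⁻¹ = s * (t * x * t⁻¹) * s⁻¹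
    group
  have hZPt : ∀ t : S, (Subgroup.center ↥(P.map (MulAut.conj t).toMonoidHom)).map
      (P.map (MulAut.conj t).toMonoidHom).subtype = Subgroup.zpowers (t * z * t⁻¹) := by
    intro t
    apply Cfsg.Agent.S4400.center_map_eq _ (conj_data P t hP hZP).2
    · exact ⟨z, hzP, rfl⟩
    · intro h
      apply hz1
      have : z = t⁻¹ * (t * z * t⁻¹) * t := by group
      rw [this, h]; group
    · rintro _ ⟨x, hx, rfl⟩
      show t * x * t⁻¹ * (t * z * t⁻¹) = t * z * t⁻¹ * (t * x * t⁻¹)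
      calc t * x * t⁻¹ * (t * z * t⁻¹) = t * (x * z) * t⁻¹ := by group
        _ = t * (z * x) * t⁻¹ := by rw [hzc x hx]
        _ = t * z * t⁻¹ * (t * x * t⁻¹) := by group
  have hzt2 : ∀ t : S, (t * z * t⁻¹) ^ 2 = 1 := by
    intro t
    rw [conj_pow, hz2]; group
  have F1 : ∀ t ∈ T, t ∉ S₀ →
      (∀ x ∈ P, ∀ y ∈ P.map (MulAut.conj t).toMonoidHom, x * y = y * x) ∧
      P ⊓ P.map (MulAut.conj t).toMonoidHom = ⊥ ∧
      ∀ c ∈ S₀, (∀ x ∈ P, x * c = c * x) →
        (∀ y ∈ P.map (MulAut.conj t).toMonoidHom, y * c = c * y) →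
        ∃ a ∈ P, ∃ b ∈ P.map (MulAut.conj t).toMonoidHom, a * b = c := by
    intro t ht htS
    apply rel4400 h2 hr S₀ P _ hPS (hPtS t ht) hPn (hPtn t ht) hP (conj_data P t hP hZP).1 hZP
      (conj_data P t hP hZP).2
    rw [hZPeq, hZPt t]
    intro h
    have h1 : t * z * t⁻¹ ∈ Subgroup.zpowers z := by rw [h]; exact Subgroup.mem_zpowers _
    rcases zp2 hz2 h1 with h3 | h3
    · apply hz1
      have : z = t⁻¹ * (t * z * t⁻¹) * t := by group
      rw [this, h3]; group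
    · apply htS
      rw [hmem]
      calc t * z = (t * z * t⁻¹) * t := by group
        _ = z * t := by rw [h3]
  have F2 : ∀ t ∈ T, t ∉ S₀ → ∀ c ∈ S₀, (∀ x ∈ P, x * c = c * x) →
      (∀ y ∈ P.map (MulAut.conj t).toMonoidHom, y * c = c * y) →
      c = 1 ∨ c = z ∨ c = t * z * t⁻¹ ∨ c = z * (t * z * t⁻¹) := by
    intro t ht htS c hc hcP hcQ
    obtain ⟨f1, f2, f3⟩ := F1 t ht htS
    obtain ⟨a, ha, b, hb, hab⟩ := f3 c hc hcP hcQ
    have ha' : a ∈ Subgroup.zpowers z := by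
      rw [← hZPeq, mem_center_map]
      refine ⟨ha, fun u hu => ?_⟩
      have e1 : Commute u c := hcP u hu
      have e2 : Commute u b := f1 u hu b hb
      have e3 : a = c * b⁻¹ := by rw [← hab]; group
      rw [e3]
      exact (e1.mul_right e2.inv_right).eq
    have hb' : b ∈ Subgroup.zpowers (t * z * t⁻¹) := by
      rw [← hZPt t, mem_center_map]
      refine ⟨hb, fun v hv => ?_⟩
      have e1 : Commute v c := hcQ v hv
      have e2 : Commute v a := (f1 a ha v hv).symm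
      have e3 : b = a⁻¹ * c := by rw [← hab]; group
      rw [e3]
      exact (e2.inv_right.mul_right e1).eq
    rcases zp2 hz2 ha' with rfl | rfl <;> rcases zp2 (hzt2 t) hb' with rfl | rfl
    · left; rw [← hab]; group
    · right; right; left; rw [← hab]; group
    · right; left; rw [← hab]; group
    · right; right; right; exact hab.symm
  -- an element of T outside S₀ with square in S₀
  haveI := h2.isNilpotent
  have hlt : S₀ < T := Group.normalizerCondition_of_isNilpotent S₀ (lt_top_iff_ne_top.mpr hS₀top)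
  obtain ⟨t0, ht0T, ht0S⟩ := SetLike.exists_of_lt hlt
  obtain ⟨t, htT, htS, ht2⟩ : ∃ t ∈ T, t ∉ S₀ ∧ t ^ 2 ∈ S₀ := by
    obtain ⟨k, hk⟩ := h2 t0
    have hex : ∃ j, t0 ^ 2 ^ j ∈ S₀ := ⟨k, by rw [hk]; exact S₀.one_mem⟩
    have hj0 : Nat.find hex ≠ 0 := by
      intro h
      have := Nat.find_spec hex
      rw [h] at this
      simp at this
      exact ht0S this
    obtain ⟨j, hj⟩ := Nat.exists_eq_succ_of_ne_zero hj0
    refine ⟨t0 ^ 2 ^ j, Subgroup.pow_mem _ ht0T _, Nat.find_min hex (by omega), ?_⟩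
    have := Nat.find_spec hex
    rw [hj, Nat.succ_eq_add_one, pow_succ, pow_mul] at this
    exact this
  refine ⟨rank_half hr P t (F1 t htT htS).1 (F1 t htT htS).2.1, ?_⟩
  have B2 : ∀ t' ∈ T, t' ∉ S₀ → t⁻¹ * t' ∈ S₀ := by
    intro t' ht'T ht'S
    have hcS : t' * z * t'⁻¹ ∈ S₀ := hTc t' ht'T z hzS₀
    have hcc := hzt t' ht'T
    rcases F2 t htT htS _ hcS (fun x hx => hcc x (hPS hx))
      (fun y hy => hcc y (hPtS t htT hy)) with h | h | h | h
    · exfalso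
      apply hz1
      have : z = t'⁻¹ * (t' * z * t'⁻¹) * t' := by group
      rw [this, h]; group
    · exfalso
      apply ht'S
      rw [hmem]
      calc t' * z = (t' * z * t'⁻¹) * t' := by group
        _ = z * t' := by rw [h]
    · rw [hmem]
      calc t⁻¹ * t' * z = t⁻¹ * (t' * z * t'⁻¹) * t' := by group
        _ = t⁻¹ * (t * z * t⁻¹) * t' := by rw [h]
        _ = z * (t⁻¹ * t') := by group
    · exfalso
      have e1 : t * (z * (t * z * t⁻¹)) * t⁻¹ = z * (t * z * t⁻¹) := by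
        have e2 : t ^ 2 * z = z * t ^ 2 := (hmem _).mp ht2
        have e3 : z * (t * z * t⁻¹) = (t * z * t⁻¹) * z := hzt t htT z hzS₀
        calc t * (z * (t * z * t⁻¹)) * t⁻¹ = (t * z * t⁻¹) * ((t ^ 2 * z) * (t ^ 2)⁻¹) := by group
          _ = (t * z * t⁻¹) * ((z * t ^ 2) * (t ^ 2)⁻¹) := by rw [e2]
          _ = (t * z * t⁻¹) * z := by group
          _ = z * (t * z * t⁻¹) := e3.symm
      rw [← h] at e1
      apply htS
      apply hTc'' t'⁻¹ (inv_mem ht'T)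
      rw [hmem]
      calc t'⁻¹ * t * t'⁻¹⁻¹ * z = t'⁻¹ * (t * (t' * z * t'⁻¹) * t⁻¹) * t * t' := by group
        _ = t'⁻¹ * (t' * z * t'⁻¹) * t * t' := by rw [e1]
        _ = z * (t'⁻¹ * t * t'⁻¹⁻¹) := by group
  have B2' : ∀ a ∈ T, a ∉ S₀ → ∀ b ∈ T, b ∉ S₀ → a⁻¹ * b ∈ S₀ := by
    intro a ha ha' b hb hb'
    have h1 := B2 a ha ha'
    have h3 := B2 b hb hb'
    have : a⁻¹ * b = (t⁻¹ * a)⁻¹ * (t⁻¹ * b) := by group
    rw [this]; exact mul_mem (inv_mem h1) h3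
  have hTtop : T = ⊤ := by
    by_contra hTne
    have hlt2 : T < Subgroup.normalizer (T : Set S) :=
      Group.normalizerCondition_of_isNilpotent T (lt_top_iff_ne_top.mpr hTne)
    obtain ⟨u, huN, huT⟩ := SetLike.exists_of_lt hlt2
    have huc : ∀ s ∈ T, u * s * u⁻¹ ∈ T := fun s hs =>
      (Subgroup.mem_normalizer_iff.mp huN s).mp hs
    have huc' : ∀ s ∈ T, u⁻¹ * s * u ∈ T := fun s hs => by
      have := (Subgroup.mem_normalizer_iff.mp (inv_mem huN) s).mp hs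
      simpa using this
    obtain ⟨z₁, hz₁⟩ : ∃ z₁ : S, z₁ = u * z * u⁻¹ := ⟨_, rfl⟩
    have hC1 : ∀ s : S, s * z₁ = z₁ * s ↔ u⁻¹ * s * u ∈ S₀ := by
      intro s
      rw [hmem]
      constructor
      · intro h
        calc u⁻¹ * s * u * z = u⁻¹ * (s * z₁) * u := by rw [hz₁]; group
          _ = u⁻¹ * (z₁ * s) * u := by rw [h]
          _ = z * (u⁻¹ * s * u) := by rw [hz₁]; group
      · intro h
        calc s * z₁ = u * ((u⁻¹ * s * u) * z) * u⁻¹ := by rw [hz₁]; group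
          _ = u * (z * (u⁻¹ * s * u)) * u⁻¹ := by rw [h]
          _ = z₁ * s := by rw [hz₁]; group
    have hC1T : ∀ s : S, s * z₁ = z₁ * s → s ∈ T := by
      intro s hs
      have h1 := huc _ (hS₀T ((hC1 s).mp hs))
      have : u * (u⁻¹ * s * u) * u⁻¹ = s := by group
      rwa [this] at h1
    have hC1' : ∀ a ∈ T, a * z₁ ≠ z₁ * a → ∀ b ∈ T, b * z₁ ≠ z₁ * b →
        (a⁻¹ * b) * z₁ = z₁ * (a⁻¹ * b) := by
      intro a ha ha' b hb hb'
      rw [hC1]
      have h1 := B2' _ (huc' a ha) (fun h => ha' ((hC1 a).mpr h)) _ (huc' b hb)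
        (fun h => hb' ((hC1 b).mpr h))
      have : u⁻¹ * (a⁻¹ * b) * u = (u⁻¹ * a * u)⁻¹ * (u⁻¹ * b * u) := by group
      rw [this]; exact h1
    obtain ⟨t₁, ht₁C, ht₁S⟩ : ∃ t₁ : S, t₁ * z₁ = z₁ * t₁ ∧ t₁ ∉ S₀ := by
      by_contra hcon
      push Not at hcon
      apply huT
      apply mem_normalizer_of_conj_le
      intro s hs
      apply hcon
      rw [hC1]
      have : u⁻¹ * (u * s * u⁻¹) * u = s := by group
      rw [this]; exact hs
    have ht₁T : t₁ ∈ T := hC1T t₁ ht₁C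
    have hz₁T : z₁ ∈ T := hC1T z₁ rfl
    have hz₁S : z₁ ∈ S₀ := by
      by_contra hz₁S
      obtain ⟨_, g2, _⟩ := F1 z₁ hz₁T hz₁S
      have h1 : ∀ x ∈ P, x * z₁ = z₁ * x → x = 1 := by
        intro x hx hxc
        have h3 : x ∈ P ⊓ P.map (MulAut.conj z₁).toMonoidHom := by
          refine Subgroup.mem_inf.mpr ⟨hx, x, hx, ?_⟩
          show z₁ * x * z₁⁻¹ = x
          rw [← hxc]; group
        rw [g2] at h3
        exact h3
      apply hP
      refine ⟨⟨fun a b => ?_⟩⟩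
      by_cases ha : a = 1
      · rw [ha]; simp
      by_cases hb : b = 1
      · rw [hb]; simp
      have ha' : (a : S) * z₁ ≠ z₁ * a := fun h => ha (Subtype.ext (h1 a a.2 h))
      have hb' : (b : S) * z₁ ≠ z₁ * b := fun h => hb (Subtype.ext (h1 b b.2 h))
      have h3 := hC1' a (hS₀T (hPS a.2)) ha' b (hS₀T (hPS b.2)) hb'
      have h4 := h1 _ (P.mul_mem (P.inv_mem a.2) b.2) h3
      have h5 : (a : S) = b := inv_mul_eq_one.mp h4
      rw [Subtype.ext h5]
    obtain ⟨g1, g2, g3⟩ := F1 t₁ ht₁T ht₁S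
    have hcP : ∀ x ∈ P, x * z₁ = z₁ * x := by
      intro x hx
      by_contra hxc
      obtain ⟨y, hy⟩ : ∃ y : S, y = t₁ * x * t₁⁻¹ := ⟨_, rfl⟩
      have hyQ : y ∈ P.map (MulAut.conj t₁).toMonoidHom := ⟨x, hx, hy.symm⟩
      have hyc : y * z₁ ≠ z₁ * y := by
        intro h
        apply hxc
        have e1 : Commute y z₁ := h
        have e2 : Commute t₁ z₁ := ht₁C
        have e3 : x = t₁⁻¹ * y * t₁ := by rw [hy]; group
        rw [e3]
        exact ((e2.inv_left.mul_left e1).mul_left e2).eq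
      have h3 := hC1' x (hS₀T (hPS hx)) hxc y (hS₀T (hPtS t₁ ht₁T hyQ)) hyc
      have ha : x * (z₁ * x⁻¹ * z₁⁻¹) ∈ P := P.mul_mem hx (hPn z₁ hz₁S _ (P.inv_mem hx))
      have hb : y * (z₁ * y⁻¹ * z₁⁻¹) ∈ P.map (MulAut.conj t₁).toMonoidHom :=
        mul_mem hyQ (hPtn t₁ ht₁T z₁ hz₁S _ (inv_mem hyQ))
      have hab : x * (z₁ * x⁻¹ * z₁⁻¹) = y * (z₁ * y⁻¹ * z₁⁻¹) := by
        have e : z₁ * x⁻¹ = x⁻¹ * y * z₁ * y⁻¹ := by rw [h3]; group
        calc x * (z₁ * x⁻¹ * z₁⁻¹) = x * ((z₁ * x⁻¹) * z₁⁻¹) := by group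
          _ = x * ((x⁻¹ * y * z₁ * y⁻¹) * z₁⁻¹) := by rw [e]
          _ = y * (z₁ * y⁻¹ * z₁⁻¹) := by group
      have h4 : x * (z₁ * x⁻¹ * z₁⁻¹) ∈ P ⊓ P.map (MulAut.conj t₁).toMonoidHom :=
        Subgroup.mem_inf.mpr ⟨ha, hab ▸ hb⟩
      rw [g2] at h4
      have h5 : x * (z₁ * x⁻¹ * z₁⁻¹) = 1 := h4
      apply hxc
      calc x * z₁ = (x * (z₁ * x⁻¹ * z₁⁻¹)) * z₁ * x := by group
        _ = z₁ * x := by rw [h5]; group
    have hcQ : ∀ y ∈ P.map (MulAut.conj t₁).toMonoidHom, y * z₁ = z₁ * y := by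
      rintro _ ⟨x, hx, rfl⟩
      have e1 : Commute x z₁ := hcP x hx
      have e2 : Commute t₁ z₁ := ht₁C
      exact ((e2.mul_left e1).mul_left e2.inv_left).eq
    have hall : ∀ s ∈ S₀, s * z₁ = z₁ * s := by
      intro s hs
      have k1 : Commute s z := (hmem s).mp hs
      have k2 : Commute s (t₁ * z * t₁⁻¹) := hzt t₁ ht₁T s hs
      rcases F2 t₁ ht₁T ht₁S z₁ hz₁S hcP hcQ with h | h | h | h
      · rw [h]; simp
      · rw [h]; exact k1.eq
      · rw [h]; exact k2.eq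
      · rw [h]; exact (k1.mul_right k2).eq
    apply huT
    have hui : u⁻¹ ∈ T := by
      apply mem_normalizer_of_conj_le
      intro s hs
      have := (hC1 s).mp (hall s hs)
      simpa using this
    simpa using inv_mem hui
  rw [Subgroup.index_eq_two_iff]
  refine ⟨t, fun b => ?_⟩
  have hbT : ∀ b : S, b ∈ T := fun b => by rw [hTtop]; trivial
  by_cases hb : b ∈ S₀
  · right
    exact ⟨hb, fun h => htS (by
      have := S₀.mul_mem (S₀.inv_mem hb) h
      simpa using this)⟩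
  · left
    refine ⟨?_, hb⟩
    have := B2' b⁻¹ (hbT _) (fun h => hb (by simpa using S₀.inv_mem h)) t htT htS
    simpa using this

end Cfsg.Agent.S4401
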