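import Cfsg.Statements.S2947
import Mathlib
import Cfsg.Agent.H17.Basic
import Cfsg.Agent.S4401

set_option autoImplicit false
open Cfsg

namespace Cfsg.Agent.S2947

theorem two_dvd_card {G : Type*} [Group G] [Finite G] {D : Subgroup G} (h2 : IsPGroup 2 D)
    (h1 : D ≠ ⊥) : 2 ∣ Nat.card D := by
  obtain ⟨k, hk⟩ := h2.exists_card_eq
  rw [hk]
  apply dvd_pow_self
  rintro rfl
  rw [pow_zero] at hk
  exact h1 (Subgroup.eq_bot_of_card_eq D hk)

theorem le_of_inf_ne_bot {G : Type*} [Group G] [Finite G] {M : Subgroup G}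
    (hN : ∀ D : Subgroup G, D ≤ M → IsPGroup 2 D → D ≠ ⊥ → Subgroup.normalizer (D : Set G) ≤ M)
    (P : Subgroup G) (hP : IsPGroup 2 P) (hPM : P ⊓ M ≠ ⊥) : P ≤ M := by
  haveI : Fact (Nat.Prime 2) := ⟨Nat.prime_two⟩
  by_contra hnot
  have hlt : (P ⊓ M).subgroupOf P < ⊤ := lt_top_iff_ne_top.mpr (fun h => hnot (by
    rw [Subgroup.subgroupOf_eq_top] at h
    exact h.trans inf_le_right))
  haveI : Group.IsNilpotent P := hP.isNilpotent
  obtain ⟨x, hxN, hxD⟩ := SetLike.exists_of_lt (Group.normalizerCondition_of_isNilpotent _ hlt)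
  have hx : (x : G) ∈ Subgroup.normalizer ((P ⊓ M : Subgroup G) : Set G) := by
    rw [Subgroup.mem_normalizer_iff]
    intro d
    constructor
    · intro hd
      exact (Subgroup.mem_normalizer_iff.mp hxN ⟨d, hd.1⟩).mp hd
    · intro hd
      have hdP : d ∈ P := by
        have e : d = (x : G)⁻¹ * ((x : G) * d * (x : G)⁻¹) * (x : G) := by group
        rw [e]
        exact mul_mem (mul_mem (inv_mem x.2) hd.1) x.2
      exact (Subgroup.mem_normalizer_iff.mp hxN ⟨d, hdP⟩).mpr hd
  have hxM := hN _ inf_le_right (hP.to_le inf_le_left) hPM hx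
  exact hxD (Subgroup.mem_inf.mpr ⟨x.2, hxM⟩)


/-- Let G be a finite group of characteristic 2 type in which every 2-local subgroup is solvable and the centralizer of Ω₁(Z(S)) lies in N_G(S) for every Sylow 2-subgroup S; suppose O₂(G) = 1, fix a Sylow 2-subgroup S and a 2-local subgroup M containing N_G(J(S)) (J the Thompson subgroup generated by the elementary abelian 2-subgroups of largest order). Then M is strongly embedded in G (a proper subgroup of even order whose intersection with each conjugate by an element outside M has odd order) if and only if no nontrivial 2-subgroup of M lies in a 2-local subgroup of G not contained in M. -/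
theorem result {G : Type*} [Group G] [Finite G] (hL : Cfsg.IsCharacteristicTwoType G) (hN : ∀ N : Subgroup G, Cfsg.IsTwoLocal N → Group.IsSolvable ↥N)
    (hZ : ∀ S : Sylow 2 G, Subgroup.centralizer (Cfsg.omegaCenterOf (S : Subgroup G) : Set G) ≤ Subgroup.normalizer ((S : Subgroup G) : Set G)) (hO : Cfsg.pCore 2 G = ⊥) (S : Sylow 2 G) (M : Subgroup G) (hM : Cfsg.IsTwoLocal M)
    (hMJ : Subgroup.normalizer (Cfsg.thompsonSubgroupOf 2 (S : Subgroup G) : Set G) ≤ M) :
    Cfsg.IsStronglyEmbedded M ↔ Cfsg.straddlingTwoSubgroups M = ∅ := by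
  haveI : Fact (Nat.Prime 2) := ⟨Nat.prime_two⟩
  constructor
  · rintro ⟨hne, heven, hodd⟩
    have hN : ∀ D : Subgroup G, D ≤ M → IsPGroup 2 D → D ≠ ⊥ →
        Subgroup.normalizer (D : Set G) ≤ M := by
      intro D hDM hD2 hD1 g hg
      by_contra hgM
      have h1 : D ≤ M ⊓ M.map (MulAut.conj g).toMonoidHom := by
        refine le_inf hDM ?_
        intro d hd
        have h2 : g⁻¹ * d * g ∈ D := by
          have := (Subgroup.mem_normalizer_iff.mp (inv_mem hg) d).mp hd
          rwa [inv_inv] at this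
        refine ⟨g⁻¹ * d * g, hDM h2, ?_⟩
        simp [MulAut.conj_apply, mul_assoc]
      have h3 := (two_dvd_card hD2 hD1).trans (Subgroup.card_dvd_of_le h1)
      exact (Nat.not_even_iff_odd.mpr (hodd g hgM)) (even_iff_two_dvd.mpr h3)
    rw [Set.eq_empty_iff_forall_notMem]
    rintro T ⟨hT2, hT1, hTM, L, ⟨U, hU2, hU1, rfl⟩, hTL, hLM⟩
    apply hLM
    have hP : IsPGroup 2 (T ⊔ U : Subgroup G) := hT2.to_sup_of_normal_right' hU2 hTL
    have hPM : (T ⊔ U) ≤ M := by
      apply le_of_inf_ne_bot hN _ hP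
      intro h0
      apply hT1
      rw [eq_bot_iff, ← h0]
      exact le_inf le_sup_left hTM
    exact hN U (le_sup_right.trans hPM) hU2 hU1
  · intro hemp
    have hN : ∀ D : Subgroup G, D ≤ M → IsPGroup 2 D → D ≠ ⊥ →
        Subgroup.normalizer (D : Set G) ≤ M := by
      intro D hDM hD2 hD1
      by_contra hnot
      have h0 : D ∈ Cfsg.straddlingTwoSubgroups M :=
        ⟨hD2, hD1, hDM, _, ⟨D, hD2, hD1, rfl⟩, Subgroup.le_normalizer, hnot⟩
      rw [hemp] at h0
      exact h0
    obtain ⟨U, hU2, hU1, hMU⟩ := hM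
    have hUM : U ≤ M := hMU ▸ Subgroup.le_normalizer
    refine ⟨?_, ?_, ?_⟩
    · intro htop
      have hUn : U.Normal := by
        rw [← Subgroup.normalizer_eq_top_iff, ← hMU, htop]
      have h0 := Cfsg.Agent.H17.le_pCore hUn hU2
      rw [hO, le_bot_iff] at h0
      exact hU1 h0
    · exact even_iff_two_dvd.mpr ((two_dvd_card hU2 hU1).trans (Subgroup.card_dvd_of_le hUM))
    · intro g hg
      by_contra hnodd
      rw [Nat.not_odd_iff_even, even_iff_two_dvd] at hnodd
      obtain ⟨t, ht⟩ := exists_prime_orderOf_dvd_card' 2 hnodd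
      obtain ⟨htM, t', ht'M, ht'⟩ := Subgroup.mem_inf.mp t.2
      have hto : orderOf (t : G) = 2 := by rw [Subgroup.orderOf_coe, ht]
      have ht'o : orderOf t' = 2 := by
        rw [← hto, ← ht']
        exact ((MulAut.conj g).orderOf_eq t').symm
      have ht'1 : t' ≠ 1 := by
        rintro rfl
        rw [orderOf_one] at ht'o
        omega
      have hz : IsPGroup 2 (Subgroup.zpowers t') :=
        IsPGroup.of_card (n := 1) (by rw [Nat.card_zpowers, ht'o, pow_one])
      obtain ⟨S', hS'⟩ := hz.exists_le_sylow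
      have ht'S : t' ∈ (S' : Subgroup G) := hS' (Subgroup.mem_zpowers t')
      have hS'M : (S' : Subgroup G) ≤ M := by
        apply le_of_inf_ne_bot hN _ S'.2
        intro h0
        have h1 : t' ∈ (S' : Subgroup G) ⊓ M := Subgroup.mem_inf.mpr ⟨ht'S, ht'M⟩
        rw [h0, Subgroup.mem_bot] at h1
        exact ht'1 h1
      have hS''M : (S' : Subgroup G).map (MulAut.conj g).toMonoidHom ≤ M := by
        apply le_of_inf_ne_bot hN _ (S'.2.map _)
        intro h0
        have h1 : (t : G) ∈ (S' : Subgroup G).map (MulAut.conj g).toMonoidHom ⊓ M :=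
          Subgroup.mem_inf.mpr ⟨⟨t', ht'S, ht'⟩, htM⟩
        rw [h0, Subgroup.mem_bot] at h1
        rw [h1, orderOf_one] at hto
        omega
      have hS'1 : (S' : Subgroup G) ≠ ⊥ := by
        intro h0
        rw [h0, Subgroup.mem_bot] at ht'S
        exact ht'1 ht'S
      obtain ⟨P₂, hP₂⟩ := (((S'.2.map (MulAut.conj g).toMonoidHom).comap_of_injective M.subtype
        (Subgroup.subtype_injective M)) : IsPGroup 2
          (((S' : Subgroup G).map (MulAut.conj g).toMonoidHom).comap M.subtype)).exists_le_sylow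
      obtain ⟨m, hm⟩ := MulAction.exists_smul_eq M P₂ (S'.subtype hS'M)
      apply hg
      have hmg : (m : G) * g ∈ Subgroup.normalizer ((S' : Subgroup G) : Set G) := by
        apply Cfsg.Agent.S4401.mem_normalizer_of_conj_le
        intro s hs
        have h1 : g * s * g⁻¹ ∈ (S' : Subgroup G).map (MulAut.conj g).toMonoidHom := ⟨s, hs, rfl⟩
        have h2 : (⟨g * s * g⁻¹, hS''M h1⟩ : M) ∈ (P₂ : Subgroup M) := hP₂ h1
        have h3 : m * (⟨g * s * g⁻¹, hS''M h1⟩ : M) * m⁻¹ ∈ ((m • P₂ : Sylow 2 M) : Subgroup M) := by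
          rw [Sylow.coe_subgroup_smul]
          exact Subgroup.smul_mem_pointwise_smul _ (MulAut.conj m) _ h2
        rw [hm] at h3
        have h4 : (m : G) * (g * s * g⁻¹) * (m : G)⁻¹ ∈ (S' : Subgroup G) := h3
        have e : (m : G) * g * s * ((m : G) * g)⁻¹ = (m : G) * (g * s * g⁻¹) * (m : G)⁻¹ := by group
        rw [e]
        exact h4
      have h5 := hN _ hS'M S'.2 hS'1 hmg
      have e : g = (m : G)⁻¹ * ((m : G) * g) := by group
      rw [e]
      exact mul_mem (inv_mem m.2) h5

end Cfsg.Agent.S2947
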