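import Cfsg.Statements.S2955
import Cfsg.Agent.S2939

set_option autoImplicit false
open Cfsg

namespace Cfsg.Agent.S2955

/-- Let p be a prime dividing the order of the finite group G and 𝓕 a conjugation-closed family of subgroups that controls Sylow p-intersections in G. Suppose the Sylow p-subgroups of G are chain-connected: any two of them are joined by a chain of Sylow p-subgroups, consecutive ones distinct with nontrivial intersection, all containing the intersection of the two ends (equivalently, the graph on the Sylow p-subgroups whose edges are the distinct pairs meeting nontrivially is connected). Then for every Sylow p-subgroup S, G is generated by N_G(S) together with the members of 𝓕 that meet S in a Sylow p-subgroup of themselves. -/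
theorem result {G : Type*} [Group G] [Finite G] (p : ℕ) [Fact p.Prime] (hdiv : p ∣ Nat.card G)
    (𝓕 : Set (Subgroup G)) (h𝓕 : Cfsg.IsNormalSet 𝓕) (hc : Cfsg.ControlsSylowIntersections p 𝓕)
    (hconn : Cfsg.IsSylowChainConnected p G) (S : Sylow p G) :
    (⨆ X ∈ Cfsg.sylowMembers p 𝓕 (S : Subgroup G), X) ⊔ Subgroup.normalizer ((S : Subgroup G) : Set G) = ⊤ := by
  classical
  obtain ⟨H, hH⟩ : ∃ H, H = (⨆ X ∈ Cfsg.sylowMembers p 𝓕 (S : Subgroup G), X) ⊔
      Subgroup.normalizer ((S : Subgroup G) : Set G) := ⟨_, rfl⟩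
  rw [← hH]
  have hXH : ∀ X ∈ Cfsg.sylowMembers p 𝓕 (S : Subgroup G), X ≤ H := by
    intro X hX
    rw [hH]
    exact (le_iSup₂ (f := fun (X : Subgroup G) (_ : X ∈ Cfsg.sylowMembers p 𝓕 (S : Subgroup G)) => X)
      X hX).trans le_sup_left
  have hNH : Subgroup.normalizer ((S : Subgroup G) : Set G) ≤ H := by
    rw [hH]; exact le_sup_right
  -- one step of a control chain
  have step : ∀ (P P' : Sylow p G) (X : Subgroup G) (x : G),
      X ∈ Cfsg.sylowMembers p 𝓕 (P : Subgroup G) → x ∈ X →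
      Cfsg.subgroupConjRight x (P' : Subgroup G) = (P : Subgroup G) →
      (∃ h ∈ H, (P : Subgroup G) = Cfsg.subgroupConjRight h (S : Subgroup G)) →
      ∃ h ∈ H, (P' : Subgroup G) = Cfsg.subgroupConjRight h (S : Subgroup G) := by
    rintro P P' X x hX hx hPP' ⟨h, hh, hP⟩
    have h1 := Cfsg.Agent.S2939.sylowMembers_rc h𝓕 h⁻¹ hX
    rw [hP, ← Cfsg.Agent.S2939.rc_mul, mul_inv_cancel, Cfsg.Agent.S2939.rc_one] at h1
    have h2 : h⁻¹ * (h * x * h⁻¹) * h⁻¹⁻¹ ∈ X := by
      have e : h⁻¹ * (h * x * h⁻¹) * h⁻¹⁻¹ = x := by group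
      rw [e]; exact hx
    have h3 : h * x * h⁻¹ ∈ H := hXH _ h1 (Cfsg.Agent.S2939.mem_rc.2 h2)
    have hxH : x ∈ H := by
      have := H.mul_mem (H.mul_mem (H.inv_mem hh) h3) hh
      have e : h⁻¹ * (h * x * h⁻¹) * h = x := by group
      rwa [e] at this
    refine ⟨h * x⁻¹, H.mul_mem hh (H.inv_mem hxH), ?_⟩
    rw [Cfsg.Agent.S2939.rc_mul, ← hP, ← hPP', ← Cfsg.Agent.S2939.rc_mul, mul_inv_cancel,
      Cfsg.Agent.S2939.rc_one]
  -- an edge of the connecting chain
  have edge : ∀ (P P' : Sylow p G), P ≠ P' → (P : Subgroup G) ⊓ (P' : Subgroup G) ≠ ⊥ →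
      (∃ h ∈ H, (P : Subgroup G) = Cfsg.subgroupConjRight h (S : Subgroup G)) →
      ∃ h ∈ H, (P' : Subgroup G) = Cfsg.subgroupConjRight h (S : Subgroup G) := by
    intro P P' hne hint hP
    obtain ⟨n, c, X, x, hc0, hcn, hstep⟩ := hc P P' hne hint
    have hall : ∀ j : Fin (n + 1), ∃ h ∈ H, (c j : Subgroup G) =
        Cfsg.subgroupConjRight h (S : Subgroup G) := by
      intro j
      induction j using Fin.induction with
      | zero => rw [hc0]; exact hP
      | succ i ih =>
        exact step (c i.castSucc) (c i.succ) (X i) (x i) (hstep i).1 (hstep i).2.2.1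
          (hstep i).2.2.2.1 ih
    rw [← hcn]
    exact hall (Fin.last n)
  have hallS : ∀ T : Sylow p G, ∃ h ∈ H, (T : Subgroup G) =
      Cfsg.subgroupConjRight h (S : Subgroup G) := by
    intro T
    obtain ⟨n, c, hc0, hcn, _, hedge⟩ := hconn S T
    have hall : ∀ j : Fin (n + 1), ∃ h ∈ H, (c j : Subgroup G) =
        Cfsg.subgroupConjRight h (S : Subgroup G) := by
      intro j
      induction j using Fin.induction with
      | zero =>
        rw [hc0]
        exact ⟨1, H.one_mem, (Cfsg.Agent.S2939.rc_one _).symm⟩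
      | succ i ih => exact edge _ _ (hedge i).1 (hedge i).2 ih
    rw [← hcn]
    exact hall (Fin.last n)
  rw [eq_top_iff]
  intro g _
  obtain ⟨h, hh, hT⟩ := hallS (Cfsg.Agent.S2939.sc g S)
  rw [Cfsg.Agent.S2939.coe_sc] at hT
  have h1 : Cfsg.subgroupConjRight (g * h⁻¹) (S : Subgroup G) = S := by
    rw [Cfsg.Agent.S2939.rc_mul, hT, ← Cfsg.Agent.S2939.rc_mul, mul_inv_cancel,
      Cfsg.Agent.S2939.rc_one]
  have h2 := hNH (Cfsg.Agent.S2939.rc_eq_iff_mem_normalizer.1 h1)
  have h3 := H.mul_mem h2 hh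
  rwa [inv_mul_cancel_right] at h3

end Cfsg.Agent.S2955
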