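import Cfsg.Statements.S2956
import Cfsg.Agent.S2939
import Cfsg.Agent.Lib.Helper13.NPC2
import Cfsg.Agent.Lib.Helper13.TwoConj

set_option autoImplicit false
open Cfsg

namespace Cfsg.Agent.S2956

section aux

open Cfsg.Agent.S2939

variable {G : Type*} [Group G] {p : ℕ}

theorem card_lt_of_lt' [Finite G] {A B : Subgroup G} (h : A < B) : Nat.card A < Nat.card B := by
  by_contra hc
  push Not at hc
  exact h.ne (Subgroup.eq_of_le_of_card_ge h.le hc)

theorem map_conj_eq_rc (g : G) (X : Subgroup G) :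
    X.map (MulAut.conj g).toMonoidHom = subgroupConjRight g⁻¹ X := by
  rw [subgroupConjRight, inv_inv]

theorem rc_mono {g : G} {A B : Subgroup G} (h : A ≤ B) :
    subgroupConjRight g A ≤ subgroupConjRight g B := Subgroup.map_mono h

theorem rc_inv_rc (g : G) (X : Subgroup G) :
    subgroupConjRight g⁻¹ (subgroupConjRight g X) = X := by
  rw [← rc_mul, mul_inv_cancel, rc_one]

theorem rc_rc_inv (g : G) (X : Subgroup G) :
    subgroupConjRight g (subgroupConjRight g⁻¹ X) = X := by
  rw [← rc_mul, inv_mul_cancel, rc_one]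

theorem map_rc (M : Subgroup G) (x : M) (K : Subgroup M) :
    (subgroupConjRight x K).map M.subtype = subgroupConjRight (x : G) (K.map M.subtype) := by
  have h : M.subtype.comp (MulAut.conj x⁻¹).toMonoidHom =
      (MulAut.conj (x : G)⁻¹).toMonoidHom.comp M.subtype := by
    ext y; simp [MulAut.conj_apply]
  unfold subgroupConjRight
  rw [Subgroup.map_map, Subgroup.map_map, h]

/-- `P` is a Sylow subgroup of `M`, by cardinality -/
def SylIn (p : ℕ) (P M : Subgroup G) : Prop :=
  P ≤ M ∧ Nat.card P = p ^ (Nat.card M).factorization p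

theorem SylIn.isPGroup [Fact p.Prime] {P M : Subgroup G} (h : SylIn p P M) : IsPGroup p P :=
  IsPGroup.of_card h.2

theorem card_le_of_pgroup [Finite G] [hp : Fact p.Prime] {P' M : Subgroup G} (h1 : P' ≤ M)
    (h2 : IsPGroup p P') : Nat.card P' ≤ p ^ (Nat.card M).factorization p := by
  obtain ⟨k, hk⟩ := IsPGroup.iff_card.1 h2
  have hdvd : p ^ k ∣ Nat.card M := hk ▸ Subgroup.card_dvd_of_le h1
  have hkle : k ≤ (Nat.card M).factorization p :=
    (Nat.Prime.pow_dvd_iff_le_factorization hp.out Nat.card_pos.ne').1 hdvd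
  rw [hk]
  exact Nat.pow_le_pow_right hp.out.pos hkle

theorem SylIn.max [Finite G] [Fact p.Prime] {P M P' : Subgroup G} (h : SylIn p P M) (h1 : P' ≤ M)
    (h2 : IsPGroup p P') (h3 : P ≤ P') : P' ≤ P :=
  (Subgroup.eq_of_le_of_card_ge h3 (by rw [h.2]; exact card_le_of_pgroup h1 h2)).ge

theorem SylIn.conj [Finite G] [Fact p.Prime] {P P' M : Subgroup G} (h : SylIn p P M)
    (h' : SylIn p P' M) : ∃ x ∈ M, subgroupConjRight x P' = P := by
  obtain ⟨l, hl, hle⟩ := Cfsg.Agent.Lib.Helper13.TwoConj.sylconj (p := p) M P P' h.1 h'.1 h.isPGroup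
    h'.isPGroup (fun P'' a b c => h.max a b c)
  have hlM : l ∈ M := Subgroup.map_subtype_le _ hl
  have heq : P' = P.map (MulAut.conj l).toMonoidHom := Subgroup.eq_of_le_of_card_ge hle
    (by rw [Subgroup.card_map_of_injective (MulAut.conj l).injective, h.2, h'.2])
  refine ⟨l, hlM, ?_⟩
  rw [heq, map_conj_eq_rc, rc_rc_inv]

theorem SylIn.ofSylow [Finite G] [Fact p.Prime] {M : Subgroup G} (c : Sylow p M) :
    SylIn p ((c : Subgroup M).map M.subtype) M :=
  ⟨Subgroup.map_subtype_le _, by
    rw [Subgroup.card_map_of_injective M.subtype_injective]; exact c.card_eq_multiplicity⟩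

theorem SylIn.toSylow [Finite G] [Fact p.Prime] {P M : Subgroup G} (h : SylIn p P M) :
    ∃ c : Sylow p M, (c : Subgroup M).map M.subtype = P := by
  refine ⟨Sylow.ofCard (P.subgroupOf M) ?_, ?_⟩
  · rw [Nat.card_congr (Subgroup.subgroupOfEquivOfLe h.1).toEquiv]
    exact h.2
  · rw [Sylow.coe_ofCard]
    exact Subgroup.map_subgroupOf_eq_of_le h.1

theorem ext_lemma [Finite G] [Fact p.Prime] {A M : Subgroup G} (hAM : A ≤ M) (hA : IsPGroup p A) :
    ∃ S' : Sylow p G, A ≤ (S' : Subgroup G) ∧ SylIn p ((S' : Subgroup G) ⊓ M) M := by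
  have hA' : IsPGroup p (A.subgroupOf M) := hA.comap_of_injective M.subtype M.subtype_injective
  obtain ⟨c, hc⟩ := hA'.exists_le_sylow
  have hcp : IsPGroup p ((c : Subgroup M).map M.subtype) := c.2.map _
  obtain ⟨S', hS'⟩ := hcp.exists_le_sylow
  have hsyl := SylIn.ofSylow c
  have h1 : (S' : Subgroup G) ⊓ M = (c : Subgroup M).map M.subtype :=
    le_antisymm (hsyl.max inf_le_right (S'.2.to_le inf_le_left) (le_inf hS' hsyl.1))
      (le_inf hS' hsyl.1)
  refine ⟨S', ?_, ?_⟩
  · rw [← Subgroup.map_subgroupOf_eq_of_le hAM]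
    exact (Subgroup.map_mono hc).trans hS'
  · rw [h1]; exact hsyl

theorem vp_eq [Finite G] [hp : Fact p.Prime] {P X M : Subgroup G} (h : SylIn p P M) (hPX : P ≤ X)
    (hXM : X ≤ M) : (Nat.card X).factorization p = (Nat.card M).factorization p := by
  apply le_antisymm
  · exact (Nat.factorization_le_iff_dvd Nat.card_pos.ne' Nat.card_pos.ne').2
      (Subgroup.card_dvd_of_le hXM) p
  · apply (Nat.Prime.pow_dvd_iff_le_factorization hp.out Nat.card_pos.ne').1
    rw [← h.2]
    exact Subgroup.card_dvd_of_le hPX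

theorem sylIn_top [Finite G] [Fact p.Prime] (R : Sylow p G) : SylIn p (R : Subgroup G) ⊤ :=
  ⟨le_top, by rw [Subgroup.card_top]; exact R.card_eq_multiplicity⟩

theorem member_of_le [Finite G] [Fact p.Prime] {𝒢 : Set (Subgroup G)} (R : Sylow p G)
    {X : Subgroup G} (hX : X ∈ 𝒢) (hR : (R : Subgroup G) ≤ X) :
    X ∈ sylowMembers p 𝒢 (R : Subgroup G) := by
  rw [mem_sylowMembers_iff]
  refine ⟨hX, ?_⟩
  rw [inf_eq_left.2 hR, vp_eq (sylIn_top R) hR le_top]
  exact (sylIn_top R).2

theorem sylow_card_eq [Finite G] [Fact p.Prime] (R R' : Sylow p G) :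
    Nat.card (R : Subgroup G) = Nat.card (R' : Subgroup G) := by
  rw [R.card_eq_multiplicity, R'.card_eq_multiplicity]

/-- one link of a chain -/
def Link (p : ℕ) (𝒢 : Set (Subgroup G)) (D : Subgroup G) (S₁ S₂ : Sylow p G) : Prop :=
  ∃ (X : Subgroup G) (x : G), X ∈ sylowMembers p 𝒢 (S₁ : Subgroup G) ∧
    X ∈ sylowMembers p 𝒢 (S₂ : Subgroup G) ∧ x ∈ X ∧
    subgroupConjRight x (S₂ : Subgroup G) = S₁ ∧ D ≤ S₁ ∧ D ≤ S₂ ∧ D ≤ X

/-- chains -/
abbrev Conn (p : ℕ) (𝒢 : Set (Subgroup G)) (D : Subgroup G) (S T : Sylow p G) : Prop :=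
  Relation.ReflTransGen (Link p 𝒢 D) S T

theorem Link.symm' {𝒢 : Set (Subgroup G)} {D : Subgroup G} {S₁ S₂ : Sylow p G}
    (h : Link p 𝒢 D S₁ S₂) : Link p 𝒢 D S₂ S₁ := by
  obtain ⟨X, x, h1, h2, h3, h4, h5, h6, h7⟩ := h
  exact ⟨X, x⁻¹, h2, h1, X.inv_mem h3, by rw [← h4, rc_inv_rc], h6, h5, h7⟩

theorem conn_symm {𝒢 : Set (Subgroup G)} {D : Subgroup G} {S T : Sylow p G}
    (h : Conn p 𝒢 D S T) : Conn p 𝒢 D T S := by
  induction h with
  | refl => exact .refl
  | tail _ hbc ih => exact Relation.ReflTransGen.head hbc.symm' ih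

theorem conn_mono {𝒢 : Set (Subgroup G)} {D D' : Subgroup G} (hD : D' ≤ D) {S T : Sylow p G}
    (h : Conn p 𝒢 D S T) : Conn p 𝒢 D' S T := by
  induction h with
  | refl => exact .refl
  | tail _ hbc ih =>
    obtain ⟨X, x, h1, h2, h3, h4, h5, h6, h7⟩ := hbc
    exact ih.tail ⟨X, x, h1, h2, h3, h4, hD.trans h5, hD.trans h6, hD.trans h7⟩

theorem to_chain {𝒢 : Set (Subgroup G)} {D : Subgroup G} {S T : Sylow p G}
    (h : Conn p 𝒢 D S T) :
    ∃ (n : ℕ) (c : Fin (n + 1) → Sylow p G) (X : Fin n → Subgroup G) (x : Fin n → G),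
      c 0 = S ∧ c (Fin.last n) = T ∧
      ∀ i : Fin n,
        X i ∈ sylowMembers p 𝒢 (c i.castSucc : Subgroup G) ∧
        X i ∈ sylowMembers p 𝒢 (c i.succ : Subgroup G) ∧
        x i ∈ X i ∧ subgroupConjRight (x i) (c i.succ : Subgroup G) = (c i.castSucc : Subgroup G) ∧
        D ≤ (c i.succ : Subgroup G) ⊓ X i := by
  induction h with
  | refl => exact ⟨0, fun _ => S, Fin.elim0, Fin.elim0, rfl, rfl, fun i => i.elim0⟩
  | @tail b T' _ hbc ih =>
    obtain ⟨n, c, X, x, h0, hn, hstep⟩ := ih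
    obtain ⟨Y, y, h1, h2, h3, h4, h5, h6, h7⟩ := hbc
    refine ⟨n + 1, Fin.snoc (α := fun _ => Sylow p G) c T', Fin.snoc (α := fun _ => Subgroup G) X Y,
      Fin.snoc (α := fun _ => G) x y, ?_, ?_, ?_⟩
    · have : (0 : Fin (n + 2)) = Fin.castSucc (0 : Fin (n + 1)) := rfl
      rw [this, Fin.snoc_castSucc]
      exact h0
    · exact Fin.snoc_last (α := fun _ => Sylow p G) _ _
    · intro i
      refine Fin.lastCases ?_ (fun j => ?_) i
      · simp only [Fin.snoc_last, Fin.snoc_castSucc, Fin.succ_last, hn]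
        exact ⟨h1, h2, h3, h4, le_inf h6 h7⟩
      · simp only [Fin.snoc_castSucc, Fin.succ_castSucc]
        exact hstep j

theorem exists_maximal_plocal [Finite G] {N : Subgroup G} (hN : IsPLocal p N) :
    ∃ M, IsMaximalPLocal p M ∧ N ≤ M := by
  obtain ⟨M, hNM, hM⟩ := (Set.toFinite {N' : Subgroup G | IsPLocal p N'}).exists_le_maximal hN
  exact ⟨M, ⟨hM.prop, fun N' hN' hle => hM.eq_of_ge hN' hle⟩, hNM⟩

theorem f_rc {f : Subgroup G → Set (Subgroup G)} (hf : IsNormalizerFunctor p f) {P F : Subgroup G}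
    (hP : IsPGroup p P) (hF : F ∈ f P) (g : G) :
    subgroupConjRight g F ∈ f (subgroupConjRight g P) := by
  have h := (hf P hP).2 g⁻¹
  unfold subgroupConjRight
  rw [h]
  exact ⟨F, hF, rfl⟩

theorem mem_f_of_member [Finite G] [Fact p.Prime] {f : Subgroup G → Set (Subgroup G)}
    (hf : IsNormalizerFunctor p f) (M : Subgroup G) (P₀ c : Sylow p M) (F : Subgroup G)
    (hF : F ∈ f ((P₀ : Subgroup M).map M.subtype))
    (hcard : Nat.card ((c : Subgroup M) ⊓ (M ⊓ Subgroup.normalizer (F : Set G)).subgroupOf M :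
      Subgroup M) = p ^ (Nat.card ((M ⊓ Subgroup.normalizer (F : Set G)).subgroupOf M)).factorization p) :
    F ∈ f ((c : Subgroup M).map M.subtype) := by
  have h0 := SylIn.ofSylow P₀
  have h1 := SylIn.ofSylow c
  have hP0Y : (P₀ : Subgroup M).map M.subtype ≤ M ⊓ Subgroup.normalizer (F : Set G) :=
    le_inf h0.1 (Subgroup.le_normalizer.trans ((hf _ h0.isPGroup).1 F hF).2)
  have hYmap : ((M ⊓ Subgroup.normalizer (F : Set G)).subgroupOf M).map M.subtype =
      M ⊓ Subgroup.normalizer (F : Set G) := Subgroup.map_subgroupOf_eq_of_le inf_le_left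
  have hcY : Nat.card ((M ⊓ Subgroup.normalizer (F : Set G)).subgroupOf M) =
      Nat.card (M ⊓ Subgroup.normalizer (F : Set G) : Subgroup G) := by
    rw [← hYmap, Subgroup.card_map_of_injective M.subtype_injective, hYmap]
  have hcI : Nat.card ((c : Subgroup M) ⊓ (M ⊓ Subgroup.normalizer (F : Set G)).subgroupOf M :
      Subgroup M) = Nat.card ((c : Subgroup M).map M.subtype ⊓
        (M ⊓ Subgroup.normalizer (F : Set G)) : Subgroup G) := by
    rw [← Subgroup.card_map_of_injective M.subtype_injective,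
      Subgroup.map_inf_eq _ _ _ M.subtype_injective, hYmap]
  rw [hcY, hcI, vp_eq h0 hP0Y inf_le_left, ← h1.2] at hcard
  have hcY' : (c : Subgroup M).map M.subtype ≤ M ⊓ Subgroup.normalizer (F : Set G) := by
    have := Subgroup.eq_of_le_of_card_ge (inf_le_left : (c : Subgroup M).map M.subtype ⊓
        (M ⊓ Subgroup.normalizer (F : Set G)) ≤ (c : Subgroup M).map M.subtype) hcard.ge
    exact inf_eq_left.1 this
  have hv := vp_eq h0 hP0Y inf_le_left
  have s0 : SylIn p ((P₀ : Subgroup M).map M.subtype) (M ⊓ Subgroup.normalizer (F : Set G)) :=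
    ⟨hP0Y, by rw [hv]; exact h0.2⟩
  have s1 : SylIn p ((c : Subgroup M).map M.subtype) (M ⊓ Subgroup.normalizer (F : Set G)) :=
    ⟨hcY', by rw [hv]; exact h1.2⟩
  obtain ⟨u, hu, hconj⟩ := s1.conj s0
  have h2 := f_rc hf h0.isPGroup hF u
  rw [hconj, rc_eq_iff_mem_normalizer.2 hu.2] at h2
  exact h2

open Cfsg.Agent.Lib.Helper13 in
theorem main [Finite G] [Fact p.Prime] (f : Subgroup G → Set (Subgroup G))
    (hf : IsNormalizerFunctor p f)
    (hf1 : ∀ P : Subgroup G, IsPGroup p ↥P → P ≠ ⊥ → ∀ F ∈ f P, F ≠ ⊥) (𝒢 : Set (Subgroup G))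
    (h𝓕 : ∀ (R : Sylow p G), ∀ F ∈ f (R : Subgroup G), Subgroup.normalizer (F : Set G) ∈ 𝒢)
    (h𝓕' : ∀ M, IsMaximalPLocal p M → ¬ IsFunctorRegular p f M → M ∈ 𝒢) :
    ∀ (k : ℕ) (D : Subgroup G), Nat.card G - Nat.card D = k → D ≠ ⊥ →
      ∀ S T : Sylow p G, D ≤ (S : Subgroup G) → D ≤ (T : Subgroup G) → Conn p 𝒢 D S T := by
  intro k
  induction k using Nat.strong_induction_on with
  | _ k ih =>
  intro D hk hD0
  have hcG : ∀ Z : Subgroup G, Nat.card Z ≤ Nat.card G := fun Z => Subgroup.card_le_card_group Z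
  have IH' : ∀ D' : Subgroup G, Nat.card D < Nat.card D' → ∀ S T : Sylow p G,
      D' ≤ (S : Subgroup G) → D' ≤ (T : Subgroup G) → Conn p 𝒢 D' S T := by
    intro D' hlt S T h1 h2
    have hne : D' ≠ ⊥ := by
      rintro rfl
      have h3 : Nat.card (⊥ : Subgroup G) = 1 := Subgroup.card_bot
      have h4 : 0 < Nat.card D := Nat.card_pos
      omega
    have := hcG D'
    exact ih (Nat.card G - Nat.card D') (by omega) D' rfl hne S T h1 h2
  have Q : ∀ (m : ℕ) (M : Subgroup G) (S' T' : Sylow p G), IsMaximalPLocal p M →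
      SylIn p ((S' : Subgroup G) ⊓ M) M → SylIn p ((T' : Subgroup G) ⊓ M) M →
      D ≤ (S' : Subgroup G) ⊓ M → D ≤ (T' : Subgroup G) ⊓ M →
      Nat.card D < Nat.card ((S' : Subgroup G) ⊓ M : Subgroup G) →
      Nat.card G - Nat.card ((S' : Subgroup G) ⊓ M : Subgroup G) = m → Conn p 𝒢 D S' T' := by
    intro m
    induction m using Nat.strong_induction_on with
    | _ m ihm =>
    intro M S' T' hM hS' hT' hDS hDT hlt hm
    by_cases hreg : IsFunctorRegular p f M
    · by_cases heq : (S' : Subgroup G) ⊓ M = (T' : Subgroup G) ⊓ M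
      · exact conn_mono hDS (IH' _ hlt S' T' inf_le_left (heq.le.trans inf_le_left))
      · obtain ⟨c₁, hc₁⟩ := hS'.toSylow
        obtain ⟨c₂, hc₂⟩ := hT'.toSylow
        have hne : c₁ ≠ c₂ := by
          rintro rfl
          exact heq (hc₁.symm.trans hc₂)
        have hDmap : D ≤ ((c₁ : Subgroup M) ⊓ (c₂ : Subgroup M)).map M.subtype := by
          rw [Subgroup.map_inf_eq _ _ _ M.subtype_injective, hc₁, hc₂]
          exact le_inf hDS hDT
        have hint : (c₁ : Subgroup M) ⊓ (c₂ : Subgroup M) ≠ ⊥ := by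
          intro h0
          rw [h0, Subgroup.map_bot] at hDmap
          exact hD0 (le_bot_iff.1 hDmap)
        obtain ⟨n, c, X, x, h0, hn, hstep⟩ := hreg c₁ c₂ hne hint
        have hall : ∀ j : Fin (n + 1), D ≤ ((c j : Subgroup M)).map M.subtype ∧
            ∀ R : Sylow p G, ((c j : Subgroup M)).map M.subtype ≤ (R : Subgroup G) →
              Conn p 𝒢 D S' R := by
          intro j
          induction j using Fin.induction with
          | zero =>
            rw [h0, hc₁]
            exact ⟨hDS, fun R hR => conn_mono hDS (IH' _ hlt S' R inf_le_left hR)⟩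
          | succ i ih2 =>
            obtain ⟨hD1, ih2⟩ := ih2
            obtain ⟨hX1, hX2, hx, hconj, hle⟩ := hstep i
            have hP₁ := SylIn.ofSylow (c i.castSucc)
            have hP₂ := SylIn.ofSylow (c i.succ)
            have hD2 : D ≤ ((c i.succ : Subgroup M)).map M.subtype :=
              hDmap.trans ((Subgroup.map_mono hle).trans (Subgroup.map_mono inf_le_left))
            obtain ⟨⟨Y, ⟨P₀, F, hF, rfl⟩, hXeq⟩, hcard1⟩ := mem_sylowMembers_iff.1 hX1
            have hcard2 := (mem_sylowMembers_iff.1 hX2).2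
            simp only at hXeq
            rw [← hXeq] at hcard1 hcard2 hx
            have hF1 := mem_f_of_member hf M P₀ (c i.castSucc) F hF hcard1
            have hF2 := mem_f_of_member hf M P₀ (c i.succ) F hF hcard2
            have hxN : ((x i : M) : G) ∈ Subgroup.normalizer (F : Set G) :=
              (Subgroup.mem_subgroupOf.1 hx).2
            have hconj' : subgroupConjRight ((x i : M) : G) ((c i.succ : Subgroup M).map M.subtype) =
                (c i.castSucc : Subgroup M).map M.subtype := by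
              rw [← map_rc, hconj]
            refine ⟨hD2, fun R hR => ?_⟩
            obtain ⟨R₁, hR₁⟩ := hP₁.isPGroup.exists_le_sylow
            refine (ih2 R₁ hR₁).trans ?_
            have hNF1 := ((hf _ hP₁.isPGroup).1 F hF1).2
            have hNF2 := ((hf _ hP₂.isPGroup).1 F hF2).2
            have hcP : Nat.card ((c i.castSucc : Subgroup M).map M.subtype) =
                Nat.card ((c i.succ : Subgroup M).map M.subtype) := by rw [hP₁.2, hP₂.2]
            have hcPS : Nat.card ((c i.castSucc : Subgroup M).map M.subtype) =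
                Nat.card ((S' : Subgroup G) ⊓ M : Subgroup G) := by rw [hP₁.2, hS'.2]
            by_cases hfull : (c i.succ : Subgroup M).map M.subtype = (R : Subgroup G)
            · have hP1R : (c i.castSucc : Subgroup M).map M.subtype = (R₁ : Subgroup G) :=
                Subgroup.eq_of_le_of_card_ge hR₁ (by rw [hcP, hfull, sylow_card_eq R₁ R])
              apply Relation.ReflTransGen.single
              refine ⟨Subgroup.normalizer (F : Set G), ((x i : M) : G), ?_, ?_, hxN, ?_,
                hD1.trans hR₁, hD2.trans hR, ?_⟩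
              · exact member_of_le R₁ (h𝓕 R₁ F (hP1R ▸ hF1))
                  (hP1R ▸ (Subgroup.le_normalizer.trans hNF1))
              · exact member_of_le R (h𝓕 R F (hfull ▸ hF2))
                  (hfull ▸ (Subgroup.le_normalizer.trans hNF2))
              · rw [← hfull, ← hP1R]; exact hconj'
              · exact hD2.trans (Subgroup.le_normalizer.trans hNF2)
            · have hlt2 : (c i.succ : Subgroup M).map M.subtype < (R : Subgroup G) :=
                lt_of_le_of_ne hR hfull
              have hlt1 : (c i.castSucc : Subgroup M).map M.subtype < (R₁ : Subgroup G) := by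
                refine lt_of_le_of_ne hR₁ (fun e => hfull ?_)
                exact Subgroup.eq_of_le_of_card_ge hR (by rw [← hcP, e, sylow_card_eq R R₁])
              have hE2 := lt_inf_normalizer R.2 hlt2
              have hE1 := lt_inf_normalizer R₁.2 hlt1
              have hP2ne : (c i.succ : Subgroup M).map M.subtype ≠ ⊥ := by
                intro e
                rw [e] at hD2
                exact hD0 (le_bot_iff.1 hD2)
              have hFne : F ≠ ⊥ := hf1 _ hP₂.isPGroup hP2ne F hF2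
              have hFp : IsPGroup p F := hP₂.isPGroup.to_le ((hf _ hP₂.isPGroup).1 F hF2).1
              obtain ⟨M₂, hM₂, hNM₂⟩ := exists_maximal_plocal (p := p)
                (N := Subgroup.normalizer (F : Set G)) ⟨F, hFp, hFne, rfl⟩
              have hE1M : (R₁ : Subgroup G) ⊓ Subgroup.normalizer
                  (((c i.castSucc : Subgroup M).map M.subtype : Subgroup G) : Set G) ≤ M₂ :=
                inf_le_right.trans (hNF1.trans hNM₂)
              have hE2M : (R : Subgroup G) ⊓ Subgroup.normalizer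
                  (((c i.succ : Subgroup M).map M.subtype : Subgroup G) : Set G) ≤ M₂ :=
                inf_le_right.trans (hNF2.trans hNM₂)
              obtain ⟨R₁', hR₁'a, hR₁'b⟩ := ext_lemma hE1M (R₁.2.to_le inf_le_left)
              obtain ⟨R', hR'a, hR'b⟩ := ext_lemma hE2M (R.2.to_le inf_le_left)
              have hc1 := card_lt_of_lt' hE1
              have hc2 := card_lt_of_lt' hE2
              have c1 : Conn p 𝒢 D R₁ R₁' :=
                conn_mono (hD1.trans hE1.le) (IH' _ (by omega) R₁ R₁' inf_le_left hR₁'a)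
              have c3 : Conn p 𝒢 D R R' :=
                conn_mono (hD2.trans hE2.le) (IH' _ (by omega) R R' inf_le_left hR'a)
              have hle1 := Subgroup.card_le_of_le (le_inf hR₁'a hE1M)
              have hcg := hcG ((R₁' : Subgroup G) ⊓ M₂)
              have c2 : Conn p 𝒢 D R₁' R' := ihm _ (by omega) M₂ R₁' R' hM₂ hR₁'b hR'b
                ((hD1.trans hE1.le).trans (le_inf hR₁'a hE1M))
                ((hD2.trans hE2.le).trans (le_inf hR'a hE2M)) (by omega) rfl
              exact c1.trans (c2.trans (conn_symm c3))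
        exact (hall (Fin.last n)).2 T' (by rw [hn, hc₂]; exact inf_le_left)
    · obtain ⟨x, hxM, hx⟩ := hS'.conj hT'
      have hMG : M ∈ 𝒢 := h𝓕' M hM hreg
      have hT'' : (sc x T' : Subgroup G) ⊓ M = (S' : Subgroup G) ⊓ M := by
        rw [coe_sc, ← hx, rc_inf, rc_of_mem hxM]
      have c1 : Conn p 𝒢 D S' (sc x T') :=
        conn_mono hDS (IH' _ hlt S' (sc x T') inf_le_left (hT''.ge.trans inf_le_left))
      refine c1.tail ⟨M, x, mem_sylowMembers_iff.2 ⟨hMG, by rw [hT'']; exact hS'.2⟩,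
        mem_sylowMembers_iff.2 ⟨hMG, hT'.2⟩, hxM, (coe_sc x T').symm,
        hDS.trans (hT''.ge.trans inf_le_left), hDT.trans inf_le_left, hDS.trans inf_le_right⟩
  intro S T hDS hDT
  by_cases h1 : D = (S : Subgroup G)
  · have h2 : (S : Subgroup G) ≤ T := h1 ▸ hDT
    have h3 : S = T := Sylow.ext (Subgroup.eq_of_le_of_card_ge h2 (sylow_card_eq T S).le)
    rw [h3]
  by_cases h2 : D = (T : Subgroup G)
  · have h3 : (T : Subgroup G) ≤ S := h2 ▸ hDS
    have h4 : T = S := Sylow.ext (Subgroup.eq_of_le_of_card_ge h3 (sylow_card_eq S T).le)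
    rw [h4]
  have hltS : D < (S : Subgroup G) := lt_of_le_of_ne hDS h1
  have hltT : D < (T : Subgroup G) := lt_of_le_of_ne hDT h2
  have hDp : IsPGroup p D := S.2.to_le hDS
  have hA1 := lt_inf_normalizer S.2 hltS
  have hA2 := lt_inf_normalizer T.2 hltT
  obtain ⟨M, hM, hNM⟩ := exists_maximal_plocal (p := p) (N := Subgroup.normalizer (D : Set G))
    ⟨D, hDp, hD0, rfl⟩
  have hA1M : (S : Subgroup G) ⊓ Subgroup.normalizer (D : Set G) ≤ M := inf_le_right.trans hNM
  have hA2M : (T : Subgroup G) ⊓ Subgroup.normalizer (D : Set G) ≤ M := inf_le_right.trans hNM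
  obtain ⟨S', hS'a, hS'b⟩ := ext_lemma hA1M (S.2.to_le inf_le_left)
  obtain ⟨T', hT'a, hT'b⟩ := ext_lemma hA2M (T.2.to_le inf_le_left)
  have hc1 := card_lt_of_lt' hA1
  have hc2 := card_lt_of_lt' hA2
  have c1 : Conn p 𝒢 D S S' := conn_mono hA1.le (IH' _ hc1 S S' inf_le_left hS'a)
  have c3 : Conn p 𝒢 D T T' := conn_mono hA2.le (IH' _ hc2 T T' inf_le_left hT'a)
  have hle1 := Subgroup.card_le_of_le (le_inf hS'a hA1M)
  have c2 : Conn p 𝒢 D S' T' := Q _ M S' T' hM hS'b hT'b (hA1.le.trans (le_inf hS'a hA1M))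
    (hA2.le.trans (le_inf hT'a hA2M)) (by omega) rfl
  exact c1.trans (c2.trans (conn_symm c3))

end aux


/-- Let p be a prime dividing the order of the finite group G, and f an assignment to every p-subgroup P of a set f(P) of subgroups of P, each normalized by N_G(P), compatible with conjugation, such that for P ≠ 1 the members of f(P) are nontrivial. Let 𝓕 be the family of the normalizers N_G(F) of the members F of f(S) over the Sylow p-subgroups S of G, and 𝓕' the family of the maximal p-local subgroups M of G that are singular for f (the corresponding family of normalizers inside M does not control Sylow p-intersections in M). Then 𝓕 ∪ 𝓕' controls Sylow p-intersections in G. -/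
theorem result {G : Type*} [Group G] [Finite G] (p : ℕ) [Fact p.Prime] (hdiv : p ∣ Nat.card G)
    (f : Subgroup G → Set (Subgroup G)) (hf : Cfsg.IsNormalizerFunctor p f)
    (hf1 : ∀ P : Subgroup G, IsPGroup p ↥P → P ≠ ⊥ → ∀ F ∈ f P, F ≠ ⊥)
    (𝓕 𝓕' : Set (Subgroup G)) (h𝓕 : 𝓕 = Cfsg.functorFamily p f ⊤)
    (h𝓕' : 𝓕' = {M | Cfsg.IsMaximalPLocal p M ∧ ¬ Cfsg.IsFunctorRegular p f M}) :
    Cfsg.ControlsSylowIntersections p (𝓕 ∪ 𝓕') := by
  intro S T _ hint
  have hmain := main (p := p) f hf hf1 (𝓕 ∪ 𝓕')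
    (by
      intro R F hF
      left
      rw [h𝓕]
      obtain ⟨c, hc⟩ := (sylIn_top R).toSylow
      exact ⟨c, F, by rw [hc]; exact hF, by rw [top_inf_eq]⟩)
    (by
      intro M hM hreg
      right
      rw [h𝓕']
      exact ⟨hM, hreg⟩)
    _ ((S : Subgroup G) ⊓ (T : Subgroup G)) rfl hint S T inf_le_left inf_le_right
  exact to_chain hmain

end Cfsg.Agent.S2956
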