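import Cfsg.Statements.S2957
import Cfsg.Agent.S2956
import Cfsg.Agent.Lib.Helper16.Basic

set_option autoImplicit false
open Cfsg

namespace Cfsg.Agent.S2957

section aux

open Cfsg.Agent.S2939 Cfsg.Agent.S2956

variable {G : Type*} [Group G] {p : ℕ}

theorem rc_normalizer (g : G) (F : Subgroup G) :
    subgroupConjRight g (Subgroup.normalizer (F : Set G)) =
      Subgroup.normalizer ((subgroupConjRight g F : Subgroup G) : Set G) :=
  (Cfsg.Agent.Lib.Helper16.normalizer_cj g⁻¹ F).symm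

theorem sylIn_of_le [Finite G] [Fact p.Prime] (R : Sylow p G) {M : Subgroup G}
    (hR : (R : Subgroup G) ≤ M) : SylIn p (R : Subgroup G) M :=
  ⟨hR, by rw [vp_eq (sylIn_top R) hR le_top]; exact (sylIn_top R).2⟩

theorem card_of_sylIn [Finite G] [Fact p.Prime] (S : Sylow p G) {M P : Subgroup G}
    (hS : (S : Subgroup G) ≤ M) (hP : SylIn p P M) :
    Nat.card P = p ^ (Nat.card G).factorization p := by
  rw [hP.2, ← (sylIn_of_le S hS).2]
  exact S.card_eq_multiplicity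

theorem fam_mem [Finite G] [Fact p.Prime] (f : Subgroup G → Set (Subgroup G)) (R : Sylow p G)
    (F : Subgroup G) (hF : F ∈ f (R : Subgroup G)) :
    Subgroup.normalizer (F : Set G) ∈ functorFamily p f ⊤ := by
  obtain ⟨c, hc⟩ := (sylIn_top R).toSylow
  exact ⟨c, F, by rw [hc]; exact hF, by rw [top_inf_eq]⟩

theorem fam_normal [Finite G] [Fact p.Prime] {f : Subgroup G → Set (Subgroup G)}
    (hf : IsNormalizerFunctor p f) : IsNormalSet (functorFamily p f (⊤ : Subgroup G)) := by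
  rintro X ⟨c, F, hF, rfl⟩ g
  have h0 := SylIn.ofSylow c
  have h1 : SylIn p (subgroupConjRight g ((c : Subgroup (⊤ : Subgroup G)).map
      (⊤ : Subgroup G).subtype)) ⊤ := ⟨le_top, by rw [card_rc]; exact h0.2⟩
  obtain ⟨c', hc'⟩ := h1.toSylow
  refine ⟨c', subgroupConjRight g F, ?_, ?_⟩
  · rw [hc']
    exact f_rc hf h0.isPGroup hF g
  · rw [top_inf_eq, top_inf_eq, rc_normalizer]

theorem link_conj [Finite G] [Fact p.Prime] {𝒢 : Set (Subgroup G)} (h𝒢 : IsNormalSet 𝒢)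
    {D : Subgroup G} {S₁ S₂ : Sylow p G} (g : G) (h : Link p 𝒢 D S₁ S₂) :
    Link p 𝒢 (subgroupConjRight g D) (sc g S₁) (sc g S₂) := by
  obtain ⟨X, x, h1, h2, h3, h4, h5, h6, h7⟩ := h
  refine ⟨subgroupConjRight g X, g⁻¹ * x * g, ?_, ?_, ?_, ?_, ?_, ?_, rc_mono h7⟩
  · rw [coe_sc]; exact sylowMembers_rc h𝒢 g h1
  · rw [coe_sc]; exact sylowMembers_rc h𝒢 g h2
  · rw [mem_rc]
    have e : g * (g⁻¹ * x * g) * g⁻¹ = x := by group
    rw [e]; exact h3
  · rw [coe_sc, coe_sc, ← rc_mul, ← h4, ← rc_mul]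
    congr 1
    group
  · rw [coe_sc]; exact rc_mono h5
  · rw [coe_sc]; exact rc_mono h6

theorem conn_conj [Finite G] [Fact p.Prime] {𝒢 : Set (Subgroup G)} (h𝒢 : IsNormalSet 𝒢)
    {D : Subgroup G} {S T : Sylow p G} (g : G) (h : Conn p 𝒢 D S T) :
    Conn p 𝒢 (subgroupConjRight g D) (sc g S) (sc g T) := by
  induction h with
  | refl => exact .refl
  | tail _ hbc ih => exact ih.tail (link_conj h𝒢 g hbc)

theorem conn_of_regular [Finite G] [Fact p.Prime] {f : Subgroup G → Set (Subgroup G)}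
    (hf : IsNormalizerFunctor p f) (M : Subgroup G) (hreg : IsFunctorRegular p f M)
    (E : Subgroup G) (hE : E ≠ ⊥) (R R' : Sylow p G) (hR : (R : Subgroup G) ≤ M)
    (hR' : (R' : Subgroup G) ≤ M) (hER : E ≤ (R : Subgroup G)) (hER' : E ≤ (R' : Subgroup G)) :
    Conn p (functorFamily p f (⊤ : Subgroup G)) E R R' := by
  by_cases heq : R = R'
  · rw [heq]
  obtain ⟨c₁, hc₁⟩ := (sylIn_of_le R hR).toSylow
  obtain ⟨c₂, hc₂⟩ := (sylIn_of_le R' hR').toSylow
  have hne : c₁ ≠ c₂ := by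
    rintro rfl
    exact heq (Sylow.ext (hc₁.symm.trans hc₂))
  have hDmap : E ≤ ((c₁ : Subgroup M) ⊓ (c₂ : Subgroup M)).map M.subtype := by
    rw [Subgroup.map_inf_eq _ _ _ M.subtype_injective, hc₁, hc₂]
    exact le_inf hER hER'
  have hint : (c₁ : Subgroup M) ⊓ (c₂ : Subgroup M) ≠ ⊥ := by
    intro h0
    rw [h0, Subgroup.map_bot] at hDmap
    exact hE (le_bot_iff.1 hDmap)
  obtain ⟨n, c, X, x, h0, hn, hstep⟩ := hreg c₁ c₂ hne hint
  have hall : ∀ j : Fin (n + 1), E ≤ ((c j : Subgroup M)).map M.subtype ∧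
      ∀ Rj : Sylow p G, (Rj : Subgroup G) = ((c j : Subgroup M)).map M.subtype →
        Conn p (functorFamily p f (⊤ : Subgroup G)) E R Rj := by
    intro j
    induction j using Fin.induction with
    | zero =>
      rw [h0, hc₁]
      refine ⟨hER, fun Rj hRj => ?_⟩
      rw [Sylow.ext hRj]
    | succ i ih2 =>
      obtain ⟨hD1, ih2⟩ := ih2
      obtain ⟨hX1, hX2, hx, hconj, hle⟩ := hstep i
      have hP₁ := SylIn.ofSylow (c i.castSucc)
      have hP₂ := SylIn.ofSylow (c i.succ)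
      have hD2 : E ≤ ((c i.succ : Subgroup M)).map M.subtype :=
        hDmap.trans ((Subgroup.map_mono hle).trans (Subgroup.map_mono inf_le_left))
      obtain ⟨⟨Y, ⟨P₀, F, hF, rfl⟩, hXeq⟩, hcard1⟩ := mem_sylowMembers_iff.1 hX1
      have hcard2 := (mem_sylowMembers_iff.1 hX2).2
      simp only at hXeq
      rw [← hXeq] at hcard1 hcard2 hx
      have hF1 := mem_f_of_member hf M P₀ (c i.castSucc) F hF hcard1
      have hF2 := mem_f_of_member hf M P₀ (c i.succ) F hF hcard2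
      have hxN : ((x i : M) : G) ∈ Subgroup.normalizer (F : Set G) :=
        (Subgroup.mem_subgroupOf.1 hx).2
      have hconj' : subgroupConjRight ((x i : M) : G) ((c i.succ : Subgroup M).map M.subtype) =
          (c i.castSucc : Subgroup M).map M.subtype := by
        rw [← map_rc, hconj]
      refine ⟨hD2, fun Rj hRj => ?_⟩
      obtain ⟨R₁, hR₁⟩ : ∃ R₁ : Sylow p G, (R₁ : Subgroup G) =
          (c i.castSucc : Subgroup M).map M.subtype :=
        ⟨Sylow.ofCard _ (card_of_sylIn R hR hP₁), Sylow.coe_ofCard _ _⟩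
      refine (ih2 R₁ hR₁).tail ?_
      have hNF1 := ((hf _ hP₁.isPGroup).1 F hF1).2
      have hNF2 := ((hf _ hP₂.isPGroup).1 F hF2).2
      refine ⟨Subgroup.normalizer (F : Set G), ((x i : M) : G), ?_, ?_, hxN, ?_, ?_, ?_, ?_⟩
      · exact member_of_le R₁ (fam_mem f R₁ F (hR₁ ▸ hF1))
          (hR₁ ▸ (Subgroup.le_normalizer.trans hNF1))
      · exact member_of_le Rj (fam_mem f Rj F (hRj ▸ hF2))
          (hRj ▸ (Subgroup.le_normalizer.trans hNF2))
      · rw [hRj, hR₁]; exact hconj'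
      · rw [hR₁]; exact hD1
      · rw [hRj]; exact hD2
      · exact hD2.trans (Subgroup.le_normalizer.trans hNF2)
  exact (hall (Fin.last n)).2 R' (by rw [hn, hc₂])

theorem rc_ne_bot {g : G} {A : Subgroup G} (hA : A ≠ ⊥) : subgroupConjRight g A ≠ ⊥ := by
  intro h
  apply hA
  have := congrArg (subgroupConjRight g⁻¹) h
  rw [rc_inv_rc] at this
  rw [this]
  exact Subgroup.map_bot _

theorem base_case [Finite G] [Fact p.Prime] {f : Subgroup G → Set (Subgroup G)}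
    (hf : IsNormalizerFunctor p f) (S : Sylow p G)
    (G₁ G₂ : Subgroup G) (h₁ : (S : Subgroup G) ≤ G₁) (h₂ : (S : Subgroup G) ≤ G₂)
    (hprod : ∀ g : G, ∃ g₁ ∈ G₁, ∃ g₂ ∈ G₂, g = g₁ * g₂)
    (hr₁ : IsFunctorRegular p f G₁) (hr₂ : IsFunctorRegular p f G₂)
    (A : Subgroup G) (hA : A ≠ ⊥) (hAS : A ≤ (S : Subgroup G)) (T : Sylow p G)
    (hAT : A ≤ (T : Subgroup G)) : Conn p (functorFamily p f (⊤ : Subgroup G)) A S T := by
  obtain ⟨t, ht⟩ := exists_sc S T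
  obtain ⟨g₁, hg₁, g₂, hg₂, rfl⟩ := hprod t
  have hAp : IsPGroup p A := S.2.to_le hAS
  have h3 : subgroupConjRight (g₁ * g₂) A ≤ (S : Subgroup G) := by
    have := rc_mono (g := g₁ * g₂) hAT
    rwa [ht, rc_rc_inv] at this
  have h4 : subgroupConjRight g₁ A ≤ G₁ := by
    have := rc_mono (g := g₁) (hAS.trans h₁)
    rwa [rc_of_mem hg₁] at this
  have h5 : subgroupConjRight g₁ A ≤ G₂ := by
    rw [rc_mul] at h3
    have := rc_mono (g := g₂⁻¹) (h3.trans h₂)
    rwa [rc_inv_rc, rc_of_mem (G₂.inv_mem hg₂)] at this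
  have hSI : SylIn p (S : Subgroup G) (G₁ ⊓ G₂) := sylIn_of_le S (le_inf h₁ h₂)
  obtain ⟨l, hl, hle⟩ := Cfsg.Agent.Lib.Helper13.TwoConj.sylconj (p := p) (G₁ ⊓ G₂) S
    (subgroupConjRight g₁ A) hSI.1 (le_inf h4 h5) S.2 (hAp.map _)
    (fun P'' a b c => hSI.max a b c)
  have hlI : l ∈ G₁ ⊓ G₂ := Subgroup.map_subtype_le _ hl
  rw [map_conj_eq_rc] at hle
  have h6 : subgroupConjRight (g₁ * l) A ≤ (S : Subgroup G) := by
    rw [rc_mul]
    have := rc_mono (g := l) hle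
    rwa [rc_rc_inv] at this
  have huG : g₁ * l ∈ G₁ := G₁.mul_mem hg₁ hlI.1
  have hvG : l⁻¹ * g₂ ∈ G₂ := G₂.mul_mem (G₂.inv_mem hlI.2) hg₂
  have huv : (g₁ * l) * (l⁻¹ * g₂) = g₁ * g₂ := by group
  -- first part
  have hS₁ : (sc (g₁ * l)⁻¹ S : Subgroup G) ≤ G₁ := by
    rw [coe_sc, ← rc_of_mem (G₁.inv_mem huG)]
    exact rc_mono h₁
  have hAS₁ : A ≤ (sc (g₁ * l)⁻¹ S : Subgroup G) := by
    rw [coe_sc]
    have := rc_mono (g := (g₁ * l)⁻¹) h6
    rwa [rc_inv_rc] at this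
  have c1 := conn_of_regular hf G₁ hr₁ A hA S (sc (g₁ * l)⁻¹ S) h₁ hS₁ hAS hAS₁
  -- second part
  have hS₂ : (sc (l⁻¹ * g₂)⁻¹ S : Subgroup G) ≤ G₂ := by
    rw [coe_sc, ← rc_of_mem (G₂.inv_mem hvG)]
    exact rc_mono h₂
  have hES₂ : subgroupConjRight (g₁ * l) A ≤ (sc (l⁻¹ * g₂)⁻¹ S : Subgroup G) := by
    rw [coe_sc]
    have h7 : subgroupConjRight (l⁻¹ * g₂) (subgroupConjRight (g₁ * l) A) ≤ (S : Subgroup G) := by
      rw [← rc_mul, huv]; exact h3
    have := rc_mono (g := (l⁻¹ * g₂)⁻¹) h7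
    rwa [rc_inv_rc] at this
  have c2 := conn_of_regular hf G₂ hr₂ (subgroupConjRight (g₁ * l) A) (rc_ne_bot hA) S
    (sc (l⁻¹ * g₂)⁻¹ S) h₂ hS₂ h6 hES₂
  have c3 := conn_conj (fam_normal hf) (g₁ * l)⁻¹ c2
  rw [rc_inv_rc] at c3
  have hT : sc (g₁ * l)⁻¹ (sc (l⁻¹ * g₂)⁻¹ S) = T := by
    apply Sylow.ext
    rw [coe_sc, coe_sc, ht, ← rc_mul, ← mul_inv_rev, huv]
  rw [hT] at c3
  exact c1.trans c3

theorem general_case [Finite G] [Fact p.Prime] {f : Subgroup G → Set (Subgroup G)}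
    (hf : IsNormalizerFunctor p f) (S : Sylow p G)
    (G₁ G₂ : Subgroup G) (h₁ : (S : Subgroup G) ≤ G₁) (h₂ : (S : Subgroup G) ≤ G₂)
    (hprod : ∀ g : G, ∃ g₁ ∈ G₁, ∃ g₂ ∈ G₂, g = g₁ * g₂)
    (hr₁ : IsFunctorRegular p f G₁) (hr₂ : IsFunctorRegular p f G₂)
    (D : Subgroup G) (hD : D ≠ ⊥) (P P' : Sylow p G) (hDP : D ≤ (P : Subgroup G))
    (hDP' : D ≤ (P' : Subgroup G)) : Conn p (functorFamily p f (⊤ : Subgroup G)) D P P' := by
  obtain ⟨g, hg⟩ := exists_sc S P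
  have h1 : subgroupConjRight g D ≤ (S : Subgroup G) := by
    have := rc_mono (g := g) hDP
    rwa [hg, rc_rc_inv] at this
  have h2 : subgroupConjRight g D ≤ (sc g P' : Subgroup G) := by
    rw [coe_sc]; exact rc_mono hDP'
  have c1 := base_case hf S G₁ G₂ h₁ h₂ hprod hr₁ hr₂ _ (rc_ne_bot hD) h1 (sc g P') h2
  have c2 := conn_conj (fam_normal hf) g⁻¹ c1
  rw [rc_inv_rc] at c2
  have e1 : sc g⁻¹ S = P := Sylow.ext (by rw [coe_sc, hg])
  have e2 : sc g⁻¹ (sc g P') = P' := Sylow.ext (by rw [coe_sc, coe_sc, rc_inv_rc])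
  rwa [e1, e2] at c2

theorem to_top [Finite G] [Fact p.Prime] {f : Subgroup G → Set (Subgroup G)}
    (hmain : ∀ (D : Subgroup G), D ≠ ⊥ → ∀ P P' : Sylow p G, D ≤ (P : Subgroup G) →
      D ≤ (P' : Subgroup G) → Conn p (functorFamily p f (⊤ : Subgroup G)) D P P') :
    IsFunctorRegular p f (⊤ : Subgroup G) := by
  intro c₁ c₂ _ hint
  have hup : ∀ c : Sylow p (⊤ : Subgroup G), ∃ R : Sylow p G, (R : Subgroup G) =
      (c : Subgroup (⊤ : Subgroup G)).map (⊤ : Subgroup G).subtype := by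
    intro c
    refine ⟨Sylow.ofCard _ ?_, Sylow.coe_ofCard _ _⟩
    rw [(SylIn.ofSylow c).2, Subgroup.card_top]
  have hdown : ∀ R : Sylow p G, ∃ c : Sylow p (⊤ : Subgroup G),
      (c : Subgroup (⊤ : Subgroup G)).map (⊤ : Subgroup G).subtype = R :=
    fun R => (sylIn_top R).toSylow
  choose down hdown' using hdown
  have hinj : ∀ c c' : Sylow p (⊤ : Subgroup G),
      (c : Subgroup (⊤ : Subgroup G)).map (⊤ : Subgroup G).subtype =
      (c' : Subgroup (⊤ : Subgroup G)).map (⊤ : Subgroup G).subtype → c = c' := by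
    intro c c' h
    exact Sylow.ext (Subgroup.map_injective (⊤ : Subgroup G).subtype_injective h)
  obtain ⟨R₁, hR₁⟩ := hup c₁
  obtain ⟨R₂, hR₂⟩ := hup c₂
  have hmapinf : ((c₁ : Subgroup (⊤ : Subgroup G)) ⊓ c₂).map (⊤ : Subgroup G).subtype =
      (R₁ : Subgroup G) ⊓ R₂ := by
    rw [Subgroup.map_inf_eq _ _ _ (⊤ : Subgroup G).subtype_injective, hR₁, hR₂]
  have hD : (R₁ : Subgroup G) ⊓ R₂ ≠ ⊥ := by
    rw [← hmapinf]
    intro h
    exact hint ((Subgroup.map_eq_bot_iff_of_injective _ (⊤ : Subgroup G).subtype_injective).1 h)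
  obtain ⟨n, c, X, x, h0, hn, hstep⟩ := to_chain (hmain _ hD R₁ R₂ inf_le_left inf_le_right)
  have hXmap : ∀ Y : Subgroup G, (Y.subgroupOf ⊤).map (⊤ : Subgroup G).subtype = Y :=
    fun Y => Subgroup.map_subgroupOf_eq_of_le le_top
  have hmem : ∀ (Y : Subgroup G) (R : Sylow p G),
      Y ∈ sylowMembers p (functorFamily p f (⊤ : Subgroup G)) (R : Subgroup G) →
      Y.subgroupOf ⊤ ∈ sylowMembers p ((fun X : Subgroup G => X.subgroupOf ⊤) ''
        functorFamily p f (⊤ : Subgroup G)) (down R : Subgroup (⊤ : Subgroup G)) := by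
    intro Y R hY
    rw [mem_sylowMembers_iff] at hY ⊢
    refine ⟨⟨Y, hY.1, rfl⟩, ?_⟩
    rw [← Subgroup.card_map_of_injective (⊤ : Subgroup G).subtype_injective,
      Subgroup.map_inf_eq _ _ _ (⊤ : Subgroup G).subtype_injective, hXmap, hdown', hY.2,
      Nat.card_congr (Subgroup.subgroupOfEquivOfLe (le_top : Y ≤ ⊤)).toEquiv]
  refine ⟨n, fun j => down (c j), fun i => (X i).subgroupOf ⊤,
    fun i => ⟨x i, Subgroup.mem_top _⟩, ?_, ?_, ?_⟩
  · apply hinj
    rw [hdown', h0, hR₁]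
  · apply hinj
    rw [hdown', hn, hR₂]
  · intro i
    obtain ⟨a1, a2, a3, a4, a5⟩ := hstep i
    refine ⟨hmem _ _ a1, hmem _ _ a2, Subgroup.mem_subgroupOf.2 a3, ?_, ?_⟩
    · apply Subgroup.map_injective (⊤ : Subgroup G).subtype_injective
      rw [map_rc, hdown', hdown']
      exact a4
    · apply (Subgroup.map_le_map_iff_of_injective (⊤ : Subgroup G).subtype_injective).1
      rw [hmapinf, Subgroup.map_inf_eq _ _ _ (⊤ : Subgroup G).subtype_injective, hXmap, hdown']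
      exact a5

end aux


/-- Let p be a prime dividing the order of the finite group G, f an equivariant assignment of a set of subgroups f(P) of P to every p-subgroup P, each normalized by N_G(P), and S a Sylow p-subgroup. If G = G₁G₂ for subgroups G₁, G₂ both containing S and both regular for f (in each Gᵢ, the family of normalizers in Gᵢ of the members of f(P), P a Sylow p-subgroup of Gᵢ, controls Sylow p-intersections), then G itself is regular for f. -/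
theorem result {G : Type*} [Group G] [Finite G] (p : ℕ) [Fact p.Prime] (hdiv : p ∣ Nat.card G)
    (f : Subgroup G → Set (Subgroup G)) (hf : Cfsg.IsNormalizerFunctor p f) (S : Sylow p G)
    (G₁ G₂ : Subgroup G) (h₁ : (S : Subgroup G) ≤ G₁) (h₂ : (S : Subgroup G) ≤ G₂)
    (hprod : ∀ g : G, ∃ g₁ ∈ G₁, ∃ g₂ ∈ G₂, g = g₁ * g₂)
    (hr₁ : Cfsg.IsFunctorRegular p f G₁) (hr₂ : Cfsg.IsFunctorRegular p f G₂) :
    Cfsg.IsFunctorRegular p f ⊤ := by
  exact to_top (fun D hD P P' h1 h2 =>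
    general_case hf S G₁ G₂ h₁ h₂ hprod hr₁ hr₂ D hD P P' h1 h2)

end Cfsg.Agent.S2957
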