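import Cfsg.Statements.S2958
-- import your own Cfsg.Agent.* helpers here

set_option autoImplicit false
open Cfsg

namespace Cfsg.Agent.S2958

/-- Let X, A, B be subgroups of a group G such that G is generated by the conjugates of X and every conjugate of X is contained in A or in B. Then A = G or B = G. -/
theorem result {G : Type*} [Group G] (X A B : Subgroup G) (hgen : (⨆ g : G, X.map (MulAut.conj g).toMonoidHom) = ⊤) (hcover : ∀ g : G, X.map (MulAut.conj g).toMonoidHom ≤ A ∨ X.map (MulAut.conj g).toMonoidHom ≤ B) : A = ⊤ ∨ B = ⊤ := by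
  classical
  by_cases hA : ∀ g : G, X.map (MulAut.conj g).toMonoidHom ≤ A
  · left
    rw [eq_top_iff, ← hgen]
    exact iSup_le hA
  · right
    push Not at hA
    obtain ⟨g₀, hg₀⟩ := hA
    have hconj : ∀ a g : G, (X.map (MulAut.conj g).toMonoidHom).map (MulAut.conj a).toMonoidHom
        = X.map (MulAut.conj (a * g)).toMonoidHom := by
      intro a g
      rw [Subgroup.map_map]
      congr 1
      ext x
      simp [mul_assoc]
    let N : Subgroup G := ⨆ g : {g : G // ¬ X.map (MulAut.conj g).toMonoidHom ≤ A},
      X.map (MulAut.conj (g : G)).toMonoidHom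
    have hNB : N ≤ B := iSup_le fun g => (hcover g).resolve_left g.2
    have hAN : ∀ a ∈ A, N.map (MulAut.conj a).toMonoidHom ≤ N := by
      intro a ha
      rw [Subgroup.map_iSup]
      refine iSup_le fun g => ?_
      rw [hconj]
      have hnot : ¬ X.map (MulAut.conj (a * g)).toMonoidHom ≤ A := by
        intro h
        apply g.2
        have h2 : X.map (MulAut.conj (g : G)).toMonoidHom
            = (X.map (MulAut.conj (a * g)).toMonoidHom).map (MulAut.conj a⁻¹).toMonoidHom := by
          rw [hconj]; simp
        rw [h2]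
        rintro _ ⟨y, hy, rfl⟩
        have hyA : y ∈ A := h hy
        simpa using A.mul_mem (A.mul_mem (A.inv_mem ha) hyA) ha
      exact le_iSup (fun g : {g : G // ¬ X.map (MulAut.conj g).toMonoidHom ≤ A} =>
        X.map (MulAut.conj (g : G)).toMonoidHom) ⟨a * g, hnot⟩
    have hAnorm : A ≤ Subgroup.normalizer (N : Set G) := by
      rw [Subgroup.le_normalizer_iff]
      intro a ha n hn
      exact hAN a ha ⟨n, hn, rfl⟩
    have hall : ∀ g : G, X.map (MulAut.conj g).toMonoidHom ≤ Subgroup.normalizer (N : Set G) := by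
      intro g
      by_cases h : X.map (MulAut.conj g).toMonoidHom ≤ A
      · exact h.trans hAnorm
      · exact (le_iSup (fun g : {g : G // ¬ X.map (MulAut.conj g).toMonoidHom ≤ A} =>
          X.map (MulAut.conj (g : G)).toMonoidHom) ⟨g, h⟩).trans Subgroup.le_normalizer
    have htop : Subgroup.normalizer (N : Set G) = ⊤ := by
      rw [eq_top_iff, ← hgen]
      exact iSup_le hall
    have hNn : N.Normal := Subgroup.normalizer_eq_top_iff.mp htop
    have hg₀N : X.map (MulAut.conj g₀).toMonoidHom ≤ N :=
      le_iSup (fun g : {g : G // ¬ X.map (MulAut.conj g).toMonoidHom ≤ A} =>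
          X.map (MulAut.conj (g : G)).toMonoidHom) ⟨g₀, hg₀⟩
    have hallN : ∀ g : G, X.map (MulAut.conj g).toMonoidHom ≤ N := by
      intro g
      have h2 : X.map (MulAut.conj g).toMonoidHom
          = (X.map (MulAut.conj g₀).toMonoidHom).map (MulAut.conj (g * g₀⁻¹)).toMonoidHom := by
        rw [hconj]; simp
      rw [h2]
      rintro _ ⟨y, hy, rfl⟩
      exact hNn.conj_mem y (hg₀N hy) _
    rw [eq_top_iff, ← hgen]
    exact (iSup_le hallN).trans hNB

end Cfsg.Agent.S2958
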