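import Cfsg.Statements.S2963
import Mathlib

set_option autoImplicit false
open Cfsg

namespace Cfsg.Agent.S2963

/-- Let n be odd. If the symmetric group of degree n is a minimal parabolic group for the prime 2, that is, a Sylow 2-subgroup is not normal and lies in exactly one maximal subgroup, then n = 2^m + 1 for some natural number m. -/
theorem result (n : ℕ) (hn : Odd n) (h : Cfsg.IsPMinimal 2 (Equiv.Perm (Fin n))) : ∃ m : ℕ, n = 2 ^ m + 1 := by
  haveI : Fact (Nat.Prime 2) := ⟨Nat.prime_two⟩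
  obtain ⟨S⟩ : Nonempty (Sylow 2 (Equiv.Perm (Fin n))) := inferInstance
  obtain ⟨hnn, M, ⟨hM, hSM⟩, huniq⟩ := h S
  have hn3 : 3 ≤ n := by
    by_contra hlt
    have h1 : n = 1 := by
      obtain ⟨k, hk⟩ := hn
      omega
    subst h1
    apply hnn
    have : (S : Subgroup (Equiv.Perm (Fin 1))) = ⊥ := Subsingleton.elim _ _
    rw [this]
    infer_instance
  haveI : Nontrivial (Fin n) := Fin.nontrivial_iff_two_le.mpr (by omega)
  obtain ⟨x, hx⟩ := S.2.nonempty_fixed_point_of_prime_not_dvd_card (Fin n) (by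
    rw [Nat.card_eq_fintype_card, Fintype.card_fin]
    exact hn.not_two_dvd_nat)
  have hSx : (S : Subgroup (Equiv.Perm (Fin n))) ≤ MulAction.stabilizer (Equiv.Perm (Fin n)) x := by
    intro σ hσ
    exact hx ⟨σ, hσ⟩
  have hMx : MulAction.stabilizer (Equiv.Perm (Fin n)) x = M :=
    huniq _ ⟨MulAction.IsPreprimitive.isCoatom_stabilizer_of_isPreprimitive _ x, hSx⟩
  obtain ⟨y, hy⟩ := exists_ne x
  obtain ⟨k, hk⟩ := S.2.card_orbit y
  by_contra hcon
  obtain ⟨Δ, hΔ⟩ : ∃ Δ : Set (Fin n), Δ = MulAction.orbit (S : Subgroup (Equiv.Perm (Fin n))) y :=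
    ⟨_, rfl⟩
  have hxΔ : x ∉ Δ := by
    rw [hΔ]
    rintro ⟨σ, hσ⟩
    apply hy
    have h1 : σ⁻¹ • x = x := hx σ⁻¹
    have h2 : σ • y = x := hσ
    rw [← h2, inv_smul_smul] at h1
    rw [← h2, ← h1]
  have hyΔ : y ∈ Δ := hΔ ▸ MulAction.mem_orbit_self y
  have hcard : Δ.ncard = 2 ^ k := by
    rw [hΔ, ← hk]; rfl
  -- a point outside Δ ∪ {x}
  obtain ⟨z, hzΔ, hzx⟩ : ∃ z, z ∉ Δ ∧ z ≠ x := by
    by_contra hno
    push Not at hno
    apply hcon
    refine ⟨k, ?_⟩
    have h1 : Δ = {x}ᶜ := by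
      ext a
      simp only [Set.mem_compl_iff, Set.mem_singleton_iff]
      constructor
      · rintro ha rfl
        exact hxΔ ha
      · intro ha
        by_contra haΔ
        exact ha (hno a haΔ)
    have h2 := Set.ncard_add_ncard_compl ({x} : Set (Fin n))
    rw [← h1, hcard, Set.ncard_singleton, Nat.card_eq_fintype_card, Fintype.card_fin] at h2
    omega
  let H : Subgroup (Equiv.Perm (Fin n)) :=
    { carrier := {σ | ∀ a, σ a ∈ Δ ↔ a ∈ Δ}
      one_mem' := fun a => Iff.rfl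
      mul_mem' := fun {σ τ} hσ hτ a => by
        rw [Equiv.Perm.mul_apply, hσ, hτ]
      inv_mem' := fun {σ} hσ a => by
        have := hσ (σ⁻¹ a)
        have e : σ (σ⁻¹ a) = a := by simp
        rw [e] at this
        exact this.symm }
  have hSH : (S : Subgroup (Equiv.Perm (Fin n))) ≤ H := by
    intro σ hσ a
    rw [hΔ]
    constructor
    · rintro ⟨τ, hτ⟩
      refine ⟨(⟨σ, hσ⟩ : (S : Subgroup (Equiv.Perm (Fin n))))⁻¹ * τ, ?_⟩
      have h2 : τ • y = σ a := hτ
      show ((⟨σ, hσ⟩ : (S : Subgroup (Equiv.Perm (Fin n))))⁻¹ * τ) • y = a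
      rw [mul_smul, h2]
      show σ⁻¹ (σ a) = a
      simp
    · rintro ⟨τ, hτ⟩
      refine ⟨(⟨σ, hσ⟩ : (S : Subgroup (Equiv.Perm (Fin n)))) * τ, ?_⟩
      have h2 : τ • y = a := hτ
      show ((⟨σ, hσ⟩ : (S : Subgroup (Equiv.Perm (Fin n)))) * τ) • y = σ a
      rw [mul_smul, h2]
      rfl
  have hHtop : H ≠ ⊤ := by
    intro htop
    have h1 : Equiv.swap y z ∈ H := htop ▸ Subgroup.mem_top _
    have h2 := (h1 y).mpr hyΔ
    rw [Equiv.swap_apply_left] at h2
    exact hzΔ h2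
  obtain ⟨M', hM', hHM'⟩ := (eq_top_or_exists_le_coatom H).resolve_left hHtop
  have hM'M : M' = M := huniq _ ⟨hM', hSH.trans hHM'⟩
  have h3 : Equiv.swap x z ∈ H := by
    intro a
    by_cases hax : a = x
    · subst hax
      rw [Equiv.swap_apply_left]
      exact ⟨fun h0 => absurd h0 hzΔ, fun h0 => absurd h0 hxΔ⟩
    · by_cases haz : a = z
      · subst haz
        rw [Equiv.swap_apply_right]
        exact ⟨fun h0 => absurd h0 hxΔ, fun h0 => absurd h0 hzΔ⟩
      · rw [Equiv.swap_apply_of_ne_of_ne hax haz]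
  have h4 : Equiv.swap x z ∈ MulAction.stabilizer (Equiv.Perm (Fin n)) x := by
    rw [hMx, ← hM'M]
    exact hHM' h3
  rw [MulAction.mem_stabilizer_iff, Equiv.Perm.smul_def, Equiv.swap_apply_left] at h4
  exact hzx h4

end Cfsg.Agent.S2963
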