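import Cfsg.Statements.S2998
import Cfsg.Agent.H17.SylIn

set_option autoImplicit false
open Cfsg

namespace Cfsg.Agent.S2998

/-- Let G be a finite group, p a prime, P a Sylow p-subgroup of G and x ∈ P an element such that N_G(R) ≤ C_G(x) for every nontrivial subgroup R of P. Then P ≤ C_G(x); every G-conjugate of x lying in P equals x (so g ∈ C_G(x) whenever g x g⁻¹ ∈ P); and for every normal subgroup N of G, the image of x in G ⧸ N has the same property with respect to the image of P: the normalizer of every nontrivial subgroup of the image of P centralizes the image of x. -/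
theorem result {G : Type*} [Group G] [Finite G] {p : ℕ} [Fact p.Prime] (P : Sylow p G) (x : G) (hxP : x ∈ (P : Subgroup G)) (hlc : ∀ R : Subgroup G, R ≤ (P : Subgroup G) → R ≠ ⊥ → Subgroup.normalizer (R : Set G) ≤ Subgroup.centralizer ({x} : Set G)) : (P : Subgroup G) ≤ Subgroup.centralizer ({x} : Set G) ∧ (∀ g : G, g * x * g⁻¹ ∈ (P : Subgroup G) → g * x * g⁻¹ = x) ∧ ∀ (N : Subgroup G) [N.Normal], ∀ R : Subgroup (G ⧸ N), R ≤ (P : Subgroup G).map (QuotientGroup.mk' N) → R ≠ ⊥ → Subgroup.normalizer (R : Set (G ⧸ N)) ≤ Subgroup.centralizer ({(QuotientGroup.mk x : G ⧸ N)} : Set (G ⧸ N)) := by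
  have h1 : (P : Subgroup G) ≤ Subgroup.centralizer ({x} : Set G) := by
    by_cases hP : (P : Subgroup G) = ⊥
    · rw [hP]; exact bot_le
    · exact Subgroup.le_normalizer.trans (hlc P le_rfl hP)
  refine ⟨h1, ?_, ?_⟩
  · intro g hg
    by_cases hx1 : x = 1
    · simp [hx1]
    have hPne : (P : Subgroup G) ≠ ⊥ := by
      intro h
      rw [h, Subgroup.mem_bot] at hxP
      exact hx1 hxP
    have hz : Subgroup.zpowers (g * x * g⁻¹) ≤ (P : Subgroup G) := Subgroup.zpowers_le.mpr hg
    have hz1 : Subgroup.zpowers (g * x * g⁻¹) ≠ ⊥ := by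
      rw [Ne, Subgroup.zpowers_eq_bot, conj_eq_one_iff]
      exact hx1
    have h2 : Subgroup.centralizer ({g * x * g⁻¹} : Set G) ≤ Subgroup.centralizer ({x} : Set G) :=
      (H17.centralizer_singleton_le_normalizer_zpowers _).trans (hlc _ hz hz1)
    have h3 : (P : Subgroup G).map (MulAut.conj g).toMonoidHom
        ≤ Subgroup.centralizer ({x} : Set G) := by
      refine le_trans ?_ h2
      rintro _ ⟨u, hu, rfl⟩
      have hux := Subgroup.mem_centralizer_singleton_iff.mp (h1 hu)
      refine Subgroup.mem_centralizer_singleton_iff.mpr ?_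
      simp only [MulEquiv.coe_toMonoidHom, MulAut.conj_apply]
      calc g * u * g⁻¹ * (g * x * g⁻¹) = g * (u * x) * g⁻¹ := by group
        _ = g * (x * u) * g⁻¹ := by rw [hux]
        _ = g * x * g⁻¹ * (g * u * g⁻¹) := by group
    have hS : H17.IsSylIn p (P : Subgroup G) (Subgroup.centralizer ({x} : Set G)) :=
      (H17.sylow_isSylIn_top P).of_le h1 le_top
    obtain ⟨c, hc, hcP⟩ := hS.exists_conj_le (P.2.map _) h3
    have h4 : c * g ∈ Subgroup.normalizer ((P : Subgroup G) : Set G) := by
      apply H17.mem_normalizer_of_map_conj_le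
      rintro _ ⟨u, hu, rfl⟩
      have := hcP ⟨g * u * g⁻¹, ⟨u, hu, rfl⟩, rfl⟩
      simpa [mul_assoc] using this
    have h5 : c * g ∈ Subgroup.centralizer ({x} : Set G) := hlc P le_rfl hPne h4
    have h6 : g ∈ Subgroup.centralizer ({x} : Set G) := by
      have := mul_mem (inv_mem hc) h5
      simpa using this
    have h7 := Subgroup.mem_centralizer_singleton_iff.mp h6
    rw [h7]; group
  · intro N _ R hR hR1 gbar hgbar
    obtain ⟨g, rfl⟩ := QuotientGroup.mk'_surjective N gbar
    -- the preimage of `R`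
    have hNM : N ≤ R.comap (QuotientGroup.mk' N) := by
      intro n hn
      rw [Subgroup.mem_comap]
      have : (QuotientGroup.mk' N) n = 1 := (QuotientGroup.eq_one_iff n).mpr hn
      rw [this]; exact R.one_mem
    have hsplit : ∀ m ∈ R.comap (QuotientGroup.mk' N), ∃ u ∈ (P : Subgroup G) ⊓ R.comap (QuotientGroup.mk' N),
        u⁻¹ * m ∈ N := by
      intro m hm
      obtain ⟨u, hu, hum⟩ := hR (Subgroup.mem_comap.mp hm)
      refine ⟨u, ⟨hu, ?_⟩, ?_⟩
      · show (QuotientGroup.mk' N) u ∈ R
        rw [hum]; exact hm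
      · exact QuotientGroup.eq.mp hum
    have hM : ((P : Subgroup G) ⊓ R.comap (QuotientGroup.mk' N)) ⊔ N = R.comap (QuotientGroup.mk' N) := by
      apply le_antisymm (sup_le inf_le_right hNM)
      intro m hm
      obtain ⟨u, hu, hum⟩ := hsplit m hm
      have : m = u * (u⁻¹ * m) := by group
      rw [this]
      exact Subgroup.mul_mem_sup hu hum
    have hS := H17.sylow_inf_isSylIn_of_sup_eq P hNM hM
    have hgN : g ∈ Subgroup.normalizer ((R.comap (QuotientGroup.mk' N) : Subgroup G) : Set G) :=
      Subgroup.le_normalizer_comap _ (Subgroup.mem_comap.mpr hgbar)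
    obtain ⟨m, hm, hmg⟩ := hS.frattini hgN
    have hne : (P : Subgroup G) ⊓ R.comap (QuotientGroup.mk' N) ≠ ⊥ := by
      intro hbot
      apply hR1
      rw [eq_bot_iff]
      intro r hr
      obtain ⟨r', rfl⟩ := QuotientGroup.mk'_surjective N r
      obtain ⟨u, hu, hum⟩ := hsplit r' hr
      rw [hbot, Subgroup.mem_bot] at hu
      rw [hu] at hum
      rw [Subgroup.mem_bot]
      exact (QuotientGroup.eq_one_iff r').mpr (by simpa using hum)
    have h5 : m * g ∈ Subgroup.centralizer ({x} : Set G) := hlc _ inf_le_left hne hmg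
    -- the image of `m` centralizes the image of `x`
    obtain ⟨u, hu, hum⟩ := hsplit m hm
    have h6 : u ∈ Subgroup.centralizer ({x} : Set G) := h1 hu.1
    have himg : ∀ z ∈ Subgroup.centralizer ({x} : Set G), (QuotientGroup.mk' N) z ∈
        Subgroup.centralizer ({(QuotientGroup.mk x : G ⧸ N)} : Set (G ⧸ N)) := by
      intro z hz
      refine Subgroup.mem_centralizer_singleton_iff.mpr ?_
      have := Subgroup.mem_centralizer_singleton_iff.mp hz
      have h8 := congrArg (QuotientGroup.mk' N) this
      simpa using h8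
    have h7 : (QuotientGroup.mk' N) m = (QuotientGroup.mk' N) u := (QuotientGroup.eq.mpr hum).symm
    have h8 := himg _ h5
    have h9 := himg _ h6
    rw [map_mul, h7] at h8
    have := mul_mem (inv_mem h9) h8
    simpa using this

end Cfsg.Agent.S2998
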