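import Cfsg.Statements.S3003
import Cfsg.Agent.Lib.Helper13.GenCoprime
import Cfsg.Agent.H17.ExtClosed2

set_option autoImplicit false
open Cfsg

namespace Cfsg.Agent.S3003

open Subgroup

theorem coatom_or_eq {G : Type*} [Group G] [Finite G] {p : ℕ} [hp : Fact p.Prime] (U B : Subgroup G)
    (hU : Cfsg.IsElementaryAbelian p U) (hBU : B ≤ U) (a : G) (ha : a ∈ U)
    (hBa : B ⊔ zpowers a = U) : B = U ∨ IsCoatom (B.subgroupOf U) := by
  by_cases hB : B = U
  · exact Or.inl hB
  right
  constructor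
  · intro h
    rw [subgroupOf_eq_top] at h
    exact hB (le_antisymm hBU h)
  · intro X hX
    rw [eq_top_iff]
    -- there is x in X not in B
    obtain ⟨x, hxX, hxB⟩ := SetLike.exists_of_lt hX
    have hxU : (x : G) ∈ B ⊔ zpowers a := by rw [hBa]; exact x.2
    have hnorm : zpowers a ≤ normalizer (B : Set G) := by
      rw [zpowers_le, mem_normalizer_iff]
      intro b
      have hcomm : ∀ b ∈ U, a * b * a⁻¹ = b := by
        intro b hb
        have := hU.1
        have h2 := congrArg (Subtype.val : U → G) (mul_comm' (⟨a, ha⟩ : U) ⟨b, hb⟩)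
        simp only [Subgroup.coe_mul] at h2
        rw [h2]; group
      constructor
      · intro hb
        rw [hcomm b (hBU hb)]; exact hb
      · intro hb
        have h3 : a * b * a⁻¹ ∈ U := hBU hb
        have h4 : b ∈ U := by
          have := U.mul_mem (U.mul_mem (U.inv_mem ha) h3) ha
          simpa [mul_assoc] using this
        rw [hcomm b h4] at hb; exact hb
    rw [← SetLike.mem_coe, Subgroup.coe_mul_of_right_le_normalizer_left _ _ hnorm] at hxU
    obtain ⟨b, hb, c, hc, hbc⟩ := hxU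
    have hBX : B ≤ X.map U.subtype := by
      intro y hy
      exact ⟨⟨y, hBU hy⟩, hX.le (mem_subgroupOf.mpr hy), rfl⟩
    have hcX : c ∈ X.map U.subtype := by
      have : c = b⁻¹ * x := by rw [← hbc]; group
      rw [this]
      exact mul_mem (inv_mem (hBX hb)) ⟨x, hxX, rfl⟩
    have hcB : c ∉ B := by
      intro h
      apply hxB
      rw [mem_subgroupOf, ← hbc]
      exact mul_mem hb h
    have hc1 : c ≠ 1 := fun h => hcB (h ▸ B.one_mem)
    have ha1 : a ≠ 1 := by
      rintro rfl
      rw [SetLike.mem_coe, zpowers_one_eq_bot, mem_bot] at hc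
      exact hc1 hc
    have hoa : orderOf a = p := orderOf_eq_prime (hU.2 a ha) ha1
    have hcard : Nat.card (zpowers a) = p * Nat.card (⊥ : Subgroup G) := by
      rw [Nat.card_zpowers, hoa, Subgroup.card_bot, mul_one]
    have hle : zpowers c ≤ zpowers a := by rw [zpowers_le]; exact hc
    rcases Cfsg.Agent.H17.eq_or_eq_of_card_prime hp.out bot_le hle hcard with h | h
    · rw [zpowers_eq_bot] at h; exact absurd h hc1
    · have hUX : U ≤ X.map U.subtype := by
        calc U = B ⊔ zpowers c := by rw [h, hBa]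
          _ ≤ X.map U.subtype := sup_le hBX (by rw [zpowers_le]; exact hcX)
      intro y _
      obtain ⟨y', hy', hyy⟩ := hUX y.2
      have : y' = y := Subtype.ext hyy
      rwa [← this]

/-- Let G be a finite group, p a prime and Q a large p-subgroup of G: C_G(Q) ≤ Q and N_G(U) ≤ N_G(Q) for every nontrivial subgroup U of C_G(Q). Let Q ≤ G₁ ≤ G, let R be a subgroup of order prime to p normalized by G₁, and let U ≤ G₁ be a p-subgroup. If U contains a nontrivial element which is G₁-conjugate to an element of Z(Q), then C_R(U) = 1. In particular, if U is elementary abelian of order at least p² and every maximal subgroup of U contains a nontrivial element G₁-conjugate into Z(Q), then R = 1. -/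
theorem result {G : Type*} [Group G] [Finite G] {p : ℕ} [Fact p.Prime] (Q : Subgroup G) (hQp : IsPGroup p ↥Q) (hlarge : Cfsg.IsLarge Q) (G₁ : Subgroup G) (hQG : Q ≤ G₁) (R : Subgroup G) (hR : (Nat.card ↥R).Coprime p) (hGR : G₁ ≤ Subgroup.normalizer (R : Set G)) (U : Subgroup G) (hUG : U ≤ G₁) (hUp : IsPGroup p ↥U) : ((∃ x ∈ U, x ≠ 1 ∧ ∃ g ∈ G₁, g * x * g⁻¹ ∈ Q ⊓ Subgroup.centralizer (Q : Set G)) → R ⊓ Subgroup.centralizer (U : Set G) = ⊥) ∧ (Cfsg.IsElementaryAbelian p U → p ^ 2 ≤ Nat.card ↥U → (∀ U₀ : Subgroup G, U₀ ≤ U → IsCoatom (U₀.subgroupOf U) → ∃ x ∈ U₀, x ≠ 1 ∧ ∃ g ∈ G₁, g * x * g⁻¹ ∈ Q ⊓ Subgroup.centralizer (Q : Set G)) → R = ⊥) := by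
  have hQR : Q ⊓ R = ⊥ := by
    apply Disjoint.eq_bot
    apply Subgroup.disjoint_of_coprime_natCard
    obtain ⟨n, hn⟩ := hQp.exists_card_eq
    rw [hn]
    exact (Nat.Coprime.pow_right n hR).symm
  have key : ∀ z ∈ Q ⊓ centralizer (Q : Set G), z ≠ 1 → ∀ r ∈ R, r * z = z * r → r = 1 := by
    intro z hz hz1 r hr hrz
    have hzc : zpowers z ≤ centralizer (Q : Set G) := by rw [zpowers_le]; exact hz.2
    have hzne : zpowers z ≠ ⊥ := by rwa [Ne, zpowers_eq_bot]
    have hN := hlarge.2 _ hzc hzne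
    have hrN : r ∈ normalizer (zpowers z : Set G) := by
      apply Subgroup.centralizer_le_normalizer
      rw [mem_centralizer_iff]
      intro y hy
      obtain ⟨k, rfl⟩ := hy
      exact ((Commute.zpow_right (show Commute r z from hrz) k)).symm
    have hrQ : r ∈ normalizer (Q : Set G) := hN hrN
    have hrc : r ∈ centralizer (Q : Set G) := by
      rw [mem_centralizer_iff]
      intro q hq
      have h1 : q * r * q⁻¹ * r⁻¹ ∈ Q ⊓ R := by
        constructor
        · have : q * r * q⁻¹ * r⁻¹ = q * (r * q⁻¹ * r⁻¹) := by group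
          rw [this]
          exact Q.mul_mem hq ((mem_normalizer_iff.mp hrQ _).mp (Q.inv_mem hq))
        · exact R.mul_mem ((mem_normalizer_iff.mp (hGR (hQG hq)) _).mp hr) (R.inv_mem hr)
      rw [hQR, mem_bot] at h1
      have : q * r = (q * r * q⁻¹ * r⁻¹) * (r * q) := by group
      rw [this, h1, one_mul]
    have : r ∈ Q ⊓ R := ⟨hlarge.1 hrc, hr⟩
    rwa [hQR, mem_bot] at this
  have part1 : ∀ U' : Subgroup G, (∃ x ∈ U', x ≠ 1 ∧ ∃ g ∈ G₁, g * x * g⁻¹ ∈ Q ⊓ Subgroup.centralizer (Q : Set G)) → R ⊓ Subgroup.centralizer (U' : Set G) = ⊥ := by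
    rintro U' ⟨x, hx, hx1, g, hg, hgx⟩
    rw [eq_bot_iff]
    rintro r ⟨hr, hrc⟩
    rw [mem_bot]
    have hrx : x * r = r * x := (mem_centralizer_iff.mp hrc) x hx
    have h1 : g * x * g⁻¹ ≠ 1 := by
      intro h
      apply hx1
      have : x = g⁻¹ * (g * x * g⁻¹) * g := by group
      rw [this, h]; group
    have h2 := key _ hgx h1 (g * r * g⁻¹) ((mem_normalizer_iff.mp (hGR hg) _).mp hr) (by
      have e1 : g * r * g⁻¹ * (g * x * g⁻¹) = g * (r * x) * g⁻¹ := by group
      have e2 : g * x * g⁻¹ * (g * r * g⁻¹) = g * (x * r) * g⁻¹ := by group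
      rw [e1, e2, hrx])
    have : r = g⁻¹ * (g * r * g⁻¹) * g := by group
    rw [this, h2]; group
  refine ⟨part1 U, ?_⟩
  intro hUe hUc hall
  have := hUe.1
  have hcop : (Nat.card U).Coprime (Nat.card R) := by
    obtain ⟨n, hn⟩ := hUp.exists_card_eq
    rw [hn]
    exact (Nat.Coprime.pow_right n hR).symm
  have hgen := Cfsg.Agent.Lib.Helper13.gen_eq U R (hUG.trans hGR) hcop
  rw [← hgen, eq_bot_iff]
  apply iSup₂_le
  intro B hB
  obtain ⟨hBU, a, ha, hBa⟩ := hB
  rw [← eq_bot_iff]
  apply part1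
  rcases coatom_or_eq U B hUe hBU a ha hBa with h | h
  · -- B = U, take any coatom
    have hnt : Nontrivial U := by
      rw [← Finite.one_lt_card_iff_nontrivial]
      have := (Fact.out : p.Prime).two_le
      nlinarith
    obtain ⟨X, hX⟩ : ∃ X : Subgroup U, IsCoatom X := by
      obtain ⟨X, hX, _⟩ := (eq_top_or_exists_le_coatom (⊥ : Subgroup U)).resolve_left bot_ne_top
      exact ⟨X, hX⟩
    obtain ⟨x, hx, hx1, hh⟩ := hall (X.map U.subtype) (map_subtype_le _) (by
      rw [subgroupOf, comap_map_eq_self_of_injective U.subtype_injective]; exact hX)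
    exact ⟨x, h ▸ (map_subtype_le _ hx), hx1, hh⟩
  · exact hall B hBU h

end Cfsg.Agent.S3003
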