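import Cfsg.Statements.S3006
import Cfsg.Agent.H17.CD2

set_option autoImplicit false
open scoped Pointwise
open Cfsg

namespace Cfsg.Agent.S3006

/-- Let P be a finite p-group, Q a centrally large subgroup of P (|Q|·|Z(Q)| maximal among subgroups of P) and A an abelian subgroup of P of largest order. Then QA = AQ is a centrally large subgroup of P, C_{QA}(Q ∩ A) = Z(Q)·A, and the subgroup generated by all centrally large subgroups of P contains C_P(Z(J(P))), where J(P) is generated by the abelian subgroups of largest order. -/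
theorem result {p : ℕ} [Fact p.Prime] (P : Type*) [Group P] [Finite P] (hP : IsPGroup p P) (Q A : Subgroup P) (hQ : Cfsg.IsCentrallyLarge Q) (hA : A ∈ Cfsg.maxAbelianSubgroups P) : ((Q ⊔ A : Subgroup P) : Set P) = (Q : Set P) * (A : Set P) ∧ Cfsg.IsCentrallyLarge (Q ⊔ A) ∧ (Q ⊔ A) ⊓ Subgroup.centralizer ((Q ⊓ A : Subgroup P) : Set P) = (Q ⊓ Subgroup.centralizer (Q : Set P)) ⊔ A ∧ (((Q ⊓ Subgroup.centralizer (Q : Set P)) ⊔ A : Subgroup P) : Set P) = ((Q ⊓ Subgroup.centralizer (Q : Set P)) : Set P) * (A : Set P) ∧ Subgroup.centralizer ((Cfsg.thompsonSubgroupA P ⊓ Subgroup.centralizer (Cfsg.thompsonSubgroupA P : Set P) : Subgroup P) : Set P) ≤ Cfsg.centrallyLargeJoin P := by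
  rw [H17.isCentrallyLarge_iff] at hQ
  simp only [H17.isCentrallyLarge_iff]
  obtain ⟨a1, a2, a3, a4⟩ := H17.CLL.sup_maxAb hQ hA
  have hQ2 := ((H17.cll_iff Q).mp hQ).2
  have e : ((Q : Set P) ⊓ (Subgroup.centralizer (Q : Set P) : Set P))
      = (Subgroup.centralizer (Q : Set P) : Set P) :=
    inf_eq_right.mpr (SetLike.coe_subset_coe.mpr hQ2)
  rw [inf_eq_right.mpr hQ2, e]
  refine ⟨a1, a2, a3, a4, ?_⟩
  have hT : H17.CLL (Cfsg.centrallyLargeJoin P) := by
    unfold Cfsg.centrallyLargeJoin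
    apply H17.CLL.sSup_mem
    · exact ⟨Q, (H17.isCentrallyLarge_iff Q).mpr hQ⟩
    · intro H hH
      exact (H17.isCentrallyLarge_iff H).mp hH
  apply H17.centralizer_ZJ_le hT
  intro B hB
  have h1 := (H17.CLL.sup_maxAb hT hB).2.1
  have h2 : Cfsg.centrallyLargeJoin P ⊔ B ≤ Cfsg.centrallyLargeJoin P :=
    le_sSup ((H17.isCentrallyLarge_iff _).mpr h1)
  exact le_sup_right.trans h2

end Cfsg.Agent.S3006
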