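import Cfsg.Statements.S3012
import Cfsg.Agent.H17.Elem

set_option autoImplicit false
open Cfsg

namespace Cfsg.Agent.S3012

/-- Let G be a finite group, V a nontrivial elementary abelian 2-subgroup of G satisfying the Sidki pair condition (every odd-order element inverted by an element of V commutes with a nontrivial element of V), and K a normal subgroup of G with V ∩ K = 1. Then the image of V in G/K satisfies the Sidki pair condition in G/K. -/
theorem result {G : Type*} [Group G] [Finite G] (V K : Subgroup G) [K.Normal] (hV : Cfsg.IsElementaryAbelian 2 V) (hV1 : V ≠ ⊥) (hS : Cfsg.IsSidkiPair V) (hVK : V ⊓ K = ⊥) : Cfsg.IsSidkiPair (V.map (QuotientGroup.mk' K)) := by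
  intro hbar vbar hvbar hodd hinv
  obtain ⟨v, hv, rfl⟩ := hvbar
  obtain ⟨h₀, rfl⟩ := QuotientGroup.mk'_surjective K hbar
  have hv2 : v * v = 1 := by
    have := hV.2 v hv
    rwa [pow_two] at this
  have hvinv : v⁻¹ = v := inv_eq_of_mul_eq_one_left hv2
  -- `c = [v, h₀]` is inverted by `v`
  have hcinv : v * (v * h₀ * v⁻¹ * h₀⁻¹) * v⁻¹ = (v * h₀ * v⁻¹ * h₀⁻¹)⁻¹ := by
    rw [hvinv]
    calc v * (v * h₀ * v * h₀⁻¹) * v = (v * v) * h₀ * v * h₀⁻¹ * v := by group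
      _ = h₀ * v * h₀⁻¹ * v := by rw [hv2, one_mul]
      _ = h₀ * v⁻¹ * h₀⁻¹ * v⁻¹ := by rw [hvinv]
      _ = (v * h₀ * v * h₀⁻¹)⁻¹ := by group
  obtain ⟨a, ha⟩ := H17.exists_pow_coprime_order 2 (v * h₀ * v⁻¹ * h₀⁻¹)
  have hc'inv : v * ((v * h₀ * v⁻¹ * h₀⁻¹) ^ 2 ^ a) * v⁻¹ = ((v * h₀ * v⁻¹ * h₀⁻¹) ^ 2 ^ a)⁻¹ := by
    rw [← conj_pow, hcinv, inv_pow]
  obtain ⟨w, hw, hw1, hwc⟩ := hS _ v hv ((H17.odd_iff_coprime_two _).mpr ha) hc'inv
  refine ⟨QuotientGroup.mk' K w, ⟨w, hw, rfl⟩, ?_, ?_⟩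
  · intro h1
    have h2 : w ∈ K := (QuotientGroup.eq_one_iff w).mp h1
    have h3 : w ∈ V ⊓ K := ⟨hw, h2⟩
    rw [hVK, Subgroup.mem_bot] at h3
    exact hw1 h3
  · -- the image of `c` is `h̄⁻²`
    have himg : QuotientGroup.mk' K (v * h₀ * v⁻¹ * h₀⁻¹)
        = ((QuotientGroup.mk' K h₀) ^ 2)⁻¹ := by
      rw [map_mul, map_inv, map_mul, map_mul, map_inv, hinv, pow_two, mul_inv_rev]
    have hcomm : Commute (QuotientGroup.mk' K w) ((QuotientGroup.mk' K h₀) ^ (2 * 2 ^ a)) := by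
      have h1 : Commute (QuotientGroup.mk' K w)
          (QuotientGroup.mk' K ((v * h₀ * v⁻¹ * h₀⁻¹) ^ 2 ^ a)) := by
        unfold Commute SemiconjBy
        rw [← map_mul, ← map_mul, hwc]
      rw [map_pow, himg, inv_pow, ← pow_mul] at h1
      exact (Commute.inv_right_iff).mp h1
    have hcop : (2 * 2 ^ a).Coprime (orderOf (QuotientGroup.mk' K h₀)) := by
      rw [← pow_succ']
      exact (Nat.Coprime.pow_left _ ((H17.odd_iff_coprime_two _).mp hodd).symm)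
    exact (H17.commute_of_commute_pow hcop hcomm).eq

end Cfsg.Agent.S3012
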