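import Cfsg.Statements.S3013
import Cfsg.Agent.H17.Elem

set_option autoImplicit false
open Cfsg

namespace Cfsg.Agent.S3013

/-- Let G be a finite group and V a nontrivial elementary abelian 2-subgroup of G satisfying the Sidki pair condition. Let v ∈ V and let x be an element of odd order inverted by v, and put C = C_G(v) ∩ C_G(x), the centralizer of the dihedral subgroup generated by v and x. Then C ∩ V is nontrivial and satisfies the Sidki pair condition inside C: every odd-order element of C inverted by an element of C ∩ V commutes with a nontrivial element of C ∩ V. -/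
theorem result {G : Type*} [Group G] [Finite G] (V : Subgroup G) (hV : Cfsg.IsElementaryAbelian 2 V) (hV1 : V ≠ ⊥) (hS : Cfsg.IsSidkiPair V) (v x : G) (hv : v ∈ V) (hx : Odd (orderOf x)) (hinv : v * x * v⁻¹ = x⁻¹) (C : Subgroup G) (hC : C = Subgroup.centralizer ({v} : Set G) ⊓ Subgroup.centralizer ({x} : Set G)) : C ⊓ V ≠ ⊥ ∧ Cfsg.IsSidkiPair ((C ⊓ V).subgroupOf C) := by
  subst hC
  have hVc : ∀ a ∈ V, ∀ b ∈ V, a * b = b * a := by
    intro a ha b hb
    have := hV.1.is_comm.comm ⟨a, ha⟩ ⟨b, hb⟩
    exact congrArg Subtype.val this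
  constructor
  · obtain ⟨w, hw, hw1, hwx⟩ := hS x v hv hx hinv
    intro hbot
    have : w ∈ (Subgroup.centralizer ({v} : Set G) ⊓ Subgroup.centralizer ({x} : Set G)) ⊓ V :=
      ⟨⟨Subgroup.mem_centralizer_singleton_iff.mpr (hVc w hw v hv),
        Subgroup.mem_centralizer_singleton_iff.mpr hwx⟩, hw⟩
    rw [hbot, Subgroup.mem_bot] at this
    exact hw1 this
  · intro h u hu hodd hinvh
    have huV : (u : G) ∈ V := (Subgroup.mem_subgroupOf.mp hu).2
    have hhv : (h : G) * v = v * h := Subgroup.mem_centralizer_singleton_iff.mp h.2.1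
    have hhx : (h : G) * x = x * h := Subgroup.mem_centralizer_singleton_iff.mp h.2.2
    have hux : (u : G) * x = x * u := Subgroup.mem_centralizer_singleton_iff.mp u.2.2
    have hinvh' : (u : G) * h * (u : G)⁻¹ = (h : G)⁻¹ := by
      have := congrArg Subtype.val hinvh
      simpa using this
    have hodd' : Odd (orderOf (h : G)) := by
      rwa [Subgroup.orderOf_coe]
    have hux' : (u : G) * x * (u : G)⁻¹ = x := by rw [hux]; group
    have hvh' : v * (h : G) * v⁻¹ = h := by rw [← hhv]; group
    have hvh'' : v * (h : G)⁻¹ * v⁻¹ = (h : G)⁻¹ := by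
      rw [← conj_inv, hvh']
    have hty : (v * u) * (x * h) * (v * u)⁻¹ = (x * h)⁻¹ := by
      calc (v * (u : G)) * (x * h) * (v * u)⁻¹
          = v * (((u : G) * x * (u : G)⁻¹) * ((u : G) * h * (u : G)⁻¹)) * v⁻¹ := by group
        _ = v * (x * (h : G)⁻¹) * v⁻¹ := by rw [hux', hinvh']
        _ = (v * x * v⁻¹) * (v * (h : G)⁻¹ * v⁻¹) := by group
        _ = x⁻¹ * (h : G)⁻¹ := by rw [hinv, hvh'']
        _ = ((h : G) * x)⁻¹ := by group
        _ = (x * h)⁻¹ := by rw [hhx]
    have hyodd : Odd (orderOf (x * (h : G))) := by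
      have hc : Commute x (h : G) := hhx.symm
      exact Odd.of_dvd_nat (hx.mul hodd') hc.orderOf_mul_dvd_mul_orderOf
    obtain ⟨w, hw, hw1, hwy⟩ := hS (x * h) (v * u) (V.mul_mem hv huV) hyodd hty
    have hwv : Commute w v := hVc w hw v hv
    have hwy' : Commute w (x * (h : G)) := hwy
    have h1 : Commute w (v * (x * (h : G)) * v⁻¹) := (hwv.mul_right hwy').mul_right hwv.inv_right
    have h2 : v * (x * (h : G)) * v⁻¹ = x⁻¹ * h := by
      calc v * (x * (h : G)) * v⁻¹ = (v * x * v⁻¹) * (v * h * v⁻¹) := by group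
        _ = x⁻¹ * h := by rw [hinv, hvh']
    rw [h2] at h1
    have h3 : Commute w ((h : G) ^ 2) := by
      have h4 := hwy'.mul_right h1
      have h5 : x * (h : G) * (x⁻¹ * h) = (h : G) ^ 2 := by
        calc x * (h : G) * (x⁻¹ * h) = ((h : G) * x) * (x⁻¹ * h) := by rw [hhx]
          _ = (h : G) * h := by group
          _ = (h : G) ^ 2 := (pow_two _).symm
      rwa [h5] at h4
    have hwh : Commute w (h : G) :=
      H17.commute_of_commute_pow ((H17.odd_iff_coprime_two _).mp hodd').symm h3
    have hwx : Commute w x := by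
      have h4 := hwy'.mul_right hwh.inv_right
      simpa using h4
    have hwC : w ∈ Subgroup.centralizer ({v} : Set G) ⊓ Subgroup.centralizer ({x} : Set G) :=
      ⟨Subgroup.mem_centralizer_singleton_iff.mpr hwv.eq,
        Subgroup.mem_centralizer_singleton_iff.mpr hwx.eq⟩
    refine ⟨⟨w, hwC⟩, Subgroup.mem_subgroupOf.mpr ⟨hwC, hw⟩, ?_, ?_⟩
    · intro h6
      exact hw1 (congrArg Subtype.val h6)
    · exact Subtype.ext hwh.eq

end Cfsg.Agent.S3013
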