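import Cfsg.Statements.S3025
import Cfsg.Agent.H17.UniqueP

set_option autoImplicit false
open Cfsg

namespace Cfsg.Agent.S3025

/-- Let F be a finite group and H a nontrivial subgroup of F that is contained in every nontrivial subgroup of F which H normalizes. Then F has a nontrivial normal subgroup N contained in every nontrivial normal subgroup of F (a unique minimal normal subgroup), N is simple, and one of the following holds: C_F(N) = 1; or H = N has prime order p, C_F(N) is cyclic of order a power of p, and F/C_F(N) is cyclic of order dividing p − 1; or H = N has order 2, N is central in F, and F is a generalized quaternion group. -/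
theorem result {F : Type*} [Group F] [Finite F] (H : Subgroup F) (hH : H ≠ ⊥)
    (hmin : ∀ R : Subgroup F, R ≠ ⊥ → H ≤ Subgroup.normalizer (R : Set F) → H ≤ R) :
    ∃ N : Subgroup F, N.Normal ∧ N ≠ ⊥ ∧ (∀ M : Subgroup F, M.Normal → M ≠ ⊥ → N ≤ M) ∧ IsSimpleGroup ↥N ∧
      (Subgroup.centralizer (N : Set F) = ⊥ ∨
       (H = N ∧ (Nat.card N).Prime ∧ IsCyclic ↥(Subgroup.centralizer (N : Set F)) ∧
          (∃ k : ℕ, 1 ≤ k ∧ Nat.card ↥(Subgroup.centralizer (N : Set F)) = Nat.card N ^ k) ∧
          (∃ g : F, Subgroup.centralizer (N : Set F) ⊔ Subgroup.zpowers g = ⊤) ∧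
          (Subgroup.centralizer (N : Set F)).index ∣ Nat.card N - 1) ∨
       (H = N ∧ Nat.card N = 2 ∧ Subgroup.centralizer (N : Set F) = ⊤ ∧
          ∃ k : ℕ, 1 ≤ k ∧ Nonempty (F ≃* QuaternionGroup (2 ^ k)))) := by
  classical
  obtain ⟨N, hN⟩ : ∃ N : Subgroup F, N = Subgroup.normalClosure (H : Set F) := ⟨_, rfl⟩
  have hHN : H ≤ N := by rw [hN]; exact Subgroup.le_normalClosure
  haveI hNn : N.Normal := by rw [hN]; exact Subgroup.normalClosure_normal
  have hN1 : N ≠ ⊥ := fun h => hH (le_bot_iff.mp (h ▸ hHN))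
  have hmin1 : ∀ M : Subgroup F, M.Normal → M ≠ ⊥ → N ≤ M := by
    intro M hM hM1
    rw [hN]
    apply Subgroup.normalClosure_le_normal
    exact hmin M hM1 (by rw [Subgroup.normalizer_eq_top]; exact le_top)
  have hsimple : IsSimpleGroup N := by
    haveI : Nontrivial N := (Subgroup.nontrivial_iff_ne_bot N).mpr hN1
    refine ⟨fun K hK => ?_⟩
    by_cases hK1 : K = ⊥
    · exact Or.inl hK1
    right
    have hK' : K.map N.subtype ≠ ⊥ := by
      intro h
      exact hK1 ((Subgroup.map_eq_bot_iff_of_injective K N.subtype_injective).mp h)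
    have hcore : H ≤ (K.map N.subtype).normalCore := by
      intro h hh b
      have hR : H ≤ (K.map N.subtype).map (MulAut.conj b⁻¹).toMonoidHom := by
        apply hmin
        · intro h0
          exact hK' ((Subgroup.map_eq_bot_iff_of_injective _ (MulAut.conj b⁻¹).injective).mp h0)
        · intro x hx
          rw [Subgroup.mem_normalizer_iff]
          have hxN : b * x * b⁻¹ ∈ N := hNn.conj_mem x (hHN hx) b
          intro y
          constructor
          · rintro ⟨_, ⟨k, hk, rfl⟩, rfl⟩
            refine ⟨b * x * b⁻¹ * k * (b * x * b⁻¹)⁻¹,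
              ⟨⟨b * x * b⁻¹, hxN⟩ * k * ⟨b * x * b⁻¹, hxN⟩⁻¹, hK.conj_mem k hk _, rfl⟩, ?_⟩
            simp [MulAut.conj_apply]
            group
          · rintro ⟨_, ⟨k, hk, rfl⟩, hy⟩
            refine ⟨(b * x * b⁻¹)⁻¹ * k * (b * x * b⁻¹),
              ⟨⟨b * x * b⁻¹, hxN⟩⁻¹ * k * ⟨b * x * b⁻¹, hxN⟩, ?_, rfl⟩, ?_⟩
            · have := hK.conj_mem k hk (⟨b * x * b⁻¹, hxN⟩⁻¹)
              simpa using this
            · simp only [MulEquiv.coe_toMonoidHom, MulAut.conj_apply, Subgroup.coe_subtype,
                inv_inv] at hy ⊢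
              have : y = x⁻¹ * (x * y * x⁻¹) * x := by group
              rw [this, ← hy]
              group
      obtain ⟨z, hz, hzh⟩ := hR hh
      simp only [MulEquiv.coe_toMonoidHom, MulAut.conj_apply, inv_inv] at hzh
      have : b * h * b⁻¹ = z := by rw [← hzh]; group
      rw [this]; exact hz
    have h1 : N ≤ K.map N.subtype := by
      refine le_trans ?_ (Subgroup.normalCore_le _)
      have h0 : Subgroup.normalClosure (H : Set F) ≤ (K.map N.subtype).normalCore :=
        Subgroup.normalClosure_le_normal hcore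
      exact hN.le.trans h0
    rw [eq_top_iff]
    intro x _
    obtain ⟨k, hk, hkx⟩ := h1 x.2
    have : k = x := Subtype.ext hkx
    rwa [← this]
  refine ⟨N, hNn, hN1, hmin1, hsimple, ?_⟩
  by_cases hC : Subgroup.centralizer (N : Set F) = ⊥
  · exact Or.inl hC
  right
  have hNC : N ≤ Subgroup.centralizer (N : Set F) := hmin1 _ inferInstance hC
  have hcomm : ∀ a b : N, a * b = b * a := by
    intro a b
    apply Subtype.ext
    have := Subgroup.mem_centralizer_iff.mp (hNC a.2) b b.2
    exact this.symm
  have hprime : (Nat.card N).Prime := by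
    letI : CommGroup N := { (inferInstance : Group N) with mul_comm := hcomm }
    exact IsSimpleGroup.prime_card
  obtain ⟨p, hp⟩ : ∃ p, p = Nat.card N := ⟨_, rfl⟩
  haveI hpf : Fact p.Prime := ⟨hp ▸ hprime⟩
  have hHeq : H = N := by
    apply Subgroup.eq_of_le_of_card_ge hHN
    have h1 : Nat.card H ∣ Nat.card N := Subgroup.card_dvd_of_le hHN
    rcases (Nat.dvd_prime hprime).mp h1 with h | h
    · exact absurd (Subgroup.card_eq_one.mp h) hH
    · exact h.ge
  have hsub : ∀ R : Subgroup F, R ≠ ⊥ → R ≤ Subgroup.centralizer (N : Set F) → N ≤ R := by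
    intro R hR hRC
    rw [← hHeq]
    apply hmin R hR
    rw [hHeq]
    intro x hx
    rw [Subgroup.mem_normalizer_iff]
    intro y
    constructor
    · intro hy
      have := Subgroup.mem_centralizer_iff.mp (hRC hy) x hx
      rw [this]; simpa using hy
    · intro hy
      have := Subgroup.mem_centralizer_iff.mp (hRC hy) x hx
      have h2 : x * y * x⁻¹ = y := by
        have h3 : x * (x * y * x⁻¹) = x * y := by rw [this]; group
        exact mul_left_cancel h3
      rwa [h2] at hy
  -- order-q elements
  have hord : ∀ x : F, x ∈ Subgroup.centralizer (N : Set F) → ∀ q : ℕ, q.Prime → orderOf x = q →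
      q = p ∧ Subgroup.zpowers x = N := by
    intro x hx q hq hxq
    have h1 : N ≤ Subgroup.zpowers x := by
      apply hsub
      · intro h
        rw [Subgroup.zpowers_eq_bot] at h
        rw [h, orderOf_one] at hxq
        exact hq.one_lt.ne hxq
      · exact Subgroup.zpowers_le.mpr hx
    have h2 : Nat.card N ∣ Nat.card (Subgroup.zpowers x) := Subgroup.card_dvd_of_le h1
    rw [Nat.card_zpowers, hxq, ← hp] at h2
    have h3 : p = q := (Nat.prime_dvd_prime_iff_eq hpf.out hq).mp h2
    refine ⟨h3.symm, (Subgroup.eq_of_le_of_card_ge h1 ?_).symm⟩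
    rw [Nat.card_zpowers, hxq, ← hp, h3]
  have hcard : ∃ k, Nat.card (Subgroup.centralizer (N : Set F)) = p ^ k := by
    refine ⟨_, Nat.eq_prime_pow_of_unique_prime_dvd Nat.card_pos.ne' ?_⟩
    intro q hq hqd
    haveI : Fact q.Prime := ⟨hq⟩
    obtain ⟨x, hx⟩ := exists_prime_orderOf_dvd_card' q hqd
    exact (hord x x.2 q hq (by rw [Subgroup.orderOf_coe]; exact hx)).1
  obtain ⟨k, hk⟩ := hcard
  have hk1 : 1 ≤ k := by
    rcases Nat.eq_zero_or_pos k with h | h
    · rw [h, pow_zero] at hk
      exact absurd (Subgroup.card_eq_one.mp hk) hC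
    · exact h
  have hPG : IsPGroup p (Subgroup.centralizer (N : Set F)) := IsPGroup.of_card hk
  have huop : Cfsg.Agent.H17.UOP p (Subgroup.centralizer (N : Set F)) := by
    intro x y hx hy
    have h1 := (hord x x.2 p hpf.out (by rw [Subgroup.orderOf_coe]; exact hx)).2
    have h2 := (hord y y.2 p hpf.out (by rw [Subgroup.orderOf_coe]; exact hy)).2
    have h3 : (y : F) ∈ Subgroup.zpowers (x : F) := by
      have h4 : Subgroup.zpowers (x : F) = Subgroup.zpowers (y : F) := h1.trans h2.symm
      rw [h4]; exact Subgroup.mem_zpowers _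
    obtain ⟨n, hn⟩ := Subgroup.mem_zpowers_iff.mp h3
    exact Subgroup.mem_zpowers_iff.mpr ⟨n, Subtype.ext (by simpa using hn)⟩
  -- action on N
  have hker : (MulAut.conjNormal (H := N)).ker = Subgroup.centralizer (N : Set F) := by
    ext g
    rw [MonoidHom.mem_ker, Subgroup.mem_centralizer_iff]
    constructor
    · intro h n hn
      have := congrArg (fun f : MulAut N => ((f ⟨n, hn⟩ : N) : F)) h
      simp only [MulAut.conjNormal_apply, MulAut.one_apply] at this
      calc n * g = (g * n * g⁻¹) * g := by rw [this]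
        _ = g * n := by group
    · intro h
      ext n
      rw [MulAut.conjNormal_apply, MulAut.one_apply, ← h n n.2]
      group
  haveI hNcyc : IsCyclic N := isCyclic_of_prime_card hp.symm
  have e := IsCyclic.mulAutMulEquiv N
  rw [← hp] at e
  haveI : IsCyclic (MulAut N) := isCyclic_of_surjective e.symm e.symm.surjective
  have hcardAut : Nat.card (MulAut N) = p - 1 := by
    rw [Nat.card_congr e.toEquiv, Nat.card_eq_fintype_card, ZMod.card_units_eq_totient,
      Nat.totient_prime hpf.out]
  have hidx : (Subgroup.centralizer (N : Set F)).index ∣ p - 1 := by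
    rw [← hker, Subgroup.index_ker, ← hcardAut]
    exact Subgroup.card_subgroup_dvd_card _
  have hgen : ∃ g : F, Subgroup.centralizer (N : Set F) ⊔ Subgroup.zpowers g = ⊤ := by
    obtain ⟨⟨_, g, rfl⟩, hg⟩ := (inferInstance : IsCyclic (MulAut.conjNormal (H := N)).range).exists_generator
    refine ⟨g, ?_⟩
    rw [eq_top_iff]
    intro x _
    obtain ⟨n, hn⟩ := Subgroup.mem_zpowers_iff.mp (hg ⟨MulAut.conjNormal x, x, rfl⟩)
    have hn' : (MulAut.conjNormal (H := N) g) ^ n = MulAut.conjNormal x := by
      have := congrArg Subtype.val hn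
      simpa using this
    have h1 : x * (g ^ n)⁻¹ ∈ Subgroup.centralizer (N : Set F) := by
      rw [← hker, MonoidHom.mem_ker, map_mul, map_inv, map_zpow, hn', mul_inv_cancel]
    have h2 : x = (x * (g ^ n)⁻¹) * g ^ n := by group
    rw [h2]
    exact Subgroup.mul_mem_sup h1 (Subgroup.zpow_mem_zpowers g n)
  rcases (Cfsg.Agent.H17.uop_iff hPG).mp huop with hcyc | ⟨hp2, n, ⟨e2⟩⟩
  · left
    exact ⟨hHeq, hprime, hcyc, ⟨k, hk1, by rw [hk, hp]⟩, hgen, by rw [← hp]; exact hidx⟩
  · rcases Nat.eq_zero_or_pos n with hn | hn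
    · left
      subst hn
      have hcyc : IsCyclic (Subgroup.centralizer (N : Set F)) := by
        haveI := QuaternionGroup.quaternionGroup_one_isCyclic
        rw [pow_zero] at e2
        exact isCyclic_of_surjective e2.symm e2.symm.surjective
      exact ⟨hHeq, hprime, hcyc, ⟨k, hk1, by rw [hk, hp]⟩, hgen, by rw [← hp]; exact hidx⟩
    · right
      have htop : Subgroup.centralizer (N : Set F) = ⊤ := by
        rw [hp2] at hidx
        exact Subgroup.index_eq_one.mp (Nat.dvd_one.mp hidx)
      refine ⟨hHeq, by rw [← hp, hp2], htop, n, hn, ⟨?_⟩⟩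
      exact (Subgroup.topEquiv.symm.trans (MulEquiv.subgroupCongr htop.symm)).trans e2

end Cfsg.Agent.S3025
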