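import Cfsg.Statements.S3053
import Cfsg.Agent.Fus.GenExtra
import Cfsg.Agent.Fus.Grp

set_option autoImplicit false
open Cfsg

namespace Cfsg.Agent.S3053

/-- Let p be an odd prime and G a finite group with a Sylow p-subgroup P that is extraspecial of order p³ and exponent p². Then the centre of P is strongly closed in P with respect to G: a G-conjugate of an element of Z(P) that lies in P already lies in Z(P). In particular a nontrivial central element of P is conjugate in G to no noncentral element of P. -/
theorem result {G : Type*} [Group G] [Finite G]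
    {p : ℕ} [Fact p.Prime] (hp : p ≠ 2) (P : Sylow p G) (hE : Cfsg.IsExtraspecial p ↥P)
    (hcard : Nat.card P = p ^ 3) (hexp : Monoid.exponent ↥P = p ^ 2) :
    Cfsg.IsStronglyClosed ((Subgroup.center ↥P).map (P : Subgroup G).subtype) (P : Subgroup G) := by
  have hpp : p.Prime := Fact.out
  have hF : (groupFusionSystem (P : Subgroup G)).IsSaturated p :=
    FusionSystem.isSaturated_groupFusionSystem P
  have hS : IsPGroup p (P : Subgroup G) := P.isPGroup'
  obtain ⟨⟨hPp, hfr, hco⟩, hcc⟩ := hE
  have hfr' : frattini ↥(P : Subgroup G) = Subgroup.center ↥(P : Subgroup G) := hfr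
  have hco' : commutator ↥(P : Subgroup G) = Subgroup.center ↥(P : Subgroup G) := hco
  have hcc' : Nat.card (Subgroup.center ↥(P : Subgroup G)) = p := hcc
  have hexp' : Monoid.exponent ↥(P : Subgroup G) = p ^ 2 := hexp
  have hN : (groupFusionSystem (P : Subgroup G)).IsNormal (P : Subgroup G) := by
    refine FusionSystem.isNormal_of_genExtra p hS _ hF _ (FusionSystem.stronglyClosed_self _)
      ⟨hfr'.trans hco'.symm, by rw [hco']; exact hcc'⟩ (fun h => absurd h hp) (fun _ => ?_)
    rintro ⟨E, _, A, _, hE', hEcard, hEexp, hA, ⟨e⟩⟩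
    have h1 : ∀ s : (P : Subgroup G), s ^ p = 1 := by
      intro s
      apply e.injective
      rw [map_pow, map_one]
      apply Prod.ext
      · rw [Prod.pow_fst]
        have h0 := Monoid.pow_exponent_eq_one (e s).1
        rwa [hEexp] at h0
      · rw [Prod.pow_snd]
        exact hA _
    have h2 : Monoid.exponent (P : Subgroup G) ∣ p := Monoid.exponent_dvd_of_forall_pow_eq_one h1
    rw [hexp'] at h2
    have h3 := Nat.le_of_dvd hpp.pos h2
    have h4 : p < p ^ 2 := by
      have := hpp.one_lt
      nlinarith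
    omega
  have hZ := hN.of_characteristic (FusionSystem.map_subtype_le' (Subgroup.center (P : Subgroup G)))
    (by rw [FusionSystem.subgroupOf_map_subtype']; infer_instance)
  have hsc := hZ.stronglyClosed
  refine ⟨hsc.1, fun x hx g hgx => ?_⟩
  have hφ : conjHom (Subgroup.zpowers x) g ∈ (groupFusionSystem (P : Subgroup G)).Hom (Subgroup.zpowers x) := by
    refine ⟨Subgroup.zpowers_le.2 (hsc.1 hx), ?_, g, fun _ => rfl⟩
    rintro ⟨w, hw⟩
    obtain ⟨k, rfl⟩ := Subgroup.mem_zpowers_iff.1 hw
    show g * x ^ k * g⁻¹ ∈ (P : Subgroup G)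
    have h5 : g * x ^ k * g⁻¹ = (g * x * g⁻¹) ^ k := (conj_zpow).symm
    rw [h5]
    exact Subgroup.zpow_mem _ hgx k
  exact hsc.2 (Subgroup.zpowers x) (Subgroup.zpowers_le.2 hx) _ hφ ⟨x, Subgroup.mem_zpowers x⟩

end Cfsg.Agent.S3053
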