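import Cfsg.Statements.S3057
import Cfsg.Agent.H17.UniqueP
import Cfsg.Agent.H17.SylConn
import Cfsg.Agent.H17.SylIn
import Cfsg.Agent.H17.SPE2
import Cfsg.Agent.S0058
import Cfsg.Agent.H20.PSolvHall
import Cfsg.Agent.H12.Cores
import Cfsg.Agent.Lib.Helper13.Thompson
import Cfsg.Agent.Lib.Helper13.Glaub2

set_option autoImplicit false
open Cfsg

namespace Cfsg.Agent.S3057

/-- Let p be a prime and G a finite p-solvable group of order divisible by p, with Sylow p-subgroup P. Then the Sylow p-subgroups of G fail to be chain-connected through nontrivial intersections (equivalently, G has a strongly p-embedded subgroup) if and only if O_p(G) = 1 and P is cyclic or, for p = 2, generalized quaternion. -/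
theorem result {G : Type*} [Group G] [Finite G]
    (p : ℕ) [Fact p.Prime] (hdiv : p ∣ Nat.card G) (hsol : Cfsg.IsPSolvable p G) (P : Sylow p G) :
    ¬ Cfsg.IsSylowChainConnected p G ↔
      Cfsg.pCore p G = ⊥ ∧ (IsCyclic ↥P ∨ (p = 2 ∧ ∃ n : ℕ, Nonempty (↥P ≃* QuaternionGroup (2 ^ n)))) := by
  classical
  have hp := (Fact.out : p.Prime)
  have key := Cfsg.Agent.H17.uop_iff (G := ↥P) (p := p) P.isPGroup'
  rw [Cfsg.Agent.H17.not_chainConnected_iff, ← key]
  constructor
  · rintro ⟨H, hH⟩
    obtain ⟨S₀, hS₀⟩ := Cfsg.Agent.H17.exists_sylow_le_of_SPE hH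
    have hS₀ne : (S₀ : Subgroup G) ≠ ⊥ := by
      intro h
      have h1 := S₀.not_dvd_index
      rw [h, Subgroup.index_bot] at h1
      exact h1 hdiv
    constructor
    · by_contra hO
      have h1 : Cfsg.pCore p G ≤ H := (Cfsg.Agent.H12.pCore_le_sylow S₀).trans hS₀
      have h2 := hH.2.2 (Cfsg.pCore p G) h1 (Cfsg.Agent.H12.pCore_isPGroup p G) hO
      haveI : (Cfsg.pCore p G).Normal := Cfsg.pCore_normal p G
      rw [Subgroup.normalizer_eq_top] at h2
      exact hH.2.1 (top_le_iff.mp h2)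
    · apply Cfsg.Agent.H17.UOP.of_equiv (Sylow.equiv P S₀)
      by_contra hnU
      unfold Cfsg.Agent.H17.UOP at hnU
      push Not at hnU
      obtain ⟨x, y, hx, hy, hxy⟩ := hnU
      obtain ⟨z, hzS, hzo, hzc⟩ := Cfsg.Agent.H17.exists_central_order_p S₀.isPGroup' hS₀ne
      -- an element of order `p` outside `⟨z⟩`
      obtain ⟨w, hwS, hwo, hwz⟩ : ∃ w ∈ (S₀ : Subgroup G), orderOf w = p ∧ w ∉ Subgroup.zpowers z := by
        by_cases hxz : (x : G) ∈ Subgroup.zpowers z
        · refine ⟨y, y.2, by rw [Subgroup.orderOf_coe, hy], ?_⟩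
          intro hyz
          have h1 : Subgroup.zpowers (x : G) = Subgroup.zpowers z := by
            apply Subgroup.eq_of_le_of_card_ge (Subgroup.zpowers_le.mpr hxz)
            rw [Nat.card_zpowers, Nat.card_zpowers, hzo, Subgroup.orderOf_coe, hx]
          rw [← h1] at hyz
          obtain ⟨k, hk⟩ := hyz
          exact hxy ⟨k, Subtype.ext (by simpa using hk)⟩
        · exact ⟨x, x.2, by rw [Subgroup.orderOf_coe, hx], hxz⟩
      set A := Subgroup.zpowers z ⊔ Subgroup.zpowers w with hA
      have hAS : A ≤ (S₀ : Subgroup G) := sup_le (Subgroup.zpowers_le.mpr hzS) (Subgroup.zpowers_le.mpr hwS)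
      have hAcomm : ∀ a ∈ A, ∀ b ∈ A, a * b = b * a := by
        apply Cfsg.Agent.Lib.Helper13.comm_sup
        · rintro _ ⟨i, rfl⟩ _ ⟨j, rfl⟩
          exact Commute.zpow_zpow_self z i j
        · rintro _ ⟨i, rfl⟩ _ ⟨j, rfl⟩
          exact Commute.zpow_zpow_self w i j
        · rintro _ ⟨i, rfl⟩ _ ⟨j, rfl⟩
          exact Commute.zpow_zpow (hzc w hwS).symm i j
      haveI hAab : IsMulCommutative A := ⟨⟨fun a b => Subtype.ext (hAcomm a a.2 b b.2)⟩⟩
      have hAnc : ¬ IsCyclic A := by
        intro hc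
        have hzA : z ∈ A := (le_sup_left : Subgroup.zpowers z ≤ A) (Subgroup.mem_zpowers z)
        have hwA : w ∈ A := (le_sup_right : Subgroup.zpowers w ≤ A) (Subgroup.mem_zpowers w)
        have h1 := Cfsg.Agent.H17.uop_of_isCyclic (p := p) hc ⟨z, hzA⟩ ⟨w, hwA⟩
          (by rw [Subgroup.orderOf_mk, hzo]) (by rw [Subgroup.orderOf_mk, hwo])
        obtain ⟨k, hk⟩ := h1
        exact hwz ⟨k, by simpa using congrArg Subtype.val hk⟩
      set K := Cfsg.pPrimeCore p G with hK
      haveI hKn : K.Normal := Cfsg.pPrimeCore_normal p G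
      have hKcop : (Nat.card K).Coprime p := Cfsg.Agent.H12.pPrimeCore_coprime p
      have hAK : A ≤ Subgroup.normalizer (K : Set G) := by
        rw [Subgroup.normalizer_eq_top]; exact le_top
      have hcop : (Nat.card A).Coprime (Nat.card K) := by
        obtain ⟨k, hk⟩ := IsPGroup.iff_card.mp (S₀.isPGroup'.to_le hAS)
        rw [hk]
        exact (Nat.Coprime.pow_left k hKcop.symm)
      have hgen := Cfsg.Agent.S0058.result A K hAnc hAK hcop
      have hKH : K ≤ H := by
        rw [← hgen]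
        apply iSup₂_le
        rintro a ⟨haA, ha1⟩
        refine inf_le_right.trans ((Cfsg.Agent.H17.centralizer_singleton_le_normalizer_zpowers a).trans ?_)
        apply hH.2.2 (Subgroup.zpowers a) (Subgroup.zpowers_le.mpr (hS₀ (hAS haA)))
          (S₀.isPGroup'.to_le (Subgroup.zpowers_le.mpr (hAS haA)))
        intro h
        exact ha1 (Subgroup.zpowers_eq_bot.mp h)
      -- the quotient
      haveI hnt : Nontrivial (G ⧸ K) := by
        rw [QuotientGroup.nontrivial_iff]
        intro h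
        rw [h, Subgroup.card_top] at hKcop
        exact (Nat.Prime.coprime_iff_not_dvd hp).mp hKcop.symm hdiv
      obtain ⟨M, hMn, hMne, hM⟩ := Cfsg.Agent.H20.exists_normal_of_isPSolvable
        (Cfsg.Agent.H20.isPSolvable_quotient hp hsol K)
      have hMp : IsPGroup p M := by
        rcases hM with h | h
        · exact h
        · exfalso
          have h1 := Cfsg.Agent.H12.le_pPrimeCore hMn h
          rw [Cfsg.Agent.H12.pPrimeCore_quotient_eq_bot] at h1
          exact hMne (le_bot_iff.mp h1)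
      let π := QuotientGroup.mk' K
      have hπ : Function.Surjective π := QuotientGroup.mk'_surjective K
      have hMS : M ≤ (S₀.mapSurjective hπ : Sylow p (G ⧸ K)) := hMp.le_sylow_of_normal _
      set L := M.comap π with hL
      haveI hLn : L.Normal := hMn.comap π
      have hLH : L ≤ H := by
        intro c hc
        obtain ⟨s, hs, hsc⟩ := hMS (show π c ∈ M from hc)
        have h1 : s⁻¹ * c ∈ K := QuotientGroup.eq.mp hsc
        have := H.mul_mem (hS₀ hs) (hKH h1)
        rwa [mul_inv_cancel_left] at this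
      have hRne : (S₀ : Subgroup G) ⊓ L ≠ ⊥ := by
        obtain ⟨m, hm, hm1⟩ := M.bot_or_exists_ne_one.resolve_left hMne
        obtain ⟨s, hs, hsm⟩ := hMS hm
        intro h
        have h1 : s ∈ (S₀ : Subgroup G) ⊓ L := Subgroup.mem_inf.mpr ⟨hs, by
          change π s ∈ M
          rw [hsm]; exact hm⟩
        rw [h, Subgroup.mem_bot] at h1
        rw [h1, map_one] at hsm
        exact hm1 hsm.symm
      apply hH.2.1
      rw [eq_top_iff]
      intro g _
      obtain ⟨c, hc, n, hn, rfl⟩ := Cfsg.Agent.Lib.Helper13.frattini_inf S₀ L g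
      exact H.mul_mem (hLH hc) (hH.2.2 _ (inf_le_left.trans hS₀) (S₀.isPGroup'.to_le inf_le_left) hRne hn)
  · rintro ⟨hO, hU⟩
    have hUG : ∀ Q : Subgroup G, IsPGroup p Q → ∀ x ∈ Q, ∀ y ∈ Q, orderOf x = p → orderOf y = p →
        y ∈ Subgroup.zpowers x := by
      intro Q hQ x hx y hy hxo hyo
      obtain ⟨S', hS'⟩ := hQ.exists_le_sylow
      obtain ⟨g, hg⟩ := MulAction.exists_smul_eq G P S'
      rw [← hg] at hS'
      have h1 : g⁻¹ * x * g ∈ P := Cfsg.Agent.H17.mem_smul_sylow.mp (hS' hx)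
      have h2 : g⁻¹ * y * g ∈ P := Cfsg.Agent.H17.mem_smul_sylow.mp (hS' hy)
      have ho : ∀ t : G, orderOf (g⁻¹ * t * g) = orderOf t := by
        intro t
        have := Cfsg.Agent.H17.orderOf_conj' g⁻¹ t
        rwa [inv_inv] at this
      obtain ⟨k, hk⟩ := hU ⟨_, h1⟩ ⟨_, h2⟩ (by rw [Subgroup.orderOf_mk, ho, hxo])
        (by rw [Subgroup.orderOf_mk, ho, hyo])
      have hk' : (g⁻¹ * x * g) ^ k = g⁻¹ * y * g := by simpa using congrArg Subtype.val hk
      refine ⟨k, ?_⟩
      have h3 : (g⁻¹ * x * g) ^ k = g⁻¹ * x ^ k * g := by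
        have := (MulAut.conj g⁻¹).toMonoidHom.map_zpow x k
        simpa using this.symm
      rw [h3] at hk'
      exact mul_left_cancel (mul_right_cancel hk')
    have hPne : (P : Subgroup G) ≠ ⊥ := by
      intro h
      have h1 := P.not_dvd_index
      rw [h, Subgroup.index_bot] at h1
      exact h1 hdiv
    obtain ⟨z, hzP, hzo⟩ := Cfsg.Agent.H17.exists_order_p_of_ne_bot P.isPGroup' hPne
    have hZp : IsPGroup p (Subgroup.zpowers z) := P.isPGroup'.to_le (Subgroup.zpowers_le.mpr hzP)
    have hnorm : ∀ n : G, n * z * n⁻¹ ∈ Subgroup.zpowers z →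
        n ∈ Subgroup.normalizer (Subgroup.zpowers z : Set G) := by
      intro n hn
      apply Cfsg.Agent.H17.mem_normalizer_of_map_conj_le
      rw [MonoidHom.map_zpowers, Subgroup.zpowers_le]
      simpa using hn
    refine ⟨Subgroup.normalizer (Subgroup.zpowers z : Set G), ?_, ?_, ?_⟩
    · have h1 : z ∈ Subgroup.normalizer (Subgroup.zpowers z : Set G) :=
        Subgroup.le_normalizer (Subgroup.mem_zpowers z)
      have h2 := orderOf_dvd_natCard (⟨z, h1⟩ : Subgroup.normalizer (Subgroup.zpowers z : Set G))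
      rwa [Subgroup.orderOf_mk, hzo] at h2
    · intro h
      have hn : (Subgroup.zpowers z).Normal := Subgroup.normalizer_eq_top_iff.mp h
      have h1 := Cfsg.Agent.H12.le_pCore hn hZp
      rw [hO, le_bot_iff, Subgroup.zpowers_eq_bot] at h1
      rw [h1, orderOf_one] at hzo
      exact hp.one_lt.ne hzo
    · intro A hA hAp hAne n hn
      obtain ⟨a, haA, hao⟩ := Cfsg.Agent.H17.exists_order_p_of_ne_bot hAp hAne
      have hsup : IsPGroup p ↥(A ⊔ Subgroup.zpowers z) := hAp.to_sup_of_normal_right' hZp hA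
      have hza : z ∈ Subgroup.zpowers a := hUG _ hsup a ((le_sup_left : A ≤ _) haA) z
        ((le_sup_right : Subgroup.zpowers z ≤ A ⊔ _) (Subgroup.mem_zpowers z)) hao hzo
      have hzA : z ∈ A := (Subgroup.zpowers_le.mpr haA) hza
      apply hnorm
      apply hUG A hAp z hzA _ ((Subgroup.mem_normalizer_iff.mp hn z).mp hzA) hzo
      rw [Cfsg.Agent.H17.orderOf_conj', hzo]

end Cfsg.Agent.S3057
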