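import Cfsg.Statements.S3058
import Cfsg.Agent.H17.SylConn
import Cfsg.Agent.H17.SPE2
import Cfsg.Agent.H17.Comm
import Cfsg.Agent.S0058
import Cfsg.Agent.Lib.Helper13.EA

set_option autoImplicit false
open Cfsg

namespace Cfsg.Agent.S3058

open Subgroup Cfsg.Agent.Lib.Helper16 Cfsg.Agent.H17

/-- Let p be a prime and G a finite group whose Sylow p-subgroups are not chain-connected through nontrivial intersections (so G has a strongly p-embedded subgroup). If N and M are normal subgroups of G whose orders are both divisible by p, then the order of N ∩ M is divisible by p. Consequently, among the normal subgroups of G whose order is divisible by p there is a smallest one (the intersection of all of them). -/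
theorem result {G : Type*} [Group G] [Finite G]
    (p : ℕ) [Fact p.Prime] (hG : ¬ Cfsg.IsSylowChainConnected p G)
    (N M : Subgroup G) [N.Normal] [M.Normal] (hN : p ∣ Nat.card N) (hM : p ∣ Nat.card M) :
    p ∣ Nat.card ↥(N ⊓ M) := by
  obtain ⟨H, hspe⟩ := not_chainConnected_iff.mp hG
  by_contra hK
  set K := N ⊓ M with hKdef
  obtain ⟨S, hS⟩ := exists_sylow_le_of_SPE hspe
  have hsyl : ∀ (L : Subgroup G) [L.Normal], p ∣ Nat.card L →
      IsSylIn p ((S : Subgroup G) ⊓ L) L ∧ (S : Subgroup G) ⊓ L ≠ ⊥ := by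
    intro L _ hL
    have hQ : IsSylIn p ((S : Subgroup G) ⊓ L) L :=
      (sylow_isSylIn_top S).inf_normal le_top (by rw [normalizer_eq_top])
    refine ⟨hQ, ?_⟩
    intro hb
    apply hQ.2.2
    rw [hb, relIndex_bot_left]
    exact hL
  obtain ⟨hQN, hQNne⟩ := hsyl N hN
  obtain ⟨hQM, hQMne⟩ := hsyl M hM
  obtain ⟨a, ha, hoa⟩ := exists_order_p_of_ne_bot hQN.2.1 hQNne
  obtain ⟨b, hb, hob⟩ := exists_order_p_of_ne_bot hQM.2.1 hQMne
  have hSK : (S : Subgroup G) ⊓ K = ⊥ := by
    apply Disjoint.eq_bot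
    apply Subgroup.disjoint_of_coprime_natCard
    exact (Cfsg.Agent.H17.coprime_card_of_pgroup S.2 hK).symm
  have hcommK : ∀ n ∈ N, ∀ m ∈ M, n * m * n⁻¹ * m⁻¹ ∈ K := by
    intro n hn m hm
    refine ⟨?_, ?_⟩
    · have : n * m * n⁻¹ * m⁻¹ = n * (m * n⁻¹ * m⁻¹) := by group
      rw [this]
      exact N.mul_mem hn (‹N.Normal›.conj_mem _ (N.inv_mem hn) m)
    · exact M.mul_mem (‹M.Normal›.conj_mem _ hm n) (M.inv_mem hm)
  have hab : a * b = b * a := by
    have h1 : a * b * a⁻¹ * b⁻¹ ∈ (S : Subgroup G) ⊓ K := by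
      refine ⟨?_, hcommK a ha.2 b hb.2⟩
      exact (S : Subgroup G).mul_mem ((S : Subgroup G).mul_mem ((S : Subgroup G).mul_mem ha.1 hb.1)
        ((S : Subgroup G).inv_mem ha.1)) ((S : Subgroup G).inv_mem hb.1)
    rw [hSK, mem_bot] at h1
    have : a * b = (a * b * a⁻¹ * b⁻¹) * (b * a) := by group
    rw [this, h1, one_mul]
  have hap : a ^ p = 1 := by rw [← hoa]; exact pow_orderOf_eq_one a
  have hbp : b ^ p = 1 := by rw [← hob]; exact pow_orderOf_eq_one b
  have hb1 : b ≠ 1 := by
    rintro rfl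
    rw [orderOf_one] at hob
    exact (Fact.out : p.Prime).one_lt.ne hob
  set A := zpowers a ⊔ zpowers b with hA
  have hEA : Cfsg.IsElementaryAbelian p A := by
    apply Cfsg.Agent.Lib.Helper13.IsEA.sup (Cfsg.Agent.Lib.Helper13.isEA_zpowers hap)
      (Cfsg.Agent.Lib.Helper13.isEA_zpowers hbp)
    rw [zpowers_le, mem_centralizer_iff]
    rintro _ ⟨k, rfl⟩
    exact (Commute.zpow_left (show Commute a b from hab) k)
  have hAS : A ≤ S := sup_le (by rw [zpowers_le]; exact ha.1) (by rw [zpowers_le]; exact hb.1)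
  have hAc := hEA.1
  have hnc : ¬ IsCyclic A := by
    intro hcyc
    have h1 : Monoid.exponent A = Nat.card A := IsCyclic.exponent_eq_card
    have h2 : Monoid.exponent A ∣ p := by
      apply Monoid.exponent_dvd_of_forall_pow_eq_one
      intro x
      exact Subtype.ext (hEA.2 x.1 x.2)
    rw [h1] at h2
    have h3 : Nat.card A ≤ Nat.card (zpowers a) := by
      rw [Nat.card_zpowers, hoa]
      exact Nat.le_of_dvd (Fact.out : p.Prime).pos h2
    have h4 : zpowers a = A := Subgroup.eq_of_le_of_card_ge le_sup_left h3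
    have h5 : b ∈ zpowers a := by
      rw [h4]; exact le_sup_right (a := zpowers a) (mem_zpowers b)
    have h6 : zpowers a ≤ N := by rw [zpowers_le]; exact ha.2
    have h7 : b ∈ (S : Subgroup G) ⊓ K := ⟨hb.1, h6 h5, hb.2⟩
    rw [hSK, mem_bot] at h7
    exact hb1 h7
  have hKH : K ≤ H := by
    have hgen := Cfsg.Agent.S0058.result A K hnc (by rw [normalizer_eq_top]; exact le_top)
      ((Cfsg.Agent.H17.coprime_card_of_pgroup (S.2.to_le hAS) hK).symm)
    rw [← hgen]
    apply iSup₂_le
    intro c hc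
    refine inf_le_right.trans ?_
    refine (centralizer_singleton_le_normalizer_zpowers c).trans ?_
    have hcS : zpowers c ≤ S := by rw [zpowers_le]; exact hAS hc.1
    exact hspe.2.2 _ (hcS.trans hS) (S.2.to_le hcS) (by rw [Ne, zpowers_eq_bot]; exact hc.2)
  have hbS : zpowers b ≤ S := by rw [zpowers_le]; exact hb.1
  have hNH : N ≤ H := by
    intro n hn
    have hsy : IsSylIn p (zpowers b) (zpowers b ⊔ K) := by
      refine ⟨le_sup_left, S.2.to_le hbS, ?_⟩
      rw [relIndex_sup_of_normal_right]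
      exact fun h => hK (h.trans (relIndex_dvd_card _ _))
    have hnn : n ∈ normalizer ((zpowers b ⊔ K : Subgroup G) : Set G) := by
      apply mem_normalizer_of_map_conj_le
      rw [Subgroup.map_sup]
      apply sup_le
      · rw [MonoidHom.map_zpowers, zpowers_le]
        have : (MulAut.conj n).toMonoidHom b = (n * b * n⁻¹ * b⁻¹) * b := by
          simp
        rw [this]
        exact mul_mem (le_sup_right (a := zpowers b) (hcommK n hn b hb.2))
          (le_sup_left (b := K) (mem_zpowers b))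
      · exact (Normal.map_conj_eq K n).le.trans le_sup_right
    obtain ⟨m, hm, hmn⟩ := hsy.frattini hnn
    have h1 : m ∈ H := (sup_le (hbS.trans hS) hKH) hm
    have h2 : m * n ∈ H :=
      hspe.2.2 _ (hbS.trans hS) (S.2.to_le hbS) (by rw [Ne, zpowers_eq_bot]; exact hb1) hmn
    have := H.mul_mem (H.inv_mem h1) h2
    simpa using this
  apply hspe.2.1
  rw [eq_top_iff]
  intro g _
  obtain ⟨m, hm, hmg⟩ := hQN.frattini (g := g) (by rw [normalizer_eq_top]; exact mem_top g)
  have h2 : m * g ∈ H := hspe.2.2 _ (inf_le_left.trans hS) hQN.2.1 hQNne hmg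
  have := H.mul_mem (H.inv_mem (hNH hm)) h2
  simpa using this

end Cfsg.Agent.S3058
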