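import Cfsg.Statements.S3059
import Cfsg.Agent.H17.SylConn
import Cfsg.Agent.H12.Cores

set_option autoImplicit false
open Cfsg

namespace Cfsg.Agent.S3059

open Subgroup Cfsg.Agent.Lib.Helper16 Cfsg.Agent.H17

theorem le_residual_sup {G : Type*} [Group G] [Finite G] {p : ℕ} [Fact p.Prime] {N Q : Subgroup G}
    (hQ : IsSylIn p Q N) :
    N ≤ Subgroup.closure {g : G | g ∈ N ∧ (orderOf g).Coprime p} ⊔ Q := by
  obtain ⟨Q', hQ'⟩ := hQ.exists_sylow
  have h1 := Cfsg.Agent.H12.pResidual_sup_sylow Q'
  have h2 := congrArg (Subgroup.map N.subtype) h1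
  rw [← MonoidHom.range_eq_map, N.range_subtype, Subgroup.map_sup, hQ', subgroupOf_map_subtype] at h2
  conv_lhs => rw [← h2]
  apply sup_le_sup _ inf_le_left
  rw [Cfsg.pResidual, MonoidHom.map_closure]
  apply Subgroup.closure_mono
  rintro _ ⟨x, hx, rfl⟩
  refine ⟨x.2, ?_⟩
  have : orderOf (N.subtype x) = orderOf x := orderOf_injective _ N.subtype_injective x
  rw [this]; exact hx

/-- Let p be a prime and H a strongly p-embedded subgroup of the finite group G in the classical sense: H is proper, p divides the order of H, and H ∩ gHg⁻¹ has order prime to p for every g outside H. Then for every normal subgroup N of G of order divisible by p, G = H · O^p(N), where O^p(N) is the subgroup generated by the elements of N of order prime to p. -/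
theorem result {G : Type*} [Group G] [Finite G]
    (p : ℕ) [Fact p.Prime] (H : Subgroup G) (hH : H ≠ ⊤) (hpH : p ∣ Nat.card H)
    (hse : ∀ g : G, g ∉ H → ¬ p ∣ Nat.card ↥(H ⊓ H.map (MulAut.conj g).toMonoidHom))
    (N : Subgroup G) [N.Normal] (hN : p ∣ Nat.card N) :
    H ⊔ Subgroup.closure {g : G | g ∈ N ∧ (orderOf g).Coprime p} = ⊤ := by
  have hspe : SPE p H := spe_of_inf_cj hpH hH hse
  obtain ⟨S, hS⟩ := exists_sylow_le_of_SPE hspe
  have hQ : IsSylIn p ((S : Subgroup G) ⊓ N) N :=
    (sylow_isSylIn_top S).inf_normal le_top (by rw [normalizer_eq_top])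
  have hQne : (S : Subgroup G) ⊓ N ≠ ⊥ := by
    intro hb
    apply hQ.2.2
    rw [hb, relIndex_bot_left]
    exact hN
  have hNH : normalizer (((S : Subgroup G) ⊓ N : Subgroup G) : Set G) ≤ H :=
    hspe.2.2 _ (inf_le_left.trans hS) hQ.2.1 hQne
  rw [eq_top_iff]
  intro g _
  obtain ⟨m, hm, hmg⟩ := hQ.frattini (g := g) (by rw [normalizer_eq_top]; exact mem_top g)
  have h1 : m ∈ H ⊔ Subgroup.closure {g : G | g ∈ N ∧ (orderOf g).Coprime p} := by
    have := le_residual_sup hQ hm
    have hle : Subgroup.closure {g : G | g ∈ N ∧ (orderOf g).Coprime p} ⊔ ((S : Subgroup G) ⊓ N) ≤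
        H ⊔ Subgroup.closure {g : G | g ∈ N ∧ (orderOf g).Coprime p} :=
      sup_le le_sup_right ((inf_le_left.trans hS).trans le_sup_left)
    exact hle this
  have h2 : m * g ∈ H ⊔ Subgroup.closure {g : G | g ∈ N ∧ (orderOf g).Coprime p} :=
    le_sup_left (a := H) (hNH hmg)
  have := mul_mem (inv_mem h1) h2
  simpa using this

end Cfsg.Agent.S3059
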