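import Cfsg.Statements.S3063
import Cfsg.Agent.Lib.Helper13.Gillam

set_option autoImplicit false
open Cfsg

namespace Cfsg.Agent.S3063

/-- A weak replacement Theorem for metabelian p-groups: let S be a finite p-group whose derived subgroup is abelian and A an abelian subgroup of S of largest possible order. Then the normal closure of A in S contains an abelian subgroup B of the same order as A that is normal in S. -/
theorem result {S : Type*} [Group S] [Finite S] {p : ℕ} [Fact p.Prime]
    (hS : IsPGroup p S) (hmeta : IsMulCommutative ↥(commutator S))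
    (A : Subgroup S) (hA : A ∈ Cfsg.maxAbelianSubgroups S) :
    ∃ B ∈ Cfsg.maxAbelianSubgroups S, B.Normal ∧ B ≤ Subgroup.normalClosure (A : Set S) := by
  classical
  -- choose B maximizing the intersection with the derived subgroup
  obtain ⟨B, ⟨hB, hBA⟩, hmax⟩ : ∃ B : Subgroup S,
      (B ∈ Cfsg.maxAbelianSubgroups S ∧ B ≤ Subgroup.normalClosure (A : Set S)) ∧
      ∀ B' : Subgroup S, (B' ∈ Cfsg.maxAbelianSubgroups S ∧
        B' ≤ Subgroup.normalClosure (A : Set S)) →
        Nat.card (B' ⊓ commutator S : Subgroup S) ≤ Nat.card (B ⊓ commutator S : Subgroup S) := by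
    have hfin : Set.Finite {B : Subgroup S | B ∈ Cfsg.maxAbelianSubgroups S ∧
        B ≤ Subgroup.normalClosure (A : Set S)} := Set.toFinite _
    obtain ⟨B, hB, hmax⟩ := Set.exists_max_image _
      (fun B : Subgroup S => Nat.card (B ⊓ commutator S : Subgroup S)) hfin
      ⟨A, hA, Subgroup.le_normalClosure⟩
    exact ⟨B, hB, fun B' hB' => hmax B' hB'⟩
  refine ⟨B, hB, ?_, hBA⟩
  by_contra hn
  have hNtop : Subgroup.normalizer (B : Set S) ≠ ⊤ := fun h =>
    hn (Subgroup.normalizer_eq_top_iff.mp h)
  have : Group.IsNilpotent S := hS.isNilpotent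
  have hlt := Group.normalizerCondition_of_isNilpotent (G := S) (Subgroup.normalizer (B : Set S))
    (lt_top_iff_ne_top.mpr hNtop)
  obtain ⟨x, hx1, hx2⟩ := SetLike.exists_of_lt hlt
  have hxN : ∀ b ∈ B, x * b * x⁻¹ ∈ Subgroup.normalizer (B : Set S) := fun b hb =>
    (Subgroup.mem_normalizer_iff.mp hx1 b).mp (Subgroup.le_normalizer hb)
  have hx' : ∃ b ∈ B, x * b * x⁻¹ ∉ B := by
    by_contra hcon
    push Not at hcon
    apply hx2
    have hle : B ≤ B.comap (MulAut.conj x).toMonoidHom := fun b hb => by
      rw [Subgroup.mem_comap]; exact hcon b hb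
    have hcard : Nat.card (B.comap (MulAut.conj x).toMonoidHom) = Nat.card B := by
      have : B.comap (MulAut.conj x).toMonoidHom = B.map (MulAut.conj x).symm.toMonoidHom :=
        (Subgroup.map_equiv_eq_comap_symm' (MulAut.conj x).symm B).symm
      rw [this]
      exact Subgroup.card_map_of_injective (MulAut.conj x).symm.injective
    have heq : B = B.comap (MulAut.conj x).toMonoidHom :=
      Subgroup.eq_of_le_of_card_ge hle hcard.le
    rw [Subgroup.mem_normalizer_iff]
    intro h
    constructor
    · exact hcon h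
    · intro hh
      rw [heq, Subgroup.mem_comap]; exact hh
  obtain ⟨B', hB', hB'cl, hcard⟩ := Cfsg.Agent.Lib.Helper13.gillam_step hmeta hB hxN hx'
  have := hmax B' ⟨hB', hB'cl.trans (Subgroup.normalClosure_le_normal hBA)⟩
  omega

end Cfsg.Agent.S3063
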