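import Cfsg.Statements.S3064
import Cfsg.Agent.S0035
import Cfsg.Agent.Tr.Frobenius
import Cfsg.Agent.H17.SylConn
import Cfsg.Agent.H17.SylIn
import Cfsg.Agent.Lib.Helper16.PClosed
import Cfsg.Agent.Lib.Helper16.MinOver
import Cfsg.Agent.H9.Comp

set_option autoImplicit false
open Cfsg

namespace Cfsg.Agent.S3064

universe u

open Subgroup in
theorem aux {p : ℕ} [Fact p.Prime] : ∀ n : ℕ, ∀ (G : Type u) [Group G] [Finite G], Nat.card G ≤ n →
    ∀ (S : Sylow p G) (x : G), x ∈ S → (∀ g : G, g⁻¹ * x * g ∈ S → g⁻¹ * x * g = x) →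
    (∀ H : Subgroup G, (Nat.card H).Coprime p → (∀ h ∈ H, x * h * x⁻¹ ∈ H) → ∀ h ∈ H, x * h = h * x) →
    x ∈ Subgroup.center G := by
  intro n
  induction n with
  | zero =>
    intro G _ _ h
    exact absurd h (by have := Nat.card_pos (α := G); omega)
  | succ n ih =>
    intro G _ _ hn S x hx hU hb
    by_contra hxZ
    have hp := (Fact.out : p.Prime)
    -- two conjugates in a common `p`-subgroup
    have hcommon : ∀ (Q : Subgroup G), IsPGroup p Q → x ∈ Q → ∀ g : G, g⁻¹ * x * g ∈ Q →
        g⁻¹ * x * g = x := by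
      intro Q hQ hxQ g hg
      obtain ⟨S', hS'⟩ := hQ.exists_le_sylow
      obtain ⟨k, hk⟩ := MulAction.exists_smul_eq G S S'
      rw [← hk] at hS'
      have h1 : k⁻¹ * x * k ∈ S := Cfsg.Agent.H17.mem_smul_sylow.mp (hS' hxQ)
      have h2 : k⁻¹ * (g⁻¹ * x * g) * k ∈ S := Cfsg.Agent.H17.mem_smul_sylow.mp (hS' hg)
      have h3 := hU k h1
      have h4 : (g * k)⁻¹ * x * (g * k) = x := hU (g * k) (by
        have : (g * k)⁻¹ * x * (g * k) = k⁻¹ * (g⁻¹ * x * g) * k := by group
        rw [this]; exact h2)
      have h5 : g⁻¹ * x * g = k * ((g * k)⁻¹ * x * (g * k)) * k⁻¹ := by group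
      rw [h5, h4]
      calc k * x * k⁻¹ = k * (k⁻¹ * x * k) * k⁻¹ := by rw [h3]
        _ = x := by group
    -- proper subgroups containing `x` centralize `x`
    have hsub : ∀ H : Subgroup G, H ≠ ⊤ → x ∈ H → ∀ h ∈ H, h * x = x * h := by
      intro H hH hxH h hh
      have hcard : Nat.card H ≤ n := by
        have := Cfsg.H9.card_lt_of_lt_top (lt_top_iff_ne_top.mpr hH)
        omega
      obtain ⟨P', hP'⟩ := (S.isPGroup'.comap_of_injective H.subtype H.subtype_injective).exists_le_sylow
      have hx' : (⟨x, hxH⟩ : H) ∈ P' := hP' (show (⟨x, hxH⟩ : H) ∈ (S : Subgroup G).comap H.subtype from hx)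
      have hres := ih H hcard P' ⟨x, hxH⟩ hx' ?_ ?_
      · exact congrArg Subtype.val (Subgroup.mem_center_iff.mp hres ⟨h, hh⟩)
      · intro g hg
        apply Subtype.ext
        exact hcommon ((P' : Subgroup H).map H.subtype) (P'.isPGroup'.map _) ⟨_, hx', rfl⟩ g ⟨_, hg, rfl⟩
      · intro H' hco hnorm h' hh'
        apply Subtype.ext
        apply hb (H'.map H.subtype) (by rwa [card_map_of_injective H.subtype_injective]) ?_ h' ⟨h', hh', rfl⟩
        rintro _ ⟨y, hy, rfl⟩
        exact ⟨_, hnorm y hy, rfl⟩
    set C := Subgroup.centralizer ({x} : Set G) with hC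
    have hgen : ∀ g : G, g ∉ C → Subgroup.closure ({x, g⁻¹ * x * g} : Set G) = ⊤ := by
      intro g hg
      by_contra hne
      have hxH : x ∈ Subgroup.closure ({x, g⁻¹ * x * g} : Set G) := Subgroup.subset_closure (by simp)
      have hyH : g⁻¹ * x * g ∈ Subgroup.closure ({x, g⁻¹ * x * g} : Set G) :=
        Subgroup.subset_closure (by simp)
      have hcomm := hsub _ hne hxH _ hyH
      have hpx : IsPGroup p (zpowers x) := S.isPGroup'.to_le (zpowers_le.mpr hx)
      have hpy : IsPGroup p (zpowers (g⁻¹ * x * g)) := by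
        have h1 := hpx.map (MulAut.conj g⁻¹).toMonoidHom
        rw [MonoidHom.map_zpowers] at h1
        have h2 : (MulAut.conj g⁻¹).toMonoidHom x = g⁻¹ * x * g := by simp
        rwa [h2] at h1
      have hnorm : zpowers x ≤ normalizer (zpowers (g⁻¹ * x * g) : Set G) := by
        rw [zpowers_le]
        apply Cfsg.Agent.H17.centralizer_singleton_le_normalizer_zpowers
        rw [mem_centralizer_singleton_iff]
        exact hcomm.symm
      have hsup : IsPGroup p ↥(zpowers x ⊔ zpowers (g⁻¹ * x * g)) := hpx.to_sup_of_normal_right' hpy hnorm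
      have h1 := hcommon _ hsup ((le_sup_left : zpowers x ≤ _) (mem_zpowers x)) g
        ((le_sup_right : zpowers (g⁻¹ * x * g) ≤ zpowers x ⊔ _) (mem_zpowers _))
      apply hg
      rw [hC, mem_centralizer_singleton_iff]
      calc g * x = g * (g⁻¹ * x * g) := by rw [h1]
        _ = x * g := by group
    have hcent : ∀ g : G, g ∉ C → ∀ c : G, c * x = x * c → c * (g * x * g⁻¹) = (g * x * g⁻¹) * c →
        c ∈ center G := by
      intro g hg c h1 h2
      have hg' : g⁻¹ ∉ C := fun h => hg (by simpa using C.inv_mem h)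
      have h3 := hgen g⁻¹ hg'
      rw [inv_inv] at h3
      have h4 : Subgroup.closure ({x, g * x * g⁻¹} : Set G) ≤ centralizer {c} := by
        rw [Subgroup.closure_le]
        intro y hy
        rcases hy with rfl | hy
        · exact mem_centralizer_singleton_iff.mpr h1.symm
        · rw [Set.mem_singleton_iff] at hy
          rw [hy]
          exact mem_centralizer_singleton_iff.mpr h2.symm
      rw [h3] at h4
      rw [mem_center_iff]
      intro y
      exact mem_centralizer_singleton_iff.mp (h4 (mem_top y))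
    have hZC : center G ≤ C := by
      intro z hz
      rw [hC, mem_centralizer_singleton_iff]
      exact (mem_center_iff.mp hz x).symm
    obtain ⟨g₀, hg₀⟩ : ∃ g, g ∉ C := by
      by_contra h
      push Not at h
      apply hxZ
      rw [mem_center_iff]
      intro g
      exact mem_centralizer_singleton_iff.mp (h g)
    -- the quotient by the centre
    let π := QuotientGroup.mk' (center G)
    have hπ : Function.Surjective π := QuotientGroup.mk'_surjective _
    have hπC : ∀ g : G, π g ∈ C.map π → g ∈ C := by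
      rintro g ⟨c, hc, hcg⟩
      have h1 : c⁻¹ * g ∈ center G := QuotientGroup.eq.mp hcg
      have := C.mul_mem hc (hZC h1)
      rwa [mul_inv_cancel_left] at this
    have hF : Cfsg.IsFrobeniusComplement (C.map π) := by
      refine ⟨?_, ?_, ?_⟩
      · intro h
        have h1 : π x ∈ C.map π := ⟨x, mem_centralizer_singleton_iff.mpr rfl, rfl⟩
        rw [h, mem_bot] at h1
        exact hxZ ((QuotientGroup.eq_one_iff x).mp h1)
      · intro h
        exact hg₀ (hπC g₀ (h ▸ mem_top _))
      · intro gb hgb
        obtain ⟨g, rfl⟩ := hπ gb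
        have hg : g ∉ C := fun h => hgb ⟨g, h, rfl⟩
        rw [eq_bot_iff]
        rintro u ⟨hu1, hu2⟩
        obtain ⟨c, hc, rfl⟩ := hu1
        have hu3 := Subgroup.mem_pointwise_smul_iff_inv_smul_mem.mp hu2
        have h1 : π (g⁻¹ * c * g) ∈ C.map π := by
          have : (MulAut.conj (π g))⁻¹ • π c = π (g⁻¹ * c * g) := by
            rw [MulAut.smul_def, ← map_inv, MulAut.conj_apply, inv_inv, map_mul, map_mul, map_inv]
          rwa [this] at hu3
        have h2 := mem_centralizer_singleton_iff.mp (hπC _ h1)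
        have h3 : c * (g * x * g⁻¹) = (g * x * g⁻¹) * c := by
          calc c * (g * x * g⁻¹) = g * ((g⁻¹ * c * g) * x) * g⁻¹ := by group
            _ = g * (x * (g⁻¹ * c * g)) * g⁻¹ := by rw [h2]
            _ = _ := by group
        have h4 := hcent g hg c (mem_centralizer_singleton_iff.mp hc) h3
        exact (QuotientGroup.eq_one_iff c).mpr h4
    obtain ⟨Nb, -, hNn, hNc⟩ := Cfsg.Agent.S0035.result (C.map π) hF
    have hSC : (S : Subgroup G) ≤ C := by
      intro s hs
      rw [hC, mem_centralizer_singleton_iff]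
      have h1 := hU s (S.mul_mem (S.mul_mem (S.inv_mem hs) hx) hs)
      calc s * x = s * (s⁻¹ * x * s) := by rw [h1]
        _ = x * s := by group
    have hNcop : (Nat.card Nb).Coprime p := by
      have h1 : Nat.card Nb = (C.map π).index := by
        have h2 := hNc.card_mul_card
        have h3 := (C.map π).card_mul_index
        rw [← h3, mul_comm] at h2
        exact Nat.eq_of_mul_eq_mul_left Nat.card_pos h2
      have h2 : (C.map π).index = C.index := by
        rw [Subgroup.index_map, MonoidHom.range_eq_top.mpr hπ, index_top, mul_one, QuotientGroup.ker_mk',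
          sup_eq_left.mpr hZC]
      rw [h1, h2]
      apply Nat.Coprime.symm
      rw [Nat.Prime.coprime_iff_not_dvd hp]
      intro h
      exact S.not_dvd_index (h.trans (Subgroup.index_dvd_of_le hSC))
    set N := Nb.comap π with hN
    haveI : N.Normal := hNn.comap π
    -- `p`-elements of `N` are central
    have hpel : ∀ y ∈ N, (∃ k : ℕ, y ^ p ^ k = 1) → y ∈ center G := by
      rintro y hy ⟨k, hk⟩
      have h1 : (⟨π y, hy⟩ : Nb) ^ p ^ k = 1 := by
        apply Subtype.ext
        change (π y) ^ p ^ k = 1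
        rw [← map_pow, hk, map_one]
      have h2 : orderOf (⟨π y, hy⟩ : Nb) ∣ p ^ k := orderOf_dvd_of_pow_eq_one h1
      have h3 : orderOf (⟨π y, hy⟩ : Nb) ∣ Nat.card Nb := orderOf_dvd_natCard _
      have h4 : orderOf (⟨π y, hy⟩ : Nb) = 1 :=
        Nat.eq_one_of_dvd_coprimes (hNcop.pow_right k) h3 h2
      have h5 : (⟨π y, hy⟩ : Nb) = 1 := orderOf_eq_one_iff.mp h4
      exact (QuotientGroup.eq_one_iff y).mp (congrArg Subtype.val h5)
    have hFrob : Cfsg.Agent.Tr.Frob p ↥N := by
      intro Q hQ g _ _
      rw [mem_centralizer_iff]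
      intro q hq
      obtain ⟨k, hk⟩ := hQ ⟨q, hq⟩
      have h1 : (q : G) ∈ center G := hpel q q.2 ⟨k, by
        have := congrArg (fun z : Q => ((z : N) : G)) hk
        simpa using this⟩
      apply Subtype.ext
      exact (mem_center_iff.mp h1 g).symm
    have hcop := Cfsg.Agent.H12.hasNormalPComplement_iff.mp hFrob.hasNormalPComplement
    set K := (Cfsg.pResidual p ↥N).map N.subtype with hK
    have hKcop : (Nat.card K).Coprime p := by
      rwa [hK, card_map_of_injective N.subtype_injective]
    have hKx : ∀ h ∈ K, x * h * x⁻¹ ∈ K := by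
      intro h hh
      rw [hK, Cfsg.Agent.Lib.Helper16.pResidual_map_subtype] at hh ⊢
      induction hh using Subgroup.closure_induction with
      | mem y hy =>
        apply Subgroup.subset_closure
        refine ⟨‹N.Normal›.conj_mem y hy.1 x, ?_⟩
        have : orderOf (x * y * x⁻¹) = orderOf y := by
          have := (MulAut.conj x).orderOf_eq y
          simpa using this
        rw [this]
        exact hy.2
      | one => simp
      | mul a b _ _ ha hb =>
        have : x * (a * b) * x⁻¹ = (x * a * x⁻¹) * (x * b * x⁻¹) := by group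
        rw [this]
        exact mul_mem ha hb
      | inv a _ ha =>
        have : x * a⁻¹ * x⁻¹ = (x * a * x⁻¹)⁻¹ := by group
        rw [this]
        exact inv_mem ha
    have hKC : K ≤ C := by
      intro h hh
      rw [hC, mem_centralizer_singleton_iff]
      exact (hb K hKcop hKx h hh).symm
    have hNC : N ≤ C := by
      obtain ⟨Q'⟩ : Nonempty (Sylow p ↥N) := inferInstance
      have h1 := Cfsg.Agent.Lib.Helper16.pResidual_sup_sylow Q'
      have h2 := congrArg (Subgroup.map N.subtype) h1
      rw [Subgroup.map_sup, ← MonoidHom.range_eq_map, Subgroup.range_subtype] at h2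
      rw [← h2]
      apply sup_le hKC
      rintro _ ⟨q, hq, rfl⟩
      apply hZC
      obtain ⟨k, hk⟩ := Q'.isPGroup' ⟨q, hq⟩
      exact hpel q q.2 ⟨k, by
        have := congrArg (fun z : (Q' : Subgroup N) => ((z : N) : G)) hk
        simpa using this⟩
    apply hg₀
    have h1 : π g₀ ∈ Nb ⊔ C.map π := by rw [hNc.sup_eq_top]; exact mem_top _
    rw [Subgroup.mem_sup_of_normal_left] at h1
    obtain ⟨nb, hnb, cb, ⟨c, hc, rfl⟩, h2⟩ := h1
    have h3 : g₀ * c⁻¹ ∈ N := by
      change π (g₀ * c⁻¹) ∈ Nb
      rw [map_mul, map_inv, ← h2, mul_inv_cancel_right]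
      exact hnb
    have := C.mul_mem (hNC h3) hc
    rwa [inv_mul_cancel_right] at this

/-- Let S be a Sylow p-subgroup of the finite group G and x an element of S such that (i) x is the only G-conjugate of x lying in S, and (ii) x centralizes every subgroup of order prime to p that it normalizes. Then x lies in the centre of G. -/
theorem result {G : Type*} [Group G] [Finite G] {p : ℕ} [Fact p.Prime]
    (S : Sylow p G) (x : G) (hx : x ∈ S)
    (hU : ∀ g : G, g⁻¹ * x * g ∈ S → g⁻¹ * x * g = x)
    (hb : ∀ H : Subgroup G, (Nat.card H).Coprime p → (∀ h ∈ H, x * h * x⁻¹ ∈ H) → ∀ h ∈ H, x * h = h * x) :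
    x ∈ Subgroup.center G := by
  exact aux _ G le_rfl S x hx hU hb

end Cfsg.Agent.S3064
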