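import Cfsg.Statements.S3069
import Cfsg.Agent.S1991
import Cfsg.Agent.H12.Cores

set_option autoImplicit false
open Cfsg

namespace Cfsg.Agent.S3069

/-- Let p ≥ 7 be a prime and S a nontrivial Sylow p-subgroup of the finite group G. If N_G(S)/C_G(S) is a p-group (every element of N_G(S) of order prime to p centralizes S), then O^p(G) < G, i.e. G has a nontrivial p-factor group. -/
theorem result {G : Type*} [Group G] [Finite G] {p : ℕ} [Fact p.Prime]
    (hp : 7 ≤ p) (S : Sylow p G) (hS : (S : Subgroup G) ≠ ⊥)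
    (hN : ∀ g ∈ Subgroup.normalizer ((S : Subgroup G) : Set G), (orderOf g).Coprime p →
      g ∈ Subgroup.centralizer ((S : Subgroup G) : Set G)) :
    Cfsg.pResidual p G ≠ ⊤ := by
  obtain ⟨N, hN1, hN2⟩ := Cfsg.Agent.S1991.result (by omega) S hS hN
  intro htop
  haveI := hN1
  have h1 : IsPGroup p (G ⧸ N) := by
    apply IsPGroup.of_card (n := 1)
    rw [pow_one, ← hN2]
    rfl
  have h2 := Cfsg.Agent.H12.pResidual_le h1
  rw [htop, top_le_iff] at h2
  rw [h2, Subgroup.index_top] at hN2
  exact (Fact.out : p.Prime).one_lt.ne hN2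

end Cfsg.Agent.S3069
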