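import Cfsg.Statements.S3071
import Cfsg.Agent.H12.ZLoc2

set_option autoImplicit false
open Cfsg
open Cfsg.Agent.H12

namespace Cfsg.Agent.S3071

/-- Let p be an odd prime and S a Sylow p-subgroup of the finite group G such that, for every subgroup P with Z(S) ≤ P ≤ S, the normalizer N_G(P) has no section isomorphic to SL₂(p). Let J(S) be the subgroup generated by the abelian subgroups of S of largest order. Then two elements of S are conjugate in G if and only if they are conjugate in N_G(Z(J(S))). -/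
theorem result {G : Type*} [Group G] [Finite G] {p : ℕ} [Fact p.Prime]
    (hp : p ≠ 2) (S : Sylow p G)
    (hfree : ∀ P : Subgroup G, (S : Subgroup G) ⊓ Subgroup.centralizer ((S : Subgroup G) : Set G) ≤ P → P ≤ S →
      ¬ ∃ (H K : Subgroup G) (hK : (K.subgroupOf H).Normal), H ≤ Subgroup.normalizer (P : Set G) ∧
        Nonempty ((H ⧸ K.subgroupOf H) ≃* Matrix.SpecialLinearGroup (Fin 2) (ZMod p))) :
    ∀ x ∈ S, ∀ y ∈ S, (∃ g : G, g * x * g⁻¹ = y) ↔
      ∃ n ∈ Subgroup.normalizer (Cfsg.centerThompsonAOf (S : Subgroup G) : Set G), n * x * n⁻¹ = y := by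
  intro x hx y hy
  constructor
  · rintro ⟨g, hg⟩
    have hA : Subgroup.zpowers x ≤ (S : Subgroup G) := Subgroup.zpowers_le.mpr hx
    have hAg : cj (Subgroup.zpowers x) g⁻¹ ≤ (S : Subgroup G) := by
      intro z hz
      rw [mem_cj] at hz
      obtain ⟨k, hk⟩ := hz
      have e : z = y ^ k := by
        rw [← hg, conj_zpow]
        have hk' : x ^ k = g⁻¹ * z * g⁻¹⁻¹ := hk
        rw [hk']
        group
      rw [e]
      exact zpow_mem hy k
    obtain ⟨n, hn, hn'⟩ := zj_controls_of_local_free hp S hfree _ g⁻¹ hA hAg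
    refine ⟨n⁻¹, ?_, ?_⟩
    · rw [Cfsg.Agent.Lib.Helper13.centerThompsonAOf_eq]
      exact inv_mem hn
    · have := hn' x (Subgroup.mem_zpowers x)
      rw [inv_inv] at this ⊢
      rw [this, hg]
  · rintro ⟨n, -, hn⟩
    exact ⟨n, hn⟩

end Cfsg.Agent.S3071
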