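import Mathlib
import Cfsg.Statements.S3075
-- import your own Cfsg.Agent.* helpers here

set_option autoImplicit false
open Cfsg

namespace Cfsg.Agent.S3075


/-- commutators act trivially on a cyclic subgroup invariant under conjugation -/
theorem comm_cyclic {N : Type*} [Group N] (X : Subgroup N) (hX : IsCyclic X)
    (hinv : ∀ n : N, ∀ x ∈ X, n * x * n⁻¹ ∈ X) (n m : N) (x : N) (hx : x ∈ X) :
    (n⁻¹ * m⁻¹ * n * m) * x = x * (n⁻¹ * m⁻¹ * n * m) := by
  obtain ⟨⟨g, hgX⟩, hg⟩ := hX.exists_generator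
  have hgen : ∀ y ∈ X, ∃ i : ℤ, g ^ i = y := by
    intro y hy
    obtain ⟨i, hi⟩ := Subgroup.mem_zpowers_iff.1 (hg ⟨y, hy⟩)
    exact ⟨i, by simpa using congrArg Subtype.val hi⟩
  obtain ⟨i, hi⟩ := hgen _ (hinv n g hgX)
  obtain ⟨j, hj⟩ := hgen _ (hinv m g hgX)
  have conj_zpow : ∀ (a b : N) (k : ℤ), a * b ^ k * a⁻¹ = (a * b * a⁻¹) ^ k := by
    intro a b k
    exact (conj_zpow (a := a) (b := b) (i := k)).symm
  have h1 : (n * m) * g * (n * m)⁻¹ = g ^ (i * j) := by
    calc (n * m) * g * (n * m)⁻¹ = n * (m * g * m⁻¹) * n⁻¹ := by group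
      _ = n * g ^ j * n⁻¹ := by rw [hj]
      _ = (n * g * n⁻¹) ^ j := conj_zpow _ _ _
      _ = g ^ (i * j) := by rw [← hi, zpow_mul]
  have h2 : (m * n) * g * (m * n)⁻¹ = g ^ (i * j) := by
    calc (m * n) * g * (m * n)⁻¹ = m * (n * g * n⁻¹) * m⁻¹ := by group
      _ = m * g ^ i * m⁻¹ := by rw [hi]
      _ = (m * g * m⁻¹) ^ i := conj_zpow _ _ _
      _ = g ^ (i * j) := by rw [← hj, ← zpow_mul, mul_comm]
  have h3 : (n⁻¹ * m⁻¹ * n * m) * g = g * (n⁻¹ * m⁻¹ * n * m) := by
    have h4 : (n * m) * g * (n * m)⁻¹ = (m * n) * g * (m * n)⁻¹ := h1.trans h2.symm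
    have h5 : (m * n)⁻¹ * ((n * m) * g * (n * m)⁻¹) * (n * m) = (m * n)⁻¹ * ((m * n) * g * (m * n)⁻¹) * (n * m) := by
      rw [h4]
    calc (n⁻¹ * m⁻¹ * n * m) * g = (m * n)⁻¹ * ((n * m) * g * (n * m)⁻¹) * (n * m) := by group
      _ = (m * n)⁻¹ * ((m * n) * g * (m * n)⁻¹) * (n * m) := h5
      _ = g * (n⁻¹ * m⁻¹ * n * m) := by group
  obtain ⟨k, rfl⟩ := hgen x hx
  exact ((Commute.zpow_right (show Commute (n⁻¹ * m⁻¹ * n * m) g from h3) k)).eq

theorem sl2_not_comm {F : Type*} [Field F] :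
    ¬ ∀ a b : Matrix.SpecialLinearGroup (Fin 2) F, a * b = b * a := by
  intro h
  have h1 := h ⟨!![1, 1; 0, 1], by simp [Matrix.det_fin_two]⟩ ⟨!![1, 0; 1, 1], by simp [Matrix.det_fin_two]⟩
  have h2 := congrArg (fun M : Matrix.SpecialLinearGroup (Fin 2) F => M.1 0 0) h1
  have h3 : ((!![1, 1; 0, 1] : Matrix (Fin 2) (Fin 2) F) * (!![1, 0; 1, 1] : Matrix (Fin 2) (Fin 2) F) :
      Matrix (Fin 2) (Fin 2) F) 0 0 =
      ((!![1, 0; 1, 1] : Matrix (Fin 2) (Fin 2) F) * (!![1, 1; 0, 1] : Matrix (Fin 2) (Fin 2) F) :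
      Matrix (Fin 2) (Fin 2) F) 0 0 := h2
  simp [Matrix.mul_apply, Fin.sum_univ_two] at h3

/-- Let p be an odd prime and N a finite group with a normal elementary abelian subgroup A of order p² that is its own centralizer in N, such that N/A is isomorphic to SL₂(p) (over any field F with p elements). Then N splits over A: some subgroup U of N satisfies A ∩ U = 1 and AU = N. -/
theorem result {N : Type*} [Group N] [Finite N] {p : ℕ} [Fact p.Prime] (hp : p ≠ 2)
    (A : Subgroup N) [A.Normal] (hAcomm : IsMulCommutative A) (hAcard : Nat.card A = p ^ 2) (hAexp : Monoid.exponent ↥A = p)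
    (hAself : Subgroup.centralizer (A : Set N) = A)
    {F : Type*} [Field F] [Fintype F] (hF : Fintype.card F = p) (e : N ⧸ A ≃* Matrix.SpecialLinearGroup (Fin 2) F) :
    ∃ U : Subgroup N, A ⊓ U = ⊥ ∧ A ⊔ U = ⊤ := by
  classical
  have hpp : p.Prime := Fact.out
  have hodd : Odd p := hpp.odd_of_ne_two hp
  obtain ⟨r, hr⟩ := hodd
  -- basic facts on A
  have hAc : ∀ a ∈ A, ∀ b ∈ A, a * b = b * a := by
    intro a ha b hb
    have := hAcomm.is_comm.comm ⟨a, ha⟩ ⟨b, hb⟩
    exact congrArg Subtype.val this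
  have hApow : ∀ a ∈ A, a ^ p = 1 := by
    intro a ha
    have := Monoid.pow_exponent_eq_one (⟨a, ha⟩ : A)
    rw [hAexp] at this
    exact congrArg Subtype.val this
  have hsq1 : ∀ a ∈ A, a ^ 2 = 1 → a = 1 := by
    intro a ha h2
    have h3 := hApow a ha
    rw [hr, pow_succ, pow_mul, h2, one_pow, one_mul] at h3
    exact h3
  have hroot : ∀ a ∈ A, (a ^ 2) ^ (r + 1) = a := by
    intro a ha
    rw [← pow_mul, show 2 * (r + 1) = p + 1 by omega, pow_succ, hApow a ha, one_mul]
  -- the central involution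
  have hneg : (-1 : Matrix.SpecialLinearGroup (Fin 2) F) ≠ 1 := by
    intro h
    have h2 := congrArg (fun M : Matrix.SpecialLinearGroup (Fin 2) F => M.1 0 0) h
    simp only [Matrix.SpecialLinearGroup.coe_neg, Matrix.SpecialLinearGroup.coe_one,
      Matrix.neg_apply, Matrix.one_apply_eq] at h2
    have h3 : (2 : F) = 0 := by linear_combination -h2
    haveI : CharP F p := by
      obtain ⟨q, hq⟩ := CharP.exists F
      haveI := hq
      obtain ⟨k, hk1, hk2⟩ := FiniteField.card F q
      rw [hF] at hk2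
      have : q = p := by
        have h5 : q ∣ p := by rw [hk2]; exact dvd_pow_self q k.ne_zero
        exact ((Nat.prime_dvd_prime_iff_eq hk1 hpp).1 h5)
      rw [← this]; exact hq
    have h4 : ((2 : ℕ) : F) = 0 := by exact_mod_cast h3
    rw [CharP.cast_eq_zero_iff F p] at h4
    exact hp ((Nat.prime_dvd_prime_iff_eq hpp Nat.prime_two).1 h4)
  obtain ⟨t₀, ht₀⟩ := QuotientGroup.mk'_surjective A (e.symm (-1))
  obtain ⟨t, ht⟩ : ∃ t, t = t₀ ^ p := ⟨_, rfl⟩
  have hz2 : (e.symm (-1)) ^ 2 = 1 := by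
    rw [← map_pow]
    have : (-1 : Matrix.SpecialLinearGroup (Fin 2) F) ^ 2 = 1 := by
      ext i j; simp [pow_two]
    rw [this, map_one]
  have hπt : QuotientGroup.mk' A t = e.symm (-1) := by
    rw [ht, map_pow, ht₀, hr, pow_succ, pow_mul, hz2, one_pow, one_mul]
  have ht₀2 : t₀ ^ 2 ∈ A := by
    rw [← QuotientGroup.eq_one_iff, ← QuotientGroup.mk'_apply, map_pow, ht₀, hz2]
  have ht2 : t * t = 1 := by
    rw [ht, ← pow_add, ← two_mul, pow_mul]
    exact hApow _ ht₀2
  have htinv : t⁻¹ = t := inv_eq_of_mul_eq_one_left ht2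
  have htA : t ∉ A := by
    intro h
    have h1 : QuotientGroup.mk' A t = 1 := (QuotientGroup.eq_one_iff t).2 h
    rw [hπt] at h1
    apply hneg
    have := congrArg e h1
    simpa using this
  have hzc : ∀ x : N ⧸ A, x * e.symm (-1) = e.symm (-1) * x := by
    intro x
    apply e.injective
    rw [map_mul, map_mul, e.apply_symm_apply]
    ext i j; simp
  -- conjugates of t
  have hconj : ∀ n : N, n * t * n⁻¹ * t ∈ A := by
    intro n
    rw [← QuotientGroup.eq_one_iff, ← QuotientGroup.mk'_apply, map_mul, map_mul, map_mul, hπt,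
      hzc (QuotientGroup.mk' A n), map_inv, mul_assoc (e.symm (-1)), mul_inv_cancel, mul_one,
      ← pow_two, hz2]
  have hσA : ∀ a ∈ A, t * a * t ∈ A := by
    intro a ha
    have := ‹A.Normal›.conj_mem a ha t
    rwa [htinv] at this
  have hL : ∀ n : N, ∀ a ∈ A, t * (n * a * n⁻¹) * t = n * (t * a * t) * n⁻¹ := by
    intro n a ha
    obtain ⟨b, hb⟩ : ∃ b, b = n⁻¹ * t * n⁻¹⁻¹ * t := ⟨_, rfl⟩
    have hbA : b ∈ A := by rw [hb]; exact hconj n⁻¹
    have h1 : n⁻¹ * t * n = b * t := by
      rw [hb, inv_inv, mul_assoc _ t t, ht2, mul_one]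
    have h1' : n⁻¹ * t * n = t * (t * b * t) := by
      rw [h1, ← mul_assoc, ← mul_assoc, ht2, one_mul]
    have h2 : t * n = n * (b * t) := by rw [← h1]; group
    have h3 : n⁻¹ * t = (b * t) * n⁻¹ := by rw [← h1]; group
    calc t * (n * a * n⁻¹) * t = (t * n) * a * (n⁻¹ * t) := by group
      _ = n * (b * t) * a * ((b * t) * n⁻¹) := by rw [h2, h3]
      _ = n * (b * (t * a * t) * (t * b * t)) * n⁻¹ := by
          have : t * a * b * t = (t * a * t) * (t * b * t) := by
            calc t * a * b * t = t * a * 1 * b * t := by group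
              _ = t * a * (t * t) * b * t := by rw [ht2]
              _ = _ := by group
          calc n * (b * t) * a * ((b * t) * n⁻¹) = n * (b * (t * a * b * t)) * n⁻¹ := by group
            _ = _ := by rw [this]; group
      _ = n * (t * a * t) * n⁻¹ := by
          have hbb : b * (t * b * t) = 1 := by
            have h4 : (b * t) * (b * t) = 1 := by
              rw [← h1]
              calc n⁻¹ * t * n * (n⁻¹ * t * n) = n⁻¹ * (t * t) * n := by group
                _ = 1 := by rw [ht2]; group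
            calc b * (t * b * t) = (b * t) * (b * t) := by group
              _ = 1 := h4
          have h5 : b * (t * a * t) * (t * b * t) = t * a * t := by
            rw [hAc b hbA _ (hσA a ha), mul_assoc, hbb, mul_one]
          rw [h5]
  -- the subgroups C and D
  let C : Subgroup N :=
    { carrier := {a | a ∈ A ∧ t * a * t = a}
      one_mem' := ⟨A.one_mem, by rw [mul_one, ht2]⟩
      mul_mem' := by
        rintro a b ⟨ha, ha'⟩ ⟨hb, hb'⟩
        refine ⟨A.mul_mem ha hb, ?_⟩
        calc t * (a * b) * t = t * a * 1 * b * t := by group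
          _ = t * a * (t * t) * b * t := by rw [ht2]
          _ = (t * a * t) * (t * b * t) := by group
          _ = a * b := by rw [ha', hb']
      inv_mem' := by
        rintro a ⟨ha, ha'⟩
        refine ⟨A.inv_mem ha, ?_⟩
        have : (t * a * t)⁻¹ = t * a⁻¹ * t := by
          rw [mul_inv_rev, mul_inv_rev, htinv, mul_assoc]
        rw [← this, ha'] }
  let D : Subgroup N :=
    { carrier := {a | a ∈ A ∧ t * a * t = a⁻¹}
      one_mem' := ⟨A.one_mem, by rw [mul_one, ht2, inv_one]⟩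
      mul_mem' := by
        rintro a b ⟨ha, ha'⟩ ⟨hb, hb'⟩
        refine ⟨A.mul_mem ha hb, ?_⟩
        calc t * (a * b) * t = t * a * 1 * b * t := by group
          _ = t * a * (t * t) * b * t := by rw [ht2]
          _ = (t * a * t) * (t * b * t) := by group
          _ = a⁻¹ * b⁻¹ := by rw [ha', hb']
          _ = (a * b)⁻¹ := by
              rw [mul_inv_rev, hAc _ (A.inv_mem ha) _ (A.inv_mem hb)]
      inv_mem' := by
        rintro a ⟨ha, ha'⟩
        refine ⟨A.inv_mem ha, ?_⟩
        have : (t * a * t)⁻¹ = t * a⁻¹ * t := by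
          rw [mul_inv_rev, mul_inv_rev, htinv, mul_assoc]
        rw [← this, ha'] }
  have hCA : C ≤ A := fun a ha => ha.1
  have hDA : D ≤ A := fun a ha => ha.1
  have hCinv : ∀ n : N, ∀ x ∈ C, n * x * n⁻¹ ∈ C := by
    rintro n x ⟨hx, hx'⟩
    exact ⟨‹A.Normal›.conj_mem x hx n, by rw [hL n x hx, hx']⟩
  have hDinv : ∀ n : N, ∀ x ∈ D, n * x * n⁻¹ ∈ D := by
    rintro n x ⟨hx, hx'⟩
    refine ⟨‹A.Normal›.conj_mem x hx n, ?_⟩
    rw [hL n x hx, hx']; group
  have hCD : ∀ x, x ∈ C → x ∈ D → x = 1 := by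
    rintro x ⟨hx, hx'⟩ ⟨-, hx''⟩
    apply hsq1 x hx
    have : x = x⁻¹ := hx'.symm.trans hx''
    rw [pow_two]
    nth_rewrite 1 [this]
    exact inv_mul_cancel x
  have hu : ∀ a ∈ A, a * (t * a * t) ∈ C := by
    intro a ha
    refine ⟨A.mul_mem ha (hσA a ha), ?_⟩
    calc t * (a * (t * a * t)) * t = (t * a * t) * (a * (t * t)) := by group
      _ = (t * a * t) * a := by rw [ht2, mul_one]
      _ = a * (t * a * t) := hAc _ (hσA a ha) _ ha
  have hv : ∀ a ∈ A, a * (t * a * t)⁻¹ ∈ D := by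
    intro a ha
    refine ⟨A.mul_mem ha (A.inv_mem (hσA a ha)), ?_⟩
    have h1 : (t * a * t)⁻¹ = t * a⁻¹ * t := by
      rw [mul_inv_rev, mul_inv_rev, htinv, mul_assoc]
    rw [h1]
    calc t * (a * (t * a⁻¹ * t)) * t = (t * a * t) * (a⁻¹ * (t * t)) := by group
      _ = (t * a * t) * a⁻¹ := by rw [ht2, mul_one]
      _ = (a * (t * a⁻¹ * t))⁻¹ := by
          rw [mul_inv_rev, ← h1, inv_inv]
  have huv : ∀ a ∈ A, a ^ 2 = (a * (t * a * t)) * (a * (t * a * t)⁻¹) := by
    intro a ha
    rw [mul_assoc, ← mul_assoc (t * a * t), hAc _ (hσA a ha) a ha, mul_assoc a (t * a * t),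
      mul_inv_cancel, mul_one, pow_two]
  -- C is trivial
  have hCbot : C = ⊥ := by
    by_contra hC1
    have hCne : C ≠ A := by
      intro h
      apply htA
      rw [← hAself, Subgroup.mem_centralizer_iff]
      intro a ha
      have : a ∈ C := by rw [h]; exact ha
      have h2 := this.2
      calc a * t = (t * a * t) * t := by rw [h2]
        _ = t * a * (t * t) := by group
        _ = t * a := by rw [ht2, mul_one]
    have hD1 : D ≠ ⊥ := by
      intro h
      apply hCne
      apply le_antisymm hCA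
      intro a ha
      have h1 : a * (t * a * t)⁻¹ ∈ D := hv a ha
      rw [h, Subgroup.mem_bot] at h1
      exact ⟨ha, (mul_inv_eq_one.1 h1).symm⟩
    have hDne : D ≠ A := by
      intro h
      apply hC1
      rw [eq_bot_iff]
      intro x hx
      exact hCD x hx (by rw [h]; exact hCA hx)
    have card_p : ∀ X : Subgroup N, X ≤ A → X ≠ ⊥ → X ≠ A → Nat.card X = p := by
      intro X hXA hX1 hXne
      have h1 : Nat.card X ∣ p ^ 2 := by rw [← hAcard]; exact Subgroup.card_dvd_of_le hXA
      obtain ⟨k, hk, hk'⟩ := (Nat.dvd_prime_pow hpp).1 h1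
      interval_cases k
      · exfalso; apply hX1
        rw [pow_zero] at hk'
        exact Subgroup.card_eq_one.1 hk'
      · rw [hk', pow_one]
      · exfalso; apply hXne
        exact Subgroup.eq_of_le_of_card_ge hXA (by rw [hk', hAcard])
    have hCcyc : IsCyclic C := isCyclic_of_prime_card (card_p C hCA hC1 hCne)
    have hDcyc : IsCyclic D := isCyclic_of_prime_card (card_p D hDA hD1 hDne)
    apply sl2_not_comm (F := F)
    have hcomm : ∀ x y : N ⧸ A, x * y = y * x := by
      intro x y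
      obtain ⟨m, rfl⟩ := QuotientGroup.mk'_surjective A x
      obtain ⟨n, rfl⟩ := QuotientGroup.mk'_surjective A y
      have hk : n⁻¹ * m⁻¹ * n * m ∈ A := by
        rw [← hAself, Subgroup.mem_centralizer_iff]
        intro a ha
        have h1 := comm_cyclic C hCcyc hCinv n m _ (hu a ha)
        have h2 := comm_cyclic D hDcyc hDinv n m _ (hv a ha)
        have h3 : Commute (n⁻¹ * m⁻¹ * n * m) (a ^ 2) := by
          rw [huv a ha]
          exact Commute.mul_right h1 h2
        have h4 := h3.pow_right (r + 1)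
        rw [hroot a ha] at h4
        exact h4.eq.symm
      have h5 : QuotientGroup.mk' A (n⁻¹ * m⁻¹ * n * m) = 1 := (QuotientGroup.eq_one_iff _).2 hk
      rw [map_mul, map_mul, map_mul, map_inv, map_inv] at h5
      have h6 : QuotientGroup.mk' A n * QuotientGroup.mk' A m =
          QuotientGroup.mk' A m * QuotientGroup.mk' A n := by
        calc QuotientGroup.mk' A n * QuotientGroup.mk' A m
            = QuotientGroup.mk' A m * QuotientGroup.mk' A n *
              ((QuotientGroup.mk' A n)⁻¹ * (QuotientGroup.mk' A m)⁻¹ * QuotientGroup.mk' A n *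
                QuotientGroup.mk' A m) := by group
          _ = _ := by rw [h5, mul_one]
      exact h6.symm
    intro a b
    have := hcomm (e.symm a) (e.symm b)
    have h7 := congrArg e this
    simpa using h7
  -- t inverts A
  have hinvA : ∀ a ∈ A, t * a * t = a⁻¹ := by
    intro a ha
    have h1 : a * (t * a * t) ∈ C := hu a ha
    rw [hCbot, Subgroup.mem_bot] at h1
    exact (inv_eq_of_mul_eq_one_right h1).symm
  refine ⟨Subgroup.centralizer {t}, ?_, ?_⟩
  · rw [eq_bot_iff]
    intro a ha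
    have haA : a ∈ A := ha.1
    have hat : a * t = t * a := (Subgroup.mem_centralizer_singleton_iff.1 ha.2)
    have : a ∈ C := ⟨haA, by rw [← hat, mul_assoc, ht2, mul_one]⟩
    rwa [hCbot] at this
  · rw [eq_top_iff]
    intro n _
    obtain ⟨c, hc⟩ : ∃ c, c = n * t * n⁻¹ * t := ⟨_, rfl⟩
    have hcA : c ∈ A := by rw [hc]; exact hconj n
    obtain ⟨a, ha⟩ : ∃ a, a = c ^ (r + 1) := ⟨_, rfl⟩
    have haA : a ∈ A := by rw [ha]; exact A.pow_mem hcA _
    have ha2 : a * a = c := by
      rw [ha, ← pow_add, ← two_mul, pow_mul]; exact hroot c hcA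
    have h1 : a * t * a⁻¹ = n * t * n⁻¹ := by
      have h2 : t * a⁻¹ * t = a := by
        rw [hinvA _ (A.inv_mem haA), inv_inv]
      calc a * t * a⁻¹ = a * t * a⁻¹ * 1 := by rw [mul_one]
        _ = a * t * a⁻¹ * (t * t) := by rw [ht2]
        _ = a * (t * a⁻¹ * t) * t := by group
        _ = a * a * t := by rw [h2]
        _ = c * t := by rw [ha2]
        _ = n * t * n⁻¹ := by rw [hc, mul_assoc _ t t, ht2, mul_one]
    have h3 : a⁻¹ * n ∈ Subgroup.centralizer {t} := by
      rw [Subgroup.mem_centralizer_singleton_iff]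
      calc a⁻¹ * n * t = a⁻¹ * (n * t * n⁻¹) * n := by group
        _ = a⁻¹ * (a * t * a⁻¹) * n := by rw [h1]
        _ = t * (a⁻¹ * n) := by group
    have h4 : n = a * (a⁻¹ * n) := by group
    rw [h4]
    exact Subgroup.mul_mem_sup haA h3

end Cfsg.Agent.S3075
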