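import Cfsg.Statements.S3076
import Cfsg.Agent.Lib.Helper10.SylPre
-- import your own Cfsg.Agent.* helpers here

set_option autoImplicit false
open Cfsg

namespace Cfsg.Agent.S3076

/-- Let P be a Sylow p-subgroup of the finite group G and H ≤ P a subgroup with N_P(H) a Sylow p-subgroup of N_G(H). Let N be the preimage in N_G(H) of O_p(N_G(H)/C_G(H)). Then H is a Sylow p-subgroup of N if and only if C_P(H) ≤ H and O_{p',p}(N_G(H)) = H·C_G(H). -/
theorem result {G : Type*} [Group G] [Finite G] {p : ℕ} [Fact p.Prime]
    (P : Sylow p G) (H : Subgroup G) (hHP : H ≤ (P : Subgroup G))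
    (hSyl : ¬ p ∣ ((P : Subgroup G) ⊓ Subgroup.normalizer (H : Set G)).relIndex (Subgroup.normalizer (H : Set G)))
    [hC : ((Subgroup.centralizer (H : Set G)).subgroupOf (Subgroup.normalizer (H : Set G))).Normal] :
    (H ≤ ((Cfsg.pCore p (↥(Subgroup.normalizer (H : Set G)) ⧸
              (Subgroup.centralizer (H : Set G)).subgroupOf (Subgroup.normalizer (H : Set G)))).comap
            (QuotientGroup.mk' _)).map (Subgroup.normalizer (H : Set G)).subtype ∧
      ¬ p ∣ H.relIndex (((Cfsg.pCore p (↥(Subgroup.normalizer (H : Set G)) ⧸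
              (Subgroup.centralizer (H : Set G)).subgroupOf (Subgroup.normalizer (H : Set G)))).comap
            (QuotientGroup.mk' _)).map (Subgroup.normalizer (H : Set G)).subtype)) ↔
    ((P : Subgroup G) ⊓ Subgroup.centralizer (H : Set G) ≤ H ∧
      (Cfsg.pPrimePCore p ↥(Subgroup.normalizer (H : Set G))).map (Subgroup.normalizer (H : Set G)).subtype =
        H ⊔ Subgroup.centralizer (H : Set G)) := by
  have hHX : H ≤ Subgroup.normalizer (H : Set G) := Subgroup.le_normalizer
  have hCX : Subgroup.centralizer (H : Set G) ≤ Subgroup.normalizer (H : Set G) :=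
    Subgroup.centralizer_le_normalizer _
  have hHn : (H.subgroupOf (Subgroup.normalizer (H : Set G))).Normal := Subgroup.normal_in_normalizer
  have hHp : IsPGroup p H := P.2.to_le hHP
  have hH'p : IsPGroup p (H.subgroupOf (Subgroup.normalizer (H : Set G))) := hHp.comap_subtype
  have hT0p : IsPGroup p (((P : Subgroup G) ⊓ Subgroup.normalizer (H : Set G)).subgroupOf
      (Subgroup.normalizer (H : Set G))) := (P.2.to_le inf_le_left).comap_subtype
  have hcomm : ∀ c ∈ (Subgroup.centralizer (H : Set G)).subgroupOf (Subgroup.normalizer (H : Set G)),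
      ∀ h ∈ H.subgroupOf (Subgroup.normalizer (H : Set G)), c * h = h * c := by
    intro c hc h hh
    have hc' : (c : G) ∈ Subgroup.centralizer (H : Set G) := hc
    rw [Subgroup.mem_centralizer_iff] at hc'
    exact Subtype.ext (hc' h hh).symm
  have hcent : ∀ c : ↥(Subgroup.normalizer (H : Set G)),
      (∀ h ∈ H.subgroupOf (Subgroup.normalizer (H : Set G)), c * h = h * c) →
      c ∈ (Subgroup.centralizer (H : Set G)).subgroupOf (Subgroup.normalizer (H : Set G)) := by
    intro c hyp
    show (c : G) ∈ Subgroup.centralizer (H : Set G)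
    rw [Subgroup.mem_centralizer_iff]
    intro h hh
    have := hyp ⟨h, hHX hh⟩ hh
    exact (congrArg Subtype.val this).symm
  have key := Cfsg.Agent.Lib.Helper10.SylPre.abstract_iff (H.subgroupOf (Subgroup.normalizer (H : Set G)))
    ((Subgroup.centralizer (H : Set G)).subgroupOf (Subgroup.normalizer (H : Set G))) hH'p hcomm hcent
    (hT0p.toSylow hSyl)
  have hTc : ((hT0p.toSylow hSyl : Sylow p ↥(Subgroup.normalizer (H : Set G))) :
      Subgroup ↥(Subgroup.normalizer (H : Set G))) =
      ((P : Subgroup G) ⊓ Subgroup.normalizer (H : Set G)).subgroupOf (Subgroup.normalizer (H : Set G)) := rfl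
  rw [hTc] at key
  set N' := (Cfsg.pCore p (↥(Subgroup.normalizer (H : Set G)) ⧸
              (Subgroup.centralizer (H : Set G)).subgroupOf (Subgroup.normalizer (H : Set G)))).comap
            (QuotientGroup.mk' _) with hN'
  have e1 : H ≤ N'.map (Subgroup.normalizer (H : Set G)).subtype ↔
      H.subgroupOf (Subgroup.normalizer (H : Set G)) ≤ N' := by
    constructor
    · intro h x hx
      obtain ⟨y, hy, hyx⟩ := h hx
      have : y = x := Subtype.ext hyx
      rwa [← this]
    · intro h x hx
      exact ⟨⟨x, hHX hx⟩, h hx, rfl⟩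
  have e2 : H.relIndex (N'.map (Subgroup.normalizer (H : Set G)).subtype) =
      (H.subgroupOf (Subgroup.normalizer (H : Set G))).relIndex N' := by
    have h1 : N' = (N'.map (Subgroup.normalizer (H : Set G)).subtype).subgroupOf
        (Subgroup.normalizer (H : Set G)) :=
      (Subgroup.comap_map_eq_self_of_injective (Subgroup.subtype_injective _) N').symm
    conv_rhs => rw [h1]
    exact (Subgroup.relIndex_subgroupOf (Subgroup.map_subtype_le N')).symm
  have e3 : (P : Subgroup G) ⊓ Subgroup.centralizer (H : Set G) ≤ H ↔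
      ((P : Subgroup G) ⊓ Subgroup.normalizer (H : Set G)).subgroupOf (Subgroup.normalizer (H : Set G)) ⊓
        (Subgroup.centralizer (H : Set G)).subgroupOf (Subgroup.normalizer (H : Set G)) ≤
      H.subgroupOf (Subgroup.normalizer (H : Set G)) := by
    constructor
    · rintro h x ⟨hx1, hx2⟩
      exact h ⟨hx1.1, hx2⟩
    · rintro h g ⟨hg1, hg2⟩
      exact h (x := ⟨g, hCX hg2⟩) ⟨⟨hg1, hCX hg2⟩, hg2⟩
  have e4 : (Cfsg.pPrimePCore p ↥(Subgroup.normalizer (H : Set G))).map (Subgroup.normalizer (H : Set G)).subtype =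
        H ⊔ Subgroup.centralizer (H : Set G) ↔
      Cfsg.pPrimePCore p ↥(Subgroup.normalizer (H : Set G)) =
        H.subgroupOf (Subgroup.normalizer (H : Set G)) ⊔
        (Subgroup.centralizer (H : Set G)).subgroupOf (Subgroup.normalizer (H : Set G)) := by
    have e : (H.subgroupOf (Subgroup.normalizer (H : Set G)) ⊔
        (Subgroup.centralizer (H : Set G)).subgroupOf (Subgroup.normalizer (H : Set G))).map
          (Subgroup.normalizer (H : Set G)).subtype = H ⊔ Subgroup.centralizer (H : Set G) := by
      rw [Subgroup.map_sup, Subgroup.map_subgroupOf_eq_of_le hHX, Subgroup.map_subgroupOf_eq_of_le hCX]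
    rw [← e]
    exact (Subgroup.map_injective (Subgroup.subtype_injective _)).eq_iff
  rw [e1, e2, e3, e4]
  exact key

end Cfsg.Agent.S3076
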