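import Mathlib
import Cfsg.Statements.S3087
-- import your own Cfsg.Agent.* helpers here

set_option autoImplicit false
open Cfsg

namespace Cfsg.Agent.S3087

theorem card_inf_mul_le {V : Type*} [AddGroup V] [Finite V] (X Y W : AddSubgroup V) (hYX : Y ≤ X) :
    Nat.card ↥(X ⊓ W) * Nat.card Y ≤ Nat.card X * Nat.card ↥(Y ⊓ W) := by
  have h1 : Nat.card ↥(Y ⊓ W) * (Y ⊓ W).relIndex (X ⊓ W) = Nat.card ↥(X ⊓ W) := by
    rw [← AddSubgroup.relIndex_bot_left, ← AddSubgroup.relIndex_bot_left]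
    exact AddSubgroup.relIndex_mul_relIndex _ _ _ bot_le (inf_le_inf_right W hYX)
  have h2 : Nat.card Y * Y.relIndex X = Nat.card X := by
    rw [← AddSubgroup.relIndex_bot_left, ← AddSubgroup.relIndex_bot_left]
    exact AddSubgroup.relIndex_mul_relIndex _ _ _ bot_le hYX
  have h3 : (Y ⊓ W).relIndex (X ⊓ W) = Y.relIndex (X ⊓ W) := by
    rw [← AddSubgroup.inf_relIndex_right Y (X ⊓ W)]
    congr 1
    rw [← inf_assoc, inf_eq_left.mpr hYX]
  have h4 : Y.relIndex (X ⊓ W) ≤ Y.relIndex X :=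
    AddSubgroup.relIndex_le_of_le_right inf_le_left (by
      intro h
      rw [h, mul_zero] at h2
      exact Nat.card_pos.ne h2)
  rw [← h1, ← h2, h3]
  calc Nat.card ↥(Y ⊓ W) * Y.relIndex (X ⊓ W) * Nat.card Y
      ≤ Nat.card ↥(Y ⊓ W) * Y.relIndex X * Nat.card Y := by gcongr
    _ = Nat.card Y * Y.relIndex X * Nat.card ↥(Y ⊓ W) := by ring

/-- Let p be a prime, G a finite group acting linearly on a finite vector space V over the field with p elements, W a G-invariant subspace, and A a subgroup of G with |A|·|C_V(A)| ≥ |B|·|C_V(B)| for every subgroup B of A. Then |A|·|C_W(A)| ≥ |B|·|C_W(B)| for every subgroup B of A that contains C_A(W); that is, the image of A in the group induced on W satisfies the same maximality condition. -/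
theorem result {G V : Type*} [Group G] [Finite G] [AddCommGroup V] [Finite V] (p : ℕ) [Fact p.Prime] [Module (ZMod p) V]
    (ρ : Representation (ZMod p) G V) (W : Submodule (ZMod p) V) (hW : ∀ g : G, ∀ w ∈ W, ρ g w ∈ W)
    (A : Subgroup G)
    (hP : ∀ B : Subgroup G, B ≤ A →
      Nat.card ↥B * Nat.card {v : V // ∀ b ∈ B, ρ b v = v} ≤ Nat.card ↥A * Nat.card {v : V // ∀ a ∈ A, ρ a v = v})
    (B : Subgroup G) (hBA : B ≤ A) (hCB : ∀ a ∈ A, (∀ w ∈ W, ρ a w = w) → a ∈ B) :
    Nat.card ↥B * Nat.card {w : W // ∀ b ∈ B, ρ b w = w} ≤ Nat.card ↥A * Nat.card {w : W // ∀ a ∈ A, ρ a w = w} := by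
  let X : Subgroup G → AddSubgroup V := fun C =>
    { carrier := {v | ∀ c ∈ C, ρ c v = v}
      zero_mem' := fun c _ => map_zero _
      add_mem' := fun {a b} ha hb c hc => by rw [map_add, ha c hc, hb c hc]
      neg_mem' := fun {a} ha c hc => by rw [map_neg, ha c hc] }
  have hX : ∀ C : Subgroup G, Nat.card {v : V // ∀ c ∈ C, ρ c v = v} = Nat.card (X C) := fun C => rfl
  have hXW : ∀ C : Subgroup G, Nat.card {w : W // ∀ c ∈ C, ρ c w = w} = Nat.card ↥(X C ⊓ W.toAddSubgroup) := by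
    intro C
    apply Nat.card_congr
    exact
      { toFun := fun w => ⟨w.1.1, w.2, w.1.2⟩
        invFun := fun v => ⟨⟨v.1, v.2.2⟩, v.2.1⟩
        left_inv := fun w => rfl
        right_inv := fun v => rfl }
  have hYX : X A ≤ X B := fun v hv b hb => hv b (hBA hb)
  have key := card_inf_mul_le (X B) (X A) W.toAddSubgroup hYX
  have hP' := hP B hBA
  rw [hX, hX] at hP'
  rw [hXW, hXW]
  have hpos : 0 < Nat.card (X A) := Nat.card_pos
  apply Nat.le_of_mul_le_mul_right _ hpos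
  calc Nat.card ↥B * Nat.card ↥(X B ⊓ W.toAddSubgroup) * Nat.card (X A)
      = Nat.card ↥B * (Nat.card ↥(X B ⊓ W.toAddSubgroup) * Nat.card (X A)) := by ring
    _ ≤ Nat.card ↥B * (Nat.card (X B) * Nat.card ↥(X A ⊓ W.toAddSubgroup)) := by gcongr
    _ = (Nat.card ↥B * Nat.card (X B)) * Nat.card ↥(X A ⊓ W.toAddSubgroup) := by ring
    _ ≤ (Nat.card ↥A * Nat.card (X A)) * Nat.card ↥(X A ⊓ W.toAddSubgroup) := by gcongr
    _ = Nat.card ↥A * Nat.card ↥(X A ⊓ W.toAddSubgroup) * Nat.card (X A) := by ring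

end Cfsg.Agent.S3087
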