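import Mathlib
import Cfsg.Statements.S3155
-- import your own Cfsg.Agent.* helpers here

set_option autoImplicit false
open Cfsg

namespace Cfsg.Agent.S3155

/-- Let B be the direct product of three cyclic groups of order 4. Then the automorphism of B inverting every element is not the square of any automorphism of B. -/
theorem result {B : Type*} [CommGroup B] [Finite B] (hB : Nonempty (B ≃* Multiplicative (ZMod 4 × ZMod 4 × ZMod 4)))
    (τ : B ≃* B) : τ.trans τ ≠ MulEquiv.inv B := by
  obtain ⟨e⟩ := hB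
  intro h
  have h' : ∀ b : B, τ (τ b) = b⁻¹ := fun b => by
    have := congrArg (fun f : B ≃* B => f b) h
    simpa using this
  let g : (ZMod 4 × ZMod 4 × ZMod 4) ≃+ (ZMod 4 × ZMod 4 × ZMod 4) :=
    AddEquiv.toMultiplicative.symm (e.symm.trans (τ.trans e))
  have hg : ∀ v, g (g v) = -v := by
    intro v
    show Multiplicative.toAdd (e (τ (e.symm (Multiplicative.ofAdd (Multiplicative.toAdd
      (e (τ (e.symm (Multiplicative.ofAdd v))))))))) = -v
    simp [h']
  let L : (ZMod 4 × ZMod 4 × ZMod 4) →ₗ[ZMod 4] (ZMod 4 × ZMod 4 × ZMod 4) :=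
    g.toAddMonoidHom.toZModLinearMap 4
  have hL : L * L = (-1 : ZMod 4) • (1 : (ZMod 4 × ZMod 4 × ZMod 4) →ₗ[ZMod 4] (ZMod 4 × ZMod 4 × ZMod 4)) := by
    apply LinearMap.ext
    intro v
    show g (g v) = (-1 : ZMod 4) • v
    rw [hg]; simp
  have hdet := congrArg LinearMap.det hL
  rw [map_mul, LinearMap.det_smul, map_one] at hdet
  have hfr : Module.finrank (ZMod 4) (ZMod 4 × ZMod 4 × ZMod 4) = 3 := by
    haveI : Fact (1 < 4) := ⟨by norm_num⟩
    rw [Module.finrank_prod, Module.finrank_prod, Module.finrank_self]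
  rw [hfr] at hdet
  revert hdet
  generalize LinearMap.det L = d
  revert d
  decide

end Cfsg.Agent.S3155
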