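import Cfsg.Statements.S3178
import Mathlib
-- import your own Cfsg.Agent.* helpers here
import Cfsg.Agent.Lib.Helper18.Transfer
import Cfsg.Agent.Lib.Helper2.CycSylowTwo
import Cfsg.Agent.Lib.Helper13.NPC1
import Cfsg.Agent.H5.SylConj

set_option autoImplicit false
open Cfsg

namespace Cfsg.Agent.S3178


/-- unique involution of a cyclic 2-group -/
theorem unique_inv {G : Type*} [Group G] (a : G) (k : ℕ) (hao : orderOf a = 2 ^ (k + 1)) (x : G)
    (hx : x ∈ Subgroup.zpowers a) (hx2 : x ^ 2 = 1) : x = 1 ∨ x = a ^ (2 ^ k) := by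
  have hfin : IsOfFinOrder a := by
    rw [← orderOf_pos_iff, hao]; positivity
  rw [← hfin.mem_powers_iff_mem_zpowers] at hx
  obtain ⟨j, rfl⟩ := hx
  rw [← pow_mul] at hx2
  have h1 := orderOf_dvd_of_pow_eq_one hx2
  rw [hao, pow_succ] at h1
  have h2 : 2 ^ k ∣ j := Nat.dvd_of_mul_dvd_mul_right (by norm_num) h1
  obtain ⟨t, rfl⟩ := h2
  have hz2 : (a ^ 2 ^ k) ^ 2 = 1 := by
    rw [← pow_mul, ← pow_succ, ← hao, pow_orderOf_eq_one]
  show a ^ (2 ^ k * t) = 1 ∨ a ^ (2 ^ k * t) = a ^ 2 ^ k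
  rw [pow_mul]
  rcases Nat.even_or_odd' t with ⟨s, rfl | rfl⟩
  · left; rw [pow_mul, hz2, one_pow]
  · right; rw [pow_succ, pow_mul, hz2, one_pow, one_mul]


/-- Groups with a modular Sylow 2-subgroup have a normal 2-complement. Let S, of order 2^(n+1) with n ≥ 3, be a Sylow 2-subgroup of a finite group G, and suppose S contains an element a of order 2^n and an involution b with b a b⁻¹ = a^(2^(n-1) + 1); so S is the non-abelian 2-group with a cyclic subgroup of index 2 that is neither dihedral, semidihedral nor generalized quaternion. Then G has a normal 2-complement. -/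
theorem result {G : Type*} [Group G] [Finite G]
    (S : Sylow 2 G) (n : ℕ) (hn : 3 ≤ n) (hS : Nat.card ↥(S : Subgroup G) = 2 ^ (n + 1))
    (a b : G) (ha : a ∈ (S : Subgroup G)) (hb : b ∈ (S : Subgroup G))
    (hao : orderOf a = 2 ^ n) (hbo : orderOf b = 2) (hrel : b * a * b⁻¹ = a ^ (2 ^ (n - 1) + 1)) :
    Cfsg.HasNormalPComplement 2 G := by
  have : Fact (Nat.Prime 2) := ⟨Nat.prime_two⟩
  obtain ⟨m, rfl⟩ : ∃ m, n = m + 3 := ⟨n - 3, by omega⟩
  have hm1 : m + 3 - 1 = m + 2 := rfl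
  rw [hm1] at hrel
  set z := a ^ (2 ^ (m + 2)) with hz
  set A := Subgroup.zpowers a with hA
  have hAS : A ≤ (S : Subgroup G) := Subgroup.zpowers_le.mpr ha
  have haA : a ∈ A := Subgroup.mem_zpowers a
  have hzA : z ∈ A := Subgroup.pow_mem _ haA _
  have hU : ∀ x ∈ A, x ^ 2 = 1 → x = 1 ∨ x = z := fun x hx hx2 =>
    unique_inv a (m + 2) hao x hx hx2
  have ha8 : a ^ (2 ^ (m + 3)) = 1 := by rw [← hao, pow_orderOf_eq_one]
  have hz1 : z ≠ 1 := by
    intro h
    have := orderOf_dvd_of_pow_eq_one h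
    rw [hao] at this
    have := (Nat.pow_dvd_pow_iff_le_right (by norm_num : 1 < 2)).mp this
    omega
  have hz2 : z ^ 2 = 1 := by
    rw [hz, ← pow_mul, ← pow_succ, ha8]
  have hb2 : b ^ 2 = 1 := by rw [← hbo, pow_orderOf_eq_one]
  have hbinv : b⁻¹ = b := by
    rw [inv_eq_iff_mul_eq_one, ← pow_two, hb2]
  have hb1 : b ≠ 1 := by
    intro h
    rw [h, orderOf_one] at hbo
    omega
  have hbA : b ∉ A := by
    intro h
    obtain ⟨k, hk⟩ := h
    have h1 : b * a * b⁻¹ = a := by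
      rw [← hk]
      show a ^ k * a * (a ^ k)⁻¹ = a
      rw [← zpow_add_one, ← zpow_neg, ← zpow_add]
      simp
    rw [h1, pow_succ] at hrel
    exact hz1 (by simpa using hrel.symm)
  have hcardA : Nat.card A = 2 ^ (m + 3) := by rw [hA, Nat.card_zpowers, hao]
  have hrelidx : A.relIndex (S : Subgroup G) = 2 := by
    have h1 := Subgroup.card_mul_index (A.subgroupOf (S : Subgroup G))
    rw [Nat.card_congr (Subgroup.subgroupOfEquivOfLe hAS).toEquiv, hcardA, hS,
      pow_succ 2 (m + 3)] at h1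
    exact Nat.eq_of_mul_eq_mul_left (by positivity) h1
  have hsq : ∀ x ∈ (S : Subgroup G), x ^ 2 ∈ A := by
    intro x hx
    have := Subgroup.sq_mem_of_index_two (H := A.subgroupOf (S : Subgroup G)) hrelidx ⟨x, hx⟩
    rw [Subgroup.mem_subgroupOf] at this
    exact this
  have hdich : ∀ x ∈ (S : Subgroup G), x ∈ A ∨ x * b ∈ A := by
    intro x hx
    by_cases hxA : x ∈ A
    · exact Or.inl hxA
    · right
      have := Subgroup.mul_mem_iff_of_index_two (H := A.subgroupOf (S : Subgroup G)) hrelidx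
        (a := ⟨x, hx⟩) (b := ⟨b, hb⟩)
      simp only [Subgroup.mem_subgroupOf] at this
      exact this.mpr ⟨fun h => absurd h hxA, fun h => absurd h hbA⟩
  have hAcomm : ∀ x ∈ A, ∀ y ∈ A, x * y = y * x := by
    rintro _ ⟨i, rfl⟩ _ ⟨j, rfl⟩
    show a ^ i * a ^ j = a ^ j * a ^ i
    rw [← zpow_add, ← zpow_add, add_comm]
  have hbz : b * z * b⁻¹ = z := by
    have h1 : b * z * b⁻¹ = (a ^ (2 ^ (m + 2) + 1)) ^ (2 ^ (m + 2)) := by
      rw [← hrel, conj_pow]
    have h2 : b * z * b⁻¹ ∈ A := by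
      rw [h1]; exact Subgroup.pow_mem _ (Subgroup.pow_mem _ haA _) _
    have h3 : (b * z * b⁻¹) ^ 2 = 1 := by
      rw [conj_pow, hz2]; group
    rcases hU _ h2 h3 with h4 | h4
    · exfalso
      apply hz1
      have : z = b⁻¹ * (b * z * b⁻¹) * b := by group
      rw [this, h4]; group
    · exact h4
  have hbz' : b * z = z * b := mul_inv_eq_iff_eq_mul.mp hbz
  have hzS : ∀ x ∈ (S : Subgroup G), x * z = z * x := by
    intro x hx
    rcases hdich x hx with h | h
    · exact hAcomm x h z hzA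
    · have h1 := hAcomm _ h z hzA
      have h2 : x * z * b = z * x * b := by
        rw [mul_assoc x z b, ← hbz', ← mul_assoc, h1, mul_assoc]
      exact mul_right_cancel h2
  have hba2 : b * a ^ 2 * b⁻¹ = a ^ 2 := by
    rw [← conj_pow, hrel, ← pow_mul]
    have : (2 ^ (m + 2) + 1) * 2 = 2 ^ (m + 3) + 2 := by ring
    rw [this, pow_add, ha8, one_mul]
  have hnoconj : ∀ g : G, g * b * g⁻¹ ∉ A := by
    intro g hg
    have h3 : (g * b * g⁻¹) ^ 2 = 1 := by
      rw [conj_pow, hb2]; group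
    have hgz : g * b * g⁻¹ = z := by
      rcases hU _ hg h3 with h4 | h4
      · exfalso
        apply hb1
        have : b = g⁻¹ * (g * b * g⁻¹) * g := by group
        rw [this, h4]; group
      · exact h4
    have hP' : ((g⁻¹ • S : Sylow 2 G) : Subgroup G) ≤ Subgroup.centralizer {b} := by
      intro r hr
      rw [Cfsg.Agent.H5SylConj.mem_smul_sylow, inv_inv] at hr
      have h5 := hzS _ hr
      rw [← hgz] at h5
      rw [Subgroup.mem_centralizer_singleton_iff]
      have h6 : g * (r * b) * g⁻¹ = g * (b * r) * g⁻¹ := by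
        calc g * (r * b) * g⁻¹ = g * r * g⁻¹ * (g * b * g⁻¹) := by group
          _ = g * b * g⁻¹ * (g * r * g⁻¹) := h5
          _ = g * (b * r) * g⁻¹ := by group
      exact mul_left_cancel (mul_right_cancel h6)
    have hR : Subgroup.zpowers (a ^ 2) ≤ Subgroup.centralizer {b} := by
      rw [Subgroup.zpowers_le, Subgroup.mem_centralizer_singleton_iff]
      exact (mul_inv_eq_iff_eq_mul.mp hba2).symm
    have hRp : IsPGroup 2 (Subgroup.zpowers (a ^ 2)) :=
      S.2.to_le (Subgroup.zpowers_le.mpr (Subgroup.pow_mem _ ha _))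
    obtain ⟨c, hc, hcr⟩ := Cfsg.Agent.H5SylConj.conj_into _ _ hP' _ hR hRp
    have h7 := hcr (a ^ 2) (Subgroup.mem_zpowers _)
    rw [Cfsg.Agent.H5SylConj.mem_smul_sylow, inv_inv] at h7
    set x := g * (c⁻¹ * a ^ 2 * c) * g⁻¹ with hx
    have hx1 : x ^ (2 ^ (m + 1)) = g * (c⁻¹ * z * c) * g⁻¹ := by
      have : x = (g * c⁻¹) * a ^ 2 * (g * c⁻¹)⁻¹ := by rw [hx]; group
      rw [this, conj_pow, ← pow_mul, ← pow_succ', ← hz]; group
    have hx2 : x ^ (2 ^ (m + 1)) ∈ A := by
      rw [pow_succ', pow_mul]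
      exact Subgroup.pow_mem _ (hsq x h7) _
    have hx3 : (x ^ (2 ^ (m + 1))) ^ 2 = 1 := by
      have : g * (c⁻¹ * z * c) * g⁻¹ = (g * c⁻¹) * z * (g * c⁻¹)⁻¹ := by group
      rw [hx1, this, conj_pow, hz2]; group
    rw [Subgroup.mem_centralizer_singleton_iff] at hc
    rcases hU _ hx2 hx3 with h8 | h8
    · apply hz1
      rw [hx1] at h8
      have : z = c * (g⁻¹ * (g * (c⁻¹ * z * c) * g⁻¹) * g) * c⁻¹ := by group
      rw [this, h8]; group
    · rw [hx1, ← hgz] at h8
      have h9 : c⁻¹ * (g * b * g⁻¹) * c = b := mul_left_cancel (mul_right_cancel h8)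
      rw [hgz] at h9
      apply hbA
      have : b = z := by
        have h10 : z = c * b * c⁻¹ := by rw [← h9]; group
        rw [h10, hc]; group
      rw [this]; exact hzA
  obtain ⟨N, hNn, hNi, hbN⟩ := Cfsg.Agent.Lib.Helper18.thompson_transfer_gen S A hrelidx 1 le_rfl
    (by
      intro y _ hyA
      simp only [Nat.sub_self, pow_zero]
      have hy1 : y ≠ 1 := by rintro rfl; exact hyA (one_mem _)
      have h0 : 0 < orderOf y := orderOf_pos y
      have h1 : orderOf y ≠ 1 := fun h => hy1 (orderOf_eq_one_iff.mp h)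
      omega)
    b (by rw [hbo, pow_one]) hnoconj
  -- a generator of S ⊓ N
  have hab : orderOf (a * b) = 2 ^ (m + 3) := by
    have h1 : (a * b) ^ 2 = a ^ (2 ^ (m + 2) + 2) := by
      have : (a * b) ^ 2 = a * (b * a * b⁻¹) * b ^ 2 := by
        rw [pow_two, pow_two]; group
      rw [this, hrel, hb2, mul_one, ← pow_succ']
    have h2 : (a * b) ^ (2 ^ (m + 2)) = z := by
      rw [pow_succ' 2 (m + 1), pow_mul, h1, ← pow_mul]
      have : (2 ^ (m + 2) + 2) * 2 ^ (m + 1) = 2 ^ (m + 3) * 2 ^ m + 2 ^ (m + 2) := by ring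
      rw [this, pow_add, pow_mul, ha8, one_pow, one_mul]
    apply orderOf_eq_prime_pow
    · rw [h2]; exact hz1
    · rw [pow_succ 2 (m + 2), pow_mul, h2, hz2]
  obtain ⟨c, hcS, hcN, hco⟩ : ∃ c, c ∈ (S : Subgroup G) ∧ c ∈ N ∧ orderOf c = 2 ^ (m + 3) := by
    by_cases haN : a ∈ N
    · exact ⟨a, ha, haN, hao⟩
    · refine ⟨a * b, mul_mem ha hb, ?_, hab⟩
      exact (Subgroup.mul_mem_iff_of_index_two hNi).mpr
        ⟨fun h => absurd h haN, fun h => absurd h hbN⟩
  have hT : Subgroup.zpowers c = (S : Subgroup G) ⊓ N := by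
    apply Subgroup.eq_of_le_of_card_ge (Subgroup.zpowers_le.mpr (Subgroup.mem_inf.mpr ⟨hcS, hcN⟩))
    rw [Nat.card_zpowers, hco]
    have h1 : Nat.card ((S : Subgroup G) ⊓ N : Subgroup G) ∣ 2 ^ (m + 3 + 1) := by
      rw [← hS]; exact Subgroup.card_dvd_of_le inf_le_left
    obtain ⟨j, hj, hj2⟩ := (Nat.dvd_prime_pow Nat.prime_two).mp h1
    rw [hj2]
    apply Nat.pow_le_pow_right (by norm_num)
    by_contra hlt
    have hj3 : j = m + 3 + 1 := by omega
    have h2 : (S : Subgroup G) ⊓ N = S := by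
      apply Subgroup.eq_of_le_of_card_ge inf_le_left
      rw [hS, hj2, hj3]
    apply hbN
    have : b ∈ (S : Subgroup G) ⊓ N := by rw [h2]; exact hb
    exact this.2
  obtain ⟨Q⟩ : Nonempty (Sylow 2 N) := inferInstance
  have hQc : IsCyclic Q := by
    have hQ' : IsPGroup 2 ((Q : Subgroup N).map N.subtype) := Q.2.map _
    obtain ⟨t, -, ht⟩ := Cfsg.Agent.H5SylConj.conj_into ⊤ S le_top _ le_top hQ'
    let f : Q →* Subgroup.zpowers c :=
      ((MulAut.conj t⁻¹).toMonoidHom.comp (N.subtype.comp (Q : Subgroup N).subtype)).codRestrict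
        (Subgroup.zpowers c) (by
          intro q
          rw [hT]
          have h1 := ht (q.1.1) ⟨q.1, q.2, rfl⟩
          refine ⟨?_, ?_⟩
          · show t⁻¹ * q.1.1 * t⁻¹⁻¹ ∈ (S : Subgroup G)
            rw [inv_inv]; exact h1
          · have := hNn.conj_mem q.1.1 q.1.2 t⁻¹
            simpa [MulAut.conj_apply] using this)
    have hf : Function.Injective f := by
      intro q₁ q₂ h
      have h1 := congrArg Subtype.val h
      have h2 : t⁻¹ * q₁.1.1 * t⁻¹⁻¹ = t⁻¹ * q₂.1.1 * t⁻¹⁻¹ := h1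
      have h3 : q₁.1.1 = q₂.1.1 := mul_left_cancel (mul_right_cancel h2)
      exact Subtype.ext (Subtype.ext h3)
    exact isCyclic_of_injective f hf
  have hNeven : Even (Nat.card N) := by
    have h1 : orderOf (⟨c, hcN⟩ : N) ∣ Nat.card N := orderOf_dvd_natCard _
    rw [Subgroup.orderOf_mk, hco] at h1
    exact (even_iff_two_dvd).mpr (Dvd.dvd.trans (dvd_pow_self 2 (by omega)) h1)
  obtain ⟨K, hKn, hKodd, -, hKmem, -⟩ := Cfsg.Agent.Lib.Helper2.cyclic_sylow_two Q hQc hNeven
  apply Cfsg.Agent.Lib.Helper13.npc_of_NPCW (K := K.map N.subtype)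
  have hmemK : ∀ x : G, x ∈ K.map N.subtype ↔ Odd (orderOf x) := by
    intro x
    constructor
    · rintro ⟨k, hk, rfl⟩
      have := (hKmem k).mp hk
      rwa [← Subgroup.orderOf_coe] at this
    · intro hx
      have hxN : x ∈ N := by
        apply Cfsg.Agent.Lib.Helper2.mem_of_normal_of_coprime_index N x
        rw [hNi]
        exact (Nat.coprime_two_left).mpr hx
      refine ⟨⟨x, hxN⟩, (hKmem _).mpr ?_, rfl⟩
      rwa [Subgroup.orderOf_mk]
  refine ⟨⟨?_⟩, ?_, ?_⟩
  · intro x hx g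
    rw [hmemK] at hx ⊢
    have : orderOf (g * x * g⁻¹) = orderOf x := by
      have := (MulAut.conj g).orderOf_eq x
      simpa [MulAut.conj_apply] using this
    rwa [this]
  · rw [Subgroup.card_map_of_injective N.subtype_injective]
    exact (Nat.coprime_two_right).mpr hKodd
  · intro x
    obtain ⟨k, r, hr, hkr⟩ := Nat.exists_eq_two_pow_mul_odd (orderOf_pos x).ne'
    refine ⟨k, ?_⟩
    rw [hmemK, orderOf_pow_of_dvd (by positivity) (by rw [hkr]; exact Dvd.intro _ rfl), hkr,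
      Nat.mul_div_cancel_left _ (by positivity)]
    exact hr

end Cfsg.Agent.S3178
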