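import Mathlib
import Cfsg.Agent.Lib.Helper18.GL52a
import Cfsg.Agent.Lib.Helper18.GL52b
import Cfsg.Agent.S0243
import Cfsg.Agent.S0280
import Cfsg.Agent.S1163
import Cfsg.Statements.S3179
-- import your own Cfsg.Agent.* helpers here

set_option autoImplicit false
open Cfsg Cfsg.Agent.Lib.Helper18 Matrix

namespace Cfsg.Agent.S3179

/-- Let X be a section of the general linear group GL(5, 2), that is, a quotient of a subgroup of it. If X is isomorphic to PSL(2, 2^n) for some n ≥ 2, to a Suzuki group over the field with 2^(2m+1) elements for some m ≥ 1, or to PSU(3, 2^n) for some n ≥ 2, then X is isomorphic to PSL(2, 4). -/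
theorem result {H : Subgroup (GL (Fin 5) (ZMod 2))}
    {K : Subgroup ↥H} [K.Normal]
    (hX : (∃ (n : ℕ) (F : Type) (_ : Field F) (_ : Fintype F), 2 ≤ n ∧ Fintype.card F = 2 ^ n ∧
        Nonempty (↥H ⧸ K ≃* Matrix.ProjectiveSpecialLinearGroup (Fin 2) F)) ∨
      (∃ (m : ℕ) (F : Type) (_ : Field F) (_ : Fintype F), 1 ≤ m ∧ Fintype.card F = 2 ^ (2 * m + 1) ∧
        Nonempty (↥H ⧸ K ≃* ↥(Cfsg.Lie.Sz F (2 ^ (m + 1))))) ∨
      (∃ (n : ℕ) (F : Type) (_ : Field F) (_ : Fintype F), 2 ≤ n ∧ Fintype.card F = 4 ^ n ∧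
        Nonempty (↥H ⧸ K ≃* Cfsg.PSU 3 F (2 ^ n)))) :
    ∃ (F : Type) (_ : Field F) (_ : Fintype F), Fintype.card F = 4 ∧
      Nonempty (↥H ⧸ K ≃* Matrix.ProjectiveSpecialLinearGroup (Fin 2) F) := by
  have hN : Nat.card (GL (Fin 5) (ZMod 2)) = 9999360 := by
    rw [Matrix.card_GL_field, ZMod.card]
    simp [Fin.prod_univ_succ]
  have hdvd : Nat.card (↥H ⧸ K) ∣ 9999360 := by
    rw [← hN]
    exact (Subgroup.card_quotient_dvd_card K).trans (Subgroup.card_subgroup_dvd_card H)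
  rcases hX with ⟨n, F, _, _, hn, hF, ⟨e⟩⟩ | ⟨m, F, _, _, hm, hF, ⟨e⟩⟩ | ⟨n, F, _, _, hn, hF, ⟨e⟩⟩
  · have hc := Cfsg.Agent.S0243.result hF 2 (by norm_num)
    rw [← Nat.card_congr e.toEquiv, Fin.prod_univ_two] at hc
    have e0 : ((0 : Fin 2) : ℕ) = 0 := rfl
    have e1 : ((1 : Fin 2) : ℕ) = 1 := rfl
    rw [e0, e1, pow_zero, pow_one] at hc
    obtain ⟨q, hq⟩ : ∃ q : ℕ, q = 2 ^ n := ⟨_, rfl⟩
    obtain ⟨c, hcc⟩ : ∃ c : ℕ, c = Nat.card (↥H ⧸ K) := ⟨_, rfl⟩
    rw [← hq, ← hcc] at hc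
    rw [← hcc] at hdvd
    have hq4 : 4 ≤ q := by
      rw [hq]
      calc 4 = 2 ^ 2 := by norm_num
        _ ≤ 2 ^ n := Nat.pow_le_pow_right (by norm_num) hn
    have hg : Nat.gcd 2 (q - 1) = 1 := by
      have hodd : ¬ 2 ∣ q - 1 := by
        have h2q : 2 ∣ q := by rw [hq]; exact dvd_pow_self 2 (by omega)
        omega
      exact (Nat.Prime.coprime_iff_not_dvd Nat.prime_two).2 hodd
    rw [hg, one_mul] at hc
    have h1 : q ^ 2 - q = q * (q - 1) := by rw [Nat.mul_sub, mul_one, sq]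
    have hc2 : c = (q ^ 2 - 1) * q := by
      have : (q - 1) * c = (q - 1) * ((q ^ 2 - 1) * q) := by rw [hc, h1]; ring
      exact Nat.eq_of_mul_eq_mul_left (by omega) this
    have hn10 : n ≤ 10 := by
      by_contra hcon
      have h11 : 2 ^ 11 ∣ q := by rw [hq]; exact pow_dvd_pow 2 (by omega)
      have : 2 ^ 11 ∣ 9999360 := (h11.trans (Dvd.intro_left _ hc2.symm)).trans hdvd
      exact absurd this (by norm_num)
    rw [hc2, hq] at hdvd
    interval_cases n
    · exact ⟨F, inferInstance, inferInstance, by rw [hF]; norm_num, ⟨e⟩⟩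
    · exfalso
      obtain ⟨y, hy9, hy3⟩ := psl2_eight_exists_order_nine (F := F) (by rw [hF]; norm_num)
      obtain ⟨z, hz⟩ : ∃ z : ↥H ⧸ K, z = e.symm y := ⟨_, rfl⟩
      have hz9 : z ^ 9 = 1 := by rw [hz, ← map_pow, hy9, map_one]
      have hz3 : z ^ 3 ≠ 1 := by
        intro h
        apply hy3
        have := congrArg e h
        rw [hz, map_pow, map_one, MulEquiv.apply_symm_apply] at this
        exact this
      obtain ⟨h, hh⟩ := QuotientGroup.mk_surjective z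
      have hg9 : ((h : GL (Fin 5) (ZMod 2)) ^ 1111040) ^ 9 = 1 := by
        rw [← pow_mul]
        norm_num
        rw [← hN]
        exact pow_card_eq_one'
      have hg3 := GL52_no_order_nine _ hg9
      rw [← pow_mul] at hg3
      have hh3 : h ^ (1111040 * 3) = 1 := Subtype.ext (by rw [Subgroup.coe_pow]; exact hg3)
      have hz6 : z ^ (1111040 * 3) = 1 := by
        rw [← hh, ← QuotientGroup.mk_pow, hh3]; rfl
      have e6 : 1111040 * 3 = 9 * 370346 + 6 := by norm_num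
      rw [e6, pow_add, pow_mul, hz9, one_pow, one_mul] at hz6
      apply hz3
      have e9 : z ^ 9 = z ^ 6 * z ^ 3 := by rw [← pow_add]
      rw [hz9, hz6, one_mul] at e9
      exact e9.symm
    all_goals exact absurd hdvd (by norm_num)
  · exfalso
    have hc := (Cfsg.Agent.S1163.result hm hF).1
    rw [← Nat.card_congr e.toEquiv] at hc
    rw [hc] at hdvd
    have hm2 : m ≤ 2 := by
      by_contra hcon
      have h11 : 2 ^ 11 ∣ (2 ^ (2 * m + 1)) ^ 2 := by
        rw [← pow_mul]; exact pow_dvd_pow 2 (by omega)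
      have : 2 ^ 11 ∣ 9999360 :=
        ((h11.trans (Dvd.intro _ rfl)).trans (Dvd.intro _ rfl)).trans hdvd
      exact absurd this (by norm_num)
    interval_cases m
    all_goals exact absurd hdvd (by norm_num)
  · exfalso
    have hF' : Fintype.card F = (2 ^ n) ^ 2 := by
      rw [hF, ← pow_mul, mul_comm, pow_mul]; norm_num
    have hc := Cfsg.Agent.S0280.result hF' 3 (by norm_num)
    rw [← Nat.card_congr e.toEquiv] at hc
    obtain ⟨q, hq⟩ : ∃ q : ℕ, q = 2 ^ n := ⟨_, rfl⟩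
    obtain ⟨c, hcc⟩ : ∃ c : ℕ, c = Nat.card (↥H ⧸ K) := ⟨_, rfl⟩
    rw [← hq, ← hcc] at hc
    rw [← hcc] at hdvd
    simp only [Finset.prod_range_succ, Finset.prod_range_zero] at hc
    norm_num at hc
    have hc2 : Nat.gcd 3 (q + 1) * c = q ^ 3 * ((q ^ 2 - 1) * (q ^ 3 + 1)) := by
      have : (q + 1) * (Nat.gcd 3 (q + 1) * c) = (q + 1) * (q ^ 3 * ((q ^ 2 - 1) * (q ^ 3 + 1))) := by
        calc (q + 1) * (Nat.gcd 3 (q + 1) * c) = Nat.gcd 3 (q + 1) * ((q + 1) * c) := by ring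
          _ = q ^ 3 * ((q + 1) * (q ^ 2 - 1) * (q ^ 3 + 1)) := hc
          _ = _ := by ring
      exact Nat.eq_of_mul_eq_mul_left (by omega) this
    have h3N : Nat.gcd 3 (q + 1) * c ∣ 3 * 9999360 := Nat.mul_dvd_mul (Nat.gcd_dvd_left 3 _) hdvd
    rw [hc2, hq] at h3N
    have hn3 : n ≤ 3 := by
      by_contra hcon
      have h11 : 2 ^ 11 ∣ (2 ^ n) ^ 3 := by
        rw [← pow_mul]; exact pow_dvd_pow 2 (by omega)
      have : 2 ^ 11 ∣ 3 * 9999360 := (h11.trans (Dvd.intro _ rfl)).trans h3N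
      exact absurd this (by norm_num)
    interval_cases n
    all_goals exact absurd h3N (by norm_num)

end Cfsg.Agent.S3179
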