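import Cfsg.Statements.S3180
import Cfsg.Agent.Lib.Helper16.Basic

set_option autoImplicit false
open Cfsg

namespace Cfsg.Agent.S3180

open Cfsg.Agent.Lib.Helper16


/-- Let P be a Sylow p-subgroup of a finite group J and P₁ a subgroup of P that is weakly closed in P with respect to J. If J acts on a set and two points, each fixed by every element of P₁, lie in one J-orbit, then they lie in one orbit of the normalizer of P₁ in J. -/
theorem result {J : Type*} [Group J] [Finite J]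
    {p : ℕ} [Fact p.Prime] (P : Sylow p J) (P₁ : Subgroup J) (hW : Cfsg.IsWeaklyClosed P₁ (P : Subgroup J))
    {Ω : Type*} [MulAction J Ω] (x y : Ω) (hx : ∀ g ∈ P₁, g • x = x) (hy : ∀ g ∈ P₁, g • y = y)
    (hc : ∃ g : J, g • x = y) :
    ∃ g ∈ Subgroup.normalizer (P₁ : Set J), g • x = y := by
  obtain ⟨g, hg⟩ := hc
  obtain ⟨hP₁P, hwc⟩ := hW
  have h1 : P₁ ≤ MulAction.stabilizer J y := fun a ha => hy a ha
  have h2 : P₁.map (MulAut.conj g).toMonoidHom ≤ MulAction.stabilizer J y := by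
    rintro _ ⟨a, ha, rfl⟩
    show (g * a * g⁻¹) • y = y
    rw [← hg, mul_smul, mul_smul, inv_smul_smul, hx a ha]
  have hP₁p : IsPGroup p P₁ := P.2.to_le hP₁P
  obtain ⟨Q₁, hQ₁, hle1⟩ := exists_isSyl_ge hP₁p h1
  obtain ⟨Q₂, hQ₂, hle2⟩ := exists_isSyl_ge (isPGroup_cj g hP₁p) h2
  obtain ⟨h, hh, hconj⟩ := hQ₂.exists_conj_eq hQ₁
  obtain ⟨k, -, hk⟩ := (isSyl_sylow P).exists_conj_le hQ₁.isPGroup le_top
  have e1 : P₁.map (MulAut.conj k).toMonoidHom = P₁ := hwc k ((cj_le_cj.2 hle1).trans hk)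
  have e2 : P₁.map (MulAut.conj (k * (h * g))).toMonoidHom = P₁ := by
    apply hwc
    rw [← cj_cj, ← cj_cj]
    refine le_trans (cj_le_cj.2 ?_) hk
    rw [← hconj]
    exact cj_le_cj.2 hle2
  rw [cj_eq_self_iff] at e1 e2
  refine ⟨h * g, ?_, ?_⟩
  · have : h * g = k⁻¹ * (k * (h * g)) := by group
    rw [this]
    exact Subgroup.mul_mem _ (Subgroup.inv_mem _ e1) e2
  · rw [mul_smul, hg]; exact hh

end Cfsg.Agent.S3180
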