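import Cfsg.Statements.S3183
import Cfsg.Agent.Lib.Helper16.PClosed
import Cfsg.Agent.Lib.Helper16.SPE
import Cfsg.Agent.Lib.Helper16.Large2

set_option autoImplicit false
open Cfsg

namespace Cfsg.Agent.S3183

open Cfsg.Agent.Lib.Helper16


/-- Let G be a finite group in which the intersection of any two distinct Sylow 2-subgroups is contained in the centre of some Sylow 2-subgroup, and let S be a Sylow 2-subgroup. Then for every x in S the centralizer of x in S is a Sylow 2-subgroup of the centralizer of x in G (no 2-subgroup centralizing x is larger), and for every other Sylow 2-subgroup T the intersection S ∩ T lies in both the centre of S and the centre of T. -/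
theorem result {G : Type*} [Group G] [Finite G]
    (hCI : ∀ S T : Sylow 2 G, S ≠ T → ∃ U : Sylow 2 G,
      (S : Subgroup G) ⊓ (T : Subgroup G) ≤ (Subgroup.center ↥(U : Subgroup G)).map (U : Subgroup G).subtype)
    (S : Sylow 2 G) :
    (∀ x ∈ (S : Subgroup G), ∀ P : Subgroup G, IsPGroup 2 ↥P → P ≤ Subgroup.centralizer ({x} : Set G) →
        Nat.card ↥P ≤ Nat.card ↥((S : Subgroup G) ⊓ Subgroup.centralizer ({x} : Set G))) ∧
    (∀ T : Sylow 2 G, T ≠ S →
        (S : Subgroup G) ⊓ (T : Subgroup G) ≤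
          (Subgroup.center ↥(S : Subgroup G)).map (S : Subgroup G).subtype ⊓
            (Subgroup.center ↥(T : Subgroup G)).map (T : Subgroup G).subtype) := by
  have hcz : ∀ (U : Subgroup G) (D : Subgroup G), D ≤ (Subgroup.center ↥U).map U.subtype →
      U ≤ Subgroup.centralizer (D : Set G) := by
    intro U D hD u hu
    rw [Subgroup.mem_centralizer_iff]
    intro d hd
    obtain ⟨z, hz, rfl⟩ := hD hd
    exact (congrArg Subtype.val ((Subgroup.mem_center_iff.1 hz) ⟨u, hu⟩)).symm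
  have hCI' : ∀ S T : Subgroup G, IsSyl 2 S ⊤ → IsSyl 2 T ⊤ → S ≠ T →
      ∃ U, IsSyl 2 U ⊤ ∧ U ≤ Subgroup.centralizer ((S ⊓ T : Subgroup G) : Set G) := by
    intro S T hS hT hne
    obtain ⟨S', rfl⟩ := isSyl_top_iff.1 hS
    obtain ⟨T', rfl⟩ := isSyl_top_iff.1 hT
    obtain ⟨U, hU⟩ := hCI S' T' (fun h => hne (by rw [h]))
    exact ⟨U, isSyl_sylow U, hcz _ _ hU⟩
  have hcard : ∀ {A B M : Subgroup G}, IsSyl 2 A M → IsSyl 2 B M → Nat.card A = Nat.card B := by
    intro A B M hA hB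
    rw [hA.card, hB.card]
  have star : ∀ S : Subgroup G, IsSyl 2 S ⊤ → ∀ x ∈ S,
      (∃ U, IsSyl 2 U ⊤ ∧ U ≤ Subgroup.centralizer ({x} : Set G)) →
      S ≤ Subgroup.centralizer ({x} : Set G) := by
    rintro S hS x hx ⟨U, hU, hUx⟩
    obtain ⟨V, hV, hDV⟩ := exists_isSyl_ge
      (hS.isPGroup.to_le (inf_le_left : S ⊓ Subgroup.centralizer ({x} : Set G) ≤ S)) inf_le_right
    have hVtop : IsSyl 2 V ⊤ :=
      isSyl_of_card le_top (by rw [hcard hV (hU.of_le hUx le_top)]; exact hU.card)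
    by_contra hcon
    have hne : S ≠ V := by rintro rfl; exact hcon hV.le
    have hD : S ⊓ V = S ⊓ Subgroup.centralizer ({x} : Set G) :=
      le_antisymm (inf_le_inf_left S hV.le) (le_inf inf_le_left hDV)
    obtain ⟨U', hU', hU'c⟩ := hCI' S V hS hVtop hne
    have hlt : S ⊓ V < S :=
      lt_of_le_of_ne inf_le_left (fun h => hcon (by rw [← h, hD]; exact inf_le_right))
    obtain ⟨y, hyS, hyN, hyD⟩ := exists_mem_normalizer_not_mem hS.isPGroup hlt
    have hCM : Subgroup.centralizer ((S ⊓ V : Subgroup G) : Set G) ≤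
        Subgroup.normalizer ((S ⊓ V : Subgroup G) : Set G) := Subgroup.centralizer_le_normalizer _
    obtain ⟨S₃, hS₃, hyS₃⟩ := exists_isSyl_ge (A := Subgroup.zpowers y)
      (hS.isPGroup.to_le (Subgroup.zpowers_le.2 hyS)) (Subgroup.zpowers_le.2 hyN)
    have h1 := hS₃.inf_normal hCM (normalizer_le_normalizer_centralizer _)
    have hc1 := hcard h1 (hU'.of_le hU'c le_top)
    have hc2 := hcard hS₃ (hU'.of_le (hU'c.trans hCM) le_top)
    have h2 : S₃ ⊓ Subgroup.centralizer ((S ⊓ V : Subgroup G) : Set G) = S₃ :=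
      Subgroup.eq_of_le_of_card_ge inf_le_left (by rw [hc1, hc2])
    have hyC : y ∈ Subgroup.centralizer ((S ⊓ V : Subgroup G) : Set G) :=
      (inf_eq_left.1 h2) (hyS₃ (Subgroup.mem_zpowers y))
    have hxD : x ∈ S ⊓ V := by
      rw [hD]; exact ⟨hx, Subgroup.mem_centralizer_singleton_iff.2 rfl⟩
    apply hyD
    rw [hD]
    refine ⟨hyS, Subgroup.mem_centralizer_singleton_iff.2 ?_⟩
    exact ((Subgroup.mem_centralizer_iff.1 hyC) x hxD).symm
  have hsing : ∀ {U D : Subgroup G} {x : G}, x ∈ D → U ≤ Subgroup.centralizer (D : Set G) →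
      U ≤ Subgroup.centralizer ({x} : Set G) := by
    intro U D x hx hU
    exact hU.trans (Subgroup.centralizer_le (by simpa using hx))
  have hcen : ∀ (S : Subgroup G) (x : G), x ∈ S → S ≤ Subgroup.centralizer ({x} : Set G) →
      x ∈ (Subgroup.center ↥S).map S.subtype := by
    intro S x hx hS
    refine ⟨⟨x, hx⟩, ?_, rfl⟩
    rw [SetLike.mem_coe, Subgroup.mem_center_iff]
    intro y
    exact Subtype.ext (Subgroup.mem_centralizer_singleton_iff.1 (hS y.2))
  constructor
  · intro x hx P hP hPx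
    obtain ⟨R, hR, hle⟩ := exists_isSyl_ge
      (S.2.to_le (inf_le_left : (S : Subgroup G) ⊓ Subgroup.centralizer ({x} : Set G) ≤ S))
      inf_le_right
    obtain ⟨m, -, hm⟩ := hR.exists_conj_le hP hPx
    have hPR : Nat.card P ≤ Nat.card R := by
      rw [← card_cj m P]; exact Subgroup.card_le_of_le hm
    obtain ⟨S₁, hS₁, hRS₁⟩ := exists_isSyl_ge hR.isPGroup (le_top : R ≤ ⊤)
    by_cases heq : (S : Subgroup G) = S₁
    · refine hPR.trans (Subgroup.card_le_of_le (le_inf ?_ hR.le))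
      rw [heq]; exact hRS₁
    · obtain ⟨U, hU, hUc⟩ := hCI' _ _ (isSyl_sylow S) hS₁ heq
      have hxD : x ∈ (S : Subgroup G) ⊓ S₁ :=
        ⟨hx, hRS₁ (hle ⟨hx, Subgroup.mem_centralizer_singleton_iff.2 rfl⟩)⟩
      have h3 := star _ (isSyl_sylow S) x hx ⟨U, hU, hsing hxD hUc⟩
      rw [inf_eq_left.2 h3]
      obtain ⟨m', -, hm'⟩ := (isSyl_sylow S).exists_conj_le hP le_top
      rw [← card_cj m' P]; exact Subgroup.card_le_of_le hm'
  · intro T hT x hx
    obtain ⟨U, hU, hUc⟩ := hCI' _ _ (isSyl_sylow S) (isSyl_sylow T) (fun h => hT (Sylow.ext h.symm))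
    exact ⟨hcen _ x hx.1 (star _ (isSyl_sylow S) x hx.1 ⟨U, hU, hsing hx hUc⟩),
      hcen _ x hx.2 (star _ (isSyl_sylow T) x hx.2 ⟨U, hU, hsing hx hUc⟩)⟩

end Cfsg.Agent.S3183
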