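import Cfsg.Statements.S3190
import Cfsg.Agent.Lib.Helper16.Large
import Cfsg.Agent.H1.CoprimeAb
import Cfsg.Agent.H1.CoprimeFrattini

set_option autoImplicit false
open Cfsg

namespace Cfsg.Agent.S3190

open Cfsg.Agent.Lib.Helper16
open scoped commutatorElement


/-- Let p be an odd prime and, inside a finite group, let P be a p-subgroup normalized by a Klein four-group T. Let R be a subgroup of P, normal in P and normalized by T, such that P is the product of R with the centralizer of T in P. If T centralizes the centre of P, then T centralizes the centre of R. -/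
theorem result {X : Type*} [Group X] [Finite X]
    {p : ℕ} (hp : p.Prime) (hodd : Odd p) (P T R : Subgroup X) (hP : IsPGroup p ↥P) (hT : IsKleinFour ↥T)
    (hTP : T ≤ Subgroup.normalizer (P : Set X)) (hRP : R ≤ P) (hRn : (R.subgroupOf P).Normal)
    (hTR : T ≤ Subgroup.normalizer (R : Set X)) (hfac : R ⊔ (P ⊓ Subgroup.centralizer (T : Set X)) = P)
    (hZ : T ≤ Subgroup.centralizer (((Subgroup.center ↥P).map P.subtype : Subgroup X) : Set X)) :
    T ≤ Subgroup.centralizer (((Subgroup.center ↥R).map R.subtype : Subgroup X) : Set X) := by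
  have hpf : Fact p.Prime := ⟨hp⟩
  set Z : Subgroup X := (Subgroup.center ↥R).map R.subtype with hZdef
  have hZR : Z ≤ R := Subgroup.map_subtype_le _
  have hZc : ∀ z ∈ Z, ∀ r ∈ R, r * z = z * r := by
    rintro _ ⟨z, hz, rfl⟩ r hr
    have := (Subgroup.mem_center_iff.1 hz) ⟨r, hr⟩
    exact congrArg Subtype.val this
  have hZcomm : IsMulCommutative Z := ⟨⟨fun a b => Subtype.ext (hZc b b.2 a (hZR a.2))⟩⟩
  have hNRZ : Subgroup.normalizer (R : Set X) ≤ Subgroup.normalizer (Z : Set X) :=
    Cfsg.H1.normalizer_le_normalizer_map_of_characteristic (Subgroup.center ↥R)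
  have hTZ : T ≤ Subgroup.normalizer (Z : Set X) := hTR.trans hNRZ
  have hPR : P ≤ Subgroup.normalizer (R : Set X) :=
    (Subgroup.normal_subgroupOf_iff_le_normalizer hRP).1 hRn
  have hcop : (Nat.card T).Coprime (Nat.card Z) := by
    obtain ⟨k, hk⟩ := IsPGroup.iff_card.1 (hP.to_le (hZR.trans hRP))
    rw [hk, hT.card_four]
    apply Nat.Coprime.pow_right
    have : Nat.Coprime 2 p := (Nat.coprime_primes Nat.prime_two hp).2 (by
      rintro rfl
      exact absurd hodd (by decide))
    exact Nat.Coprime.pow_left 2 this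
  have hdisj := Cfsg.H1.coprime_abelian_disjoint T Z hTZ hcop
  rw [Subgroup.le_centralizer_iff, ← Subgroup.commutator_eq_bot_iff_le_centralizer]
  by_contra hW
  have hWZ : ⁅Z, T⁆ ≤ Z := Subgroup.commutator_le.2 (fun z hz t ht => by
    have h1 : t * z⁻¹ * t⁻¹ ∈ Z := (Subgroup.mem_normalizer_iff.1 (hTZ ht) _).1 (Z.inv_mem hz)
    have h2 : ⁅z, t⁆ = z * (t * z⁻¹ * t⁻¹) := by
      rw [commutatorElement_def]; group
    rw [h2]; exact Z.mul_mem hz h1)
  have hPW : P ≤ Subgroup.normalizer ((⁅Z, T⁆ : Subgroup X) : Set X) := by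
    rw [← hfac]
    apply sup_le
    · intro r hr
      apply Subgroup.centralizer_le_normalizer _
      rw [Subgroup.mem_centralizer_iff]
      intro w hw
      exact (hZc w (hWZ hw) r hr).symm
    · intro c hc
      rw [← cj_eq_self_iff, Subgroup.map_commutator, cj_eq_self_iff.2 (hNRZ (hPR hc.1)),
        cj_eq_self_iff.2 (Subgroup.centralizer_le_normalizer _ hc.2)]
  have hne := inf_centralizer_ne_bot (hP.to_le (hWZ.trans (hZR.trans hRP))) hP hW hPW
  obtain ⟨w, hw1⟩ := Subgroup.ne_bot_iff_exists_ne_one.1 hne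
  apply hw1
  have hwm := Subgroup.mem_inf.1 w.2
  have hwP : (w : X) ∈ P := hRP (hZR (hWZ hwm.1))
  have hwc : (w : X) ∈ (Subgroup.center ↥P).map P.subtype := by
    refine ⟨⟨w, hwP⟩, ?_, rfl⟩
    rw [SetLike.mem_coe, Subgroup.mem_center_iff]
    intro y
    exact Subtype.ext ((Subgroup.mem_centralizer_iff.1 hwm.2) y y.2)
  have hwT : (w : X) ∈ Subgroup.centralizer (T : Set X) := by
    rw [Subgroup.mem_centralizer_iff]
    intro t ht
    exact ((Subgroup.mem_centralizer_iff.1 (hZ ht)) w hwc).symm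
  have : (w : X) ∈ (Z ⊓ Subgroup.centralizer (T : Set X)) ⊓ ⁅Z, T⁆ := ⟨⟨hWZ hwm.1, hwT⟩, hwm.1⟩
  rw [hdisj, Subgroup.mem_bot] at this
  exact Subtype.ext this

end Cfsg.Agent.S3190
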