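import Cfsg.Statements.S3196
import Cfsg.Agent.Lib.Helper22.PolarP2
import Cfsg.Agent.S0199
import Cfsg.Agent.H12.Cores

set_option autoImplicit false
open Cfsg

namespace Cfsg.Agent.S3196

/-- Let p be a prime and K a set of subgroups of order p of a finite group G, closed under conjugation, such that at least two distinct members of K commute elementwise, and whenever two distinct members X, Y of K commute: every subgroup of order p of the group XY they generate belongs to K, and every member W of K has centralizer meeting XY nontrivially. Then some member V of K commutes elementwise with every member of K and lies in O_p(G); in particular G is not simple. -/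
theorem result {G : Type*} [Group G] [Finite G]
    {p : ℕ} (hp : p.Prime) (K : Set (Subgroup G)) (hK : ∀ X ∈ K, Nat.card ↥X = p)
    (hKc : ∀ X ∈ K, ∀ g : G, X.map (MulAut.conj g).toMonoidHom ∈ K)
    (hex : ∃ X ∈ K, ∃ Y ∈ K, X ≠ Y ∧ ∀ x ∈ X, ∀ y ∈ Y, x * y = y * x)
    (ha : ∀ X ∈ K, ∀ Y ∈ K, X ≠ Y → (∀ x ∈ X, ∀ y ∈ Y, x * y = y * x) →
      ∀ Z : Subgroup G, Z ≤ X ⊔ Y → Nat.card ↥Z = p → Z ∈ K)
    (hb : ∀ X ∈ K, ∀ Y ∈ K, X ≠ Y → (∀ x ∈ X, ∀ y ∈ Y, x * y = y * x) →
      ∀ W ∈ K, (X ⊔ Y) ⊓ Subgroup.centralizer (W : Set G) ≠ ⊥) :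
    (∃ V ∈ K, (∀ W ∈ K, ∀ v ∈ V, ∀ w ∈ W, v * w = w * v) ∧ V ≤ Cfsg.pCore p G) ∧ ¬ IsSimpleGroup G := by
  classical
  haveI : Fact p.Prime := ⟨hp⟩
  have hPol : Cfsg.Agent.H22.Polar p K := ⟨hK, hKc, hex, ha, hb⟩
  have stepC : ∀ V ∈ K, (∀ W ∈ K, Cfsg.Agent.H22.Cm V W) → V ≤ Cfsg.pCore p G := by
    intro V hV hVu
    obtain ⟨N, hN, hNp, hVN⟩ := Cfsg.Agent.S0199.result V
      (Cfsg.Agent.H22.isPGroup_of_card (hK V hV)) (fun g =>
        IsPGroup.to_sup_of_normal_right' (Cfsg.Agent.H22.isPGroup_of_card (hK V hV))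
          (Cfsg.Agent.H22.isPGroup_of_card (hK _ (hKc V hV g)))
          (Cfsg.Agent.H22.cm_le_normalizer (hVu _ (hKc V hV g))))
    exact hVN.trans (Cfsg.Agent.H12.le_pCore hN hNp)
  have huniv : ∃ V ∈ K, ∀ W ∈ K, Cfsg.Agent.H22.Cm V W := by
    by_contra hno
    have hpair : ∀ X ∈ K, ∀ W ∈ K, IsPGroup p ↥(X ⊔ W) :=
      fun X hX W hW => (hPol.pair hX hW).resolve_left hno
    have hle : ∀ X ∈ K, X ≤ Cfsg.pCore p G := by
      intro X hX
      obtain ⟨N, hN, hNp, hXN⟩ := Cfsg.Agent.S0199.result X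
        (Cfsg.Agent.H22.isPGroup_of_card (hK X hX)) (fun g => hpair X hX _ (hKc X hX g))
      exact hXN.trans (Cfsg.Agent.H12.le_pCore hN hNp)
    set R := Cfsg.pCore p G with hRdef
    have hR : IsPGroup p R := Cfsg.Agent.H12.pCore_isPGroup p G
    obtain ⟨X₀, hX₀, -⟩ := hex
    obtain ⟨X, hX, hmax⟩ := Set.exists_max_image K
      (fun X => Nat.card ↥(R ⊓ Subgroup.centralizer (X : Set G))) (Set.toFinite K) ⟨X₀, hX₀⟩
    apply hno
    refine ⟨X, hX, ?_⟩
    by_contra hcon
    push Not at hcon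
    obtain ⟨W, hW, hXW⟩ := hcon
    set C := R ⊓ Subgroup.centralizer (X : Set G) with hCdef
    obtain ⟨w, hw, hwC⟩ : ∃ w ∈ R, w ∉ C := by
      by_contra hc2
      push Not at hc2
      apply hXW
      intro x hx w hw
      have h1 := hc2 w (hle W hW hw)
      exact Subgroup.mem_centralizer_iff.1 h1.2 x hx
    obtain ⟨q, hqR, hqC, hq⟩ := Cfsg.Agent.H22.exists_fixed_coset_p C R C (hR.to_le inf_le_left) hR
      ⟨w, hw, hwC⟩ (fun a ha f hf => R.mul_mem (R.mul_mem ha.1 hf) (R.inv_mem ha.1))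
      (fun a ha b hb => C.mul_mem (C.mul_mem ha hb) (C.inv_mem ha))
    have hqC' : ∀ a ∈ C, q⁻¹ * a * q ∈ C := by
      intro a ha
      have h1 := C.mul_mem (hq a ha) ha
      convert h1 using 1
      group
    have hX' : X.map (MulAut.conj q).toMonoidHom ∈ K := hKc X hX q
    set X' := X.map (MulAut.conj q).toMonoidHom with hX'def
    have hCX' : C ≤ Subgroup.centralizer (X' : Set G) := by
      intro a ha
      rw [Subgroup.mem_centralizer_iff]
      rintro _ ⟨x, hx, rfl⟩
      have h1 := Subgroup.mem_centralizer_iff.1 (hqC' a ha).2 x hx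
      show q * x * q⁻¹ * a = a * (q * x * q⁻¹)
      calc q * x * q⁻¹ * a = q * (x * (q⁻¹ * a * q)) * q⁻¹ := by group
        _ = q * ((q⁻¹ * a * q) * x) * q⁻¹ := by rw [h1]
        _ = a * (q * x * q⁻¹) := by group
    have hXC : X ≤ C := le_inf (hle X hX)
      (Cfsg.Agent.H22.cm_iff_le_centralizer.1 (Cfsg.Agent.H22.cm_self_of_card (hK X hX)))
    have hXX' : Cfsg.Agent.H22.Cm X X' := Cfsg.Agent.H22.cm_iff_le_centralizer.2 (hXC.trans hCX')
    have hne : X ≠ X' := by
      intro h'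
      apply hqC
      refine ⟨hqR, ?_⟩
      obtain ⟨k, hk⟩ := hR ⟨q, hqR⟩
      refine Cfsg.Agent.H22.mem_centralizer_of_pElement (hK X hX) ?_ (k := k)
        (congrArg Subtype.val hk)
      rw [Subgroup.mem_normalizer_iff_map_conj_eq]; exact h'.symm
    obtain ⟨a, ha', ha1, haW⟩ := hPol.meet hX hX' hne hXX' hW
    have hYK := hPol.pt hX hX' hne hXX' ha' ha1
    have hCY : C ≤ R ⊓ Subgroup.centralizer ((Subgroup.zpowers a : Subgroup G) : Set G) := by
      refine le_inf inf_le_left ?_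
      have h1 : Cfsg.Agent.H22.Cm (X ⊔ X') C :=
        Cfsg.Agent.H22.Cm.sup_left
          (Cfsg.Agent.H22.Cm.symm (Cfsg.Agent.H22.cm_iff_le_centralizer.2 inf_le_right))
          (Cfsg.Agent.H22.Cm.symm (Cfsg.Agent.H22.cm_iff_le_centralizer.2 hCX'))
      rw [← Cfsg.Agent.H22.cm_iff_le_centralizer]
      intro c hc y hy
      exact (h1 y (Subgroup.zpowers_le.2 ha' hy) c hc).symm
    have hcardle := hmax _ hYK
    have hEq : C = R ⊓ Subgroup.centralizer ((Subgroup.zpowers a : Subgroup G) : Set G) :=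
      Subgroup.eq_of_le_of_card_ge hCY hcardle
    apply hXW
    have hWC : W ≤ C := by
      rw [hEq]
      refine le_inf (hle W hW) ?_
      rw [← Cfsg.Agent.H22.cm_iff_le_centralizer]
      apply Cfsg.Agent.H22.Cm.symm
      rw [Cfsg.Agent.H22.cm_iff_le_centralizer, Subgroup.zpowers_le, Subgroup.mem_centralizer_iff]
      intro w hw
      exact (haW w hw).symm
    intro x hx w hw
    exact Subgroup.mem_centralizer_iff.1 (hWC hw).2 x hx
  obtain ⟨V, hV, hVu⟩ := huniv
  refine ⟨⟨V, hV, hVu, stepC V hV hVu⟩, ?_⟩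
  intro hs
  haveI := Cfsg.Agent.H12.pCore_characteristic p G
  have hn : (Cfsg.pCore p G).Normal := inferInstance
  have hne_bot : ∀ X ∈ K, X ≠ ⊥ := by
    intro X hX h0
    have h1 := hK X hX
    rw [h0, Subgroup.card_bot] at h1
    exact hp.one_lt.ne h1
  rcases hn.eq_bot_or_eq_top with h0 | h0
  · apply hne_bot V hV
    have := stepC V hV hVu
    rw [h0] at this
    exact le_bot_iff.1 this
  · have hG : IsPGroup p G := by
      have h1 := Cfsg.Agent.H12.pCore_isPGroup p G
      rw [h0] at h1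
      exact h1.of_equiv Subgroup.topEquiv
    have hcn := hG.center_nontrivial
    have hct : Subgroup.center G = ⊤ := by
      rcases (inferInstance : (Subgroup.center G).Normal).eq_bot_or_eq_top with h' | h'
      · exfalso
        rw [h'] at hcn
        exact not_nontrivial _ hcn
      · exact h'
    have htop : ∀ X ∈ K, X = ⊤ := by
      intro X hX
      have hXn : X.Normal := by
        constructor
        intro n hn' g
        have hnc : n ∈ Subgroup.center G := hct ▸ Subgroup.mem_top n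
        have : g * n * g⁻¹ = n := by
          rw [Subgroup.mem_center_iff.1 hnc g]; group
        rw [this]; exact hn'
      exact (hXn.eq_bot_or_eq_top).resolve_left (hne_bot X hX)
    obtain ⟨X₀, hX₀, Y₀, hY₀, hne, -⟩ := hex
    exact hne ((htop X₀ hX₀).trans (htop Y₀ hY₀).symm)

end Cfsg.Agent.S3196
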