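import Mathlib
import Cfsg.Statements.S3200
import Cfsg.Agent.H9.Kaz1
import Cfsg.Agent.S0003
import Cfsg.Agent.S0004
import Cfsg.Agent.S0005

set_option autoImplicit false
open Cfsg
open scoped commutatorElement Pointwise

namespace Cfsg.Agent.S3200

/-- Let H be a finite group in which a Sylow 2-subgroup has an abelian complement (an abelian subgroup meeting it trivially whose product with it is all of H). Then H is solvable, and every subgroup and every quotient group of H again has a Sylow 2-subgroup with an abelian complement. -/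
theorem result {H : Type*} [Group H] [Finite H]
    (S : Sylow 2 H) (C : Subgroup H) (hC : IsMulCommutative ↥C) (hSC : Subgroup.IsComplement' (S : Subgroup H) C) :
    Group.IsSolvable H ∧
    (∀ L : Subgroup H, ∃ (P : Sylow 2 ↥L) (D : Subgroup ↥L), IsMulCommutative ↥D ∧ Subgroup.IsComplement' (P : Subgroup ↥L) D) ∧
    (∀ (N : Subgroup H) [N.Normal], ∃ (P : Sylow 2 (H ⧸ N)) (D : Subgroup (H ⧸ N)),
      IsMulCommutative ↥D ∧ Subgroup.IsComplement' (P : Subgroup (H ⧸ N)) D) := by
  classical
  have hcomm : ∀ x ∈ C, ∀ y ∈ C, x * y = y * x := by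
    intro x hx y hy
    have := hC.is_comm.comm (⟨x, hx⟩ : ↥C) ⟨y, hy⟩
    exact congrArg Subtype.val this
  have hcard : Nat.card ↥(S : Subgroup H) * Nat.card ↥C = Nat.card H := hSC.card_mul_card
  obtain ⟨a, ha⟩ := IsPGroup.iff_card.mp S.isPGroup'
  have hidx : C.index = 2 ^ a := by
    have h1 := C.card_mul_index
    rw [← hcard, ha, mul_comm] at h1
    exact Nat.eq_of_mul_eq_mul_right Nat.card_pos h1
  have hCodd : (Nat.card ↥C).Coprime (2 ^ a) := by
    apply Nat.Coprime.pow_right
    rw [Nat.coprime_comm, Nat.Prime.coprime_iff_not_dvd Nat.prime_two]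
    intro h2
    have h3 : S.index = Nat.card ↥C := by
      have h1 := (S : Subgroup H).card_mul_index
      rw [← hcard] at h1
      exact Nat.eq_of_mul_eq_mul_left Nat.card_pos h1
    exact S.not_dvd_index (h3 ▸ h2)
  have hsol : Group.IsSolvable H :=
    Cfsg.H9.isSolvable_of_pGroup_mul_abelian (p := 2) (S : Subgroup H) C S.isPGroup' hcomm
      hSC.sup_eq_top ⟨a, hidx⟩
  haveI := hsol
  have hcardH : Nat.card H = Nat.card ↥C * 2 ^ a := by rw [← hcard, ha, mul_comm]
  refine ⟨hsol, ?_, ?_⟩
  · intro L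
    obtain ⟨P⟩ : Nonempty (Sylow 2 ↥L) := inferInstance
    obtain ⟨b, hb⟩ := IsPGroup.iff_card.mp P.isPGroup'
    have hL : Nat.card ↥L = (P : Subgroup ↥L).index * 2 ^ b := by
      rw [← hb, mul_comm]; exact ((P : Subgroup ↥L).card_mul_index).symm
    have hcop : ((P : Subgroup ↥L).index).Coprime (2 ^ b) := by
      apply Nat.Coprime.pow_right
      rw [Nat.coprime_comm, Nat.Prime.coprime_iff_not_dvd Nat.prime_two]
      exact P.not_dvd_index
    haveI : Group.IsSolvable ↥L := inferInstance
    obtain ⟨D, hD⟩ := Cfsg.Agent.S0003.result (G := ↥L) _ _ hL hcop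
    refine ⟨P, D, ?_, ?_⟩
    · have hDodd : (Nat.card ↥(D.map L.subtype)).Coprime (2 ^ a) := by
        rw [Nat.card_congr (D.equivMapOfInjective L.subtype L.subtype_injective).symm.toEquiv, hD]
        apply Nat.Coprime.pow_right
        rw [Nat.coprime_comm, Nat.Prime.coprime_iff_not_dvd Nat.prime_two]
        exact P.not_dvd_index
      obtain ⟨H₁, hH₁, hle⟩ := Cfsg.Agent.S0005.result (G := H) _ _ hcardH hCodd _ hDodd
      obtain ⟨g, hg⟩ := Cfsg.Agent.S0004.result (G := H) _ _ hcardH hCodd C H₁ rfl hH₁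
      constructor
      constructor
      intro x y
      have hx : (x : ↥L).1 ∈ H₁ := hle ⟨x.1, x.2, rfl⟩
      have hy : (y : ↥L).1 ∈ H₁ := hle ⟨y.1, y.2, rfl⟩
      rw [← hg] at hx hy
      obtain ⟨x', hx', hxe⟩ := hx
      obtain ⟨y', hy', hye⟩ := hy
      apply Subtype.ext
      apply Subtype.ext
      show (x : ↥L).1 * (y : ↥L).1 = (y : ↥L).1 * (x : ↥L).1
      rw [← hxe, ← hye]
      have := hcomm x' hx' y' hy'
      simp only [MulDistribMulAction.toMonoidEnd_apply, MulDistribMulAction.toMonoidHom_apply,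
        MulAut.smul_def, MulAut.conj_apply]
      calc g * x' * g⁻¹ * (g * y' * g⁻¹) = g * (x' * y') * g⁻¹ := by group
        _ = g * (y' * x') * g⁻¹ := by rw [this]
        _ = g * y' * g⁻¹ * (g * x' * g⁻¹) := by group
    · apply Subgroup.isComplement'_of_coprime
      · rw [hD, hb, hL, mul_comm]
      · rw [hD, hb]; exact hcop.symm
  · intro N _
    refine ⟨S.mapSurjective (QuotientGroup.mk'_surjective N), C.map (QuotientGroup.mk' N), ?_, ?_⟩
    · constructor
      constructor
      rintro ⟨_, x, hx, rfl⟩ ⟨_, y, hy, rfl⟩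
      apply Subtype.ext
      show (QuotientGroup.mk' N) x * (QuotientGroup.mk' N) y =
        (QuotientGroup.mk' N) y * (QuotientGroup.mk' N) x
      rw [← map_mul, ← map_mul, hcomm x hx y hy]
    · apply Subgroup.isComplement'_of_disjoint_and_mul_eq_univ
      · apply Subgroup.disjoint_of_coprime_natCard
        rw [Sylow.coe_mapSurjective]
        have h1 : Nat.card ↥((S : Subgroup H).map (QuotientGroup.mk' N)) ∣ 2 ^ a :=
          ha ▸ Subgroup.card_map_dvd _ _
        have h2 : Nat.card ↥(C.map (QuotientGroup.mk' N)) ∣ Nat.card ↥C :=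
          Subgroup.card_map_dvd _ _
        exact Nat.Coprime.coprime_dvd_left h1 (Nat.Coprime.coprime_dvd_right h2 hCodd.symm)
      · apply Set.eq_univ_of_forall
        intro q
        obtain ⟨h, rfl⟩ := QuotientGroup.mk'_surjective N q
        have hh : h ∈ ((S : Subgroup H) : Set H) * (C : Set H) := by
          rw [hSC.mul_eq]; exact Set.mem_univ h
        obtain ⟨s, hs, c, hc, rfl⟩ := Set.mem_mul.mp hh
        rw [Sylow.coe_mapSurjective]
        exact Set.mem_mul.mpr ⟨_, ⟨s, hs, rfl⟩, _, ⟨c, hc, rfl⟩, (map_mul _ _ _).symm⟩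

end Cfsg.Agent.S3200
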