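import Cfsg.Statements.S3201
import Mathlib
import Cfsg.Agent.H4.GQLift
import Cfsg.Agent.H1.Small2

set_option autoImplicit false
open Cfsg

namespace Cfsg.Agent.S3201

open Cfsg.Agent.Lib.Helper2 Cfsg.Agent.H4.GQLift

theorem F2 {S : Type*} [Group S] (N : Subgroup S) [N.Normal] (hNZ : N ≤ Subgroup.center S)
    (hu : ∃! x : S ⧸ N, orderOf x = 2) (c : S) (hc : c ∈ Subgroup.center S) (hcN : c ∉ N)
    (hc2 : c ^ 2 = 1) (x : S) (hx : x ^ 2 ∈ N) : x ∈ Subgroup.center S := by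
  obtain ⟨t, ht, htu⟩ := hu
  have hco : orderOf (QuotientGroup.mk c : S ⧸ N) = 2 := by
    apply orderOf_eq_prime
    · rw [← QuotientGroup.mk_pow, hc2]; rfl
    · intro h
      exact hcN ((QuotientGroup.eq_one_iff c).1 h)
  by_cases hx1 : (QuotientGroup.mk x : S ⧸ N) = 1
  · exact hNZ ((QuotientGroup.eq_one_iff x).1 hx1)
  · have hxo : orderOf (QuotientGroup.mk x : S ⧸ N) = 2 := by
      apply orderOf_eq_prime
      · rw [← QuotientGroup.mk_pow]; exact (QuotientGroup.eq_one_iff _).2 hx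
      · exact hx1
    have h := (htu _ hco).trans (htu _ hxo).symm
    rw [QuotientGroup.eq] at h
    have := (Subgroup.center S).mul_mem hc (hNZ h)
    simpa using this

/-- Let S be a finite 2-group whose centre Z(S) has n ≥ 2 distinct maximal subgroups C₁, …, Cₙ with trivial intersection such that each quotient S/Cᵢ is a non-abelian group with exactly one involution (a generalized quaternion group). Then S is the internal direct product of an elementary abelian subgroup and a non-abelian subgroup with exactly one involution. -/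
theorem result {S : Type*} [Group S] [Finite S]
    (hS : IsPGroup 2 S) (n : ℕ) (hn : 2 ≤ n) (C : Fin n → Subgroup ↥(Subgroup.center S))
    (hCmax : ∀ i, IsCoatom (C i)) (hCinj : Function.Injective C) (hCint : ⨅ i, C i = ⊥)
    (hCq : ∀ i, ∃ (_ : ((C i).map (Subgroup.center S).subtype).Normal),
      ¬ IsMulCommutative (S ⧸ (C i).map (Subgroup.center S).subtype) ∧
      ∃! x : S ⧸ (C i).map (Subgroup.center S).subtype, orderOf x = 2) :
    ∃ E Q : Subgroup S, Cfsg.IsInternalDirectProduct E Q ⊤ ∧ Cfsg.IsElementaryAbelian 2 E ∧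
      ¬ IsMulCommutative ↥Q ∧ ∃! x : ↥Q, orderOf x = 2 := by
  have : Fact (Nat.Prime 2) := ⟨Nat.prime_two⟩
  have hidx : ∀ i, (C i).index = 2 := fun i =>
    (Cfsg.H1.coatom_of_pgroup (hS.to_subgroup (Subgroup.center S)) (C i) (hCmax i)).2
  have hmemD : ∀ i (x : S) (hx : x ∈ (Subgroup.center S)), x ∈ (C i).map (Subgroup.center S).subtype ↔ (⟨x, hx⟩ : (Subgroup.center S)) ∈ C i := by
    intro i x hx
    constructor
    · rintro ⟨y, hy, rfl⟩
      exact hy
    · intro h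
      exact ⟨⟨x, hx⟩, h, rfl⟩
  have hDZ : ∀ i, (C i).map (Subgroup.center S).subtype ≤ (Subgroup.center S) := by
    rintro i _ ⟨y, -, rfl⟩
    exact y.2
  have hF1 : ∀ c ∈ (Subgroup.center S), c ^ 2 = 1 := by
    intro c hc
    have h1 : (⟨c, hc⟩ : (Subgroup.center S)) ^ 2 ∈ ⨅ i, C i := by
      rw [Subgroup.mem_iInf]
      intro i
      exact Subgroup.sq_mem_of_index_two (hidx i) _
    rw [hCint, Subgroup.mem_bot] at h1
    simpa using congrArg Subtype.val h1
  have hF3 : ∀ u ∈ (Subgroup.center S), ∀ v ∈ (Subgroup.center S), (∀ i, u ∉ (C i).map (Subgroup.center S).subtype) → (∀ i, v ∉ (C i).map (Subgroup.center S).subtype) →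
      u = v := by
    intro u hu v hv h1 h2
    have h3 : (⟨u, hu⟩ : (Subgroup.center S)) * ⟨v, hv⟩ ∈ ⨅ i, C i := by
      rw [Subgroup.mem_iInf]
      intro i
      rw [Subgroup.mul_mem_iff_of_index_two (hidx i)]
      have a1 := h1 i
      have a2 := h2 i
      rw [hmemD i u hu] at a1
      rw [hmemD i v hv] at a2
      tauto
    rw [hCint, Subgroup.mem_bot] at h3
    have h4 : u * v = 1 := by simpa using congrArg Subtype.val h3
    have h5 := hF1 v hv
    calc u = u * v ^ 2 := by rw [h5, mul_one]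
      _ = (u * v) * v := by rw [pow_two, mul_assoc]
      _ = v := by rw [h4, one_mul]
  have hexc : ∀ i, ∃ c ∈ (Subgroup.center S), c ∉ (C i).map (Subgroup.center S).subtype := by
    intro i
    have hne : C i ≠ ⊤ := (hCmax i).1
    obtain ⟨c, -, hc⟩ := SetLike.exists_of_lt (lt_top_iff_ne_top.2 hne)
    exact ⟨c.1, c.2, fun h => hc ((hmemD i c.1 c.2).1 h)⟩
  have hF2 : ∀ i (x : S), x ^ 2 ∈ (C i).map (Subgroup.center S).subtype → x ∈ (Subgroup.center S) := by
    intro i x hx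
    obtain ⟨hN, -, hu⟩ := hCq i
    obtain ⟨c, hc, hcN⟩ := hexc i
    exact F2 _ (hDZ i) hu c hc hcN (hF1 c hc) x hx
  let i₀ : Fin n := ⟨0, by omega⟩
  obtain ⟨hN, hna, hu⟩ := hCq i₀
  set N : Subgroup S := (C i₀).map (Subgroup.center S).subtype with hNdef
  have hNc : N ≤ (Subgroup.center S) := hDZ i₀
  obtain ⟨n', α, β, hn', hgq⟩ := exists_gq (hS.to_quotient N) hna hu
  obtain ⟨a, rfl⟩ := QuotientGroup.mk_surjective α
  obtain ⟨b, rfl⟩ := QuotientGroup.mk_surjective β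
  have hform := form N hgq
  set m := 2 ^ n' with hmdef
  have hm0 : m ≠ 0 := by positivity
  obtain ⟨m', hm'⟩ : ∃ m', m = m' * 2 := by
    refine ⟨2 ^ (n' - 1), ?_⟩
    rw [hmdef, ← pow_succ]
    congr 1; omega
  have hm2 : 2 ≤ m := by omega
  -- key lemma
  have hL : ∀ y : S, (QuotientGroup.mk y : S ⧸ N) ^ 2 = (QuotientGroup.mk a) ^ m →
      y ^ 2 ∈ (Subgroup.center S) ∧ ∀ i, y ^ 2 ∉ (C i).map (Subgroup.center S).subtype := by
    intro y hy
    obtain ⟨c, hc, hcN⟩ := hexc i₀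
    have hco : orderOf (QuotientGroup.mk c : S ⧸ N) = 2 := by
      apply orderOf_eq_prime
      · rw [← QuotientGroup.mk_pow, hF1 c hc]; rfl
      · intro h
        exact hcN ((QuotientGroup.eq_one_iff c).1 h)
    have h1 := hgq.eq_of_orderOf_eq_two hm0 (Subgroup.mem_top _) hco
    rw [← hy, ← QuotientGroup.mk_pow, QuotientGroup.eq] at h1
    have h2 : y ^ 2 ∈ (Subgroup.center S) := by
      have := (Subgroup.center S).mul_mem hc (hNc h1)
      simpa using this
    have h3 : y ∉ (Subgroup.center S) := by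
      intro hyZ
      apply hgq.pow_m_ne_one hm0
      rw [← hy, ← QuotientGroup.mk_pow, hF1 y hyZ]; rfl
    exact ⟨h2, fun i hi => h3 (hF2 i y hi)⟩
  have hLeq : ∀ y y' : S, (QuotientGroup.mk y : S ⧸ N) ^ 2 = (QuotientGroup.mk a) ^ m →
      (QuotientGroup.mk y' : S ⧸ N) ^ 2 = (QuotientGroup.mk a) ^ m → y ^ 2 = y' ^ 2 := by
    intro y y' h h'
    exact hF3 _ (hL y h).1 _ (hL y' h').1 (hL y h).2 (hL y' h').2
  have hb2 := hgq.sq
  have hab2 : (QuotientGroup.mk (a * b) : S ⧸ N) ^ 2 = (QuotientGroup.mk a) ^ m := by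
    apply hgq.sq_of_not_mem (Subgroup.mem_top _)
    intro h
    apply hgq.nmem
    have := (Subgroup.zpowers (QuotientGroup.mk a : S ⧸ N)).mul_mem
      (Subgroup.inv_mem _ (Subgroup.mem_zpowers _)) h
    simpa using this
  have ham2 : (QuotientGroup.mk (a ^ m') : S ⧸ N) ^ 2 = (QuotientGroup.mk a) ^ m := by
    rw [QuotientGroup.mk_pow, ← pow_mul, ← hm']
  set z := b ^ 2 with hzdef
  have hzZ : z ∈ (Subgroup.center S) := (hL b hb2).1
  have hz2 : z ^ 2 = 1 := hF1 z hzZ
  have e1 : (a * b) ^ 2 = z := hLeq _ _ hab2 hb2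
  have e2 : a ^ m = z := by
    have := hLeq _ _ ham2 hb2
    rwa [← pow_mul, ← hm'] at this
  have hinv : b * a * b⁻¹ = a⁻¹ := by
    have h1 : a * b * (a * b) = b * b := by rw [← pow_two, e1, hzdef, pow_two]
    have h2 : a * b * a = b := by
      have : a * b * a * b = b * b := by rw [← h1]; group
      exact mul_right_cancel this
    calc b * a * b⁻¹ = a⁻¹ * (a * b * a) * b⁻¹ := by group
      _ = a⁻¹ := by rw [h2]; group
  have hbk : ∀ k : ℤ, b * a ^ k = a ^ (-k) * b := by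
    intro k
    have : b * a ^ k * b⁻¹ = a ^ (-k) := by
      rw [← conj_zpow, hinv, inv_zpow, zpow_neg]
    calc b * a ^ k = (b * a ^ k * b⁻¹) * b := by group
      _ = a ^ (-k) * b := by rw [this]
  have hbb : b * b = a ^ (m : ℤ) := by rw [zpow_natCast, e2, hzdef, pow_two]
  have ha2m : a ^ (2 * m) = 1 := by rw [mul_comm, pow_mul, e2, hz2]
  let Q : Subgroup S :=
    { carrier := {x | ∃ k : ℤ, x = a ^ k ∨ x = a ^ k * b}
      one_mem' := ⟨0, Or.inl (by simp)⟩
      mul_mem' := by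
        rintro x y ⟨k, rfl | rfl⟩ ⟨l, rfl | rfl⟩
        · exact ⟨k + l, Or.inl (zpow_add a k l).symm⟩
        · exact ⟨k + l, Or.inr (by rw [zpow_add, mul_assoc])⟩
        · refine ⟨k + -l, Or.inr ?_⟩
          rw [mul_assoc, hbk, zpow_add, mul_assoc]
        · refine ⟨k + -l + m, Or.inl ?_⟩
          calc a ^ k * b * (a ^ l * b) = a ^ k * (b * a ^ l) * b := by group
            _ = a ^ k * (a ^ (-l) * b) * b := by rw [hbk]
            _ = a ^ k * a ^ (-l) * (b * b) := by group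
            _ = a ^ (k + -l + m) := by rw [hbb, zpow_add, zpow_add]
      inv_mem' := by
        rintro x ⟨k, rfl | rfl⟩
        · exact ⟨-k, Or.inl (zpow_neg a k).symm⟩
        · refine ⟨-(m : ℤ) + k, Or.inr ?_⟩
          have h1 : b⁻¹ = a ^ (-(m : ℤ)) * b := by
            rw [zpow_neg, ← hbb]; group
          calc (a ^ k * b)⁻¹ = b⁻¹ * a ^ (-k) := by group
            _ = a ^ (-(m : ℤ)) * (b * a ^ (-k)) := by rw [h1]; group
            _ = a ^ (-(m : ℤ)) * (a ^ (- -k) * b) := by rw [hbk]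
            _ = a ^ (-(m : ℤ) + k) * b := by rw [neg_neg, zpow_add, mul_assoc] }
  have hmemQ : ∀ x, x ∈ Q ↔ ∃ k : ℤ, x = a ^ k ∨ x = a ^ k * b := fun x => Iff.rfl
  have haQ : a ∈ Q := ⟨1, Or.inl (by simp)⟩
  have hbQ : b ∈ Q := ⟨0, Or.inr (by simp)⟩
  have hQN : N ⊓ Q = ⊥ := by
    rw [eq_bot_iff]
    rintro x ⟨hxN, k, rfl | rfl⟩
    · rw [Subgroup.mem_bot]
      have h1 : (QuotientGroup.mk a : S ⧸ N) ^ k = 1 := by
        rw [← QuotientGroup.mk_zpow]
        exact (QuotientGroup.eq_one_iff _).2 hxN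
      rw [← orderOf_dvd_iff_zpow_eq_one, hgq.ord] at h1
      obtain ⟨j, rfl⟩ := h1
      rw [zpow_mul, zpow_natCast, ha2m, one_zpow]
    · exfalso
      apply hgq.nmem
      have h1 : (QuotientGroup.mk a : S ⧸ N) ^ k * QuotientGroup.mk b = 1 := by
        rw [← QuotientGroup.mk_zpow, ← QuotientGroup.mk_mul]
        exact (QuotientGroup.eq_one_iff _).2 hxN
      have h2 : (QuotientGroup.mk b : S ⧸ N) = ((QuotientGroup.mk a : S ⧸ N) ^ k)⁻¹ :=
        (inv_eq_of_mul_eq_one_right h1).symm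
      rw [h2]
      exact Subgroup.inv_mem _ (Subgroup.zpow_mem_zpowers _ k)
  have hzQ : z ∈ Q := ⟨m, Or.inl (by rw [zpow_natCast, e2])⟩
  have hmkz : (QuotientGroup.mk z : S ⧸ N) = (QuotientGroup.mk a) ^ m := by
    rw [← e2, QuotientGroup.mk_pow]
  have hz1 : z ≠ 1 := by
    intro h
    apply hgq.pow_m_ne_one hm0
    rw [← hmkz, h]; rfl
  refine ⟨N, Q, ⟨le_top, le_top, ?_, hQN, ?_⟩, ⟨⟨⟨fun x y => ?_⟩⟩, fun c hc => hF1 c (hNc hc)⟩, ?_, ?_⟩
  · intro x hx y _
    exact (Subgroup.mem_center_iff.1 (hNc hx) y).symm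
  · rw [eq_top_iff]
    intro y _
    obtain ⟨k, c, hc, rfl | rfl⟩ := hform y
    · rw [sup_comm]
      exact Subgroup.mul_mem_sup (show a ^ k ∈ Q from ⟨k, Or.inl rfl⟩) hc
    · rw [sup_comm]
      exact Subgroup.mul_mem_sup (show a ^ k * b ∈ Q from ⟨k, Or.inr rfl⟩) hc
  · exact Subtype.ext (Subgroup.mem_center_iff.1 (hNc x.2) y.1).symm
  · intro hcomm
    have h1 : (⟨b, hbQ⟩ : Q) * ⟨a, haQ⟩ = ⟨a, haQ⟩ * ⟨b, hbQ⟩ := hcomm.is_comm.comm _ _
    have h2 : b * a = a * b := congrArg Subtype.val h1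
    have h3 : a = a⁻¹ := by
      rw [← hinv, h2]; group
    have h4 : a ^ 2 = 1 := by
      rw [pow_two]
      nth_rewrite 1 [h3]
      group
    have h5 : (QuotientGroup.mk a : S ⧸ N) ^ 2 = 1 := by
      rw [← QuotientGroup.mk_pow, h4]; rfl
    have h6 := orderOf_dvd_of_pow_eq_one h5
    rw [hgq.ord] at h6
    have := Nat.le_of_dvd (by norm_num) h6
    omega
  · refine ⟨⟨z, hzQ⟩, ?_, ?_⟩
    · show orderOf (⟨z, hzQ⟩ : Q) = 2
      rw [← Subgroup.orderOf_coe]
      exact orderOf_eq_prime hz2 hz1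
    · rintro ⟨y, hyQ⟩ hy
      have hy' : orderOf y = 2 := by
        rw [← Subgroup.orderOf_coe] at hy
        exact hy
      have hy2 : y ^ 2 = 1 := by rw [← hy', pow_orderOf_eq_one]
      have hy1 : y ≠ 1 := by
        rintro rfl
        simp at hy'
      have hyo : orderOf (QuotientGroup.mk y : S ⧸ N) = 2 := by
        apply orderOf_eq_prime
        · rw [← QuotientGroup.mk_pow, hy2]; rfl
        · intro h
          apply hy1
          have : y ∈ N ⊓ Q := ⟨(QuotientGroup.eq_one_iff y).1 h, hyQ⟩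
          rwa [hQN, Subgroup.mem_bot] at this
      have h1 := hgq.eq_of_orderOf_eq_two hm0 (Subgroup.mem_top _) hyo
      rw [← hmkz, QuotientGroup.eq] at h1
      have h2 : y⁻¹ * z ∈ N ⊓ Q := ⟨h1, Q.mul_mem (Q.inv_mem hyQ) hzQ⟩
      rw [hQN, Subgroup.mem_bot] at h2
      apply Subtype.ext
      show y = z
      exact inv_mul_eq_one.1 h2

end Cfsg.Agent.S3201
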