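import Cfsg.Statements.S3202
import Mathlib
import Cfsg.Agent.H4.GQLift

set_option autoImplicit false
open Cfsg

namespace Cfsg.Agent.S3202

open Cfsg.Agent.Lib.Helper2 Cfsg.Agent.H4.GQLift
open scoped commutatorElement

/-- Let S be a finite 2-group of 2-rank exactly 2 and D a maximal subgroup of the centre of S such that S/D is a non-abelian group with exactly one involution (a generalized quaternion group). Then S has a nontrivial cyclic characteristic subgroup. -/
theorem result {S : Type*} [Group S]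
    [Finite S] (hS : IsPGroup 2 S) (hr2 : Cfsg.PRankLE 2 2 S) (hr1 : ¬ Cfsg.PRankLE 2 1 S)
    (D : Subgroup ↥(Subgroup.center S)) (hD : IsCoatom D)
    (hq : ∃ (_ : (D.map (Subgroup.center S).subtype).Normal),
      ¬ IsMulCommutative (S ⧸ D.map (Subgroup.center S).subtype) ∧
      ∃! x : S ⧸ D.map (Subgroup.center S).subtype, orderOf x = 2) :
    ∃ C : Subgroup S, C ≠ ⊥ ∧ IsCyclic ↥C ∧ C.Characteristic := by
  obtain ⟨hN, hna, hu⟩ := hq
  set N : Subgroup S := D.map (Subgroup.center S).subtype with hNdef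
  have hNc : N ≤ Subgroup.center S := by
    rintro _ ⟨x, -, rfl⟩
    exact x.2
  obtain ⟨n, α, β, -, hgq⟩ := exists_gq (hS.to_quotient N) hna hu
  obtain ⟨a, rfl⟩ := QuotientGroup.mk_surjective α
  obtain ⟨b, rfl⟩ := QuotientGroup.mk_surjective β
  have hform := form N hgq
  -- the central defect
  have hd : b * a * b⁻¹ * a ∈ N := by
    rw [← QuotientGroup.eq_one_iff]
    have := hgq.inv
    rw [QuotientGroup.mk_mul, QuotientGroup.mk_mul, QuotientGroup.mk_mul, QuotientGroup.mk_inv, this]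
    simp
  set d := b * a * b⁻¹ * a with hddef
  have hdc : ∀ g : S, g * d = d * g := fun g => Subgroup.mem_center_iff.1 (hNc hd) g
  have hba : b * a * b⁻¹ = d * a⁻¹ := by rw [hddef]; group
  have hba' : b * a⁻¹ * b⁻¹ = a * d⁻¹ := by
    have : b * a⁻¹ * b⁻¹ = (b * a * b⁻¹)⁻¹ := by group
    rw [this, hba]; group
  set w := a * b * a⁻¹ * b⁻¹ with hwdef
  have hw : w = (a * a) * d⁻¹ := by
    have : w = a * (b * a⁻¹ * b⁻¹) := by rw [hwdef]; group
    rw [this, hba']; group
  have hdic : ∀ g : S, g * d⁻¹ = d⁻¹ * g := by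
    intro g
    have := hdc g⁻¹
    have h2 : g * d⁻¹ = (d * g⁻¹)⁻¹ := by group
    rw [h2, ← this]; group
  have haw : a * w * a⁻¹ = w := by
    rw [hw]
    calc a * ((a * a) * d⁻¹) * a⁻¹ = (a * a) * (a * d⁻¹) * a⁻¹ := by group
      _ = (a * a) * (d⁻¹ * a) * a⁻¹ := by rw [hdic a]
      _ = (a * a) * d⁻¹ := by group
  have hbw : b * w * b⁻¹ = w⁻¹ := by
    rw [hw]
    calc b * ((a * a) * d⁻¹) * b⁻¹ = (b * a * b⁻¹) * (b * a * b⁻¹) * (b * d⁻¹) * b⁻¹ := by group
      _ = (d * a⁻¹) * (d * a⁻¹) * (d⁻¹ * b) * b⁻¹ := by rw [hba, hdic b]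
      _ = d * (a⁻¹ * d) * a⁻¹ * d⁻¹ := by group
      _ = d * (d * a⁻¹) * a⁻¹ * d⁻¹ := by rw [hdc a⁻¹]
      _ = d * d * (((a * a))⁻¹ * d⁻¹) := by group
      _ = d * d * (d⁻¹ * ((a * a))⁻¹) := by rw [hdic]
      _ = ((a * a) * d⁻¹)⁻¹ := by group
  have hakw : ∀ k : ℤ, a ^ k * w * (a ^ k)⁻¹ = w := by
    intro k
    have hc : Commute a w := by
      show a * w = w * a
      calc a * w = (a * w * a⁻¹) * a := by group
        _ = w * a := by rw [haw]
    have := (hc.zpow_left k).eq
    rw [this]; group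
  have hconj : ∀ s : S, s * w * s⁻¹ = w ∨ s * w * s⁻¹ = w⁻¹ := by
    intro s
    obtain ⟨k, c, hc, rfl | rfl⟩ := hform s
    · left
      have hcc := Subgroup.mem_center_iff.1 (hNc hc) w
      calc a ^ k * c * w * (a ^ k * c)⁻¹ = a ^ k * (c * w) * c⁻¹ * (a ^ k)⁻¹ := by group
        _ = a ^ k * (w * c) * c⁻¹ * (a ^ k)⁻¹ := by rw [hcc]
        _ = a ^ k * w * (a ^ k)⁻¹ := by group
        _ = w := hakw k
    · right
      have hcc := Subgroup.mem_center_iff.1 (hNc hc) w
      calc a ^ k * b * c * w * (a ^ k * b * c)⁻¹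
          = a ^ k * (b * (c * w) * c⁻¹ * b⁻¹) * (a ^ k)⁻¹ := by group
        _ = a ^ k * (b * (w * c) * c⁻¹ * b⁻¹) * (a ^ k)⁻¹ := by rw [hcc]
        _ = a ^ k * (b * w * b⁻¹) * (a ^ k)⁻¹ := by group
        _ = a ^ k * w⁻¹ * (a ^ k)⁻¹ := by rw [hbw]
        _ = (a ^ k * w * (a ^ k)⁻¹)⁻¹ := by group
        _ = w⁻¹ := by rw [hakw k]
  have hWn : (Subgroup.zpowers w).Normal := by
    constructor
    rintro _ ⟨j, rfl⟩ s
    simp only
    rw [← conj_zpow]
    rcases hconj s with h | h <;> rw [h]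
    · exact Subgroup.zpow_mem_zpowers w j
    · exact Subgroup.zpow_mem _ (Subgroup.inv_mem _ (Subgroup.mem_zpowers w)) j
  set W := Subgroup.zpowers w with hWdef
  let mk : S →* S ⧸ W := QuotientGroup.mk' W
  have hab : Commute (mk a) (mk b) := by
    show mk a * mk b = mk b * mk a
    rw [← map_mul, ← map_mul]
    show (QuotientGroup.mk (a * b) : S ⧸ W) = QuotientGroup.mk (b * a)
    rw [eq_comm, QuotientGroup.eq]
    have : (b * a)⁻¹ * (a * b) = (b * a)⁻¹ * w * (b * a)⁻¹⁻¹ := by rw [hwdef]; group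
    rw [this]
    exact hWn.conj_mem _ (Subgroup.mem_zpowers w) _
  have hcen : ∀ c ∈ N, ∀ x : S, Commute (mk x) (mk c) := by
    intro c hc x
    show mk x * mk c = mk c * mk x
    rw [← map_mul, ← map_mul, Subgroup.mem_center_iff.1 (hNc hc) x]
  have h1 : ∀ x : S, Commute (mk x) (mk a) := by
    intro x
    obtain ⟨k, c, hc, rfl | rfl⟩ := hform x
    · rw [map_mul, map_zpow]
      exact ((Commute.refl (mk a)).zpow_left k).mul_left (hcen c hc a).symm
    · rw [map_mul, map_mul, map_zpow]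
      exact (((Commute.refl (mk a)).zpow_left k).mul_left hab.symm).mul_left (hcen c hc a).symm
  have h2 : ∀ x : S, Commute (mk x) (mk b) := by
    intro x
    obtain ⟨k, c, hc, rfl | rfl⟩ := hform x
    · rw [map_mul, map_zpow]
      exact ((hab.zpow_left k)).mul_left (hcen c hc b).symm
    · rw [map_mul, map_mul, map_zpow]
      exact ((hab.zpow_left k).mul_left (Commute.refl _)).mul_left (hcen c hc b).symm
  have h3 : ∀ x y : S, Commute (mk x) (mk y) := by
    intro x y
    obtain ⟨k, c, hc, rfl | rfl⟩ := hform y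
    · rw [map_mul, map_zpow]
      exact ((h1 x).zpow_right k).mul_right (hcen c hc x)
    · rw [map_mul, map_mul, map_zpow]
      exact (((h1 x).zpow_right k).mul_right (h2 x)).mul_right (hcen c hc x)
  have hle : commutator S ≤ W := by
    rw [commutator_def, Subgroup.commutator_le]
    intro x _ y _
    rw [← QuotientGroup.eq_one_iff]
    show mk ⁅x, y⁆ = 1
    rw [map_commutatorElement, commutatorElement_eq_one_iff_commute]
    exact h3 x y
  refine ⟨commutator S, ?_, Subgroup.isCyclic_of_le hle, ?_⟩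
  · intro hbot
    apply hna
    refine ⟨⟨fun x y => ?_⟩⟩
    obtain ⟨x, rfl⟩ := QuotientGroup.mk_surjective x
    obtain ⟨y, rfl⟩ := QuotientGroup.mk_surjective y
    have : ⁅x, y⁆ ∈ commutator S := by
      rw [commutator_def]
      exact Subgroup.commutator_mem_commutator (Subgroup.mem_top x) (Subgroup.mem_top y)
    rw [hbot, Subgroup.mem_bot, commutatorElement_eq_one_iff_mul_comm] at this
    rw [← QuotientGroup.mk_mul, ← QuotientGroup.mk_mul, this]
  · rw [commutator_def]; infer_instance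

end Cfsg.Agent.S3202
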