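import Cfsg.Statements.S3208
import Cfsg.Agent.Lib.Helper16.Trace
import Cfsg.Agent.Lib.Helper16.SPE
import Cfsg.Agent.H1.CoprimeFrattini

set_option autoImplicit false
open Cfsg

namespace Cfsg.Agent.S3208

open Cfsg.Agent.Lib.Helper16


/-- Let j be an involution of a finite group G, H a subgroup of G, and T a Sylow 2-subgroup of H ∩ C_G(j) containing j such that ⟨j⟩ is a characteristic subgroup of T. Then T is a Sylow 2-subgroup of H. -/
theorem result {G : Type*} [Group G] [Finite G]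
    (j : G) (hj : orderOf j = 2) (H T : Subgroup G) (hT : T ≤ H ⊓ Subgroup.centralizer ({j} : Set G)) (h2 : IsPGroup 2 ↥T)
    (hSyl : ¬ 2 ∣ T.relIndex (H ⊓ Subgroup.centralizer ({j} : Set G))) (hjT : j ∈ T)
    (hchar : ((Subgroup.zpowers j).subgroupOf T).Characteristic) :
    ¬ 2 ∣ T.relIndex H := by
  have hmax : ∀ Q : Subgroup G, IsPGroup 2 Q → T ≤ Q → Q ≤ H ⊓ Subgroup.centralizer ({j} : Set G) →
      Q ≤ T := by
    intro Q hQ hTQ hQX
    rw [← Subgroup.relIndex_eq_one]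
    by_contra hne
    apply hSyl
    rw [← Subgroup.relIndex_mul_relIndex T Q _ hTQ hQX]
    apply Dvd.dvd.mul_right
    obtain ⟨k, hk⟩ := IsPGroup.iff_card.1 hQ
    have h1 : T.relIndex Q ∣ 2 ^ k := by rw [← hk]; exact Subgroup.relIndex_dvd_card T Q
    obtain ⟨i, -, hi⟩ := (Nat.dvd_prime_pow Nat.prime_two).1 h1
    rw [hi] at hne ⊢
    cases i with
    | zero => exact absurd (pow_zero 2) hne
    | succ i => exact dvd_pow_self 2 (Nat.succ_ne_zero i)
  obtain ⟨T₁, hT₁, hle⟩ := exists_isSyl_ge h2 (hT.trans inf_le_left)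
  by_cases heq : T = T₁
  · rw [heq]; exact hT₁.not_dvd_relIndex
  exfalso
  obtain ⟨s, hsT₁, hsN, hsT⟩ := exists_mem_normalizer_not_mem hT₁.isPGroup (lt_of_le_of_ne hle heq)
  have hn := Cfsg.H1.normalizer_le_normalizer_map_of_characteristic
    ((Subgroup.zpowers j).subgroupOf T) hsN
  rw [Subgroup.subgroupOf_map_subtype, inf_eq_left.2 (Subgroup.zpowers_le.2 hjT)] at hn
  have h3 : s * j * s⁻¹ ∈ Subgroup.zpowers j :=
    (Subgroup.mem_normalizer_iff.1 hn j).1 (Subgroup.mem_zpowers j)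
  have h4 : s * j * s⁻¹ = j := by
    rw [Subgroup.mem_zpowers_iff] at h3
    obtain ⟨k, hk⟩ := h3
    have hj2 : j ^ 2 = 1 := by rw [← hj]; exact pow_orderOf_eq_one j
    have hj1 : j ≠ 1 := by
      intro h; rw [h, orderOf_one] at hj; norm_num at hj
    rcases Int.even_or_odd' k with ⟨m, rfl | rfl⟩
    · exfalso
      rw [zpow_mul, zpow_ofNat, hj2, one_zpow] at hk
      apply hj1
      have : j = s⁻¹ * (s * j * s⁻¹) * s := by group
      rw [this, ← hk]; group
    · rw [zpow_add, zpow_mul, zpow_ofNat, hj2, one_zpow, one_mul, zpow_one] at hk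
      exact hk.symm
  have hsC : s ∈ Subgroup.centralizer ({j} : Set G) := by
    rw [Subgroup.mem_centralizer_singleton_iff]
    calc s * j = (s * j * s⁻¹) * s := by group
      _ = j * s := by rw [h4]
  have hQ := hmax (T ⊔ Subgroup.zpowers s)
    (hT₁.isPGroup.to_le (sup_le hle (Subgroup.zpowers_le.2 hsT₁))) le_sup_left
    (sup_le hT (Subgroup.zpowers_le.2 ⟨hT₁.le hsT₁, hsC⟩))
  exact hsT (hQ (Subgroup.mem_sup_right (Subgroup.mem_zpowers s)))

end Cfsg.Agent.S3208
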