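import Mathlib
import Cfsg.Statements.S3209
import Cfsg.Agent.H14.SL2Four

set_option autoImplicit false

namespace Cfsg.Agent.S3209

open Cfsg.Agent.H14

theorem mem_sup_of_commute {G : Type*} [Group G] (L₁ L₂ : Subgroup G)
    (hc : ∀ x ∈ L₁, ∀ y ∈ L₂, x * y = y * x) {y : G} (hy : y ∈ L₁ ⊔ L₂) :
    ∃ a ∈ L₁, ∃ b ∈ L₂, y = a * b := by
  rw [Subgroup.sup_eq_closure] at hy
  induction hy using Subgroup.closure_induction with
  | mem y h =>
    rcases h with h | h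
    · exact ⟨y, h, 1, one_mem _, by simp⟩
    · exact ⟨1, one_mem _, y, h, by simp⟩
  | one => exact ⟨1, one_mem _, 1, one_mem _, by simp⟩
  | mul x y _ _ hx hy =>
    obtain ⟨a, ha, b, hb, rfl⟩ := hx
    obtain ⟨a', ha', b', hb', rfl⟩ := hy
    refine ⟨a * a', mul_mem ha ha', b * b', mul_mem hb hb', ?_⟩
    calc a * b * (a' * b') = a * (b * a') * b' := by group
      _ = a * (a' * b) * b' := by rw [hc a' ha' b hb]
      _ = _ := by group
  | inv x _ hx =>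
    obtain ⟨a, ha, b, hb, rfl⟩ := hx
    refine ⟨a⁻¹, inv_mem ha, b⁻¹, inv_mem hb, ?_⟩
    rw [mul_inv_rev, hc a⁻¹ (inv_mem ha) b⁻¹ (inv_mem hb)]

/-- abstract properties of a copy of `SL₂(q)`, `q` odd, inside `G` -/
theorem sl2_copy {G : Type*} [Group G] {F : Type*} [Field F] [Fintype F] (hF : Odd (Fintype.card F))
    (L : Subgroup G) (e : ↥L ≃* Matrix.SpecialLinearGroup (Fin 2) F) (j : G) (hjL : j ∈ L) (hj1 : j ≠ 1)
    (hj2 : j * j = 1) :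
    (∀ a ∈ L, a * a = 1 → a = 1 ∨ a = j) ∧
    (∀ a ∈ L, ∀ b ∈ L, a * a = j → b * b = j → ∃ g ∈ L, g * a * g⁻¹ = b) ∧
    (∃ a ∈ L, a * a = j) := by
  have h2 : (2 : F) ≠ 0 := odd_two_ne_zero (Nat.odd_iff.mp hF)
  have key : ∀ a (ha : a ∈ L), a * a = 1 → a = 1 ∨ e ⟨a, ha⟩ = dg (-1) := by
    intro a ha haa
    have h1 : (e ⟨a, ha⟩) ^ 2 = 1 := by
      rw [← map_pow, sq]
      have : (⟨a, ha⟩ : L) * ⟨a, ha⟩ = 1 := Subtype.ext haa
      rw [this, map_one]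
    rcases (sq_eq_one_iff h2 _).mp h1 with h | h
    · left
      have : (⟨a, ha⟩ : L) = 1 := by
        apply e.injective
        rw [h, map_one]
      exact congrArg Subtype.val this
    · right; exact h
  have hej : e ⟨j, hjL⟩ = dg (-1) := (key j hjL hj2).resolve_left hj1
  have hlift : ∀ a (ha : a ∈ L), a * a = j → e ⟨a, ha⟩ * e ⟨a, ha⟩ = dg (-1) := by
    intro a ha haa
    rw [← map_mul, ← hej]
    congr 1
    exact Subtype.ext haa
  refine ⟨?_, ?_, ?_⟩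
  · intro a ha haa
    rcases key a ha haa with h | h
    · left; exact h
    · right
      have : (⟨a, ha⟩ : L) = ⟨j, hjL⟩ := by
        apply e.injective
        rw [h, hej]
      exact congrArg Subtype.val this
  · intro a ha b hb haa hbb
    obtain ⟨g, hg⟩ := isConj_iff.mp (isConj_of_mul_self h2 (hlift a ha haa) (hlift b hb hbb))
    refine ⟨(e.symm g : L), (e.symm g).2, ?_⟩
    have : e.symm g * ⟨a, ha⟩ * (e.symm g)⁻¹ = (⟨b, hb⟩ : L) := by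
      apply e.injective
      rw [map_mul, map_mul, map_inv, e.apply_symm_apply, hg]
    exact congrArg Subtype.val this
  · refine ⟨(e.symm wm : L), (e.symm wm).2, ?_⟩
    have : e.symm wm * e.symm wm = (⟨j, hjL⟩ : L) := by
      apply e.injective
      rw [map_mul, e.apply_symm_apply, hej]
      apply mul_self_of_trace_zero
      simp [wm, Matrix.trace_fin_two]
    exact congrArg Subtype.val this

theorem result {G : Type*} [Group G] [Finite G]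
    {F₁ : Type*} [Field F₁] [Fintype F₁] {F₂ : Type*} [Field F₂] [Fintype F₂]
    (hF₁ : Odd (Fintype.card F₁)) (hF₂ : Odd (Fintype.card F₂)) (L₁ L₂ : Subgroup G)
    (e₁ : ↥L₁ ≃* Matrix.SpecialLinearGroup (Fin 2) F₁) (e₂ : ↥L₂ ≃* Matrix.SpecialLinearGroup (Fin 2) F₂)
    (hc : ∀ x ∈ L₁, ∀ y ∈ L₂, x * y = y * x) (j : G) (hj : orderOf j = 2) (hm : L₁ ⊓ L₂ = Subgroup.zpowers j) :
    ∃ x ∈ L₁ ⊔ L₂, orderOf x = 2 ∧ x ≠ j ∧
      ∀ y ∈ L₁ ⊔ L₂, orderOf y = 2 → y = j ∨ ∃ g ∈ L₁ ⊔ L₂, g * x * g⁻¹ = y := by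
  have hj1 : j ≠ 1 := by
    rintro rfl
    rw [orderOf_one] at hj
    norm_num at hj
  have hj2 : j * j = 1 := by
    have := pow_orderOf_eq_one j
    rwa [hj, sq] at this
  have hjm : j ∈ L₁ ⊓ L₂ := by rw [hm]; exact Subgroup.mem_zpowers j
  obtain ⟨A1, A2, a₀, ha₀, haa₀⟩ := sl2_copy hF₁ L₁ e₁ j hjm.1 hj1 hj2
  obtain ⟨B1, B2, b₀, hb₀, hbb₀⟩ := sl2_copy hF₂ L₂ e₂ j hjm.2 hj1 hj2
  have hmem : ∀ z, z ∈ L₁ → z ∈ L₂ → z = 1 ∨ z = j := by
    intro z h1 h2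
    have : z ∈ Subgroup.zpowers j := by rw [← hm]; exact ⟨h1, h2⟩
    obtain ⟨k, rfl⟩ := Subgroup.mem_zpowers_iff.mp this
    rcases Int.even_or_odd' k with ⟨m, rfl | rfl⟩
    · left
      rw [zpow_mul, zpow_two, hj2, one_zpow]
    · right
      rw [zpow_add, zpow_mul, zpow_two, hj2, one_zpow, one_mul, zpow_one]
  have hsq : ∀ a ∈ L₁, ∀ b ∈ L₂, (a * b) * (a * b) = (a * a) * (b * b) := by
    intro a ha b hb
    calc a * b * (a * b) = a * (b * a) * b := by group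
      _ = a * (a * b) * b := by rw [hc a ha b hb]
      _ = _ := by group
  have ha₀not : a₀ ∉ L₂ := by
    intro h
    rcases hmem a₀ ha₀ h with rfl | rfl
    · rw [one_mul] at haa₀; exact hj1 haa₀.symm
    · rw [hj2] at haa₀; exact hj1 haa₀.symm
  refine ⟨a₀ * b₀, mul_mem (Subgroup.mem_sup_left ha₀) (Subgroup.mem_sup_right hb₀), ?_, ?_, ?_⟩
  · apply orderOf_eq_prime
    · rw [sq, hsq a₀ ha₀ b₀ hb₀, haa₀, hbb₀, hj2]
    · intro h
      apply ha₀not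
      rw [mul_eq_one_iff_eq_inv.mp h]
      exact inv_mem hb₀
  · intro h
    apply ha₀not
    rw [eq_mul_inv_of_mul_eq h]
    exact mul_mem hjm.2 (inv_mem hb₀)
  · intro y hy hy2
    obtain ⟨a, ha, b, hb, rfl⟩ := mem_sup_of_commute L₁ L₂ hc hy
    have hy1 : a * b ≠ 1 := by
      intro h
      rw [h, orderOf_one] at hy2
      norm_num at hy2
    have hyy : (a * a) * (b * b) = 1 := by
      rw [← hsq a ha b hb]
      have := pow_orderOf_eq_one (a * b)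
      rwa [hy2, sq] at this
    have haaL : a * a ∈ L₂ := by
      rw [mul_eq_one_iff_eq_inv.mp hyy]
      exact inv_mem (mul_mem hb hb)
    rcases hmem (a * a) (mul_mem ha ha) haaL with h | h
    · left
      rw [h, one_mul] at hyy
      rcases A1 a ha h with rfl | rfl <;> rcases B1 b hb hyy with rfl | rfl
      · simp at hy1
      · simp
      · simp
      · exact absurd hj2 hy1
    · right
      rw [h] at hyy
      have hbb : b * b = j := by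
        have : b * b = j⁻¹ := (mul_eq_one_iff_eq_inv'.mp hyy)
        rw [this]
        exact inv_eq_of_mul_eq_one_left hj2
      obtain ⟨g₁, hg₁, e1⟩ := A2 a₀ ha₀ a ha haa₀ h
      obtain ⟨g₂, hg₂, e2⟩ := B2 b₀ hb₀ b hb hbb₀ hbb
      refine ⟨g₁ * g₂, mul_mem (Subgroup.mem_sup_left hg₁) (Subgroup.mem_sup_right hg₂), ?_⟩
      rw [← e1, ← e2]
      have c1 : g₂ * a₀ = a₀ * g₂ := (hc a₀ ha₀ g₂ hg₂).symm
      have c2 : b₀ * g₁⁻¹ = g₁⁻¹ * b₀ := (hc g₁⁻¹ (inv_mem hg₁) b₀ hb₀).symm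
      have c3 : g₂ * g₁⁻¹ = g₁⁻¹ * g₂ := (hc g₁⁻¹ (inv_mem hg₁) g₂ hg₂).symm
      have c4 : g₂⁻¹ * g₁⁻¹ = g₁⁻¹ * g₂⁻¹ := (hc g₁⁻¹ (inv_mem hg₁) g₂⁻¹ (inv_mem hg₂)).symm
      calc g₁ * g₂ * (a₀ * b₀) * (g₁ * g₂)⁻¹ = g₁ * (g₂ * a₀) * b₀ * (g₂⁻¹ * g₁⁻¹) := by group
        _ = g₁ * (a₀ * g₂) * b₀ * (g₁⁻¹ * g₂⁻¹) := by rw [c1, c4]
        _ = g₁ * a₀ * g₂ * (b₀ * g₁⁻¹) * g₂⁻¹ := by group
        _ = g₁ * a₀ * (g₂ * g₁⁻¹) * b₀ * g₂⁻¹ := by rw [c2]; group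
        _ = g₁ * a₀ * g₁⁻¹ * (g₂ * b₀ * g₂⁻¹) := by rw [c3]; group

end Cfsg.Agent.S3209
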