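import Cfsg.Statements.S3215
import Mathlib
import Cfsg.Agent.H4.ChzSolv2
import Cfsg.Agent.H4.PRegClass
import Cfsg.Agent.H1.FrobCenter

set_option autoImplicit false
open Cfsg

namespace Cfsg.Agent.S3215

open Subgroup Cfsg.Agent.H4.ChzSolv

/-- Let H be a finite solvable group with no nontrivial normal subgroup of odd order in which the centralizer of every involution has a normal 2-complement. Let X be a Hall 2'-subgroup of H (odd order, index a power of 2) and Y = O₂(H). Then no non-identity element of X commutes with a non-identity element of Y (so for X ≠ 1 the group XY is a Frobenius group with kernel Y), every Sylow subgroup of X is cyclic, XY is normal in H, and H/XY is a cyclic 2-group. -/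
theorem result {H : Type*} [Group H] [Finite H] (hsol : Group.IsSolvable H)
    (hO : Cfsg.oddCore H = ⊥)
    (hI : ∀ t : H, orderOf t = 2 → Cfsg.HasNormalPComplement 2 ↥(Subgroup.centralizer ({t} : Set H)))
    (X : Subgroup H) (hXodd : Odd (Nat.card X)) (hXidx : ∃ k : ℕ, X.index = 2 ^ k) :
    (∀ x ∈ X, x ≠ 1 → ∀ y ∈ Cfsg.pCore 2 H, y ≠ 1 → x * y ≠ y * x) ∧
      (∀ (p : ℕ) [Fact p.Prime] (P : Sylow p ↥X), IsCyclic ↥(P : Subgroup ↥X)) ∧
      (X ⊔ Cfsg.pCore 2 H).Normal ∧
      ∀ hN : (X ⊔ Cfsg.pCore 2 H).Normal, IsCyclic (H ⧸ (X ⊔ Cfsg.pCore 2 H)) ∧ IsPGroup 2 (H ⧸ (X ⊔ Cfsg.pCore 2 H)) := by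
  classical
  have hYn := Cfsg.H1.pCore_normal (G := H) 2
  have hYp := Cfsg.H1.pCore_isPGroup (G := H) 2
  have hK2 : Cfsg.pCore 2 (H ⧸ Cfsg.pCore 2 H) = ⊥ := Cfsg.Agent.H4.pCore_quotient_pCore 2
  set Y := Cfsg.pCore 2 H with hY
  have hXo : ∀ x ∈ X, Odd (orderOf x) := fun x hx => by
    have := orderOf_dvd_natCard (⟨x, hx⟩ : X)
    rw [Subgroup.orderOf_mk] at this
    exact Odd.of_dvd_nat hXodd this
  have h1 : ∀ x ∈ X, x ≠ 1 → ∀ y ∈ Y, y ≠ 1 → x * y ≠ y * x :=
    fun x hx hx1 y hy hy1 hxy => hx1 (fpf hsol hO hI (hXo x hx) hy hy1 hxy)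
  have hfpf : ∀ h ∈ X, h ≠ 1 → Y ⊓ centralizer {h} = ⊥ := by
    intro h hh hh1
    rw [eq_bot_iff]
    intro y hy
    obtain ⟨hy1, hy2⟩ := mem_inf.1 hy
    rw [mem_bot]
    by_contra hne
    exact h1 h hh hh1 y hy1 hne (mem_centralizer_singleton_iff.1 hy2).symm
  have htriv : Y = ⊥ → Subsingleton H := by
    intro h
    have h1 := Cfsg.H1.centralizer_pCore_le 2 hO (G := H)
    rw [← hY, h] at h1
    refine ⟨fun a b => ?_⟩
    have hc : ∀ f : H, f ∈ centralizer ((⊥ : Subgroup H) : Set H) := by
      intro f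
      rw [mem_centralizer_iff]
      intro z hz
      rw [SetLike.mem_coe, mem_bot] at hz
      rw [hz, one_mul, mul_one]
    rw [mem_bot.1 (h1 (hc a)), mem_bot.1 (h1 (hc b))]
  have hKsol : Group.IsSolvable (H ⧸ Y) := inferInstance
  have hK3 : ∀ r f : H ⧸ Y, orderOf r = 2 → Odd (orderOf f) → f * r = r * f → f = 1 := by
    intro r f hr hf hfr
    obtain ⟨r, rfl⟩ := QuotientGroup.mk_surjective r
    obtain ⟨g, rfl⟩ := QuotientGroup.mk_surjective f
    obtain ⟨a, ha⟩ := exists_odd_part g
    have hg : g ^ (2 ^ a) = 1 := by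
      apply key3 hsol hO hI ha (r := r)
      · intro h
        rw [(QuotientGroup.eq_one_iff r).2 h, orderOf_one] at hr
        omega
      · rw [← hY, ← QuotientGroup.eq_one_iff, QuotientGroup.mk_pow, ← hr, pow_orderOf_eq_one]
      · rw [← hY, ← QuotientGroup.eq_one_iff]
        simp only [QuotientGroup.mk_mul, QuotientGroup.mk_inv, QuotientGroup.mk_pow]
        have hc : Commute ((QuotientGroup.mk g : H ⧸ Y) ^ (2 ^ a)) (QuotientGroup.mk r) :=
          Commute.pow_left hfr _
        rw [hc.eq]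
        group
    apply eq_one_of_odd_of_two hf (k := a)
    rw [← QuotientGroup.mk_pow, hg]
    rfl
  have hFn := Cfsg.H1.pPrimeCore_normal (G := H ⧸ Y) 2
  set F := Cfsg.oddCore (H ⧸ Y) with hF
  have hFodd : Odd (Nat.card F) := Nat.coprime_two_right.1 (Cfsg.H1.pPrimeCore_coprime 2)
  obtain ⟨k, hk⟩ := hXidx
  have hXY : X ⊔ Y = F.comap (QuotientGroup.mk' Y) := by
    have hle : X ⊔ Y ≤ F.comap (QuotientGroup.mk' Y) := by
      apply sup_le
      · intro x hx
        rw [mem_comap]
        obtain ⟨a, ha⟩ := pow_mem_oddCore hKsol hK2 hK3 (QuotientGroup.mk' Y x)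
        exact mem_of_odd_of_pow_mem
          (Odd.of_dvd_nat (hXo x hx) (orderOf_map_dvd (QuotientGroup.mk' Y) x)) F ha
      · intro y hy
        rw [mem_comap, QuotientGroup.mk'_apply, (QuotientGroup.eq_one_iff y).2 hy]
        exact one_mem _
    apply le_antisymm hle
    rw [← relIndex_eq_one]
    have d1 : (X ⊔ Y).relIndex (F.comap (QuotientGroup.mk' Y)) ∣ 2 ^ k := by
      rw [← hk]
      exact (relIndex_dvd_of_le_left _ le_sup_left).trans
        (relIndex_dvd_index_of_le (le_sup_left.trans hle))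
    have d2 : (X ⊔ Y).relIndex (F.comap (QuotientGroup.mk' Y)) ∣ Nat.card F := by
      refine (relIndex_dvd_of_le_left _ le_sup_right).trans ?_
      have e1 : ((⊥ : Subgroup (H ⧸ Y)).comap (QuotientGroup.mk' Y)).relIndex
          (F.comap (QuotientGroup.mk' Y)) = Nat.card F := by
        rw [relIndex_comap, map_comap_eq_self_of_surjective (QuotientGroup.mk'_surjective Y),
          relIndex_bot_left]
      have e2 : (⊥ : Subgroup (H ⧸ Y)).comap (QuotientGroup.mk' Y) = Y := by
        rw [MonoidHom.comap_bot, QuotientGroup.ker_mk']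
      rw [e2] at e1
      rw [e1]
    exact Nat.eq_one_of_dvd_coprimes
      (Nat.Coprime.pow_left k (Nat.coprime_two_left.2 hFodd)) d1 d2
  have hpow : ∀ g : H, ∃ a : ℕ, g ^ (2 ^ a) ∈ X ⊔ Y := by
    intro g
    obtain ⟨a, ha⟩ := pow_mem_oddCore hKsol hK2 hK3 (QuotientGroup.mk' Y g)
    refine ⟨a, ?_⟩
    rw [hXY, mem_comap, map_pow]
    exact ha
  refine ⟨h1, ?_, ?_, ?_⟩
  · intro p _ P
    by_cases hYbot : Y = ⊥
    · have := htriv hYbot
      exact isCyclic_of_subsingleton
    by_cases hp2 : p = 2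
    · subst hp2
      obtain ⟨j, hj⟩ := IsPGroup.iff_card.1 P.2
      have hd : Nat.card (P : Subgroup X) ∣ Nat.card X := Subgroup.card_subgroup_dvd_card _
      have hc1 : Nat.card (P : Subgroup X) = 1 := by
        apply Nat.eq_one_of_dvd_coprimes (Nat.Coprime.pow_left j (Nat.coprime_two_left.2 hXodd))
          _ hd
        rw [hj]
      have := (Nat.card_eq_one_iff_unique.1 hc1).1
      exact isCyclic_of_subsingleton
    · exact Cfsg.H1.fpf_sylow_cyclic_of_odd Y X hYbot hfpf p hp2 P
  · rw [hXY]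
    exact hFn.comap _
  · intro hN
    constructor
    · by_cases hno : ∀ r : H ⧸ Y, orderOf r ≠ 2
      · have htop : X ⊔ Y = ⊤ := by rw [hXY, hF, oddCore_eq_top_of_no_inv hno, comap_top]
        have hs : Subsingleton (H ⧸ (X ⊔ Y)) := by
          refine ⟨fun a b => ?_⟩
          obtain ⟨a, rfl⟩ := QuotientGroup.mk_surjective a
          obtain ⟨b, rfl⟩ := QuotientGroup.mk_surjective b
          rw [QuotientGroup.eq, htop]
          exact mem_top _
        exact isCyclic_of_subsingleton
      · push Not at hno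
        obtain ⟨r, hr⟩ := hno
        have hYbot : Y ≠ ⊥ := by
          intro h
          have := htriv h
          have h1 : r = 1 := by
            obtain ⟨r, rfl⟩ := QuotientGroup.mk_surjective r
            rw [Subsingleton.elim r 1]
            rfl
          rw [h1, orderOf_one] at hr
          omega
        have hFc : IsMulCommutative F := (inverts hK3 hr).2
        have hXF : ∀ x ∈ X, QuotientGroup.mk' Y x ∈ F := by
          intro x hx
          have : x ∈ X ⊔ Y := le_sup_left (a := X) hx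
          rw [hXY] at this
          exact this
        have hXc : IsMulCommutative X := by
          refine ⟨⟨fun a b => ?_⟩⟩
          have e1 : QuotientGroup.mk' Y (a * b : H) = QuotientGroup.mk' Y (b * a : H) := by
            rw [map_mul, map_mul]
            have := hFc.is_comm.comm (⟨_, hXF a a.2⟩ : F) ⟨_, hXF b b.2⟩
            exact congrArg Subtype.val this
          have e2 : ((b * a : H))⁻¹ * (a * b : H) ∈ Y := QuotientGroup.eq.1 e1.symm
          have e3 : ((b * a : H))⁻¹ * (a * b : H) ∈ X :=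
            X.mul_mem (X.inv_mem (X.mul_mem b.2 a.2)) (X.mul_mem a.2 b.2)
          obtain ⟨j, hj⟩ := hYp ⟨_, e2⟩
          have hj' : (((b * a : H))⁻¹ * (a * b : H)) ^ (2 ^ j) = 1 := by
            have := congrArg Subtype.val hj
            simpa using this
          have e4 := eq_one_of_odd_of_two (hXo _ e3) hj'
          apply Subtype.ext
          exact (inv_mul_eq_one.1 e4).symm
        have hXcyc : IsCyclic X := Cfsg.H1.fpf_abelian_cyclic Y X hYbot hfpf
        have hFcyc : IsCyclic F := by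
          let ψ : X →* F := ((QuotientGroup.mk' Y).comp X.subtype).codRestrict F
            (fun x => hXF x x.2)
          apply isCyclic_of_surjective ψ
          rintro ⟨f, hf⟩
          obtain ⟨g, rfl⟩ := QuotientGroup.mk'_surjective Y f
          have hg : g ∈ X ⊔ Y := by rw [hXY]; exact hf
          obtain ⟨x, hx, y, hy, rfl⟩ := mem_sup_of_normal_right.1 hg
          refine ⟨⟨x, hx⟩, Subtype.ext ?_⟩
          show QuotientGroup.mk' Y x = QuotientGroup.mk' Y (x * y)
          rw [map_mul, QuotientGroup.mk'_apply _ y, (QuotientGroup.eq_one_iff y).2 hy, mul_one]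
        have hQ := quot_cyclic hKsol hK2 hK3 hFcyc hr
        let φ₁ : H ⧸ Y →* H ⧸ (X ⊔ Y) := QuotientGroup.lift Y (QuotientGroup.mk' (X ⊔ Y))
          (fun y hy => (QuotientGroup.eq_one_iff y).2 (le_sup_right (a := X) hy))
        let φ₂ : (H ⧸ Y) ⧸ F →* H ⧸ (X ⊔ Y) := QuotientGroup.lift F φ₁ (by
          intro f hf
          obtain ⟨g, rfl⟩ := QuotientGroup.mk'_surjective Y f
          have hg : g ∈ X ⊔ Y := by rw [hXY]; exact hf
          exact (QuotientGroup.eq_one_iff g).2 hg)
        apply isCyclic_of_surjective φ₂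
        intro q
        obtain ⟨g, rfl⟩ := QuotientGroup.mk_surjective q
        exact ⟨QuotientGroup.mk (QuotientGroup.mk g), rfl⟩
    · intro q
      obtain ⟨g, rfl⟩ := QuotientGroup.mk_surjective q
      obtain ⟨a, ha⟩ := hpow g
      exact ⟨a, by rw [← QuotientGroup.mk_pow]; exact (QuotientGroup.eq_one_iff _).2 ha⟩

end Cfsg.Agent.S3215
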