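import Cfsg.Statements.S3224
import Cfsg.Agent.Tr.MC9
import Cfsg.Agent.H1.MaxClass
-- import your own Cfsg.Agent.* helpers here

set_option autoImplicit false
open Cfsg

open Cfsg.Agent.Tr.MC

namespace Cfsg.Agent.S3224

/-- A finite 2-group containing an involution whose centralizer has order 4 is dihedral, quasi-dihedral (semidihedral), or of order 4. -/
theorem result {S : Type*} [Group S] [Finite S] (hS : IsPGroup 2 S)
    (x : S) (hx : orderOf x = 2) (hC : Nat.card ↥(Subgroup.centralizer ({x} : Set S)) = 4) :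
    (∃ n : ℕ, Nonempty (S ≃* DihedralGroup n)) ∨ Cfsg.IsQuasiDihedral S ∨ Nat.card S = 4 := by
  have : Fact (Nat.Prime 2) := ⟨Nat.prime_two⟩
  obtain ⟨n, hn⟩ := IsPGroup.iff_card.1 hS
  set A := Subgroup.centralizer ({x} : Set S) with hA
  have hxA : x ∈ A := by rw [hA, Subgroup.mem_centralizer_singleton_iff]
  have hAc : IsMulCommutative A := IsPGroup.isMulCommutative_of_card_eq_prime_sq (p := 2) (by rw [hC]; norm_num)
  have hCA : Subgroup.centralizer (A : Set S) = A := by
    apply le_antisymm
    · intro g hg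
      rw [hA, Subgroup.mem_centralizer_singleton_iff]
      exact (Subgroup.mem_centralizer_iff.1 hg x hxA).symm
    · exact Subgroup.le_centralizer_iff_isMulCommutative.2 hAc
  have hcl := Cfsg.H1.maximal_class_of_self_centralizing (p := 2) n hn A (by rw [hC]; norm_num) hCA
  have hn2 : 2 ≤ n := by
    have h1 := Subgroup.card_subgroup_dvd_card A
    rw [hC, hn] at h1
    have h3 : (2 : ℕ) ^ 2 ∣ 2 ^ n := by simpa using h1
    exact (Nat.pow_dvd_pow_iff_le_right (by norm_num : 1 < 2)).1 h3
  rcases Nat.eq_or_lt_of_le hn2 with rfl | hn3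
  · right; right; rw [hn]; norm_num
  · obtain ⟨m, rfl⟩ : ∃ m, n = m + 1 := ⟨n - 1, by omega⟩
    have hm : 2 ≤ m := by omega
    obtain ⟨-, a, b, h⟩ := dat_of_class hm hn hcl
    rcases h.trichotomy hm with ⟨h2, hc⟩ | ⟨h2, hc⟩ | ⟨hm3, b', hb', h2, hc⟩
    · left
      exact ⟨_, dihedral_of h.index h.nmem h2 hc⟩
    · exfalso
      have hxz := h.involution_of_quat (by omega) h2 hc hx
      have hcen : x ∈ Subgroup.center S := by rw [hxz]; exact h.z_mem_center hm
      have htop : A = ⊤ := by
        rw [eq_top_iff]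
        intro g _
        rw [hA, Subgroup.mem_centralizer_singleton_iff]
        exact Subgroup.mem_center_iff.1 hcen g
      rw [htop, Subgroup.card_top, hn] at hC
      have : 2 ^ 3 ≤ 2 ^ (m + 1) := Nat.pow_le_pow_right (by norm_num) (by omega)
      omega
    · right; left
      refine ⟨m, hm3, hn, a, b', h.ord, ?_, ?_⟩
      · apply orderOf_eq_prime h2
        rintro rfl
        exact hb' (Subgroup.one_mem _)
      · rw [hc]
        have hpos : 1 ≤ 2 ^ (m - 1) := Nat.one_le_two_pow
        rw [inv_mul_eq_iff_eq_mul, ← pow_succ', Nat.sub_add_cancel hpos]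

end Cfsg.Agent.S3224
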