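import Mathlib
import Cfsg.Statements.S3266
import Cfsg.Agent.H14.PSL2OddGraph2

set_option autoImplicit false

namespace Cfsg.Agent.S3266

open Cfsg.Agent.H14

theorem orderOf_mul_of_commuting_involutions {G : Type*} [Group G] {a b : G} (ha : a * a = 1) (hb : b * b = 1)
    (hab : a * b = b * a) (hne : a ≠ b) : orderOf (a * b) = 2 := by
  apply orderOf_eq_prime
  · rw [sq]
    calc a * b * (a * b) = a * (b * a) * b := by group
      _ = a * (a * b) * b := by rw [hab]
      _ = (a * a) * (b * b) := by group
      _ = 1 := by rw [ha, hb, one_mul]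
  · intro h
    apply hne
    have : a * b = b * b := by rw [h, hb]
    exact mul_right_cancel this

theorem exists_nonadjacent {F : Type*} [Field F] [Fintype F] (hF : 4 ≤ Fintype.card F) :
    ∃ x y : Matrix.SpecialLinearGroup (Fin 2) F, x.1.trace = 0 ∧ y.1.trace = 0 ∧ pj x ≠ 1 ∧ pj y ≠ 1 ∧
      pj x ≠ pj y ∧ orderOf (pj x * pj y) = 2 ∧ orderOf (pj y * pj x) = 2 := by
  by_cases h2 : (2 : F) = 0
  · obtain ⟨e, he0, he1⟩ := exists_ne_zero_sq_ne_one (F := F) (by omega)
    have htr : ∀ c : F, (bm 1 c : Matrix.SpecialLinearGroup (Fin 2) F).1.trace = 0 := by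
      intro c
      rw [coe_bm, Matrix.trace_fin_two_of]; simp; linear_combination h2
    have hinj : ∀ c d : F, pj (bm 1 c : Matrix.SpecialLinearGroup (Fin 2) F) = pj (bm 1 d) → c = d := by
      intro c d h
      have := congrFun (congrFun (congrArg Subtype.val (pj_injective_of_char_two h2 h)) 0) 1
      simpa using this
    have hone : pj (bm 1 0 : Matrix.SpecialLinearGroup (Fin 2) F) = 1 := by
      rw [bm_zero, dg_one]; rfl
    have hsq : ∀ c : F, pj (bm 1 c : Matrix.SpecialLinearGroup (Fin 2) F) * pj (bm 1 c) = 1 := by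
      intro c
      rw [← pj_mul, bm_mul, ← hone]
      congr 2
      · simp
      · simp; linear_combination c * h2
    have hcomm : pj (bm 1 1 : Matrix.SpecialLinearGroup (Fin 2) F) * pj (bm 1 e) = pj (bm 1 e) * pj (bm 1 1) := by
      rw [← pj_mul, ← pj_mul, bm_mul, bm_mul]
      congr 2
      simp; ring
    have hne : pj (bm 1 1 : Matrix.SpecialLinearGroup (Fin 2) F) ≠ pj (bm 1 e) := by
      intro h
      apply he1
      rw [← hinj _ _ h]; ring
    refine ⟨bm 1 1, bm 1 e, htr 1, htr e, ?_, ?_, hne,
      orderOf_mul_of_commuting_involutions (hsq 1) (hsq e) hcomm hne,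
      orderOf_mul_of_commuting_involutions (hsq e) (hsq 1) hcomm.symm hne.symm⟩
    · rw [← hone]; intro h; exact one_ne_zero (hinj _ _ h)
    · rw [← hone]; intro h; exact he0 (hinj _ _ h)
  · obtain ⟨x, hx⟩ := exists_mul_self_eq (F := F)
    have htx := trace_zero_of_mul_self x hx
    obtain ⟨y, hy⟩ := exists_inverting x (trace_zero_sq_ne h2 htx)
    have hQ : QPair x y := ⟨hx, hy⟩
    have hyy := hQ.sq_right h2
    exact ⟨x, y, htx, trace_zero_of_mul_self y hyy, pj_ne_one_of_mul_self h2 hx, pj_ne_one_of_mul_self h2 hyy,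
      hQ.pj_ne h2,
      orderOf_mul_of_commuting_involutions (pj_mul_self_of_mul_self hx) (pj_mul_self_of_mul_self hyy)
        hQ.pj_comm (hQ.pj_ne h2),
      orderOf_mul_of_commuting_involutions (pj_mul_self_of_mul_self hyy) (pj_mul_self_of_mul_self hx)
        hQ.pj_comm.symm (hQ.pj_ne h2).symm⟩

theorem result {F : Type*} [Field F] [Fintype F] (hF : 4 ≤ Fintype.card F)
    (t : Matrix.ProjectiveSpecialLinearGroup (Fin 2) F) (ht : orderOf t = 2) :
    (SimpleGraph.fromRel fun x y : {x : Matrix.ProjectiveSpecialLinearGroup (Fin 2) F // IsConj t x} =>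
        Odd (orderOf (x.1 * y.1))).Connected ∧
      (SimpleGraph.fromRel fun x y : {x : Matrix.ProjectiveSpecialLinearGroup (Fin 2) F // IsConj t x} =>
        Odd (orderOf (x.1 * y.1))).diam = 2 := by
  classical
  haveI : Nonempty {x : Matrix.ProjectiveSpecialLinearGroup (Fin 2) F // IsConj t x} := ⟨⟨t, IsConj.refl t⟩⟩
  have hord : ∀ x : {x : Matrix.ProjectiveSpecialLinearGroup (Fin 2) F // IsConj t x}, orderOf x.1 = 2 := by
    intro x
    obtain ⟨g, hg⟩ := isConj_iff.mp x.2
    rw [← hg]
    exact ((MulAut.conj g).orderOf_eq t).trans ht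
  apply connected_diam_two
  · intro x y hxy
    obtain ⟨x', hx', hxt⟩ := exists_traceless_lift x.1 (hord x)
    obtain ⟨y', hy', hyt⟩ := exists_traceless_lift y.1 (hord y)
    have hne1 : ∀ (u : {x : Matrix.ProjectiveSpecialLinearGroup (Fin 2) F // IsConj t x}), u.1 ≠ 1 := by
      intro u h
      have := hord u
      rw [h, orderOf_one] at this
      omega
    have key : Odd (orderOf (pj (x' * y'))) ∨ ∃ z : Matrix.SpecialLinearGroup (Fin 2) F,
        z.1.trace = 0 ∧ pj z ≠ 1 ∧ pj z ≠ pj x' ∧ pj z ≠ pj y' ∧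
        Odd (orderOf (pj (x' * z))) ∧ Odd (orderOf (pj (y' * z))) := by
      by_cases h2 : (2 : F) = 0
      · apply exists_common_even h2 x' y' hxt hyt
        · rintro rfl; exact hne1 x hx'.symm
        · rintro rfl; exact hne1 y hy'.symm
      · have hodd : Odd (Fintype.card F) := by
          by_contra hcon
          rw [Nat.not_odd_iff_even] at hcon
          have hch := FiniteField.even_card_iff_char_two.mpr (Nat.even_iff.mp hcon)
          apply h2
          have := (ringChar.spec F 2).mpr (by rw [hch])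
          exact_mod_cast this
        rcases exists_common_odd hodd (by omega) x' y' hxt hyt with h | ⟨z, hz, h1, h3, h4, h5⟩
        · exact Or.inl h
        · exact Or.inr ⟨z, hz, pj_ne_one_of_mul_self h2 (mul_self_of_trace_zero hz), h1, h3, h4, h5⟩
    rcases key with h | ⟨z, hz, hz1, hzx, hzy, hxz, hyz⟩
    · left
      rw [SimpleGraph.fromRel_adj]
      refine ⟨hxy, Or.inl ?_⟩
      rw [← hx', ← hy']
      exact h
    · right
      refine ⟨⟨pj z, isConj_of_traceless t ht z hz hz1⟩, ?_, ?_⟩
      · rw [SimpleGraph.fromRel_adj]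
        refine ⟨?_, Or.inl ?_⟩
        · intro h
          apply hzx
          rw [hx', h]
        · simp only
          rw [← hx']
          exact hxz
      · rw [SimpleGraph.fromRel_adj]
        refine ⟨?_, Or.inr ?_⟩
        · intro h
          apply hzy
          rw [hy', ← h]
        · simp only
          rw [← hy']
          exact hyz
  · obtain ⟨x, y, hx, hy, hx1, hy1, hne, h1, h2⟩ := exists_nonadjacent hF
    refine ⟨⟨pj x, isConj_of_traceless t ht x hx hx1⟩, ⟨pj y, isConj_of_traceless t ht y hy hy1⟩, ?_, ?_⟩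
    · intro h
      exact hne (congrArg Subtype.val h)
    · rw [SimpleGraph.fromRel_adj]
      rintro ⟨-, h | h⟩
      · simp only at h
        rw [h1] at h
        exact absurd h (by decide)
      · simp only at h
        rw [h2] at h
        exact absurd h (by decide)

end Cfsg.Agent.S3266
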