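import Cfsg.Statements.S3269
import Cfsg.Agent.S0215
import Cfsg.Agent.S0218
import Cfsg.Agent.H20.ZStarCons2
-- import your own Cfsg.Agent.* helpers here

set_option autoImplicit false
open Cfsg

namespace Cfsg.Agent.S3269

/-- Let G be a finite group whose Sylow 2-subgroup S is an internal direct product Q × R with Q generalized quaternion (of order at least 8) and R a subgroup all of whose involutions are central in R. Then G is not simple. In particular no finite simple group has a Sylow 2-subgroup that is a direct product of one or more generalized quaternion groups. -/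
theorem result {G : Type*} [Group G] [Finite G]
    (S : Sylow 2 G) (Q R : Subgroup G) (hQR : Cfsg.IsInternalDirectProduct Q R (S : Subgroup G))
    (n : ℕ) (hn : 1 ≤ n) (eQ : ↥Q ≃* QuaternionGroup (2 ^ n))
    (hR : ∀ r ∈ R, orderOf r = 2 → ∀ s ∈ R, r * s = s * r) :
    ¬ IsSimpleGroup G := by
  obtain ⟨hQS, hRS, hcomm, hdisj, hsup⟩ := hQR
  obtain ⟨m, rfl⟩ : ∃ m, n = m + 1 := ⟨n - 1, by omega⟩
  have h1 := Cfsg.Agent.S0218.result m
  obtain ⟨hsub, ⟨⟨z0, hz0⟩⟩⟩ := Nat.card_eq_one_iff_unique.1 h1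
  have hN : 2 ≤ 2 ^ (m + 1) := by
    calc 2 = 2 ^ 1 := by norm_num
      _ ≤ 2 ^ (m + 1) := Nat.pow_le_pow_right (by norm_num) (by omega)
  refine Cfsg.Agent.H20.s3269_core
    (fun P t ht htP hiso => Cfsg.Agent.S0215.result P t ht htP hiso) S Q R hQS hRS hcomm hdisj hsup
    ((eQ.symm z0 : ↥Q) : G) (eQ.symm z0).2 ?_ ?_ ?_ hR
  · rw [Subgroup.orderOf_coe, eQ.symm.orderOf_eq]; exact hz0
  · intro y hy hy2
    have h2 : orderOf (eQ ⟨y, hy⟩) = 2 := by
      rw [eQ.orderOf_eq, Subgroup.orderOf_mk]; exact hy2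
    have h3 : (⟨eQ ⟨y, hy⟩, h2⟩ : {x : QuaternionGroup (2 ^ (m + 1)) // orderOf x = 2}) = ⟨z0, hz0⟩ :=
      hsub.elim _ _
    have h4 : eQ ⟨y, hy⟩ = z0 := congrArg Subtype.val h3
    rw [← h4, eQ.symm_apply_apply]
  · refine ⟨_, (eQ.symm (QuaternionGroup.a 1)).2, _, (eQ.symm (QuaternionGroup.xa 0)).2, ?_⟩
    intro h
    have h5 : eQ.symm (QuaternionGroup.a 1) * eQ.symm (QuaternionGroup.xa 0) =
        eQ.symm (QuaternionGroup.xa 0) * eQ.symm (QuaternionGroup.a 1) := Subtype.ext h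
    rw [← map_mul, ← map_mul] at h5
    have h6 := eQ.symm.injective h5
    rw [QuaternionGroup.a_mul_xa, QuaternionGroup.xa_mul_a, QuaternionGroup.xa.injEq] at h6
    have h7 : (2 : ZMod (2 * 2 ^ (m + 1))) = 0 := by
      have : (0 : ZMod (2 * 2 ^ (m + 1))) + 1 - (0 - 1) = 0 := by rw [h6]; ring
      calc (2 : ZMod (2 * 2 ^ (m + 1))) = 0 + 1 - (0 - 1) := by ring
        _ = 0 := this
    have h8 : ((2 : ℕ) : ZMod (2 * 2 ^ (m + 1))) = 0 := by exact_mod_cast h7
    rw [ZMod.natCast_eq_zero_iff] at h8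
    have := Nat.le_of_dvd (by norm_num) h8
    omega

end Cfsg.Agent.S3269
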