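import Cfsg.Statements.S3276
import Mathlib
import Cfsg.Agent.Lib.Helper8.Invol

set_option autoImplicit false
open Cfsg

namespace Cfsg.Agent.S3276

/-- Let x and y be commuting, non-conjugate involutions of a finite group G, and suppose that for every involution u commuting with x, each conjugate of y that commutes with u also commutes with y. Then the normal closure of y is a proper, normal, elementary abelian 2-subgroup of G; and if y is the only involution of that normal closure commuting with x, it has order at most 4. -/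
theorem result {G : Type*} [Group G] [Finite G] (x y : G) (hx : orderOf x = 2) (hy : orderOf y = 2)
    (hxy : Commute x y) (hnc : ¬ IsConj x y)
    (hstar : ∀ u : G, orderOf u = 2 → Commute u x → ∀ g : G, Commute (g * y * g⁻¹) u → Commute (g * y * g⁻¹) y) :
    Subgroup.normalClosure ({y} : Set G) ≠ ⊤ ∧ Cfsg.IsElementaryAbelian 2 (Subgroup.normalClosure ({y} : Set G)) ∧
      ((∀ u ∈ Subgroup.normalClosure ({y} : Set G), orderOf u = 2 → Commute u x → u = y) →
        Nat.card ↥(Subgroup.normalClosure ({y} : Set G)) ≤ 4) := by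
  classical
  haveI : Fact (Nat.Prime 2) := ⟨Nat.prime_two⟩
  have hxx : x * x = 1 := by
    have := pow_orderOf_eq_one x
    rwa [hx, pow_two] at this
  have hyy : y * y = 1 := by
    have := pow_orderOf_eq_one y
    rwa [hy, pow_two] at this
  have hx1 : x ≠ 1 := by
    intro h; rw [h, orderOf_one] at hx; omega
  -- every conjugate of y commutes with y
  have hc : ∀ g : G, Commute (g * y * g⁻¹) y := by
    intro g
    set t := g * y * g⁻¹ with ht
    have htt : t * t = 1 := by
      rw [ht]
      calc g * y * g⁻¹ * (g * y * g⁻¹) = g * (y * y) * g⁻¹ := by group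
        _ = 1 := by rw [hyy]; group
    have hn : 0 < orderOf (x * t) := orderOf_pos _
    rcases Nat.even_or_odd' (orderOf (x * t)) with ⟨k, hk | hk⟩
    · have hk0 : 0 < k := by omega
      have hpow : (x * t) ^ (2 * k) = 1 := by rw [← hk]; exact pow_orderOf_eq_one _
      have hu1 : (x * t) ^ k ≠ 1 := by
        intro h
        have := orderOf_le_of_pow_eq_one hk0 h
        omega
      have hu2 : orderOf ((x * t) ^ k) = 2 := by
        apply orderOf_eq_prime _ hu1
        rw [← pow_mul, mul_comm, hpow]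
      exact hstar _ hu2 (Cfsg.Agent.Lib.Helper8.commute_left_of_pow hxx htt hpow).symm g
        (Cfsg.Agent.Lib.Helper8.commute_right_of_pow hxx htt hpow)
    · exfalso
      have hpow : (x * t) ^ (2 * k + 1) = 1 := by rw [← hk]; exact pow_orderOf_eq_one _
      obtain ⟨h1, h2⟩ := Cfsg.Agent.Lib.Helper8.exists_invol_swap hxx htt hpow
      apply hnc
      set u := (x * t) ^ k * x with hu
      have huinv : u⁻¹ = u := inv_eq_of_mul_eq_one_left h1
      rw [isConj_iff]
      refine ⟨g⁻¹ * u, ?_⟩
      calc g⁻¹ * u * x * (g⁻¹ * u)⁻¹ = g⁻¹ * (u * x * u⁻¹) * g := by group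
        _ = g⁻¹ * t * g := by rw [huinv, h2]
        _ = y := by rw [ht]; group
  have hcc : ∀ a ∈ Group.conjugatesOfSet ({y} : Set G), ∀ b ∈ Group.conjugatesOfSet ({y} : Set G),
      a * b = b * a := by
    intro a ha b hb
    rw [Group.mem_conjugatesOfSet_iff] at ha hb
    obtain ⟨y1, hy1, ha⟩ := ha
    obtain ⟨y2, hy2, hb⟩ := hb
    rw [show y1 = y from hy1] at ha
    rw [show y2 = y from hy2] at hb
    obtain ⟨g, rfl⟩ := isConj_iff.mp ha
    obtain ⟨h, rfl⟩ := isConj_iff.mp hb
    have h1 := (hc (h⁻¹ * g)).eq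
    calc g * y * g⁻¹ * (h * y * h⁻¹) = h * ((h⁻¹ * g) * y * (h⁻¹ * g)⁻¹ * y) * h⁻¹ := by group
      _ = h * (y * ((h⁻¹ * g) * y * (h⁻¹ * g)⁻¹)) * h⁻¹ := by rw [h1]
      _ = h * y * h⁻¹ * (g * y * g⁻¹) := by group
  set Y := Subgroup.normalClosure ({y} : Set G) with hY
  have hYc : IsMulCommutative Y := Subgroup.isMulCommutative_closure hcc
  have hYcomm : ∀ a ∈ Y, ∀ b ∈ Y, a * b = b * a := by
    intro a ha b hb
    have := hYc.is_comm.comm ⟨a, ha⟩ ⟨b, hb⟩
    exact congrArg Subtype.val this
  have hY2 : ∀ a ∈ Y, a ^ 2 = 1 := by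
    intro a ha
    have : a ∈ Y ∧ a ^ 2 = 1 := by
      refine Subgroup.closure_induction (p := fun a _ => a ∈ Y ∧ a ^ 2 = 1) ?_ ?_ ?_ ?_ ha
      · intro z hz
        refine ⟨Subgroup.subset_closure hz, ?_⟩
        rw [Group.mem_conjugatesOfSet_iff] at hz
        obtain ⟨y1, hy1, hz⟩ := hz
        rw [show y1 = y from hy1] at hz
        obtain ⟨g, rfl⟩ := isConj_iff.mp hz
        rw [pow_two]
        calc g * y * g⁻¹ * (g * y * g⁻¹) = g * (y * y) * g⁻¹ := by group
          _ = 1 := by rw [hyy]; group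
      · exact ⟨Y.one_mem, one_pow 2⟩
      · rintro a b _ _ ⟨ha, ha2⟩ ⟨hb, hb2⟩
        refine ⟨Y.mul_mem ha hb, ?_⟩
        rw [(show Commute a b from hYcomm a ha b hb).mul_pow, ha2, hb2, one_mul]
      · rintro a _ ⟨ha, ha2⟩
        exact ⟨Y.inv_mem ha, by rw [inv_pow, ha2, inv_one]⟩
    exact this.2
  have hyY : y ∈ Y := Subgroup.subset_normalClosure (Set.mem_singleton y)
  refine ⟨?_, ⟨hYc, hY2⟩, ?_⟩
  · intro htop
    have hall : ∀ a b : G, a * b = b * a := fun a b =>
      hYcomm a (by rw [htop]; trivial) b (by rw [htop]; trivial)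
    haveI : (Subgroup.zpowers y).Normal := ⟨fun n hn g => by
      rw [hall g n, mul_assoc, mul_inv_cancel, mul_one]; exact hn⟩
    have hle : Y ≤ Subgroup.zpowers y :=
      Subgroup.normalClosure_le_normal (Set.singleton_subset_iff.mpr (Subgroup.mem_zpowers y))
    have hxz : x ∈ Subgroup.zpowers y := hle (by rw [htop]; trivial)
    obtain ⟨k, hk⟩ := (mem_powers_iff_mem_zpowers).mpr hxz
    have hk' : y ^ k = x := hk
    rw [← pow_mod_orderOf, hy] at hk'
    rcases Nat.mod_two_eq_zero_or_one k with h | h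
    · rw [h, pow_zero] at hk'
      exact hx1 hk'.symm
    · rw [h, pow_one] at hk'
      apply hnc
      rw [hk']
  · intro huniq
    haveI hYn : Y.Normal := Subgroup.normalClosure_normal
    have hself : ∀ v ∈ Y, v⁻¹ = v := by
      intro v hv
      apply inv_eq_of_mul_eq_one_left
      rw [← pow_two]; exact hY2 v hv
    have hfix : ∀ v ∈ Y, x * v * x⁻¹ = v → v = 1 ∨ v = y := by
      intro v hv hxv
      by_cases hv1 : v = 1
      · exact Or.inl hv1
      · right
        apply huniq v hv (orderOf_eq_prime (hY2 v hv) hv1)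
        show v * x = x * v
        calc v * x = (x * v * x⁻¹) * x := by rw [hxv]
          _ = x * v := by group
    let f : ↥Y →* ↥Y :=
      { toFun := fun v => ⟨(v : G) * (x * (v : G) * x⁻¹), Y.mul_mem v.2 (hYn.conj_mem _ v.2 x)⟩
        map_one' := by
          apply Subtype.ext
          simp
        map_mul' := by
          intro a b
          apply Subtype.ext
          have h1 := hYcomm b b.2 _ (hYn.conj_mem _ a.2 x)
          change ((a : G) * b) * (x * ((a : G) * b) * x⁻¹) =
            (a : G) * (x * (a : G) * x⁻¹) * ((b : G) * (x * (b : G) * x⁻¹))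
          calc ((a : G) * b) * (x * ((a : G) * b) * x⁻¹)
              = (a : G) * ((b : G) * (x * (a : G) * x⁻¹)) * (x * (b : G) * x⁻¹) := by group
            _ = (a : G) * (x * (a : G) * x⁻¹) * ((b : G) * (x * (b : G) * x⁻¹)) := by
              rw [h1]; group }
    have hsmall : ∀ K : Subgroup ↥Y, (∀ v ∈ K, (v : G) = 1 ∨ (v : G) = y) → Nat.card K ≤ 2 := by
      intro K hK
      have h1 : (K : Set ↥Y) ⊆ {1, ⟨y, hyY⟩} := by
        intro v hv
        rcases hK v hv with h | h
        · left; exact Subtype.ext h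
        · right; exact Subtype.ext h
      calc Nat.card K = (K : Set ↥Y).ncard := Nat.card_coe_set_eq _
        _ ≤ ({1, ⟨y, hyY⟩} : Set ↥Y).ncard := Set.ncard_le_ncard h1 (Set.toFinite _)
        _ ≤ ({⟨y, hyY⟩} : Set ↥Y).ncard + 1 := Set.ncard_insert_le _ _
        _ = 2 := by rw [Set.ncard_singleton]
    have hker : Nat.card f.ker ≤ 2 := by
      apply hsmall
      intro v hv
      rw [MonoidHom.mem_ker] at hv
      have h1 : (v : G) * (x * (v : G) * x⁻¹) = 1 := congrArg Subtype.val hv
      apply hfix v v.2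
      have h2 : x * (v : G) * x⁻¹ = (v : G)⁻¹ := (inv_eq_of_mul_eq_one_right h1).symm
      rw [h2, hself v v.2]
    have hran : Nat.card f.range ≤ 2 := by
      apply hsmall
      rintro _ ⟨w, rfl⟩
      apply hfix _ (f w).2
      change x * ((w : G) * (x * (w : G) * x⁻¹)) * x⁻¹ = (w : G) * (x * (w : G) * x⁻¹)
      have h1 := hYcomm w w.2 _ (hYn.conj_mem _ w.2 x)
      calc x * ((w : G) * (x * (w : G) * x⁻¹)) * x⁻¹
          = (x * (w : G) * x⁻¹) * ((x * x) * (w : G) * (x * x)⁻¹) := by group
        _ = (x * (w : G) * x⁻¹) * (w : G) := by rw [hxx]; group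
        _ = (w : G) * (x * (w : G) * x⁻¹) := h1.symm
    have h3 := f.ker.card_mul_index
    rw [Subgroup.index_ker] at h3
    rw [← h3]
    calc Nat.card f.ker * Nat.card f.range ≤ 2 * 2 := Nat.mul_le_mul hker hran
      _ = 4 := rfl

end Cfsg.Agent.S3276
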