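import Cfsg.Statements.S3279
import Mathlib
import Cfsg.Agent.S0215
import Cfsg.Agent.S0208
import Cfsg.Agent.S0209
import Cfsg.Agent.H20.ZStarCons
import Cfsg.Agent.H4.ThreeInv

set_option autoImplicit false
open Cfsg

namespace Cfsg.Agent.S3279

/-- Let G be a finite simple group and x an involution of G whose centralizer contains at most three involutions. Then C_G(x) contains a Sylow 2-subgroup of G, and all involutions of G are conjugate. -/
theorem result {G : Type*} [Group G] [Finite G] [IsSimpleGroup G] (x : G) (hx : orderOf x = 2)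
    (h3 : Nat.card {u : ↥(Subgroup.centralizer ({x} : Set G)) // orderOf u = 2} ≤ 3) :
    (∃ S : Sylow 2 G, (S : Subgroup G) ≤ Subgroup.centralizer ({x} : Set G)) ∧
      ∀ u v : G, orderOf u = 2 → orderOf v = 2 → IsConj u v := by
  classical
  haveI : Fact (Nat.Prime 2) := ⟨Nat.prime_two⟩
  have memC : ∀ g : G, g ∈ Subgroup.centralizer ({x} : Set G) ↔ Commute g x := by
    intro g
    rw [Subgroup.mem_centralizer_singleton_iff]
    exact Iff.rfl
  have hx1 : x ≠ 1 := Cfsg.Agent.H20.ne_one_of_orderOf_two hx
  have four := Cfsg.Agent.H4.four_false x h3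
  have oc : ∀ (g t : G), orderOf (g * t * g⁻¹) = orderOf t := Cfsg.Agent.H20.orderOf_conj'
  by_cases hcomm : ∀ a b : G, a * b = b * a
  · constructor
    · exact ⟨default, fun s _ => (memC s).2 (hcomm s x)⟩
    · intro u v hu hv
      have hn : (Subgroup.zpowers u).Normal :=
        ⟨fun n hn g => by rw [hcomm g n, mul_assoc, mul_inv_cancel, mul_one]; exact hn⟩
      have hu1 : u ≠ 1 := Cfsg.Agent.H20.ne_one_of_orderOf_two hu
      have hv1 : v ≠ 1 := Cfsg.Agent.H20.ne_one_of_orderOf_two hv
      have htop : Subgroup.zpowers u = ⊤ :=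
        (IsSimpleGroup.eq_bot_or_eq_top_of_normal _ hn).resolve_left
          (by simpa [Subgroup.zpowers_eq_bot] using hu1)
      have hv' : v ∈ Subgroup.zpowers u := htop ▸ Subgroup.mem_top v
      rw [mem_zpowers_iff_mem_range_orderOf, hu] at hv'
      simp only [Finset.mem_image, Finset.mem_range] at hv'
      obtain ⟨k, hk, rfl⟩ := hv'
      interval_cases k
      · simp at hv1
      · rw [pow_one]
  · have hcen : Subgroup.center G = ⊥ := by
      rcases IsSimpleGroup.eq_bot_or_eq_top_of_normal (Subgroup.center G) inferInstance with h | h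
      · exact h
      · exfalso
        apply hcomm
        intro a b
        have : a ∈ Subgroup.center G := h ▸ Subgroup.mem_top a
        exact (Subgroup.mem_center_iff.mp this b).symm
    have heven : Even (Nat.card G) := by
      have := orderOf_dvd_natCard x
      rw [hx] at this
      exact even_iff_two_dvd.mpr this
    have hA : ∃ S : Sylow 2 G, (S : Subgroup G) ≤ Subgroup.centralizer ({x} : Set G) := by
      by_contra hno
      push_neg at hno
      have hp : IsPGroup 2 (Subgroup.zpowers x) :=
        IsPGroup.of_card (n := 1) (by rw [Nat.card_zpowers, hx]; rfl)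
      obtain ⟨S, hS⟩ := hp.exists_le_sylow
      have hxS : x ∈ S := hS (Subgroup.mem_zpowers x)
      -- an element of `S` outside `C(x)` normalizing `C_S(x)`
      obtain ⟨g, hgS, hgC, hgx⟩ : ∃ g : G, g ∈ S ∧ ¬ Commute g x ∧ Commute (g * x * g⁻¹) x := by
        set Q : Subgroup ↥(S : Subgroup G) :=
          (Subgroup.centralizer ({x} : Set G)).subgroupOf (S : Subgroup G) with hQ
        have hQt : Q < ⊤ := by
          rw [lt_top_iff_ne_top]
          intro h
          rw [hQ, Subgroup.subgroupOf_eq_top] at h
          exact hno S h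
        haveI : Group.IsNilpotent ↥(S : Subgroup G) := S.isPGroup'.isNilpotent
        have hnc := Group.normalizerCondition_of_isNilpotent (G := ↥(S : Subgroup G)) Q hQt
        obtain ⟨g, hgN, hgQ⟩ := SetLike.exists_of_lt hnc
        refine ⟨(g : G), g.2, ?_, ?_⟩
        · intro h
          apply hgQ
          rw [hQ, Subgroup.mem_subgroupOf, memC]
          exact h
        · have hxQ : (⟨x, hxS⟩ : ↥(S : Subgroup G)) ∈ Q := by
            rw [hQ, Subgroup.mem_subgroupOf, memC]
          have := (Subgroup.mem_normalizer_iff.mp hgN ⟨x, hxS⟩).mp hxQ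
          rw [hQ, Subgroup.mem_subgroupOf, memC] at this
          exact this
      obtain ⟨u, hu, huS, huc⟩ := Cfsg.Agent.H20.exists_central_involution heven S
      set y := g * x * g⁻¹ with hy
      have hyo : orderOf y = 2 := by rw [hy, oc, hx]
      have hux : Commute u x := (huc x hxS).symm
      have hxy : x ≠ y := by
        intro h
        apply hgC
        have : g * x * g⁻¹ = x := h.symm
        exact (mul_inv_eq_iff_eq_mul.mp this)
      have hxu : x ≠ u := by
        intro h
        apply hno S
        intro s hs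
        rw [memC, h]
        exact huc s hs
      have hgu : g * u * g⁻¹ = u := by
        rw [huc g hgS, mul_assoc, mul_inv_cancel, mul_one]
      have hyu : y ≠ u := by
        intro h
        apply hxu
        have h1 : g * x * g⁻¹ = g * u * g⁻¹ := by rw [hgu]; exact h
        have h2 := mul_right_cancel h1
        exact mul_left_cancel h2
      have hnc : ¬ IsConj x u := by
        intro h
        obtain ⟨h0, hh⟩ := isConj_iff.mp h
        apply hno (h0⁻¹ • S)
        intro s' hs'
        rw [Sylow.coe_subgroup_smul] at hs'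
        obtain ⟨s, hs, rfl⟩ := hs'
        rw [memC]
        have hx' : x = h0⁻¹ * u * h0 := by rw [← hh]; group
        have hsu := huc s hs
        show (MulAut.conj h0⁻¹) s * x = x * (MulAut.conj h0⁻¹) s
        rw [MulAut.conj_apply, hx']
        have e1 : h0⁻¹ * s * h0⁻¹⁻¹ * (h0⁻¹ * u * h0) = h0⁻¹ * (s * u) * h0 := by group
        have e2 : h0⁻¹ * u * h0 * (h0⁻¹ * s * h0⁻¹⁻¹) = h0⁻¹ * (u * s) * h0 := by group
        rw [e1, e2, hsu]
      -- a conjugate of `u` commuting with `x` is `u`
      have L : ∀ k : G, Commute (k * u * k⁻¹) x → k * u * k⁻¹ = u := by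
        intro k hk
        by_contra hne
        refine four x y u (k * u * k⁻¹) hx hyo hu (by rw [oc, hu]) (Commute.refl x) hgx hux hk
          hxy hxu ?_ hyu ?_ (Ne.symm hne)
        · intro h
          exact hnc (isConj_iff.mpr ⟨k⁻¹, by rw [h]; group⟩)
        · intro h
          exact hnc (isConj_iff.mpr ⟨k⁻¹ * g, by
            have : (k⁻¹ * g) * x * (k⁻¹ * g)⁻¹ = k⁻¹ * (g * x * g⁻¹) * k := by group
            rw [this, ← hy, h]; group⟩)
      have M : ∀ k : G, Commute u (k * u * k⁻¹) := by
        intro k
        have hu' : orderOf (k * u * k⁻¹) = 2 := by rw [oc, hu]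
        rcases Nat.even_or_odd (orderOf (x * (k * u * k⁻¹))) with he | ho
        · obtain ⟨hc2, hcx, hcu⟩ := Cfsg.Agent.S0209.result x (k * u * k⁻¹) hx hu' he
          set c := (x * (k * u * k⁻¹)) ^ (orderOf (x * (k * u * k⁻¹)) / 2) with hc
          by_cases h1 : c = u
          · rw [h1] at hcu; exact hcu
          by_cases h2 : c = x
          · rw [h2] at hcu
            rw [L k hcu.symm]
          by_cases h3' : c = y
          · rw [h3'] at hcu
            have h4 : Commute ((g⁻¹ * k) * u * (g⁻¹ * k)⁻¹) x := by
              have e : (g⁻¹ * k) * u * (g⁻¹ * k)⁻¹ = g⁻¹ * (k * u * k⁻¹) * g := by group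
              rw [e]
              have h5 : y * (k * u * k⁻¹) = (k * u * k⁻¹) * y := hcu.eq
              show g⁻¹ * (k * u * k⁻¹) * g * x = x * (g⁻¹ * (k * u * k⁻¹) * g)
              have e1 : g⁻¹ * (k * u * k⁻¹) * g * x = g⁻¹ * ((k * u * k⁻¹) * (g * x * g⁻¹)) * g := by
                group
              have e2 : x * (g⁻¹ * (k * u * k⁻¹) * g) = g⁻¹ * ((g * x * g⁻¹) * (k * u * k⁻¹)) * g := by
                group
              rw [e1, e2, ← hy, h5]
            have h6 := L (g⁻¹ * k) h4
            have h7 : k * u * k⁻¹ = g * u * g⁻¹ := by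
              calc k * u * k⁻¹ = g * ((g⁻¹ * k) * u * (g⁻¹ * k)⁻¹) * g⁻¹ := by group
                _ = g * u * g⁻¹ := by rw [h6]
            rw [h7, hgu]
          · exact (four x y u c hx hyo hu hc2 (Commute.refl x) hgx hux hcx hxy hxu
              (Ne.symm h2) hyu (Ne.symm h3') (Ne.symm h1)).elim
        · obtain ⟨d, -, hd⟩ := Cfsg.Agent.S0208.result x (k * u * k⁻¹) hx hu' ho
          exact (hnc (isConj_iff.mpr ⟨k⁻¹ * d, by
            have : (k⁻¹ * d) * x * (k⁻¹ * d)⁻¹ = k⁻¹ * (d * x * d⁻¹) * k := by group
            rw [this, hd]; group⟩)).elim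
      have hu1 : u ≠ 1 := Cfsg.Agent.H20.ne_one_of_orderOf_two hu
      have hle : Subgroup.normalClosure ({u} : Set G) ≤ Subgroup.centralizer ({u} : Set G) := by
        show Subgroup.closure (Group.conjugatesOfSet ({u} : Set G)) ≤ _
        rw [Subgroup.closure_le]
        intro w hw
        rw [Group.mem_conjugatesOfSet_iff] at hw
        obtain ⟨b, hb, hbw⟩ := hw
        rw [Set.mem_singleton_iff] at hb
        subst hb
        obtain ⟨k, rfl⟩ := isConj_iff.mp hbw
        show _ ∈ Subgroup.centralizer ({b} : Set G)
        rw [Subgroup.mem_centralizer_singleton_iff]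
        exact (M k).symm.eq
      have htop : Subgroup.normalClosure ({u} : Set G) = ⊤ := by
        refine (IsSimpleGroup.eq_bot_or_eq_top_of_normal _ inferInstance).resolve_left ?_
        intro h
        have : u ∈ Subgroup.normalClosure ({u} : Set G) :=
          Subgroup.subset_normalClosure (Set.mem_singleton u)
        rw [h, Subgroup.mem_bot] at this
        exact hu1 this
      have hucen : u ∈ Subgroup.center G := by
        rw [Subgroup.mem_center_iff]
        intro a
        have : a ∈ Subgroup.centralizer ({u} : Set G) := hle (htop ▸ Subgroup.mem_top a)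
        rw [Subgroup.mem_centralizer_singleton_iff] at this
        exact this
      rw [hcen, Subgroup.mem_bot] at hucen
      exact hu1 hucen
    refine ⟨hA, ?_⟩
    obtain ⟨S, hSC⟩ := hA
    have hxS : x ∈ S := by
      have hp : IsPGroup 2 (Subgroup.zpowers x) :=
        IsPGroup.of_card (n := 1) (by rw [Nat.card_zpowers, hx]; rfl)
      have hle : (S : Subgroup G) ≤ Subgroup.normalizer ((Subgroup.zpowers x : Subgroup G) : Set G) := by
        intro s hs
        have hsx : Commute s x := (memC s).1 (hSC hs)
        rw [Subgroup.mem_normalizer_iff]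
        intro h
        have : ∀ h ∈ Subgroup.zpowers x, s * h * s⁻¹ = h := by
          intro h hh
          obtain ⟨n, rfl⟩ := Subgroup.mem_zpowers_iff.mp hh
          have := (hsx.zpow_right n).eq
          rw [this, mul_assoc, mul_inv_cancel, mul_one]
        constructor
        · intro hh
          rw [this h hh]; exact hh
        · intro hh
          have h2 := this _ hh
          have h3 : s * h * s⁻¹ = h := by
            have h4 : s * (s * h * s⁻¹) * s⁻¹ = s * h * s⁻¹ := h2
            have h5 := mul_right_cancel h4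
            exact mul_left_cancel h5
          rw [← h3]; exact hh
      have hsup := IsPGroup.to_sup_of_normal_right' S.isPGroup' hp hle
      have := S.is_maximal' hsup le_sup_left
      have hx2 : x ∈ (S : Subgroup G) ⊔ Subgroup.zpowers x :=
        (le_sup_right : Subgroup.zpowers x ≤ _) (Subgroup.mem_zpowers x)
      rw [this] at hx2
      exact hx2
    have Z : ∀ t ∈ S, orderOf t = 2 → ∃ g : G, g * t * g⁻¹ ∈ S ∧ g * t * g⁻¹ ≠ t := by
      intro t htS ht
      by_contra hcon
      push_neg at hcon
      obtain ⟨N, hN, hodd, hcm⟩ := Cfsg.Agent.S0215.result S t ht htS hcon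
      rcases IsSimpleGroup.eq_bot_or_eq_top_of_normal N hN with h | h
      · have htc : t ∈ Subgroup.center G := by
          rw [Subgroup.mem_center_iff]
          intro g
          have := hcm g
          rw [h, Subgroup.mem_bot] at this
          have h2 : t * g * t⁻¹ = g := mul_inv_eq_one.mp this
          exact (mul_inv_eq_iff_eq_mul.mp h2).symm
        rw [hcen, Subgroup.mem_bot] at htc
        exact Cfsg.Agent.H20.ne_one_of_orderOf_two ht htc
      · rw [h, Subgroup.card_top] at hodd
        exact (Nat.not_even_iff_odd.mpr hodd) heven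
    have key : ∀ t ∈ S, orderOf t = 2 → IsConj x t := by
      intro t htS ht
      by_contra hnc
      obtain ⟨g1, h1S, h1ne⟩ := Z x hxS hx
      obtain ⟨g2, h2S, h2ne⟩ := Z t htS ht
      refine four x (g1 * x * g1⁻¹) t (g2 * t * g2⁻¹) hx (by rw [oc, hx]) ht (by rw [oc, ht])
        (Commute.refl x) ((memC _).1 (hSC h1S)) ((memC _).1 (hSC htS)) ((memC _).1 (hSC h2S))
        (Ne.symm h1ne) ?_ ?_ ?_ ?_ (Ne.symm h2ne)
      · intro h; exact hnc (h ▸ IsConj.refl x)
      · intro h
        exact hnc (isConj_iff.mpr ⟨g2⁻¹, by rw [h]; group⟩)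
      · intro h
        exact hnc (isConj_iff.mpr ⟨g1, h⟩)
      · intro h
        exact hnc (isConj_iff.mpr ⟨g2⁻¹ * g1, by
          have : (g2⁻¹ * g1) * x * (g2⁻¹ * g1)⁻¹ = g2⁻¹ * (g1 * x * g1⁻¹) * g2 := by group
          rw [this, h]; group⟩)
    intro a b ha hb
    obtain ⟨k1, hk1⟩ := Cfsg.Agent.H4.exists_conj_mem_sylow_of_involution S a ha
    obtain ⟨k2, hk2⟩ := Cfsg.Agent.H4.exists_conj_mem_sylow_of_involution S b hb
    have h1 := key _ hk1 (by rw [oc, ha])
    have h2 := key _ hk2 (by rw [oc, hb])
    have h3 : IsConj a (k1 * a * k1⁻¹) := isConj_iff.mpr ⟨k1, rfl⟩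
    have h4 : IsConj b (k2 * b * k2⁻¹) := isConj_iff.mpr ⟨k2, rfl⟩
    exact (h3.trans h1.symm).trans (h2.trans h4.symm)

end Cfsg.Agent.S3279
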