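import Cfsg.Statements.S3303
import Mathlib
-- import your own Cfsg.Agent.* helpers here
import Cfsg.Agent.H5.SylConj
import Cfsg.Agent.H1.Fit
import Cfsg.Agent.H1.PLength
import Cfsg.Agent.Tr.Dihedral2

set_option autoImplicit false
open Cfsg

namespace Cfsg.Agent.S3303



/-- Let G be a finite solvable group in which the intersection of any two distinct Sylow 2-subgroups is cyclic. Then G/O(G) has a normal Sylow 2-subgroup, where O(G) is the largest normal subgroup of odd order. -/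
theorem result {G : Type*} [Group G] [Finite G] (hs : Group.IsSolvable G)
    (hC : ∀ S T : Sylow 2 G, S ≠ T → IsCyclic ↥((S : Subgroup G) ⊓ (T : Subgroup G))) :
    ∃ P : Sylow 2 (G ⧸ Cfsg.oddCore G), (P : Subgroup (G ⧸ Cfsg.oddCore G)).Normal := by
  classical
  haveI : Fact (Nat.Prime 2) := ⟨Nat.prime_two⟩
  set O := Cfsg.oddCore G with hO
  set π : G →* G ⧸ O := QuotientGroup.mk' O with hπdef
  have hπ : Function.Surjective π := QuotientGroup.mk'_surjective O
  haveI : Group.IsSolvable (G ⧸ O) := solvable_of_surjective hπ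
  have hcore : Cfsg.pPrimeCore 2 (G ⧸ O) = ⊥ := Cfsg.H1.pPrimeCore_quotient 2
  have hcent := Cfsg.H1.centralizer_pCore_le (G := G ⧸ O) 2 hcore
  set R := Cfsg.pCore 2 (G ⧸ O) with hR
  have hRn : R.Normal := Cfsg.H1.pCore_normal 2
  have hRp : IsPGroup 2 R := Cfsg.H1.pCore_isPGroup 2
  have hRle : ∀ P : Sylow 2 (G ⧸ O), R ≤ (P : Subgroup (G ⧸ O)) := by
    intro P
    rw [hR, Cfsg.H1.pCore_eq_iInf_sylow]
    exact iInf_le _ P
  by_cases hsub : Subsingleton (Sylow 2 (G ⧸ O))
  · exact ⟨default, Sylow.normal_of_subsingleton _⟩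
  exfalso
  apply hsub
  rw [not_subsingleton_iff_nontrivial] at hsub
  obtain ⟨S', T', hST⟩ := hsub
  obtain ⟨S, hS⟩ := Sylow.mapSurjective_surjective hπ 2 S'
  obtain ⟨T, hT⟩ := Sylow.mapSurjective_surjective hπ 2 T'
  have hS' : (S' : Subgroup (G ⧸ O)) = (S : Subgroup G).map π := by
    rw [← hS, Sylow.coe_mapSurjective]
  have hT' : (T' : Subgroup (G ⧸ O)) = (T : Subgroup G).map π := by
    rw [← hT, Sylow.coe_mapSurjective]
  -- lift of R inside S
  set R2 : Subgroup G := (S : Subgroup G) ⊓ R.comap π with hR2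
  have hR2map : R2.map π = R := by
    apply le_antisymm
    · rintro _ ⟨x, hx, rfl⟩
      exact hx.2
    · intro r hr
      have h1 := hRle S' hr
      rw [hS'] at h1
      obtain ⟨s, hs, rfl⟩ := h1
      exact ⟨s, ⟨hs, hr⟩, rfl⟩
  have hR2p : IsPGroup 2 R2 := S.2.to_le inf_le_left
  set M : Subgroup G := ((T : Subgroup G).map π).comap π with hM
  have hTM : (T : Subgroup G) ≤ M := Subgroup.le_comap_map _ _
  have hR2M : R2 ≤ M := by
    intro x hx
    show π x ∈ (T : Subgroup G).map π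
    rw [← hT']
    exact hRle T' hx.2
  obtain ⟨m, hmM, hm⟩ := Cfsg.Agent.H5SylConj.conj_into M T hTM R2 hR2M hR2p
  have hne : S ≠ m • T := by
    intro h
    apply hST
    apply Sylow.ext
    rw [hS', hT']
    have hmT : π m ∈ (T : Subgroup G).map π := hmM
    ext x
    constructor
    · rintro ⟨s, hs, rfl⟩
      have h1 : s ∈ ((m • T : Sylow 2 G) : Subgroup G) := h ▸ hs
      rw [Cfsg.Agent.H5SylConj.mem_smul_sylow] at h1
      have h2 : π (m⁻¹ * s * m) ∈ (T : Subgroup G).map π := Subgroup.mem_map_of_mem _ h1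
      have h3 : π s = π m * π (m⁻¹ * s * m) * (π m)⁻¹ := by
        simp only [map_mul, map_inv]; group
      rw [h3]
      exact Subgroup.mul_mem _ (Subgroup.mul_mem _ hmT h2) (Subgroup.inv_mem _ hmT)
    · rintro ⟨t, ht, rfl⟩
      obtain ⟨t0, ht0, ht0'⟩ := hmT
      -- π t = π (m * (t0⁻¹ * t * t0) * m⁻¹)
      have h1 : m * (t0⁻¹ * t * t0) * m⁻¹ ∈ (S : Subgroup G) := by
        rw [h, Cfsg.Agent.H5SylConj.mem_smul_sylow]
        have : m⁻¹ * (m * (t0⁻¹ * t * t0) * m⁻¹) * m = t0⁻¹ * t * t0 := by group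
        rw [this]
        exact Subgroup.mul_mem _ (Subgroup.mul_mem _ (Subgroup.inv_mem _ ht0) ht) ht0
      refine ⟨_, h1, ?_⟩
      simp only [map_mul, map_inv, ht0']
      group
  have hcyc := hC S (m • T) hne
  have hR2le : R2 ≤ (S : Subgroup G) ⊓ ((m • T : Sylow 2 G) : Subgroup G) := by
    intro x hx
    exact ⟨hx.1, (Cfsg.Agent.H5SylConj.mem_smul_sylow T m x).2 (hm x hx)⟩
  haveI hR2c : IsCyclic R2 := by
    haveI := hcyc
    exact isCyclic_of_injective (Subgroup.inclusion hR2le) (Subgroup.inclusion_injective hR2le)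
  have hRc : IsCyclic R := by
    rw [← hR2map]
    exact isCyclic_of_surjective (π.subgroupMap R2) (π.subgroupMap_surjective R2)
  -- odd order elements are trivial
  have hodd : ∀ g : G ⧸ O, (orderOf g).Coprime 2 → g = 1 := by
    intro g hg
    have h1 : g ∈ Subgroup.normalizer (R : Set (G ⧸ O)) := by
      rw [Subgroup.normalizer_eq_top]; trivial
    have h2 := hcent (Cfsg.Agent.Tr.Dih.centralizes_cyclic_two hRc hRp h1 hg)
    obtain ⟨k, hk⟩ := hRp ⟨g, h2⟩
    have h3 : g ^ 2 ^ k = 1 := by simpa using congrArg Subtype.val hk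
    have h4 : orderOf g ∣ 2 ^ k := orderOf_dvd_of_pow_eq_one h3
    have h5 : orderOf g = 1 := (Nat.Coprime.pow_right k hg).eq_one_of_dvd h4
    exact orderOf_eq_one_iff.1 h5
  have hQ2 : IsPGroup 2 (G ⧸ O) := by
    intro x
    obtain ⟨a, k, hk, hak⟩ := Nat.exists_eq_two_pow_mul_odd (orderOf_pos x).ne'
    refine ⟨a, ?_⟩
    apply hodd
    rw [orderOf_pow_of_dvd (by positivity) ⟨k, hak⟩, hak, Nat.mul_div_cancel_left _ (by positivity)]
    exact Nat.coprime_two_right.2 hk
  constructor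
  intro P1 P2
  apply Sylow.ext
  have h1 := P1.is_maximal' (hQ2.to_subgroup ⊤) le_top
  have h2 := P2.is_maximal' (hQ2.to_subgroup ⊤) le_top
  rw [← h1, ← h2]

end Cfsg.Agent.S3303
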