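import Mathlib
import Cfsg.Statements.S3305
-- import your own Cfsg.Agent.* helpers here

set_option autoImplicit false
open Cfsg

namespace Cfsg.Agent.S3305

theorem exists_sylow_ge_map_eq {G G' : Type*} [Group G] [Finite G] [Group G'] {p : ℕ} [Fact p.Prime]
    {f : G →* G'} (hf : Function.Surjective f) (P : Sylow p G') (R : Subgroup G) (hR : IsPGroup p R)
    (hRP : R.map f ≤ P) : ∃ Q : Sylow p G, R ≤ Q ∧ (Q : Subgroup G).map f = P := by
  have : Finite G' := Finite.of_surjective f hf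
  have hRE : R ≤ (P : Subgroup G').comap f := Subgroup.map_le_iff_le_comap.mp hRP
  obtain ⟨Q₀, hQ₀⟩ := (hR.comap_subtype (K := (P : Subgroup G').comap f)).exists_le_sylow
  let Q : Subgroup G := Q₀.map ((P : Subgroup G').comap f).subtype
  have hPQ : Q.map f ≤ P := Subgroup.map_le_iff_le_comap.mpr (Subgroup.map_subtype_le Q₀.1)
  have hpQ : IsPGroup p Q := Q₀.2.map ((P : Subgroup G').comap f).subtype
  have hQ : ¬ p ∣ Q.index := by
    rw [Subgroup.index_map_subtype Q₀.1, (P : Subgroup G').index_comap_of_surjective hf]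
    exact Nat.Prime.not_dvd_mul Fact.out Q₀.not_dvd_index P.not_dvd_index
  refine ⟨hpQ.toSylow hQ, ?_, ?_⟩
  · intro r hr
    show r ∈ Q
    exact ⟨⟨r, hRE hr⟩, hQ₀ (show (⟨r, hRE hr⟩ : ((P : Subgroup G').comap f)) ∈ R.comap _ from hr), rfl⟩
  · show Q.map f = P
    exact (((hpQ.map f).toSylow (fun h ↦ hQ (h.trans (Q.index_map_dvd hf)))).3 P.2 hPQ).symm

/-- If any two distinct Sylow 2-subgroups of the finite group G intersect in a cyclic group, then the same holds in every quotient group G/H, H a normal subgroup of G. -/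
theorem result {G : Type*} [Group G] [Finite G]
    (hC : ∀ S T : Sylow 2 G, S ≠ T → IsCyclic ↥((S : Subgroup G) ⊓ (T : Subgroup G))) (H : Subgroup G) [H.Normal] :
    ∀ S T : Sylow 2 (G ⧸ H), S ≠ T → IsCyclic ↥((S : Subgroup (G ⧸ H)) ⊓ (T : Subgroup (G ⧸ H))) := by
  intro S T hST
  have hf := QuotientGroup.mk'_surjective H
  obtain ⟨P, -, hP⟩ := exists_sylow_ge_map_eq hf S ⊥ IsPGroup.of_bot (by simp)
  have hR : IsPGroup 2 ↥((P : Subgroup G) ⊓ ((S : Subgroup (G ⧸ H)) ⊓ T).comap (QuotientGroup.mk' H)) :=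
    P.2.to_le inf_le_left
  obtain ⟨Q, hRQ, hQ⟩ := exists_sylow_ge_map_eq hf T _ hR (by
    rw [Subgroup.map_le_iff_le_comap]
    exact inf_le_right.trans (Subgroup.comap_mono inf_le_right))
  have hPQ : P ≠ Q := by
    rintro rfl
    exact hST (Sylow.ext (hP.symm.trans hQ))
  have hcyc := hC P Q hPQ
  have hmap : ((P : Subgroup G) ⊓ Q).map (QuotientGroup.mk' H) = (S : Subgroup (G ⧸ H)) ⊓ T := by
    apply le_antisymm
    · rw [← hP, ← hQ]; exact Subgroup.map_inf_le _ _ _
    · intro d hd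
      have hdS : d ∈ (P : Subgroup G).map (QuotientGroup.mk' H) := by rw [hP]; exact hd.1
      obtain ⟨x, hx, rfl⟩ := hdS
      exact ⟨x, ⟨hx, hRQ ⟨hx, hd⟩⟩, rfl⟩
  rw [← hmap]
  exact isCyclic_of_surjective _ ((QuotientGroup.mk' H).subgroupMap_surjective ((P : Subgroup G) ⊓ Q))

end Cfsg.Agent.S3305
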