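import Cfsg.Statements.S3349
-- import your own Cfsg.Agent.* helpers here

set_option autoImplicit false
open Cfsg

namespace Cfsg.Agent.S3349

open scoped commutatorElement

/-- Let Q be a finite extraspecial p-group and α an automorphism of Q fixing every element of some maximal abelian subgroup of Q. Then the order of α is a power of p. -/
theorem result {Q : Type*} [Group Q] [Finite Q]
    (p : ℕ) [Fact p.Prime] (hQ : Cfsg.IsExtraspecial p Q) (α : MulAut Q)
    (A : Subgroup Q) (hA : IsMulCommutative A) (hmax : ∀ B : Subgroup Q, A ≤ B → IsMulCommutative B → B = A)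
    (hfix : ∀ a ∈ A, α a = a) :
    ∃ k : ℕ, orderOf α = p ^ k := by
  obtain ⟨⟨hp, hfr, hcomm⟩, hcard⟩ := hQ
  have hAc : ∀ a ∈ A, ∀ b ∈ A, a * b = b * a := fun a ha b hb =>
    setLike_mul_comm ha hb
  have hCA : ∀ y : Q, (∀ a ∈ A, y * a = a * y) → y ∈ A := by
    intro y hy
    have hB : IsMulCommutative ↥(A ⊔ Subgroup.zpowers y) := by
      rw [← Subgroup.closure_eq A, Subgroup.zpowers_eq_closure, ← Subgroup.closure_union]
      apply Subgroup.isMulCommutative_closure
      rintro u (hu | hu) v (hv | hv)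
      · exact hAc u hu v hv
      · rw [Set.mem_singleton_iff] at hv; subst hv; exact (hy u hu).symm
      · rw [Set.mem_singleton_iff] at hu; subst hu; exact hy v hv
      · rw [Set.mem_singleton_iff] at hu hv; subst hu; subst hv; rfl
    have := hmax _ le_sup_left hB
    rw [← this]
    exact (le_sup_right : Subgroup.zpowers y ≤ _) (Subgroup.mem_zpowers y)
  have hZA : Subgroup.center Q ≤ A := by
    intro z hz
    apply hCA
    intro a _
    exact (Subgroup.mem_center_iff.mp hz a).symm
  have hy : ∀ x : Q, x⁻¹ * α x ∈ A := by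
    intro x
    apply hCA
    intro a ha
    have h1 : ⁅x, a⁆ ∈ A := by
      apply hZA
      rw [← hcomm, commutator_def]
      exact Subgroup.commutator_mem_commutator (Subgroup.mem_top x) (Subgroup.mem_top a)
    have h2 := hfix _ h1
    rw [commutatorElement_def] at h2
    simp only [map_mul, map_inv, hfix a ha] at h2
    have h3 : α x * a * (α x)⁻¹ = x * a * x⁻¹ := mul_right_cancel h2
    calc x⁻¹ * α x * a = x⁻¹ * (α x * a * (α x)⁻¹) * α x := by group
      _ = x⁻¹ * (x * a * x⁻¹) * α x := by rw [h3]
      _ = a * (x⁻¹ * α x) := by group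
  have hpow : ∀ (x : Q) (n : ℕ), (α ^ n) x = x * (x⁻¹ * α x) ^ n := by
    intro x n
    induction n with
    | zero => simp
    | succ n ih =>
      rw [pow_succ', MulAut.mul_apply, ih, map_mul, map_pow, hfix _ (hy x), pow_succ', ← mul_assoc,
        ← mul_assoc, mul_inv_cancel, one_mul]
  have hone : α ^ Nat.card Q = 1 := by
    ext x
    rw [hpow, pow_card_eq_one']
    simp
  obtain ⟨m, hm⟩ := IsPGroup.iff_card.mp hp
  have hdvd : orderOf α ∣ p ^ m := hm ▸ orderOf_dvd_of_pow_eq_one hone
  obtain ⟨k, -, hk⟩ := (Nat.dvd_prime_pow Fact.out).mp hdvd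
  exact ⟨k, hk⟩

end Cfsg.Agent.S3349
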