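import Cfsg.Statements.S3389
import Mathlib
-- import your own Cfsg.Agent.* helpers here
import Cfsg.Agent.H5.SylConj
import Cfsg.Agent.Lib.Helper22.AutBound

set_option autoImplicit false
open Cfsg

namespace Cfsg.Agent.S3389


open Cfsg.Agent.Lib.Helper22

theorem pgroup_fix {G : Type*} [Group G] {Ω : Type*} [Finite Ω] [MulAction G Ω] (p : ℕ)
    [hp : Fact p.Prime] (K : Subgroup G) (hK : IsPGroup p K) (Y : Set Ω)
    (hinv : ∀ u ∈ K, ∀ y ∈ Y, u • y ∈ Y) (hY : Nat.card Y < p) :
    ∀ y ∈ Y, ∀ u ∈ K, u • y = y := by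
  intro y hy u hu
  obtain ⟨n, hn⟩ := hK.card_orbit y
  have hsub : MulAction.orbit K y ⊆ Y := by
    rintro _ ⟨v, rfl⟩
    exact hinv v.1 v.2 y hy
  have hle : Nat.card (MulAction.orbit K y) ≤ Nat.card Y := Nat.card_mono (Set.toFinite Y) hsub
  have hn0 : n = 0 := by
    by_contra h
    have : p ≤ p ^ n := Nat.le_self_pow h p
    omega
  rw [hn0, pow_zero, Nat.card_eq_one_iff_unique] at hn
  have h1 := hn.1.elim ⟨(⟨u, hu⟩ : K) • y, MulAction.mem_orbit y _⟩ ⟨y, MulAction.mem_orbit_self y⟩
  exact congrArg Subtype.val h1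

theorem swap_even {G : Type*} [Group G] [Finite G] {Ω : Type*} [MulAction G Ω] (w : G) (a b : Ω)
    (hab : a ≠ b) (h1 : w • a = b) (h2 : w • b = a) : 2 ∣ Nat.card G := by
  apply Dvd.dvd.trans _ (orderOf_dvd_natCard w)
  by_contra hodd
  obtain ⟨m, hm⟩ : Odd (orderOf w) := Nat.not_even_iff_odd.1 (fun h => hodd h.two_dvd)
  have h3 : w ^ 2 ∈ MulAction.stabilizer G a := by
    rw [MulAction.mem_stabilizer_iff, pow_two, mul_smul, h1, h2]
  have h4 : (w ^ 2) ^ m ∈ MulAction.stabilizer G a := Subgroup.pow_mem _ h3 m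
  rw [MulAction.mem_stabilizer_iff] at h4
  have h5 : w ^ (2 * m + 1) = 1 := by rw [← hm, pow_orderOf_eq_one]
  have h6 : w ^ (2 * m + 1) • a = b := by
    rw [pow_succ', pow_mul, mul_smul, h4, h1]
  rw [h5, one_smul] at h6
  exact hab h6


/-- Let G be a finite group acting faithfully and transitively on a finite set Ω with fixity k ≥ 1: every non-identity element fixes at most k points and some non-identity element fixes exactly k points. Then |Z(G)| divides k; if k = 2 then |G| is even; and for every prime p > k dividing |G| and every point α, either p does not divide |G_α| or G_α contains a Sylow p-subgroup of G. -/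
theorem result {G : Type*} [Group G] [Finite G] {Ω : Type*} [Fintype Ω] [MulAction G Ω] [FaithfulSMul G Ω]
    (htr : MulAction.IsPretransitive G Ω) (k : ℕ) (hk : 1 ≤ k)
    (hfix : ∀ g : G, g ≠ 1 → Nat.card (MulAction.fixedBy Ω g) ≤ k) (hex : ∃ g : G, g ≠ 1 ∧ Nat.card (MulAction.fixedBy Ω g) = k) :
    Nat.card (Subgroup.center G) ∣ k ∧ (k = 2 → 2 ∣ Nat.card G) ∧
      ∀ (p : ℕ), p.Prime → k < p → p ∣ Nat.card G → ∀ α : Ω,
        ¬ p ∣ Nat.card (MulAction.stabilizer G α) ∨ ¬ p ∣ (MulAction.stabilizer G α).index := by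
  classical
  have hci : ∀ (x u : G), Commute u x → ∀ y : Ω, x • y = y → x • (u • y) = u • y := by
    intro x u h y hy
    rw [← mul_smul, ← h.eq, mul_smul, hy]
  refine ⟨?_, ?_, ?_⟩
  · obtain ⟨g, hg1, hgk⟩ := hex
    rw [← hgk]
    apply card_dvd_of_free_on_set (A := Subgroup.center G) (X := Ω) (MulAction.fixedBy Ω g)
    · intro z y hy
      rw [MulAction.mem_fixedBy] at hy ⊢
      exact hci g z ((Subgroup.mem_center_iff.1 z.2 g).symm) y hy
    · intro z y _ hzy
      apply Subtype.ext
      apply FaithfulSMul.eq_of_smul_eq_smul (α := Ω)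
      intro w
      obtain ⟨h, rfl⟩ := MulAction.exists_smul_eq G y w
      have h1 : (z : G) • y = y := hzy
      show (z : G) • h • y = (1 : G) • h • y
      rw [one_smul, ← mul_smul, ← Subgroup.mem_center_iff.1 z.2 h, mul_smul, h1]
  · rintro rfl
    by_contra h2
    obtain ⟨g, hg1, hgk⟩ := hex
    -- three fixed points are impossible
    have hF : ∀ x : G, x ≠ 1 → ∀ a b c : Ω, a ≠ b → x • a = a → x • b = b → x • c = c → c = a ∨ c = b := by
      intro x hx a b c hab ha hb hc
      by_contra hcon
      push_neg at hcon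
      have h3 : ({a, b, c} : Set Ω) ⊆ MulAction.fixedBy Ω x := by
        rintro y (rfl | rfl | rfl)
        · exact ha
        · exact hb
        · exact hc
      have h4 := Nat.card_mono (Set.toFinite _) h3
      have h5 : Nat.card ({a, b, c} : Set Ω) = 3 := by
        rw [Nat.card_coe_set_eq, Set.ncard_eq_three]
        exact ⟨a, b, c, hab, hcon.1.symm, hcon.2.symm, rfl⟩
      have := hfix x hx
      omega
    obtain ⟨⟨a, ha⟩, ⟨b, hb⟩, hab, -⟩ := Nat.card_eq_two_iff.1 hgk
    have hab' : a ≠ b := fun h => hab (Subtype.ext h)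
    rw [MulAction.mem_fixedBy] at ha hb
    -- element of prime order
    obtain ⟨p, hp, hpg⟩ := Nat.exists_prime_and_dvd (show orderOf g ≠ 1 by rwa [Ne, orderOf_eq_one_iff])
    haveI : Fact p.Prime := ⟨hp⟩
    set g0 := g ^ (orderOf g / p) with hg0
    have hog0 : orderOf g0 = p := orderOf_pow_orderOf_div (orderOf_pos g).ne' hpg
    have hg01 : g0 ≠ 1 := by
      intro h
      rw [h, orderOf_one] at hog0
      exact hp.one_lt.ne hog0
    have hg0a : g0 • a = a := by
      have : g0 ∈ MulAction.stabilizer G a := Subgroup.pow_mem _ (MulAction.mem_stabilizer_iff.2 ha) _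
      exact this
    have hg0b : g0 • b = b := by
      have : g0 ∈ MulAction.stabilizer G b := Subgroup.pow_mem _ (MulAction.mem_stabilizer_iff.2 hb) _
      exact this
    -- commuting elements fix both points
    have hcf : ∀ x : G, x ≠ 1 → x • a = a → x • b = b → ∀ u : G, Commute u x → u • a = a ∧ u • b = b := by
      intro x hx hxa hxb u hu
      have h3 := hF x hx a b (u • a) hab' hxa hxb (hci x u hu a hxa)
      have h4 := hF x hx a b (u • b) hab' hxa hxb (hci x u hu b hxb)
      have hne : u • a ≠ u • b := fun h => hab' (MulAction.injective u h)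
      rcases h3 with h3 | h3 <;> rcases h4 with h4 | h4
      · exact absurd (h3.trans h4.symm) hne
      · exact ⟨h3, h4⟩
      · exact absurd (swap_even u a b hab' h3 h4) h2
      · exact absurd (h3.trans h4.symm) hne
    have hpz : IsPGroup p (Subgroup.zpowers g0) :=
      IsPGroup.of_card (n := 1) (by rw [Nat.card_zpowers, hog0, pow_one])
    obtain ⟨P, hP⟩ := hpz.exists_le_sylow
    have hg0P : g0 ∈ (P : Subgroup G) := hP (Subgroup.mem_zpowers g0)
    haveI : Nontrivial (P : Subgroup G) := ⟨⟨⟨g0, hg0P⟩, 1, fun h => hg01 (congrArg Subtype.val h)⟩⟩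
    haveI : Nontrivial (Subgroup.center (P : Subgroup G)) := IsPGroup.center_nontrivial P.2
    obtain ⟨z, hz1⟩ := exists_ne (1 : Subgroup.center (P : Subgroup G))
    have hzc : ∀ u ∈ (P : Subgroup G), Commute u ((z : (P : Subgroup G)) : G) := by
      intro u hu
      have := Subgroup.mem_center_iff.1 z.2 ⟨u, hu⟩
      exact congrArg Subtype.val this
    have hz1' : ((z : (P : Subgroup G)) : G) ≠ 1 := by
      intro h
      apply hz1
      apply Subtype.ext
      apply Subtype.ext
      exact h
    have hzab := hcf g0 hg01 hg0a hg0b _ (hzc g0 hg0P).symm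
    have hPab : ∀ u ∈ (P : Subgroup G), u • a = a ∧ u • b = b := fun u hu =>
      hcf _ hz1' hzab.1 hzab.2 u (hzc u hu)
    obtain ⟨y, hy⟩ := MulAction.exists_smul_eq G b a
    set r := y * g0 * y⁻¹ with hr
    have hr1 : r ≠ 1 := by
      intro h
      apply hg01
      rwa [hr, conj_eq_one_iff] at h
    have hra : r • a = a := by
      rw [hr, mul_smul, mul_smul, ← hy, inv_smul_smul, hg0b]
    have hrc : r • (y • a) = y • a := by
      rw [hr, mul_smul, mul_smul, inv_smul_smul, hg0a]
    have hor : orderOf r = p := by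
      rw [← hog0]
      exact orderOf_injective (MulAut.conj y).toMonoidHom (MulAut.conj y).injective g0
    have hpr : IsPGroup p (Subgroup.zpowers r) :=
      IsPGroup.of_card (n := 1) (by rw [Nat.card_zpowers, hor, pow_one])
    obtain ⟨m, hm, hmr⟩ := Cfsg.Agent.H5SylConj.conj_into (MulAction.stabilizer G a) P
      (fun u hu => MulAction.mem_stabilizer_iff.2 (hPab u hu).1) (Subgroup.zpowers r)
      (by rw [Subgroup.zpowers_le]; exact MulAction.mem_stabilizer_iff.2 hra) hpr
    rw [MulAction.mem_stabilizer_iff] at hm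
    have h5 := (hPab _ (hmr r (Subgroup.mem_zpowers r))).2
    have h6 : r • (m • b) = m • b := by
      rw [mul_smul, mul_smul, inv_smul_eq_iff] at h5
      exact h5
    have hya : y • a ≠ a := by
      intro h
      apply hab'
      apply MulAction.injective y
      show y • a = y • b
      rw [h, hy]
    have h7 := hF r hr1 a (y • a) (m • b) hya.symm hra hrc h6
    have hmb : m • b ≠ a := by
      intro h
      apply hab'
      apply MulAction.injective m
      show m • a = m • b
      rw [h, hm]
    have h8 : m • b = y • a := h7.resolve_left hmb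
    apply h2
    apply swap_even (m⁻¹ * y) a b hab'
    · rw [mul_smul, ← h8, inv_smul_smul]
    · rw [mul_smul, hy, inv_smul_eq_iff, hm]
  · intro p hp hkp hpG α
    haveI : Fact p.Prime := ⟨hp⟩
    by_cases hpa : p ∣ Nat.card (MulAction.stabilizer G α)
    · right
      obtain ⟨⟨x, hxa⟩, hx⟩ := exists_prime_orderOf_dvd_card' (G := MulAction.stabilizer G α) p hpa
      rw [Subgroup.orderOf_mk] at hx
      rw [MulAction.mem_stabilizer_iff] at hxa
      have hx1 : x ≠ 1 := by
        intro h
        rw [h, orderOf_one] at hx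
        exact hp.one_lt.ne hx
      have hpz : IsPGroup p (Subgroup.zpowers x) :=
        IsPGroup.of_card (n := 1) (by rw [Nat.card_zpowers, hx, pow_one])
      obtain ⟨P, hP⟩ := hpz.exists_le_sylow
      have hxP : x ∈ (P : Subgroup G) := hP (Subgroup.mem_zpowers x)
      haveI : Nontrivial (P : Subgroup G) := ⟨⟨⟨x, hxP⟩, 1, fun h => hx1 (congrArg Subtype.val h)⟩⟩
      haveI : Nontrivial (Subgroup.center (P : Subgroup G)) := IsPGroup.center_nontrivial P.2
      obtain ⟨z, hz1⟩ := exists_ne (1 : Subgroup.center (P : Subgroup G))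
      have hzc : ∀ u ∈ (P : Subgroup G), Commute u ((z : (P : Subgroup G)) : G) := by
        intro u hu
        have := Subgroup.mem_center_iff.1 z.2 ⟨u, hu⟩
        exact congrArg Subtype.val this
      have hz1' : ((z : (P : Subgroup G)) : G) ≠ 1 := by
        intro h
        apply hz1
        apply Subtype.ext
        apply Subtype.ext
        exact h
      have hzP : ((z : (P : Subgroup G)) : G) ∈ (P : Subgroup G) := (z : (P : Subgroup G)).2
      have hza : ((z : (P : Subgroup G)) : G) • α = α := by
        apply pgroup_fix p (Subgroup.zpowers ((z : (P : Subgroup G)) : G))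
          (P.2.to_le (by rw [Subgroup.zpowers_le]; exact hzP)) (MulAction.fixedBy Ω x) _
          (lt_of_le_of_lt (hfix x hx1) hkp) α hxa _ (Subgroup.mem_zpowers _)
        rintro u ⟨j, rfl⟩ y hy
        exact hci x _ ((hzc x hxP).symm.zpow_left j) y hy
      have hPa : (P : Subgroup G) ≤ MulAction.stabilizer G α := by
        intro u hu
        rw [MulAction.mem_stabilizer_iff]
        apply pgroup_fix p (P : Subgroup G) P.2 (MulAction.fixedBy Ω ((z : (P : Subgroup G)) : G)) _
          (lt_of_le_of_lt (hfix _ hz1') hkp) α hza u hu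
        intro v hv y hy
        exact hci _ v (hzc v hv) y hy
      intro hdiv
      exact P.not_dvd_index (hdiv.trans (Subgroup.index_dvd_of_le hPa))
    · left; exact hpa

end Cfsg.Agent.S3389
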