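import Mathlib
import Cfsg.Statements.S3495
import Cfsg.Agent.Lib.Helper19.Manning
-- import your own Cfsg.Agent.* helpers here

set_option autoImplicit false
open Cfsg

namespace Cfsg.Agent.S3495

/-- Let a finite group G act faithfully and primitively on a finite set Ω with non-trivial point stabilizers, each acting primitively on every one of its orbits (an extremely primitive group), and suppose G has an elementary abelian normal p-subgroup N acting regularly on Ω (affine type). Then every non-trivial subgroup M of a point stabilizer G_α that is normal in G_α has the same orbits on Ω as G_α, and normalizes no subgroup of N other than 1 and N. -/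
theorem result {G : Type*} [Group G] [Finite G] {Ω : Type*} [Fintype Ω] [MulAction G Ω] [FaithfulSMul G Ω] (hprim : MulAction.IsPreprimitive G Ω) (hH : ∀ α : Ω, MulAction.stabilizer G α ≠ ⊥) (hep : ∀ (α : Ω) (ω : Ω), MulAction.IsPreprimitive (MulAction.stabilizer G α) (MulAction.orbit (MulAction.stabilizer G α) ω))
    (N : Subgroup G) [N.Normal] (hNc : IsMulCommutative N) (p : ℕ) (hp : p.Prime) (hNp : ∀ n ∈ N, n ^ p = 1)
    (hNtr : MulAction.IsPretransitive N Ω) (hNreg : ∀ ω : Ω, MulAction.stabilizer N ω = ⊥) (α : Ω) (M : Subgroup G) (hM : M ≠ ⊥) (hMle : M ≤ MulAction.stabilizer G α)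
    (hMn : MulAction.stabilizer G α ≤ Subgroup.normalizer (M : Set G)) :
    (∀ ω : Ω, MulAction.orbit M ω = MulAction.orbit (MulAction.stabilizer G α) ω) ∧
    (∀ L : Subgroup G, L ≤ N → M ≤ Subgroup.normalizer (L : Set G) → L = ⊥ ∨ L = N) := by
  have hreg : ∀ x ∈ N, x • α = α → x = 1 := by
    intro x hx hxα
    have h1 : (⟨x, hx⟩ : N) ∈ MulAction.stabilizer N α := hxα
    rw [hNreg α, Subgroup.mem_bot] at h1
    exact congrArg Subtype.val h1
  have horb : ∀ ω : Ω, ∀ a ∈ MulAction.stabilizer G α, ∃ m ∈ M, m • ω = a • ω := by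
    intro ω a ha
    by_cases hω : ω = α
    · subst hω
      exact ⟨1, one_mem _, by rw [one_smul]; exact (show a • ω = ω from ha).symm⟩
    haveI := hep α ω
    haveI : (M.subgroupOf (MulAction.stabilizer G α)).Normal :=
      (Subgroup.normal_subgroupOf_iff_le_normalizer hMle).mpr hMn
    have hnf : MulAction.fixedPoints (M.subgroupOf (MulAction.stabilizer G α))
        (MulAction.orbit (MulAction.stabilizer G α) ω) ≠ Set.univ := by
      intro h1
      apply hM
      rw [eq_bot_iff]
      intro m hm
      rw [Subgroup.mem_bot]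
      apply Cfsg.Agent.Lib.Helper19.manning hprim hH hep α ω hω m (hMle hm)
      intro b hb
      have h2 : (⟨b • ω, ⟨⟨b, hb⟩, rfl⟩⟩ : MulAction.orbit (MulAction.stabilizer G α) ω) ∈
          MulAction.fixedPoints (M.subgroupOf (MulAction.stabilizer G α))
            (MulAction.orbit (MulAction.stabilizer G α) ω) := by
        rw [h1]; trivial
      have h3 := h2 ⟨⟨m, hMle hm⟩, hm⟩
      exact congrArg Subtype.val h3
    haveI := MulAction.IsQuasiPreprimitive.isPretransitive_of_normal
      (G := MulAction.stabilizer G α) (X := MulAction.orbit (MulAction.stabilizer G α) ω) hnf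
    obtain ⟨k, hk⟩ := MulAction.exists_smul_eq (M.subgroupOf (MulAction.stabilizer G α))
      (⟨ω, MulAction.mem_orbit_self ω⟩ : MulAction.orbit (MulAction.stabilizer G α) ω)
      ⟨a • ω, ⟨⟨a, ha⟩, rfl⟩⟩
    exact ⟨k.1.1, k.2, congrArg Subtype.val hk⟩
  refine ⟨fun ω => ?_, fun L hLN hML => ?_⟩
  · ext u
    constructor
    · rintro ⟨⟨m, hm⟩, rfl⟩
      exact ⟨⟨m, hMle hm⟩, rfl⟩
    · rintro ⟨⟨a, ha⟩, rfl⟩
      obtain ⟨m, hm, h1⟩ := horb ω a ha
      exact ⟨⟨m, hm⟩, h1⟩
  · have hAL : ∀ a ∈ MulAction.stabilizer G α, ∀ l ∈ L, a * l * a⁻¹ ∈ L := by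
      intro a ha l hl
      obtain ⟨m, hm, h1⟩ := horb (l • α) a ha
      have h2 : m * l * m⁻¹ ∈ L := (Subgroup.mem_normalizer_iff.mp (hML hm) l).mp hl
      have hmα : m⁻¹ • α = α := by
        rw [inv_smul_eq_iff]; exact (show m • α = α from hMle hm).symm
      have haα : a⁻¹ • α = α := by
        rw [inv_smul_eq_iff]; exact (show a • α = α from ha).symm
      have h3 : (m * l * m⁻¹)⁻¹ * (a * l * a⁻¹) = 1 := by
        apply hreg
        · exact mul_mem (inv_mem (hLN h2)) (‹N.Normal›.conj_mem l (hLN hl) a)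
        · rw [mul_smul, inv_smul_eq_iff, mul_smul, mul_smul, mul_smul, mul_smul, haα, hmα, h1]
      rw [inv_mul_eq_one] at h3
      rw [← h3]; exact h2
    have hNL : ∀ n ∈ N, ∀ l ∈ L, n * l * n⁻¹ ∈ L := by
      intro n hn l hl
      have h1 : n * l = l * n := by
        have := mul_comm' (⟨n, hn⟩ : N) ⟨l, hLN hl⟩
        exact congrArg Subtype.val this
      rw [h1, mul_inv_cancel_right]; exact hl
    haveI hLnorm : L.Normal := by
      constructor
      intro l hl g
      obtain ⟨n, hn⟩ := MulAction.exists_smul_eq N α (g • α)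
      have h1 : (n : G)⁻¹ * g ∈ MulAction.stabilizer G α := by
        rw [MulAction.mem_stabilizer_iff, mul_smul, inv_smul_eq_iff]
        exact hn.symm
      have h2 := hNL n n.2 _ (hAL _ h1 l hl)
      have h3 : (n : G) * ((n : G)⁻¹ * g * l * ((n : G)⁻¹ * g)⁻¹) * (n : G)⁻¹ = g * l * g⁻¹ := by group
      rw [h3] at h2; exact h2
    by_cases hf : MulAction.fixedPoints L Ω = Set.univ
    · left
      rw [eq_bot_iff]
      intro l hl
      rw [Subgroup.mem_bot]
      apply FaithfulSMul.eq_of_smul_eq_smul (α := Ω)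
      intro γ
      have h1 : γ ∈ MulAction.fixedPoints L Ω := by rw [hf]; trivial
      rw [one_smul]
      exact h1 ⟨l, hl⟩
    · right
      haveI := MulAction.IsQuasiPreprimitive.isPretransitive_of_normal (G := G) (X := Ω) hf
      apply le_antisymm hLN
      intro n hn
      obtain ⟨l, hl⟩ := MulAction.exists_smul_eq L α (n • α)
      have h1 : (l : G)⁻¹ * n = 1 := by
        apply hreg
        · exact mul_mem (inv_mem (hLN l.2)) hn
        · rw [mul_smul, inv_smul_eq_iff]; exact hl.symm
      rw [inv_mul_eq_one] at h1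
      rw [← h1]; exact l.2

end Cfsg.Agent.S3495
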