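import Cfsg.Statements.S3504
import Mathlib
-- import your own Cfsg.Agent.* helpers here

set_option autoImplicit false
open Cfsg

namespace Cfsg.Agent.S3504

theorem exists_fpf (n r : ℕ) (hr : r.Prime) (hrn : r ∣ n) (hn : 0 < n) :
    ∃ g : Equiv.Perm (Fin n), orderOf g = r ∧ ∀ i, g i ≠ i := by
  classical
  obtain ⟨k, rfl⟩ := hrn
  have hk : 0 < k := Nat.pos_of_mul_pos_left hn
  obtain ⟨g, hg⟩ := (Equiv.Perm.exists_with_cycleType_iff (α := Fin (r * k))
    (m := Multiset.replicate k r)).2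
    ⟨by simp [mul_comm], fun a ha => by rw [Multiset.eq_of_mem_replicate ha]; exact hr.two_le⟩
  refine ⟨g, ?_, ?_⟩
  · rw [← Equiv.Perm.lcm_cycleType, hg]
    apply Nat.dvd_antisymm
    · rw [Multiset.lcm_dvd]
      intro b hb
      rw [Multiset.eq_of_mem_replicate hb]
    · apply Multiset.dvd_lcm
      rw [Multiset.mem_replicate]
      exact ⟨hk.ne', rfl⟩
  · have h1 : g.support.card = r * k := by
      rw [← Equiv.Perm.sum_cycleType, hg, Multiset.sum_replicate, smul_eq_mul, mul_comm]
    have h2 : g.support = Finset.univ := by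
      apply Finset.eq_univ_of_card
      rw [h1, Fintype.card_fin]
    intro i
    rw [← Equiv.Perm.mem_support, h2]
    exact Finset.mem_univ i


/-- For n ≥ 5, the fixed-point-free permutations of prime order in the symmetric group of degree n form a single conjugacy class if and only if n is a prime power. -/
theorem result (n : ℕ) (hn : 5 ≤ n) :
    Nat.card {c : ConjClasses (Equiv.Perm (Fin n)) // ∃ g : Equiv.Perm (Fin n), ConjClasses.mk g = c ∧ (orderOf g).Prime ∧ ∀ i : Fin n, g i ≠ i} = 1 ↔ IsPrimePow n := by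
  classical
  rw [isPrimePow_iff_unique_prime_dvd]
  have hmp : n.minFac.Prime := Nat.minFac_prime (by omega)
  constructor
  · intro h
    rw [Nat.card_eq_one_iff_unique] at h
    obtain ⟨hsub, hne⟩ := h
    refine ⟨n.minFac, ⟨hmp, Nat.minFac_dvd n⟩, ?_⟩
    rintro q ⟨hq, hqn⟩
    obtain ⟨g1, ho1, hf1⟩ := exists_fpf n q hq hqn (by omega)
    obtain ⟨g2, ho2, hf2⟩ := exists_fpf n n.minFac hmp (Nat.minFac_dvd n) (by omega)
    have := hsub.elim ⟨ConjClasses.mk g1, g1, rfl, ho1 ▸ hq, hf1⟩
      ⟨ConjClasses.mk g2, g2, rfl, ho2.symm ▸ hmp, hf2⟩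
    have h2 : IsConj g1 g2 := ConjClasses.mk_eq_mk_iff_isConj.1 (congrArg Subtype.val this)
    rw [Equiv.Perm.isConj_iff_cycleType_eq] at h2
    rw [← ho1, ← ho2, ← Equiv.Perm.lcm_cycleType, h2, Equiv.Perm.lcm_cycleType]
  · rintro ⟨r, ⟨hr, hrn⟩, huniq⟩
    rw [Nat.card_eq_one_iff_unique]
    constructor
    · constructor
      have key : ∀ g : Equiv.Perm (Fin n), (orderOf g).Prime → (∀ i, g i ≠ i) →
          g.cycleType = Multiset.replicate (n / r) r := by
        intro g hp hf
        obtain ⟨k, hk⟩ := Equiv.Perm.cycleType_prime_order hp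
        have hsum : g.cycleType.sum = n := by
          rw [Equiv.Perm.sum_cycleType]
          have : g.support = Finset.univ := by ext i; simp [hf i]
          rw [this]; simp
        rw [hk, Multiset.sum_replicate, smul_eq_mul] at hsum
        have hq : orderOf g = r := huniq _ ⟨hp, ⟨k + 1, by rw [mul_comm]; exact hsum.symm⟩⟩
        rw [hq] at hsum
        rw [hk, hq]
        congr 1
        exact (Nat.div_eq_of_eq_mul_left hr.pos hsum.symm).symm
      rintro ⟨c1, g1, rfl, hp1, hf1⟩ ⟨c2, g2, rfl, hp2, hf2⟩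
      apply Subtype.ext
      show ConjClasses.mk g1 = ConjClasses.mk g2
      rw [ConjClasses.mk_eq_mk_iff_isConj, Equiv.Perm.isConj_iff_cycleType_eq]
      rw [key g1 hp1 hf1, key g2 hp2 hf2]
    · obtain ⟨g, ho, hf⟩ := exists_fpf n r hr hrn (by omega)
      exact ⟨⟨ConjClasses.mk g, g, rfl, ho.symm ▸ hr, hf⟩⟩

end Cfsg.Agent.S3504
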