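import Cfsg.Statements.S3508


set_option autoImplicit false
open Cfsg

namespace Cfsg.Agent.S3508


open Polynomial in
theorem lin_key (p : ℕ) [Fact p.Prime] {V : Type*} [AddCommGroup V] [Module (ZMod p) V]
    [FiniteDimensional (ZMod p) V]
    (T : Module.End (ZMod p) V) (r : ℕ) (hT : T ^ (p ^ r) = 1) (j : ℕ)
    (hj : Module.finrank (ZMod p) V < p ^ j) :
    T ^ (p ^ j) = 1 ∧ ∑ i ∈ Finset.range (p ^ j), T ^ i = 0 := by
  have h1 : ∀ s : ℕ, (T - 1) ^ (p ^ s) = T ^ (p ^ s) - 1 := by
    intro s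
    have h : ((X : (ZMod p)[X]) - 1) ^ (p ^ s) = X ^ (p ^ s) - 1 := by
      rw [sub_pow_char_pow, one_pow]
    have := congrArg (aeval T) h
    simpa using this
  have hnil : IsNilpotent (T - 1) := ⟨p ^ r, by rw [h1, hT, sub_self]⟩
  have hm : (T - 1) ^ (Module.finrank (ZMod p) V) = 0 := by
    have h2 := LinearMap.aeval_self_charpoly (T - 1)
    rw [IsNilpotent.charpoly_eq_X_pow_finrank hnil] at h2
    simpa using h2
  constructor
  · have := pow_eq_zero_of_le hj.le hm
    rw [h1] at this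
    exact sub_eq_zero.1 this
  · have h3 : (∑ i ∈ Finset.range (p ^ j), (X : (ZMod p)[X]) ^ i) = (X - 1) ^ (p ^ j - 1) := by
      have hne : (X - 1 : (ZMod p)[X]) ≠ 0 := by
        have := X_sub_C_ne_zero (1 : ZMod p)
        simpa using this
      apply mul_right_cancel₀ hne
      rw [geom_sum_mul, ← pow_succ, Nat.sub_add_cancel (by omega), sub_pow_char_pow, one_pow]
    have := congrArg (aeval T) h3
    simp only [map_sum, map_pow, aeval_X, map_sub, map_one] at this
    rw [this]
    exact pow_eq_zero_of_le (by omega) hm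

theorem add_key (p : ℕ) [Fact p.Prime] {V : Type*} [AddCommGroup V] [Module (ZMod p) V] [Finite V]
    (m : ℕ) (hcard : Nat.card V = p ^ m)
    (φ : V →+ V) (r : ℕ) (hφ : ∀ x, φ^[p ^ r] x = x) (j : ℕ) (hj : m < p ^ j) (x : V) :
    φ^[p ^ j] x = x ∧ ∑ i ∈ Finset.range (p ^ j), φ^[i] x = 0 := by
  let T : Module.End (ZMod p) V := AddMonoidHom.toZModLinearMap p φ
  have hTi : ∀ (i : ℕ) (y : V), (T ^ i) y = φ^[i] y := by
    intro i
    induction i with
    | zero => intro y; simp
    | succ i ih =>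
      intro y
      rw [pow_succ', Module.End.mul_apply, ih, Function.iterate_succ_apply']
      rfl
  have hfr : Module.finrank (ZMod p) V = m := by
    have h := Module.natCard_eq_pow_finrank (K := ZMod p) (V := V)
    rw [Nat.card_zmod, hcard] at h
    exact (Nat.pow_right_injective (Fact.out : p.Prime).two_le h).symm
  have hT : T ^ (p ^ r) = 1 := by
    ext y
    rw [hTi, hφ]
    rfl
  obtain ⟨k1, k2⟩ := lin_key p T r hT j (by rw [hfr]; exact hj)
  constructor
  · have := hTi (p ^ j) x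
    rw [k1] at this
    exact this.symm
  · have := congrArg (fun S => S x) k2
    simpa only [LinearMap.sum_apply, hTi, LinearMap.zero_apply] using this

theorem grp_key (p : ℕ) [Fact p.Prime] {N : Type*} [CommGroup N] [Finite N]
    (hNp : ∀ x : N, x ^ p = 1) (m : ℕ) (hcard : Nat.card N = p ^ m)
    (φ : N →* N) (r : ℕ) (hφ : ∀ x, φ^[p ^ r] x = x) (j : ℕ) (hj : m < p ^ j) (x : N) :
    φ^[p ^ j] x = x ∧ ∏ i ∈ Finset.range (p ^ j), φ^[i] x = 1 := by
  have hh : ∀ a : Additive N, p • a = 0 := fun a => hNp (Additive.toMul a)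
  obtain ⟨h1, h2⟩ := @add_key p _ (Additive N) _ (AddCommGroup.zmodModule hh) _ m hcard
    (MonoidHom.toAdditive φ) r hφ j hj (Additive.ofMul x)
  refine ⟨h1, ?_⟩
  apply Additive.ofMul.injective
  rw [ofMul_prod]
  exact h2

theorem two_pow_gt : ∀ j : ℕ, 2 ≤ j → j + 1 < 2 ^ j := by
  intro j hj
  induction j, hj using Nat.le_induction with
  | base => norm_num
  | succ k hk ih => rw [pow_succ]; omega

theorem three_pow_gt : ∀ j : ℕ, 1 ≤ j → j + 1 < 3 ^ j := by
  intro j hj
  induction j, hj using Nat.le_induction with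
  | base => norm_num
  | succ k hk ih => rw [pow_succ]; omega

theorem main {G : Type*} [Group G] [Finite G] {Ω : Type*} [Fintype Ω] [MulAction G Ω] [FaithfulSMul G Ω] (p m : ℕ) (hp : p.Prime) (hcard : Fintype.card Ω = p ^ m)
    (N : Subgroup G) [hNn : N.Normal] (hNc : IsMulCommutative N) (hNp : ∀ n ∈ N, n ^ p = 1)
    (hNtr : MulAction.IsPretransitive N Ω) (hNreg : ∀ ω : Ω, MulAction.stabilizer N ω = ⊥)
    (g : G) (r : ℕ) (hr : 1 ≤ r) (hg : orderOf g = p ^ r) :
    p ^ (r - 1) ≤ m := by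
  haveI : Fact p.Prime := ⟨hp⟩
  by_contra hlt
  push Not at hlt
  have hpos : 0 < Fintype.card Ω := by rw [hcard]; exact pow_pos hp.pos m
  obtain ⟨ω⟩ : Nonempty Ω := Fintype.card_pos_iff.1 hpos
  obtain ⟨b, hb⟩ := MulAction.exists_smul_eq N ω (g • ω)
  obtain ⟨t, ht⟩ : ∃ t : G, t = (b : G)⁻¹ * g := ⟨_, rfl⟩
  have hgb : g = b * t := by rw [ht]; group
  have htω : t • ω = ω := by
    rw [ht, mul_smul, ← hb]
    show (b : G)⁻¹ • ((b : G) • ω) = ω
    rw [inv_smul_smul]
  letI : CommGroup N := { (inferInstance : Group N) with mul_comm := hNc.is_comm.comm }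
  have hcardN : Nat.card N = p ^ m := by
    rw [← hcard, ← Nat.card_eq_fintype_card]
    apply Nat.card_congr
    refine Equiv.ofBijective (fun n : N => n • ω) ⟨?_, ?_⟩
    · intro n₁ n₂ h
      have h' : n₁ • ω = n₂ • ω := h
      have h2 : n₂⁻¹ * n₁ ∈ MulAction.stabilizer N ω := by
        rw [MulAction.mem_stabilizer_iff, mul_smul, h', inv_smul_smul]
      rw [hNreg, Subgroup.mem_bot] at h2
      exact (inv_mul_eq_one.1 h2).symm
    · intro ω'
      exact MulAction.exists_smul_eq N ω ω'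
  let φ : N →* N := (MulAut.conjNormal t : MulAut N).toMonoidHom
  have hφc : ∀ (i : ℕ) (x : N), ((φ^[i] x : N) : G) = t ^ i * x * (t ^ i)⁻¹ := by
    intro i
    induction i with
    | zero => intro x; simp
    | succ i ih =>
      intro x
      rw [Function.iterate_succ_apply']
      show ((MulAut.conjNormal t (φ^[i] x) : N) : G) = _
      rw [MulAut.conjNormal_apply, ih]
      group
  have h1 : ∀ y : G, y ∈ N → t * y * t⁻¹ = g * y * g⁻¹ := by
    intro y hy
    have hz : g * y * g⁻¹ ∈ N := hNn.conj_mem y hy g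
    have hcomm : (b : G) * (g * y * g⁻¹) = (g * y * g⁻¹) * b :=
      congrArg Subtype.val (hNc.is_comm.comm b ⟨_, hz⟩)
    have e : t * y * t⁻¹ = (b : G)⁻¹ * ((g * y * g⁻¹) * b) := by rw [ht]; group
    rw [e, ← hcomm]
    group
  have hconj : ∀ (i : ℕ) (x : G), x ∈ N → t ^ i * x * (t ^ i)⁻¹ = g ^ i * x * (g ^ i)⁻¹ := by
    intro i
    induction i with
    | zero => intro x _; simp
    | succ i ih =>
      intro x hx
      have e1 : t ^ (i + 1) * x * (t ^ (i + 1))⁻¹ = t * (t ^ i * x * (t ^ i)⁻¹) * t⁻¹ := by group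
      rw [e1, ih x hx, h1 _ (hNn.conj_mem x hx _)]
      group
  have hφ : ∀ x : N, φ^[p ^ r] x = x := by
    intro x
    apply Subtype.ext
    rw [hφc, hconj _ _ x.2, ← hg, pow_orderOf_eq_one]
    simp
  have hNp' : ∀ x : N, x ^ p = 1 := fun x => Subtype.ext (hNp x x.2)
  have hB : ∀ k : ℕ, g ^ k = ((∏ i ∈ Finset.range k, φ^[i] b : N) : G) * t ^ k := by
    intro k
    induction k with
    | zero => simp
    | succ k ih =>
      rw [pow_succ, ih, Finset.prod_range_succ]
      have e : (((∏ i ∈ Finset.range k, φ^[i] b) * φ^[k] b : N) : G)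
          = ((∏ i ∈ Finset.range k, φ^[i] b : N) : G) * (t ^ k * b * (t ^ k)⁻¹) := by
        rw [← hφc]
        rfl
      rw [e]
      generalize ((∏ i ∈ Finset.range k, φ^[i] b : N) : G) = P
      rw [hgb]
      group
  have hk := fun x => grp_key p hNp' m hcardN φ r hφ (r - 1) hlt x
  have htk : t ^ (p ^ (r - 1)) = 1 := by
    apply FaithfulSMul.eq_of_smul_eq_smul (α := Ω)
    intro ω'
    obtain ⟨n, rfl⟩ := MulAction.exists_smul_eq N ω ω'
    have e1 : t ^ (p ^ (r - 1)) • ω = ω := by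
      have : t ∈ MulAction.stabilizer G ω := htω
      exact Subgroup.pow_mem _ this _
    have e2 : t ^ (p ^ (r - 1)) * n * (t ^ (p ^ (r - 1)))⁻¹ = n := by
      rw [← hφc, (hk n).1]
    rw [one_smul]
    show t ^ (p ^ (r - 1)) • ((n : G) • ω) = (n : G) • ω
    conv_rhs => rw [← e2, mul_smul, mul_smul]
    rw [inv_smul_eq_iff.2 e1.symm]
  have hgk : g ^ (p ^ (r - 1)) = 1 := by
    rw [hB, (hk b).2, htk]
    simp
  have hd := orderOf_dvd_of_pow_eq_one hgk
  rw [hg, Nat.pow_dvd_pow_iff_le_right hp.one_lt] at hd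
  omega


/-- Let a finite group G act faithfully on a set Ω with p ^ m points (p prime) and have an elementary abelian normal p-subgroup N acting regularly on Ω (so G is a group of affine transformations of an m-dimensional space over the field with p elements). If G contains an element of order p ^ r with r ≥ 1, then p ^ (r − 1) ≤ m. In particular an element of order p ^ m forces m ≤ 2, and m ≤ 1 when p is odd. -/
theorem result {G : Type*} [Group G] [Finite G] {Ω : Type*} [Fintype Ω] [MulAction G Ω] [FaithfulSMul G Ω] (p m : ℕ) (hp : p.Prime) (hcard : Fintype.card Ω = p ^ m)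
    (N : Subgroup G) [N.Normal] (hNc : IsMulCommutative N) (hNp : ∀ n ∈ N, n ^ p = 1)
    (hNtr : MulAction.IsPretransitive N Ω) (hNreg : ∀ ω : Ω, MulAction.stabilizer N ω = ⊥)
    (g : G) (r : ℕ) (hr : 1 ≤ r) (hg : orderOf g = p ^ r) :
    p ^ (r - 1) ≤ m ∧ (r = m → m ≤ 2 ∧ (2 < p → m ≤ 1)) := by
  have h := main p m hp hcard N hNc hNp hNtr hNreg g r hr hg
  refine ⟨h, ?_⟩
  rintro rfl
  constructor
  · by_contra h3
    have h4 := two_pow_gt (r - 1) (by omega)
    have h5 : 2 ^ (r - 1) ≤ p ^ (r - 1) := Nat.pow_le_pow_left hp.two_le _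
    omega
  · intro hp3
    by_contra h3
    have h4 := three_pow_gt (r - 1) (by omega)
    have h5 : 3 ^ (r - 1) ≤ p ^ (r - 1) := Nat.pow_le_pow_left hp3 _
    omega

end Cfsg.Agent.S3508
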