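import Mathlib
import Cfsg.Statements.S3511
-- import your own Cfsg.Agent.* helpers here

set_option autoImplicit false
open Cfsg

namespace Cfsg.Agent.S3511

/-- Let a finite group G act faithfully on a set Ω. If every element of G of square-free order has a regular cycle (an orbit of the cyclic group it generates with trivial stabilizer), then every element of G has a regular cycle. -/
theorem result {G : Type*} [Group G] [Finite G] {Ω : Type*} [MulAction G Ω] [FaithfulSMul G Ω]
    (h : ∀ g : G, Squarefree (orderOf g) → ∃ ω : Ω, MulAction.stabilizer (Subgroup.zpowers g) ω = ⊥) (g : G) :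
    ∃ ω : Ω, MulAction.stabilizer (Subgroup.zpowers g) ω = ⊥ := by
  classical
  set n := orderOf g with hn
  have hn0 : 0 < n := orderOf_pos g
  set r := UniqueFactorizationMonoid.radical n with hr
  have hrn : r ∣ n := UniqueFactorizationMonoid.radical_dvd_self
  have hr0 : 0 < r := Nat.pos_of_dvd_of_pos hrn hn0
  obtain ⟨c, hc⟩ := hrn
  have hc0 : 0 < c := by
    rcases Nat.eq_zero_or_pos c with h0 | h0
    · rw [h0] at hc; omega
    · exact h0
  -- g' = g ^ c has order r
  have hord : orderOf (g ^ c) = r := by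
    rw [orderOf_pow_of_dvd hc0.ne' ⟨r, by rw [← hn, hc, mul_comm]⟩, ← hn, hc]
    exact Nat.mul_div_cancel _ hc0
  obtain ⟨ω, hω⟩ := h (g ^ c) (by rw [hord]; exact UniqueFactorizationMonoid.squarefree_radical)
  refine ⟨ω, ?_⟩
  rw [Subgroup.eq_bot_iff_forall]
  rintro ⟨s, hs⟩ hsω
  by_contra hs1
  have hs1' : s ≠ 1 := fun h1 => hs1 (Subtype.ext h1)
  have hsω' : s • ω = ω := hsω
  have ho : orderOf s ≠ 1 := fun h1 => hs1' (orderOf_eq_one_iff.mp h1)
  obtain ⟨p, hp, hpo⟩ := Nat.exists_prime_and_dvd ho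
  obtain ⟨k, hk⟩ := hs
  have hk' : g ^ k = s := hk
  -- u = s ^ (orderOf s / p)
  set u := s ^ (orderOf s / p) with hu
  have huord : orderOf u = p := orderOf_pow_orderOf_div (orderOf_pos s).ne' hpo
  have huω : u • ω = ω := by
    rw [hu]
    have : s ∈ MulAction.stabilizer G ω := hsω'
    exact (MulAction.stabilizer G ω).pow_mem this _
  have hson : orderOf s ∣ n := by
    exact orderOf_dvd_of_mem_zpowers ⟨k, hk'⟩
  have hpn : p ∣ n := hpo.trans hson
  have hpr : p ∣ r := (UniqueFactorizationMonoid.dvd_radical_iff_of_irreducible hp.prime.irreducible hn0.ne').mpr hpn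
  have hur : u ^ r = 1 := by
    rw [← orderOf_dvd_iff_pow_eq_one, huord]; exact hpr
  -- u = g ^ j
  have huj : u = g ^ (k * ((orderOf s / p : ℕ) : ℤ)) := by
    rw [hu, ← hk', zpow_mul, zpow_natCast]
  set j : ℤ := k * ((orderOf s / p : ℕ) : ℤ) with hj
  have h1 : g ^ (j * (r : ℤ)) = 1 := by
    rw [zpow_mul, ← huj, zpow_natCast, hur]
  have h2 : (n : ℤ) ∣ j * r := by
    rw [hn]; exact orderOf_dvd_iff_zpow_eq_one.mpr h1
  have h3 : (c : ℤ) ∣ j := by
    rw [hc] at h2
    push_cast at h2
    rw [mul_comm (r : ℤ) c] at h2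
    exact Int.dvd_of_mul_dvd_mul_right (by exact_mod_cast hr0.ne') h2
  obtain ⟨j', hj'⟩ := h3
  have hu' : u ∈ Subgroup.zpowers (g ^ c) := by
    refine ⟨j', ?_⟩
    show (g ^ c) ^ j' = u
    rw [huj, hj', zpow_mul, zpow_natCast]
  have : (⟨u, hu'⟩ : Subgroup.zpowers (g ^ c)) ∈ MulAction.stabilizer (Subgroup.zpowers (g ^ c)) ω := by
    rw [MulAction.mem_stabilizer_iff]; exact huω
  rw [hω, Subgroup.mem_bot] at this
  have hu1 : u = 1 := congrArg Subtype.val this
  rw [hu1, orderOf_one] at huord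
  exact hp.one_lt.ne huord


end Cfsg.Agent.S3511
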