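import Cfsg.Statements.S3515
import Mathlib
-- import your own Cfsg.Agent.* helpers here

set_option autoImplicit false
open Cfsg

namespace Cfsg.Agent.S3515

theorem cases4 : ∀ y : Fin 2 → ZMod 2, y = 0 ∨ y = Pi.single 0 1 ∨ y = Pi.single 1 1 ∨
    y = Pi.single 0 1 + Pi.single 1 1 := by decide

theorem ne0 : (Pi.single 0 1 + Pi.single 1 1 : Fin 2 → ZMod 2) ≠ 0 := by decide
theorem ne1 : (Pi.single 0 1 + Pi.single 1 1 : Fin 2 → ZMod 2) ≠ Pi.single 0 1 := by decide
theorem ne2 : (Pi.single 0 1 + Pi.single 1 1 : Fin 2 → ZMod 2) ≠ Pi.single 1 1 := by decide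


/-- Every primitive affine permutation group of degree p² is 3-closed. Let p be a prime and G a group of permutations of the plane V = F_p² consisting of affine maps x ↦ Ax + b, containing all translations, and acting primitively on V. Then any permutation σ of V that agrees on every triple of points with some element of G (σ preserves every G-orbit on ordered triples) already lies in G. -/
theorem result (p : ℕ) [Fact p.Prime] (G : Subgroup (Equiv.Perm (Fin 2 → ZMod p)))
    (haff : (G : Set (Equiv.Perm (Fin 2 → ZMod p))) ⊆ {τ : Equiv.Perm (Fin 2 → ZMod p) | ∃ (A : (Fin 2 → ZMod p) ≃ₗ[ZMod p] (Fin 2 → ZMod p)) (b : Fin 2 → ZMod p), ∀ x, τ x = A x + b})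
    (htrans : ∀ b : Fin 2 → ZMod p, ∃ g ∈ G, ∀ x, g x = x + b) (hprim : MulAction.IsPreprimitive G (Fin 2 → ZMod p))
    (σ : Equiv.Perm (Fin 2 → ZMod p)) (hσ : (∀ t : Fin 3 → (Fin 2 → ZMod p), ∃ g ∈ G, ∀ i, σ (t i) = g (t i))) : σ ∈ G := by
  classical
  -- sigma preserves two-point affine combinations
  have K : ∀ (a c : Fin 2 → ZMod p) (l : ZMod p),
      σ ((1 - l) • a + l • c) = (1 - l) • σ a + l • σ c := by
    intro a c l
    obtain ⟨g, hg, hgt⟩ := hσ ![a, c, (1 - l) • a + l • c]
    obtain ⟨A, b, hA⟩ := haff hg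
    have h0 : σ a = A a + b := by rw [← hA]; exact hgt 0
    have h1 : σ c = A c + b := by rw [← hA]; exact hgt 1
    have h2 : σ ((1 - l) • a + l • c) = A ((1 - l) • a + l • c) + b := by rw [← hA]; exact hgt 2
    rw [h2, h0, h1, map_add, map_smul, map_smul, smul_add, smul_add, sub_smul, sub_smul, one_smul,
      one_smul]
    abel
  obtain ⟨g, hg, hgt⟩ := hσ ![0, Pi.single 0 1, Pi.single 1 1]
  obtain ⟨A, b, hA⟩ := haff hg
  have Kg : ∀ (a c : Fin 2 → ZMod p) (l : ZMod p),
      g ((1 - l) • a + l • c) = (1 - l) • g a + l • g c := by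
    intro a c l
    rw [hA, hA, hA, map_add, map_smul, map_smul, smul_add, smul_add, sub_smul, sub_smul, one_smul,
      one_smul]
    abel
  have h0 : σ 0 = g 0 := hgt 0
  have h1 : σ (Pi.single 0 1) = g (Pi.single 0 1) := hgt 1
  have h2 : σ (Pi.single 1 1) = g (Pi.single 1 1) := hgt 2
  have comb : ∀ (a c : Fin 2 → ZMod p) (l : ZMod p), σ a = g a → σ c = g c →
      σ ((1 - l) • a + l • c) = g ((1 - l) • a + l • c) := by
    intro a c l ha hc
    rw [K, Kg, ha, hc]
  have ais : ∀ (x : Fin 2 → ZMod p), g (g⁻¹ x) = x := fun x => (Equiv.eq_symm_apply g).mp rfl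
  have hall : ∀ x, σ x = g x := by
    rcases eq_or_ne p 2 with rfl | hp2
    · have hcases := cases4
      have key : ∀ z w : Fin 2 → ZMod 2, g⁻¹ (σ z) = w → σ z = g w := fun z w h => by
        have h3 := congrArg g h
        rwa [ais] at h3
      intro x
      rcases hcases x with rfl | rfl | rfl | rfl
      · exact h0
      · exact h1
      · exact h2
      · rcases hcases (g⁻¹ (σ (Pi.single 0 1 + Pi.single 1 1))) with h | h | h | h
        · exfalso
          have h3 := key _ _ h
          rw [← h0] at h3
          exact ne0 (σ.injective h3)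
        · exfalso
          have h3 := key _ _ h
          rw [← h1] at h3
          exact ne1 (σ.injective h3)
        · exfalso
          have h3 := key _ _ h
          rw [← h2] at h3
          exact ne2 (σ.injective h3)
        · exact key _ _ h
    · have h2ne : (2 : ZMod p) ≠ 0 := by
        intro h
        have h' : ((2 : ℕ) : ZMod p) = 0 := by exact_mod_cast h
        rw [ZMod.natCast_eq_zero_iff] at h'
        exact hp2 ((Nat.prime_dvd_prime_iff_eq (Fact.out) Nat.prime_two).mp h')
      have e1 : ∀ m : ZMod p, σ (m • Pi.single 0 1) = g (m • Pi.single 0 1) := by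
        intro m
        have := comb 0 (Pi.single 0 1) m h0 h1
        rwa [smul_zero, zero_add] at this
      have e2 : ∀ m : ZMod p, σ (m • Pi.single 1 1) = g (m • Pi.single 1 1) := by
        intro m
        have := comb 0 (Pi.single 1 1) m h0 h2
        rwa [smul_zero, zero_add] at this
      intro x
      have hx : x = (1 - (2 : ZMod p)⁻¹) • ((2 * x 0) • Pi.single 0 1) +
          (2 : ZMod p)⁻¹ • ((2 * x 1) • Pi.single 1 1) := by
        have hh : (1 - (2 : ZMod p)⁻¹) = (2 : ZMod p)⁻¹ := by
          field_simp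
          norm_num
        rw [hh]
        ext i
        fin_cases i
        · simp
          field_simp
        · simp
          field_simp
      rw [hx]
      exact comb _ _ _ (e1 _) (e2 _)
  have : σ = g := Equiv.ext hall
  rw [this]
  exact hg

end Cfsg.Agent.S3515
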