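import Cfsg.Statements.S3516
import Mathlib
-- import your own Cfsg.Agent.* helpers here

set_option autoImplicit false
open Cfsg

namespace Cfsg.Agent.S3516

/-- Let p be an odd prime, d ≥ 3, and G a group of affine permutations x ↦ Ax + b of V = F_p^d containing all translations and all maps x ↦ Ax with A of determinant 1. Then the 3-closure of G is the full affine group: a permutation σ of V agrees on every triple of points with some element of G if and only if σ is an affine map. -/
theorem result (p : ℕ) [Fact p.Prime] (hp : p ≠ 2) (d : ℕ) (hd : 3 ≤ d) (G : Subgroup (Equiv.Perm (Fin d → ZMod p)))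
    (haff : (G : Set (Equiv.Perm (Fin d → ZMod p))) ⊆ {τ : Equiv.Perm (Fin d → ZMod p) | ∃ (A : (Fin d → ZMod p) ≃ₗ[ZMod p] (Fin d → ZMod p)) (b : Fin d → ZMod p), ∀ x, τ x = A x + b})
    (htrans : ∀ b : Fin d → ZMod p, ∃ g ∈ G, ∀ x, g x = x + b)
    (hsl : ∀ A : (Fin d → ZMod p) ≃ₗ[ZMod p] (Fin d → ZMod p), LinearMap.det (A : (Fin d → ZMod p) →ₗ[ZMod p] (Fin d → ZMod p)) = 1 → ∃ g ∈ G, ∀ x, g x = A x)
    (σ : Equiv.Perm (Fin d → ZMod p)) :
    (∀ t : Fin 3 → (Fin d → ZMod p), ∃ g ∈ G, ∀ i, σ (t i) = g (t i)) ↔ σ ∈ {τ : Equiv.Perm (Fin d → ZMod p) | ∃ (A : (Fin d → ZMod p) ≃ₗ[ZMod p] (Fin d → ZMod p)) (b : Fin d → ZMod p), ∀ x, τ x = A x + b} := by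
  classical
  have h2ne : (2 : ZMod p) ≠ 0 := by
    intro h
    have h' : ((2 : ℕ) : ZMod p) = 0 := by exact_mod_cast h
    rw [ZMod.natCast_eq_zero_iff] at h'
    exact hp ((Nat.prime_dvd_prime_iff_eq (Fact.out) Nat.prime_two).mp h')
  constructor
  · intro hσ
    have K : ∀ (a c : Fin d → ZMod p) (l : ZMod p),
        σ ((1 - l) • a + l • c) = (1 - l) • σ a + l • σ c := by
      intro a c l
      obtain ⟨g, hg, hgt⟩ := hσ ![a, c, (1 - l) • a + l • c]
      obtain ⟨A, b, hA⟩ := haff hg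
      have h0 : σ a = A a + b := by rw [← hA]; exact hgt 0
      have h1 : σ c = A c + b := by rw [← hA]; exact hgt 1
      have h2 : σ ((1 - l) • a + l • c) = A ((1 - l) • a + l • c) + b := by rw [← hA]; exact hgt 2
      rw [h2, h0, h1, map_add, map_smul, map_smul, smul_add, smul_add, sub_smul, sub_smul, one_smul,
        one_smul]
      abel
    have hsm : ∀ (l : ZMod p) (c : Fin d → ZMod p), σ (l • c) - σ 0 = l • (σ c - σ 0) := by
      intro l c
      have := K 0 c l
      rw [smul_zero, zero_add] at this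
      rw [this, smul_sub, sub_smul, one_smul]
      abel
    have hh : (1 - (2 : ZMod p)⁻¹) = (2 : ZMod p)⁻¹ := by
      field_simp
      norm_num
    have hadd : ∀ a c : Fin d → ZMod p, σ (a + c) - σ 0 = (σ a - σ 0) + (σ c - σ 0) := by
      intro a c
      have h1 := K a c (2 : ZMod p)⁻¹
      rw [hh, ← smul_add] at h1
      have h2 := hsm (2 : ZMod p)⁻¹ (a + c)
      rw [h1] at h2
      have h3 : σ (a + c) - σ 0 = (2 : ZMod p) • ((2 : ZMod p)⁻¹ • (σ (a + c) - σ 0)) := by
        rw [smul_smul, mul_inv_cancel₀ h2ne, one_smul]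
      rw [h3, ← h2, smul_sub, smul_add, smul_smul, smul_smul, mul_inv_cancel₀ h2ne, one_smul,
        one_smul, two_smul]
      abel
    let φ : (Fin d → ZMod p) →ₗ[ZMod p] (Fin d → ZMod p) :=
      { toFun := fun x => σ x - σ 0
        map_add' := hadd
        map_smul' := fun l c => hsm l c }
    have hinj : Function.Injective φ := by
      intro x y hxy
      have : σ x - σ 0 = σ y - σ 0 := hxy
      exact σ.injective (sub_left_injective this)
    refine ⟨LinearEquiv.ofInjectiveEndo φ hinj, σ 0, fun x => ?_⟩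
    rw [LinearEquiv.coe_ofInjectiveEndo]
    show σ x = (σ x - σ 0) + σ 0
    abel
  · rintro ⟨A, b, hA⟩ t
    have hdet : LinearMap.det (A : (Fin d → ZMod p) →ₗ[ZMod p] (Fin d → ZMod p)) ≠ 0 :=
      (LinearEquiv.isUnit_det' A).ne_zero
    set δ := (LinearMap.det (A : (Fin d → ZMod p) →ₗ[ZMod p] (Fin d → ZMod p)))⁻¹ with hδ
    have hδ0 : δ ≠ 0 := inv_ne_zero hdet
    set W : Submodule (ZMod p) (Fin d → ZMod p) :=
      Submodule.span (ZMod p) (({t 1 - t 0, t 2 - t 0} : Finset (Fin d → ZMod p)) : Set (Fin d → ZMod p)) with hW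
    have hWtop : W < ⊤ := by
      rw [lt_top_iff_ne_top]
      intro h
      have h1 := finrank_span_finset_le_card (R := ZMod p) ({t 1 - t 0, t 2 - t 0} : Finset (Fin d → ZMod p))
      have h1' : Module.finrank (ZMod p) W ≤ ({t 1 - t 0, t 2 - t 0} : Finset (Fin d → ZMod p)).card := h1
      rw [h, finrank_top, Module.finrank_fin_fun] at h1'
      have h2 : ({t 1 - t 0, t 2 - t 0} : Finset (Fin d → ZMod p)).card ≤ 2 := Finset.card_le_two
      omega
    obtain ⟨f, hf0, hfW⟩ := W.exists_le_ker_of_lt_top hWtop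
    obtain ⟨w0, hw0⟩ : ∃ w0, f w0 ≠ 0 := by
      by_contra hno
      push_neg at hno
      exact hf0 (LinearMap.ext hno)
    set w := ((δ - 1) / f w0) • w0 with hw
    have hfw : f w = δ - 1 := by
      rw [hw, map_smul, smul_eq_mul, div_mul_cancel₀ _ hw0]
    have hunit : IsUnit (1 + f w) := by
      rw [hfw]
      have : 1 + (δ - 1) = δ := by ring
      rw [this]
      exact hδ0.isUnit
    set D := LinearEquiv.dilatransvection (f := f) (v := w) hunit with hD
    have hDfix : ∀ x ∈ W, D x = x := by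
      intro x hx
      rw [hD, LinearEquiv.dilatransvection.apply, LinearMap.mem_ker.mp (hfW hx), zero_smul, add_zero]
    have hdetD : LinearMap.det ((D.trans A : (Fin d → ZMod p) ≃ₗ[ZMod p] (Fin d → ZMod p)) : (Fin d → ZMod p) →ₗ[ZMod p] (Fin d → ZMod p)) = 1 := by
      have e : ((D.trans A : (Fin d → ZMod p) ≃ₗ[ZMod p] (Fin d → ZMod p)) : (Fin d → ZMod p) →ₗ[ZMod p] (Fin d → ZMod p))
          = (A : (Fin d → ZMod p) →ₗ[ZMod p] (Fin d → ZMod p)) ∘ₗ (LinearMap.transvection f w) := rfl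
      rw [e, LinearMap.det_comp, LinearMap.transvection.det, hfw]
      have : 1 + (δ - 1) = δ := by ring
      rw [this, hδ, mul_inv_cancel₀ hdet]
    obtain ⟨g1, hg1, hg1x⟩ := hsl (D.trans A) hdetD
    obtain ⟨g2, hg2, hg2x⟩ := htrans (σ (t 0) - A (D (t 0)))
    refine ⟨g2 * g1, G.mul_mem hg2 hg1, ?_⟩
    have key : ∀ y, y - t 0 ∈ W → σ y = (g2 * g1) y := by
      intro y hy
      rw [Equiv.Perm.mul_apply, hg2x, hg1x, LinearEquiv.trans_apply, hA, hA]
      have h1 := hDfix _ hy
      rw [map_sub] at h1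
      have h2 : D y = y - t 0 + D (t 0) := by rw [← h1]; abel
      rw [h2, map_add, map_sub]
      abel
    intro i
    fin_cases i
    · exact key (t 0) (by rw [sub_self]; exact W.zero_mem)
    · exact key (t 1) (Submodule.subset_span (by simp))
    · exact key (t 2) (Submodule.subset_span (by simp))

end Cfsg.Agent.S3516
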