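import Cfsg.Statements.S3517
import Mathlib
-- import your own Cfsg.Agent.* helpers here

set_option autoImplicit false
open Cfsg

namespace Cfsg.Agent.S3517

theorem L {K V ι : Type*} [Field K] [AddCommGroup V] [Module K V] [FiniteDimensional K V]
    (f f' : ι → V) (hf : LinearIndependent K f) (hf' : LinearIndependent K f') :
    ∃ g : V ≃ₗ[K] V, ∀ i, g (f i) = f' i := by
  obtain ⟨g, hg⟩ := Submodule.exists_linearEquiv_restrict_eq
    ((Module.Basis.span hf).equiv (Module.Basis.span hf') (Equiv.refl ι))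
  refine ⟨g, fun i => ?_⟩
  have h1 := hg (Module.Basis.span hf i)
  rw [Module.Basis.equiv_apply, Module.Basis.span_apply, Equiv.refl_apply, Module.Basis.span_apply] at h1
  exact h1.symm

theorem indep2 {V : Type*} [AddCommGroup V] [Module (ZMod 2) V] (a b : V) (ha : a ≠ 0) (hb : b ≠ 0)
    (hab : a ≠ b) : LinearIndependent (ZMod 2) ![a, b] := by
  rw [LinearIndependent.pair_iff]
  intro s t h
  have h01 : ∀ c : ZMod 2, c = 0 ∨ c = 1 := by decide
  have hs := h01 s
  have ht := h01 t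
  have hbb : b + b = 0 := by
    rw [← two_smul (ZMod 2) b]
    have : (2 : ZMod 2) = 0 := by decide
    rw [this, zero_smul]
  rcases hs with rfl | rfl <;> rcases ht with rfl | rfl
  · exact ⟨rfl, rfl⟩
  · simp at h; exact absurd h hb
  · simp at h; exact absurd h ha
  · exfalso
    rw [one_smul, one_smul] at h
    apply hab
    calc a = a + (b + b) := by rw [hbb, add_zero]
      _ = (a + b) + b := by abel
      _ = b := by rw [h, zero_add]


/-- For d ≥ 3, the 3-closure of the affine group AGL_d(2) acting on F_2^d is the full symmetric group: every permutation of F_2^d agrees on every ordered triple of points with some affine map (AGL_d(2) is 3-transitive). -/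
theorem result (d : ℕ) (hd : 3 ≤ d) (σ : Equiv.Perm (Fin d → ZMod 2)) (t : Fin 3 → (Fin d → ZMod 2)) :
    ∃ (A : (Fin d → ZMod 2) ≃ₗ[ZMod 2] (Fin d → ZMod 2)) (b : Fin d → ZMod 2), ∀ i, σ (t i) = A (t i) + b := by
  classical
  suffices hA : ∃ A : (Fin d → ZMod 2) ≃ₗ[ZMod 2] (Fin d → ZMod 2),
      A (t 1 - t 0) = σ (t 1) - σ (t 0) ∧ A (t 2 - t 0) = σ (t 2) - σ (t 0) by
    obtain ⟨A, h1, h2⟩ := hA
    refine ⟨A, σ (t 0) - A (t 0), fun i => ?_⟩
    rw [map_sub] at h1 h2
    fin_cases i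
    · show σ (t 0) = A (t 0) + (σ (t 0) - A (t 0))
      abel
    · show σ (t 1) = A (t 1) + (σ (t 0) - A (t 0))
      have : σ (t 1) = (A (t 1) - A (t 0)) + σ (t 0) := by rw [h1]; abel
      rw [this]; abel
    · show σ (t 2) = A (t 2) + (σ (t 0) - A (t 0))
      have : σ (t 2) = (A (t 2) - A (t 0)) + σ (t 0) := by rw [h2]; abel
      rw [this]; abel
  have one : ∀ a a' : Fin d → ZMod 2, a ≠ 0 → a' ≠ 0 →
      ∃ A : (Fin d → ZMod 2) ≃ₗ[ZMod 2] (Fin d → ZMod 2), A a = a' := by
    intro a a' ha ha'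
    obtain ⟨g, hg⟩ := L (K := ZMod 2) (fun _ : Unit => a) (fun _ : Unit => a')
      (LinearIndependent.of_subsingleton () ha) (LinearIndependent.of_subsingleton () ha')
    exact ⟨g, hg ()⟩
  by_cases hu : t 1 = t 0
  · by_cases hv : t 2 = t 0
    · exact ⟨LinearEquiv.refl _ _, by simp [hu], by simp [hv]⟩
    · obtain ⟨A, hA⟩ := one (t 2 - t 0) (σ (t 2) - σ (t 0)) (sub_ne_zero.mpr hv)
        (sub_ne_zero.mpr (fun h => hv (σ.injective h)))
      exact ⟨A, by simp [hu], hA⟩
  · by_cases hv : t 2 = t 0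
    · obtain ⟨A, hA⟩ := one (t 1 - t 0) (σ (t 1) - σ (t 0)) (sub_ne_zero.mpr hu)
        (sub_ne_zero.mpr (fun h => hu (σ.injective h)))
      exact ⟨A, hA, by simp [hv]⟩
    · by_cases huv : t 1 = t 2
      · obtain ⟨A, hA⟩ := one (t 1 - t 0) (σ (t 1) - σ (t 0)) (sub_ne_zero.mpr hu)
          (sub_ne_zero.mpr (fun h => hu (σ.injective h)))
        exact ⟨A, hA, by rw [← huv]; exact hA⟩
      · obtain ⟨g, hg⟩ := L (K := ZMod 2) ![t 1 - t 0, t 2 - t 0] ![σ (t 1) - σ (t 0), σ (t 2) - σ (t 0)]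
          (indep2 _ _ (sub_ne_zero.mpr hu) (sub_ne_zero.mpr hv) (fun h => huv (sub_left_injective h)))
          (indep2 _ _ (sub_ne_zero.mpr (fun h => hu (σ.injective h)))
            (sub_ne_zero.mpr (fun h => hv (σ.injective h)))
            (fun h => huv (σ.injective (sub_left_injective h))))
        exact ⟨g, hg 0, hg 1⟩

end Cfsg.Agent.S3517
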