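import Mathlib
import Cfsg.Statements.S3518
import Cfsg.Agent.Lib.Helper19.McConnel
-- import your own Cfsg.Agent.* helpers here

set_option autoImplicit false
open Cfsg

namespace Cfsg.Agent.S3518

/-- Closures of subgroups of the one-dimensional affine group. Let p be a prime and G a group of permutations of F_p lying in the affine group AGL₁(p) = {x ↦ ax + b, a ≠ 0} and containing all translations. (1) If G is a proper subgroup of AGL₁(p), then G is 2-closed: a permutation of F_p agreeing on every ordered pair of points with some element of G lies in G. (2) Every permutation of F_p agrees on every ordered pair with some element of AGL₁(p) (the 2-closure of AGL₁(p) is the symmetric group). (3) AGL₁(p) is 3-closed: a permutation agreeing on every ordered triple with some affine map is affine. -/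
theorem result (p : ℕ) [Fact p.Prime] (G : Subgroup (Equiv.Perm (ZMod p))) (hG : G ≤ Cfsg.affineGroup (ZMod p))
    (htrans : ∀ b : ZMod p, ∃ g ∈ G, ∀ x, g x = x + b) :
    (G ≠ Cfsg.affineGroup (ZMod p) → ∀ σ : Equiv.Perm (ZMod p), (∀ t : Fin 2 → ZMod p, ∃ g ∈ G, ∀ i, σ (t i) = g (t i)) → σ ∈ G) ∧
    (∀ σ : Equiv.Perm (ZMod p), (∀ t : Fin 2 → ZMod p, ∃ g ∈ Cfsg.affineGroup (ZMod p), ∀ i, σ (t i) = g (t i))) ∧
    (∀ σ : Equiv.Perm (ZMod p), (∀ t : Fin 3 → ZMod p, ∃ g ∈ Cfsg.affineGroup (ZMod p), ∀ i, σ (t i) = g (t i)) → σ ∈ Cfsg.affineGroup (ZMod p)) := by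
  have hp : p.Prime := Fact.out
  have h01 : (0 : ZMod p) ≠ 1 := zero_ne_one
  refine ⟨?_, ?_, ?_⟩
  · intro hne σ hσ
    let D : Subgroup (ZMod p)ˣ := G.comap (MulAction.toPermHom (ZMod p)ˣ (ZMod p))
    have hDmem : ∀ a : (ZMod p)ˣ, a ∈ D ↔ MulAction.toPerm a ∈ G := fun a => Iff.rfl
    have factA : ∀ g ∈ G, ∀ (a : (ZMod p)ˣ) (b : ZMod p), (∀ z, g z = (a : ZMod p) * z + b) → a ∈ D := by
      intro g hg a b hgz
      obtain ⟨τ, hτ, hτz⟩ := htrans (-b)
      have : τ * g = MulAction.toPerm a := by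
        ext z
        rw [Equiv.Perm.mul_apply, hτz, hgz, MulAction.toPerm_apply, Units.smul_def, smul_eq_mul]
        ring
      rw [hDmem, ← this]
      exact mul_mem hτ hg
    have factB : ∀ (g : Equiv.Perm (ZMod p)) (a : (ZMod p)ˣ) (b : ZMod p), a ∈ D →
        (∀ z, g z = (a : ZMod p) * z + b) → g ∈ G := by
      intro g a b ha hgz
      obtain ⟨τ, hτ, hτz⟩ := htrans b
      have : g = τ * MulAction.toPerm a := by
        ext z
        rw [Equiv.Perm.mul_apply, hτz, hgz, MulAction.toPerm_apply, Units.smul_def, smul_eq_mul]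
      rw [this]
      exact mul_mem hτ ((hDmem a).mp ha)
    have hDtop : D ≠ ⊤ := by
      intro hD
      apply hne
      apply le_antisymm hG
      rintro g ⟨a, b, hgz⟩
      exact factB g a b (by rw [hD]; trivial) hgz
    set m := Nat.card D with hm
    have hcardU : Nat.card (ZMod p)ˣ = p - 1 := by
      rw [Nat.card_eq_fintype_card, ZMod.card_units]
    have hmdvd : m ∣ p - 1 := by
      rw [← hcardU]; exact Subgroup.card_subgroup_dvd_card D
    have hmne : m ≠ p - 1 := by
      intro h
      apply hDtop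
      rw [← Subgroup.card_eq_iff_eq_top, ← hm, h, hcardU]
    have hm1 : 1 ≤ m := Nat.card_pos
    have hp1 : 0 < p - 1 := by have := hp.two_le; omega
    have hm2 : 2 * m ≤ p - 1 := by
      obtain ⟨c, hc⟩ := hmdvd
      have hc0 : c ≠ 0 := by rintro rfl; omega
      have hc1 : c ≠ 1 := by rintro rfl; omega
      have : 2 ≤ c := by omega
      rw [hc]; nlinarith
    have hpow : ∀ a ∈ D, (a : ZMod p) ^ m = 1 := by
      intro a ha
      have h1 : (⟨a, ha⟩ : D) ^ Nat.card D = 1 := pow_card_eq_one'
      have h2 : a ^ m = 1 := congrArg Subtype.val h1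
      rw [← Units.val_pow_eq_pow_val, h2, Units.val_one]
    have hpair : ∀ x y, ∃ a ∈ D, σ x - σ y = (a : ZMod p) * (x - y) := by
      intro x y
      obtain ⟨g, hg, hgt⟩ := hσ ![x, y]
      obtain ⟨a, b, hgz⟩ := hG hg
      refine ⟨a, factA g hg a b hgz, ?_⟩
      have h0 := hgt 0
      have h1 := hgt 1
      simp only [Matrix.cons_val_zero, Matrix.cons_val_one] at h0 h1
      rw [h0, h1, hgz, hgz]; ring
    obtain ⟨a, b, hab⟩ := Cfsg.Agent.Lib.Helper19.affine_of_pow_eq σ m hm1 hm2 (by
      intro x y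
      obtain ⟨a, ha, h1⟩ := hpair x y
      rw [h1, mul_pow, hpow a ha, one_mul])
    obtain ⟨a', ha', h1⟩ := hpair 1 0
    rw [hab, hab] at h1
    have h2 : a = a' := by linear_combination h1
    exact factB σ a' b ha' (by intro z; rw [hab, h2])
  · intro σ t
    by_cases ht : t 0 = t 1
    · refine ⟨Equiv.addRight (σ (t 0) - t 0), ⟨1, σ (t 0) - t 0, fun x => by simp⟩, ?_⟩
      intro i
      fin_cases i
      · simp
      · simp [← ht]
    · have hne : σ (t 1) - σ (t 0) ≠ 0 := by
        intro h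
        rw [sub_eq_zero] at h
        exact ht (σ.injective h).symm
      have hne' : t 1 - t 0 ≠ 0 := by
        intro h
        rw [sub_eq_zero] at h
        exact ht h.symm
      let a : (ZMod p)ˣ := Units.mk0 ((σ (t 1) - σ (t 0)) / (t 1 - t 0)) (div_ne_zero hne hne')
      refine ⟨(Units.mulLeft a).trans (Equiv.addRight (σ (t 0) - a * t 0)),
        ⟨a, σ (t 0) - a * t 0, fun x => by simp⟩, ?_⟩
      intro i
      fin_cases i
      · simp
      · simp only [Fin.mk_one, Equiv.trans_apply, Units.mulLeft_apply, Equiv.coe_addRight, a, Units.val_mk0]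
        field_simp
        ring
  · intro σ hσ
    obtain ⟨g₀, ⟨a, b, hg₀⟩, hgt₀⟩ := hσ ![0, 1, 0]
    refine ⟨a, b, fun x => ?_⟩
    obtain ⟨g, ⟨a', b', hg⟩, hgt⟩ := hσ ![0, 1, x]
    have e0 := hgt₀ 0
    have e1 := hgt₀ 1
    have f0 := hgt 0
    have f1 := hgt 1
    have f2 := hgt 2
    simp only [Matrix.cons_val_zero, Matrix.cons_val_one, Matrix.cons_val] at e0 e1 f0 f1 f2
    rw [hg₀] at e0 e1
    rw [hg] at f0 f1 f2
    have hb : b = b' := by
      have := e0.symm.trans f0
      simpa using this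
    have ha : (a : ZMod p) = a' := by
      have := e1.symm.trans f1
      rw [hb] at this
      simpa using this
    rw [f2, ha, hb]

end Cfsg.Agent.S3518
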