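import Mathlib
import Cfsg.Statements.S3548
import Cfsg.Agent.Lib.Helper19.Derange2
-- import your own Cfsg.Agent.* helpers here

set_option autoImplicit false
open Cfsg

namespace Cfsg.Agent.S3548

/-- Let G act faithfully and transitively on a finite set with n ≥ 2 points and let D be the subgroup generated by the derangements. Then the index of D in G divides n − 1, and if it equals n − 1 then n is a prime power. -/
theorem result {G Ω : Type*} [Group G] [Finite G] [MulAction G Ω] [FaithfulSMul G Ω] [Finite Ω]
    (htrans : MulAction.IsPretransitive G Ω) (hΩ : 2 ≤ Nat.card Ω) :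
    (Subgroup.closure {g : G | ∀ ω : Ω, g • ω ≠ ω}).index ∣ Nat.card Ω - 1 ∧
    ((Subgroup.closure {g : G | ∀ ω : Ω, g • ω ≠ ω}).index = Nat.card Ω - 1 → IsPrimePow (Nat.card Ω)) := by
  haveI : Nonempty Ω := (Nat.card_pos_iff.mp (by omega)).1
  exact ⟨Lib.Helper19.der_index_dvd_pred htrans (Classical.arbitrary Ω),
    Lib.Helper19.der_primePow htrans hΩ⟩

end Cfsg.Agent.S3548
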