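import Mathlib
import Cfsg.Statements.S3560
import Cfsg.Agent.Lib.Helper19.Hamming
-- import your own Cfsg.Agent.* helpers here

set_option autoImplicit false
open Cfsg

namespace Cfsg.Agent.S3560

/-- Let K be a finite group isomorphic to a direct product of r ≥ 2 groups all of the same order m ≥ 3. Then K is not a B-group: there is a primitive but not doubly transitive permutation group (on some finite set) containing a regular subgroup isomorphic to K. -/
theorem result {K : Type*} [Group K] [Finite K] {ι : Type*} [Fintype ι] (F : ι → Type*) [∀ i, Group (F i)]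
    (hr : 2 ≤ Fintype.card ι) (m : ℕ) (hm : 3 ≤ m) (hcard : ∀ i, Nat.card (F i) = m) (e : K ≃* (∀ i, F i)) :
    ∃ (n : ℕ) (G R : Subgroup (Equiv.Perm (Fin n))), R ≤ G ∧ Nonempty (↥R ≃* K) ∧
      MulAction.IsPretransitive ↥R (Fin n) ∧ (∀ a : Fin n, MulAction.stabilizer ↥R a = ⊥) ∧
      MulAction.IsPreprimitive ↥G (Fin n) ∧ ¬ MulAction.IsMultiplyPretransitive ↥G (Fin n) 2 := by
  classical
  have hfin : ∀ i, Finite (F i) := fun i => Nat.finite_of_card_ne_zero (by rw [hcard i]; omega)
  let b : ∀ i, F i ≃ Fin m := fun i => Finite.equivFinOfCardEq (hcard i)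
  let ρ : (∀ i, F i) →* Equiv.Perm (ι → Fin m) :=
    { toFun := fun k => Equiv.piCongrRight (fun i => (b i).permCongr (Equiv.mulLeft (k i)))
      map_one' := by
        ext z i
        simp
      map_mul' := by
        intro k l
        ext z i
        simp }
  have hρ : ∀ (k : ∀ i, F i) (z : ι → Fin m) (i : ι),
      ρ k z i = b i (k i * (b i).symm (z i)) := fun k z i => rfl
  have hfix : ∀ (k : ∀ i, F i) (z : ι → Fin m), ρ k z = z → k = 1 := by
    intro k z h
    funext i
    have h1 := congrFun h i
    rw [hρ] at h1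
    have h2 : k i * (b i).symm (z i) = (b i).symm (z i) := by
      have h3 := congrArg (b i).symm h1
      rwa [Equiv.symm_apply_apply] at h3
    exact mul_eq_right.1 h2
  have hinj : Function.Injective (ρ.comp e.toMonoidHom) := by
    rw [injective_iff_map_eq_one]
    intro k hk
    have h1 : ρ (e k) = 1 := hk
    have h2 := hfix (e k) (fun i => b i 1) (by rw [h1]; rfl)
    exact e.injective (by rw [h2, map_one])
  have hcardm : Nat.card (Fin m) = m := by simp
  obtain ⟨n, G', R', h1, ⟨h2⟩, h3, h4, h5, h6⟩ :=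
    Lib.Helper19.Ham.transfer (Lib.Helper19.Ham.Iso ι (Fin m)) (ρ.comp e.toMonoidHom).range
    (by
      rintro _ ⟨k, rfl⟩
      exact Lib.Helper19.Ham.piCongrRight_mem _)
    (by
      constructor
      intro x y
      refine ⟨⟨ρ (fun i => (b i).symm (y i) * ((b i).symm (x i))⁻¹),
        ⟨e.symm (fun i => (b i).symm (y i) * ((b i).symm (x i))⁻¹), by simp⟩⟩, ?_⟩
      funext i
      show ρ (fun i => (b i).symm (y i) * ((b i).symm (x i))⁻¹) x i = y i
      rw [hρ]
      simp)
    (by
      intro a
      rw [eq_bot_iff]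
      rintro ⟨_, ⟨k, rfl⟩⟩ hg
      rw [MulAction.mem_stabilizer_iff] at hg
      have h1 : ρ (e k) a = a := hg
      have h2 := hfix _ _ h1
      have h3 : k = 1 := e.injective (by rw [h2, map_one])
      subst h3
      rw [Subgroup.mem_bot]
      apply Subtype.ext
      simp)
    (Lib.Helper19.Ham.isPreprimitive_Iso (by rw [hcardm]; exact hm))
    (Lib.Helper19.Ham.not_two_Iso hr (by rw [hcardm]; omega))
  exact ⟨n, G', R', h1, ⟨h2.trans (MonoidHom.ofInjective hinj).symm⟩, h3, h4, h5, h6⟩

end Cfsg.Agent.S3560
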