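import Cfsg.Statements.S3573


set_option autoImplicit false
open Cfsg

namespace Cfsg.Agent.S3573


theorem image_eq_of_closed {n : ℕ} (σ : Equiv.Perm (Fin n)) (s : Finset (Fin n))
    (h : ∀ y ∈ s, σ y ∈ s) : s.image σ = s := by
  apply Finset.eq_of_subset_of_card_le
  · intro y hy
    obtain ⟨x, hx, rfl⟩ := Finset.mem_image.1 hy
    exact h x hx
  · rw [Finset.card_image_of_injective _ σ.injective]

theorem closed_pow {n : ℕ} (σ : Equiv.Perm (Fin n)) (s : Finset (Fin n))
    (h : ∀ y ∈ s, σ y ∈ s) (i : ℕ) : ∀ y ∈ s, (σ ^ i) y ∈ s := by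
  induction i with
  | zero => intro y hy; simpa using hy
  | succ i ih =>
    intro y hy
    rw [pow_succ', Equiv.Perm.mul_apply]
    exact h _ (ih y hy)

theorem greedy {n r : ℕ} (hr : r.Prime) (σ : Equiv.Perm (Fin n)) (hσ : orderOf σ = r) :
    ∀ a : ℕ, a * r ≤ σ.support.card →
      ∃ T : Finset (Fin n), T ⊆ σ.support ∧ (∀ y ∈ T, σ y ∈ T) ∧ T.card = a * r := by
  intro a
  induction a with
  | zero => intro _; exact ⟨∅, by simp, by simp, by simp⟩
  | succ a ih =>
    intro h
    have hpos := hr.pos
    obtain ⟨T, hT1, hT2, hT3⟩ := ih (by nlinarith)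
    have hlt : T.card < σ.support.card := by
      rw [hT3]
      nlinarith
    obtain ⟨x, hx1, hx2⟩ := Finset.exists_mem_notMem_of_card_lt_card hlt
    have hx : σ x ≠ x := Equiv.Perm.mem_support.1 hx1
    have hOcard : (σ.cycleOf x).support.card = r := by
      have hc := Equiv.Perm.isCycle_cycleOf σ hx
      have h1 : orderOf (σ.cycleOf x) ∣ r := hσ ▸ Equiv.Perm.orderOf_cycleOf_dvd_orderOf σ x
      rw [hc.orderOf] at h1
      rcases (Nat.dvd_prime hr).1 h1 with h2 | h2
      · have := hc.two_le_card_support
        omega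
      · exact h2
    have hOmem : ∀ y, y ∈ (σ.cycleOf x).support ↔ σ.SameCycle x y :=
      fun y => Equiv.Perm.mem_support_cycleOf_iff' hx
    have hdisj : Disjoint T (σ.cycleOf x).support := by
      rw [Finset.disjoint_left]
      intro y hyT hyO
      obtain ⟨i, hi⟩ := ((hOmem y).1 hyO).symm.exists_nat_pow_eq
      exact hx2 (hi ▸ closed_pow σ T hT2 i y hyT)
    refine ⟨T ∪ (σ.cycleOf x).support, ?_, ?_, ?_⟩
    · apply Finset.union_subset hT1
      intro y hy
      exact Equiv.Perm.support_cycleOf_le σ x hy
    · intro y hy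
      rcases Finset.mem_union.1 hy with h | h
      · exact Finset.mem_union_left _ (hT2 y h)
      · exact Finset.mem_union_right _
          ((hOmem _).2 (Equiv.Perm.sameCycle_apply_right.2 ((hOmem y).1 h)))
    · rw [Finset.card_union_of_disjoint hdisj, hT3, hOcard]
      ring

theorem core {n k r : ℕ} (hr : r.Prime) (hkn : k ≤ n) (hrn : r ≤ n) :
    (∀ σ : Equiv.Perm (Fin n), orderOf σ = r →
      ∃ s : Finset (Fin n), s.card = k ∧ s.image σ = s) ↔ k % r ≤ n % r := by
  haveI : Fact r.Prime := ⟨hr⟩
  constructor
  · intro H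
    obtain ⟨σ, hσ⟩ := (Equiv.Perm.exists_with_cycleType_iff (Fin n)
      (m := Multiset.replicate (n / r) r)).2 ⟨by simp [Nat.div_mul_le_self], by
        intro a ha
        rw [Multiset.eq_of_mem_replicate ha]
        exact hr.two_le⟩
    have hnr : 1 ≤ n / r := (Nat.le_div_iff_mul_le hr.pos).2 (by omega)
    have hord : orderOf σ = r := by
      apply orderOf_eq_prime
      · rw [Equiv.Perm.pow_prime_eq_one_iff, hσ]
        intro c hc
        exact Multiset.eq_of_mem_replicate hc
      · intro h1
        rw [← Equiv.Perm.cycleType_eq_zero, hσ] at h1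
        have := congrArg Multiset.card h1
        rw [Multiset.card_replicate, Multiset.card_zero] at this
        omega
    have hsupp : σ.support.card = (n / r) * r := by
      rw [← Equiv.Perm.sum_cycleType, hσ]
      simp
    obtain ⟨s, hs1, hs2⟩ := H σ hord
    have hmem : ∀ x, σ x ∈ s ↔ x ∈ s := by
      intro x
      constructor
      · intro h
        rw [← hs2] at h
        obtain ⟨y, hy, hyx⟩ := Finset.mem_image.1 h
        rw [← σ.injective hyx]
        exact hy
      · intro h
        rw [← hs2]
        exact Finset.mem_image_of_mem _ h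
    have hτ : (σ.subtypePerm hmem) ^ r ^ 1 = 1 := by
      rw [pow_one, Equiv.Perm.subtypePerm_pow]
      ext x
      simp [← hord, pow_orderOf_eq_one]
    have h1 := Equiv.Perm.card_compl_support_modEq hτ
    have h2 : (σ.subtypePerm hmem).supportᶜ.card ≤ σ.supportᶜ.card := by
      apply Finset.card_le_card_of_injOn (fun x => x.1)
      · intro x hx
        simp only [Finset.coe_compl, Set.mem_compl_iff, Finset.mem_coe, Equiv.Perm.mem_support,
          not_not] at hx ⊢
        exact congrArg Subtype.val hx
      · exact Subtype.val_injective.injOn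
    have h3 : σ.supportᶜ.card = n % r := by
      rw [Finset.card_compl, hsupp, Fintype.card_fin]
      have := Nat.div_add_mod' n r
      omega
    rw [Fintype.card_coe, hs1] at h1
    have h4 : (σ.subtypePerm hmem).supportᶜ.card < r :=
      lt_of_le_of_lt (h2.trans h3.le) (Nat.mod_lt _ hr.pos)
    have h5 : k % r = (σ.subtypePerm hmem).supportᶜ.card := by
      have h6 : (σ.subtypePerm hmem).supportᶜ.card % r = k % r := h1
      rw [← h6, Nat.mod_eq_of_lt h4]
    omega
  · intro hle σ hσ
    obtain ⟨c, hc⟩ := Equiv.Perm.cycleType_prime_order (σ := σ) (by rw [hσ]; exact hr)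
    have hsupp : σ.support.card = (c + 1) * r := by
      rw [← Equiv.Perm.sum_cycleType, hc, hσ]
      simp
      ring
    have hsn : σ.support.card ≤ n := by simpa using σ.support.card_le_univ
    obtain ⟨a, ha⟩ : ∃ a, a = min (k / r) (c + 1) := ⟨_, rfl⟩
    have ha1 : a * r ≤ σ.support.card := by
      rw [hsupp]
      exact Nat.mul_le_mul_right r (ha ▸ min_le_right _ _)
    have ha2 : a * r ≤ k :=
      le_trans (Nat.mul_le_mul_right r (ha ▸ min_le_left _ _)) (Nat.div_mul_le_self k r)
    obtain ⟨T, hT1, hT2, hT3⟩ := greedy hr σ hσ a ha1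
    have hf : k - a * r ≤ σ.supportᶜ.card := by
      rw [Finset.card_compl, Fintype.card_fin, hsupp]
      rcases le_total (k / r) (c + 1) with h | h
      · rw [ha, min_eq_left h]
        have e1 := Nat.div_add_mod' k r
        have e2 := Nat.div_add_mod' n r
        have e3 : (c + 1) * r ≤ (n / r) * r :=
          Nat.mul_le_mul_right r ((Nat.le_div_iff_mul_le hr.pos).2 (hsupp ▸ hsn))
        omega
      · rw [ha, min_eq_right h]
        omega
    obtain ⟨E, hE1, hE2⟩ := Finset.exists_subset_card_eq hf
    refine ⟨T ∪ E, ?_, ?_⟩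
    · rw [Finset.card_union_of_disjoint
        (Finset.disjoint_of_subset_left hT1 (Finset.disjoint_of_subset_right hE1 disjoint_compl_right)),
        hT3, hE2]
      omega
    · apply image_eq_of_closed
      intro y hy
      rcases Finset.mem_union.1 hy with h | h
      · exact Finset.mem_union_left _ (hT2 y h)
      · have h7 : σ y = y := by
          have := hE1 h
          simpa using this
        rw [h7]
        exact hy


/-- Let 1 ≤ k with 2k < n and consider the symmetric group of degree n acting on the k-subsets of an n-set. Let r be a prime dividing the number C(n,k) of k-subsets. If r is odd, then every permutation of order r fixes some k-subset if and only if r ≤ k and the remainder of k modulo r is at most the remainder of n modulo r. If r = 2, then every involution fixes some k-subset if and only if k is even or n is odd. -/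
theorem result (n k : ℕ) (hk : 1 ≤ k) (hkn : 2 * k < n) (r : ℕ) (hr : r.Prime) (hrd : r ∣ Nat.choose n k) :
    (r ≠ 2 → ((∀ σ : Equiv.Perm (Fin n), orderOf σ = r → ∃ s : Finset (Fin n), s.card = k ∧ s.image σ = s) ↔
      (r ≤ k ∧ k % r ≤ n % r))) ∧
    (r = 2 → ((∀ σ : Equiv.Perm (Fin n), orderOf σ = 2 → ∃ s : Finset (Fin n), s.card = k ∧ s.image σ = s) ↔
      (Even k ∨ Odd n))) := by
  have hkn' : k ≤ n := by omega
  have hrn : r ≤ n := by
    have h1 : Nat.choose n k ∣ n.factorial :=
      ⟨k.factorial * (n - k).factorial, by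
        rw [← Nat.choose_mul_factorial_mul_factorial hkn']; ring⟩
    exact (hr.dvd_factorial).1 (hrd.trans h1)
  have hcore := core hr hkn' hrn
  constructor
  · intro _
    rw [hcore]
    constructor
    · intro h
      refine ⟨?_, h⟩
      by_contra hlt
      push Not at hlt
      haveI : Fact r.Prime := ⟨hr⟩
      have hL := Choose.choose_modEq_choose_mod_mul_choose_div_nat (n := n) (k := k) (p := r)
      rw [Nat.mod_eq_of_lt hlt, Nat.div_eq_of_lt hlt, Nat.choose_zero_right, mul_one] at hL
      rw [Nat.mod_eq_of_lt hlt] at h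
      have h2 : r ∣ Nat.choose (n % r) k :=
        (Nat.modEq_zero_iff_dvd.1 (hL.symm.trans (Nat.modEq_zero_iff_dvd.2 hrd)))
      have h3 : Nat.choose (n % r) k ∣ (n % r).factorial :=
        ⟨k.factorial * (n % r - k).factorial, by
          rw [← Nat.choose_mul_factorial_mul_factorial h]; ring⟩
      have h4 := (hr.dvd_factorial).1 (h2.trans h3)
      have := Nat.mod_lt n hr.pos
      omega
    · exact fun h => h.2
  · rintro rfl
    rw [hcore, Nat.even_iff, Nat.odd_iff]
    omega

end Cfsg.Agent.S3573
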