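import Mathlib
import Cfsg.Statements.S3680
import Cfsg.Agent.S0721
import Cfsg.Agent.Lib.Helper19.Socle
-- import your own Cfsg.Agent.* helpers here

set_option autoImplicit false
open Cfsg

namespace Cfsg.Agent.S3680

/-- The socle of a finite primitive permutation group. Let a finite group G act faithfully and primitively on a set Ω, and let N be the subgroup generated by the minimal normal subgroups of G. Then either N is an elementary abelian p-group for some prime p and acts regularly on Ω (transitively with trivial point stabilizers), or N is isomorphic to a direct product of m ≥ 1 copies of a non-abelian simple group. -/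
theorem result {G Ω : Type*} [Group G] [Finite G] [MulAction G Ω] [FaithfulSMul G Ω] [Finite Ω]
    (hprim : MulAction.IsPreprimitive G Ω) (N : Subgroup G)
    (hN : N = sSup {V : Subgroup G | V.Normal ∧ V ≠ ⊥ ∧ ∀ M : Subgroup G, M.Normal → M ≤ V → M = ⊥ ∨ M = V}) :
    (∃ p : ℕ, p.Prime ∧ IsMulCommutative N ∧ (∀ x : N, x ^ p = 1) ∧
      MulAction.IsPretransitive N Ω ∧ ∀ ω : Ω, MulAction.stabilizer N ω = ⊥) ∨
    (∃ (T : Type) (_ : Group T) (m : ℕ), 1 ≤ m ∧ IsSimpleGroup T ∧ ¬ IsMulCommutative T ∧ Nonempty (N ≃* (Fin m → T))) := by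
  classical
  by_cases htriv : (⊤ : Subgroup G) = ⊥
  · -- the trivial group
    have hG : ∀ g : G, g = 1 := fun g => by
      have : g ∈ (⊤ : Subgroup G) := Subgroup.mem_top g
      rwa [htriv, Subgroup.mem_bot] at this
    left
    refine ⟨2, Nat.prime_two, ⟨⟨fun a b => Subtype.ext (by rw [hG (a * b : N), hG (b * a : N)])⟩⟩,
      fun x => Subtype.ext (hG _), ⟨fun a b => ?_⟩, fun ω => ?_⟩
    · obtain ⟨g, hg⟩ := hprim.toIsPretransitive.exists_smul_eq a b
      rw [hG g, one_smul] at hg
      exact ⟨1, by rw [one_smul, hg]⟩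
    · rw [eq_bot_iff]
      intro x _
      exact Subtype.ext (hG _)
  obtain ⟨V, hVn, hV0, -, hVmin⟩ := Cfsg.Agent.H4.exists_minimal_normal_le
    (inferInstance : (⊤ : Subgroup G).Normal) htriv
  haveI := hVn
  haveI hne : Nonempty Ω := by
    by_contra hemp
    rw [not_nonempty_iff] at hemp
    apply htriv
    rw [eq_bot_iff]
    intro g _
    exact FaithfulSMul.eq_of_smul_eq_smul (α := Ω) (fun a => hemp.elim a)
  haveI hVt := Cfsg.Agent.Lib.Helper19.normal_transitive hprim V hV0
  have hVmem : V ∈ {V : Subgroup G | V.Normal ∧ V ≠ ⊥ ∧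
      ∀ M : Subgroup G, M.Normal → M ≤ V → M = ⊥ ∨ M = V} := ⟨hVn, hV0, hVmin⟩
  -- other minimal normal subgroups centralize V
  have hcent : ∀ W : Subgroup G, W.Normal → W ≠ ⊥ →
      (∀ M : Subgroup G, M.Normal → M ≤ W → M = ⊥ ∨ M = W) → W ≠ V →
      V ⊓ W = ⊥ ∧ ∀ v ∈ V, ∀ w ∈ W, v * w = w * v := by
    intro W hWn hW0 hWmin hWV
    haveI := hWn
    have hinf := Cfsg.Agent.Lib.Helper19.minimal_normal_inf V W hV0 hVmin hWmin hWV
    exact ⟨hinf, fun v hv w hw =>
      (Subgroup.commute_of_normal_of_disjoint V W hVn hWn (disjoint_iff.mpr hinf) v w hv hw).eq⟩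
  by_cases hab : ∀ x ∈ V, ∀ y ∈ V, x * y = y * x
  · -- abelian case
    left
    obtain ⟨-, hreg, hCV⟩ := Cfsg.Agent.Lib.Helper19.abelian_normal_facts hprim V hV0 hab
    have hNV : N = V := by
      rw [hN]
      apply le_antisymm
      · apply sSup_le
        rintro W ⟨hWn, hW0, hWmin⟩
        by_contra hle
        have hWV : W ≠ V := fun h => hle (h ▸ le_rfl)
        obtain ⟨-, hc⟩ := hcent W hWn hW0 hWmin hWV
        apply hle
        refine le_trans ?_ hCV
        intro w hw
        rw [Subgroup.mem_centralizer_iff]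
        intro v hv
        exact hc v hv w hw
      · exact le_sSup hVmem
    subst hNV
    obtain ⟨p, hp, hexp⟩ := Cfsg.Agent.Lib.Helper19.exists_prime_exponent N hV0 hVmin hab
    refine ⟨p, hp, ⟨⟨fun a b => Subtype.ext (hab a a.2 b b.2)⟩⟩, fun x => Subtype.ext (hexp x x.2),
      hVt, fun ω => ?_⟩
    rw [eq_bot_iff]
    intro x hx
    rw [MulAction.mem_stabilizer_iff] at hx
    exact Subtype.ext (hreg ω x x.2 hx)
  · -- non-abelian case
    right
    obtain ⟨T, iT, m, hT, hm, ⟨e⟩⟩ := Cfsg.Agent.S0721.result V hV0 hVmin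
    have hTnc : ¬ IsMulCommutative T := by
      intro hTc
      apply hab
      intro x hx y hy
      have h1 : e ⟨x, hx⟩ * e ⟨y, hy⟩ = e ⟨y, hy⟩ * e ⟨x, hx⟩ := by
        funext i
        exact mul_comm' _ _
      rw [← map_mul, ← map_mul] at h1
      exact congrArg Subtype.val (e.injective h1)
    by_cases hex : ∃ W : Subgroup G, W.Normal ∧ W ≠ ⊥ ∧
        (∀ M : Subgroup G, M.Normal → M ≤ W → M = ⊥ ∨ M = W) ∧ W ≠ V
    · obtain ⟨W, hWn, hW0, hWmin, hWV⟩ := hex
      haveI := hWn
      haveI hWt := Cfsg.Agent.Lib.Helper19.normal_transitive hprim W hW0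
      obtain ⟨hinf, hc⟩ := hcent W hWn hW0 hWmin hWV
      have hWC : W ≤ Subgroup.centralizer (V : Set G) := by
        intro w hw
        rw [Subgroup.mem_centralizer_iff]
        intro v hv
        exact hc v hv w hw
      have hCW := Cfsg.Agent.Lib.Helper19.centralizer_le_of_transitive (Θ := Ω) V W hWC
      have hNVW : N = V ⊔ W := by
        rw [hN]
        apply le_antisymm
        · apply sSup_le
          rintro U ⟨hUn, hU0, hUmin⟩
          by_cases hUV : U = V
          · rw [hUV]; exact le_sup_left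
          · obtain ⟨-, hc'⟩ := hcent U hUn hU0 hUmin hUV
            refine le_trans ?_ le_sup_right
            refine le_trans ?_ hCW
            intro u hu
            rw [Subgroup.mem_centralizer_iff]
            intro v hv
            exact hc' v hv u hu
        · exact sup_le (le_sSup hVmem) (le_sSup ⟨hWn, hW0, hWmin⟩)
      obtain ⟨e1⟩ := Cfsg.Agent.S0721.sup_equiv_prod hinf hc
      obtain ⟨e2⟩ := Cfsg.Agent.Lib.Helper19.equiv_of_commuting_transitive (Θ := Ω) V W hc
      refine ⟨T, iT, m + m, by omega, hT, hTnc, ⟨?_⟩⟩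
      exact (MulEquiv.subgroupCongr hNVW).trans (e1.trans ((MulEquiv.prodCongr e (e2.symm.trans e)).trans
        (Cfsg.Agent.Lib.Helper19.prodPowEquiv T m m)))
    · have hNV : N = V := by
        rw [hN]
        apply le_antisymm
        · apply sSup_le
          rintro W ⟨hWn, hW0, hWmin⟩
          by_contra hle
          exact hex ⟨W, hWn, hW0, hWmin, fun h => hle (h ▸ le_rfl)⟩
        · exact le_sSup hVmem
      exact ⟨T, iT, m, hm, hT, hTnc, ⟨(MulEquiv.subgroupCongr hNV).trans e⟩⟩

end Cfsg.Agent.S3680
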