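import Mathlib
import Cfsg.Statements.S3683
-- import your own Cfsg.Agent.* helpers here

set_option autoImplicit false
open Cfsg

namespace Cfsg.Agent.S3683

/-- Let a finite group G act faithfully and primitively on a set Ω, and suppose the stabilizer of a point a fixes a second point b ≠ a (a suborbit of length 1 other than {a}). Then the stabilizer of a is trivial and G is cyclic of prime order. -/
theorem result {G Ω : Type*} [Group G] [Finite G] [MulAction G Ω] [FaithfulSMul G Ω] [Finite Ω]
    (hprim : MulAction.IsPreprimitive G Ω) (a b : Ω) (hab : a ≠ b) (hfix : ∀ g : G, g • a = a → g • b = b) :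
    MulAction.stabilizer G a = ⊥ ∧ IsCyclic G ∧ (Nat.card G).Prime := by
  classical
  haveI := hprim
  haveI : MulAction.IsPretransitive G Ω := hprim.toIsPretransitive
  haveI : Nontrivial Ω := ⟨⟨a, b, hab⟩⟩
  have hco : IsCoatom (MulAction.stabilizer G a) :=
    (MulAction.isCoatom_stabilizer_iff_preprimitive G a).mpr hprim
  obtain ⟨g, hg⟩ := MulAction.exists_smul_eq G a b
  have hle : MulAction.stabilizer G a ≤ MulAction.stabilizer G b := fun x hx => hfix x hx
  have hconj : MulAction.stabilizer G b = (MulAction.stabilizer G a).map (MulAut.conj g).toMonoidHom := by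
    rw [← hg]; exact MulAction.stabilizer_smul_eq_stabilizer_map_conj g a
  have hcard : Nat.card (MulAction.stabilizer G b) = Nat.card (MulAction.stabilizer G a) := by
    rw [hconj]
    exact Subgroup.card_map_of_injective (MulAut.conj g).injective
  have heq : MulAction.stabilizer G a = MulAction.stabilizer G b :=
    Subgroup.eq_of_le_of_card_ge hle hcard.le
  have hgn : g ∈ Subgroup.normalizer (MulAction.stabilizer G a : Set G) := by
    rw [Subgroup.mem_normalizer_iff]
    intro h
    constructor
    · intro hh
      have : g * h * g⁻¹ ∈ MulAction.stabilizer G b := by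
        rw [hconj]; exact ⟨h, hh, rfl⟩
      rwa [← heq] at this
    · intro hh
      rw [heq, hconj] at hh
      obtain ⟨h', hh', h2⟩ := hh
      have : h' = h := by
        have h3 : g * h' * g⁻¹ = g * h * g⁻¹ := h2
        simpa using h3
      rwa [← this]
  have hgna : g ∉ MulAction.stabilizer G a := by
    intro h; rw [MulAction.mem_stabilizer_iff, hg] at h; exact hab h.symm
  have hnorm : Subgroup.normalizer (MulAction.stabilizer G a : Set G) = ⊤ := by
    apply hco.2
    exact lt_of_le_of_ne Subgroup.le_normalizer (fun h => hgna (by rw [h]; exact hgn))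
  have hbot : MulAction.stabilizer G a = ⊥ := by
    rw [Subgroup.eq_bot_iff_forall]
    intro h hh
    apply FaithfulSMul.eq_of_smul_eq_smul (α := Ω)
    intro ω
    obtain ⟨k, rfl⟩ := MulAction.exists_smul_eq G a ω
    have hk : k⁻¹ ∈ Subgroup.normalizer (MulAction.stabilizer G a : Set G) := by rw [hnorm]; trivial
    have := (Subgroup.mem_normalizer_iff.mp hk h).mp hh
    rw [MulAction.mem_stabilizer_iff] at this
    simp only [inv_inv, mul_smul] at this
    rw [one_smul]
    have h2 := congrArg (fun z => k • z) this
    simpa using h2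
  rw [hbot] at hco
  have hg1 : g ≠ 1 := by
    rintro rfl; rw [one_smul] at hg; exact hab hg
  have htop : Subgroup.zpowers g = ⊤ := by
    apply hco.2
    exact bot_lt_iff_ne_bot.mpr (Subgroup.zpowers_ne_bot.mpr hg1)
  have hcyc : IsCyclic G := ⟨⟨g, fun x => by
    have : x ∈ (⊤ : Subgroup G) := trivial
    rwa [← htop] at this⟩⟩
  refine ⟨hbot, hcyc, ?_⟩
  haveI := hcyc
  haveI : Nontrivial G := ⟨⟨g, 1, hg1⟩⟩
  have hsimple : IsSimpleGroup G := by
    refine ⟨fun H _ => ?_⟩
    by_cases hH : H = ⊥
    · exact Or.inl hH
    · exact Or.inr (hco.2 H (bot_lt_iff_ne_bot.mpr hH))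
  exact Group.is_simple_iff_prime_card.mp hsimple


end Cfsg.Agent.S3683
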