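import Cfsg.Statements.S3684
import Mathlib
-- import your own Cfsg.Agent.* helpers here
import Cfsg.Agent.Lib.Helper2.DihedralHom

set_option autoImplicit false
open Cfsg

namespace Cfsg.Agent.S3684


theorem mem_norm_of_conj_le {G : Type*} [Group G] (H : Subgroup G) [Finite H] (g : G)
    (h : ∀ x ∈ H, g * x * g⁻¹ ∈ H) : g ∈ Subgroup.normalizer (H : Set G) := by
  have hle : H.map (MulAut.conj g).toMonoidHom ≤ H := by
    rintro _ ⟨x, hx, rfl⟩
    exact h x hx
  have hcard : Nat.card (H.map (MulAut.conj g).toMonoidHom) = Nat.card H :=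
    Subgroup.card_map_of_injective (MulAut.conj g).injective
  have heq : H.map (MulAut.conj g).toMonoidHom = H := Subgroup.eq_of_le_of_card_ge hle hcard.ge
  rw [Subgroup.mem_normalizer_iff]
  intro x
  refine ⟨h x, fun hx => ?_⟩
  rw [← heq] at hx
  obtain ⟨y, hy, hyx⟩ := hx
  have : y = x := (MulAut.conj g).injective hyx
  exact this ▸ hy


/-- Let a finite group G act faithfully and primitively on a set Ω, and suppose the stabilizer of a point a has an orbit of length 2. Then the stabilizer of a has order 2 and G is isomorphic to the dihedral group of order 2p for some prime p. -/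
theorem result {G Ω : Type*} [Group G] [Finite G] [MulAction G Ω] [FaithfulSMul G Ω] [Finite Ω]
    (hprim : MulAction.IsPreprimitive G Ω) (a b : Ω) (h2 : Nat.card (MulAction.orbit (MulAction.stabilizer G a) b) = 2) :
    Nat.card (MulAction.stabilizer G a) = 2 ∧ ∃ p : ℕ, p.Prime ∧ Nonempty (G ≃* DihedralGroup p) := by
  classical
  haveI := hprim
  haveI : MulAction.IsPretransitive G Ω := hprim.toIsPretransitive
  have hab : a ≠ b := by
    rintro rfl
    have : MulAction.orbit (MulAction.stabilizer G a) a = {a} := by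
      ext x
      constructor
      · rintro ⟨g, rfl⟩
        exact g.2
      · rintro rfl
        exact MulAction.mem_orbit_self _
    rw [this] at h2
    simp at h2
  haveI : Nontrivial Ω := ⟨a, b, hab⟩
  set Ha := MulAction.stabilizer G a with hHa
  set Hb := MulAction.stabilizer G b with hHb
  set K := Ha ⊓ Hb with hK
  have hKa : K.relIndex Ha = 2 := by
    have h1 := MulAction.index_stabilizer (G := Ha) (x := b)
    have h3 : MulAction.stabilizer Ha b = Hb.subgroupOf Ha := by
      ext g
      rw [MulAction.mem_stabilizer_iff, Subgroup.mem_subgroupOf, hHb, MulAction.mem_stabilizer_iff]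
      rfl
    rw [hK, Subgroup.inf_relIndex_left, Subgroup.relIndex, ← h3, h1]
    exact h2
  have hia : Ha.index = Nat.card Ω := MulAction.index_stabilizer_of_transitive G a
  have hib : Hb.index = Nat.card Ω := MulAction.index_stabilizer_of_transitive G b
  have hΩ : 0 < Nat.card Ω := Nat.card_pos
  have hKb : K.relIndex Hb = 2 := by
    have h1 := Subgroup.relIndex_mul_index (inf_le_left : K ≤ Ha)
    have h3 := Subgroup.relIndex_mul_index (inf_le_right : K ≤ Hb)
    rw [hia, hKa] at h1
    rw [hib, ← h1] at h3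
    exact Nat.eq_of_mul_eq_mul_right hΩ h3
  have hna : Ha ≤ Subgroup.normalizer (K : Set G) :=
    (Subgroup.normal_subgroupOf_iff_le_normalizer inf_le_left).mp (Subgroup.normal_of_index_eq_two hKa)
  have hnb : Hb ≤ Subgroup.normalizer (K : Set G) :=
    (Subgroup.normal_subgroupOf_iff_le_normalizer inf_le_right).mp (Subgroup.normal_of_index_eq_two hKb)
  have hco : IsCoatom Ha := MulAction.IsPreprimitive.isCoatom_stabilizer_of_isPreprimitive G a
  have hnle : ¬ Hb ≤ Ha := by
    intro hle
    have : K = Hb := inf_eq_right.mpr hle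
    rw [this, Subgroup.relIndex_self] at hKb
    norm_num at hKb
  have hsup : Ha ⊔ Hb = ⊤ := hco.2 _ (left_lt_sup.mpr hnle)
  have hKn : K.Normal := by
    rw [← Subgroup.normalizer_eq_top_iff, eq_top_iff, ← hsup]
    exact sup_le hna hnb
  have hKbot : K = ⊥ := by
    rw [eq_bot_iff]
    intro k hk
    rw [Subgroup.mem_bot]
    apply FaithfulSMul.eq_of_smul_eq_smul (α := Ω)
    intro x
    obtain ⟨g, rfl⟩ := MulAction.exists_smul_eq G a x
    have h1 : g⁻¹ * k * g ∈ K := by
      have := hKn.conj_mem k hk g⁻¹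
      rwa [inv_inv] at this
    have h3 : (g⁻¹ * k * g) • a = a := MulAction.mem_stabilizer_iff.mp h1.1
    rw [one_smul]
    calc k • g • a = g • (g⁻¹ * k * g) • a := by simp only [← mul_smul]; congr 1; group
      _ = g • a := by rw [h3]
  have hca : Nat.card Ha = 2 := by
    rw [hKbot, Subgroup.relIndex_bot_left] at hKa
    exact hKa
  have hcb : Nat.card Hb = 2 := by
    rw [hKbot, Subgroup.relIndex_bot_left] at hKb
    exact hKb
  refine ⟨hca, ?_⟩
  haveI : Fact (Nat.Prime 2) := ⟨Nat.prime_two⟩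
  obtain ⟨t', ht'⟩ := exists_prime_orderOf_dvd_card' (G := Ha) 2 (by rw [hca])
  obtain ⟨s', hs'⟩ := exists_prime_orderOf_dvd_card' (G := Hb) 2 (by rw [hcb])
  set t : G := t'.1 with ht
  set s : G := s'.1 with hs
  have hto : orderOf t = 2 := by rw [ht, Subgroup.orderOf_coe, ht']
  have hso : orderOf s = 2 := by rw [hs, Subgroup.orderOf_coe, hs']
  have hza : Subgroup.zpowers t = Ha :=
    Subgroup.eq_of_le_of_card_ge (Subgroup.zpowers_le.mpr t'.2) (by rw [Nat.card_zpowers, hto, hca])
  have hzb : Subgroup.zpowers s = Hb :=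
    Subgroup.eq_of_le_of_card_ge (Subgroup.zpowers_le.mpr s'.2) (by rw [Nat.card_zpowers, hso, hcb])
  have hcl : Subgroup.closure ({t, s} : Set G) = ⊤ := by
    rw [eq_top_iff, ← hsup, ← hza, ← hzb]
    apply sup_le
    · rw [Subgroup.zpowers_le]; exact Subgroup.subset_closure (by simp)
    · rw [Subgroup.zpowers_le]; exact Subgroup.subset_closure (by simp)
  obtain ⟨e⟩ := Cfsg.Agent.Lib.Helper2.nonempty_closure_pair_mulEquiv_dihedral hto hso
  have e' : G ≃* DihedralGroup (orderOf (t * s)) :=
    (Subgroup.topEquiv.symm.trans (MulEquiv.subgroupCongr hcl.symm)).trans e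
  have hn : orderOf (t * s) = Nat.card Ω := by
    have h1 := Nat.card_congr e'.toEquiv
    rw [DihedralGroup.nat_card] at h1
    have h3 := Subgroup.card_mul_index Ha
    rw [hca, hia, h1] at h3
    omega
  refine ⟨orderOf (t * s), ?_, ⟨e'⟩⟩
  set ρ := t * s with hρ
  have hΩ1 : Nat.card Ω ≠ 1 := by
    have := Finite.one_lt_card (α := Ω)
    omega
  have hr : (orderOf ρ).minFac.Prime := Nat.minFac_prime (by rw [hn]; exact hΩ1)
  have hrd : (orderOf ρ).minFac ∣ orderOf ρ := Nat.minFac_dvd _
  set r := (orderOf ρ).minFac with hrdef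
  set ν := ρ ^ (orderOf ρ / r) with hν
  have hνo : orderOf ν = r := orderOf_pow_orderOf_div (orderOf_pos ρ).ne' hrd
  have ht2 : t * t = 1 := by rw [← pow_two, ← hto, pow_orderOf_eq_one]
  have hs2 : s * s = 1 := by rw [← pow_two, ← hso, pow_orderOf_eq_one]
  have hti : t⁻¹ = t := inv_eq_of_mul_eq_one_left ht2
  have hsi : s⁻¹ = s := inv_eq_of_mul_eq_one_left hs2
  have hinvt : t * ρ * t⁻¹ = ρ⁻¹ := by
    rw [hρ, mul_inv_rev, hti, hsi, ← mul_assoc, ht2, one_mul]
  have hinvs : s * ρ * s⁻¹ = ρ⁻¹ := by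
    rw [hρ, mul_inv_rev, hti, hsi, mul_assoc, mul_assoc, hs2, mul_one]
  have hnorm : ∀ x : G, x * ρ * x⁻¹ = ρ⁻¹ → x ∈ Subgroup.normalizer ((Subgroup.zpowers ν : Subgroup G) : Set G) := by
    intro x hx
    apply mem_norm_of_conj_le
    intro y hy
    obtain ⟨i, rfl⟩ := Subgroup.mem_zpowers_iff.mp hy
    have h1 : x * ν ^ i * x⁻¹ = (ν ^ i)⁻¹ := by
      have h3 : MulAut.conj x ρ = ρ⁻¹ := hx
      have h4 : MulAut.conj x (ν ^ i) = (ν ^ i)⁻¹ := by
        rw [hν, map_zpow, map_pow, h3, inv_pow, inv_zpow]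
      exact h4
    rw [h1]
    exact Subgroup.inv_mem _ (Subgroup.zpow_mem_zpowers _ _)
  haveI hNn : (Subgroup.zpowers ν).Normal := by
    rw [← Subgroup.normalizer_eq_top_iff, eq_top_iff, ← hcl, Subgroup.closure_le]
    rintro x (rfl | rfl)
    · exact hnorm _ hinvt
    · exact hnorm _ hinvs
  have hfix : MulAction.fixedPoints (Subgroup.zpowers ν) Ω ≠ Set.univ := by
    intro h
    have h1 : ν = 1 := by
      apply FaithfulSMul.eq_of_smul_eq_smul (α := Ω)
      intro x
      have : x ∈ MulAction.fixedPoints (Subgroup.zpowers ν) Ω := h ▸ Set.mem_univ x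
      rw [one_smul]
      exact this ⟨ν, Subgroup.mem_zpowers ν⟩
    rw [h1, orderOf_one] at hνo
    exact hr.one_lt.ne hνo
  haveI := MulAction.IsQuasiPreprimitive.isPretransitive_of_normal (G := G) (X := Ω) hfix
  have hdv : Nat.card Ω ∣ r := by
    have h1 := MulAction.index_stabilizer_of_transitive (Subgroup.zpowers ν) a
    have h3 := Subgroup.index_dvd_card (MulAction.stabilizer (Subgroup.zpowers ν) a)
    rw [h1, Nat.card_zpowers, hνo] at h3
    exact h3
  rcases (Nat.dvd_prime hr).mp hdv with h | h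
  · exact absurd h hΩ1
  · rw [hn, h]; exact hr

end Cfsg.Agent.S3684
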