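import Cfsg.Statements.S3703
import Cfsg.Agent.H20.FrobP
import Cfsg.Agent.H20.Fpf4
-- import your own Cfsg.Agent.* helpers here

set_option autoImplicit false
open Cfsg

namespace Cfsg.Agent.S3703

open scoped Pointwise

/-- Let N be a normal subgroup of the finite group G such that G/N is a Frobenius group with kernel F and cyclic complement H, where the order of F is coprime to that of N and F is not contained in the image of C_G(N) in G/N. Then G has an element of order p·#H for some prime p dividing the order of N. (A standard tool in recognising groups by their element orders.) -/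
theorem result {G : Type*} [Group G] [Finite G] (N : Subgroup G) [N.Normal]
    (Fb Hb : Subgroup (G ⧸ N)) [Fb.Normal] (hHb : Cfsg.IsFrobeniusComplement Hb) (hker : Cfsg.frobeniusKernel Hb = (Fb : Set (G ⧸ N)))
    (hcyc : IsCyclic Hb) (hcop : (Nat.card Fb).Coprime (Nat.card N))
    (hnot : ¬ Fb ≤ (Subgroup.centralizer (N : Set G)).map (QuotientGroup.mk' N)) :
    ∃ p : ℕ, p.Prime ∧ p ∣ Nat.card N ∧ ∃ g : G, orderOf g = p * Nat.card Hb := by
  classical
  set h := Nat.card Hb with hh
  set π := QuotientGroup.mk' N with hπ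
  have hπs : Function.Surjective π := QuotientGroup.mk'_surjective N
  have hπN : ∀ z : G, π z = 1 ↔ z ∈ N := fun z => QuotientGroup.eq_one_iff z
  have hh0 : 0 < h := Nat.card_pos
  by_contra hcon
  push Not at hcon
  -- (*)
  have star : ∀ y : G, orderOf (π y) = h → y ^ h = 1 := by
    intro y hy
    by_contra hne
    have hyN : y ^ h ∈ N := by
      rw [← hπN, map_pow, ← hy, pow_orderOf_eq_one]
    have hdvd : h ∣ orderOf y := hy ▸ orderOf_map_dvd π y
    set s := orderOf (y ^ h) with hs
    have hs1 : s ≠ 1 := fun e => hne (orderOf_eq_one_iff.1 e)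
    have hs0 : 0 < s := orderOf_pos _
    have hsN : s ∣ Nat.card N := by
      have := orderOf_dvd_natCard (⟨y ^ h, hyN⟩ : N)
      rwa [Subgroup.orderOf_mk] at this
    have hord : orderOf y = h * s := by
      have := orderOf_pow_of_dvd hh0.ne' hdvd
      rw [hs, this, Nat.mul_div_cancel' hdvd]
    obtain ⟨p, hp, hps⟩ := Nat.exists_prime_and_dvd hs1
    obtain ⟨t, ht⟩ := hps
    have ht0 : t ≠ 0 := by
      rintro rfl
      rw [mul_zero] at ht
      omega
    apply hcon p hp (Dvd.dvd.trans ⟨t, ht⟩ hsN) (y ^ t)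
    rw [orderOf_pow_of_dvd ht0 (by rw [hord, ht]; exact ⟨h * p, by ring⟩), hord, ht]
    rw [show h * (p * t) = (p * h) * t by ring, Nat.mul_div_cancel _ (Nat.pos_of_ne_zero ht0)]
  -- Frobenius facts
  have hFH : ∀ w ∈ Fb, w ∈ Hb → w = 1 := by
    intro w hwF hwH
    have : w ∈ Cfsg.frobeniusKernel Hb := by rw [hker]; exact hwF
    rcases this with h1 | h1
    · exact h1
    · exact absurd (by rw [Cfsg.H1.mem_conj_smul_iff]; simpa using hwH) (h1 1)
  have hout : ∀ w : G ⧸ N, w ∉ Fb → w ≠ 1 ∧ ∃ g : G ⧸ N, w ∈ MulAut.conj g • Hb := by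
    intro w hw
    have : w ∉ Cfsg.frobeniusKernel Hb := by rw [hker]; exact hw
    simp only [Cfsg.frobeniusKernel, Set.mem_setOf_eq, not_or, not_forall, not_not] at this
    exact this
  have hN3 : ∀ w : G ⧸ N, w ∉ Fb → ∀ f ∈ Fb, f * w = w * f → f = 1 := by
    intro w hw f hf hcomm
    by_contra hf1
    obtain ⟨hw1, g, hg⟩ := hout w hw
    rw [Cfsg.H1.mem_conj_smul_iff] at hg
    have hfk : f ∈ Cfsg.frobeniusKernel Hb := by rw [hker]; exact hf
    have hfg : g⁻¹ * f * g ∉ Hb := by
      rcases hfk with h1 | h1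
      · exact absurd h1 hf1
      · intro h2; exact h1 g (Cfsg.H1.mem_conj_smul_iff.2 h2)
    have h3 := hHb.2.2 _ hfg
    have h4 : g⁻¹ * w * g ∈ Hb ⊓ MulAut.conj (g⁻¹ * f * g) • Hb := by
      refine ⟨hg, ?_⟩
      change g⁻¹ * w * g ∈ MulAut.conj (g⁻¹ * f * g) • Hb
      rw [Cfsg.H1.mem_conj_smul_iff]
      have h5 : f⁻¹ * w * f = w := by rw [mul_assoc, ← hcomm, inv_mul_cancel_left]
      have h6 : (g⁻¹ * f * g)⁻¹ * (g⁻¹ * w * g) * (g⁻¹ * f * g) = g⁻¹ * (f⁻¹ * w * f) * g := by group
      rw [h6, h5]
      exact hg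
    rw [h3, Subgroup.mem_bot] at h4
    apply hw1
    have : w = g * (g⁻¹ * w * g) * g⁻¹ := by group
    rw [this, h4]; group
  -- generator of Hb
  obtain ⟨⟨y0b, hy0H⟩, hgen⟩ := hcyc.exists_generator
  have hy0ord : orderOf y0b = h := by
    have := orderOf_eq_card_of_forall_mem_zpowers hgen
    rwa [Subgroup.orderOf_mk] at this
  have hy0F : ∀ i : ℕ, y0b ^ i ∈ Fb → h ∣ i := by
    intro i hi
    rw [← hy0ord]
    exact orderOf_dvd_of_pow_eq_one (hFH _ hi (Hb.pow_mem hy0H i))
  have hh1 : h ≠ 1 := by
    intro e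
    exact hHb.1 ((Subgroup.card_eq_one).1 e)
  set K := Fb.comap π with hK
  have hKn : K.Normal := inferInstance
  have L : ∀ (c : N) (S : Subgroup N), (MulAut.conj c • S).map N.subtype = MulAut.conj (c : G) • S.map N.subtype := by
    intro c S
    ext u
    rw [Cfsg.H1.mem_conj_smul_iff]
    constructor
    · rintro ⟨y, hy, rfl⟩
      rw [SetLike.mem_coe, Cfsg.H1.mem_conj_smul_iff] at hy
      exact ⟨_, hy, by simp⟩
    · rintro ⟨y, hy, hyu⟩
      refine ⟨c * y * c⁻¹, ?_, ?_⟩
      · rw [SetLike.mem_coe, Cfsg.H1.mem_conj_smul_iff]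
        have : c⁻¹ * (c * y * c⁻¹) * c = y := by group
        rw [this]; exact hy
      · have h1 : (N.subtype y : G) = (c : G)⁻¹ * u * c := hyu
        simp only [map_mul, map_inv, h1, Subgroup.subtype_apply]
        group
  have main : ∀ (r : ℕ) [Fact r.Prime], ¬ r ∣ Nat.card N → ∀ R : Sylow r K,
      (R : Subgroup K).map K.subtype ≤ Subgroup.centralizer (N : Set G) := by
    intro r hr hrN R
    set R' := (R : Subgroup K).map K.subtype with hR'
    have hR'K : R' ≤ K := Subgroup.map_subtype_le _
    have hR'p : IsPGroup r R' := R.2.map _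
    have hcopN : (Nat.card N).Coprime r := ((Nat.Prime.coprime_iff_not_dvd hr.out).2 hrN).symm
    have hR'card : (Nat.card R').Coprime (Nat.card N) := by
      obtain ⟨k, hk⟩ := IsPGroup.iff_card.1 hR'p
      rw [hk]; exact Nat.Coprime.pow_left k hcopN.symm
    have hfr := Sylow.normalizer_sup_eq_top R
    obtain ⟨y0, hy0⟩ := hπs y0b
    obtain ⟨x, hx, k, hk, hxk⟩ := Subgroup.mem_sup_of_normal_right.1 (hfr ▸ Subgroup.mem_top y0)
    have hx' : x ∈ Subgroup.normalizer (R' : Set G) := hx
    have hnb : ∀ i : ℕ, (π x) ^ i ∈ Fb → h ∣ i := by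
      intro i hi
      apply hy0F
      have e1 : QuotientGroup.mk' Fb (π x) = QuotientGroup.mk' Fb y0b := by
        rw [← hy0, ← hxk, map_mul π, map_mul]
        have : QuotientGroup.mk' Fb (π k) = 1 := (QuotientGroup.eq_one_iff _).2 hk
        rw [this, mul_one]
      have e2 : QuotientGroup.mk' Fb ((π x) ^ i) = 1 := (QuotientGroup.eq_one_iff _).2 hi
      rw [map_pow, e1, ← map_pow] at e2
      exact (QuotientGroup.eq_one_iff _).1 e2
    have hxF : π x ∉ Fb := by
      intro hc
      have := hnb 1 (by rwa [pow_one])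
      exact hh1 (Nat.dvd_one.1 this)
    have hxord : orderOf (π x) = h := by
      apply Nat.dvd_antisymm
      · apply orderOf_dvd_of_pow_eq_one
        obtain ⟨-, g, hg⟩ := hout _ hxF
        rw [Cfsg.H1.mem_conj_smul_iff] at hg
        have h1 : (g⁻¹ * π x * g) ^ h = 1 := by
          have := pow_card_eq_one' (G := Hb) (x := ⟨_, hg⟩)
          exact congrArg Subtype.val this
        have h2 : (g⁻¹ * π x * g) ^ h = g⁻¹ * (π x) ^ h * g := by
          have := conj_pow (a := g⁻¹) (b := π x) (i := h)
          simpa using this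
        rw [h2] at h1
        have : (π x) ^ h = g * (g⁻¹ * (π x) ^ h * g) * g⁻¹ := by group
        rw [this, h1]; group
      · apply hnb
        rw [pow_orderOf_eq_one]; exact Fb.one_mem
    have hcent : N ⊓ Subgroup.centralizer (R' : Set G) = N := by
      apply Cfsg.Agent.H20.eq_of_forall_sylow_le N _ inf_le_left
      intro p _
      have hNtop : Subgroup.normalizer (N : Set G) = ⊤ := Subgroup.normalizer_eq_top N
      have hsolvR : Group.IsSolvable R' := by
        have := hR'p.isNilpotent
        infer_instance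
      obtain ⟨⟨P, hP⟩, hconj⟩ := Cfsg.H1.coprime_sylow_aux R' N (by rw [hNtop]; exact le_top) hR'card
        (Or.inl hsolvR) p
      refine ⟨P, le_inf (Subgroup.map_subtype_le _) ?_⟩
      set P' := (P : Subgroup N).map N.subtype with hP'
      let nx : Subgroup.normalizer (N : Set G) := ⟨x, by rw [hNtop]; trivial⟩
      have hQmap : ((nx • P : Sylow p N) : Subgroup N).map N.subtype = MulAut.conj x • P' := by
        rw [Sylow.pointwise_smul_def]
        exact Cfsg.H1.map_subtype_normalizer_smul nx (P : Subgroup N)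
      have hQ : R' ≤ Subgroup.normalizer (((nx • P : Sylow p N) : Subgroup N).map N.subtype : Set G) := by
        rw [hQmap]
        intro s hs
        have hs' : x⁻¹ * s * x ∈ R' := by
          have := (Subgroup.mem_normalizer_iff.1 (Subgroup.inv_mem _ hx') s).1 hs
          simpa using this
        have h1 := hP hs'
        rw [Subgroup.mem_normalizer_iff_map_conj_eq] at h1 ⊢
        change MulAut.conj (x⁻¹ * s * x) • P' = P' at h1
        change MulAut.conj s • MulAut.conj x • P' = MulAut.conj x • P'
        have h2 : MulAut.conj s * MulAut.conj x = MulAut.conj x * MulAut.conj (x⁻¹ * s * x) := by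
          rw [← map_mul, ← map_mul]; congr 1; group
        rw [← mul_smul, h2, mul_smul, h1]
      obtain ⟨c, hcR, hcP⟩ := hconj P (nx • P) hP hQ
      have E : MulAut.conj (c : G) • P' = MulAut.conj x • P' := by
        rw [← hQmap, ← hcP, Sylow.pointwise_smul_def, L]
      set x' := (c : G)⁻¹ * x with hx'def
      have hx'P : x' ∈ Subgroup.normalizer (P' : Set G) := by
        rw [Subgroup.mem_normalizer_iff_map_conj_eq]
        change MulAut.conj x' • P' = P'
        rw [hx'def, map_mul, mul_smul, ← E, map_inv, inv_smul_smul]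
      have hπx' : π x' = π x := by
        rw [hx'def, map_mul, map_inv, (hπN c).2 c.2, inv_one, one_mul]
      have hcc : ∀ a ∈ R', (c : G)⁻¹ * a * c = a := by
        intro a ha
        have := Subgroup.mem_centralizer_iff.1 hcR a ha
        rw [mul_assoc, this, inv_mul_cancel_left]
      have key := Cfsg.Agent.H20.frob_pgroup_int (p := p) h hh0 P' R' x' (P.2.map _)
        (Nat.Coprime.coprime_dvd_right (Subgroup.card_dvd_of_le (Subgroup.map_subtype_le _)) hR'card) hP hx'P
        (by
          intro a ha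
          have h1 : x * a * x⁻¹ ∈ R' := (Subgroup.mem_normalizer_iff.1 hx' a).1 ha
          have h2 : x' * a * x'⁻¹ = (c : G)⁻¹ * (x * a * x⁻¹) * c := by rw [hx'def]; group
          rw [h2, hcc _ h1]; exact h1)
        (by
          intro i hi0 hih a ha hcomm
          have haF : π a ∈ Fb := hR'K ha
          have hxi : (π x) ^ i ∉ Fb := by
            intro hc
            have := Nat.le_of_dvd hi0 (hnb i hc)
            omega
          have h1 : π a * (π x) ^ i = (π x) ^ i * π a := by
            rw [← hπx', ← map_pow, ← map_mul, ← map_mul, hcomm]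
          have h2 := hN3 _ hxi _ haF h1
          obtain ⟨j, hj⟩ := hR'p ⟨a, ha⟩
          exact Cfsg.Agent.H20.eq_one_of_pElement_of_coprime hcopN ((hπN a).1 h2) j (congrArg Subtype.val hj))
        (by
          intro b hb u hu
          apply star
          have huN : u ∈ N := Subgroup.map_subtype_le _ hu
          rw [map_mul, (hπN u).2 huN, one_mul, map_mul, map_mul, map_inv, hπx']
          have : (π b)⁻¹ * π x * π b = MulAut.conj (π b)⁻¹ (π x) := by simp [MulAut.conj_apply]
          rw [this]
          have h3 := orderOf_injective (MulAut.conj (π b)⁻¹).toMonoidHom (MulAut.conj (π b)⁻¹).injective (π x)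
          rw [← hxord, ← h3]
          rfl)
      intro u hu
      rw [Subgroup.mem_centralizer_iff]
      intro a ha
      exact key a ha u hu
    rw [Subgroup.le_centralizer_iff]
    rw [← hcent]
    exact inf_le_right
  set C := Subgroup.centralizer (N : Set G) with hC
  have hKle : (N ⊔ C) ⊓ K = K := by
    apply Cfsg.Agent.H20.eq_of_forall_sylow_le K _ inf_le_right
    intro q hqf
    obtain ⟨Q⟩ : Nonempty (Sylow q K) := inferInstance
    refine ⟨Q, le_inf ?_ (Subgroup.map_subtype_le _)⟩
    by_cases hq : q ∣ Nat.card N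
    · refine le_trans ?_ le_sup_left
      rintro _ ⟨z, hz, rfl⟩
      have hzF : π z ∈ Fb := z.2
      obtain ⟨k, hk⟩ := Q.2 ⟨z, hz⟩
      have hk' : (z : G) ^ q ^ k = 1 := congrArg (fun w : (Q : Subgroup K) => ((w : K) : G)) hk
      have h1 : (π z) ^ (q ^ k) = 1 := by rw [← map_pow, hk', map_one]
      have hqF : (Nat.card Fb).Coprime q := by
        apply Nat.Coprime.coprime_dvd_right hq hcop
      have h2 := Cfsg.Agent.H20.eq_one_of_pElement_of_coprime hqF hzF k h1
      exact (hπN _).1 h2
    · exact le_trans (main q hq Q) le_sup_right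
  apply hnot
  intro f hf
  obtain ⟨k, rfl⟩ := hπs f
  have hkK : k ∈ K := hf
  have hk2 : k ∈ N ⊔ C := by
    have : k ∈ (N ⊔ C) ⊓ K := by rw [hKle]; exact hkK
    exact this.1
  obtain ⟨n, hn, c, hc, rfl⟩ := Subgroup.mem_sup_of_normal_left.1 hk2
  exact ⟨c, hc, by
    change π c = π (n * c)
    rw [map_mul, (hπN n).2 hn, one_mul]⟩

end Cfsg.Agent.S3703
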