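import Cfsg.Statements.S3735
import Cfsg.Agent.H20.Wielandt

set_option autoImplicit false
open Cfsg

namespace Cfsg.Agent.S3735

open Subgroup Cfsg.Agent.H20

section aux

variable {G : Type*} [Group G]

theorem le_normalizer_inf {A U W : Subgroup G} (hU : A ≤ normalizer (U : Set G))
    (hW : A ≤ normalizer (W : Set G)) : A ≤ normalizer ((U ⊓ W : Subgroup G) : Set G) := by
  intro t ht
  rw [mem_normalizer_iff_conj, Subgroup.map_inf_eq _ _ _ (MulAut.conj t).injective,
    (mem_normalizer_iff_conj _ _).1 (hU ht), (mem_normalizer_iff_conj _ _).1 (hW ht)]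

theorem le_normalizer_sup {A U W : Subgroup G} (hU : A ≤ normalizer (U : Set G))
    (hW : A ≤ normalizer (W : Set G)) : A ≤ normalizer ((U ⊔ W : Subgroup G) : Set G) :=
  (le_inf hU hW).trans (normalizer_inf_normalizer_le_normalizer_sup U W)

theorem le_normalizer_conj {A S : Subgroup G} (hS : A ≤ normalizer (S : Set G)) {h : G}
    (hh : h ∈ normalizer (A : Set G)) :
    A ≤ normalizer ((S.map (MulAut.conj h).toMonoidHom : Subgroup G) : Set G) := by
  intro a ha
  rw [mem_normalizer_iff_conj, ← sconj_mul]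
  have ha' : h⁻¹ * a * h ∈ A := by
    have h3 := (mem_normalizer_iff_conj _ _).1 ((normalizer (A : Set G)).inv_mem hh)
    rw [← h3]
    exact ⟨a, ha, by simp⟩
  have h4 := (mem_normalizer_iff_conj _ _).1 (hS ha')
  have h5 : a * h = h * (h⁻¹ * a * h) := by group
  rw [h5, sconj_mul, h4]

/-- minimal `A`-invariant subgroups of `V`. -/
structure MinInv (A V S : Subgroup G) : Prop where
  le : S ≤ V
  inv : A ≤ normalizer (S : Set G)
  ne_bot : S ≠ ⊥
  min : ∀ S' : Subgroup G, S' ≤ S → A ≤ normalizer (S' : Set G) → S' = ⊥ ∨ S' = S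

theorem MinInv.conj {A V S : Subgroup G} (hS : MinInv A V S) {h : G}
    (hA : h ∈ normalizer (A : Set G)) (hV : h ∈ normalizer (V : Set G)) :
    MinInv A V (S.map (MulAut.conj h).toMonoidHom) := by
  refine ⟨?_, le_normalizer_conj hS.inv hA, ?_, ?_⟩
  · have := Subgroup.map_mono (f := (MulAut.conj h).toMonoidHom) hS.le
    rwa [(mem_normalizer_iff_conj _ _).1 hV] at this
  · intro h0
    apply hS.ne_bot
    rwa [Subgroup.map_eq_bot_iff_of_injective _ (MulAut.conj h).injective] at h0
  · intro S' hS' hinv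
    have h2 : S'.map (MulAut.conj h⁻¹).toMonoidHom ≤ S := by
      have := Subgroup.map_mono (f := (MulAut.conj h⁻¹).toMonoidHom) hS'
      rwa [sconj_inv_conj] at this
    rcases hS.min _ h2 (le_normalizer_conj hinv ((normalizer (A : Set G)).inv_mem hA)) with h3 | h3
    · left
      rwa [Subgroup.map_eq_bot_iff_of_injective _ (MulAut.conj h⁻¹).injective] at h3
    · right
      rw [← h3, sconj_conj_inv]

theorem exists_minInv_le [Finite G] {A V W : Subgroup G} (hWV : W ≤ V)
    (hW : A ≤ normalizer (W : Set G)) (hne : W ≠ ⊥) : ∃ S, MinInv A V S ∧ S ≤ W := by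
  let T : Set (Subgroup G) := {S | S ≤ W ∧ A ≤ normalizer (S : Set G) ∧ S ≠ ⊥}
  obtain ⟨S, hS, hmin⟩ := (Set.toFinite T).exists_minimal ⟨W, le_rfl, hW, hne⟩
  refine ⟨S, ⟨hS.1.trans hWV, hS.2.1, hS.2.2, ?_⟩, hS.1⟩
  intro S' hS' hinv
  by_cases h0 : S' = ⊥
  · exact Or.inl h0
  · right
    exact le_antisymm hS' (hmin ⟨hS'.trans hS.1, hinv, h0⟩ hS')

end aux

/-- Clifford's Theorem for actions on finite abelian groups, first part. Let H and V be subgroups of a finite group with V abelian and H normalizing V, and let A be a normal subgroup of H. If every H-invariant subgroup of V has an H-invariant complement in V, then every A-invariant subgroup of V has an A-invariant complement in V. -/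
theorem result {G : Type*} [Group G] [Finite G] (H A V : Subgroup G) (hVab : IsMulCommutative V) (hHV : H ≤ Subgroup.normalizer (V : Set G)) (hAH : A ≤ H) (hAn : H ≤ Subgroup.normalizer (A : Set G)) (hss : ∀ U : Subgroup G, U ≤ V → H ≤ Subgroup.normalizer (U : Set G) → ∃ W : Subgroup G, W ≤ V ∧ H ≤ Subgroup.normalizer (W : Set G) ∧ U ⊓ W = ⊥ ∧ U ⊔ W = V) (U : Subgroup G) (hUV : U ≤ V) (hAU : A ≤ Subgroup.normalizer (U : Set G)) : ∃ W : Subgroup G, W ≤ V ∧ A ≤ Subgroup.normalizer (W : Set G) ∧ U ⊓ W = ⊥ ∧ U ⊔ W = V := by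
  have hVc : V ≤ centralizer (V : Set G) := le_centralizer_iff_isMulCommutative.2 hVab
  -- the socle
  set T := sSup {S : Subgroup G | MinInv A V S} with hT
  have hTV : T ≤ V := sSup_le (fun S hS => hS.le)
  have hTH : H ≤ normalizer (T : Set G) := by
    apply le_normalizer_of_forall_conj_le
    intro h hh
    rw [Subgroup.map_le_iff_le_comap]
    apply sSup_le
    intro S hS
    rw [← Subgroup.map_le_iff_le_comap]
    exact le_sSup (hS.conj (hAn hh) (hHV hh))
  have hTeq : T = V := by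
    obtain ⟨W', hW'V, hW'H, hinf, hsup⟩ := hss T hTV hTH
    by_cases h0 : W' = ⊥
    · rw [h0, sup_bot_eq] at hsup; exact hsup
    · exfalso
      obtain ⟨S, hS, hSW⟩ := exists_minInv_le hW'V (hAH.trans hW'H) h0
      apply hS.ne_bot
      rw [eq_bot_iff, ← hinf]
      exact le_inf (le_sSup hS) hSW
  let C : Set (Subgroup G) := {W | W ≤ V ∧ A ≤ normalizer (W : Set G) ∧ U ⊓ W = ⊥}
  obtain ⟨W, hW, hmax⟩ := (Set.toFinite C).exists_maximal
    ⟨⊥, bot_le, by rw [normalizer_eq_top_iff.2 (inferInstance : (⊥ : Subgroup G).Normal)]; exact le_top,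
      inf_bot_eq _⟩
  refine ⟨W, hW.1, hW.2.1, hW.2.2, le_antisymm (sup_le hUV hW.1) ?_⟩
  rw [← hTeq]
  apply sSup_le
  intro S hS
  by_contra hcon
  have h1 : S ⊓ (U ⊔ W) = ⊥ := by
    rcases hS.min _ inf_le_left (le_normalizer_inf hS.inv (le_normalizer_sup hAU hW.2.1)) with h | h
    · exact h
    · exact absurd (inf_eq_left.1 h) hcon
  have hmem : W ⊔ S ∈ C := by
    refine ⟨sup_le hW.1 hS.le, le_normalizer_sup hW.2.1 hS.inv, ?_⟩
    rw [eq_bot_iff]
    intro x hx
    have hSn : S ≤ normalizer (W : Set G) :=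
      ((hS.le.trans hVc).trans (centralizer_le hW.1)).trans (centralizer_le_normalizer _)
    have hx2 : x ∈ ((W ⊔ S : Subgroup G) : Set G) := (mem_inf.1 hx).2
    rw [coe_mul_of_right_le_normalizer_left W S hSn] at hx2
    obtain ⟨w, hw, s, hs, rfl⟩ := hx2
    have hs1 : s ∈ S ⊓ (U ⊔ W) := by
      refine mem_inf.2 ⟨hs, ?_⟩
      have h2 : s = w⁻¹ * (w * s) := by group
      rw [h2]
      exact mul_mem (inv_mem (le_sup_right (a := U) hw)) (le_sup_left (b := W) (mem_inf.1 hx).1)
    rw [h1, mem_bot] at hs1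
    have hx' := (mem_inf.1 hx).1
    change w * s ∈ U at hx'
    change w * s ∈ (⊥ : Subgroup G)
    rw [hs1, mul_one] at hx' ⊢
    rw [← hW.2.2]
    exact mem_inf.2 ⟨hx', hw⟩
  have h3 := hmax hmem le_sup_left
  exact hcon ((le_sup_right.trans h3).trans le_sup_right)

end Cfsg.Agent.S3735
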