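import Cfsg.Statements.S3744
import Cfsg.Agent.H20.PSolvHall

set_option autoImplicit false
open Cfsg

namespace Cfsg.Agent.S3744

open Subgroup Cfsg.Agent.H20

/-- A finite p-soluble group has a p-complement, all its p-complements are conjugate, and every subgroup of order prime to p lies in one of them. Here a p-complement is a subgroup of order prime to p whose index is a power of p. -/
theorem result {G : Type*} [Group G] [Finite G] {p : ℕ} [Fact p.Prime] (hG : Cfsg.IsPSolvable p G) : (∃ H : Subgroup G, (Nat.card H).Coprime p ∧ ∃ n : ℕ, H.index = p ^ n) ∧ (∀ H₁ H₂ : Subgroup G, (Nat.card H₁).Coprime p → (∃ n : ℕ, H₁.index = p ^ n) → (Nat.card H₂).Coprime p → (∃ n : ℕ, H₂.index = p ^ n) → ∃ g : G, H₂ = H₁.map (MulAut.conj g).toMonoidHom) ∧ (∀ U : Subgroup G, (Nat.card U).Coprime p → ∃ H : Subgroup G, (Nat.card H).Coprime p ∧ (∃ n : ℕ, H.index = p ^ n) ∧ ∃ g : G, U.map (MulAut.conj g).toMonoidHom ≤ H) := by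
  have hp : p.Prime := Fact.out
  obtain ⟨k, m, hm, e⟩ := Nat.exists_eq_pow_mul_and_not_dvd (Nat.card_pos (α := G)).ne' p hp.ne_one
  have hmp : m.Coprime p := ((Nat.Prime.coprime_iff_not_dvd hp).2 hm).symm
  have hG' : Nat.card G = m * p ^ k := by rw [e]; ring
  have hm0 : 0 < m := by
    rcases Nat.eq_zero_or_pos m with h | h
    · rw [h, zero_mul] at hG'
      exact absurd hG' (Nat.card_pos (α := G)).ne'
    · exact h
  have h1 : ∀ H : Subgroup G, Nat.card H = m → (Nat.card H).Coprime p ∧ ∃ n, H.index = p ^ n := by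
    intro H hH
    refine ⟨hH ▸ hmp, k, ?_⟩
    have := H.card_mul_index
    rw [hH, hG'] at this
    exact Nat.eq_of_mul_eq_mul_left hm0 this
  have h2 : ∀ H : Subgroup G, (Nat.card H).Coprime p → (∃ n, H.index = p ^ n) → Nat.card H = m := by
    rintro H hc ⟨n, hn⟩
    have := H.card_mul_index
    rw [hn, hG'] at this
    apply Nat.dvd_antisymm
    · exact (Nat.Coprime.pow_right k hc).dvd_of_dvd_mul_right (Dvd.intro _ this)
    · exact (Nat.Coprime.pow_right n hmp).dvd_of_dvd_mul_right (Dvd.intro _ this.symm)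
  refine ⟨?_, ?_, ?_⟩
  · obtain ⟨H, hH⟩ := psolv_exists_aux (Nat.card G) G hG le_rfl m (p ^ k) hG' hmp ⟨k, rfl⟩
    exact ⟨H, h1 H hH⟩
  · intro H₁ H₂ a1 a2 b1 b2
    obtain ⟨g, hg⟩ := psolv_conj_aux (Nat.card G) G hG le_rfl m (p ^ k) hG' hmp ⟨k, rfl⟩ H₁ H₂
      (h2 H₁ a1 a2) (h2 H₂ b1 b2)
    exact ⟨g, hg.symm⟩
  · intro U hU
    obtain ⟨H, hH, hUH⟩ := psolv_dom_aux (Nat.card G) G hG le_rfl m (p ^ k) hG' hmp ⟨k, rfl⟩ U
      (Nat.Coprime.pow_right k hU)
    refine ⟨H, (h1 H hH).1, (h1 H hH).2, 1, ?_⟩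
    rintro _ ⟨u, hu, rfl⟩
    simpa using hUH hu

end Cfsg.Agent.S3744
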