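import Cfsg.Statements.S3802
import Cfsg.Agent.H20.Basic

set_option autoImplicit false
open Cfsg

namespace Cfsg.Agent.S3802

open Cfsg.Agent.H20

theorem aux : ∀ (n : ℕ) (G : Type*) [Group G] [Finite G], Nat.card G = n →
    ∀ (M N : Subgroup G), IsCoatom M → N.IsSubnormal → N ≤ M →
    ∀ g : G, N.map (MulAut.conj g).toMonoidHom ≤ M := by
  intro n
  induction n using Nat.strong_induction_on with
  | _ n ih =>
  intro G _ _ hcard M N hM hN hNM
  have hNtop : N ≠ ⊤ := by
    rintro rfl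
    exact hM.1 (top_le_iff.1 hNM)
  obtain ⟨H, hHn, hNH, hHtop⟩ := hN.exists_normal_and_le_and_lt_top_of_ne hNtop
  by_cases hHM : H ≤ M
  · intro g
    refine le_trans ?_ hHM
    rintro _ ⟨x, hx, rfl⟩
    exact hHn.conj_mem x (hNH hx) g
  -- H ⊔ M = ⊤
  have hHMtop : H ⊔ M = ⊤ := by
    have h1 : M < H ⊔ M := lt_of_le_of_ne le_sup_right (fun h => hHM (h ▸ le_sup_left))
    exact hM.2 _ h1
  have hsub : M.subgroupOf H ≠ ⊤ := by
    intro h
    exact hHM (Subgroup.subgroupOf_eq_top.1 h)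
  obtain ⟨X, hX, hMX⟩ := (eq_top_or_exists_le_coatom (M.subgroupOf H)).resolve_left hsub
  have hcardH : Nat.card H < n := by
    rw [← hcard]
    have hne : H ≠ ⊤ := hHtop.ne
    have h1 : Nat.card H ≤ Nat.card G := Subgroup.card_le_card_group H
    rcases h1.lt_or_eq with h | h
    · exact h
    · exact absurd (Subgroup.eq_top_of_card_eq H h) hne
  -- every conjugate of N is in X
  have hconj : ∀ g : G, N.map (MulAut.conj g).toMonoidHom ≤ X.map H.subtype := by
    intro g
    have hg : g ∈ H ⊔ M := hHMtop ▸ Subgroup.mem_top g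
    rw [← SetLike.mem_coe, Subgroup.normal_mul] at hg
    obtain ⟨h, hh, m, hm, rfl⟩ := hg
    set N1 := N.map (MulAut.conj m).toMonoidHom with hN1
    have hN1M : N1 ≤ M := by
      rintro _ ⟨x, hx, rfl⟩
      exact mul_mem (mul_mem hm (hNM hx)) (inv_mem hm)
    have hN1H : N1 ≤ H := by
      rintro _ ⟨x, hx, rfl⟩
      exact hHn.conj_mem x (hNH hx) m
    have hN1sn : N1.IsSubnormal := hN.map (MulAut.conj m).surjective
    have h2 := ih (Nat.card H) hcardH H rfl X (N1.subgroupOf H) hX hN1sn.subgroupOf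
      (le_trans (Subgroup.subgroupOf_mono H hN1M) hMX) ⟨h, hh⟩
    rw [sconj_mul, ← hN1]
    rintro _ ⟨x, hx, rfl⟩
    have hxH : x ∈ H := hN1H hx
    have h3 : (MulAut.conj (⟨h, hh⟩ : H)).toMonoidHom ⟨x, hxH⟩ ∈ X :=
      h2 ⟨⟨x, hxH⟩, by simpa [Subgroup.mem_subgroupOf] using hx, rfl⟩
    exact ⟨_, h3, by simp [MulAut.conj_apply]⟩
  -- the normal closure K of N lies in X
  by_contra hcon
  push Not at hcon
  obtain ⟨g, hg⟩ := hcon
  set K := Subgroup.normalClosure (N : Set G) with hK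
  have hKX : K ≤ X.map H.subtype := by
    rw [hK, Subgroup.normalClosure, Subgroup.closure_le]
    intro y hy
    rw [Group.mem_conjugatesOfSet_iff] at hy
    obtain ⟨a, ha, hay⟩ := hy
    rw [isConj_iff] at hay
    obtain ⟨c, rfl⟩ := hay
    exact hconj c (conj_mem_conj N c ha)
  have hKM : ¬ K ≤ M := by
    intro h
    apply hg
    rintro _ ⟨x, hx, rfl⟩
    apply h
    exact (Subgroup.normalClosure_normal (s := (N : Set G))).conj_mem x (Subgroup.subset_normalClosure hx) g
  have hKMtop : K ⊔ M = ⊤ := by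
    have h1 : M < K ⊔ M := lt_of_le_of_ne le_sup_right (fun h => hKM (h ▸ le_sup_left))
    exact hM.2 _ h1
  apply hX.1
  rw [eq_top_iff]
  rintro ⟨x, hxH⟩ -
  have hx : x ∈ K ⊔ M := hKMtop ▸ Subgroup.mem_top x
  rw [← SetLike.mem_coe, Subgroup.normal_mul] at hx
  obtain ⟨k, hk, m, hm, hkm⟩ := hx
  obtain ⟨k', hk', hkk⟩ := hKX hk
  have hkH : k ∈ H := by rw [← hkk]; exact k'.2
  have hmH : m ∈ H := by
    have : m = k⁻¹ * x := by rw [← hkm]; group
    rw [this]; exact mul_mem (inv_mem hkH) hxH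
  have hmX : (⟨m, hmH⟩ : H) ∈ X := hMX (by simpa [Subgroup.mem_subgroupOf] using hm)
  have : (⟨x, hxH⟩ : H) = k' * ⟨m, hmH⟩ := by
    apply Subtype.ext
    simp only [Subgroup.coe_mul]
    rw [← hkm]
    congr 1
    exact hkk.symm
  rw [this]
  exact mul_mem hk' hmX

/-- Let G be a finite group, M a maximal subgroup of G and N a subnormal subgroup of G contained in M. Then N is contained in every conjugate of M, that is, N lies in the core of M in G. -/
theorem result {G : Type*} [Group G] [Finite G] (M N : Subgroup G) (hM : IsCoatom M) (hN : N.IsSubnormal) (hNM : N ≤ M) :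
    N ≤ Subgroup.normalCore M := by
  intro x hx
  rw [Subgroup.normalCore]
  intro b
  exact aux _ G rfl M N hM hN hNM b (conj_mem_conj N b hx)

end Cfsg.Agent.S3802
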