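import Cfsg.Statements.S3803
import Cfsg.Agent.H20.PGroup3
import Cfsg.Agent.S3735
import Cfsg.Agent.H1.Coprime
import Cfsg.Agent.Lib.Helper27.CoprimeAut2

set_option autoImplicit false
open Cfsg

namespace Cfsg.Agent.S3803

open Subgroup Cfsg.Agent.H20
open scoped commutatorElement

/-- Let P be a 2-subgroup and A a subgroup of odd order of a finite group, with A normalizing P. Let D ≤ P with 1 < |D| < |P|. If every subgroup of P of order |D|, and also every subgroup of P of order 4 in case |D| = 2, is normalized by A, then A centralizes P. -/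
theorem result {X : Type*} [Group X] [Finite X] (P A D : Subgroup X) (hP : IsPGroup 2 P) (hA : Odd (Nat.card A))
    (hAP : A ≤ Subgroup.normalizer (P : Set X)) (hDP : D ≤ P) (hD1 : 1 < Nat.card D) (hD2 : Nat.card D < Nat.card P)
    (hinv : ∀ E : Subgroup X, E ≤ P → (Nat.card E = Nat.card D ∨ (Nat.card D = 2 ∧ Nat.card E = 4)) → A ≤ Subgroup.normalizer (E : Set X)) :
    A ≤ Subgroup.centralizer (P : Set X) := by
  have hodd : ∀ a ∈ A, Odd (orderOf a) := by
    intro a ha
    have h1 : orderOf a ∣ Nat.card A := by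
      have := orderOf_dvd_natCard (⟨a, ha⟩ : A)
      rwa [Subgroup.orderOf_mk] at this
    exact Odd.of_dvd_nat hA h1
  obtain ⟨t, ht⟩ := IsPGroup.iff_card.1 hP
  obtain ⟨k, hk⟩ := IsPGroup.iff_card.1 (hP.to_le hDP)
  have hkt : k < t := by
    rw [hk, ht] at hD2
    exact (Nat.pow_lt_pow_iff_right (by norm_num)).1 hD2
  have hk0 : k ≠ 0 := by
    rintro rfl
    rw [hk] at hD1; simp at hD1
  -- the key claim
  have key : ∀ x ∈ P, x ^ 4 = 1 → ∀ a ∈ A, a * x * a⁻¹ = x := by
    intro x hx hx4 a ha
    have hzP : zpowers x ≤ P := zpowers_le.2 hx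
    have hz2 : IsPGroup 2 (zpowers x) := hP.to_le hzP
    have hcent : ∀ M : Subgroup X, x ∈ M → a ∈ centralizer (M : Set X) → a * x * a⁻¹ = x := by
      intro M hxM hc
      have h0 := (mem_centralizer_iff.1 hc) x hxM
      rw [← h0]; group
    obtain ⟨j, hj2, hj⟩ : ∃ j ≤ 2, orderOf x = 2 ^ j := by
      have : orderOf x ∣ 2 ^ 2 := orderOf_dvd_of_pow_eq_one (by norm_num; exact hx4)
      exact (Nat.dvd_prime_pow Nat.prime_two).1 this
    have hzc : Nat.card (zpowers x) = 2 ^ j := by rw [Nat.card_zpowers, hj]
    by_cases hk1 : k = 1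
    · -- `|D| = 2`
      subst hk1
      have hj' : j = 0 ∨ j = 1 ∨ j = 2 := by omega
      rcases hj' with rfl | rfl | rfl
      · have : x = 1 := orderOf_eq_one_iff.1 (by simpa using hj)
        rw [this]; simp
      · have h1 := hinv (zpowers x) hzP (Or.inl (by rw [hzc, hk]))
        exact hcent _ (mem_zpowers x)
          (mem_centralizer_of_cyclic_two _ inferInstance hz2 a (h1 ha) (hodd a ha))
      · have h1 := hinv (zpowers x) hzP (Or.inr ⟨by rw [hk]; norm_num, by rw [hzc]; norm_num⟩)
        exact hcent _ (mem_zpowers x)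
          (mem_centralizer_of_cyclic_two _ inferInstance hz2 a (h1 ha) (hodd a ha))
    · have hk2 : 2 ≤ k := by omega
      obtain ⟨E, hxE, hEP, hEc⟩ := exists_between hzP ht hzc (show j ≤ k + 1 by omega)
        (show k + 1 ≤ t by omega)
      have hE2 : IsPGroup 2 E := hP.to_le hEP
      have hxE' : x ∈ E := hxE (mem_zpowers x)
      -- subgroups of `E` of order `2 ^ k` are `A`-invariant
      have hMinv : ∀ M : Subgroup X, M ≤ E → Nat.card M = 2 ^ k → A ≤ normalizer (M : Set X) :=
        fun M hM hMc => hinv M (hM.trans hEP) (Or.inl (by rw [hMc, hk]))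
      -- every proper subgroup of `E` lies in one of them
      have hprop : ∀ C : Subgroup X, C < E → ∃ M : Subgroup X, C ≤ M ∧ M ≤ E ∧ Nat.card M = 2 ^ k := by
        intro C hC
        obtain ⟨i, hi⟩ := IsPGroup.iff_card.1 (hE2.to_le hC.le)
        have h1 := mul_card_le_of_lt' hE2 hC
        rw [hi, hEc, ← pow_succ'] at h1
        have h2 : i + 1 ≤ k + 1 := (Nat.pow_le_pow_iff_right (by norm_num)).1 h1
        exact exists_between hC.le hEc hi (by omega) (by omega)
      have hMne : ∀ M : Subgroup X, M ≤ E → Nat.card M = 2 ^ k → M ≠ E := by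
        rintro M _ hMc rfl
        rw [hEc] at hMc
        have := (Nat.pow_right_injective (le_refl 2)) hMc
        omega
      by_cases hex : ∃ M₁ M₂ : Subgroup X, M₁ ≤ E ∧ M₂ ≤ E ∧ Nat.card M₁ = 2 ^ k ∧
          Nat.card M₂ = 2 ^ k ∧ M₁ ≠ M₂
      · obtain ⟨M₁, M₂, h1, h2, c1, c2, hne⟩ := hex
        have hsup : M₁ ⊔ M₂ = E := by
          apply Subgroup.eq_of_le_of_card_ge (sup_le h1 h2)
          have hlt : M₁ < M₁ ⊔ M₂ := by
            refine lt_of_le_of_ne le_sup_left ?_
            intro h
            have h3 : M₂ ≤ M₁ := by rw [h]; exact le_sup_right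
            exact hne (Subgroup.eq_of_le_of_card_ge h3 (by rw [c1, c2])).symm
          have := mul_card_le_of_lt' (hE2.to_le (sup_le h1 h2)) hlt
          rw [c1, ← pow_succ'] at this
          rw [hEc]; exact this
        have hAE : A ≤ normalizer (E : Set X) := by
          rw [← hsup]
          exact Cfsg.Agent.S3735.le_normalizer_sup (hMinv M₁ h1 c1) (hMinv M₂ h2 c2)
        have hcop : (Nat.card A).Coprime (Nat.card E) := by
          rw [hEc]; exact Nat.Coprime.pow_right _ (Nat.coprime_two_right.2 hA)
        have hsolv : Group.IsSolvable A ∨ Group.IsSolvable E := by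
          right
          have := hE2.isNilpotent
          infer_instance
        have hdec := Cfsg.H1.coprime_commutator_sup_centralizer A E hAE hcop hsolv
        have hC : E ⊓ centralizer (A : Set X) = E := by
          by_contra hCne
          obtain ⟨M, hCM, hME, hMc⟩ := hprop _ (lt_of_le_of_ne inf_le_left hCne)
          apply hMne M hME hMc
          apply le_antisymm hME
          rw [← hdec]
          refine sup_le ?_ hCM
          have hidx : (M.subgroupOf E).index = 2 := by
            have h3 := card_mul_relIndex hME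
            rw [hMc, hEc, pow_succ] at h3
            exact Nat.eq_of_mul_eq_mul_left (by positivity) h3
          rw [commutator_le]
          intro y hy b hb
          have hv : b * y⁻¹ * b⁻¹ ∈ E := (mem_normalizer_iff.1 (hAE hb) _).1 (E.inv_mem hy)
          have e : ⁅y, b⁆ = y * (b * y⁻¹ * b⁻¹) := by rw [commutatorElement_def]; group
          rw [e]
          have h4 := Subgroup.mul_mem_iff_of_index_two hidx (a := ⟨y, hy⟩) (b := ⟨b * y⁻¹ * b⁻¹, hv⟩)
          simp only [mem_subgroupOf] at h4
          apply h4.2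
          change y ∈ M ↔ b * y⁻¹ * b⁻¹ ∈ M
          rw [← (mem_normalizer_iff.1 (hMinv M hME hMc hb) y⁻¹), inv_mem_iff]
        have hEA : E ≤ centralizer (A : Set X) := inf_eq_left.1 hC
        exact hcent E hxE' ((le_centralizer_iff.1 hEA) ha)
      · push Not at hex
        obtain ⟨M, -, hME, hMc⟩ := hprop ⊥ (by
          rw [bot_lt_iff_ne_bot]
          rintro rfl
          rw [Subgroup.card_bot] at hEc
          have : 1 < 2 ^ (k + 1) := Nat.one_lt_two_pow (by omega)
          omega)
        have hgen : ∀ y ∈ E, y ∉ M → zpowers y = E := by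
          intro y hy hyM
          by_contra hne
          obtain ⟨M', hyM', hM'E, hM'c⟩ := hprop _ (lt_of_le_of_ne (zpowers_le.2 hy) hne)
          have := hex M' M hM'E hME hM'c hMc
          exact hyM (this ▸ hyM' (mem_zpowers y))
        obtain ⟨y, hyE, hyM⟩ := SetLike.exists_of_lt (lt_of_le_of_ne hME (hMne M hME hMc))
        have hEcyc : IsCyclic E := by rw [← hgen y hyE hyM]; infer_instance
        have hMcyc : IsCyclic M := by
          have h1 : IsCyclic (M.subgroupOf E) := Subgroup.isCyclic _
          exact isCyclic_of_surjective (subgroupOfEquivOfLe hME) (subgroupOfEquivOfLe hME).surjective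
        have hxM : x ∈ M := by
          by_contra hxM
          have h1 := hgen x hxE' hxM
          rw [← h1, hzc] at hEc
          have := (Nat.pow_right_injective (le_refl 2)) hEc
          omega
        exact hcent M hxM (mem_centralizer_of_cyclic_two M hMcyc (hE2.to_le hME) a
          (hMinv M hME hMc ha) (hodd a ha))
  intro a ha
  rw [mem_centralizer_iff]
  intro x hx
  have h1 := Cfsg.Agent.Lib.Helper27.fixes_of_fixes_small (p := 2) (k := orderOf a) (e := 4)
    (Nat.coprime_two_right.2 (hodd a ha)) (Or.inr ⟨rfl, rfl⟩) (MulAut.conj a) P hP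
    (fun x hx => (mem_normalizer_iff.1 (hAP ha) x).1 hx)
    (fun x _ => by rw [← map_pow, pow_orderOf_eq_one]; simp)
    (fun x hx h4 => key x hx h4 a ha) x hx
  rw [MulAut.conj_apply] at h1
  calc x * a = (a * x * a⁻¹) * a := by rw [h1]
    _ = a * x := by group

end Cfsg.Agent.S3803
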