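import Cfsg.Statements.S3815

set_option autoImplicit false
open Cfsg

namespace Cfsg.Agent.S3815

/-- Let G be a finite group, p a prime and d ∈ G an element of order prime to p. If dg has order prime to p for every element g ∈ G of order prime to p, then d ∈ O_{p'}(G). -/
theorem result {G : Type*} [Group G] [Finite G] {p : ℕ} [Fact p.Prime]
    (d : G) (hd : (orderOf d).Coprime p)
    (h : ∀ g : G, (orderOf g).Coprime p → (orderOf (d * g)).Coprime p) :
    d ∈ Cfsg.pPrimeCore p G := by
  classical
  have hp : p.Prime := Fact.out
  -- the key closure property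
  have key : ∀ n ∈ Subgroup.normalClosure ({d} : Set G), ∀ g : G, (orderOf g).Coprime p →
      (orderOf (n * g)).Coprime p := by
    intro n hn
    have hpow : ∀ (x : G), (∀ g : G, (orderOf g).Coprime p → (orderOf (x * g)).Coprime p) →
        ∀ k : ℕ, ∀ g : G, (orderOf g).Coprime p → (orderOf (x ^ k * g)).Coprime p := by
      intro x hx k
      induction k with
      | zero => intro g hg; simpa using hg
      | succ k ih =>
        intro g hg
        have := ih _ (hx g hg)
        rwa [← mul_assoc, ← pow_succ] at this
    unfold Subgroup.normalClosure at hn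
    induction hn using Subgroup.closure_induction with
    | mem x hx =>
      intro g hg
      rw [Group.mem_conjugatesOfSet_iff] at hx
      obtain ⟨a, ha, hax⟩ := hx
      rw [Set.mem_singleton_iff] at ha
      subst ha
      rw [isConj_iff] at hax
      obtain ⟨c, rfl⟩ := hax
      have h1 : (orderOf (c⁻¹ * g * c)).Coprime p := by
        have : orderOf (c⁻¹ * g * c) = orderOf g := by
          have := orderOf_injective (MulAut.conj c⁻¹).toMonoidHom (MulAut.conj c⁻¹).injective g
          simpa [MulAut.conj_apply] using this
        rwa [this]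
      have h2 := h _ h1
      have h3 : c * a * c⁻¹ * g = c * (a * (c⁻¹ * g * c)) * c⁻¹ := by group
      rw [h3]
      have : orderOf (c * (a * (c⁻¹ * g * c)) * c⁻¹) = orderOf (a * (c⁻¹ * g * c)) := by
        have := orderOf_injective (MulAut.conj c).toMonoidHom (MulAut.conj c).injective (a * (c⁻¹ * g * c))
        simpa [MulAut.conj_apply] using this
      rwa [this]
    | one => intro g hg; simpa using hg
    | mul x y _ _ hx hy =>
      intro g hg
      rw [mul_assoc]
      exact hx _ (hy g hg)
    | inv x _ hx =>
      intro g hg
      have : x⁻¹ = x ^ (orderOf x - 1) := by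
        have hpos : 0 < orderOf x := orderOf_pos x
        rw [eq_comm, ← mul_eq_one_iff_eq_inv, ← pow_succ, Nat.sub_add_cancel hpos, pow_orderOf_eq_one]
      rw [this]
      exact hpow x hx _ g hg
  have hN : (Nat.card (Subgroup.normalClosure ({d} : Set G))).Coprime p := by
    rw [Nat.coprime_comm, Nat.Prime.coprime_iff_not_dvd hp]
    intro hdvd
    obtain ⟨x, hx⟩ := exists_prime_orderOf_dvd_card' p hdvd
    have h1 := key x.1 x.2 1 (by simp)
    rw [mul_one, Subgroup.orderOf_coe, hx] at h1
    exact hp.one_lt.ne' (by simpa using h1)
  have hle : Subgroup.normalClosure ({d} : Set G) ≤ Cfsg.pPrimeCore p G :=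
    le_sSup ⟨Subgroup.normalClosure_normal, hN⟩
  exact hle (Subgroup.subset_normalClosure (Set.mem_singleton d))

end Cfsg.Agent.S3815
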