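import Cfsg.Statements.S3820
import Cfsg.Agent.H20.Basic

set_option autoImplicit false
open Cfsg

namespace Cfsg.Agent.S3820

open Cfsg.Agent.H20

theorem result {G : Type*} [Group G] [Finite G] (S H : Subgroup G) (hSH : S ≤ H)
    (hS : Cfsg.IsPronormal S) :
    Cfsg.IsPronormal H ↔
      ∀ g ∈ Subgroup.normalizer (S : Set G), ∃ w ∈ H ⊔ H.map (MulAut.conj g).toMonoidHom,
        H.map (MulAut.conj g).toMonoidHom = H.map (MulAut.conj w).toMonoidHom := by
  constructor
  · intro h g _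
    exact h g
  · intro h g
    obtain ⟨x, hx, hxe⟩ := hS g
    have hxJ : x ∈ H ⊔ H.map (MulAut.conj g).toMonoidHom :=
      (sup_le_sup hSH (sconj_mono hSH g)) hx
    have hn := inv_mul_mem_normalizer hxe
    obtain ⟨w, hw, hwe⟩ := h _ hn
    have hle : H ⊔ H.map (MulAut.conj (x⁻¹ * g)).toMonoidHom ≤ H ⊔ H.map (MulAut.conj g).toMonoidHom := by
      apply sup_le le_sup_left
      rw [sconj_mul]
      exact sconj_le_of_mem le_sup_right (inv_mem hxJ)
    refine ⟨x * w, mul_mem hxJ (hle hw), ?_⟩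
    rw [sconj_mul H x w, ← hwe, ← sconj_mul]
    simp

end Cfsg.Agent.S3820
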