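import Cfsg.Statements.S3821
import Cfsg.Agent.H20.Basic

set_option autoImplicit false
open Cfsg

namespace Cfsg.Agent.S3821

open Cfsg.Agent.H20

theorem result {G : Type*} [Group G] [Finite G] (A H : Subgroup G) [A.Normal] (hHA : H ≤ A) :
    Cfsg.IsPronormal H ↔ (Cfsg.IsPronormal (H.subgroupOf A) ∧ A ⊔ Subgroup.normalizer (H : Set G) = ⊤) := by
  have hmap : (H.subgroupOf A).map A.subtype = H := Subgroup.map_subgroupOf_eq_of_le hHA
  constructor
  · intro h
    constructor
    · intro a
      obtain ⟨x, hx, hxe⟩ := h (a : G)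
      have hxA : x ∈ A := (sup_le hHA (sconj_le_of_normal hHA _)) hx
      refine ⟨⟨x, hxA⟩, ?_, ?_⟩
      · have : (⟨x, hxA⟩ : A) ∈ ((H.subgroupOf A ⊔ (H.subgroupOf A).map (MulAut.conj a).toMonoidHom).map A.subtype).comap A.subtype := by
          rw [Subgroup.mem_comap, Subgroup.map_sup, map_subtype_sconj, hmap]
          exact hx
        rwa [Subgroup.comap_map_eq_self_of_injective A.subtype_injective] at this
      · apply Subgroup.map_injective A.subtype_injective
        rw [map_subtype_sconj, map_subtype_sconj, hmap]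
        exact hxe
    · rw [eq_top_iff]
      intro g _
      obtain ⟨x, hx, hxe⟩ := h g
      have hxA : x ∈ A := (sup_le hHA (sconj_le_of_normal hHA _)) hx
      have hn := inv_mul_mem_normalizer hxe
      have : g = x * (x⁻¹ * g) := by group
      rw [this]
      exact mul_mem (Subgroup.mem_sup_left hxA) (Subgroup.mem_sup_right hn)
  · rintro ⟨h1, h2⟩ g
    have hg : g ∈ A ⊔ Subgroup.normalizer (H : Set G) := h2 ▸ Subgroup.mem_top g
    rw [← SetLike.mem_coe, Subgroup.normal_mul] at hg
    obtain ⟨a, ha, n, hn, rfl⟩ := hg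
    obtain ⟨x, hx, hxe⟩ := h1 ⟨a, ha⟩
    have e1 : H.map (MulAut.conj (a * n)).toMonoidHom = H.map (MulAut.conj a).toMonoidHom := by
      rw [sconj_mul, (mem_normalizer_iff_conj H n).1 hn]
    rw [e1]
    refine ⟨x, ?_, ?_⟩
    · have := Subgroup.mem_map_of_mem A.subtype hx
      rw [Subgroup.map_sup, map_subtype_sconj, hmap] at this
      exact this
    · have := congrArg (Subgroup.map A.subtype) hxe
      rw [map_subtype_sconj, map_subtype_sconj, hmap] at this
      exact this

end Cfsg.Agent.S3821
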