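import Cfsg.Statements.S3825
import Mathlib
-- import your own Cfsg.Agent.* helpers here

set_option autoImplicit false
open Cfsg

namespace Cfsg.Agent.S3825

open scoped commutatorElement
theorem cyc_of_le {G : Type*} [Group G] (H : Subgroup G) (g : G) (h : H ≤ Subgroup.zpowers g) :
    IsCyclic H := by
  haveI : IsCyclic (H.subgroupOf (Subgroup.zpowers g)) := inferInstance
  exact (Subgroup.subgroupOfEquivOfLe h).isCyclic.mp this

theorem inv_of_fpf {X : Type*} [Group X] [Finite X] (σ : X →* X) (h2 : ∀ x, σ (σ x) = x)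
    (hf : ∀ x, σ x = x → x = 1) : ∀ x, σ x = x⁻¹ := by
  have hinj : Function.Injective (fun x => x⁻¹ * σ x) := by
    intro x y hxy
    have hxy' : x⁻¹ * σ x = y⁻¹ * σ y := hxy
    have h1 : σ (y * x⁻¹) = y * x⁻¹ := by
      rw [map_mul, map_inv]
      have : σ y = y * (x⁻¹ * σ x) := by rw [hxy']; group
      rw [this]; group
    have := hf _ h1
    exact (mul_inv_eq_one.mp this).symm
  have hsurj := Finite.surjective_of_injective hinj
  intro z
  obtain ⟨x, rfl⟩ := hsurj z
  show σ (x⁻¹ * σ x) = (x⁻¹ * σ x)⁻¹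
  rw [map_mul, map_inv, h2, mul_inv_rev, inv_inv]


/-- Let U be a subgroup of a finite group H and w an involution of H normalizing U and commuting with exactly two elements of U, the identity and y. If V is a non-cyclic elementary abelian 2-subgroup of U containing y which is normal in U and invariant under w, then V is a Sylow 2-subgroup of U, V has order 4, and U/V is abelian. -/
theorem result {H : Type*} [Group H] [Finite H] (U : Subgroup H) (w : H) (hw : orderOf w = 2)
    (hwU : w ∈ Subgroup.normalizer (U : Set H)) (y : H) (hy : y ≠ 1) (hyU : y ∈ U)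
    (hfix : ∀ u ∈ U, w * u * w⁻¹ = u ↔ (u = 1 ∨ u = y))
    (V : Subgroup H) (hVU : V ≤ U) (hVn : (V.subgroupOf U).Normal) (hVw : ∀ v ∈ V, w * v * w⁻¹ ∈ V)
    (hVe : Cfsg.IsElementaryAbelian 2 V) (hVc : ¬ IsCyclic ↥V) (hyV : y ∈ V) :
    ¬ 2 ∣ V.relIndex U ∧ Nat.card ↥V = 4 ∧ ⁅U, U⁆ ≤ V := by
  classical
  obtain ⟨hVc', hV2⟩ := hVe
  have hVcomm : ∀ a ∈ V, ∀ b ∈ V, a * b = b * a := fun a ha b hb =>
    congrArg Subtype.val (hVc'.is_comm.comm ⟨a, ha⟩ ⟨b, hb⟩)
  have hw2 : w * w = 1 := by rw [← pow_two, ← hw, pow_orderOf_eq_one]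
  have hwi : w⁻¹ = w := inv_eq_of_mul_eq_one_left hw2
  have hσσ : ∀ u, w * (w * u * w⁻¹) * w⁻¹ = u := by
    intro u
    rw [hwi]
    calc w * (w * u * w) * w = (w * w) * u * (w * w) := by group
      _ = u := by rw [hw2]; group
  have hσU : ∀ u ∈ U, w * u * w⁻¹ ∈ U := fun u hu => (Subgroup.mem_normalizer_iff.mp hwU u).mp hu
  have hσmul : ∀ a b, w * (a * b) * w⁻¹ = (w * a * w⁻¹) * (w * b * w⁻¹) := by intro a b; group
  have hinv : ∀ v ∈ V, v⁻¹ = v := fun v hv =>
    inv_eq_of_mul_eq_one_left (by rw [← pow_two]; exact hV2 v hv)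
  have hy2 : y * y = 1 := by rw [← pow_two]; exact hV2 y hyV
  have s1 : ∀ v ∈ V, w * v * w⁻¹ = v ∨ w * v * w⁻¹ = v * y := by
    intro v hv
    have hsv := hVw v hv
    have hz : w * (v * (w * v * w⁻¹)) * w⁻¹ = v * (w * v * w⁻¹) := by
      rw [hσmul, hσσ, hVcomm _ hsv _ hv]
    rcases (hfix _ (U.mul_mem (hVU hv) (hVU hsv))).mp hz with h | h
    · left
      have : w * v * w⁻¹ = v⁻¹ := eq_inv_of_mul_eq_one_right h
      rw [this, hinv v hv]
    · right
      have : w * v * w⁻¹ = v⁻¹ * y := by rw [← h]; group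
      rw [this, hinv v hv]
  obtain ⟨v0, hv0, hv01, hv0y⟩ : ∃ v0 ∈ V, v0 ≠ 1 ∧ v0 ≠ y := by
    by_contra hno
    push_neg at hno
    apply hVc
    apply cyc_of_le V y
    intro v hv
    by_cases h1 : v = 1
    · rw [h1]; exact Subgroup.one_mem _
    · rw [hno v hv h1]; exact Subgroup.mem_zpowers y
  have hσv0 : w * v0 * w⁻¹ = v0 * y := by
    rcases s1 v0 hv0 with h | h
    · rcases (hfix v0 (hVU hv0)).mp h with h | h
      · exact absurd h hv01
      · exact absurd h hv0y
    · exact h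
  have hVsub : ∀ v ∈ V, v = 1 ∨ v = y ∨ v = v0 ∨ v = v0 * y := by
    intro v hv
    rcases s1 v hv with h | h
    · rcases (hfix v (hVU hv)).mp h with h | h
      · exact Or.inl h
      · exact Or.inr (Or.inl h)
    · have h1 : w * (v0 * v) * w⁻¹ = v0 * v := by
        rw [hσmul, hσv0, h]
        calc v0 * y * (v * y) = v0 * (y * v) * y := by group
          _ = v0 * (v * y) * y := by rw [hVcomm y hyV v hv]
          _ = v0 * v * (y * y) := by group
          _ = v0 * v := by rw [hy2, mul_one]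
      rcases (hfix _ (U.mul_mem (hVU hv0) (hVU hv))).mp h1 with h2 | h2
      · right; right; left
        have : v = v0⁻¹ := eq_inv_of_mul_eq_one_right h2
        rw [this, hinv v0 hv0]
      · right; right; right
        have : v = v0⁻¹ * y := by rw [← h2]; group
        rw [this, hinv v0 hv0]
  have hcard4 : Nat.card V = 4 := by
    have hle : Nat.card V ≤ 4 := by
      have h1 : (V : Set H) ⊆ (({1, y, v0, v0 * y} : Finset H) : Set H) := by
        intro v hv
        rcases hVsub v hv with h | h | h | h <;> simp [h]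
      have h2 := Set.ncard_le_ncard h1 (Finset.finite_toSet _)
      rw [Set.ncard_coe_finset] at h2
      exact h2.trans Finset.card_le_four
    have h0 : Nat.card V ≠ 0 := Nat.card_pos.ne'
    have h1 : Nat.card V ≠ 1 := fun h => hVc (by
      haveI := (Nat.card_eq_one_iff_unique.mp h).1
      exact isCyclic_of_subsingleton)
    have h2 : Nat.card V ≠ 2 := fun h => hVc (by
      haveI : Fact (Nat.Prime 2) := ⟨Nat.prime_two⟩
      exact isCyclic_of_prime_card h)
    have h3 : Nat.card V ≠ 3 := fun h => hVc (by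
      haveI : Fact (Nat.Prime 3) := ⟨Nat.prime_three⟩
      exact isCyclic_of_prime_card h)
    omega
  have s3 : ∀ u ∈ U, u⁻¹ * (w * u * w⁻¹) ∈ V → u ∈ V := by
    intro u hu hv
    have hσv : w * (u⁻¹ * (w * u * w⁻¹)) * w⁻¹ = u⁻¹ * (w * u * w⁻¹) := by
      have : w * (u⁻¹ * (w * u * w⁻¹)) * w⁻¹ = (u⁻¹ * (w * u * w⁻¹))⁻¹ := by
        rw [hσmul, hσσ]
        group
      rw [this, hinv _ hv]
    have hσu : w * u * w⁻¹ = u * (u⁻¹ * (w * u * w⁻¹)) := by group
    rcases (hfix _ (hVU hv)).mp hσv with h | h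
    · rw [h, mul_one] at hσu
      rcases (hfix u hu).mp hσu with h' | h'
      · rw [h']; exact V.one_mem
      · rw [h']; exact hyV
    · rw [h] at hσu
      have h1 : w * (u * v0) * w⁻¹ = u * v0 := by
        rw [hσmul, hσu, hσv0]
        calc u * y * (v0 * y) = u * (y * v0) * y := by group
          _ = u * (v0 * y) * y := by rw [hVcomm y hyV v0 hv0]
          _ = u * v0 * (y * y) := by group
          _ = u * v0 := by rw [hy2, mul_one]
      have h2 : u * v0 ∈ V := by
        rcases (hfix _ (U.mul_mem hu (hVU hv0))).mp h1 with h' | h'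
        · rw [h']; exact V.one_mem
        · rw [h']; exact hyV
      have := V.mul_mem h2 (V.inv_mem hv0)
      simpa using this
  let σU : U →* U :=
    { toFun := fun u => ⟨w * u.1 * w⁻¹, hσU u.1 u.2⟩
      map_one' := by apply Subtype.ext; simp
      map_mul' := fun a b => Subtype.ext (hσmul a.1 b.1) }
  haveI := hVn
  let σX : (U ⧸ V.subgroupOf U) →* (U ⧸ V.subgroupOf U) :=
    QuotientGroup.map (V.subgroupOf U) (V.subgroupOf U) σU (by
      intro u hu
      rw [Subgroup.mem_comap, Subgroup.mem_subgroupOf]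
      exact hVw u.1 (Subgroup.mem_subgroupOf.mp hu))
  have hσX : ∀ u : U, σX (u : U ⧸ V.subgroupOf U) = ((σU u : U) : U ⧸ V.subgroupOf U) := fun u => rfl
  have hinvX := inv_of_fpf σX (by
      intro x
      obtain ⟨u, rfl⟩ := QuotientGroup.mk_surjective x
      rw [hσX, hσX]
      congr 1
      exact Subtype.ext (hσσ u.1))
    (by
      intro x hx
      obtain ⟨u, rfl⟩ := QuotientGroup.mk_surjective x
      rw [hσX] at hx
      have h1 := QuotientGroup.eq.mp hx.symm
      rw [Subgroup.mem_subgroupOf] at h1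
      have h2 := s3 u.1 u.2 h1
      exact (QuotientGroup.eq_one_iff u).mpr (Subgroup.mem_subgroupOf.mpr h2))
  have hXcomm : ∀ a b : U ⧸ V.subgroupOf U, a * b = b * a := by
    intro a b
    have h1 := map_mul σX b a
    rw [hinvX, hinvX, hinvX, mul_inv_rev] at h1
    have h2 := congrArg (fun t => t⁻¹) h1
    simpa using h2.symm
  refine ⟨?_, hcard4, ?_⟩
  · intro h2
    have h2' : 2 ∣ Nat.card (U ⧸ V.subgroupOf U) := h2
    haveI : Fact (Nat.Prime 2) := ⟨Nat.prime_two⟩
    obtain ⟨x, hx⟩ := exists_prime_orderOf_dvd_card' 2 h2'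
    have hx2 : x * x = 1 := by rw [← pow_two, ← hx, pow_orderOf_eq_one]
    have h3 : σX x = x := by
      rw [hinvX]; exact inv_eq_of_mul_eq_one_left hx2
    have h4 : x⁻¹ * σX x = 1 := by rw [h3]; group
    have h5 : x = 1 := by
      have := hinvX x
      rw [h3] at this
      -- x = x⁻¹; use fixed-point freeness through s3
      obtain ⟨u, rfl⟩ := QuotientGroup.mk_surjective x
      rw [hσX] at h3
      have h1 := QuotientGroup.eq.mp h3.symm
      rw [Subgroup.mem_subgroupOf] at h1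
      exact (QuotientGroup.eq_one_iff u).mpr (Subgroup.mem_subgroupOf.mpr (s3 u.1 u.2 h1))
    rw [h5, orderOf_one] at hx
    norm_num at hx
  · rw [Subgroup.commutator_le]
    intro a ha b hb
    have h1 := hXcomm ((⟨b, hb⟩ : U)⁻¹ : U) ((⟨a, ha⟩ : U)⁻¹ : U)
    rw [← QuotientGroup.mk_mul, ← QuotientGroup.mk_mul] at h1
    have h2 := QuotientGroup.eq.mp h1
    rw [Subgroup.mem_subgroupOf] at h2
    have h3 : ⁅a, b⁆ = (((⟨b, hb⟩ : U)⁻¹ * (⟨a, ha⟩ : U)⁻¹)⁻¹ * ((⟨a, ha⟩ : U)⁻¹ * (⟨b, hb⟩ : U)⁻¹) : U).1 := by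
      simp [commutatorElement_def, mul_assoc]
    rw [h3]
    exact h2

end Cfsg.Agent.S3825
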