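import Cfsg.Statements.S3836
import Mathlib
import Cfsg.Agent.H12.Cores

set_option autoImplicit false
open Cfsg

namespace Cfsg.Agent.S3836

/-- Let G be a finite group that is p-stable in the normalizer form: for every p-subgroup Q and every x ∈ N_G(Q) with [Q, x, x] = 1, the image of x in N_G(Q)/C_G(Q) lies in O_p(N_G(Q)/C_G(Q)). Then every subgroup of G is p-stable in the same sense. -/
theorem result {G : Type*} [Group G] [Finite G] {p : ℕ} [Fact p.Prime] (hst : Cfsg.IsNormalizerPStable p G) (H : Subgroup G) : Cfsg.IsNormalizerPStable p ↥H := by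
  classical
  intro Q hQ x hx hcomm
  set Q' : Subgroup G := Q.map H.subtype with hQ'
  have hQ'p : IsPGroup p Q' := hQ.map _
  have hN : ∀ y : H, y ∈ Subgroup.normalizer (Q : Set H) →
      (y : G) ∈ Subgroup.normalizer (Q' : Set G) := by
    intro y hy
    rw [Subgroup.mem_normalizer_iff]
    intro z
    constructor
    · rintro ⟨w, hw, rfl⟩
      exact ⟨y * w * y⁻¹, (Subgroup.mem_normalizer_iff.mp hy w).mp hw, by simp⟩
    · rintro ⟨w, hw, hwz⟩
      refine ⟨y⁻¹ * w * y, ?_, ?_⟩
      · refine (Subgroup.mem_normalizer_iff.mp hy _).mpr ?_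
        have : y * (y⁻¹ * w * y) * y⁻¹ = w := by group
        rw [this]; exact hw
      · have : (H.subtype w : G) = y * z * (y : G)⁻¹ := hwz
        simp only [map_mul, map_inv, this]
        simp only [Subgroup.subtype_apply]
        group
  have hcomm' : ⁅⁅Q', Subgroup.zpowers (x : G)⁆, Subgroup.zpowers (x : G)⁆ = ⊥ := by
    have h1 : Subgroup.zpowers (x : G) = (Subgroup.zpowers x).map H.subtype := by
      rw [MonoidHom.map_zpowers]; rfl
    rw [h1, hQ', ← Subgroup.map_commutator, ← Subgroup.map_commutator, hcomm, Subgroup.map_bot]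
  have h := hst Q' hQ'p x (hN x hx) hcomm'
  let φ : ↥(Subgroup.normalizer (Q : Set H)) →* ↥(Subgroup.normalizer (Q' : Set G)) :=
    { toFun := fun y => ⟨((y : H) : G), hN y y.2⟩
      map_one' := rfl
      map_mul' := fun _ _ => rfl }
  have hle : (Subgroup.centralizer (Q : Set H)).subgroupOf (Subgroup.normalizer (Q : Set H)) =
      ((Subgroup.centralizer (Q' : Set G)).subgroupOf (Subgroup.normalizer (Q' : Set G))).comap φ := by
    ext y
    rw [Subgroup.mem_comap, Subgroup.mem_subgroupOf, Subgroup.mem_subgroupOf,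
      Subgroup.mem_centralizer_iff, Subgroup.mem_centralizer_iff]
    constructor
    · rintro hy _ ⟨w, hw, rfl⟩
      have := hy w hw
      exact congrArg Subtype.val this
    · intro hy w hw
      apply Subtype.ext
      exact hy (w : G) ⟨w, hw, rfl⟩
  let ψ := QuotientGroup.map
    ((Subgroup.centralizer (Q : Set H)).subgroupOf (Subgroup.normalizer (Q : Set H)))
    ((Subgroup.centralizer (Q' : Set G)).subgroupOf (Subgroup.normalizer (Q' : Set G))) φ hle.le
  have hψ : Function.Injective ψ := by
    rw [injective_iff_map_eq_one]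
    intro y
    induction y using QuotientGroup.induction_on with
    | H y =>
      intro hy
      rw [QuotientGroup.map_mk, QuotientGroup.eq_one_iff] at hy
      rw [QuotientGroup.eq_one_iff, hle]
      exact hy
  haveI := Cfsg.Agent.H12.pCore_characteristic p (↥(Subgroup.normalizer (Q' : Set G)) ⧸
          (Subgroup.centralizer (Q' : Set G)).subgroupOf (Subgroup.normalizer (Q' : Set G)))
  have hK : (pCore p (↥(Subgroup.normalizer (Q' : Set G)) ⧸
          (Subgroup.centralizer (Q' : Set G)).subgroupOf (Subgroup.normalizer (Q' : Set G)))).comap ψ ≤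
      pCore p _ :=
    Cfsg.Agent.H12.le_pCore inferInstance
      ((Cfsg.Agent.H12.pCore_isPGroup p _).comap_of_injective ψ hψ)
  apply hK
  rw [Subgroup.mem_comap]
  exact h

end Cfsg.Agent.S3836
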