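import Cfsg.Statements.S3838
import Cfsg.Agent.H1.Transfer3
import Cfsg.Agent.H1.Hall
import Cfsg.Agent.H12.Cores
import Cfsg.Agent.H20.Wielandt

set_option autoImplicit false
open Cfsg

namespace Cfsg.Agent.S3838

open Subgroup Cfsg.Agent.H20 Cfsg.H1
open scoped Pointwise commutatorElement

/-- Let G be a finite group with Sylow p-subgroup P such that N_G(P) has a normal p-complement. Then N_G(Q) has a normal p-complement for every subgroup Q with [P, P] ≤ Q ≤ Φ(P). -/
theorem result {G : Type*} [Group G] [Finite G] {p : ℕ} [Fact p.Prime] (P : Sylow p G) (hN : Cfsg.HasNormalPComplement p ↥(Subgroup.normalizer ((P : Subgroup G) : Set G))) (Q : Subgroup G) (h1 : (commutator ↥(P : Subgroup G)).map (P : Subgroup G).subtype ≤ Q) (h2 : Q ≤ (frattini ↥(P : Subgroup G)).map (P : Subgroup G).subtype) : Cfsg.HasNormalPComplement p ↥(Subgroup.normalizer (Q : Set G)) := by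
  have hp : p.Prime := Fact.out
  set NQ := normalizer (Q : Set G) with hNQ
  have h1' : ⁅(P : Subgroup G), (P : Subgroup G)⁆ ≤ Q := by rwa [map_subtype_commutator] at h1
  have hQP : Q ≤ P := h2.trans (map_subtype_le _)
  have hPN : (P : Subgroup G) ≤ NQ := by
    apply le_normalizer_of_forall_conj_le
    rintro t ht _ ⟨x, hx, rfl⟩
    change t * x * t⁻¹ ∈ Q
    have : t * x * t⁻¹ = ⁅t, x⁆ * x := by rw [commutatorElement_def]; group
    rw [this]; exact Q.mul_mem (h1' (commutator_mem_commutator ht (hQP hx))) hx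
  -- Step A
  have hNP : ∀ n ∈ normalizer ((P : Subgroup G) : Set G), ∃ c ∈ centralizer ((P : Subgroup G) : Set G),
      ∃ y ∈ P, n = c * y := by
    intro n hn
    obtain ⟨K, hKn, hc⟩ := (hasNormalPComplement_iff_sylow (P.subtype le_normalizer)).1 hN
    obtain ⟨⟨k, s⟩, e⟩ := hc.2 ⟨n, hn⟩
    have hs : (s : normalizer ((P : Subgroup G) : Set G)).1 ∈ P := s.2
    refine ⟨k.1.1, ?_, s.1.1, hs, congrArg Subtype.val e.symm⟩
    rw [mem_centralizer_iff]
    intro y hy
    have hPn : ((P : Subgroup G).subgroupOf (normalizer ((P : Subgroup G) : Set G))).Normal :=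
      normal_in_normalizer
    set y' : normalizer ((P : Subgroup G) : Set G) := ⟨y, le_normalizer hy⟩ with hy'
    have hy'P : y' ∈ (P : Subgroup G).subgroupOf (normalizer ((P : Subgroup G) : Set G)) := hy
    have hwK : k.1 * y' * k.1⁻¹ * y'⁻¹ ∈ K := by
      have := K.mul_mem k.2 (hKn.conj_mem _ (K.inv_mem k.2) y')
      simpa [mul_assoc] using this
    have hwP : k.1 * y' * k.1⁻¹ * y'⁻¹ ∈ (P : Subgroup G).subgroupOf (normalizer ((P : Subgroup G) : Set G)) :=
      Subgroup.mul_mem _ (hPn.conj_mem _ hy'P k.1) (Subgroup.inv_mem _ hy'P)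
    have hw := Subgroup.disjoint_def.1 hc.disjoint hwK hwP
    have hw' : k.1.1 * y * k.1.1⁻¹ * y⁻¹ = 1 := congrArg Subtype.val hw
    calc y * k.1.1 = (k.1.1 * y * k.1.1⁻¹ * y⁻¹)⁻¹ * (k.1.1 * y) := by group
      _ = k.1.1 * y := by rw [hw']; simp
  -- Step B
  set Qh : Subgroup NQ := Q.subgroupOf NQ with hQh
  have hQhn : Qh.Normal := normal_in_normalizer
  set f : NQ →* NQ ⧸ Qh := QuotientGroup.mk' Qh with hf'
  have hf : Function.Surjective f := QuotientGroup.mk'_surjective Qh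
  set Pb : Sylow p (NQ ⧸ Qh) := (P.subtype hPN).mapSurjective hf with hPb
  have hmem : ∀ y : NQ, f y ∈ (Pb : Subgroup (NQ ⧸ Qh)) ↔ y.1 ∈ P := by
    intro y
    constructor
    · rintro ⟨z, hz, e⟩
      have hz' : z.1 ∈ P := hz
      have h3 : z⁻¹ * y ∈ Qh := QuotientGroup.eq.1 e
      have h4 : z.1⁻¹ * y.1 ∈ Q := h3
      have : y.1 = z.1 * (z.1⁻¹ * y.1) := by group
      rw [this]; exact mul_mem hz' (hQP h4)
    · intro hy
      exact ⟨y, hy, rfl⟩
  have hBurn : normalizer ((Pb : Subgroup (NQ ⧸ Qh)) : Set (NQ ⧸ Qh)) ≤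
      centralizer ((Pb : Subgroup (NQ ⧸ Qh)) : Set (NQ ⧸ Qh)) := by
    intro nb hnb
    obtain ⟨n, rfl⟩ := hf nb
    have hn : n.1 ∈ normalizer ((P : Subgroup G) : Set G) := by
      rw [mem_normalizer_iff]
      intro y
      constructor
      · intro hy
        have := (mem_normalizer_iff.1 hnb (f ⟨y, hPN hy⟩)).1 ((hmem _).2 hy)
        rw [← map_inv, ← map_mul, ← map_mul, hmem] at this
        exact this
      · intro hy
        have hyN : y ∈ NQ := by
          have := NQ.mul_mem (NQ.mul_mem (NQ.inv_mem n.2) (hPN hy)) n.2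
          simpa [mul_assoc] using this
        have := (mem_normalizer_iff.1 hnb (f ⟨y, hyN⟩)).2 (by
          rw [← map_inv, ← map_mul, ← map_mul, hmem]; exact hy)
        exact (hmem _).1 this
    obtain ⟨c, hc0, y0, hy0, e⟩ := hNP n.1 hn
    rw [mem_centralizer_iff]
    rintro _ ⟨x, hx, rfl⟩
    have hx' : x.1 ∈ P := hx
    rw [← map_mul, ← map_mul]
    change ((x * n : NQ) : NQ ⧸ Qh) = ((n * x : NQ) : NQ ⧸ Qh)
    rw [QuotientGroup.eq]
    change (x.1 * n.1)⁻¹ * (n.1 * x.1) ∈ Q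
    have hcx : x.1⁻¹ * c = c * x.1⁻¹ := (mem_centralizer_iff.1 hc0) _ (inv_mem hx')
    have e2 : (x.1 * n.1)⁻¹ * (n.1 * x.1) = ⁅y0⁻¹, x.1⁻¹⁆ := by
      rw [e, commutatorElement_def]
      calc (x.1 * (c * y0))⁻¹ * (c * y0 * x.1) = y0⁻¹ * c⁻¹ * (x.1⁻¹ * c) * y0 * x.1 := by group
        _ = y0⁻¹ * c⁻¹ * (c * x.1⁻¹) * y0 * x.1 := by rw [hcx]
        _ = y0⁻¹ * x.1⁻¹ * y0⁻¹⁻¹ * x.1⁻¹⁻¹ := by group
    rw [e2]
    exact h1' (commutator_mem_commutator (inv_mem hy0) (inv_mem hx'))
  -- Step C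
  have hcb := MonoidHom.ker_transferSylow_isComplement' Pb hBurn
  have hLbc := MonoidHom.not_dvd_card_ker_transferSylow Pb hBurn
  set Lb := (MonoidHom.transferSylow Pb hBurn).ker with hLb
  obtain ⟨hQL, hrel⟩ := relIndex_comap_mk' Qh Lb
  set L := Lb.comap (QuotientGroup.mk' Qh) with hL
  have hLn : L.Normal := inferInstance
  have hQp : IsPGroup p Qh := (P.2.to_le hQP).comap_subtype
  obtain ⟨b, hb⟩ := IsPGroup.iff_card.1 hQp
  have hLbc' : (Nat.card Lb).Coprime p := ((Nat.Prime.coprime_iff_not_dvd hp).2 hLbc).symm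
  obtain ⟨B, hBL, hBcard, hBd, hBsup⟩ := sz_exists_internal hQL le_normalizer_of_normal
    (by rw [hrel, hb]; exact (Nat.Coprime.pow_right b hLbc').symm)
  rw [hrel] at hBcard
  have hQsolv : Group.IsSolvable Qh := by
    have := hQp.isNilpotent
    infer_instance
  -- Step D : Frattini argument
  have hFr : ∀ h : NQ, ∃ k ∈ Qh, k⁻¹ * h ∈ normalizer (B : Set NQ) := by
    intro h
    have hB' : MulAut.conj h • B ≤ Qh ⊔ B := by
      rw [hBsup, ← Normal.conj_smul_eq_self h L]
      exact pointwise_smul_le_pointwise_smul_iff.2 hBL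
    obtain ⟨k, hk, hkB⟩ := sz_conj_internal (A := B) (K := Qh) (B := MulAut.conj h • B)
      le_normalizer_of_normal (by rw [hBcard, hb]; exact Nat.Coprime.pow_right b hLbc')
      (Or.inr hQsolv) hB' (card_conj_smul _ _)
    refine ⟨k, hk, ?_⟩
    rw [mem_normalizer_iff_map_conj_eq]
    change MulAut.conj (k⁻¹ * h) • B = B
    rw [conj_mul_smul, ← hkB, ← conj_mul_smul, inv_mul_cancel, map_one, one_smul]
  -- Step E : `P` normalizes `B`
  have hPB : ∀ y : (P : Subgroup G), Subgroup.inclusion hPN y ∈ normalizer (B : Set NQ) := by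
    set S' : Subgroup (P : Subgroup G) := (normalizer (B : Set NQ)).comap (Subgroup.inclusion hPN) with hS'
    have htop : S' ⊔ frattini (P : Subgroup G) = ⊤ := by
      rw [eq_top_iff]
      intro y _
      obtain ⟨k, hk, hky⟩ := hFr (Subgroup.inclusion hPN y)
      have hkQ : k.1 ∈ Q := hk
      obtain ⟨z, hz, hzk⟩ := h2 hkQ
      have hzk' : Subgroup.inclusion hPN z = k := Subtype.ext hzk
      have e : y = z * (z⁻¹ * y) := by group
      rw [e, sup_comm]
      refine mul_mem_sup hz ?_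
      change Subgroup.inclusion hPN (z⁻¹ * y) ∈ normalizer (B : Set NQ)
      rw [map_mul, map_inv, hzk']
      exact hky
    have := frattini_nongenerating htop
    intro y
    have hy : y ∈ S' := by rw [this]; trivial
    exact hy
  have hBn : B.Normal := by
    rw [← normalizer_eq_top_iff, eq_top_iff]
    intro h _
    obtain ⟨k, hk, hkh⟩ := hFr h
    have hkP : k.1 ∈ P := hQP hk
    have h3 := hPB ⟨k.1, hkP⟩
    have h4 : Subgroup.inclusion hPN ⟨k.1, hkP⟩ = k := Subtype.ext rfl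
    rw [h4] at h3
    have e : h = k * (k⁻¹ * h) := by group
    rw [e]; exact mul_mem h3 hkh
  apply Cfsg.Agent.H12.hasNormalPComplement_of hBn (by rw [hBcard]; exact hLbc')
  obtain ⟨a, ha⟩ := IsPGroup.iff_card.1 Pb.2
  apply IsPGroup.of_card (n := a + b)
  have e1 := B.card_mul_index
  have e2 := card_eq_card_quotient_mul_card_subgroup Qh
  have e3 := hcb.card_mul_card
  rw [hBcard, e2, ← e3, ha, hb] at e1
  have e4 : B.index = p ^ a * p ^ b := by
    apply Nat.eq_of_mul_eq_mul_left (Nat.card_pos (α := Lb))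
    rw [e1]; ring
  rw [pow_add, ← e4]
  rfl

end Cfsg.Agent.S3838
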