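import Cfsg.Statements.S3857
import Cfsg.Agent.H1.PrimeGraph

set_option autoImplicit false
open Cfsg

namespace Cfsg.Agent.S3857

/-- A finite solvable group whose prime graph (prime divisors of the order, two distinct primes joined when there is an element of order their product) is disconnected is a Frobenius group or a 2-Frobenius group (it has normal subgroups H < K with K a Frobenius group with kernel H and G/H a Frobenius group with kernel K/H). -/
theorem result {G : Type*} [Group G] [Finite G] (hsol : Group.IsSolvable G)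
    (hdisc : (∃ A : Set ℕ, (∃ a ∈ A, a.Prime ∧ a ∣ Nat.card G) ∧ (∃ b ∉ A, b.Prime ∧ b ∣ Nat.card G) ∧
      ∀ a ∈ A, ∀ b ∉ A, a.Prime → b.Prime → a ∣ Nat.card G → b ∣ Nat.card G → ¬ ∃ g : G, orderOf g = a * b)) :
    (∃ C : Subgroup G, Cfsg.IsFrobeniusComplement C) ∨
    (∃ (H K : Subgroup G) (_ : H.Normal), K.Normal ∧ H < K ∧
      (∃ C : Subgroup ↥K, Cfsg.IsFrobeniusComplement C ∧ Cfsg.frobeniusKernel C = (H.subgroupOf K : Set ↥K)) ∧
      (∃ C : Subgroup (G ⧸ H), Cfsg.IsFrobeniusComplement C ∧ Cfsg.frobeniusKernel C = (K.map (QuotientGroup.mk' H) : Set (G ⧸ H)))) := by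
  haveI := hsol
  obtain ⟨A, ⟨a, haA, hap, had⟩, ⟨b, hbA, hbp, hbd⟩, hno⟩ := hdisc
  have hNo : Cfsg.H1.NoAB A G := by
    intro a' ha' b' hb' hap' hbp' ⟨g, hg⟩
    have hd : a' * b' ∣ Nat.card G := hg ▸ orderOf_dvd_natCard g
    exact hno a' ha' b' hb' hap' hbp' ((Dvd.intro _ rfl).trans hd) ((Dvd.intro_left _ rfl).trans hd)
      ⟨g, hg⟩
  haveI : Nontrivial G := by
    rw [← Finite.one_lt_card_iff_nontrivial]
    exact lt_of_lt_of_le hap.one_lt (Nat.le_of_dvd Nat.card_pos had)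
  obtain ⟨V, hVn, hV, hVab, hVA⟩ := Cfsg.H1.exists_normal_ab_pi (X := G) A
  rcases hVA with hVA | hVA
  · exact Cfsg.H1.prime_graph_main hNo ⟨b, hbA, hbp, hbd⟩ V hVn hV hVab hVA
  · exact Cfsg.H1.prime_graph_main hNo.compl ⟨a, by simpa using haA, hap, had⟩ V hVn hV hVab hVA

end Cfsg.Agent.S3857
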