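import Cfsg.Statements.S3858
import Cfsg.Agent.H20.PGroup

set_option autoImplicit false
open Cfsg

namespace Cfsg.Agent.S3858

open Cfsg.Agent.H20

/-- `R` is not normal in `G`. -/
theorem normalizer_ne_top {G : Type*} [Group G] [Finite G] (T : Subgroup G) [T.Normal] (hT : IsSimpleGroup T) (hna : ¬ IsMulCommutative T)
    {r : ℕ} [Fact r.Prime] (R : Sylow r G) (hR0 : (R : Subgroup G) ⊓ T ≠ ⊥) :
    Subgroup.normalizer ((R : Subgroup G) : Set G) ≠ ⊤ := by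
  intro h
  have hn : (R : Subgroup G).Normal := Subgroup.normalizer_eq_top_iff.1 h
  have hn' : ((R : Subgroup G).subgroupOf T).Normal := inferInstance
  rcases hn'.eq_bot_or_eq_top with h1 | h1
  · apply hR0
    rw [Subgroup.subgroupOf_eq_bot, disjoint_iff] at h1
    exact h1
  · rw [Subgroup.subgroupOf_eq_top] at h1
    have hTp : IsPGroup r T := R.2.to_le h1
    apply hna
    have hnil : Group.IsNilpotent T := hTp.isNilpotent
    have hsol : Group.IsSolvable T := inferInstance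
    exact IsSimpleGroup.comm_iff_isSolvable.2 hsol |> fun h => ⟨⟨h⟩⟩

theorem result {G : Type*} [Group G] [Finite G] (T : Subgroup G) [T.Normal] (hT : IsSimpleGroup T) (hna : ¬ IsMulCommutative T)
    (hC : Subgroup.centralizer (T : Set G) = ⊥) {r : ℕ} [Fact r.Prime] (R : Sylow r G) (hR0 : (R : Subgroup G) ⊓ T ≠ ⊥) :
    (∃! M : Subgroup G, IsCoatom M ∧ (R : Subgroup G) ≤ M) ↔
      ((∃ M : Subgroup G, IsCoatom M ∧ ¬ r ∣ M.index) ∧
        ∀ M₁ M₂ : Subgroup G, IsCoatom M₁ → ¬ r ∣ M₁.index → IsCoatom M₂ → ¬ r ∣ M₂.index → ∃ g : G, M₂ = M₁.map (MulAut.conj g).toMonoidHom) := by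
  have hidx : ∀ M : Subgroup G, (R : Subgroup G) ≤ M → ¬ r ∣ M.index := by
    intro M hRM hd
    exact R.not_dvd_index (hd.trans (Subgroup.index_dvd_of_le hRM))
  constructor
  · rintro ⟨M, ⟨hM, hRM⟩, huniq⟩
    refine ⟨⟨M, hM, hidx M hRM⟩, ?_⟩
    have key : ∀ M₁ : Subgroup G, IsCoatom M₁ → ¬ r ∣ M₁.index → ∃ g : G, M₁ = M.map (MulAut.conj g).toMonoidHom := by
      intro M₁ hM₁ hi
      obtain ⟨g, hg⟩ := exists_smul_le_of_not_dvd_index R M₁ hi
      rw [sylow_smul_coe, sconj_le_iff] at hg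
      have := huniq _ ⟨isCoatom_sconj hM₁ g⁻¹, hg⟩
      refine ⟨g, ?_⟩
      rw [← this, sconj_conj_inv]
    intro M₁ M₂ h1 h1' h2 h2'
    obtain ⟨g₁, rfl⟩ := key M₁ h1 h1'
    obtain ⟨g₂, rfl⟩ := key M₂ h2 h2'
    refine ⟨g₂ * g₁⁻¹, ?_⟩
    rw [← sconj_mul]
    simp
  · rintro ⟨⟨M₀, hM₀, hi₀⟩, hconj⟩
    obtain ⟨L, hL, hNL⟩ := (eq_top_or_exists_le_coatom _).resolve_left (normalizer_ne_top T hT hna R hR0)
    have hRL : (R : Subgroup G) ≤ L := le_trans Subgroup.le_normalizer hNL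
    refine ⟨L, ⟨hL, hRL⟩, ?_⟩
    rintro M ⟨hM, hRM⟩
    obtain ⟨a, rfl⟩ := hconj L M hL (hidx L hRL) hM (hidx M hRM)
    exact sconj_eq_of_normalizer_le R hNL hRM

end Cfsg.Agent.S3858
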