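import Cfsg.Statements.S3859
import Cfsg.Agent.H20.PGroup

set_option autoImplicit false
open Cfsg

namespace Cfsg.Agent.S3859

open Cfsg.Agent.H20

/-- `R ∩ T` is not normal in `G`. -/
theorem normalizer_inf_ne_top {G : Type*} [Group G] [Finite G] (T : Subgroup G) [T.Normal] (hT : IsSimpleGroup T) (hna : ¬ IsMulCommutative T)
    {r : ℕ} [Fact r.Prime] (R : Sylow r G) (hR0 : (R : Subgroup G) ⊓ T ≠ ⊥) :
    Subgroup.normalizer (((R : Subgroup G) ⊓ T : Subgroup G) : Set G) ≠ ⊤ := by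
  intro h
  have hn : ((R : Subgroup G) ⊓ T).Normal := Subgroup.normalizer_eq_top_iff.1 h
  have hn' : (((R : Subgroup G) ⊓ T).subgroupOf T).Normal := inferInstance
  rcases hn'.eq_bot_or_eq_top with h1 | h1
  · apply hR0
    rw [Subgroup.subgroupOf_eq_bot, disjoint_iff] at h1
    rw [← h1]
    simp
  · rw [Subgroup.subgroupOf_eq_top] at h1
    have hTR : T ≤ R := le_trans h1 inf_le_left
    have hTp : IsPGroup r T := R.2.to_le hTR
    -- a simple p-group is commutative
    apply hna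
    have hnil : Group.IsNilpotent T := hTp.isNilpotent
    have hsol : Group.IsSolvable T := inferInstance
    exact IsSimpleGroup.comm_iff_isSolvable.2 hsol |> fun h => ⟨⟨h⟩⟩

theorem result {G : Type*} [Group G] [Finite G] (T : Subgroup G) [T.Normal] (hT : IsSimpleGroup T) (hna : ¬ IsMulCommutative T)
    (hC : Subgroup.centralizer (T : Set G) = ⊥) {r : ℕ} [Fact r.Prime] (R : Sylow r G) (hR0 : (R : Subgroup G) ⊓ T ≠ ⊥)
    (huniq : ∃! M : Subgroup G, IsCoatom M ∧ (R : Subgroup G) ≤ M) : IsPGroup r (G ⧸ T) := by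
  obtain ⟨M, ⟨hM, hRM⟩, huniq⟩ := huniq
  have hle : ∀ L : Subgroup G, L ≠ ⊤ → (R : Subgroup G) ≤ L → L ≤ M := by
    intro L hL hRL
    obtain ⟨X, hX, hLX⟩ := (eq_top_or_exists_le_coatom L).resolve_left hL
    rw [← huniq X ⟨hX, hRL.trans hLX⟩]
    exact hLX
  obtain ⟨P, hP⟩ := exists_sylow_inf_normal R T
  have hfr := Sylow.normalizer_sup_eq_top P
  have hPmap : (P : Subgroup T).map T.subtype = (R : Subgroup G) ⊓ T := by
    rw [hP, Subgroup.subgroupOf_map_subtype]
  rw [hPmap] at hfr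
  have hRN : (R : Subgroup G) ≤ Subgroup.normalizer (((R : Subgroup G) ⊓ T : Subgroup G) : Set G) := by
    rw [Subgroup.le_normalizer_iff]
    intro h hh k hk
    exact ⟨(R : Subgroup G).mul_mem ((R : Subgroup G).mul_mem hh hk.1) ((R : Subgroup G).inv_mem hh), ‹T.Normal›.conj_mem k hk.2 h⟩
  have hNM := hle _ (normalizer_inf_ne_top T hT hna R hR0) hRN
  have hTM : ¬ T ≤ M := by
    intro h
    apply hM.1
    rw [eq_top_iff, ← hfr]
    exact sup_le hNM h
  have hRT : (R : Subgroup G) ⊔ T = ⊤ := by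
    by_contra h
    exact hTM (le_trans le_sup_right (hle _ h le_sup_left))
  -- G/T is an image of R
  let φ : (R : Subgroup G) →* G ⧸ T := (QuotientGroup.mk' T).comp (R : Subgroup G).subtype
  apply R.2.of_surjective φ
  intro x
  obtain ⟨x, rfl⟩ := QuotientGroup.mk'_surjective T x
  have hx : x ∈ (R : Subgroup G) ⊔ T := hRT ▸ Subgroup.mem_top x
  rw [← SetLike.mem_coe, Subgroup.mul_normal] at hx
  obtain ⟨a, ha, t, ht, rfl⟩ := hx
  refine ⟨⟨a, ha⟩, ?_⟩
  simp only [φ, MonoidHom.comp_apply, Subgroup.subtype_apply, QuotientGroup.mk'_apply]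
  rw [QuotientGroup.eq]
  simpa using ht

end Cfsg.Agent.S3859
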