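import Cfsg.Statements.S3861
import Cfsg.Agent.S0199
import Cfsg.Agent.H1.Coprime
import Cfsg.Agent.H20.Radical

set_option autoImplicit false
open Cfsg

namespace Cfsg.Agent.S3861

open Subgroup Cfsg.Agent.H20

/-- a normal `p`-subgroup lies in every Sylow `p`-subgroup. -/
theorem normal_le_sylow {G : Type*} [Group G] [Finite G] {p : ℕ} [Fact p.Prime] (P : Sylow p G)
    (N : Subgroup G) (hN : N.Normal) (hp : IsPGroup p N) : N ≤ P := by
  obtain ⟨R, hR⟩ := hp.exists_le_sylow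
  obtain ⟨g, rfl⟩ := MulAction.exists_smul_eq G R P
  intro n hn
  rw [sylow_smul_coe, mem_conj_iff]
  apply hR
  have := hN.conj_mem n hn g⁻¹
  simpa using this

theorem isPGroup_of_card_dvd {G : Type*} [Group G] {p : ℕ} [hp : Fact p.Prime] (D : Subgroup G) (n : ℕ)
    (h : Nat.card D ∣ p ^ n) : IsPGroup p D := by
  obtain ⟨k, _, hk⟩ := (Nat.dvd_prime_pow hp.out).1 h
  exact IsPGroup.of_card hk

/-- the easy direction -/
theorem easy {G : Type*} [Group G] [Finite G] (P : Sylow 2 G) (hP : (P : Subgroup G).Normal)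
    (x : G) (hx : x ≠ 1) (hodd : Odd (orderOf x)) : ¬ IsConj x x⁻¹ := by
  intro hc
  obtain ⟨g, hg⟩ := isConj_iff.1 hc
  obtain ⟨a, m, hm, hgm⟩ := Nat.exists_eq_two_pow_mul_odd (n := orderOf g) (orderOf_pos g).ne'
  -- odd powers of `g` invert `x`
  have hpow : ∀ k : ℕ, Odd k → g ^ k * x * (g ^ k)⁻¹ = x⁻¹ := by
    have h2 : ∀ j : ℕ, g ^ (2 * j) * x * (g ^ (2 * j))⁻¹ = x := by
      intro j
      induction j with
      | zero => simp
      | succ j ih =>
        have e : g ^ (2 * (j + 1)) = g * g * g ^ (2 * j) := by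
          rw [show 2 * (j + 1) = 2 + 2 * j by ring, pow_add, pow_two]
        rw [e]
        calc g * g * g ^ (2 * j) * x * (g * g * g ^ (2 * j))⁻¹
            = g * (g * (g ^ (2 * j) * x * (g ^ (2 * j))⁻¹) * g⁻¹) * g⁻¹ := by group
          _ = g * (g * x * g⁻¹) * g⁻¹ := by rw [ih]
          _ = g * x⁻¹ * g⁻¹ := by rw [hg]
          _ = (g * x * g⁻¹)⁻¹ := by group
          _ = x := by rw [hg, inv_inv]
    rintro k ⟨j, rfl⟩
    calc g ^ (2 * j + 1) * x * (g ^ (2 * j + 1))⁻¹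
        = g * (g ^ (2 * j) * x * (g ^ (2 * j))⁻¹) * g⁻¹ := by
          rw [pow_succ']; group
      _ = x⁻¹ := by rw [h2, hg]
  set t := g ^ m with ht
  have htx := hpow m hm
  have hto : t ^ (2 ^ a) = 1 := by
    rw [ht, ← pow_mul, mul_comm, ← hgm, pow_orderOf_eq_one]
  have htP : t ∈ (P : Subgroup G) := by
    have h1 : IsPGroup 2 (zpowers t) := by
      apply isPGroup_of_card_dvd _ a
      rw [Nat.card_zpowers]
      exact orderOf_dvd_of_pow_eq_one hto
    exact le_normal_sylow P hP h1 (mem_zpowers t)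
  have hx2 : x⁻¹ * x⁻¹ ∈ (P : Subgroup G) := by
    have h1 := (P : Subgroup G).mul_mem htP (hP.conj_mem _ ((P : Subgroup G).inv_mem htP) x)
    have h2 : t * (x * t⁻¹ * x⁻¹) = x⁻¹ * x⁻¹ := by
      calc t * (x * t⁻¹ * x⁻¹) = (t * x * t⁻¹) * x⁻¹ := by group
        _ = _ := by rw [htx]
    rwa [h2] at h1
  obtain ⟨k, hk⟩ := P.2 ⟨x⁻¹ * x⁻¹, hx2⟩
  have hk' : (x⁻¹ * x⁻¹) ^ (2 ^ k) = 1 := congrArg Subtype.val hk
  have hk2 : x ^ (2 ^ (k + 1)) = 1 := by
    have : (x⁻¹ * x⁻¹) ^ (2 ^ k) = (x ^ (2 ^ (k + 1)))⁻¹ := by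
      rw [← pow_two, ← pow_mul, inv_pow, pow_succ']
    rw [this, inv_eq_one] at hk'
    exact hk'
  have h3 : orderOf x ∣ 2 ^ (k + 1) := orderOf_dvd_of_pow_eq_one hk2
  have h4 : (orderOf x).Coprime (2 ^ (k + 1)) :=
    Nat.Coprime.pow_right _ (Nat.coprime_two_right.2 hodd)
  have h5 : orderOf x = 1 := Nat.Coprime.eq_one_of_dvd h4 h3
  exact hx (orderOf_eq_one_iff.1 h5)

theorem key {G : Type*} [Group G] [Finite G]
    (h : ∀ x : G, x ≠ 1 → Odd (orderOf x) → ¬ IsConj x x⁻¹) (O : Subgroup G) [hOn : O.Normal]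
    (hO2 : IsPGroup 2 O) (u : G) (hu2 : u ^ 2 ∈ O) (c : ℕ) (huc : u ^ (2 ^ c) = 1) (g : G) :
    IsPGroup 2 ↥((O ⊔ zpowers u) ⊔ (O ⊔ zpowers u).map (MulAut.conj g).toMonoidHom) := by
  set π := QuotientGroup.mk' O with hπdef
  have hπ : ∀ x, π x = 1 ↔ x ∈ O := fun x => QuotientGroup.eq_one_iff x
  obtain ⟨b, hb⟩ := IsPGroup.iff_card.1 hO2
  set t := g * u * g⁻¹ with ht
  have ht2 : t ^ 2 ∈ O := by
    have : t ^ 2 = g * u ^ 2 * g⁻¹ := by rw [ht, conj_pow]
    rw [this]; exact hOn.conj_mem _ hu2 g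
  set w := u * t with hw
  have hπu : π u * π u = 1 := by rw [← map_mul, ← pow_two, hπ]; exact hu2
  have hπt : π t * π t = 1 := by rw [← map_mul, ← pow_two, hπ]; exact ht2
  have hinv : π (u * w * u⁻¹) = (π w)⁻¹ := by
    rw [hw]
    simp only [map_mul, map_inv, mul_inv_rev]
    have e1 : (π t)⁻¹ = π t := inv_eq_of_mul_eq_one_left hπt
    rw [e1, ← mul_assoc, hπu, one_mul]
  have hinvpow : ∀ n : ℕ, π (u * w ^ n * u⁻¹) = (π (w ^ n))⁻¹ := by
    intro n
    rw [← conj_pow, map_pow, hinv, map_pow, inv_pow]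
  obtain ⟨a, m, hm, hwm⟩ := Nat.exists_eq_two_pow_mul_odd (n := orderOf w) (orderOf_pos w).ne'
  set y := w ^ (2 ^ a) with hy
  have hyo : orderOf y = m := by
    rw [hy, orderOf_pow_of_dvd (by positivity) (hwm ▸ Dvd.intro _ rfl), hwm,
      Nat.mul_div_cancel_left _ (by positivity)]
  have hy1 : y = 1 := by
    by_contra hyne
    apply h y hyne (hyo ▸ hm)
    have hcop : (Nat.card (zpowers y)).Coprime (Nat.card O) := by
      rw [Nat.card_zpowers, hyo, hb]
      exact Nat.Coprime.pow_right _ (Nat.coprime_two_right.2 hm)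
    have hAn : zpowers y ≤ normalizer (O : Set G) := by
      rw [normalizer_eq_top_iff.2 hOn]; exact le_top
    have hyinv := hinvpow (2 ^ a)
    rw [← hy] at hyinv
    have hB : zpowers (u * y * u⁻¹) ≤ O ⊔ zpowers y := by
      rw [zpowers_le]
      have h1 : u * y * u⁻¹ * y ∈ O := by
        rw [← hπ, map_mul, hyinv, inv_mul_cancel]
      have h2 : u * y * u⁻¹ = (u * y * u⁻¹ * y) * y⁻¹ := by group
      rw [h2]
      exact mul_mem_sup h1 (inv_mem (mem_zpowers y))
    have hcard : Nat.card (zpowers (u * y * u⁻¹)) = Nat.card (zpowers y) := by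
      rw [Nat.card_zpowers, Nat.card_zpowers]
      exact orderOf_injective (MulAut.conj u).toMonoidHom (MulAut.conj u).injective y
    have hsolv : Group.IsSolvable (zpowers y) ∨ Group.IsSolvable O := by
      right
      have := hO2.isNilpotent
      infer_instance
    obtain ⟨k, hkO, hkA⟩ := Cfsg.H1.sz_conj_internal hAn hcop hsolv hB hcard
    have hz : k⁻¹ * (u * y * u⁻¹) * k ∈ zpowers y := by
      rw [← Cfsg.H1.mem_conj_smul_iff, hkA]
      exact mem_zpowers _
    have hπk : π k = 1 := (hπ k).2 hkO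
    have hzy : k⁻¹ * (u * y * u⁻¹) * k * y ∈ O ⊓ zpowers y := by
      refine mem_inf.2 ⟨?_, mul_mem hz (mem_zpowers y)⟩
      rw [← hπ, map_mul, map_mul, map_mul, hyinv, map_inv, hπk]
      simp
    have hdisj : O ⊓ zpowers y = ⊥ :=
      disjoint_iff.1 (Subgroup.disjoint_of_coprime_natCard hcop.symm)
    rw [hdisj, mem_bot] at hzy
    rw [isConj_iff]
    refine ⟨k⁻¹ * u, ?_⟩
    rw [eq_inv_iff_mul_eq_one, ← hzy]
    group
  have hwa : w ^ (2 ^ a) = 1 := hy1
  -- the 2-group `D`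
  set W := O ⊔ zpowers w with hW
  have hWcard : Nat.card W ∣ 2 ^ (b + a) := by
    have h1 := card_sup_dvd_rel O (zpowers w) (by rw [normalizer_eq_top_iff.2 hOn]; exact le_top)
    rw [hb, Nat.card_zpowers] at h1
    refine h1.trans ?_
    rw [pow_add]
    exact Nat.mul_dvd_mul_left _ (orderOf_dvd_of_pow_eq_one hwa)
  have huW : zpowers u ≤ normalizer (W : Set G) := by
    rw [zpowers_le, mem_normalizer_iff_conj]
    apply Subgroup.eq_of_le_of_card_ge
    · rw [hW, Subgroup.map_sup, MonoidHom.map_zpowers]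
      apply sup_le
      · exact (sconj_le_of_normal (le_refl O) u).trans le_sup_left
      · rw [zpowers_le]
        change u * w * u⁻¹ ∈ O ⊔ zpowers w
        have h1 : u * w * u⁻¹ * w ∈ O := by
          rw [← hπ, map_mul, hinv, inv_mul_cancel]
        have h2 : u * w * u⁻¹ = (u * w * u⁻¹ * w) * w⁻¹ := by group
        rw [h2]
        exact mul_mem_sup h1 (inv_mem (mem_zpowers w))
    · rw [card_sconj]
  set D := W ⊔ zpowers u with hD
  have hDcard : Nat.card D ∣ 2 ^ (b + a + c) := by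
    have h1 := card_sup_dvd_rel W (zpowers u) huW
    refine h1.trans ?_
    rw [pow_add _ (b + a)]
    exact Nat.mul_dvd_mul hWcard (by rw [Nat.card_zpowers]; exact orderOf_dvd_of_pow_eq_one huc)
  have hD2 : IsPGroup 2 D := isPGroup_of_card_dvd D _ hDcard
  apply hD2.to_le
  have hOD : O ≤ D := le_sup_left.trans le_sup_left
  have huD : u ∈ D := le_sup_right (a := W) (mem_zpowers u)
  have hwD : w ∈ D := (le_sup_left : W ≤ D) (le_sup_right (a := O) (mem_zpowers w))
  apply sup_le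
  · exact sup_le hOD (zpowers_le.2 huD)
  · rw [Subgroup.map_sup, MonoidHom.map_zpowers]
    apply sup_le
    · exact (sconj_le_of_normal (le_refl O) g).trans hOD
    · rw [zpowers_le]
      change g * u * g⁻¹ ∈ D
      have : g * u * g⁻¹ = u⁻¹ * w := by rw [hw, ht]; group
      rw [this]
      exact D.mul_mem (D.inv_mem huD) hwD

theorem hard {G : Type*} [Group G] [Finite G] (P : Sylow 2 G)
    (h : ∀ x : G, x ≠ 1 → Odd (orderOf x) → ¬ IsConj x x⁻¹) : (P : Subgroup G).Normal := by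
  classical
  set O := (P : Subgroup G).normalCore with hO
  have hOn : O.Normal := normalCore_normal _
  have hOP : O ≤ P := normalCore_le _
  have hO2 : IsPGroup 2 O := P.2.to_le hOP
  suffices hPO : (P : Subgroup G) ≤ O by
    have : (P : Subgroup G) = O := le_antisymm hPO hOP
    rw [this]; exact hOn
  by_contra hcon
  obtain ⟨v, hvP, hvO⟩ := SetLike.not_le_iff_exists.1 hcon
  obtain ⟨u, huP, huO, hu2⟩ : ∃ u ∈ (P : Subgroup G), u ∉ O ∧ u ^ 2 ∈ O := by
    obtain ⟨k, hk⟩ := P.2 ⟨v, hvP⟩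
    have hk' : v ^ (2 ^ k) = 1 := congrArg Subtype.val hk
    have hex : ∃ j, v ^ (2 ^ j) ∈ O := ⟨k, by rw [hk']; exact O.one_mem⟩
    have hj := Nat.find_spec hex
    have hj0 : Nat.find hex ≠ 0 := by
      intro h0
      rw [h0] at hj
      simp only [pow_zero, pow_one] at hj
      exact hvO hj
    obtain ⟨i, hi⟩ := Nat.exists_eq_succ_of_ne_zero hj0
    refine ⟨v ^ (2 ^ i), pow_mem hvP _, Nat.find_min hex (by omega), ?_⟩
    rw [← pow_mul, ← pow_succ, ← Nat.succ_eq_add_one, ← hi]; exact hj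
  obtain ⟨c, hc⟩ := P.2 ⟨u, huP⟩
  have hc' : u ^ (2 ^ c) = 1 := congrArg Subtype.val hc
  have hXP : O ⊔ zpowers u ≤ P := sup_le hOP (zpowers_le.2 huP)
  obtain ⟨N, hN, hN2, hXN⟩ := Cfsg.Agent.S0199.result (O ⊔ zpowers u) (P.2.to_le hXP)
    (fun g => key h O hO2 u hu2 c hc' g)
  have hNP : N ≤ P := normal_le_sylow P N hN hN2
  have hNO : N ≤ O := normal_le_normalCore.2 hNP
  exact huO (hNO (hXN (le_sup_right (a := O) (mem_zpowers u))))

/-- A finite group G has no non-identity element of odd order that is conjugate to its inverse if and only if the Sylow 2-subgroups of G are normal. -/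
theorem result {G : Type*} [Group G] [Finite G] (P : Sylow 2 G) : (∀ x : G, x ≠ 1 → Odd (orderOf x) → ¬ IsConj x x⁻¹) ↔ (P : Subgroup G).Normal := by
  exact ⟨hard P, fun hP x hx hodd => easy P hP x hx hodd⟩

end Cfsg.Agent.S3861
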