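import Cfsg.Statements.S3862
import Cfsg.Agent.Tr.Frobenius
import Cfsg.Agent.H20.CoprimeAb2
import Cfsg.Agent.H20.CharSub
import Cfsg.Agent.H20.Wielandt
import Cfsg.Agent.S3741
import Cfsg.Agent.H1.Coprime

set_option autoImplicit false
open Cfsg

namespace Cfsg.Agent.S3862

open Subgroup Cfsg.Agent.H20

/-- If every 2-element of the finite group G that is conjugate to its inverse lies in the centre of G, then G has a normal 2-complement. -/
theorem result {G : Type*} [Group G] [Finite G] (h : ∀ x : G, (∃ j : ℕ, orderOf x = 2 ^ j) → IsConj x x⁻¹ → x ∈ Subgroup.center G) : Cfsg.HasNormalPComplement 2 G := by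
  have : Fact (Nat.Prime 2) := ⟨Nat.prime_two⟩
  apply Cfsg.Agent.Tr.Frob.hasNormalPComplement
  have main : ∀ n : ℕ, ∀ Q : Subgroup G, Nat.card Q = n → IsPGroup 2 Q →
      ∀ g ∈ normalizer (Q : Set G), Nat.Coprime (orderOf g) 2 → g ∈ centralizer (Q : Set G) := by
    intro n
    induction n using Nat.strong_induction_on with
    | _ n ih =>
    intro Q hn hQ g hg hco
    by_contra hgC
    set A := zpowers g with hA
    have hgA : g ∈ A := mem_zpowers g
    have hAQ : A ≤ normalizer (Q : Set G) := zpowers_le.2 hg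
    obtain ⟨t, ht⟩ := IsPGroup.iff_card.1 hQ
    have hcop : (Nat.card A).Coprime (Nat.card Q) := by
      rw [ht, hA, Nat.card_zpowers]
      exact Nat.Coprime.pow_right _ hco
    have hsub : ∀ R : Subgroup G, R ≤ Q → R ≠ Q → A ≤ normalizer (R : Set G) →
        A ≤ centralizer (R : Set G) := by
      intro R hRQ hne hgR
      have hlt : Nat.card R < n := by
        rw [← hn]
        refine lt_of_le_of_ne (Subgroup.card_le_of_le hRQ) (fun hc => hne ?_)
        exact Subgroup.eq_of_le_of_card_ge hRQ hc.ge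
      exact zpowers_le.2 (ih _ hlt R rfl (hQ.to_le hRQ) g (hgR hgA) hco)
    have hsolv : Group.IsSolvable A ∨ Group.IsSolvable Q := by
      right
      have := hQ.isNilpotent
      infer_instance
    have hdec := Cfsg.H1.coprime_commutator_sup_centralizer A Q hAQ hcop hsolv
    have hQA : ⁅Q, A⁆ ≤ Q := Cfsg.H1.commutator_le_of_le_normalizer hAQ
    -- Step 1
    have h1 : ⁅Q, A⁆ = Q := by
      by_contra hne
      have h2 := hsub _ hQA hne (le_normalizer_commutator hAQ le_normalizer)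
      apply hgC
      have h3 : Q ≤ centralizer (A : Set G) := by
        conv_lhs => rw [← hdec]
        exact sup_le (le_centralizer_iff.1 h2) inf_le_right
      exact (le_centralizer_iff.1 h3) hgA
    have hQne : Q ≠ ⊥ := by
      rintro rfl
      apply hgC
      rw [mem_centralizer_iff]
      intro x hx
      have : x = 1 := by simpa using hx
      rw [this]; simp
    -- Step 2
    set D : Subgroup G := ⁅Q, Q⁆ with hD
    have hDQ : D ≤ Q := commutator_le_self Q
    have hDne : D ≠ Q := fun e => Cfsg.Agent.Tr.commutator_lt_of_isPGroup hQ hQne (by rw [← hD, e])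
    have hAD : A ≤ centralizer (D : Set G) := hsub D hDQ hDne (le_normalizer_commutator hAQ hAQ)
    have hQD : Q ≤ centralizer (D : Set G) := by
      have e1 : ⁅⁅A, D⁆, Q⁆ = ⊥ := by
        rw [commutator_eq_bot_iff_le_centralizer.2 hAD, commutator_bot_left]
      have e2 : ⁅⁅D, Q⁆, A⁆ = ⊥ := by
        rw [eq_bot_iff]
        calc ⁅⁅D, Q⁆, A⁆ ≤ ⁅D, A⁆ := commutator_mono (commutator_mono hDQ le_rfl) le_rfl
          _ = ⊥ := by rw [commutator_comm]; exact commutator_eq_bot_iff_le_centralizer.2 hAD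
      have e3 := commutator_commutator_eq_bot_of_rotate e1 e2
      rw [h1] at e3
      exact commutator_eq_bot_iff_le_centralizer.1 e3
    -- Step 3
    obtain ⟨u, huQ, hug, hu2⟩ : ∃ u ∈ Q, g * u ≠ u * g ∧ g * u ^ 2 = u ^ 2 * g := by
      have : ∃ q ∈ Q, g * q ≠ q * g := by
        by_contra hcon
        push Not at hcon
        apply hgC
        rw [mem_centralizer_iff]
        intro x hx
        exact (hcon x hx).symm
      obtain ⟨q, hq, hqg⟩ := this
      obtain ⟨k, hk⟩ := hQ ⟨q, hq⟩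
      have hk' : q ^ 2 ^ k = 1 := congrArg Subtype.val hk
      have hex : ∃ i : ℕ, g * q ^ 2 ^ i = q ^ 2 ^ i * g := ⟨k, by rw [hk']; simp⟩
      classical
      have hmin : ∀ m : ℕ, m < Nat.find hex → ¬ (g * q ^ 2 ^ m = q ^ 2 ^ m * g) :=
        fun m hm => Nat.find_min hex hm
      have hspec := Nat.find_spec hex
      set i := Nat.find hex with hi
      have hi0 : i ≠ 0 := by
        intro h0
        rw [h0] at hspec
        apply hqg
        simpa using hspec
      obtain ⟨j, hj⟩ := Nat.exists_eq_succ_of_ne_zero hi0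
      refine ⟨q ^ 2 ^ j, Q.pow_mem hq _, hmin j (by omega), ?_⟩
      rw [← pow_mul, ← pow_succ, ← Nat.succ_eq_add_one, ← hj]
      exact hspec
    -- Step 4
    have hc1 : ∀ b ∈ Q, u * b * u⁻¹ * b⁻¹ ∈ D := fun b hb => commutator_mem_commutator huQ hb
    have hc2 : ∀ z ∈ D, ∀ b ∈ Q, z * b = b * z := fun z hz b hb =>
      (mem_centralizer_iff.1 (hQD hb)) z hz
    set f := Cfsg.Agent.S3741.commHom Q D u hc1 hc2 with hf
    set W : Subgroup G := f.range.map D.subtype with hW
    have hWmem : ∀ w : G, w ∈ W ↔ ∃ b ∈ Q, u * b * u⁻¹ * b⁻¹ = w := by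
      intro w
      constructor
      · rintro ⟨_, ⟨b, rfl⟩, rfl⟩
        exact ⟨b, b.2, rfl⟩
      · rintro ⟨b, hb, rfl⟩
        exact ⟨f ⟨b, hb⟩, ⟨_, rfl⟩, rfl⟩
    have hWD : W ≤ D := by
      rintro _ ⟨z, _, rfl⟩
      exact z.2
    have hQW : Q ≤ centralizer (W : Set G) := hQD.trans (centralizer_le hWD)
    have hAW : A ≤ centralizer (W : Set G) := hAD.trans (centralizer_le hWD)
    have hconj : ∀ a : G, a ∈ centralizer (W : Set G) → ∀ w ∈ W, a * w * a⁻¹ = w := by
      intro a ha w hw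
      have h0 := (mem_centralizer_iff.1 ha) w hw
      rw [← h0]; group
    let Y : Subgroup G :=
      { carrier := {y | y ∈ Q ∧ ∀ q ∈ Q, y * q * y⁻¹ * q⁻¹ ∈ W}
        one_mem' := ⟨Q.one_mem, fun q _ => by simp [W.one_mem]⟩
        mul_mem' := by
          rintro a b ⟨ha, ha'⟩ ⟨hb, hb'⟩
          refine ⟨Q.mul_mem ha hb, fun q hq => ?_⟩
          have e : (a * b) * q * (a * b)⁻¹ * q⁻¹ =
              (a * (b * q * b⁻¹ * q⁻¹) * a⁻¹) * (a * q * a⁻¹ * q⁻¹) := by group
          rw [e, hconj a (hQW ha) _ (hb' q hq)]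
          exact W.mul_mem (hb' q hq) (ha' q hq)
        inv_mem' := by
          rintro a ⟨ha, ha'⟩
          refine ⟨Q.inv_mem ha, fun q hq => ?_⟩
          have e : a⁻¹ * q * a⁻¹⁻¹ * q⁻¹ = a⁻¹ * (a * q * a⁻¹ * q⁻¹)⁻¹ * a⁻¹⁻¹ := by group
          rw [e, hconj a⁻¹ (hQW (Q.inv_mem ha)) _ (W.inv_mem (ha' q hq))]
          exact W.inv_mem (ha' q hq) }
    have hYmem : ∀ y : G, y ∈ Y ↔ y ∈ Q ∧ ∀ q ∈ Q, y * q * y⁻¹ * q⁻¹ ∈ W := fun y => Iff.rfl
    have hYQ : Y ≤ Q := fun y hy => hy.1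
    have huY : u ∈ Y := ⟨huQ, fun q hq => (hWmem _).2 ⟨q, hq, rfl⟩⟩
    have hAY : A ≤ normalizer (Y : Set G) := by
      apply le_normalizer_of_forall_conj_le
      rintro a ha _ ⟨y, hy, rfl⟩
      have hy' := (hYmem y).1 hy
      change a * y * a⁻¹ ∈ Y
      refine ⟨(mem_normalizer_iff.1 (hAQ ha) y).1 hy'.1, fun q hq => ?_⟩
      have hq' : a⁻¹ * q * a⁻¹⁻¹ ∈ Q := (mem_normalizer_iff.1 (hAQ (A.inv_mem ha)) q).1 hq
      have e : a * y * a⁻¹ * q * (a * y * a⁻¹)⁻¹ * q⁻¹ =
          a * (y * (a⁻¹ * q * a⁻¹⁻¹) * y⁻¹ * (a⁻¹ * q * a⁻¹⁻¹)⁻¹) * a⁻¹ := by group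
      rw [e, hconj a (hAW ha) _ (hy'.2 _ hq')]
      exact hy'.2 _ hq'
    have hYeq : Y = Q := by
      by_contra hne
      have := hsub Y hYQ hne hAY
      exact hug ((mem_centralizer_iff.1 (this hgA)) u huY).symm
    have hab : ⁅Q, Q⁆ ≤ W := by
      rw [commutator_le]
      intro y hy q hq
      have : y ∈ Y := by rw [hYeq]; exact hy
      exact this.2 q hq
    -- Step 5
    have hu2W : u ^ 2 ∈ W := by
      apply mem_of_fixed_mod_of_mem_commutator A Q W (hQW.trans (centralizer_le_normalizer _))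
        (hAW.trans (centralizer_le_normalizer _)) hAQ hab hcop (u ^ 2)
      · intro a ha
        have h3 : A ≤ centralizer ({u ^ 2} : Set G) := by
          rw [hA, zpowers_le, mem_centralizer_singleton_iff]
          exact hu2
        have h4 := mem_centralizer_singleton_iff.1 (h3 ha)
        rw [h4]
        simp [W.one_mem]
      · rw [h1]
        exact mem_sup_left (Q.pow_mem huQ 2)
    obtain ⟨b, hb, hbu⟩ := (hWmem _).1 hu2W
    have hreal : IsConj u u⁻¹ := by
      rw [isConj_iff]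
      refine ⟨b⁻¹, ?_⟩
      have e1 : b * u⁻¹ * b⁻¹ = u := by
        calc b * u⁻¹ * b⁻¹ = u⁻¹ * (u * b * u⁻¹ * b⁻¹) := by group
          _ = u := by rw [hbu]; group
      calc b⁻¹ * u * b⁻¹⁻¹ = b⁻¹ * (b * u⁻¹ * b⁻¹) * b := by rw [e1, inv_inv]
        _ = u⁻¹ := by group
    have hord : ∃ j : ℕ, orderOf u = 2 ^ j := by
      obtain ⟨k, hk⟩ := hQ ⟨u, huQ⟩
      have hk' : u ^ 2 ^ k = 1 := congrArg Subtype.val hk
      obtain ⟨j, -, hj⟩ := (Nat.dvd_prime_pow Nat.prime_two).1 (orderOf_dvd_of_pow_eq_one hk')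
      exact ⟨j, hj⟩
    have := h u hord hreal
    exact hug ((mem_center_iff.1 this) g)
  intro Q hQ g hg hco
  exact main _ Q rfl hQ g hg hco

end Cfsg.Agent.S3862
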