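import Cfsg.Statements.S3863
import Cfsg.Agent.H20.Basic

set_option autoImplicit false
open Cfsg

namespace Cfsg.Agent.S3863

open Cfsg.Agent.H20

/-- an element whose power (coprime to the index) lies in a normal subgroup lies in it -/
theorem mem_of_pow_mem {G : Type*} [Group G] [Finite G] (N : Subgroup G) [N.Normal] (g : G) (k : ℕ)
    (hk : k.Coprime N.index) (h : g ^ k ∈ N) : g ∈ N := by
  rw [← QuotientGroup.eq_one_iff] at h ⊢
  rw [QuotientGroup.mk_pow] at h
  have h1 : orderOf (g : G ⧸ N) ∣ k := orderOf_dvd_of_pow_eq_one h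
  have h2 : orderOf (g : G ⧸ N) ∣ N.index := by
    rw [Subgroup.index]
    exact orderOf_dvd_natCard _
  have h3 : orderOf (g : G ⧸ N) = 1 := Nat.eq_one_of_dvd_coprimes hk h1 h2
  exact orderOf_eq_one_iff.1 h3

theorem exists_two_elt {G : Type*} [Group G] [Finite G] (x : G) (hx : IsConj x x⁻¹) :
    ∃ t : G, (∃ j : ℕ, orderOf t = 2 ^ j) ∧ t * x * t⁻¹ = x⁻¹ := by
  rw [isConj_iff] at hx
  obtain ⟨g, hg⟩ := hx
  obtain ⟨j, m, hm, hjm⟩ := Nat.exists_eq_two_pow_mul_odd (orderOf_pos g).ne'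
  have hm0 : m ≠ 0 := by
    rintro rfl
    simp at hm
  refine ⟨g ^ m, ⟨j, ?_⟩, ?_⟩
  · rw [orderOf_pow_of_dvd hm0 (hjm ▸ Dvd.intro_left _ rfl), hjm]
    exact Nat.mul_div_cancel _ (Nat.pos_of_ne_zero hm0)
  · obtain ⟨k, rfl⟩ := hm
    have h2 : ∀ k : ℕ, (g ^ 2) ^ k * x⁻¹ * ((g ^ 2) ^ k)⁻¹ = x⁻¹ := by
      intro k
      induction k with
      | zero => simp
      | succ k ih =>
        have h3 : g ^ 2 * x⁻¹ * (g ^ 2)⁻¹ = x⁻¹ := by
          have h4 : g * x⁻¹ * g⁻¹ = x := by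
            have := congrArg (·⁻¹) hg
            simpa [mul_assoc] using this
          calc g ^ 2 * x⁻¹ * (g ^ 2)⁻¹ = g * (g * x⁻¹ * g⁻¹) * g⁻¹ := by rw [pow_two]; group
            _ = x⁻¹ := by rw [h4, hg]
        calc (g ^ 2) ^ (k + 1) * x⁻¹ * ((g ^ 2) ^ (k + 1))⁻¹
            = (g ^ 2) ^ k * (g ^ 2 * x⁻¹ * (g ^ 2)⁻¹) * ((g ^ 2) ^ k)⁻¹ := by rw [pow_succ]; group
          _ = x⁻¹ := by rw [h3, ih]
    calc g ^ (2 * k + 1) * x * (g ^ (2 * k + 1))⁻¹
        = (g ^ 2) ^ k * (g * x * g⁻¹) * ((g ^ 2) ^ k)⁻¹ := by rw [pow_succ, pow_mul]; group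
      _ = x⁻¹ := by rw [hg, h2]

theorem result {G : Type*} [Group G] [Finite G] (x : G) (hx : IsConj x x⁻¹) : (∃ t : G, (∃ j : ℕ, orderOf t = 2 ^ j) ∧ t * x * t⁻¹ = x⁻¹) ∧ (Odd (Subgroup.centralizer ({x} : Set G)).index → x ^ 2 = 1) ∧ ∀ (N : Subgroup G) [N.Normal], Odd N.index → ∃ hxN : x ∈ N, IsConj (⟨x, hxN⟩ : N) (⟨x, hxN⟩ : N)⁻¹ := by
  obtain ⟨t, ⟨j, hj⟩, ht⟩ := exists_two_elt x hx
  refine ⟨⟨t, ⟨j, hj⟩, ht⟩, ?_, ?_⟩
  · intro hodd
    by_contra hne
    have hxx : x ≠ x⁻¹ := by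
      intro h
      apply hne
      rw [pow_two]
      nth_rewrite 2 [h]
      simp
    let N : Subgroup G :=
      { carrier := {g | g * x * g⁻¹ = x ∨ g * x * g⁻¹ = x⁻¹}
        one_mem' := by simp
        mul_mem' := by
          intro a b ha hb
          have e : a * b * x * (a * b)⁻¹ = a * (b * x * b⁻¹) * a⁻¹ := by group
          have hinv : ∀ c : G, c * x⁻¹ * c⁻¹ = (c * x * c⁻¹)⁻¹ := by intro c; group
          simp only [Set.mem_ofPred_eq] at ha hb ⊢
          rw [e]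
          rcases hb with hb | hb <;> rcases ha with ha | ha <;> rw [hb] <;> simp [hinv, ha]
        inv_mem' := by
          intro a ha
          simp only [Set.mem_ofPred_eq] at ha ⊢
          rcases ha with ha | ha
          · left
            nth_rewrite 1 [← ha]; group
          · right
            have : x = a * x⁻¹ * a⁻¹ := by
              have := congrArg (·⁻¹) ha
              simp only [inv_inv] at this
              calc x = (a * x * a⁻¹)⁻¹ := this.symm
                _ = a * x⁻¹ * a⁻¹ := by group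
            nth_rewrite 1 [this]; group }
    have hmemN : ∀ g, g ∈ N ↔ (g * x * g⁻¹ = x ∨ g * x * g⁻¹ = x⁻¹) := fun g => Iff.rfl
    have hmemC : ∀ g, g ∈ Subgroup.centralizer ({x} : Set G) ↔ g * x * g⁻¹ = x := by
      intro g
      rw [Subgroup.mem_centralizer_singleton_iff]
      constructor
      · intro h; rw [h]; group
      · intro h; nth_rewrite 2 [← h]; group
    have hCN : Subgroup.centralizer ({x} : Set G) ≤ N := by
      intro g hg
      exact (hmemN g).2 (Or.inl ((hmemC g).1 hg))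
    have h2 : (Subgroup.centralizer ({x} : Set G)).relIndex N = 2 := by
      rw [Subgroup.relIndex_eq_two_iff]
      refine ⟨t, (hmemN t).2 (Or.inr ht), ?_⟩
      intro b hb
      rw [hmemC, hmemC]
      have e : b * t * x * (b * t)⁻¹ = (b * x * b⁻¹)⁻¹ := by
        calc b * t * x * (b * t)⁻¹ = b * (t * x * t⁻¹) * b⁻¹ := by group
          _ = (b * x * b⁻¹)⁻¹ := by rw [ht]; group
      rw [e]
      rcases (hmemN b).1 hb with hb | hb
      · right
        rw [hb]
        exact ⟨rfl, fun h => hxx h.symm⟩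
      · left
        rw [hb]
        exact ⟨by simp, fun h => hxx h.symm⟩
    have h3 := Subgroup.relIndex_mul_index hCN
    rw [h2] at h3
    rw [← h3] at hodd
    exact (Nat.not_odd_iff_even.2 (even_two_mul _)) hodd
  · intro N _ hodd
    have hcop : ∀ j : ℕ, (2 ^ j).Coprime N.index := by
      intro j
      apply Nat.Coprime.pow_left
      exact (Nat.coprime_two_left).2 hodd
    have htN : t ∈ N := mem_of_pow_mem N t (2 ^ j) (hcop j) (by rw [← hj, pow_orderOf_eq_one]; exact one_mem _)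
    have hx2 : x ^ 2 ∈ N := by
      have h1 : x * t * x⁻¹ ∈ N := ‹N.Normal›.conj_mem t htN x
      have h2 : x * t * x⁻¹ * t⁻¹ ∈ N := mul_mem h1 (inv_mem htN)
      have h3 : x * t * x⁻¹ * t⁻¹ = x ^ 2 := by
        have : t * x⁻¹ * t⁻¹ = x := by
          have := congrArg (·⁻¹) ht
          simpa [mul_assoc] using this
        calc x * t * x⁻¹ * t⁻¹ = x * (t * x⁻¹ * t⁻¹) := by group
          _ = x ^ 2 := by rw [this, pow_two]
      rwa [h3] at h2
    have hxN : x ∈ N := mem_of_pow_mem N x 2 (by simpa using hcop 1) hx2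
    refine ⟨hxN, ?_⟩
    rw [isConj_iff]
    exact ⟨⟨t, htN⟩, Subtype.ext (by simpa using ht)⟩

end Cfsg.Agent.S3863
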