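import Cfsg.Statements.S3864
import Cfsg.Agent.S0107
import Cfsg.Agent.S1255
import Cfsg.Agent.H12.IndexP
import Cfsg.Agent.H6.KleinAct
import Cfsg.Agent.Tr.Dihedral4
import Cfsg.Agent.Lib.Helper8.Fus
import Cfsg.Agent.Lib.Helper8.ClassCount

set_option autoImplicit false
open Cfsg

namespace Cfsg.Agent.S3864

theorem two_mul_ne_one {k : ℕ} (hk : 1 ≤ k) (x : ZMod (2 ^ k)) : 2 * x ≠ 1 := by
  intro h
  have hd : 2 ∣ 2 ^ k := dvd_pow_self 2 (by omega)
  have := congrArg (ZMod.castHom hd (ZMod 2)) h
  rw [map_mul, map_one, map_ofNat] at this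
  have h2 : (2 : ZMod 2) = 0 := rfl
  rw [h2, zero_mul] at this
  exact zero_ne_one this

theorem parity {k : ℕ} (i : ZMod (2 ^ k)) : ∃ l : ZMod (2 ^ k), i = 2 * l ∨ i = 2 * l + 1 := by
  haveI : NeZero (2 ^ k) := ⟨by positivity⟩
  rcases Nat.even_or_odd' i.val with ⟨q, hq | hq⟩
  · refine ⟨q, Or.inl ?_⟩
    conv_lhs => rw [← ZMod.natCast_zmod_val i, hq]
    push_cast; ring
  · refine ⟨q, Or.inr ?_⟩
    conv_lhs => rw [← ZMod.natCast_zmod_val i, hq]
    push_cast; ring

theorem card_swap {G : Type*} [Group G] :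
    Nat.card {C : ConjClasses G // ∃ g : G, ConjClasses.mk g = C ∧ orderOf g = 2} =
      Nat.card {C : ConjClasses G // ∃ t : G, orderOf t = 2 ∧ ConjClasses.mk t = C} :=
  Nat.card_congr (Equiv.subtypeEquivRight (fun C =>
    ⟨fun ⟨g, h1, h2⟩ => ⟨g, h2, h1⟩, fun ⟨g, h1, h2⟩ => ⟨g, h2, h1⟩⟩))

/-- Let G be a finite group whose Sylow 2-subgroups are dihedral of order 2 ^ n with n ≥ 3, and count the conjugacy classes of involutions of G. Then exactly one of the following holds: there is one class of involutions and no normal subgroup of index 2; there are two classes of involutions, a normal subgroup of index 2 and none of index 4; there are three classes of involutions and G has a normal 2-complement. -/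
theorem result {G : Type*} [Group G] [Finite G] (P : Sylow 2 G) (n : ℕ) (hn : 3 ≤ n) (hdih : Nonempty (↥(P : Subgroup G) ≃* DihedralGroup (2 ^ (n - 1)))) : (Nat.card {C : ConjClasses G // ∃ g : G, ConjClasses.mk g = C ∧ orderOf g = 2} = 1 ∧ ∀ N : Subgroup G, N.Normal → N.index ≠ 2) ∨ (Nat.card {C : ConjClasses G // ∃ g : G, ConjClasses.mk g = C ∧ orderOf g = 2} = 2 ∧ (∃ N : Subgroup G, N.Normal ∧ N.index = 2) ∧ ∀ N : Subgroup G, N.Normal → N.index ≠ 4) ∨ (Nat.card {C : ConjClasses G // ∃ g : G, ConjClasses.mk g = C ∧ orderOf g = 2} = 3 ∧ Cfsg.HasNormalPComplement 2 G) := by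
  haveI : Fact (Nat.Prime 2) := ⟨Nat.prime_two⟩
  rw [card_swap]
  obtain ⟨eS⟩ := hdih
  obtain ⟨k, rfl⟩ : ∃ k, n = k + 1 := ⟨n - 1, by omega⟩
  replace eS : ↥(P : Subgroup G) ≃* DihedralGroup (2 ^ k) := eS
  have hk : 2 ≤ k := by omega
  let j : DihedralGroup (2 ^ k) → G := fun d => (eS.symm d : G)
  have hjS : ∀ d, j d ∈ P := fun d => (eS.symm d).2
  have hjmul : ∀ d d', j (d * d') = j d * j d' := fun d d' => by
    show ((eS.symm (d * d') : P) : G) = _
    rw [map_mul]; rfl
  have hjinj : ∀ d d', j d = j d' → d = d' := fun d d' h => eS.symm.injective (Subtype.ext h)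
  have hjone : j 1 = 1 := by show ((eS.symm 1 : P) : G) = 1; rw [map_one]; rfl
  have hjinv : ∀ d, j d⁻¹ = (j d)⁻¹ := fun d => by
    show ((eS.symm d⁻¹ : P) : G) = _
    rw [map_inv]; rfl
  have hjsurj : ∀ s ∈ P, ∃ d, s = j d := fun s hs => ⟨eS ⟨s, hs⟩, by simp [j]⟩
  have hjord : ∀ d, orderOf (j d) = orderOf d := fun d => by
    show orderOf ((eS.symm d : P) : G) = _
    rw [Subgroup.orderOf_coe, MulEquiv.orderOf_eq]
  set h : ZMod (2 ^ k) := ((2 ^ (k - 1) : ℕ) : ZMod (2 ^ k)) with hh
  have hrot : ∀ i : ZMod (2 ^ k), orderOf (DihedralGroup.r i) = 2 → i = h :=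
    fun i hi => Cfsg.Agent.Tr.Dih.r_eq_of_orderOf_two (by omega) hi
  have hh2 : h = 2 * ((2 ^ (k - 2) : ℕ) : ZMod (2 ^ k)) := by
    have : 2 ^ (k - 1) = 2 * 2 ^ (k - 2) := by
      rw [← pow_succ']; congr 1; omega
    rw [hh, this]; push_cast; ring
  have hh0 : h ≠ 0 := by
    rw [hh, Ne, ZMod.natCast_eq_zero_iff]
    intro hd
    have := Nat.le_of_dvd (by positivity) hd
    have h2 : 2 ^ (k - 1) < 2 ^ k := Nat.pow_lt_pow_right (by norm_num) (by omega)
    omega
  have hhh : h + h = 0 := by
    rw [hh, ← Nat.cast_add]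
    have : 2 ^ (k - 1) + 2 ^ (k - 1) = 2 ^ k := by
      have h1 : k = (k - 1) + 1 := by omega
      conv_rhs => rw [h1, pow_succ]
      ring
    rw [this]; exact ZMod.natCast_self _
  set c : G := j (DihedralGroup.r h) with hc
  set a : G := j (DihedralGroup.sr 0) with ha
  set b : G := j (DihedralGroup.sr 1) with hb
  have hc1 : c ≠ 1 := by
    intro h1
    rw [hc, ← hjone] at h1
    have := hjinj _ _ h1
    rw [DihedralGroup.one_def] at this
    injection this with h2
    exact hh0 h2
  have hc2 : orderOf c = 2 := by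
    rw [Cfsg.Agent.S1255.ord2]
    refine ⟨hc1, ?_⟩
    rw [hc, ← hjmul, DihedralGroup.r_mul_r, hhh, ← DihedralGroup.one_def, hjone]
  have hsr2 : ∀ i, orderOf (j (DihedralGroup.sr i)) = 2 := fun i => by
    rw [hjord]; exact DihedralGroup.orderOf_sr i
  have hconj_sr : ∀ y l : ZMod (2 ^ k),
      IsConj (j (DihedralGroup.sr y)) (j (DihedralGroup.sr (y + 2 * l))) := by
    intro y l
    refine isConj_iff.mpr ⟨j (DihedralGroup.r (-l)), ?_⟩
    rw [← hjinv, ← hjmul, ← hjmul, DihedralGroup.inv_r, DihedralGroup.r_mul_sr,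
      DihedralGroup.sr_mul_r]
    congr 2; ring
  have F1 : ∀ t : G, orderOf t = 2 → IsConj t c ∨ IsConj t a ∨ IsConj t b := by
    intro t ht
    obtain ⟨g, hg⟩ := Cfsg.Agent.Lib.Helper8.exists_conj_mem_sylow P (k := 1) (t := t)
      (by simpa using ht)
    have h1 : IsConj t (g * t * g⁻¹) := isConj_iff.mpr ⟨g, rfl⟩
    have o1 : orderOf (g * t * g⁻¹) = 2 := by
      rw [show g * t * g⁻¹ = MulAut.conj g t from rfl, MulEquiv.orderOf_eq]; exact ht
    obtain ⟨d, hd⟩ := hjsurj _ hg
    rw [hd] at h1 o1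
    rw [hjord] at o1
    rcases d with i | i
    · left; rw [hrot i o1] at h1; exact h1
    · right
      obtain ⟨l, hl | hl⟩ := parity i
      · left
        have := hconj_sr 0 l
        rw [zero_add, ← hl] at this
        exact h1.trans this.symm
      · right
        have := hconj_sr 1 l
        rw [add_comm, ← hl] at this
        exact h1.trans this.symm
  have LA : ¬ Cfsg.HasNormalPComplement 2 G → ∃ i, IsConj c (j (DihedralGroup.sr i)) := by
    intro hno
    by_contra hcon
    push Not at hcon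
    apply hno
    apply Cfsg.Agent.Tr.Frob.hasNormalPComplement
    apply Cfsg.Agent.Tr.frob_of_sylow P
    intro Q hQ g hg hodd
    rcases Cfsg.Agent.Tr.Dih.centralizes_or_four eS P.2 hQ hg hodd with h1 | ⟨h4, h2⟩
    · exact h1
    haveI hK : IsKleinFour Q := Cfsg.Agent.Tr.Dih.isKleinFour_of h4 h2
    have hQinv : ∀ x ∈ Q, x ≠ 1 → x = c ∨ ∃ i, x = j (DihedralGroup.sr i) := by
      intro x hx hx1
      obtain ⟨d, hd⟩ := hjsurj x (hQ hx)
      have o : orderOf x = 2 := Cfsg.Agent.S1255.ord2.mpr ⟨hx1, by rw [← sq]; exact h2 x hx⟩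
      rw [hd, hjord] at o
      rcases d with i | i
      · left; rw [hd, hrot i o]
      · right; exact ⟨i, hd⟩
    have hcQ : c ∈ Q := by
      obtain ⟨x, hx, hx1, -⟩ := Cfsg.Agent.H6.KleinAct.exists_third (P := Q) (u := 1)
      rcases hQinv x hx hx1 with rfl | ⟨i, hi⟩
      · exact hx
      obtain ⟨y, hy, hy1, hxy⟩ := Cfsg.Agent.H6.KleinAct.exists_third (P := Q) (u := x)
      rcases hQinv y hy hy1 with rfl | ⟨i', hi'⟩
      · exact hy
      have hxy1 : x * y ≠ 1 := by
        intro h'
        apply hxy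
        have hxx : x * x = 1 := Cfsg.Agent.H6.KleinAct.mul_self_of_mem hx
        exact mul_left_cancel (hxx.trans h'.symm)
      rcases hQinv (x * y) (mul_mem hx hy) hxy1 with h' | ⟨i'', hi''⟩
      · rw [← h']; exact mul_mem hx hy
      · exfalso
        rw [hi, hi', ← hjmul, DihedralGroup.sr_mul_sr] at hi''
        have := hjinj _ _ hi''
        cases this
    have hgc : g * c * g⁻¹ = c := by
      have h3 : g * c * g⁻¹ ∈ Q := (Subgroup.mem_normalizer_iff.mp hg c).mp hcQ
      rcases hQinv _ h3 (by intro h'; apply hc1; simpa using h') with h' | ⟨i, hi⟩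
      · exact h'
      · exact absurd (isConj_iff.mpr ⟨g, hi⟩) (hcon i)
    exact Cfsg.Agent.Tr.Dih.centralizes_four_of_fix h4 hg hodd hcQ hc2
      (mul_inv_eq_iff_eq_mul.mp hgc)
  by_cases hcomp : Cfsg.HasNormalPComplement 2 G
  · right; right
    refine ⟨?_, hcomp⟩
    have hF := Cfsg.Agent.Tr.frob_of_hasNormalPComplement hcomp
    have ctrl : ∀ d d', IsConj (j d) (j d') → ∃ z, z * d * z⁻¹ = d' := by
      intro d d' h'
      obtain ⟨u, hu⟩ := isConj_iff.mp h'
      obtain ⟨z, hz, hz2⟩ := hF.controls_elements P (hjS d) (by rw [hu]; exact hjS d')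
      obtain ⟨dz, rfl⟩ := hjsurj z hz
      refine ⟨dz, hjinj _ _ ?_⟩
      rw [hjmul, hjmul, hjinv, hz2, hu]
    apply Cfsg.Agent.Lib.Helper8.card_classes_eq_three (fun t => orderOf t = 2) c a b hc2
      (hsr2 0) (hsr2 1) ?_ ?_ ?_ F1
    · intro h'
      obtain ⟨z, hz⟩ := ctrl _ _ h'
      rcases z with x | x <;> simp at hz
    · intro h'
      obtain ⟨z, hz⟩ := ctrl _ _ h'
      rcases z with x | x <;> simp at hz
    · intro h'
      obtain ⟨z, hz⟩ := ctrl _ _ h'
      rcases z with x | x
      · rw [DihedralGroup.inv_r, DihedralGroup.r_mul_sr, DihedralGroup.sr_mul_r] at hz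
        injection hz with hz
        exact two_mul_ne_one (by omega) (-x) (by rw [← hz]; ring)
      · rw [DihedralGroup.inv_sr, DihedralGroup.sr_mul_sr, DihedralGroup.r_mul_sr] at hz
        injection hz with hz
        exact two_mul_ne_one (by omega) x (by rw [← hz]; ring)
  by_cases hidx : ∃ N : Subgroup G, N.Normal ∧ N.index = 2
  · right; left
    obtain ⟨i₀, hi₀⟩ := LA hcomp
    have hnot : ¬ (IsConj c a ∧ IsConj c b) := by
      rintro ⟨h1, h2⟩
      obtain ⟨N, _, hN⟩ := hidx
      have hc' : ∀ x : G, orderOf x = 2 → IsConj x c := by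
        intro x hx
        rcases F1 x hx with h' | h' | h'
        · exact h'
        · exact h'.trans h1.symm
        · exact h'.trans h2.symm
      have hall : ∀ x y : G, orderOf x = 2 → orderOf y = 2 → IsConj x y :=
        fun x y hx hy => (hc' x hx).trans (hc' y hy).symm
      have h2k : 2 ≤ 2 ^ k := by
        calc 2 = 2 ^ 1 := by norm_num
          _ ≤ 2 ^ k := Nat.pow_le_pow_right (by norm_num) (by omega)
      exact ((Cfsg.Agent.S1255.result P (2 ^ k) h2k eS).mpr (Or.inl hall)).1 N hN
    have hor : IsConj c a ∨ IsConj c b := by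
      obtain ⟨l, hl | hl⟩ := parity i₀
      · left
        have := hconj_sr 0 l
        rw [zero_add, ← hl] at this
        exact hi₀.trans this.symm
      · right
        have := hconj_sr 1 l
        rw [add_comm, ← hl] at this
        exact hi₀.trans this.symm
    refine ⟨?_, hidx, ?_⟩
    · rcases hor with h' | h'
      · have hb' : ¬ IsConj c b := fun h'' => hnot ⟨h', h''⟩
        exact Cfsg.Agent.Lib.Helper8.card_classes_eq_two (fun t => orderOf t = 2) c b hc2 (hsr2 1)
          hb' (fun t ht => by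
            rcases F1 t ht with h1 | h1 | h1
            · exact Or.inl h1
            · exact Or.inl (h1.trans h'.symm)
            · exact Or.inr h1)
      · have ha' : ¬ IsConj c a := fun h'' => hnot ⟨h'', h'⟩
        exact Cfsg.Agent.Lib.Helper8.card_classes_eq_two (fun t => orderOf t = 2) c a hc2 (hsr2 0)
          ha' (fun t ht => by
            rcases F1 t ht with h1 | h1 | h1
            · exact Or.inl h1
            · exact Or.inr h1
            · exact Or.inl (h1.trans h'.symm))
    · intro M hM hM4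
      haveI := hM
      have hE4 : Nat.card (G ⧸ M) = 2 ^ 2 := by
        have : M.index = Nat.card (G ⧸ M) := rfl
        rw [← this, hM4]; norm_num
      have hcomm := IsPGroup.commutative_of_card_eq_prime_sq hE4
      let π : G →* G ⧸ M := QuotientGroup.mk' M
      have hφ2 : ∀ i : ZMod (2 ^ k), π (j (DihedralGroup.r (2 * i))) = 1 := by
        intro i
        have e1 : (DihedralGroup.sr 0 : DihedralGroup (2 ^ k)) * DihedralGroup.r i *
            DihedralGroup.sr 0 = DihedralGroup.r (-i) := by
          rw [DihedralGroup.sr_mul_r, DihedralGroup.sr_mul_sr]; congr 1; ring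
        have e2 : π (j (DihedralGroup.r (-i))) = π (j (DihedralGroup.r i)) := by
          rw [← e1, hjmul, hjmul, map_mul, map_mul, hcomm (π (j (DihedralGroup.sr 0))), mul_assoc,
            ← map_mul, ← hjmul, DihedralGroup.sr_mul_self, hjone, map_one, mul_one]
        have e3 : (DihedralGroup.r (2 * i) : DihedralGroup (2 ^ k)) =
            DihedralGroup.r i * (DihedralGroup.r (-i))⁻¹ := by
          rw [DihedralGroup.inv_r, DihedralGroup.r_mul_r]; congr 1; ring
        rw [e3, hjmul, hjinv, map_mul, map_inv, e2, mul_inv_cancel]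
      have hπc : π c = 1 := by
        show π (j (DihedralGroup.r h)) = 1
        rw [hh2]; exact hφ2 _
      have hπa : π (j (DihedralGroup.sr i₀)) = 1 := by
        obtain ⟨g, hg⟩ := isConj_iff.mp hi₀
        rw [← hg, map_mul, map_mul, hπc, mul_one, map_inv, mul_inv_cancel]
      set τ := π (j (DihedralGroup.r 1)) with hτ
      have hr : ∀ i, π (j (DihedralGroup.r i)) = 1 ∨ π (j (DihedralGroup.r i)) = τ := by
        intro i
        obtain ⟨l, hl | hl⟩ := parity i
        · left; rw [hl]; exact hφ2 l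
        · right; rw [hl, ← DihedralGroup.r_mul_r, hjmul, map_mul, hφ2, one_mul]
      have hall : ∀ d, π (j d) = 1 ∨ π (j d) = τ := by
        intro d
        rcases d with i | i
        · exact hr i
        · have : (DihedralGroup.sr i : DihedralGroup (2 ^ k)) =
              DihedralGroup.sr i₀ * DihedralGroup.r (i - i₀) := by
            rw [DihedralGroup.sr_mul_r]; congr 1; ring
          rw [this, hjmul, map_mul, hπa, one_mul]; exact hr _
      have htop : M ⊔ (P : Subgroup G) = ⊤ := by
        rw [← Subgroup.index_eq_one]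
        have h1 : (M ⊔ (P : Subgroup G)).index ∣ 4 := hM4 ▸ Subgroup.index_dvd_of_le le_sup_left
        have h2 : (M ⊔ (P : Subgroup G)).index ∣ (P : Subgroup G).index :=
          Subgroup.index_dvd_of_le le_sup_right
        have h3 : ¬ 2 ∣ (M ⊔ (P : Subgroup G)).index := fun h' => P.not_dvd_index (h'.trans h2)
        have h4 := Nat.le_of_dvd (by norm_num) h1
        generalize (M ⊔ (P : Subgroup G)).index = e at *
        interval_cases e <;> omega
      have hsub : (Set.univ : Set (G ⧸ M)) ⊆ {1, τ} := by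
        intro e _
        obtain ⟨g, rfl⟩ := QuotientGroup.mk'_surjective M e
        have hg : g ∈ M ⊔ (P : Subgroup G) := htop ▸ Subgroup.mem_top g
        obtain ⟨x, hx, s, hs, rfl⟩ := Subgroup.mem_sup_of_normal_left.mp hg
        obtain ⟨d, rfl⟩ := hjsurj s hs
        have h5 : π (x * j d) = π (j d) := by
          rw [map_mul, show π x = 1 from (QuotientGroup.eq_one_iff x).mpr hx, one_mul]
        show π (x * j d) ∈ _
        rw [h5]
        rcases hall d with h6 | h6
        · left; exact h6
        · right; exact h6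
      have hle : Nat.card (G ⧸ M) ≤ 2 := by
        rw [← Set.ncard_univ]
        exact (Set.ncard_le_ncard hsub (Set.toFinite _)).trans
          ((Set.ncard_insert_le 1 {τ}).trans (by rw [Set.ncard_singleton]))
      rw [hE4] at hle
      norm_num at hle
  · left
    push Not at hidx
    refine ⟨?_, hidx⟩
    have hO : Cfsg.pResidual 2 G = ⊤ := by
      by_contra h'
      obtain ⟨N, hN1, hN⟩ := Cfsg.Agent.H12.exists_normal_index_p_of_pResidual_ne_top h'
      exact hidx N hN1 hN
    apply Cfsg.Agent.Lib.Helper8.card_classes_eq_one (fun t => orderOf t = 2) c hc2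
    intro t ht
    obtain ⟨g, hg⟩ := Cfsg.Agent.S0107.result P k hk ⟨eS⟩ hO t c ht hc2
    exact isConj_iff.mpr ⟨g, hg⟩

end Cfsg.Agent.S3864
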