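import Cfsg.Statements.S3866
import Cfsg.Agent.H20.Basic

set_option autoImplicit false
open Cfsg

namespace Cfsg.Agent.S3866

open Cfsg.Agent.H20

theorem result {G : Type*} [Group G] [Finite G] (A : Subgroup G) [A.Normal] (hA : IsMulCommutative A) (x : G) (hgen : A ⊔ Subgroup.zpowers x = ⊤) : (∀ a ∈ A, x * a * x⁻¹ * a⁻¹ ∈ commutator G) ∧ (∀ c ∈ commutator G, ∃ a ∈ A, x * a * x⁻¹ * a⁻¹ = c) ∧ (∀ a ∈ A, ∀ b ∈ A, x * (a * b) * x⁻¹ * (a * b)⁻¹ = (x * a * x⁻¹ * a⁻¹) * (x * b * x⁻¹ * b⁻¹)) ∧ Nat.card (commutator G) * Nat.card ↥(A ⊓ Subgroup.centralizer ({x} : Set G)) = Nat.card A := by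
  have hAn : A.Normal := inferInstance
  have h1 : ∀ a ∈ A, x * a * x⁻¹ * a⁻¹ ∈ commutator G := by
    intro a _
    exact Subgroup.commutator_mem_commutator (Subgroup.mem_top x) (Subgroup.mem_top a)
  have h3 : ∀ a ∈ A, ∀ b ∈ A, x * (a * b) * x⁻¹ * (a * b)⁻¹ = (x * a * x⁻¹ * a⁻¹) * (x * b * x⁻¹ * b⁻¹) := by
    intro a ha b hb
    have hxb : x * b * x⁻¹ ∈ A := hAn.conj_mem b hb x
    have e1 : a⁻¹ * (x * b * x⁻¹ * b⁻¹) = (x * b * x⁻¹ * b⁻¹) * a⁻¹ :=
      comm_of_mem hA (inv_mem ha) (mul_mem hxb (inv_mem hb))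
    calc x * (a * b) * x⁻¹ * (a * b)⁻¹ = x * a * x⁻¹ * ((x * b * x⁻¹ * b⁻¹) * a⁻¹) := by group
      _ = x * a * x⁻¹ * (a⁻¹ * (x * b * x⁻¹ * b⁻¹)) := by rw [e1]
      _ = _ := by group
  -- the homomorphism
  let φ : A →* G :=
    { toFun := fun a => x * a * x⁻¹ * (a : G)⁻¹
      map_one' := by simp
      map_mul' := fun a b => by simpa using h3 a a.2 b b.2 }
  have hφ : ∀ a : A, φ a = x * a * x⁻¹ * (a : G)⁻¹ := fun a => rfl
  have hφA : φ.range ≤ A := by
    rintro _ ⟨a, rfl⟩
    rw [hφ]
    exact mul_mem (hAn.conj_mem a a.2 x) (inv_mem a.2)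
  have hnorm : φ.range.Normal := by
    rw [← Subgroup.normalizer_eq_top_iff, eq_top_iff, ← hgen, sup_le_iff]
    constructor
    · rw [Subgroup.le_normalizer_iff]
      intro h hh k hk
      have : h * k * h⁻¹ = k := by
        rw [comm_of_mem hA hh (hφA hk)]; group
      rwa [this]
    · rw [Subgroup.zpowers_le, mem_normalizer_iff_conj]
      apply le_antisymm
      · rintro _ ⟨_, ⟨a, rfl⟩, rfl⟩
        refine ⟨⟨x * a * x⁻¹, hAn.conj_mem a a.2 x⟩, ?_⟩
        simp only [hφ, MulEquiv.coe_toMonoidHom, MulAut.conj_apply]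
        group
      · rintro _ ⟨a, rfl⟩
        refine ⟨φ ⟨x⁻¹ * a * x, by simpa using hAn.conj_mem a a.2 x⁻¹⟩, ⟨_, rfl⟩, ?_⟩
        simp only [hφ, MulEquiv.coe_toMonoidHom, MulAut.conj_apply]
        group
  have hle : commutator G ≤ φ.range := by
    rw [← Subgroup.Normal.quotient_commutative_iff_commutator_le]
    -- the center of the quotient is everything
    have hx : (QuotientGroup.mk' φ.range x) ∈ Subgroup.center (G ⧸ φ.range) := by
      have : (Subgroup.centralizer {QuotientGroup.mk' φ.range x}).comap (QuotientGroup.mk' φ.range) = ⊤ := by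
        rw [eq_top_iff, ← hgen, sup_le_iff]
        constructor
        · intro a ha
          rw [Subgroup.mem_comap, Subgroup.mem_centralizer_singleton_iff, ← map_mul, ← map_mul]
          symm
          rw [QuotientGroup.mk'_apply, QuotientGroup.mk'_apply, QuotientGroup.eq]
          have : (x * a)⁻¹ * (a * x) = x⁻¹ * (x * a⁻¹ * x⁻¹ * (a⁻¹)⁻¹) * (x⁻¹)⁻¹ := by group
          rw [this]
          exact hnorm.conj_mem _ ⟨⟨a⁻¹, inv_mem ha⟩, rfl⟩ _
        · rw [Subgroup.zpowers_le, Subgroup.mem_comap, Subgroup.mem_centralizer_singleton_iff]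
      rw [Subgroup.mem_center_iff]
      intro g
      obtain ⟨g, rfl⟩ := QuotientGroup.mk'_surjective _ g
      have hg : g ∈ (Subgroup.centralizer {QuotientGroup.mk' φ.range x}).comap (QuotientGroup.mk' φ.range) := this ▸ Subgroup.mem_top g
      rw [Subgroup.mem_comap, Subgroup.mem_centralizer_singleton_iff] at hg
      exact hg
    have hcen : (Subgroup.center (G ⧸ φ.range)).comap (QuotientGroup.mk' φ.range) = ⊤ := by
      rw [eq_top_iff, ← hgen, sup_le_iff]
      constructor
      · intro a ha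
        rw [Subgroup.mem_comap]
        have : (Subgroup.centralizer {QuotientGroup.mk' φ.range a}).comap (QuotientGroup.mk' φ.range) = ⊤ := by
          rw [eq_top_iff, ← hgen, sup_le_iff]
          constructor
          · intro b hb
            rw [Subgroup.mem_comap, Subgroup.mem_centralizer_singleton_iff, ← map_mul, ← map_mul,
              comm_of_mem hA ha hb]
          · rw [Subgroup.zpowers_le, Subgroup.mem_comap, Subgroup.mem_centralizer_singleton_iff]
            exact (Subgroup.mem_center_iff.1 hx _).symm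
        rw [Subgroup.mem_center_iff]
        intro g
        obtain ⟨g, rfl⟩ := QuotientGroup.mk'_surjective _ g
        have hg : g ∈ (Subgroup.centralizer {QuotientGroup.mk' φ.range a}).comap (QuotientGroup.mk' φ.range) := this ▸ Subgroup.mem_top g
        rw [Subgroup.mem_comap, Subgroup.mem_centralizer_singleton_iff] at hg
        exact hg
      · rw [Subgroup.zpowers_le, Subgroup.mem_comap]
        exact hx
    refine ⟨⟨fun a b => ?_⟩⟩
    obtain ⟨a, rfl⟩ := QuotientGroup.mk'_surjective _ a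
    have ha : a ∈ (Subgroup.center (G ⧸ φ.range)).comap (QuotientGroup.mk' φ.range) := hcen ▸ Subgroup.mem_top a
    rw [Subgroup.mem_comap, Subgroup.mem_center_iff] at ha
    exact (ha b).symm
  have heq : φ.range = commutator G := by
    apply le_antisymm _ hle
    rintro _ ⟨a, rfl⟩
    exact h1 a a.2
  refine ⟨h1, ?_, h3, ?_⟩
  · intro c hc
    obtain ⟨a, rfl⟩ := hle hc
    exact ⟨a, a.2, rfl⟩
  · have hker : φ.ker = (Subgroup.centralizer ({x} : Set G)).subgroupOf A := by
      ext a
      rw [MonoidHom.mem_ker, hφ, Subgroup.mem_subgroupOf, Subgroup.mem_centralizer_singleton_iff]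
      constructor
      · intro h
        have : x * a * x⁻¹ = a := by rwa [mul_inv_eq_one] at h
        nth_rewrite 1 [← this]; group
      · intro h
        rw [← h]; group
    have := Subgroup.card_mul_index φ.ker
    rw [Subgroup.index_ker, heq, hker, card_subgroupOf, inf_comm, mul_comm] at this
    exact this

end Cfsg.Agent.S3866
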