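import Cfsg.Statements.S3867
import Cfsg.Agent.Lib.Helper16.SylJoin
import Cfsg.Agent.H1.Coprime

set_option autoImplicit false
open Cfsg

namespace Cfsg.Agent.S3867

open Cfsg.Agent.Lib.Helper16
open scoped commutatorElement

theorem card_sup_mul_card_inf {G : Type*} [Group G] [Finite G] (H K : Subgroup G) [K.Normal] :
    Nat.card ↥(H ⊔ K) * Nat.card ↥(H ⊓ K) = Nat.card H * Nat.card K := by
  have h1 : K.relIndex (H ⊔ K) * Nat.card K = Nat.card ↥(H ⊔ K) := by
    have := (K.subgroupOf (H ⊔ K)).index_mul_card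
    rwa [Cfsg.H1.card_subgroupOf_of_le le_sup_right] at this
  have h2 : K.relIndex H * Nat.card ↥(H ⊓ K) = Nat.card H := by
    have := ((H ⊓ K).subgroupOf H).index_mul_card
    rw [Cfsg.H1.card_subgroupOf_of_le inf_le_left] at this
    rw [← Subgroup.inf_relIndex_left]
    exact this
  rw [Subgroup.relIndex_sup_right] at h1
  rw [← h1, ← h2]
  ring

theorem card_sylow_quotient {G : Type*} [Group G] [Finite G] (p : ℕ) [Fact p.Prime] (P : Sylow p G)
    (K : Subgroup G) [K.Normal] :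
    Nat.card (Sylow p (G ⧸ K)) = (Subgroup.normalizer ((P : Subgroup G) : Set G) ⊔ K).index := by
  have hsurj := QuotientGroup.mk'_surjective K
  have hc : ((P.mapSurjective hsurj : Sylow p (G ⧸ K)) : Subgroup (G ⧸ K))
      = (P : Subgroup G).map (QuotientGroup.mk' K) := Sylow.coe_mapSurjective hsurj P
  rw [(P.mapSurjective hsurj).card_eq_index_normalizer]
  change (Subgroup.normalizer (((P.mapSurjective hsurj : Sylow p (G ⧸ K)) : Subgroup (G ⧸ K)) : Set (G ⧸ K))).index = _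
  rw [hc,
    ← Subgroup.index_comap_of_surjective _ hsurj, Subgroup.comap_normalizer_eq_of_surjective _ hsurj,
    Subgroup.comap_map_eq, QuotientGroup.ker_mk']
  congr 1
  apply le_antisymm
  · intro m hm
    obtain ⟨n, hn, hnm⟩ := frattini_arg (p := p) (S := (P : Subgroup G)) (N := (P : Subgroup G) ⊔ K)
      ((isSyl_sylow P).of_le le_sup_left le_top) (le_refl _) hm
    have e : m = n⁻¹ * (n * m) := by group
    rw [e]
    refine Subgroup.mul_mem _ (Subgroup.inv_mem _ ?_) (Subgroup.mem_sup_left hnm)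
    exact (sup_le_sup_right Subgroup.le_normalizer K) hn
  · refine sup_le ?_ (le_sup_right.trans Subgroup.le_normalizer)
    intro h hh
    rw [← cj_eq_self_iff, cj_sup, cj_eq_self_iff.2 hh, cj_eq_self_of_normal h inferInstance]


/-- Let M and N be nontrivial normal subgroups of the finite group G with M ⊓ N trivial, and let p be a prime. Writing n(X) for the number of Sylow p-subgroups of a group X, one has n(G) · n(G/MN) = n(G/M) · n(G/N). -/
theorem result {G : Type*} [Group G] [Finite G] (p : ℕ) [Fact p.Prime] (M N : Subgroup G) [M.Normal] [N.Normal] (hM : M ≠ ⊥) (hN : N ≠ ⊥) (hMN : M ⊓ N = ⊥) : Nat.card (Sylow p G) * Nat.card (Sylow p (G ⧸ (M ⊔ N))) = Nat.card (Sylow p (G ⧸ M)) * Nat.card (Sylow p (G ⧸ N)) := by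
  classical
  obtain ⟨P⟩ : Nonempty (Sylow p G) := inferInstance
  set H := Subgroup.normalizer ((P : Subgroup G) : Set G) with hH
  rw [card_sylow_quotient p P M, card_sylow_quotient p P N, card_sylow_quotient p P (M ⊔ N),
    P.card_eq_index_normalizer]
  have hcommMN : ∀ m ∈ M, ∀ n ∈ N, m * n = n * m := by
    intro m hm n hn
    have h1 : m * n * m⁻¹ * n⁻¹ ∈ M ⊓ N := by
      constructor
      · have : m * n * m⁻¹ * n⁻¹ = m * (n * m⁻¹ * n⁻¹) := by group
        rw [this]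
        exact M.mul_mem hm (‹M.Normal›.conj_mem _ (M.inv_mem hm) n)
      · exact N.mul_mem (‹N.Normal›.conj_mem _ hn m) (N.inv_mem hn)
    rw [hMN, Subgroup.mem_bot] at h1
    have : m * n = (m * n * m⁻¹ * n⁻¹) * (n * m) := by group
    rw [this, h1, one_mul]
  -- the key decomposition
  have key : ∀ m ∈ M, ∀ n ∈ N, m * n ∈ H → m ∈ H := by
    intro m hm n hn hx
    rw [hH, ← cj_eq_self_iff]
    apply Subgroup.eq_of_le_of_card_ge _ (by rw [card_cj])
    rintro _ ⟨y, hy, rfl⟩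
    change m * y * m⁻¹ ∈ (P : Subgroup G)
    have hc : (m * n) * y * (m * n)⁻¹ ∈ (P : Subgroup G) := (Subgroup.mem_normalizer_iff.1 hx y).1 hy
    set a := m * y * m⁻¹ * y⁻¹ with ha
    set b := n * y * n⁻¹ * y⁻¹ with hb
    have haM : a ∈ M := by
      have : a = m * (y * m⁻¹ * y⁻¹) := by rw [ha]; group
      rw [this]
      exact M.mul_mem hm (‹M.Normal›.conj_mem _ (M.inv_mem hm) y)
    have hbN : b ∈ N := by
      have : b = n * (y * n⁻¹ * y⁻¹) := by rw [hb]; group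
      rw [this]
      exact N.mul_mem hn (‹N.Normal›.conj_mem _ (N.inv_mem hn) y)
    have hcab : (m * n) * y * (m * n)⁻¹ * y⁻¹ = a * b := by
      have h1 : (m * n) * y * (m * n)⁻¹ * y⁻¹ = (m * b) * m⁻¹ * a := by rw [ha, hb]; group
      rw [h1, hcommMN m hm b hbN, hcommMN a haM b hbN]
      group
    have haPN : a ∈ (P : Subgroup G) ⊔ N := by
      have : a = ((m * n) * y * (m * n)⁻¹ * y⁻¹) * b⁻¹ := by rw [hcab]; group
      rw [this]
      exact Subgroup.mul_mem_sup ((P : Subgroup G).mul_mem hc ((P : Subgroup G).inv_mem hy)) (N.inv_mem hbN)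
    have h2 := inf_sup_normal_le (isSyl_sylow P) (‹M.Normal›.isSubnormal) N ⟨haM, haPN⟩
    obtain ⟨a', ha', n', hn', he⟩ := Subgroup.mem_sup_of_normal_right.1 h2
    have hn1 : n' ∈ M ⊓ N := by
      refine ⟨?_, hn'⟩
      have : n' = a'⁻¹ * a := by rw [← he]; group
      rw [this]
      exact M.mul_mem (M.inv_mem ha'.1) haM
    rw [hMN, Subgroup.mem_bot] at hn1
    rw [hn1, mul_one] at he
    have : m * y * m⁻¹ = a * y := by rw [ha]; group
    rw [this, ← he]
    exact (P : Subgroup G).mul_mem ha'.2 hy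
  have E5 : Nat.card ↥(H ⊓ (M ⊔ N)) = Nat.card ↥(H ⊓ M) * Nat.card ↥(H ⊓ N) := by
    rw [← Nat.card_prod]
    symm
    let f : ↥(H ⊓ M) × ↥(H ⊓ N) → ↥(H ⊓ (M ⊔ N)) := fun x =>
      ⟨x.1 * x.2, H.mul_mem x.1.2.1 x.2.2.1, Subgroup.mul_mem_sup x.1.2.2 x.2.2.2⟩
    refine Nat.card_congr (Equiv.ofBijective f ⟨?_, ?_⟩)
    · rintro ⟨⟨m, hm⟩, ⟨n, hn⟩⟩ ⟨⟨m', hm'⟩, ⟨n', hn'⟩⟩ h
      have h1 : m * n = m' * n' := congrArg Subtype.val h
      have h2 : m'⁻¹ * m ∈ M ⊓ N := by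
        refine ⟨M.mul_mem (M.inv_mem hm'.2) hm.2, ?_⟩
        have : m'⁻¹ * m = n' * n⁻¹ := by
          calc m'⁻¹ * m = m'⁻¹ * (m * n) * n⁻¹ := by group
            _ = n' * n⁻¹ := by rw [h1]; group
        rw [this]
        exact N.mul_mem hn'.2 (N.inv_mem hn.2)
      rw [hMN, Subgroup.mem_bot] at h2
      have h3 : m = m' := by
        calc m = m' * (m'⁻¹ * m) := by group
          _ = m' := by rw [h2, mul_one]
      subst h3
      have h4 : n = n' := mul_left_cancel h1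
      subst h4
      rfl
    · rintro ⟨x, hxH, hxMN⟩
      obtain ⟨m, hm, n, hn, rfl⟩ := Subgroup.mem_sup_of_normal_right.1 hxMN
      have hmH := key m hm n hn hxH
      have hnH : n ∈ H := by
        have : n = m⁻¹ * (m * n) := by group
        rw [this]
        exact H.mul_mem (H.inv_mem hmH) hxH
      exact ⟨(⟨m, hmH, hm⟩, ⟨n, hnH, hn⟩), rfl⟩
  have E1 := card_sup_mul_card_inf H M
  have E2 := card_sup_mul_card_inf H N
  have E3 := card_sup_mul_card_inf H (M ⊔ N)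
  have E4 := card_sup_mul_card_inf M N
  rw [hMN, Subgroup.card_bot, mul_one] at E4
  rw [E4, E5] at E3
  have I0 := H.index_mul_card
  have I1 := (H ⊔ M).index_mul_card
  have I2 := (H ⊔ N).index_mul_card
  have I3 := (H ⊔ (M ⊔ N)).index_mul_card
  have p1 : 0 < Nat.card ↥(H ⊓ M) := Nat.card_pos
  have p2 : 0 < Nat.card ↥(H ⊓ N) := Nat.card_pos
  have p3 : 0 < Nat.card ↥(H ⊔ M) := Nat.card_pos
  have p4 : 0 < Nat.card ↥(H ⊔ N) := Nat.card_pos
  have p5 : 0 < Nat.card H := Nat.card_pos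
  have p6 : 0 < Nat.card ↥(H ⊔ (M ⊔ N)) := Nat.card_pos
  have C : Nat.card ↥(H ⊔ M) * Nat.card ↥(H ⊔ N) = Nat.card H * Nat.card ↥(H ⊔ (M ⊔ N)) := by
    apply Nat.eq_of_mul_eq_mul_right (Nat.mul_pos p1 p2)
    calc Nat.card ↥(H ⊔ M) * Nat.card ↥(H ⊔ N) * (Nat.card ↥(H ⊓ M) * Nat.card ↥(H ⊓ N))
        = (Nat.card ↥(H ⊔ M) * Nat.card ↥(H ⊓ M)) * (Nat.card ↥(H ⊔ N) * Nat.card ↥(H ⊓ N)) := by ring
      _ = (Nat.card H * Nat.card M) * (Nat.card H * Nat.card N) := by rw [E1, E2]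
      _ = Nat.card H * (Nat.card H * (Nat.card M * Nat.card N)) := by ring
      _ = Nat.card H * (Nat.card ↥(H ⊔ (M ⊔ N)) * (Nat.card ↥(H ⊓ M) * Nat.card ↥(H ⊓ N))) := by rw [E3]
      _ = Nat.card H * Nat.card ↥(H ⊔ (M ⊔ N)) * (Nat.card ↥(H ⊓ M) * Nat.card ↥(H ⊓ N)) := by ring
  apply Nat.eq_of_mul_eq_mul_right (Nat.mul_pos p5 p6)
  calc H.index * (H ⊔ (M ⊔ N)).index * (Nat.card H * Nat.card ↥(H ⊔ (M ⊔ N)))
      = (H.index * Nat.card H) * ((H ⊔ (M ⊔ N)).index * Nat.card ↥(H ⊔ (M ⊔ N))) := by ring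
    _ = ((H ⊔ M).index * Nat.card ↥(H ⊔ M)) * ((H ⊔ N).index * Nat.card ↥(H ⊔ N)) := by
        rw [I0, I1, I2, I3]
    _ = (H ⊔ M).index * (H ⊔ N).index * (Nat.card ↥(H ⊔ M) * Nat.card ↥(H ⊔ N)) := by ring
    _ = (H ⊔ M).index * (H ⊔ N).index * (Nat.card H * Nat.card ↥(H ⊔ (M ⊔ N))) := by rw [C]

end Cfsg.Agent.S3867
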