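import Cfsg.Statements.S3895
import Cfsg.Agent.Lib.Helper22.TwoClasses
import Cfsg.Agent.Lib.Helper22.PiClasses

set_option autoImplicit false
open Cfsg

namespace Cfsg.Agent.S3895

/-- Let G be a finite group with Sylow 2-subgroup P, and write k₂(G) for the number of conjugacy classes of G consisting of 2-elements (elements of 2-power order, the identity included). Then k₂(G) > |P|/2 if and only if G has a normal 2-complement and P has more than |P|/2 conjugacy classes. -/
theorem result {G : Type*} [Group G] [Finite G] (P : Sylow 2 G) :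
    Nat.card ↥(P : Subgroup G) < 2 * Nat.card {c : ConjClasses G // ∀ x ∈ c.carrier, ∃ k : ℕ, orderOf x = 2 ^ k} ↔
      Cfsg.HasNormalPComplement 2 G ∧ Nat.card ↥(P : Subgroup G) < 2 * Nat.card (ConjClasses ↥(P : Subgroup G)) := by
  haveI : Fact (Nat.Prime 2) := ⟨Nat.prime_two⟩
  have hmem : ∀ u : P, ∀ x ∈ (ConjClasses.mk (u : G)).carrier, ∃ k : ℕ, orderOf x = 2 ^ k := by
    intro u x hx
    rw [ConjClasses.mem_carrier_iff_mk_eq, ConjClasses.mk_eq_mk_iff_isConj] at hx
    obtain ⟨a, ha⟩ := (IsPGroup.iff_orderOf.mp P.isPGroup') u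
    exact ⟨a, by rw [Cfsg.Agent.Lib.Helper22.orderOf_eq_of_isConj hx, ← ha]; exact Subgroup.orderOf_coe u⟩
  let π : P → {c : ConjClasses G // ∀ x ∈ c.carrier, ∃ k : ℕ, orderOf x = 2 ^ k} :=
    fun u => ⟨ConjClasses.mk (u : G), hmem u⟩
  have hπc : ∀ a b : P, π a = π b ↔ IsConj (a : G) (b : G) := fun a b => by
    rw [Subtype.ext_iff]; exact ConjClasses.mk_eq_mk_iff_isConj
  have hπ : Function.Surjective π := by
    rintro ⟨c, hc⟩
    obtain ⟨x, rfl⟩ := ConjClasses.mk_surjective c
    have hx := hc x ConjClasses.mem_carrier_mk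
    have hp := Cfsg.Agent.Lib.Helper22.isPGroup_zpowers_of_orderOf 2 x hx
    obtain ⟨S, hS⟩ := hp.exists_le_sylow
    obtain ⟨h, hh⟩ := MulAction.exists_smul_eq G P S
    have m : h⁻¹ * x * h ∈ P := by
      rw [← Cfsg.Agent.Lib.Helper22.mem_sylow_smul_iff, hh]
      exact hS (Subgroup.mem_zpowers x)
    refine ⟨⟨_, m⟩, Subtype.ext ?_⟩
    show ConjClasses.mk (h⁻¹ * x * h) = ConjClasses.mk x
    rw [ConjClasses.mk_eq_mk_iff_isConj, isConj_iff]
    exact ⟨h, by group⟩
  have hle : Nat.card {c : ConjClasses G // ∀ x ∈ c.carrier, ∃ k : ℕ, orderOf x = 2 ^ k} ≤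
      Nat.card (ConjClasses ↥(P : Subgroup G)) := by
    apply Nat.card_le_card_of_injective (fun c => ConjClasses.mk (Function.surjInv hπ c))
    intro c c' h
    have h1 : IsConj (Function.surjInv hπ c) (Function.surjInv hπ c') :=
      ConjClasses.mk_eq_mk_iff_isConj.mp h
    have h2 := (hπc _ _).mpr ((P : Subgroup G).subtype.map_isConj h1)
    rwa [Function.surjInv_eq hπ, Function.surjInv_eq hπ] at h2
  constructor
  · intro h
    constructor
    · by_contra hn
      have hnc : ¬ ∃ N : Subgroup G, N.Normal ∧ N.IsComplement' (P : Subgroup G) :=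
        fun ⟨N, h1, h2⟩ => hn ⟨P, N, h1, h2⟩
      have := Cfsg.Agent.Lib.Helper22.two_mul_card_le P hnc π hπ hπc
      omega
    · omega
  · rintro ⟨⟨P', N, hN, hc⟩, h⟩
    have hNP : N.IsComplement' (P : Subgroup G) := by
      have e1 : Nat.card (P : Subgroup G) = Nat.card (P' : Subgroup G) := by
        rw [P.card_eq_multiplicity, P'.card_eq_multiplicity]
      apply Subgroup.isComplement'_of_coprime
      · rw [e1]; exact hc.card_mul_card
      · rw [← hc.index_eq_card, P.card_eq_multiplicity]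
        exact Nat.Coprime.pow_right _
          ((Nat.coprime_comm.mp ((Nat.Prime.coprime_iff_not_dvd Nat.prime_two).mpr P'.not_dvd_index)))
    have hle2 : Nat.card (ConjClasses ↥(P : Subgroup G)) ≤
        Nat.card {c : ConjClasses G // ∀ x ∈ c.carrier, ∃ k : ℕ, orderOf x = 2 ^ k} := by
      apply Nat.card_le_card_of_injective
        (fun c => π (Function.surjInv ConjClasses.mk_surjective c))
      intro c c' h
      obtain ⟨g, hg⟩ := isConj_iff.mp ((hπc _ _).mp h)
      set u := Function.surjInv ConjClasses.mk_surjective c with hu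
      set v := Function.surjInv ConjClasses.mk_surjective c' with hv
      obtain ⟨⟨n, s⟩, hns⟩ := hNP.2 g
      have hns' : (n : G) * (s : G) = g := hns
      have h1 : (v : G) * ((s : G) * u * (s : G)⁻¹)⁻¹ ∈ N := by
        have e : (v : G) * ((s : G) * u * (s : G)⁻¹)⁻¹ =
            n * (((s : G) * u * (s : G)⁻¹) * (n : G)⁻¹ * ((s : G) * u * (s : G)⁻¹)⁻¹) := by
          rw [← hg, ← hns']; group
        rw [e]
        exact N.mul_mem n.2 (hN.conj_mem _ (N.inv_mem n.2) _)
      have h2 : (v : G) * ((s : G) * u * (s : G)⁻¹)⁻¹ ∈ (P : Subgroup G) :=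
        (P : Subgroup G).mul_mem v.2 ((P : Subgroup G).inv_mem
          ((P : Subgroup G).mul_mem ((P : Subgroup G).mul_mem s.2 u.2) ((P : Subgroup G).inv_mem s.2)))
      have h3 : (v : G) * ((s : G) * u * (s : G)⁻¹)⁻¹ = 1 := by
        have := hNP.disjoint.le_bot ⟨h1, h2⟩
        exact this
      have h4 : (v : G) = (s : G) * u * (s : G)⁻¹ := mul_inv_eq_one.mp h3
      have h5 : IsConj u v := isConj_iff.mpr ⟨s, Subtype.ext h4.symm⟩
      have h6 := ConjClasses.mk_eq_mk_iff_isConj.mpr h5
      rwa [hu, hv, Function.surjInv_eq ConjClasses.mk_surjective,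
        Function.surjInv_eq ConjClasses.mk_surjective] at h6
    omega

end Cfsg.Agent.S3895
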