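import Cfsg.Statements.S3897
import Cfsg.Agent.H20.PClasses
import Cfsg.Agent.H1.Transfer3

set_option autoImplicit false
open Cfsg
open scoped Pointwise

namespace Cfsg.Agent.S3897

/-- Let p be an odd prime and G a finite group with Sylow p-subgroup P, and write k_p(G) for the number of conjugacy classes of G consisting of p-elements (elements of p-power order, the identity included). Then k_p(G) > (p + 1)|P|/(2p) if and only if G has a normal p-complement and P is abelian. -/
theorem result {G : Type*} [Group G] [Finite G] {p : ℕ} [Fact p.Prime] (hp : p ≠ 2) (P : Sylow p G) :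
    (p + 1) * Nat.card ↥(P : Subgroup G) < 2 * p * Nat.card {c : ConjClasses G // ∀ x ∈ c.carrier, ∃ k : ℕ, orderOf x = p ^ k} ↔
      Cfsg.HasNormalPComplement p G ∧ IsMulCommutative ↥(P : Subgroup G) := by
  constructor
  · intro h
    have hNC := H20.normalizer_le_centralizer_of_many P h
    refine ⟨Cfsg.H1.hasNormalPComplement_of_burnside P hNC, ?_⟩
    have hPC : (P : Subgroup G) ≤ Subgroup.centralizer ((P : Subgroup G) : Set G) :=
      Subgroup.le_normalizer.trans hNC
    exact ⟨⟨fun a b => Subtype.ext ((Subgroup.mem_centralizer_iff.1 (hPC b.2)) a.1 a.2)⟩⟩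
  · rintro ⟨hN, hab⟩
    obtain ⟨N, hNn, hc⟩ := (Cfsg.H1.hasNormalPComplement_iff_sylow P).1 hN
    have hinj : Function.Injective (H20.pcl (P := (P : Subgroup G)) P.2) := by
      intro x y hxy
      have h1 : ConjClasses.mk x.1 = ConjClasses.mk y.1 := congrArg Subtype.val hxy
      rw [ConjClasses.mk_eq_mk_iff_isConj, isConj_iff] at h1
      obtain ⟨g, hg⟩ := h1
      have hgm : g ∈ ((N : Set G) * ((P : Subgroup G) : Set G)) := by
        rw [Subgroup.IsComplement.mul_eq hc]; trivial
      obtain ⟨n, hn, u, hu, rfl⟩ := hgm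
      have hux : u * x.1 * u⁻¹ = x.1 := by
        have : (⟨u, hu⟩ : ↥(P : Subgroup G)) * x = x * ⟨u, hu⟩ := mul_comm' _ _
        have h2 : u * x.1 = x.1 * u := congrArg Subtype.val this
        rw [h2]; group
      have hy : y.1 = n * x.1 * n⁻¹ := by
        rw [← hg]
        calc n * u * x.1 * (n * u)⁻¹ = n * (u * x.1 * u⁻¹) * n⁻¹ := by group
          _ = _ := by rw [hux]
      have h3 : y.1 * x.1⁻¹ ∈ N := by
        rw [hy]
        have : n * x.1 * n⁻¹ * x.1⁻¹ = n * (x.1 * n⁻¹ * x.1⁻¹) := by group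
        rw [this]
        exact N.mul_mem hn (hNn.conj_mem _ (N.inv_mem hn) _)
      have h4 : y.1 * x.1⁻¹ ∈ (P : Subgroup G) := mul_mem y.2 (inv_mem x.2)
      have h5 : y.1 * x.1⁻¹ = 1 := by
        have := (Subgroup.IsComplement'.disjoint hc).le_bot ⟨h3, h4⟩
        exact this
      exact Subtype.ext (mul_inv_eq_one.1 h5).symm
    have hle : Nat.card ↥(P : Subgroup G) ≤ Nat.card (H20.PCl p G) :=
      Nat.card_le_card_of_injective _ hinj
    have hpos : 0 < Nat.card ↥(P : Subgroup G) := Nat.card_pos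
    have hp2 : 2 ≤ p := (Fact.out : p.Prime).two_le
    calc (p + 1) * Nat.card ↥(P : Subgroup G) < 2 * p * Nat.card ↥(P : Subgroup G) :=
          Nat.mul_lt_mul_of_pos_right (by omega) hpos
      _ ≤ _ := Nat.mul_le_mul_left _ hle

end Cfsg.Agent.S3897
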