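import Cfsg.Statements.S3899
import Cfsg.Agent.H20.PiClasses
import Cfsg.Agent.H1.Transfer3

set_option autoImplicit false
set_option linter.style.haveILetI false
open Cfsg

namespace Cfsg.Agent.S3899

section aux
open Subgroup
open scoped Pointwise

/-- A normal complement of an abelian subgroup contains all commutators. -/
theorem comm_mem_of_complement {G : Type*} [Group G] {N P : Subgroup G} (hN : N.Normal)
    (hc : N.IsComplement' P) (hab : ∀ u ∈ P, ∀ v ∈ P, u * v = v * u) (a b : G) :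
    a * b * a⁻¹ * b⁻¹ ∈ N := by
  have hdec : ∀ g : G, ∃ u ∈ P, (QuotientGroup.mk' N) g = (QuotientGroup.mk' N) u := by
    intro g
    have hgm : g ∈ ((N : Set G) * (P : Set G)) := by
      rw [Subgroup.IsComplement.mul_eq hc]; trivial
    obtain ⟨n, hn, u, hu, rfl⟩ := hgm
    refine ⟨u, hu, ?_⟩
    have h1 : (QuotientGroup.mk' N) n = 1 := (QuotientGroup.eq_one_iff (N := N) n).2 hn
    rw [map_mul, h1, one_mul]
  obtain ⟨u, hu, hau⟩ := hdec a
  obtain ⟨v, hv, hbv⟩ := hdec b
  rw [← QuotientGroup.eq_one_iff]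
  have : (QuotientGroup.mk' N) (a * b * a⁻¹ * b⁻¹) = 1 := by
    rw [map_mul, map_mul, map_mul, map_inv, map_inv, hau, hbv, ← map_mul, hab u hu v hv, map_mul]
    group
  exact this

end aux

/-- Let π be a finite non-empty set of odd primes with smallest member p and G a finite group. Write k_π(G) for the number of conjugacy classes of G consisting of π-elements (elements all of whose order's prime divisors lie in π) and |G|_π for the π-part of the order of G. If k_π(G) > (p + 1)|G|_π/(2p), then G has a normal π-complement (a normal subgroup of order prime to π whose index is a π-number) and an abelian Hall π-subgroup. -/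
theorem result {G : Type*} [Group G] [Finite G] (π : Finset ℕ) (hπ : ∀ r ∈ π, r.Prime) (h2 : 2 ∉ π) (p : ℕ) (hp : p ∈ π)
    (hmin : ∀ r ∈ π, p ≤ r) (hk : (p + 1) * π.prod (fun r => r ^ (Nat.card G).factorization r) < 2 * p * Nat.card {c : ConjClasses G // ∀ x ∈ c.carrier, ∀ r : ℕ, r.Prime → r ∣ orderOf x → r ∈ π}) :
    (∃ N : Subgroup G, N.Normal ∧ (∀ r : ℕ, r.Prime → r ∣ Nat.card ↥N → r ∉ π) ∧ ∀ r : ℕ, r.Prime → r ∣ N.index → r ∈ π) ∧ ∃ H : Subgroup G, Cfsg.IsPiHall (↑π : Set ℕ) H ∧ IsMulCommutative ↥H := by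
  classical
  have hkey : ∀ r ∈ π, ∀ (_ : Fact r.Prime) (P : Sylow r G),
      Subgroup.normalizer ((P : Subgroup G) : Set G) ≤ Subgroup.centralizer ((P : Subgroup G) : Set G) := by
    intro r hr hrF P
    apply H20.normalizer_le_centralizer_of_many P
    have h1 := H20.card_PiCl_le_mul (G := G) hπ hr
    have h2 := H20.ppart_eq_mul hr (Nat.card G)
    have hk' : (p + 1) * H20.ppart π (Nat.card G) < 2 * p * Nat.card (H20.PiCl π G) := hk
    rw [P.card_eq_multiplicity]
    have hE : 0 < H20.ppart (π.erase r) (Nat.card G) :=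
      H20.ppart_pos (fun s hs => hπ s (Finset.mem_of_mem_erase hs)) _
    have h3 : (p + 1) * r ^ (Nat.card G).factorization r < 2 * p * Nat.card (H20.PCl r G) := by
      have : (p + 1) * r ^ (Nat.card G).factorization r * H20.ppart (π.erase r) (Nat.card G) <
          2 * p * Nat.card (H20.PCl r G) * H20.ppart (π.erase r) (Nat.card G) := by
        calc (p + 1) * r ^ (Nat.card G).factorization r * H20.ppart (π.erase r) (Nat.card G)
            = (p + 1) * H20.ppart π (Nat.card G) := by rw [h2]; ring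
          _ < 2 * p * Nat.card (H20.PiCl π G) := hk'
          _ ≤ 2 * p * (Nat.card (H20.PCl r G) * H20.ppart (π.erase r) (Nat.card G)) :=
              Nat.mul_le_mul_left _ h1
          _ = _ := by ring
      exact Nat.lt_of_mul_lt_mul_right this
    have hpr := hmin r hr
    have hp0 : 0 < p := (hπ p hp).pos
    have hr0 : 0 < r := (hπ r hr).pos
    apply Nat.lt_of_mul_lt_mul_left (a := p)
    calc p * ((r + 1) * r ^ (Nat.card G).factorization r)
        = (p * r + p) * r ^ (Nat.card G).factorization r := by ring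
      _ ≤ (p * r + r) * r ^ (Nat.card G).factorization r :=
          Nat.mul_le_mul_right _ (Nat.add_le_add_left hpr _)
      _ = r * ((p + 1) * r ^ (Nat.card G).factorization r) := by ring
      _ < r * (2 * p * Nat.card (H20.PCl r G)) := Nat.mul_lt_mul_of_pos_left h3 hr0
      _ = p * (2 * r * Nat.card (H20.PCl r G)) := by ring
  obtain ⟨S, hS⟩ : ∃ S : Set (Subgroup G), S = {M : Subgroup G | M.Normal ∧
      (∃ r ∈ π, ∃ k : ℕ, M.index = r ^ k) ∧ ∀ a b : G, a * b * a⁻¹ * b⁻¹ ∈ M} := ⟨_, rfl⟩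
  have hNn : (sInf S).Normal := by
    constructor
    intro n hn g
    rw [Subgroup.mem_sInf] at hn ⊢
    intro M hM
    have hM' := hM
    rw [hS] at hM'
    exact hM'.1.conj_mem n (hn M hM) g
  have hcomm : ∀ a b : G, a * b * a⁻¹ * b⁻¹ ∈ sInf S := by
    intro a b
    rw [Subgroup.mem_sInf]
    intro M hM
    rw [hS] at hM
    exact hM.2.2 a b
  have hcard : ∀ r : ℕ, r.Prime → r ∣ Nat.card ↥(sInf S) → r ∉ π := by
    intro r hr hdvd hrπ
    haveI := Fact.mk hr
    obtain ⟨P⟩ : Nonempty (Sylow r G) := inferInstance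
    have hNC := hkey r hrπ inferInstance P
    obtain ⟨M, hMn, hc⟩ := (Cfsg.H1.hasNormalPComplement_iff_sylow P).1
      (Cfsg.H1.hasNormalPComplement_of_burnside P hNC)
    have hPC : (P : Subgroup G) ≤ Subgroup.centralizer ((P : Subgroup G) : Set G) :=
      Subgroup.le_normalizer.trans hNC
    have hMS : M ∈ S := by
      rw [hS]
      refine ⟨hMn, ⟨r, hrπ, (Nat.card G).factorization r, ?_⟩, ?_⟩
      · rw [hc.symm.index_eq_card, P.card_eq_multiplicity]
      · exact comm_mem_of_complement hMn hc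
          (fun u hu v hv => (Subgroup.mem_centralizer_iff.1 (hPC hv)) u hu)
    have h1 : Nat.card ↥(sInf S) ∣ Nat.card M := Subgroup.card_dvd_of_le (sInf_le hMS)
    rw [← hc.index_eq_card] at h1
    exact P.not_dvd_index (hdvd.trans h1)
  have hindex : ∀ r : ℕ, r.Prime → r ∣ (sInf S).index → r ∈ π := by
    intro s hs hdvd
    by_contra hsπ
    haveI := Fact.mk hs
    rw [Subgroup.index_eq_card] at hdvd
    obtain ⟨x, hx⟩ := exists_prime_orderOf_dvd_card' s hdvd
    obtain ⟨g, rfl⟩ := QuotientGroup.mk_surjective x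
    have hgs : g ^ s ∈ sInf S := by
      rw [← QuotientGroup.eq_one_iff, QuotientGroup.mk_pow, ← hx, pow_orderOf_eq_one]
    have hgN : g ∉ sInf S := by
      intro h
      rw [(QuotientGroup.eq_one_iff g).2 h, orderOf_one] at hx
      exact hs.one_lt.ne hx
    rw [Subgroup.mem_sInf] at hgN
    push Not at hgN
    obtain ⟨M, hMS, hgM⟩ := hgN
    have hM' := hMS
    rw [hS] at hM'
    obtain ⟨hMn, ⟨r, hrπ, k, hk⟩, -⟩ := hM'
    apply hgM
    have h1 : (g : G ⧸ M) ^ s = 1 := by
      rw [← QuotientGroup.mk_pow, QuotientGroup.eq_one_iff]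
      exact (sInf_le hMS) hgs
    have h2 : (g : G ⧸ M) ^ (r ^ k) = 1 := by
      rw [← hk, Subgroup.index_eq_card]
      exact pow_card_eq_one'
    have hne : s ≠ r := fun h => hsπ (h ▸ hrπ)
    have hcop : Nat.Coprime s (r ^ k) :=
      Nat.Coprime.pow_right _ ((Nat.coprime_primes hs (hπ r hrπ)).2 hne)
    have h3 := Nat.dvd_gcd (orderOf_dvd_of_pow_eq_one h1) (orderOf_dvd_of_pow_eq_one h2)
    rw [hcop.gcd_eq_one, Nat.dvd_one, orderOf_eq_one_iff, QuotientGroup.eq_one_iff] at h3
    exact h3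
  refine ⟨⟨sInf S, hNn, hcard, hindex⟩, ?_⟩
  have hcop : Nat.Coprime (Nat.card ↥(sInf S)) (sInf S).index :=
    Nat.coprime_of_dvd (fun k hk h1 h2 => hcard k hk h1 (hindex k hk h2))
  obtain ⟨H, hH⟩ := Subgroup.exists_right_complement'_of_coprime hcop
  refine ⟨H, ⟨?_, ?_⟩, ?_⟩
  · intro s hs hdvd
    rw [← hH.symm.index_eq_card] at hdvd
    exact hindex s hs hdvd
  · intro s hs hsπ hdvd
    rw [hH.index_eq_card] at hdvd
    exact hcard s hs hdvd hsπ
  · refine ⟨⟨fun a b => ?_⟩⟩
    have h1 := hcomm a.1 b.1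
    have h2 : a.1 * b.1 * a.1⁻¹ * b.1⁻¹ ∈ H :=
      H.mul_mem (H.mul_mem (H.mul_mem a.2 b.2) (H.inv_mem a.2)) (H.inv_mem b.2)
    have h3 : a.1 * b.1 * a.1⁻¹ * b.1⁻¹ = 1 := (Subgroup.IsComplement'.disjoint hH).le_bot ⟨h1, h2⟩
    apply Subtype.ext
    show a.1 * b.1 = b.1 * a.1
    calc a.1 * b.1 = (a.1 * b.1 * a.1⁻¹ * b.1⁻¹) * (b.1 * a.1) := by group
      _ = b.1 * a.1 := by rw [h3, one_mul]

end Cfsg.Agent.S3899
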