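import Cfsg.Statements.S3898
import Cfsg.Agent.H17.PiC5
import Cfsg.Agent.S3895
import Cfsg.Agent.S3899

set_option autoImplicit false
open Cfsg

namespace Cfsg.Agent.S3898

/-- Let π be a finite set of primes containing 2 and G a finite group. Write k_π(G) for the number of conjugacy classes of G consisting of π-elements (elements all of whose order's prime divisors lie in π) and |G|_π for the π-part of the order of G. If k_π(G) > |G|_π/2, then G has a normal π-complement (a normal subgroup of order prime to π whose index is a π-number) and an abelian Hall subgroup for the set of odd primes in π. -/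
theorem result {G : Type*} [Group G] [Finite G] (π : Finset ℕ) (hπ : ∀ r ∈ π, r.Prime) (h2 : 2 ∈ π)
    (hk : π.prod (fun r => r ^ (Nat.card G).factorization r) < 2 * Nat.card {c : ConjClasses G // ∀ x ∈ c.carrier, ∀ r : ℕ, r.Prime → r ∣ orderOf x → r ∈ π}) :
    (∃ N : Subgroup G, N.Normal ∧ (∀ r : ℕ, r.Prime → r ∣ Nat.card ↥N → r ∉ π) ∧ ∀ r : ℕ, r.Prime → r ∣ N.index → r ∈ π) ∧ ∃ H : Subgroup G, Cfsg.IsPiHall ((↑π : Set ℕ) \ {2}) H ∧ IsMulCommutative ↥H := by
  classical
  have hk' : H20.ppart π (Nat.card G) < 2 * Nat.card (H20.PiCl π G) := hk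
  -- the normal 2-complement
  haveI : Fact (Nat.Prime 2) := ⟨Nat.prime_two⟩
  obtain ⟨P⟩ : Nonempty (Sylow 2 G) := inferInstance
  have hP2 : Nat.card ↥(P : Subgroup G) < 2 * Nat.card (H20.PCl 2 G) := by
    have h1 := H20.card_PiCl_le_mul (G := G) hπ h2
    have h3 := H20.ppart_eq_mul h2 (Nat.card G)
    have hE : 0 < H20.ppart (π.erase 2) (Nat.card G) :=
      H20.ppart_pos (fun s hs => hπ s (Finset.mem_of_mem_erase hs)) _
    rw [P.card_eq_multiplicity]
    apply Nat.lt_of_mul_lt_mul_right (a := H20.ppart (π.erase 2) (Nat.card G))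
    calc 2 ^ (Nat.card G).factorization 2 * H20.ppart (π.erase 2) (Nat.card G)
        = H20.ppart π (Nat.card G) := h3.symm
      _ < 2 * Nat.card (H20.PiCl π G) := hk'
      _ ≤ 2 * (Nat.card (H20.PCl 2 G) * H20.ppart (π.erase 2) (Nat.card G)) :=
          Nat.mul_le_mul_left _ h1
      _ = _ := by ring
  obtain ⟨M, hMn, hMc⟩ := (Cfsg.H1.hasNormalPComplement_iff_sylow P).1
    ((Cfsg.Agent.S3895.result P).1 hP2).1
  haveI := hMn
  have hMidx : M.index = 2 ^ (Nat.card G).factorization 2 := by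
    rw [hMc.symm.index_eq_card, P.card_eq_multiplicity]
  have hM2 : ¬ 2 ∣ Nat.card M := by
    rw [← hMc.index_eq_card]
    exact P.not_dvd_index
  have hModd : Odd (Nat.card M) := by
    rw [← Nat.not_even_iff_odd, even_iff_two_dvd]
    exact hM2
  -- odd primes
  have hkey : ∀ r ∈ π, r ≠ 2 → ∀ (_ : Fact r.Prime) (R : Sylow r G),
      Subgroup.normalizer ((R : Subgroup G) : Set G) ≤
        Subgroup.centralizer ((R : Subgroup G) : Set G) := by
    intro r hr hr2 hrF R
    haveI : Fintype (H20.PCl r G) := Fintype.ofFinite _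
    have hsurj := H20.pcl_surjective R
    choose x hx using hsurj
    have hrep : ∀ c, ConjClasses.mk ((x c : (R : Subgroup G)) : G) = c.1 :=
      fun c => congrArg Subtype.val (hx c)
    apply Cfsg.Agent.H17.PiC.key hr2 R M hModd hMidx (fun c => ((x c : (R : Subgroup G)) : G))
      hrep (fun c => (x c).2)
    have h2' : 2 ∈ π.erase r := Finset.mem_erase.2 ⟨fun h => hr2 h.symm, h2⟩
    have hσ : ∀ s ∈ π.erase r, s.Prime := fun s hs => hπ s (Finset.mem_of_mem_erase hs)
    have hσ' : ∀ s ∈ (π.erase r).erase 2, s.Prime :=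
      fun s hs => hσ s (Finset.mem_of_mem_erase hs)
    have h1 := Cfsg.Agent.H17.PiC.card_PiCl_insert_le_sum (G := G) (σ := π.erase r) (hπ r hr)
      (fun c => ((x c : (R : Subgroup G)) : G)) hrep
    rw [Finset.insert_erase hr] at h1
    have hE : 0 < H20.ppart ((π.erase r).erase 2) (Nat.card G) := H20.ppart_pos hσ' _
    have h3 : ∀ c : H20.PCl r G,
        Nat.card (H20.PiCl (π.erase r)
          ↥(Subgroup.centralizer ({((x c : (R : Subgroup G)) : G)} : Set G))) ≤
        2 ^ (Nat.card ↥(Subgroup.centralizer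
          ({((x c : (R : Subgroup G)) : G)} : Set G))).factorization 2 *
          H20.ppart ((π.erase r).erase 2) (Nat.card G) := by
      intro c
      refine (H20.card_PiCl_le _ hσ _).trans ?_
      rw [H20.ppart_eq_mul h2']
      exact Nat.mul_le_mul_left _
        (H20.ppart_le_of_dvd hσ' (Subgroup.card_subgroup_dvd_card _) Nat.card_pos.ne')
    rw [R.card_eq_multiplicity]
    apply Nat.lt_of_mul_lt_mul_right (a := H20.ppart ((π.erase r).erase 2) (Nat.card G))
    calc 2 ^ (Nat.card G).factorization 2 * r ^ (Nat.card G).factorization r *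
          H20.ppart ((π.erase r).erase 2) (Nat.card G)
        = H20.ppart π (Nat.card G) := by
          rw [H20.ppart_eq_mul hr, H20.ppart_eq_mul h2']; ring
      _ < 2 * Nat.card (H20.PiCl π G) := hk'
      _ ≤ 2 * ∑ c : H20.PCl r G, Nat.card (H20.PiCl (π.erase r)
          ↥(Subgroup.centralizer ({((x c : (R : Subgroup G)) : G)} : Set G))) :=
          Nat.mul_le_mul_left _ h1
      _ ≤ 2 * ∑ c : H20.PCl r G, 2 ^ (Nat.card ↥(Subgroup.centralizer
          ({((x c : (R : Subgroup G)) : G)} : Set G))).factorization 2 *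
          H20.ppart ((π.erase r).erase 2) (Nat.card G) :=
          Nat.mul_le_mul_left _ (Finset.sum_le_sum (fun c _ => h3 c))
      _ = _ := by rw [← Finset.sum_mul]; ring
  -- normal complements for the odd primes
  have hodd : ∀ r ∈ π, r ≠ 2 → ∃ M' : Subgroup G, M'.Normal ∧ (∃ k : ℕ, M'.index = r ^ k) ∧
      ¬ r ∣ Nat.card M' ∧ ∀ a b : G, a * b * a⁻¹ * b⁻¹ ∈ M' := by
    intro r hr hr2
    haveI := Fact.mk (hπ r hr)
    obtain ⟨R⟩ : Nonempty (Sylow r G) := inferInstance
    have hNC := hkey r hr hr2 inferInstance R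
    obtain ⟨M', hMn', hc⟩ := (Cfsg.H1.hasNormalPComplement_iff_sylow R).1
      (Cfsg.H1.hasNormalPComplement_of_burnside R hNC)
    have hPC : (R : Subgroup G) ≤ Subgroup.centralizer ((R : Subgroup G) : Set G) :=
      Subgroup.le_normalizer.trans hNC
    refine ⟨M', hMn', ⟨_, by rw [hc.symm.index_eq_card, R.card_eq_multiplicity]⟩, ?_, ?_⟩
    · rw [← hc.index_eq_card]
      exact R.not_dvd_index
    · exact Cfsg.Agent.S3899.comm_mem_of_complement hMn' hc
        (fun u hu v hv => (Subgroup.mem_centralizer_iff.1 (hPC hv)) u hu)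
  constructor
  · obtain ⟨N, hN, h3, h4, -⟩ := Cfsg.Agent.H17.PiC.inf_family (G := G) π hπ (fun _ => True) (by
      intro r hr
      by_cases hr2 : r = 2
      · subst hr2
        exact ⟨M, hMn, ⟨_, hMidx⟩, hM2, trivial⟩
      · obtain ⟨M', h5, h6, h7, -⟩ := hodd r hr hr2
        exact ⟨M', h5, h6, h7, trivial⟩)
    exact ⟨N, hN, h3, h4⟩
  · obtain ⟨N, hN, h3, h4, h5⟩ := Cfsg.Agent.H17.PiC.inf_family (G := G) (π.erase 2)
      (fun s hs => hπ s (Finset.mem_of_mem_erase hs))
      (fun M' => ∀ a b : G, a * b * a⁻¹ * b⁻¹ ∈ M') (by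
      intro r hr
      exact hodd r (Finset.mem_of_mem_erase hr) (Finset.ne_of_mem_erase hr))
    obtain ⟨H, h6, h7, h8⟩ := Cfsg.Agent.H17.PiC.exists_abelian_complement hN h3 h4
      (fun a b => h5 _ (fun M' _ hM' => hM' a b))
    refine ⟨H, ⟨?_, ?_⟩, h8⟩
    · intro s hs hdvd
      have := Finset.mem_erase.1 (h6 s hs hdvd)
      exact ⟨this.2, this.1⟩
    · intro s hs hsπ
      exact h7 s hs (Finset.mem_erase.2 ⟨hsπ.2, hsπ.1⟩)

end Cfsg.Agent.S3898
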