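import Cfsg.Statements.S3903
import Mathlib
import Cfsg.Agent.Lib.Helper21.InvPairs
import Cfsg.Agent.S0556

set_option autoImplicit false
open Cfsg

namespace Cfsg.Agent.S3903

/-- Let N be a proper normal subgroup of the finite group G such that every element x of G outside N has prime power order and has centralizer C_G(x) a maximal subgroup of G. Then N is solvable. -/
theorem result {G : Type*} [Group G] [Finite G] (N : Subgroup G) [N.Normal] (hN : N ≠ ⊤)
    (h : ∀ x : G, x ∉ N → IsPrimePow (orderOf x) ∧ IsCoatom (Subgroup.centralizer ({x} : Set G))) : Group.IsSolvable ↥N := by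
  classical
  -- centralizers of outside elements are q-groups
  have key : ∀ y : G, y ∉ N → ∀ q : ℕ, q.Prime → ∀ b : ℕ, orderOf y = q ^ b →
      IsPGroup q (Subgroup.centralizer ({y} : Set G)) := by
    intro y hy q hq b hb
    haveI : Fact q.Prime := ⟨hq⟩
    have hb0 : b ≠ 0 := by
      rintro rfl
      rw [pow_zero, orderOf_eq_one_iff] at hb
      exact hy (hb ▸ N.one_mem)
    refine IsPGroup.of_card (n := (Nat.card (Subgroup.centralizer ({y} : Set G))).primeFactorsList.length) ?_
    refine Nat.eq_prime_pow_of_unique_prime_dvd Nat.card_pos.ne' ?_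
    intro r hr hdvd
    by_contra hrq
    haveI : Fact r.Prime := ⟨hr⟩
    obtain ⟨c, hc⟩ := exists_prime_orderOf_dvd_card' r hdvd
    have hc' : orderOf (c : G) = r := by rw [Subgroup.orderOf_coe, hc]
    have hcomm : Commute y (c : G) := by
      have := Subgroup.mem_centralizer_iff.mp c.2 y (Set.mem_singleton y)
      exact this
    have hcop : Nat.Coprime (orderOf y) (orderOf (c : G)) := by
      rw [hb, hc']
      exact Nat.Coprime.pow_left _ ((Nat.coprime_primes hq hr).mpr (fun h => hrq h.symm))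
    have hord : orderOf (y * (c : G)) = q ^ b * r := by
      rw [hcomm.orderOf_mul_eq_mul_orderOf_of_coprime hcop, hb, hc']
    by_cases hyc : y * (c : G) ∈ N
    · have h1 : (y * (c : G)) ^ r ∈ N := N.pow_mem hyc r
      rw [hcomm.mul_pow, ← hc', pow_orderOf_eq_one, mul_one, hc'] at h1
      obtain ⟨m, hm⟩ := exists_pow_eq_self_of_coprime (x := y) (n := r) (by
        rw [hc'] at hcop; exact hcop.symm)
      exact hy (hm ▸ N.pow_mem h1 m)
    · obtain ⟨p', k, hp', hk, hpk⟩ := (h _ hyc).1
      rw [hord] at hpk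
      have hp'' : p'.Prime := hp'.nat_prime
      have h1 : q ∣ p' ^ k := by rw [hpk]; exact Dvd.dvd.mul_right (dvd_pow_self q hb0) r
      have h2 : r ∣ p' ^ k := by rw [hpk]; exact Dvd.intro_left _ rfl
      have h3 := (Nat.prime_dvd_prime_iff_eq hq hp'').mp (hq.dvd_of_dvd_pow h1)
      have h4 := (Nat.prime_dvd_prime_iff_eq hr hp'').mp (hr.dvd_of_dvd_pow h2)
      exact hrq (h4.trans h3.symm)
  obtain ⟨x, hx⟩ : ∃ x : G, x ∉ N := by
    by_contra hcon
    push Not at hcon
    exact hN (eq_top_iff.mpr fun g _ => hcon g)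
  obtain ⟨p, a, hp, ha, hpa⟩ := (h x hx).1
  have hp' : p.Prime := hp.nat_prime
  haveI : Fact p.Prime := ⟨hp'⟩
  set P := Subgroup.centralizer ({x} : Set G) with hPdef
  have hPco : IsCoatom P := (h x hx).2
  have hPp : IsPGroup p P := key x hx p hp' a hpa.symm
  have hxP : x ∈ P := Subgroup.mem_centralizer_iff.mpr (fun z hz => by
    rw [Set.mem_singleton_iff.mp hz])
  -- p-groups are solvable
  have hsolv : ∀ H : Subgroup G, IsPGroup p H → Group.IsSolvable H := by
    intro H hH
    haveI := hH.isNilpotent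
    infer_instance
  by_cases hNP : N ≤ P
  · exact hsolv N (hPp.to_le hNP)
  have hsup : P ⊔ N = ⊤ := hPco.2 _ (lt_of_le_of_ne le_sup_left (fun hh => hNP (hh ▸ le_sup_right)))
  by_cases hGp : IsPGroup p G
  · exact hsolv N (hGp.to_subgroup N)
  -- every outside element has p-power order
  have hpow : ∀ y : G, y ∉ N → ∃ b : ℕ, orderOf y = p ^ b := by
    intro y hy
    obtain ⟨q, b, hq, hb, hqb⟩ := (h y hy).1
    have hq' : q.Prime := hq.nat_prime
    by_cases hqp : q = p
    · exact ⟨b, by rw [← hqp, hqb]⟩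
    exfalso
    have hy' : y ∈ P ⊔ N := hsup ▸ Subgroup.mem_top y
    rw [← SetLike.mem_coe, Subgroup.mul_normal] at hy'
    obtain ⟨u, hu, n, hn, hun⟩ := Set.mem_mul.mp hy'
    obtain ⟨k, hk⟩ := hPp ⟨u, hu⟩
    have hk' : u ^ p ^ k = 1 := by simpa using congrArg Subtype.val hk
    have h1 : y ^ p ^ k ∈ N := by
      rw [← hun, ← QuotientGroup.eq_one_iff, QuotientGroup.mk_pow, QuotientGroup.mk_mul,
        (QuotientGroup.eq_one_iff n).mpr hn, mul_one, ← QuotientGroup.mk_pow, hk',
        QuotientGroup.mk_one]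
    obtain ⟨m, hm⟩ := exists_pow_eq_self_of_coprime (x := y) (n := p ^ k) (by
      rw [← hqb]
      exact Nat.Coprime.pow _ _ ((Nat.coprime_primes hp' hq').mpr (fun h => hqp h.symm)))
    exact hy (hm ▸ N.pow_mem h1 m)
  -- centralizers of outside elements are Sylow
  have hsyl : ∀ y : G, y ∉ N →
      ∃ S : Sylow p G, (S : Subgroup G) = Subgroup.centralizer ({y} : Set G) := by
    intro y hy
    obtain ⟨b, hb⟩ := hpow y hy
    obtain ⟨S, hS⟩ := (key y hy p hp' b hb).exists_le_sylow
    refine ⟨S, ?_⟩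
    rcases eq_or_lt_of_le hS with h1 | h1
    · exact h1.symm
    · exfalso
      have h2 := (h y hy).2.2 _ h1
      apply hGp
      have h3 := S.isPGroup'
      rw [h2] at h3
      exact h3.of_equiv Subgroup.topEquiv
  obtain ⟨S0, hS0⟩ : ∃ S : Sylow p G, (S : Subgroup G) = P := hsyl x hx
  have hcard : ∀ y : G, y ∉ N →
      Nat.card (Subgroup.centralizer ({y} : Set G)) = Nat.card P := by
    intro y hy
    obtain ⟨S, hS⟩ := hsyl y hy
    rw [← hS, ← hS0, S.card_eq_multiplicity, S0.card_eq_multiplicity]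
  have hconjN : ∀ c a : G, a ∉ N → c * a * c⁻¹ ∉ N := by
    intro c a ha hca
    apply ha
    have := ‹N.Normal›.conj_mem _ hca c⁻¹
    simpa [mul_assoc] using this
  have e1 := Cfsg.Agent.Lib.Helper21.card_invPairs G (fun a => a ∉ N) hconjN
  have e2 := Cfsg.Agent.Lib.Helper21.card_invPairs_of_const G (fun a => a ∉ N) (Nat.card P) hcard
  rw [e1] at e2
  set D := N.subgroupOf P with hD
  have e3 : Nat.card D * D.index = Nat.card P := D.card_mul_index
  have e4 : D.index = N.index := by
    have h1 : N.relIndex (P ⊔ N) = N.relIndex P := Subgroup.relIndex_sup_right ..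
    rw [hsup, Subgroup.relIndex_top_right] at h1
    exact h1.symm
  have e5 : Nat.card N * N.index = Nat.card G := N.card_mul_index
  have e6 : Nat.card {a : G // a ∉ N} + Nat.card N = Nat.card G := by
    rw [← Nat.card_congr (Equiv.sumCompl (· ∈ N)), Nat.card_sum, add_comm]
  have e7 : Nat.card {u : P // u ∉ D} + Nat.card D = Nat.card P := by
    rw [← Nat.card_congr (Equiv.sumCompl (· ∈ D)), Nat.card_sum, add_comm]
  have e8 : Nat.card {u : P // u ∉ D} =
      Nat.card {C : ConjClasses G // ∃ g : G, ConjClasses.mk g = C ∧ g ∉ N} := by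
    have hi : 0 < N.index := Nat.pos_of_ne_zero Subgroup.index_ne_zero_of_finite
    obtain ⟨j, hj⟩ : ∃ j, N.index = j + 1 := ⟨N.index - 1, by omega⟩
    have hn : 0 < Nat.card N := Nat.card_pos
    rw [e4, hj] at e3
    rw [hj] at e5
    generalize Nat.card {u : P // u ∉ D} = w at *
    generalize Nat.card {C : ConjClasses G // ∃ g : G, ConjClasses.mk g = C ∧ g ∉ N} = k at *
    generalize Nat.card {a : G // a ∉ N} = o at *
    generalize Nat.card N = n at *
    generalize Nat.card D = d at *
    generalize Nat.card P = c at *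
    generalize Nat.card G = g at *
    have h1 : o = n * j := by
      have : o + n = n * j + n := by rw [e6, ← e5]; ring
      omega
    have h2 : k * (n * (j + 1)) = (j * d) * (n * (j + 1)) := by
      rw [e5, e2, h1, ← e3, ← e5]; ring
    have h3 := Nat.eq_of_mul_eq_mul_right (by positivity) h2
    have h4 : w + d = j * d + d := by rw [e7, ← e3]; ring
    omega
  let f : {u : P // u ∉ D} → {C : ConjClasses G // ∃ g : G, ConjClasses.mk g = C ∧ g ∉ N} :=
    fun u => ⟨ConjClasses.mk (u.1 : G), (u.1 : G), rfl,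
      fun hu => u.2 (Subgroup.mem_subgroupOf.mpr hu)⟩
  have hfsurj : Function.Surjective f := by
    rintro ⟨_, g, rfl, hg⟩
    obtain ⟨S, hS⟩ := hsyl g hg
    obtain ⟨t, ht⟩ := MulAction.exists_smul_eq G S S0
    have hgS : g ∈ (S : Subgroup G) := by
      rw [hS]
      exact Subgroup.mem_centralizer_iff.mpr (fun z hz => by rw [Set.mem_singleton_iff.mp hz])
    have h1 : t * g * t⁻¹ ∈ P := by
      rw [← hS0, ← ht, Sylow.coe_subgroup_smul, Subgroup.mem_pointwise_smul_iff_inv_smul_mem]
      simpa [MulAut.smul_def, mul_assoc] using hgS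
    refine ⟨⟨⟨t * g * t⁻¹, h1⟩, fun hh => hconjN t g hg (Subgroup.mem_subgroupOf.mp hh)⟩, ?_⟩
    apply Subtype.ext
    show ConjClasses.mk (t * g * t⁻¹) = ConjClasses.mk g
    exact ConjClasses.mk_eq_mk_iff_isConj.mpr (isConj_iff.mpr ⟨t⁻¹, by group⟩)
  have hfinj : Function.Injective f :=
    ((Nat.bijective_iff_surjective_and_card f).mpr ⟨hfsurj, e8⟩).1
  have hcent : ∀ u ∈ P, u ∉ N → ∀ v ∈ P, v * u = u * v := by
    intro u hu huN v hv
    have h1 : v * u * v⁻¹ ∈ P := P.mul_mem (P.mul_mem hv hu) (P.inv_mem hv)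
    have h2 : v * u * v⁻¹ ∉ N := hconjN v u huN
    have h3 : f ⟨⟨v * u * v⁻¹, h1⟩, fun hh => h2 (Subgroup.mem_subgroupOf.mp hh)⟩ =
        f ⟨⟨u, hu⟩, fun hh => huN (Subgroup.mem_subgroupOf.mp hh)⟩ := by
      apply Subtype.ext
      show ConjClasses.mk (v * u * v⁻¹) = ConjClasses.mk u
      exact ConjClasses.mk_eq_mk_iff_isConj.mpr (isConj_iff.mpr ⟨v⁻¹, by group⟩)
    have h4 := hfinj h3
    have h5 : v * u * v⁻¹ = u := congrArg (fun z => ((z.1 : P) : G)) h4
    calc v * u = (v * u * v⁻¹) * v := by group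
      _ = u * v := by rw [h5]
  haveI : IsMulCommutative P := ⟨⟨fun a b => by
    apply Subtype.ext
    show (a : G) * b = b * a
    by_cases haN : (a : G) ∈ N
    · have h1 : x * a ∉ N := fun hh => hx (by
        have := N.mul_mem hh (N.inv_mem haN)
        simpa using this)
      have h2 := hcent (x * a) (P.mul_mem hxP a.2) h1 b b.2
      have h3 := hcent x hxP hx b b.2
      have h4 : x * ((b : G) * a) = x * (a * b) := by
        rw [← mul_assoc, ← h3, mul_assoc, h2, mul_assoc]
      exact (mul_left_cancel h4).symm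
    · exact (hcent a a.2 haN b b.2).symm⟩⟩
  have h3 := Cfsg.Agent.S0556.result P hPco
  haveI : Group.IsSolvable G := ⟨⟨3, h3⟩⟩
  infer_instance

end Cfsg.Agent.S3903
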