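import Cfsg.Statements.S3909
import Mathlib
import Cfsg.Agent.Lib.Helper21.EqOrderConj

set_option autoImplicit false
open Cfsg

namespace Cfsg.Agent.S3909

/-- Let G be a finite group in which any two abelian subgroups of the same order are conjugate. Let M be a normal subgroup of G. If M contains an element of the same order as a ∈ G, then a ∈ M; and if M is elementary abelian of order p^t with p prime and t ≥ 2, then M is the unique Sylow p-subgroup of G. -/
theorem result {G : Type*} [Group G] [Finite G] (hB : ∀ A B : Subgroup G, IsMulCommutative ↥A → IsMulCommutative ↥B → Nat.card ↥A = Nat.card ↥B → ∃ g : G, B = A.map (MulAut.conj g).toMonoidHom) (M : Subgroup G) [M.Normal] :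
    (∀ a : G, (∃ m ∈ M, orderOf m = orderOf a) → a ∈ M) ∧
    ∀ (p t : ℕ) [Fact p.Prime], 2 ≤ t → Nat.card ↥M = p ^ t → Cfsg.IsElementaryAbelian p M → ∀ P : Sylow p G, (P : Subgroup G) = M := by
  have hcyc : ∀ y : G, IsMulCommutative (Subgroup.zpowers y) := by
    intro y
    refine ⟨⟨?_⟩⟩
    rintro ⟨_, i, rfl⟩ ⟨_, l, rfl⟩
    apply Subtype.ext
    show y ^ i * y ^ l = y ^ l * y ^ i
    rw [← zpow_add, ← zpow_add, add_comm]
  have part1 : ∀ a : G, (∃ m ∈ M, orderOf m = orderOf a) → a ∈ M := by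
    rintro a ⟨m, hm, hma⟩
    obtain ⟨g, hg⟩ := hB (Subgroup.zpowers m) (Subgroup.zpowers a) (hcyc m) (hcyc a)
      (by rw [Nat.card_zpowers, Nat.card_zpowers, hma])
    have h1 : a ∈ (Subgroup.zpowers m).map (MulAut.conj g).toMonoidHom :=
      hg ▸ Subgroup.mem_zpowers a
    obtain ⟨x, hx, rfl⟩ := h1
    have hxM : x ∈ M := (Subgroup.zpowers_le.2 hm) hx
    exact ‹M.Normal›.conj_mem x hxM g
  refine ⟨part1, ?_⟩
  intro p t _ ht hcard hel P
  have hp : p.Prime := Fact.out
  have hMp : IsPGroup p M := IsPGroup.of_card hcard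
  have hle : M ≤ (P : Subgroup G) := hMp.le_sylow_of_normal P
  -- a subgroup of order `p ^ 2` of `M`
  obtain ⟨E', hE'⟩ := Sylow.exists_subgroup_card_pow_prime (G := M) p
    (n := 2) (hcard ▸ pow_dvd_pow p ht)
  set E : Subgroup G := E'.map M.subtype with hE
  have hEM : E ≤ M := by
    rintro _ ⟨x, -, rfl⟩
    exact x.2
  have hE2 : Nat.card E = p ^ 2 := by
    rw [hE, Subgroup.card_map_of_injective M.subtype_injective, hE']
  have hE1 : IsMulCommutative E := by
    refine ⟨⟨?_⟩⟩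
    rintro ⟨a, ha⟩ ⟨b, hb⟩
    apply Subtype.ext
    have := hel.1.is_comm.comm ⟨a, hEM ha⟩ ⟨b, hEM hb⟩
    exact congrArg (fun z : M => (z : G)) this
  have hE3 : ∀ e ∈ E, e ^ p = 1 := fun e he => hel.2 e (hEM he)
  apply le_antisymm _ hle
  intro x hx
  obtain ⟨k, hk⟩ := P.2 ⟨x, hx⟩
  have hxp : x ^ p = 1 := Cfsg.Agent.Lib.Helper21.pow_eq_one_of_elemAb_sq hB E hE1 hE2 hE3 x k
    (by simpa using congrArg Subtype.val hk)
  by_cases hx1 : x = 1
  · rw [hx1]; exact M.one_mem
  have hxo : orderOf x = p := orderOf_eq_prime hxp hx1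
  -- an element of order `p` in `M`
  have hdvd : p ∣ Nat.card M := hcard ▸ dvd_pow_self p (by omega)
  obtain ⟨m, hm⟩ := exists_prime_orderOf_dvd_card' p hdvd
  exact part1 x ⟨m.1, m.2, by rw [hxo, ← hm]; exact Subgroup.orderOf_coe m⟩

end Cfsg.Agent.S3909
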