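import Cfsg.Statements.S3917

set_option autoImplicit false
open Cfsg

namespace Cfsg.Agent.S3917

/-- Say that a group has self-centralizing non-cyclic subgroups when every non-cyclic subgroup H satisfies C_G(H) ≤ H. A finite abelian group with self-centralizing non-cyclic subgroups is cyclic or elementary abelian of order p² for a prime p. -/
theorem result {G : Type*} [CommGroup G] [Finite G] (hX : (∀ H : Subgroup G, ¬ IsCyclic ↥H → Subgroup.centralizer (H : Set G) ≤ H)) :
    IsCyclic G ∨ ∃ p : ℕ, p.Prime ∧ Nat.card G = p ^ 2 ∧ Monoid.exponent G = p := by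
  classical
  by_contra hcon
  rw [not_or] at hcon
  obtain ⟨hnc, hcon⟩ := hcon
  have htop : ∀ H : Subgroup G, ¬ IsCyclic ↥H → H = ⊤ := by
    intro H hH
    have h1 := hX H hH
    rw [eq_top_iff]
    refine le_trans ?_ h1
    intro x _
    rw [Subgroup.mem_centralizer_iff]
    intro y _
    exact mul_comm y x
  let Tor : ℕ → Subgroup G := fun n => (powMonoidHom n : G →* G).ker
  have hTor : ∀ n x, x ∈ Tor n ↔ x ^ n = 1 := fun n x => Iff.rfl
  have hcycle : ∀ (K : Subgroup G) (m : ℕ), 0 < m → (∀ a ∈ K, a ^ m = 1) → IsCyclic K →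
      Nat.card K ≤ m := by
    intro K m hm hK hc
    have : Fintype K := Fintype.ofFinite _
    have h1 := IsCyclic.card_pow_eq_one_le (α := K) hm
    have h2 : (Finset.univ.filter fun a : K => a ^ m = 1) = Finset.univ := by
      ext a
      simp only [Finset.mem_filter, Finset.mem_univ, true_and, iff_true]
      exact Subtype.ext (hK a a.2)
    rw [h2, Finset.card_univ, ← Nat.card_eq_fintype_card] at h1
    exact h1
  have hex : ∃ n : ℕ, 0 < n ∧ n < Nat.card (Tor n) := by
    by_contra hno
    apply hnc
    have : Fintype G := Fintype.ofFinite G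
    apply isCyclic_of_card_pow_eq_one_le
    intro n hn
    have h1 : Nat.card (Tor n) ≤ n := by
      by_contra h2
      exact hno ⟨n, hn, not_le.1 h2⟩
    rw [Nat.card_eq_fintype_card, Fintype.card_subtype] at h1
    refine le_trans (le_of_eq ?_) h1
    congr 1
    ext a
    simp only [Finset.mem_filter, Finset.mem_univ, true_and]
    exact (hTor n a).symm
  obtain ⟨hn0, hn⟩ := Nat.find_spec hex
  have hmin : ∀ m, 0 < m → m < Nat.find hex → Nat.card (Tor m) ≤ m := by
    intro m hm hmn
    have h1 := Nat.find_min hex hmn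
    by_contra h2
    exact h1 ⟨hm, not_le.1 h2⟩
  generalize Nat.find hex = n at hn0 hn hmin
  have hTn : Tor n = ⊤ := by
    apply htop
    intro hc
    have := hcycle (Tor n) n hn0 (fun a ha => ha) hc
    omega
  have hcardG : n < Nat.card G := by
    rw [hTn, Subgroup.card_top] at hn; exact hn
  have hn1 : n ≠ 1 := by
    rintro rfl
    have h1 : Tor 1 = ⊥ := by
      rw [eq_bot_iff]
      intro x hx
      rw [hTor, pow_one] at hx
      exact hx
    rw [h1, Subgroup.card_bot] at hn
    omega
  have hp : n.minFac.Prime := Nat.minFac_prime hn1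
  obtain ⟨m, hm⟩ := Nat.minFac_dvd n
  set p := n.minFac with hpdef
  have hm0 : 0 < m := by
    rcases Nat.eq_zero_or_pos m with h | h
    · rw [h, mul_zero] at hm; omega
    · exact h
  have hmn : m < n := by
    rw [hm]; nlinarith [hp.two_le]
  have hrange : (powMonoidHom m : G →* G).range ≤ Tor p := by
    rintro _ ⟨x, rfl⟩
    rw [hTor, powMonoidHom_apply, ← pow_mul, mul_comm, ← hm]
    have : x ∈ Tor n := by rw [hTn]; exact Subgroup.mem_top x
    exact this
  have hcard1 : Nat.card G = Nat.card (Tor m) * Nat.card (powMonoidHom m : G →* G).range := by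
    rw [← Subgroup.index_ker]
    exact (Subgroup.card_mul_index _).symm
  have hpT : p < Nat.card (Tor p) := by
    have h1 := hmin m hm0 hmn
    have h2 := Subgroup.card_le_of_le hrange
    have h3 : p * m < m * Nat.card (Tor p) := by
      calc p * m = n := hm.symm
        _ < Nat.card G := hcardG
        _ = Nat.card (Tor m) * Nat.card (powMonoidHom m : G →* G).range := hcard1
        _ ≤ m * Nat.card (Tor p) := Nat.mul_le_mul h1 h2
    rw [mul_comm] at h3
    exact Nat.lt_of_mul_lt_mul_left h3
  have hpn : p = n := by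
    by_contra hne
    have h1 : p < n := lt_of_le_of_ne (Nat.le_of_dvd hn0 (Nat.minFac_dvd n)) hne
    have := hmin p hp.pos h1
    omega
  have hall : ∀ x : G, x ^ p = 1 := by
    intro x
    have : x ∈ Tor n := by rw [hTn]; exact Subgroup.mem_top x
    rw [← hpn] at this
    exact this
  have hnt : Nontrivial G := by
    by_contra h
    rw [not_nontrivial_iff_subsingleton] at h
    exact hnc inferInstance
  have hpf : Fact p.Prime := ⟨hp⟩
  apply hcon
  refine ⟨p, hp, ?_, ?_⟩
  · obtain ⟨x, hx⟩ := exists_ne (1 : G)
    have hox : ∀ z : G, z ≠ 1 → Nat.card (Subgroup.zpowers z) = p := by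
      intro z hz
      rw [Nat.card_zpowers]
      exact orderOf_eq_prime (hall z) hz
    have hxt : Subgroup.zpowers x ≠ ⊤ := by
      intro h
      apply hnc
      exact ⟨x, fun y => by
        have : y ∈ Subgroup.zpowers x := by rw [h]; exact Subgroup.mem_top y
        exact this⟩
    obtain ⟨y, hy⟩ : ∃ y, y ∉ Subgroup.zpowers x := by
      by_contra h
      apply hxt
      rw [eq_top_iff]
      intro y _
      by_contra h2
      exact h ⟨y, h2⟩
    have hy1 : y ≠ 1 := by
      rintro rfl
      exact hy (Subgroup.one_mem _)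
    have hK : Subgroup.zpowers x ⊔ Subgroup.zpowers y = ⊤ := by
      apply htop
      intro hc
      have h1 := hcycle _ p hp.pos (fun a _ => hall a) hc
      have h2 : Subgroup.zpowers x = Subgroup.zpowers x ⊔ Subgroup.zpowers y :=
        Subgroup.eq_of_le_of_card_ge le_sup_left (by rw [hox x hx]; exact h1)
      apply hy
      rw [h2]
      exact Subgroup.mem_sup_right (Subgroup.mem_zpowers y)
    have h1 := Subgroup.relIndex_sup_right (Subgroup.zpowers x) (Subgroup.zpowers y)
    rw [hK, Subgroup.relIndex_top_right] at h1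
    have h2 := (Subgroup.zpowers y).card_mul_index
    rw [h1, hox y hy1] at h2
    have h3 : (Subgroup.zpowers y).relIndex (Subgroup.zpowers x) ∣ p := by
      rw [← hox x hx]; exact Subgroup.relIndex_dvd_card _ _
    rcases (Nat.dvd_prime hp).1 h3 with h4 | h4
    · exfalso
      rw [Subgroup.relIndex_eq_one] at h4
      have h5 : Subgroup.zpowers x = Subgroup.zpowers y :=
        Subgroup.eq_of_le_of_card_ge h4 (by rw [hox x hx, hox y hy1])
      apply hy
      rw [h5]; exact Subgroup.mem_zpowers y
    · rw [← h2, h4, pow_two]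
  · have h1 : Monoid.exponent G ∣ p := Monoid.exponent_dvd_of_forall_pow_eq_one hall
    rcases (Nat.dvd_prime hp).1 h1 with h2 | h2
    · exfalso
      rw [Monoid.exp_eq_one_iff] at h2
      exact not_subsingleton G h2
    · exact h2

end Cfsg.Agent.S3917
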