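import Cfsg.Statements.S3920
import Mathlib
-- import your own Cfsg.Agent.* helpers here

set_option autoImplicit false
open Cfsg

namespace Cfsg.Agent.S3920

theorem cyc_of_le {G : Type*} [Group G] (H : Subgroup G) (g : G) (h : H ≤ Subgroup.zpowers g) :
    IsCyclic H := by
  haveI : IsCyclic (H.subgroupOf (Subgroup.zpowers g)) := inferInstance
  exact (Subgroup.subgroupOfEquivOfLe h).isCyclic.mp this

theorem two_tors_unique (n : ℕ) [NeZero n] (t t' : ZMod n) (h : t + t = 0) (h' : t' + t' = 0)
    (h0 : t ≠ 0) (h0' : t' ≠ 0) : t = t' := by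
  have key : ∀ s : ZMod n, s + s = 0 → s ≠ 0 → s.val + s.val = n := by
    intro s hs hs0
    have h1 : ((s.val + s.val : ℕ) : ZMod n) = 0 := by
      push_cast
      rw [ZMod.natCast_zmod_val, hs]
    rw [ZMod.natCast_eq_zero_iff] at h1
    have h2 : s.val < n := ZMod.val_lt s
    have h3 : s.val ≠ 0 := fun h => hs0 ((ZMod.val_eq_zero s).mp h)
    obtain ⟨c, hc⟩ := h1
    have hc1 : c = 1 := by
      rcases c with _ | _ | c
      · omega
      · rfl
      · exfalso
        have : n * (c + 1 + 1) = n * c + n + n := by ring
        have h5 : 0 ≤ n * c := Nat.zero_le _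
        omega
    rw [hc, hc1, mul_one]
  apply ZMod.val_injective
  have := key t h h0
  have := key t' h' h0'
  omega


/-- Say that a group has self-centralizing non-cyclic subgroups when every non-cyclic subgroup H satisfies C_G(H) ≤ H. For n ≥ 3, the dihedral group of order 2n has self-centralizing non-cyclic subgroups if and only if n is odd or a power of 2. -/
theorem result (n : ℕ) (hn : 3 ≤ n) : (∀ H : Subgroup (DihedralGroup n), ¬ IsCyclic ↥H → Subgroup.centralizer (H : Set (DihedralGroup n)) ≤ H) ↔ (Odd n ∨ ∃ k : ℕ, n = 2 ^ k) := by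
  classical
  haveI : NeZero n := ⟨by omega⟩
  constructor
  · intro hall
    by_contra hcon
    push_neg at hcon
    obtain ⟨hodd, hpow⟩ := hcon
    obtain ⟨a, m, hm, hnam⟩ := Nat.exists_eq_two_pow_mul_odd (n := n) (by omega)
    have ha : a ≠ 0 := by
      rintro rfl
      rw [pow_zero, one_mul] at hnam
      exact hodd (hnam ▸ hm)
    obtain ⟨a', rfl⟩ := Nat.exists_eq_succ_of_ne_zero ha
    have hm1 : m ≠ 1 := by
      rintro rfl
      exact hpow (a' + 1) (by rw [hnam, mul_one])
    have hm2 : ¬ 2 ∣ m := fun h => (Nat.not_even_iff_odd.mpr hm) (even_iff_two_dvd.mpr h)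
    have hd : 2 ^ (a' + 1) ∣ n := ⟨m, hnam⟩
    let c := ZMod.castHom hd (ZMod (2 ^ (a' + 1)))
    let H : Subgroup (DihedralGroup n) :=
      { carrier := {x | match x with
          | DihedralGroup.r j => c j = 0
          | DihedralGroup.sr j => c j = 0}
        mul_mem' := by
          rintro (i | i) (j | j) hi hj
          · show c (i + j) = 0
            rw [map_add, show c i = 0 from hi, show c j = 0 from hj, add_zero]
          · show c (j - i) = 0
            rw [map_sub, show c i = 0 from hi, show c j = 0 from hj, sub_zero]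
          · show c (i + j) = 0
            rw [map_add, show c i = 0 from hi, show c j = 0 from hj, add_zero]
          · show c (j - i) = 0
            rw [map_sub, show c i = 0 from hi, show c j = 0 from hj, sub_zero]
        one_mem' := by
          show c 0 = 0
          exact map_zero c
        inv_mem' := by
          rintro (i | i) hi
          · show c (-i) = 0
            rw [map_neg, show c i = 0 from hi, neg_zero]
          · exact hi }
    have hHnc : ¬ IsCyclic H := by
      intro hc
      have m1 : DihedralGroup.r (((2 ^ (a' + 1) : ℕ) : ZMod n)) ∈ H := by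
        show c ((2 ^ (a' + 1) : ℕ) : ZMod n) = 0
        rw [map_natCast]
        exact ZMod.natCast_self _
      have m2 : DihedralGroup.sr (0 : ZMod n) ∈ H := by
        show c 0 = 0
        exact map_zero c
      have h1 := (IsCyclic.commGroup (α := H)).mul_comm (⟨_, m1⟩ : H) ⟨_, m2⟩
      have h2 := congrArg Subtype.val h1
      simp only [Subgroup.coe_mul, DihedralGroup.r_mul_sr, DihedralGroup.sr_mul_r] at h2
      have h3 : (0 : ZMod n) - ((2 ^ (a' + 1) : ℕ) : ZMod n) = 0 + ((2 ^ (a' + 1) : ℕ) : ZMod n) := by
        injection h2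
      have h5 : ((2 ^ (a' + 1) * 2 : ℕ) : ZMod n) = 0 := by
        rw [Nat.cast_mul]
        push_cast at h3 ⊢
        linear_combination -h3
      rw [ZMod.natCast_eq_zero_iff, hnam] at h5
      have h6 : m ∣ 2 := Nat.dvd_of_mul_dvd_mul_left (by positivity) h5
      rcases (Nat.dvd_prime Nat.prime_two).mp h6 with h | h
      · exact hm1 h
      · exact hm2 (h ▸ dvd_rfl)
    have hz : DihedralGroup.r (((2 ^ a' * m : ℕ) : ZMod n)) ∈ Subgroup.centralizer (H : Set (DihedralGroup n)) := by
      have h2z : ((2 ^ a' * m : ℕ) : ZMod n) + ((2 ^ a' * m : ℕ) : ZMod n) = 0 := by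
        rw [← Nat.cast_add, ZMod.natCast_eq_zero_iff, hnam]
        exact ⟨1, by rw [Nat.succ_eq_add_one, pow_succ]; ring⟩
      rw [Subgroup.mem_centralizer_iff]
      rintro (j | j) -
      · rw [DihedralGroup.r_mul_r, DihedralGroup.r_mul_r, add_comm]
      · rw [DihedralGroup.sr_mul_r, DihedralGroup.r_mul_sr]
        congr 1
        linear_combination h2z
    have h1 := hall H hHnc hz
    have h2 : c ((2 ^ a' * m : ℕ) : ZMod n) = 0 := h1
    rw [map_natCast, ZMod.natCast_eq_zero_iff, pow_succ] at h2
    exact hm2 (Nat.dvd_of_mul_dvd_mul_left (by positivity) h2)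
  · intro hn2 H hH x hx
    obtain ⟨i, hi⟩ : ∃ i, DihedralGroup.sr i ∈ H := by
      by_contra hno
      push_neg at hno
      apply hH
      apply cyc_of_le H (DihedralGroup.r 1)
      rintro (j | j) hj
      · rw [Subgroup.mem_zpowers_iff]
        refine ⟨(j.val : ℤ), ?_⟩
        rw [DihedralGroup.r_one_zpow]
        congr 1
        simp
      · exact absurd hj (hno j)
    have hxi := Subgroup.mem_centralizer_iff.mp hx _ hi
    -- reduce to 2-torsion rotations
    have hred : (∀ t : ZMod n, t + t = 0 → DihedralGroup.r t ∈ H) → x ∈ H := by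
      intro ht
      rcases x with j | k
      · rw [DihedralGroup.sr_mul_r, DihedralGroup.r_mul_sr] at hxi
        have h3 : i + j = i - j := by injection hxi
        exact ht j (by linear_combination h3)
      · rw [DihedralGroup.sr_mul_sr, DihedralGroup.sr_mul_sr] at hxi
        have h3 : k - i = i - k := by injection hxi
        have h4 := H.mul_mem hi (ht (k - i) (by linear_combination h3))
        rw [DihedralGroup.sr_mul_r] at h4
        have : i + (k - i) = k := by ring
        rwa [this] at h4
    apply hred
    rcases hn2 with hodd | ⟨k, hk⟩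
    · obtain ⟨m, hm⟩ := hodd
      have hn0 : (2 * (m : ZMod n) + 1) = 0 := by
        have : ((2 * m + 1 : ℕ) : ZMod n) = 0 := by rw [← hm]; exact ZMod.natCast_self n
        push_cast at this
        exact this
      intro t ht
      have : t = 0 := by linear_combination t * hn0 - (m : ZMod n) * ht
      rw [this]
      exact H.one_mem
    · obtain ⟨u, hu0, hu⟩ : ∃ u : ZMod n, u ≠ 0 ∧ DihedralGroup.r u ∈ H := by
        by_contra hno
        push_neg at hno
        apply hH
        apply cyc_of_le H (DihedralGroup.sr i)
        rintro (j | j) hj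
        · have : j = 0 := by
            by_contra h
            exact hno j h hj
          rw [this]
          exact Subgroup.one_mem _
        · have h1 := H.mul_mem hi hj
          rw [DihedralGroup.sr_mul_sr] at h1
          have : j - i = 0 := by
            by_contra h
            exact hno _ h h1
          rw [sub_eq_zero.mp this]
          exact Subgroup.mem_zpowers _
      have hpw : (DihedralGroup.r u) ^ (2 ^ k) = 1 := by
        rw [DihedralGroup.r_pow, ← hk, ZMod.natCast_self, mul_zero]
        rfl
      obtain ⟨b, hb, hob⟩ := (Nat.dvd_prime_pow Nat.prime_two).mp (orderOf_dvd_of_pow_eq_one hpw)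
      have hb0 : b ≠ 0 := by
        rintro rfl
        rw [pow_zero, orderOf_eq_one_iff] at hob
        have : u = 0 := by
          have h1 : DihedralGroup.r u = DihedralGroup.r 0 := hob
          injection h1
        exact hu0 this
      obtain ⟨b', rfl⟩ := Nat.exists_eq_succ_of_ne_zero hb0
      have hy1 : (DihedralGroup.r u) ^ (2 ^ b') ≠ 1 := by
        apply pow_ne_one_of_lt_orderOf (by positivity)
        rw [hob]
        exact Nat.pow_lt_pow_right (by norm_num) (by omega)
      have hy2 : ((DihedralGroup.r u) ^ (2 ^ b')) ^ 2 = 1 := by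
        rw [← pow_mul, ← pow_succ, ← hob, pow_orderOf_eq_one]
      have hyH : (DihedralGroup.r u) ^ (2 ^ b') ∈ H := H.pow_mem hu _
      rw [DihedralGroup.r_pow] at hy1 hy2 hyH
      set t' := u * ((2 ^ b' : ℕ) : ZMod n) with ht'
      have ht0 : t' ≠ 0 := by
        intro h
        apply hy1
        rw [h]; rfl
      have ht2 : t' + t' = 0 := by
        rw [pow_two, DihedralGroup.r_mul_r] at hy2
        have h1 : DihedralGroup.r (t' + t') = DihedralGroup.r 0 := hy2
        injection h1
      intro t ht
      by_cases h0 : t = 0
      · rw [h0]; exact H.one_mem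
      · rw [two_tors_unique n t t' ht ht2 h0 ht0]
        exact hyH

end Cfsg.Agent.S3920
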