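import Cfsg.Statements.S3941
import Mathlib

set_option autoImplicit false
open Cfsg

namespace Cfsg.Agent.S3941

set_option maxRecDepth 100000 in
theorem a4_aux : ∀ x : alternatingGroup (Fin 4), x ≠ 1 → x ^ 3 = 1 →
    ∃ g : alternatingGroup (Fin 4), g * x * g⁻¹ ≠ 1 ∧ g * x * g⁻¹ ≠ x ∧ g * x * g⁻¹ ≠ x ^ 2 := by
  decide +kernel

/-- the embedding of `A_m` in `A_{m+1}` -/
noncomputable def emb (m : ℕ) : alternatingGroup (Fin m) →* alternatingGroup (Fin (m + 1)) :=
  ((Equiv.Perm.extendDomainHom (finSuccAboveEquiv (Fin.last m))).comp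
    (alternatingGroup (Fin m)).subtype).codRestrict _ (fun x => by
      rw [Equiv.Perm.mem_alternatingGroup]
      show Equiv.Perm.sign (Equiv.Perm.extendDomain _ _) = 1
      rw [Equiv.Perm.sign_extendDomain]
      exact x.2)

theorem emb_injective (m : ℕ) : Function.Injective (emb m) := by
  intro x y hxy
  have h1 : Equiv.Perm.extendDomainHom (finSuccAboveEquiv (Fin.last m)) (x : Equiv.Perm (Fin m)) =
      Equiv.Perm.extendDomainHom (finSuccAboveEquiv (Fin.last m)) (y : Equiv.Perm (Fin m)) :=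
    congrArg Subtype.val hxy
  exact Subtype.ext (Equiv.Perm.extendDomainHom_injective _ h1)

theorem card_alt (k : ℕ) (hk : 2 ≤ k) : 2 * Nat.card (alternatingGroup (Fin k)) = k.factorial := by
  haveI : Nontrivial (Fin k) := Fin.nontrivial_iff_two_le.mpr hk
  rw [two_mul_nat_card_alternatingGroup, Nat.card_eq_fintype_card, Fintype.card_perm,
    Fintype.card_fin]


/-- Let n ≥ 5 and p an odd prime with p ≤ n, and suppose that every proper subgroup of the alternating group of degree n whose order is divisible by p has a normal Sylow p-subgroup. Then n = p. -/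
theorem result (n p : ℕ) (hn : 5 ≤ n) [Fact p.Prime] (hp : p ≠ 2) (hpn : p ≤ n)
    (h : ∀ H : Subgroup ↥(alternatingGroup (Fin n)), H ≠ ⊤ → p ∣ Nat.card ↥H → Cfsg.IsPClosed p ↥H) : n = p := by
  have hpp : p.Prime := Fact.out
  by_contra hne
  obtain ⟨m, rfl⟩ : ∃ m, n = m + 1 := ⟨n - 1, by omega⟩
  have hpm : p ≤ m := by omega
  have hm4 : 4 ≤ m := by omega
  have hcm := card_alt m (by omega)
  have hcm1 := card_alt (m + 1) (by omega)
  obtain ⟨H, hH⟩ : ∃ H, H = (emb m).range := ⟨_, rfl⟩
  have hcH : Nat.card H = Nat.card (alternatingGroup (Fin m)) := by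
    rw [hH]
    exact (Nat.card_congr (MonoidHom.ofInjective (emb_injective m)).toEquiv).symm
  have hHtop : H ≠ ⊤ := by
    intro htop
    have h1 : Nat.card H = Nat.card (alternatingGroup (Fin (m + 1))) := by
      rw [htop, Subgroup.card_top]
    rw [hcH] at h1
    rw [← h1, hcm, Nat.factorial_succ] at hcm1
    have := Nat.factorial_pos m
    nlinarith
  have hpdvd : p ∣ Nat.card (alternatingGroup (Fin m)) := by
    have h1 : p ∣ 2 * Nat.card (alternatingGroup (Fin m)) := by
      rw [hcm]; exact (hpp.dvd_factorial).mpr hpm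
    exact (Nat.Coprime.dvd_of_dvd_mul_left ((Nat.coprime_primes hpp Nat.prime_two).mpr hp) h1)
  have hcl := h H hHtop (hcH ▸ hpdvd)
  obtain ⟨P⟩ : Nonempty (Sylow p H) := inferInstance
  haveI hPn := hcl P
  subst hH
  obtain ⟨e, he⟩ : ∃ e : alternatingGroup (Fin m) ≃* (emb m).range,
    e = MonoidHom.ofInjective (emb_injective m) := ⟨_, rfl⟩
  obtain ⟨N, hN⟩ : ∃ N, N = (P : Subgroup (emb m).range).comap e.toMonoidHom := ⟨_, rfl⟩
  have hNn : N.Normal := by rw [hN]; infer_instance
  have hcN : Nat.card N = Nat.card (P : Subgroup (emb m).range) := by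
    have h1 : N.map e.toMonoidHom = (P : Subgroup (emb m).range) := by
      rw [hN]; exact Subgroup.map_comap_eq_self_of_surjective e.surjective _
    rw [← h1, Subgroup.card_map_of_injective e.injective]
  have hpP : p ∣ Nat.card (P : Subgroup (emb m).range) := P.dvd_card_of_dvd_card (hcH ▸ hpdvd)
  obtain ⟨k, hk⟩ := P.2.exists_card_eq
  rcases Nat.lt_or_ge 4 m with hm5 | hm4'
  · haveI := alternatingGroup.isSimpleGroup (α := Fin m) (by
      rw [Nat.card_eq_fintype_card, Fintype.card_fin]; omega)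
    rcases hNn.eq_bot_or_eq_top with h0 | h0
    · rw [h0, Subgroup.card_bot] at hcN
      rw [← hcN] at hpP
      exact hpp.one_lt.ne' (Nat.dvd_one.mp hpP)
    · rw [h0, Subgroup.card_top, hk] at hcN
      have h4 : 4 ∣ m.factorial := Nat.dvd_factorial (by norm_num) hm4
      rw [← hcm, hcN] at h4
      have h2 : 2 ∣ p ^ k := by omega
      exact hp ((Nat.prime_dvd_prime_iff_eq Nat.prime_two hpp).mp
        (Nat.prime_two.dvd_of_dvd_pow h2)).symm
  · obtain rfl : m = 4 := by omega
    have hp3 : p = 3 := by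
      interval_cases p
      · exact absurd hpp (by norm_num)
      · exact absurd hpp (by norm_num)
      · exact absurd rfl hp
      · rfl
      · exact absurd hpp (by norm_num)
    subst hp3
    have hc12 : Nat.card (alternatingGroup (Fin 4)) = 12 := by
      have : Nat.factorial 4 = 24 := rfl
      omega
    have hcN3 : Nat.card N = 3 := by
      have h1 : Nat.card N ∣ 12 := hc12 ▸ Subgroup.card_subgroup_dvd_card N
      rw [hcN, hk] at h1 ⊢
      have hk1 : k ≤ 1 := by
        by_contra hk2
        have h9 : 3 ^ 2 ∣ 12 := (pow_dvd_pow 3 (by omega)).trans h1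
        norm_num at h9
      have hk0 : k ≠ 0 := by
        rintro rfl
        rw [hk] at hpP
        norm_num at hpP
      obtain rfl : k = 1 := by omega
      rfl
    have hNbot : N ≠ ⊥ := by
      intro h0
      rw [h0, Subgroup.card_bot] at hcN3
      omega
    obtain ⟨x', hx'⟩ := Subgroup.ne_bot_iff_exists_ne_one.mp hNbot
    obtain ⟨x, hxN, hx1⟩ : ∃ x : alternatingGroup (Fin 4), x ∈ N ∧ x ≠ 1 :=
      ⟨x', x'.2, fun h0 => hx' (Subtype.ext h0)⟩
    have hx3 : x ^ 3 = 1 := by
      have h1 : (⟨x, hxN⟩ : N) ^ Nat.card N = 1 := pow_card_eq_one'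
      rw [hcN3] at h1
      exact congrArg Subtype.val h1
    have hxo : orderOf x = 3 := orderOf_eq_prime hx3 hx1
    have hzN : Subgroup.zpowers x = N := by
      apply Subgroup.eq_of_le_of_card_ge
      · rw [Subgroup.zpowers_le]; exact hxN
      · rw [Nat.card_zpowers, hxo, hcN3]
    obtain ⟨g, hg1, hg2, hg3⟩ := a4_aux x hx1 hx3
    have hgN : g * x * g⁻¹ ∈ N := hNn.conj_mem x hxN g
    rw [← hzN, mem_zpowers_iff_mem_range_orderOf, hxo] at hgN
    simp only [Finset.mem_image, Finset.mem_range] at hgN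
    obtain ⟨i, hi, hix⟩ := hgN
    interval_cases i
    · exact hg1 (by rw [← hix, pow_zero])
    · exact hg2 (by rw [← hix, pow_one])
    · exact hg3 hix.symm

end Cfsg.Agent.S3941
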