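import Cfsg.Statements.S3949
import Mathlib

set_option autoImplicit false
open Cfsg

namespace Cfsg.Agent.S3949

/-- Let G be a finite group and α an automorphism of G of order 2 such that the elements g·α(g)⁻¹ generate G. Let j be a positive integer such that 2^j divides the order of no element inverted by α. Then the set of values of the j-th iterate of the map c ↦ c·α(c)⁻¹ is exactly the set of elements of odd order inverted by α. -/
theorem result {G : Type*} [Group G] [Finite G] (α : MulAut G) (hα : orderOf α = 2) (hG : Subgroup.closure (Set.range (fun c : G => c * (α c)⁻¹)) = ⊤)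
    (j : ℕ) (hj : ∀ g : G, α g = g⁻¹ → ¬ 2 ^ j ∣ orderOf g) :
    Set.range ((fun c : G => c * (α c)⁻¹)^[j]) = {g : G | Odd (orderOf g) ∧ α g = g⁻¹} := by
  have hαα : ∀ c : G, α (α c) = c := by
    intro c
    have h2 : α ^ 2 = 1 := by rw [← hα]; exact pow_orderOf_eq_one α
    have : (α ^ 2) c = c := by rw [h2]; rfl
    simpa [sq, MulAut.mul_apply] using this
  have hinvf : ∀ c : G, α (c * (α c)⁻¹) = (c * (α c)⁻¹)⁻¹ := by
    intro c
    simp [map_mul, map_inv, hαα]
  have hiter : ∀ (n : ℕ) (g : G), α g = g⁻¹ → ((fun c : G => c * (α c)⁻¹)^[n]) g = g ^ (2 ^ n) := by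
    intro n
    induction n with
    | zero => intro g _; simp
    | succ n ih =>
      intro g hg
      rw [Function.iterate_succ_apply]
      have h1 : g * (α g)⁻¹ = g ^ 2 := by rw [hg, inv_inv, sq]
      simp only [h1]
      rw [ih (g ^ 2) (by rw [map_pow, hg, inv_pow]), ← pow_mul, pow_succ, mul_comm]
  have hj0 : j ≠ 0 := by
    rintro rfl
    exact hj 1 (by simp) (by simp)
  obtain ⟨k, rfl⟩ := Nat.exists_eq_succ_of_ne_zero hj0
  ext x
  constructor
  · rintro ⟨c, rfl⟩
    rw [Function.iterate_succ_apply]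
    set g := c * (α c)⁻¹ with hgdef
    have hg : α g = g⁻¹ := hinvf c
    have e1 : ((fun c : G => c * (α c)⁻¹)^[k]) g = g ^ (2 ^ k) := hiter k g hg
    change (Odd (orderOf (((fun c : G => c * (α c)⁻¹)^[k]) g)) ∧ α (((fun c : G => c * (α c)⁻¹)^[k]) g) = (((fun c : G => c * (α c)⁻¹)^[k]) g)⁻¹)
    rw [e1]
    refine ⟨?_, by rw [map_pow, hg, inv_pow]⟩
    have hn : orderOf g ≠ 0 := (orderOf_pos g).ne'
    obtain ⟨a, m, hm, hnm⟩ := Nat.exists_eq_two_pow_mul_odd hn
    have ha : a ≤ k := by
      by_contra hlt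
      push_neg at hlt
      apply hj g hg
      rw [hnm]
      exact Dvd.dvd.mul_right (pow_dvd_pow 2 hlt) m
    have : orderOf (g ^ (2 ^ k)) ∣ m := by
      apply orderOf_dvd_of_pow_eq_one
      rw [← pow_mul]
      obtain ⟨d, rfl⟩ := Nat.exists_eq_add_of_le ha
      have : 2 ^ (a + d) * m = orderOf g * 2 ^ d := by rw [hnm, pow_add]; ring
      rw [this, pow_mul, pow_orderOf_eq_one, one_pow]
    exact Odd.of_dvd_nat hm this
  · rintro ⟨hodd, hg⟩
    have hcop : Nat.Coprime (2 ^ (k + 1)) (orderOf x) := by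
      apply Nat.Coprime.pow_left
      exact (Nat.coprime_two_left).mpr hodd
    obtain ⟨m, hm⟩ := exists_pow_eq_self_of_coprime hcop
    refine ⟨x ^ m, ?_⟩
    rw [hiter (k + 1) (x ^ m) (by rw [map_pow, hg, inv_pow]), ← pow_mul, mul_comm, pow_mul]
    exact hm

end Cfsg.Agent.S3949
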