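import Cfsg.Statements.S3982
import Mathlib
-- import your own Cfsg.Agent.* helpers here
import Cfsg.Agent.Lib.Helper27.Invol

set_option autoImplicit false
open Cfsg

namespace Cfsg.Agent.S3982


open scoped Pointwise

theorem mem_normalizer_of_invol {G : Type*} [Group G] (K : Subgroup G) (t : G) (ht : t * t = 1)
    (h : ∀ c ∈ K, t * c * t⁻¹ ∈ K) : t ∈ Subgroup.normalizer (K : Set G) := by
  have htinv : t⁻¹ = t := inv_eq_of_mul_eq_one_left ht
  rw [Subgroup.mem_normalizer_iff]
  intro c
  refine ⟨h c, fun hc => ?_⟩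
  have h1 := h _ hc
  have h2 : t * (t * c * t⁻¹) * t⁻¹ = c := by
    rw [htinv]
    calc t * (t * c * t) * t = (t * t) * c * (t * t) := by group
      _ = c := by rw [ht]; group
  rwa [h2] at h1

theorem normalizes_centralizer {G : Type*} [Group G] (X : Set G) (t : G) (ht : t * t = 1)
    (h : ∀ x ∈ X, t * x * t⁻¹ = x⁻¹) : t ∈ Subgroup.normalizer (Subgroup.centralizer X : Set G) := by
  have htinv : t⁻¹ = t := inv_eq_of_mul_eq_one_left ht
  apply mem_normalizer_of_invol _ t ht
  intro c hc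
  rw [Subgroup.mem_centralizer_iff] at hc ⊢
  intro x hx
  have h1 := h x hx
  have h2 := hc x hx
  have h3 : x = t * x⁻¹ * t⁻¹ := by
    rw [← h1, htinv]
    calc x = (t * t) * x * (t * t) := by rw [ht]; group
      _ = t * (t * x * t) * t := by group
  have h4 : x⁻¹ * c = c * x⁻¹ := by
    calc x⁻¹ * c = x⁻¹ * (c * x) * x⁻¹ := by group
      _ = x⁻¹ * (x * c) * x⁻¹ := by rw [h2]
      _ = c * x⁻¹ := by group
  calc x * (t * c * t⁻¹) = (t * x⁻¹ * t⁻¹) * (t * c * t⁻¹) := by rw [← h3]
    _ = t * (x⁻¹ * c) * t⁻¹ := by group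
    _ = t * (c * x⁻¹) * t⁻¹ := by rw [h4]
    _ = (t * c * t⁻¹) * (t * x⁻¹ * t⁻¹) := by group
    _ = (t * c * t⁻¹) * x := by rw [← h3]

theorem exists_invariant_sylow {G : Type*} [Group G] [Finite G] (p : ℕ) [Fact p.Prime]
    (K : Subgroup G) (hK : Odd (Nat.card K)) (t : G) (ht : t * t = 1)
    (htK : t ∈ Subgroup.normalizer (K : Set G)) :
    ∃ S : Subgroup G, S ≤ K ∧ IsPGroup p S ∧ t ∈ Subgroup.normalizer (S : Set G) ∧
      (∀ R : Subgroup G, R ≤ K → IsPGroup p R → Nat.card R ≤ Nat.card S) := by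
  classical
  set τ : Subgroup.normalizer (K : Set G) := ⟨t, htK⟩ with hτ
  have hττ : τ * τ = 1 := Subtype.ext ht
  have h2 : IsPGroup 2 (Subgroup.zpowers τ) := by
    rintro ⟨g, j, rfl⟩
    refine ⟨1, ?_⟩
    apply Subtype.ext
    show (τ ^ j) ^ 2 ^ 1 = 1
    rw [pow_one, ← zpow_natCast, ← zpow_mul, mul_comm, zpow_mul, zpow_natCast, pow_two, hττ, one_zpow]
  have hodd : ¬ 2 ∣ Nat.card (Sylow p K) := by
    intro h
    have P0 : Sylow p K := default
    have h3 := (h.trans P0.card_dvd_index).trans (Subgroup.index_dvd_card _)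
    rcases hK with ⟨m, hm⟩
    omega
  obtain ⟨S1, hS1⟩ := h2.nonempty_fixed_point_of_prime_not_dvd_card (Sylow p K) hodd
  have hfix : τ • S1 = S1 := hS1 ⟨τ, Subgroup.mem_zpowers τ⟩
  refine ⟨(S1 : Subgroup K).map K.subtype, Subgroup.map_subtype_le _, S1.2.map _, ?_, ?_⟩
  · apply mem_normalizer_of_invol _ t ht
    rintro _ ⟨s, hs, rfl⟩
    have h3 : τ • s ∈ ((τ • S1 : Sylow p K) : Subgroup K) := by
      rw [Sylow.pointwise_smul_def]
      exact Subgroup.smul_mem_pointwise_smul s τ _ hs
    rw [hfix] at h3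
    exact ⟨τ • s, h3, rfl⟩
  · intro R hRK hR
    have hR' : IsPGroup p (R.subgroupOf K) := hR.comap_subtype
    obtain ⟨Q, hQ⟩ := hR'.exists_le_sylow
    have h3 : Nat.card R = Nat.card (R.subgroupOf K) :=
      (Nat.card_congr (Subgroup.subgroupOfEquivOfLe hRK).toEquiv).symm
    have h4 : Nat.card (R.subgroupOf K) ≤ Nat.card (Q : Subgroup K) :=
      Subgroup.card_le_of_le hQ
    have h5 : Nat.card (Q : Subgroup K) = Nat.card (S1 : Subgroup K) := by
      rw [Sylow.card_eq_multiplicity, Sylow.card_eq_multiplicity]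
    have h6 : Nat.card ((S1 : Subgroup K).map K.subtype) = Nat.card (S1 : Subgroup K) :=
      Subgroup.card_map_of_injective K.subtype_injective
    omega


/-- Let p be an odd prime and G a finite group of even order divisible by p in which the centralizer of every non-identity p-element has odd order. If some nontrivial p-subgroup of G has a normalizer of even order, then the normalizer of every Sylow p-subgroup of G has even order. -/
theorem result {G : Type*} [Group G] [Finite G] (p : ℕ) [Fact p.Prime] (hp2 : p ≠ 2) (hpG : p ∣ Nat.card G) (h2G : 2 ∣ Nat.card G) (hC : ∀ g : G, g ≠ 1 → (∃ k : ℕ, orderOf g = p ^ k) → Odd (Nat.card ↥(Subgroup.centralizer ({g} : Set G)))) (Q : Subgroup G) (hQ : IsPGroup p ↥Q) (hQ1 : Q ≠ ⊥) (hev : Even (Nat.card ↥(Subgroup.normalizer (Q : Set G)))) (P : Sylow p G) : Even (Nat.card ↥(Subgroup.normalizer ((P : Subgroup G) : Set G))) := by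
  classical
  have hp : p.Prime := Fact.out
  let E : Subgroup G → Prop := fun R => IsPGroup p R ∧ R ≠ ⊥ ∧
    Even (Nat.card (Subgroup.normalizer (R : Set G)))
  obtain ⟨R, hRE, hRmax⟩ : ∃ R, E R ∧ ∀ R', E R' → Nat.card R' ≤ Nat.card R := by
    obtain ⟨R, hR, hmax⟩ := Set.exists_max_image {R | E R} (fun R => Nat.card R) (Set.toFinite _)
      ⟨Q, hQ, hQ1, hev⟩
    exact ⟨R, hR, hmax⟩
  obtain ⟨hRp, hR1, hRev⟩ := hRE
  obtain ⟨⟨t, htN⟩, hto⟩ := exists_prime_orderOf_dvd_card'
    (G := Subgroup.normalizer (R : Set G)) 2 hRev.two_dvd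
  rw [Subgroup.orderOf_mk] at hto
  have htt : t * t = 1 := by rw [← pow_two, ← hto, pow_orderOf_eq_one]
  have hevenN : ∀ S : Subgroup G, t ∈ Subgroup.normalizer (S : Set G) →
      Even (Nat.card (Subgroup.normalizer (S : Set G))) := by
    intro S hS
    have := orderOf_dvd_natCard (⟨t, hS⟩ : Subgroup.normalizer (S : Set G))
    rw [Subgroup.orderOf_mk, hto] at this
    exact even_iff_two_dvd.2 this
  have hpel : ∀ S : Subgroup G, IsPGroup p S → ∀ k ∈ S, k ≠ 1 →
      Odd (Nat.card (Subgroup.centralizer ({k} : Set G))) := by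
    intro S hS k hk hk1
    obtain ⟨j, hj⟩ := IsPGroup.iff_orderOf.1 hS ⟨k, hk⟩
    rw [Subgroup.orderOf_mk] at hj
    exact hC k hk1 ⟨j, hj⟩
  have hfpf : ∀ k ∈ R, t * k = k * t → k = 1 := by
    intro k hk hcomm
    by_contra hk1
    have hodd := hpel R hRp k hk hk1
    have htC : t ∈ Subgroup.centralizer ({k} : Set G) := by
      rw [Subgroup.mem_centralizer_singleton_iff]; exact hcomm
    have := orderOf_dvd_natCard (⟨t, htC⟩ : Subgroup.centralizer ({k} : Set G))
    rw [Subgroup.orderOf_mk, hto] at this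
    rcases hodd with ⟨m, hm⟩
    omega
  have hinv := Cfsg.Agent.Lib.Helper27.inverts_of_fpf R t htt htN hfpf
  have hRab : ∀ a ∈ R, ∀ b ∈ R, a * b = b * a := by
    intro a ha b hb
    have h1 := hinv (a * b) (R.mul_mem ha hb)
    have h2 : t * (a * b) * t⁻¹ = (t * a * t⁻¹) * (t * b * t⁻¹) := by group
    rw [h2, hinv a ha, hinv b hb, mul_inv_rev] at h1
    have h3 := congrArg (fun x => x⁻¹) h1
    simpa using h3.symm
  obtain ⟨P', hRP'⟩ := hRp.exists_le_sylow
  obtain ⟨k0, hk0R, hk01⟩ := R.bot_or_exists_ne_one.resolve_left hR1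
  haveI : Nontrivial (P' : Subgroup G) :=
    ⟨⟨⟨k0, hRP' hk0R⟩, 1, fun h => hk01 (congrArg Subtype.val h)⟩⟩
  haveI : Nontrivial (Subgroup.center (P' : Subgroup G)) := IsPGroup.center_nontrivial P'.2
  obtain ⟨z, hz1⟩ := exists_ne (1 : Subgroup.center (P' : Subgroup G))
  set z' : G := ((z : (P' : Subgroup G)) : G) with hz'
  have hzP : z' ∈ (P' : Subgroup G) := (z : (P' : Subgroup G)).2
  have hzc : ∀ u ∈ (P' : Subgroup G), u * z' = z' * u := by
    intro u hu
    have := Subgroup.mem_center_iff.1 z.2 ⟨u, hu⟩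
    exact congrArg Subtype.val this
  have hz1' : z' ≠ 1 := by
    intro h
    apply hz1
    apply Subtype.ext
    apply Subtype.ext
    exact h
  -- z lies in R
  have hzR : z' ∈ R := by
    by_contra hzR
    have hKodd : Odd (Nat.card (Subgroup.centralizer (R : Set G))) := by
      have h1 : Subgroup.centralizer (R : Set G) ≤ Subgroup.centralizer ({k0} : Set G) :=
        Subgroup.centralizer_le (by simpa using hk0R)
      exact (hpel R hRp k0 hk0R hk01).of_dvd_nat (Subgroup.card_dvd_of_le h1)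
    obtain ⟨S, hSK, hSp, htS, hSmax⟩ := exists_invariant_sylow p (Subgroup.centralizer (R : Set G))
      hKodd t htt (normalizes_centralizer (R : Set G) t htt hinv)
    have hR3 : R ⊔ Subgroup.zpowers z' ≤ Subgroup.centralizer (R : Set G) := by
      rw [sup_le_iff, Subgroup.zpowers_le]
      constructor
      · intro a ha
        rw [Subgroup.mem_centralizer_iff]
        intro b hb
        exact hRab b hb a ha
      · rw [Subgroup.mem_centralizer_iff]
        intro b hb
        exact hzc b (hRP' hb)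
    have hR3p : IsPGroup p (R ⊔ Subgroup.zpowers z' : Subgroup G) :=
      P'.2.to_le (by rw [sup_le_iff, Subgroup.zpowers_le]; exact ⟨hRP', hzP⟩)
    have h1 := hSmax _ hR3 hR3p
    have h2 : Nat.card R < Nat.card (R ⊔ Subgroup.zpowers z' : Subgroup G) := by
      by_contra hle
      push_neg at hle
      have h := Subgroup.eq_of_le_of_card_ge (le_sup_left : R ≤ R ⊔ Subgroup.zpowers z') hle
      apply hzR
      rw [h]
      exact (le_sup_right : Subgroup.zpowers z' ≤ _) (Subgroup.mem_zpowers z')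
    have hS1 : S ≠ ⊥ := by
      rintro rfl
      rw [Subgroup.card_bot] at h1
      have : 0 < Nat.card R := Nat.card_pos
      omega
    have h3 := hRmax S ⟨hSp, hS1, hevenN S htS⟩
    omega
  have hK'odd := hpel R hRp z' hzR hz1'
  obtain ⟨S, hSK, hSp, htS, hSmax⟩ := exists_invariant_sylow p (Subgroup.centralizer ({z'} : Set G))
    hK'odd t htt (normalizes_centralizer ({z'} : Set G) t htt (by
      intro x hx
      rw [Set.mem_singleton_iff] at hx
      rw [hx]; exact hinv z' hzR))
  have h1 := hSmax (P' : Subgroup G) (by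
    intro u hu
    rw [Subgroup.mem_centralizer_singleton_iff]
    exact hzc u hu) P'.2
  have hS1 : S ≠ ⊥ := by
    rintro rfl
    rw [Subgroup.card_bot] at h1
    have : 1 < Nat.card (P' : Subgroup G) := Finite.one_lt_card
    omega
  have h3 := hRmax S ⟨hSp, hS1, hevenN S htS⟩
  have hRP : R = (P' : Subgroup G) := Subgroup.eq_of_le_of_card_ge hRP' (by omega)
  rw [hRP] at hRev
  have e1 : Nat.card (Sylow p G) = (Subgroup.normalizer ((P : Subgroup G) : Set G)).index :=
    Sylow.card_eq_index_normalizer P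
  have e2 : Nat.card (Sylow p G) = (Subgroup.normalizer ((P' : Subgroup G) : Set G)).index :=
    Sylow.card_eq_index_normalizer P'
  have e3 := (Subgroup.normalizer ((P : Subgroup G) : Set G)).card_mul_index
  have e4 := (Subgroup.normalizer ((P' : Subgroup G) : Set G)).card_mul_index
  rw [← e1] at e3
  rw [← e2] at e4
  have hpos : 0 < Nat.card (Sylow p G) := Nat.card_pos
  have : Nat.card (Subgroup.normalizer ((P : Subgroup G) : Set G)) =
      Nat.card (Subgroup.normalizer ((P' : Subgroup G) : Set G)) :=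
    Nat.eq_of_mul_eq_mul_right hpos (e3.trans e4.symm)
  rw [this]
  exact hRev

end Cfsg.Agent.S3982
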