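import Cfsg.Statements.S3983
import Cfsg.Agent.Lib.Helper16.TI

set_option autoImplicit false
open scoped Pointwise
open Cfsg

namespace Cfsg.Agent.S3983

open Cfsg.Agent.Lib.Helper16


/-- Let P be a Sylow p-subgroup of the finite group G that meets each conjugate g P g⁻¹ with g outside N_G(P) trivially, and let U be a subgroup of G of order divisible by p. Then a Sylow p-subgroup Q of U has the same property inside U: Q meets each conjugate u Q u⁻¹ with u ∈ U outside N_U(Q) trivially. -/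
theorem result {G : Type*} [Group G] [Finite G] (p : ℕ) [Fact p.Prime] (P : Sylow p G) (hTI : ∀ g : G, g ∉ Subgroup.normalizer ((P : Subgroup G) : Set G) → (P : Subgroup G) ⊓ (MulAut.conj g • (P : Subgroup G)) = ⊥) (U : Subgroup G) (hU : p ∣ Nat.card ↥U) (Q : Sylow p ↥U) : ∀ u : ↥U, u ∉ Subgroup.normalizer ((Q : Subgroup ↥U) : Set ↥U) → (Q : Subgroup ↥U) ⊓ (MulAut.conj u • (Q : Subgroup ↥U)) = ⊥ := by
  intro u hu
  obtain ⟨P₁, hP₁⟩ := (Q.2.map U.subtype).exists_le_sylow
  have hQ : (P₁ : Subgroup G).subgroupOf U = (Q : Subgroup ↥U) := by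
    apply Q.3
    · exact P₁.2.comap_of_injective U.subtype U.subtype_injective
    · intro y hy
      exact Subgroup.mem_subgroupOf.2 (hP₁ (Subgroup.mem_map_of_mem _ hy))
  have hne : (u : G) • P₁ ≠ P₁ := by
    intro h
    have h1 := Sylow.smul_eq_iff_mem_normalizer.1 h
    apply hu
    rw [← hQ, Subgroup.mem_normalizer_iff]
    intro y
    rw [Subgroup.mem_subgroupOf, Subgroup.mem_subgroupOf]
    exact (Subgroup.mem_normalizer_iff.1 h1) y
  have h0 := sylow_inf_eq_bot_of_ti p P hTI _ _ hne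
  rw [eq_bot_iff]
  intro x hx
  rw [Subgroup.mem_inf, mem_conj_smul] at hx
  have h1 : (x : G) ∈ (((u : G) • P₁ : Sylow p G) : Subgroup G) ⊓ (P₁ : Subgroup G) := by
    refine Subgroup.mem_inf.2 ⟨?_, hP₁ (Subgroup.mem_map_of_mem _ hx.1)⟩
    rw [Sylow.coe_subgroup_smul, mem_conj_smul]
    exact hP₁ (Subgroup.mem_map_of_mem _ hx.2)
  rw [h0, Subgroup.mem_bot] at h1
  rw [Subgroup.mem_bot]
  exact Subtype.ext h1

end Cfsg.Agent.S3983
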