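import Cfsg.Statements.S3984
import Cfsg.Agent.Lib.Helper16.TI

set_option autoImplicit false
open scoped Pointwise
open Cfsg

namespace Cfsg.Agent.S3984

open Cfsg.Agent.Lib.Helper16


/-- Let P be a Sylow p-subgroup of the finite group G that meets each conjugate g P g⁻¹ with g outside N_G(P) trivially, and let N be a normal subgroup of G of order prime to p. Then every Sylow p-subgroup Q of G ⧸ N meets each conjugate x Q x⁻¹ with x outside its normalizer trivially. -/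
theorem result {G : Type*} [Group G] [Finite G] (p : ℕ) [Fact p.Prime] (P : Sylow p G) (hTI : ∀ g : G, g ∉ Subgroup.normalizer ((P : Subgroup G) : Set G) → (P : Subgroup G) ⊓ (MulAut.conj g • (P : Subgroup G)) = ⊥) (N : Subgroup G) [N.Normal] (hN : (Nat.card ↥N).Coprime p) (Q : Sylow p (G ⧸ N)) : ∀ x : G ⧸ N, x ∉ Subgroup.normalizer ((Q : Subgroup (G ⧸ N)) : Set (G ⧸ N)) → (Q : Subgroup (G ⧸ N)) ⊓ (MulAut.conj x • (Q : Subgroup (G ⧸ N))) = ⊥ := by
  intro x hx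
  have hsurj := QuotientGroup.mk'_surjective N
  obtain ⟨P₁, hP₁⟩ := Sylow.mapSurjective_surjective hsurj p Q
  obtain ⟨P₂, hP₂⟩ := Sylow.mapSurjective_surjective hsurj p (x • Q)
  have hP₁' : (Q : Subgroup (G ⧸ N)) = Subgroup.map (QuotientGroup.mk' N) P₁ := by
    rw [← hP₁, Sylow.coe_mapSurjective]
  have hP₂' : ((x • Q : Sylow p (G ⧸ N)) : Subgroup (G ⧸ N)) =
      Subgroup.map (QuotientGroup.mk' N) P₂ := by
    rw [← hP₂, Sylow.coe_mapSurjective]
  rw [← Sylow.coe_subgroup_smul]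
  by_contra hne
  obtain ⟨y, hy1⟩ := Subgroup.ne_bot_iff_exists_ne_one.1 hne
  obtain ⟨y, hy⟩ := y
  have hy1' : y ≠ 1 := fun h => hy1 (Subtype.ext h)
  rw [Subgroup.mem_inf] at hy
  obtain ⟨hyQ, hyx⟩ := hy
  rw [hP₁'] at hyQ
  obtain ⟨a, ha, rfl⟩ := hyQ
  set K : Subgroup G := Subgroup.comap (QuotientGroup.mk' N)
    ((x • Q : Sylow p (G ⧸ N)) : Subgroup (G ⧸ N)) with hK
  have haK : a ∈ K := hyx
  have hP₂K : (P₂ : Subgroup G) ≤ K := by
    intro c hc
    rw [hK, Subgroup.mem_comap, hP₂']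
    exact Subgroup.mem_map_of_mem _ hc
  have hpa : IsPGroup p ↥((Subgroup.zpowers a).subgroupOf K) := by
    apply IsPGroup.comap_of_injective _ K.subtype K.subtype_injective
    exact P₁.2.to_le (by rw [Subgroup.zpowers_le]; exact ha)
  obtain ⟨R, hR⟩ := hpa.exists_le_sylow
  obtain ⟨k, hk⟩ := MulAction.exists_smul_eq ↥K (P₂.subtype hP₂K) R
  have h1 : (⟨a, haK⟩ : ↥K) ∈ (R : Subgroup ↥K) :=
    hR (Subgroup.mem_subgroupOf.2 (Subgroup.mem_zpowers a))
  rw [← hk, Sylow.coe_subgroup_smul, mem_conj_smul, Sylow.coe_subtype,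
    Subgroup.mem_subgroupOf] at h1
  have h2 : P₁ = (k : G) • P₂ := by
    by_contra hne2
    have h3 := sylow_inf_eq_bot_of_ti p P hTI _ _ hne2
    have h4 : a ∈ (P₁ : Subgroup G) ⊓ (((k : G) • P₂ : Sylow p G) : Subgroup G) := by
      refine Subgroup.mem_inf.2 ⟨ha, ?_⟩
      rw [Sylow.coe_subgroup_smul, mem_conj_smul]
      exact h1
    rw [h3, Subgroup.mem_bot] at h4
    apply hy1'
    rw [h4]; simp
  have hle : (Q : Subgroup (G ⧸ N)) ≤ ((x • Q : Sylow p (G ⧸ N)) : Subgroup (G ⧸ N)) := by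
    intro z hz
    rw [hP₁'] at hz
    obtain ⟨c, hc, rfl⟩ := hz
    have hc' : c ∈ (((k : G) • P₂ : Sylow p G) : Subgroup G) := h2 ▸ hc
    rw [Sylow.coe_subgroup_smul, mem_conj_smul] at hc'
    have h5 : (QuotientGroup.mk' N) ((k : G)⁻¹ * c * k) ∈
        ((x • Q : Sylow p (G ⧸ N)) : Subgroup (G ⧸ N)) := by
      rw [hP₂']; exact Subgroup.mem_map_of_mem _ hc'
    have h6 : (QuotientGroup.mk' N) (k : G) ∈
        ((x • Q : Sylow p (G ⧸ N)) : Subgroup (G ⧸ N)) := k.2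
    have h7 := Subgroup.mul_mem _ (Subgroup.mul_mem _ h6 h5) (Subgroup.inv_mem _ h6)
    rw [← map_mul, ← map_inv, ← map_mul] at h7
    have h8 : (k : G) * ((k : G)⁻¹ * c * k) * (k : G)⁻¹ = c := by group
    rwa [h8] at h7
  have heq := Q.3 (x • Q).2 hle
  exact hx (Sylow.smul_eq_iff_mem_normalizer.1 (Sylow.ext heq))

end Cfsg.Agent.S3984
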