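import Cfsg.Statements.S3985
import Cfsg.Agent.Lib.Helper16.TI
import Cfsg.Agent.Lib.Helper16.Comm
import Cfsg.Agent.H24.Cyclic
import Cfsg.Agent.H1.CoprimeAb

set_option autoImplicit false
open scoped Pointwise
open Cfsg

namespace Cfsg.Agent.S3985

open Cfsg.Agent.Lib.Helper16


/-- Let P be a cyclic Sylow p-subgroup of the finite group G. Then P meets each conjugate g P g⁻¹ with g outside N_G(P) trivially if and only if P is weakly self-centralizing: C_G(x) = C_G(P) for every non-identity x ∈ P. -/
theorem result {G : Type*} [Group G] [Finite G] (p : ℕ) [Fact p.Prime] (P : Sylow p G) (hcyc : IsCyclic ↥(P : Subgroup G)) : (∀ g : G, g ∉ Subgroup.normalizer ((P : Subgroup G) : Set G) → (P : Subgroup G) ⊓ (MulAut.conj g • (P : Subgroup G)) = ⊥) ↔ ∀ x : G, x ∈ (P : Subgroup G) → x ≠ 1 → Subgroup.centralizer ({x} : Set G) = Subgroup.centralizer ((P : Subgroup G) : Set G) := by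
  have hp : p.Prime := Fact.out
  have hcomm : ∀ a ∈ (P : Subgroup G), ∀ b ∈ (P : Subgroup G), a * b = b * a := by
    intro a ha b hb
    have := IsMulCommutative.is_comm.comm (⟨a, ha⟩ : ↥(P : Subgroup G)) ⟨b, hb⟩
    exact congrArg Subtype.val this
  have hPC : (P : Subgroup G) ≤ Subgroup.centralizer ((P : Subgroup G) : Set G) := by
    intro a ha
    rw [Subgroup.mem_centralizer_iff]
    intro b hb
    exact hcomm b hb a ha
  constructor
  · intro hTI x hx hx1
    apply le_antisymm
    · intro c hc
      have hcx : Commute c x := by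
        rw [Subgroup.mem_centralizer_singleton_iff] at hc
        exact hc
      have hcN : c ∈ Subgroup.normalizer ((P : Subgroup G) : Set G) := by
        by_contra hn
        have h0 := hTI c hn
        have h1 : x ∈ (P : Subgroup G) ⊓ (MulAut.conj c • (P : Subgroup G)) := by
          refine Subgroup.mem_inf.2 ⟨hx, mem_conj_smul.2 ?_⟩
          have : c⁻¹ * x * c = x := by rw [mul_assoc, ← hcx.eq, inv_mul_cancel_left]
          rw [this]; exact hx
        rw [h0, Subgroup.mem_bot] at h1
        exact hx1 h1
      obtain ⟨k, hk⟩ := exists_pow_coprime (p := p) c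
      obtain ⟨n, hn⟩ := IsPGroup.iff_card.1 P.2
      have hd : c ^ (p ^ k) ∈ Subgroup.centralizer ((P : Subgroup G) : Set G) := by
        have h1 := Cfsg.H1.coprime_abelian_trivial_of_omega (Subgroup.zpowers (c ^ (p ^ k)))
          (P : Subgroup G) (by rw [Subgroup.zpowers_le]; exact Subgroup.pow_mem _ hcN _)
          (by rw [Nat.card_zpowers, hn]; exact Nat.Coprime.pow_right _ hk) ?_
        · exact h1 (Subgroup.mem_zpowers _)
        · intro v hv hvp a ha
          have hvo : orderOf v = p := by
            have h2 : orderOf v ∣ p ^ n := by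
              rw [← hn]
              have := orderOf_dvd_natCard (⟨v, hv⟩ : ↥(P : Subgroup G))
              rwa [Subgroup.orderOf_mk] at this
            exact (Nat.prime_dvd_prime_iff_eq hvp hp).1 (hvp.dvd_of_dvd_pow h2)
          have hxd : p ∣ Nat.card (Subgroup.zpowers x) := by
            rw [Nat.card_zpowers]
            have h2 : orderOf x ∣ p ^ n := by
              rw [← hn]
              have := orderOf_dvd_natCard (⟨x, hx⟩ : ↥(P : Subgroup G))
              rwa [Subgroup.orderOf_mk] at this
            obtain ⟨j, -, hj⟩ := (Nat.dvd_prime_pow hp).1 h2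
            rw [hj]
            cases j with
            | zero => rw [pow_zero, orderOf_eq_one_iff] at hj; exact absurd hj hx1
            | succ j => exact dvd_pow_self _ (Nat.succ_ne_zero j)
          obtain ⟨w, hw⟩ := exists_prime_orderOf_dvd_card' p hxd
          have hw' : orderOf (w : G) = p := by rw [Subgroup.orderOf_coe]; exact hw
          have hxP : Subgroup.zpowers x ≤ (P : Subgroup G) := by
            rw [Subgroup.zpowers_le]; exact hx
          have h3 : Subgroup.zpowers v = Subgroup.zpowers (w : G) :=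
            Cfsg.Agent.H24.cyclic_subgroup_eq_of_card_eq' (P : Subgroup G) _ _
              (by rw [Subgroup.zpowers_le]; exact hv)
              (by rw [Subgroup.zpowers_le]; exact hxP w.2)
              (by rw [Nat.card_zpowers, Nat.card_zpowers, hvo, hw'])
          have h4 : v ∈ Subgroup.zpowers x := by
            have h5 : v ∈ Subgroup.zpowers (w : G) := h3 ▸ Subgroup.mem_zpowers v
            have h6 : Subgroup.zpowers (w : G) ≤ Subgroup.zpowers x := by
              rw [Subgroup.zpowers_le]; exact w.2
            exact h6 h5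
          obtain ⟨i, rfl⟩ := Subgroup.mem_zpowers_iff.1 h4
          obtain ⟨j, rfl⟩ := Subgroup.mem_zpowers_iff.1 ha
          exact (((hcx.pow_left _).zpow_zpow j i)).eq
      set m := orderOf (c ^ (p ^ k)) with hm
      have hcm : c ^ m ∈ (P : Subgroup G) := by
        have h1 : orderOf (c ^ m) ∣ p ^ k := by
          apply orderOf_dvd_of_pow_eq_one
          rw [← pow_mul, mul_comm, pow_mul, hm, pow_orderOf_eq_one]
        obtain ⟨j, -, hj⟩ := (Nat.dvd_prime_pow hp).1 h1
        have hR : IsPGroup p ↥(Subgroup.zpowers (c ^ m)) :=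
          IsPGroup.of_card (n := j) (by rw [Nat.card_zpowers, hj])
        have h2 : Subgroup.zpowers (c ^ m) ⊓ Subgroup.normalizer ((P : Subgroup G) : Set G) =
            Subgroup.zpowers (c ^ m) ⊓ (P : Subgroup G) := IsPGroup.inf_normalizer_sylow hR P
        have h3 : c ^ m ∈ Subgroup.zpowers (c ^ m) ⊓
            Subgroup.normalizer ((P : Subgroup G) : Set G) :=
          Subgroup.mem_inf.2 ⟨Subgroup.mem_zpowers _, Subgroup.pow_mem _ hcN _⟩
        rw [h2] at h3
        exact (Subgroup.mem_inf.1 h3).2
      have hcop : Nat.Coprime m (p ^ k) := Nat.Coprime.pow_right _ hk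
      have hb := Nat.gcd_eq_gcd_ab m (p ^ k)
      rw [hcop.gcd_eq_one] at hb
      have h7 : c = (c ^ m) ^ (Nat.gcdA m (p ^ k)) * (c ^ (p ^ k)) ^ (Nat.gcdB m (p ^ k)) := by
        rw [← zpow_natCast, ← zpow_natCast, ← zpow_mul, ← zpow_mul, ← zpow_add, ← hb]
        simp
      rw [h7]
      exact Subgroup.mul_mem _ (Subgroup.zpow_mem _ (hPC hcm) _) (Subgroup.zpow_mem _ hd _)
    · apply Subgroup.centralizer_le
      intro y hy
      rw [Set.mem_singleton_iff] at hy
      rw [hy]; exact hx
  · intro hC g hg
    by_contra hne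
    obtain ⟨y, hy1⟩ := Subgroup.ne_bot_iff_exists_ne_one.1 hne
    obtain ⟨x, hx⟩ := y
    have hx1 : x ≠ 1 := fun h => hy1 (Subtype.ext h)
    rw [Subgroup.mem_inf, mem_conj_smul] at hx
    have hle : ((g • P : Sylow p G) : Subgroup G) ≤
        Subgroup.normalizer ((P : Subgroup G) : Set G) := by
      intro z hz
      rw [Sylow.coe_subgroup_smul, mem_conj_smul] at hz
      have h1 : z ∈ Subgroup.centralizer ({x} : Set G) := by
        rw [Subgroup.mem_centralizer_singleton_iff]
        have h2 := hcomm _ hz _ hx.2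
        have h3 : g * ((g⁻¹ * z * g) * (g⁻¹ * x * g)) * g⁻¹ = z * x := by group
        have h4 : g * ((g⁻¹ * x * g) * (g⁻¹ * z * g)) * g⁻¹ = x * z := by group
        rw [← h3, ← h4, h2]
      rw [hC x hx.1 hx1] at h1
      exact Subgroup.centralizer_le_normalizer _ h1
    have h2 : ((g • P : Sylow p G) : Subgroup G) ⊓ Subgroup.normalizer ((P : Subgroup G) : Set G) =
        ((g • P : Sylow p G) : Subgroup G) ⊓ (P : Subgroup G) :=
      IsPGroup.inf_normalizer_sylow (g • P).2 P
    rw [inf_eq_left.2 hle] at h2
    have h3 : ((g • P : Sylow p G) : Subgroup G) ≤ (P : Subgroup G) := by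
      rw [h2]; exact inf_le_right
    have h4 := (g • P).3 P.2 h3
    exact hg (Sylow.smul_eq_iff_mem_normalizer.1 (Sylow.ext h4.symm))

end Cfsg.Agent.S3985
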