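import Cfsg.Statements.S3986
import Mathlib
import Cfsg.Agent.Lib.Helper21.DirectFactor

set_option autoImplicit false
open Cfsg

namespace Cfsg.Agent.S3986

/-- Let p be a prime and G a finite group. Then some Sylow p-subgroup of G is a direct factor of G (it is normal and has a normal complement) if and only if every element of p-power order commutes with every element whose order is a power of a prime other than p. -/
theorem result {G : Type*} [Group G] [Finite G] (p : ℕ) [Fact p.Prime] : (∃ (P : Sylow p G) (K : Subgroup G), (P : Subgroup G).Normal ∧ K.Normal ∧ (P : Subgroup G) ⊓ K = ⊥ ∧ (P : Subgroup G) ⊔ K = ⊤) ↔ ∀ x y : G, (∃ a : ℕ, orderOf x = p ^ a) → (∃ q b : ℕ, q.Prime ∧ q ≠ p ∧ orderOf y = q ^ b) → x * y = y * x := by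
  have hp : p.Prime := Fact.out
  constructor
  · rintro ⟨P, K, hPn, hKn, hinf, hsup⟩ x y ⟨a, ha⟩ ⟨q, b, hq, hqp, hb⟩
    have hx : x ∈ (P : Subgroup G) := Cfsg.Agent.Lib.Helper21.mem_sylow_of_normal P hPn ha
    have hy : y ∈ K := by
      apply Cfsg.Agent.Lib.Helper21.mem_complement_of_coprime p P K hsup
      rw [hb]
      exact Nat.Coprime.pow_left b ((Nat.coprime_primes hq hp).mpr hqp)
    exact (Subgroup.commute_of_normal_of_disjoint _ _ hPn hKn (disjoint_iff.mpr hinf) x y hx hy).eq
  · intro h
    obtain ⟨P⟩ : Nonempty (Sylow p G) := inferInstance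
    obtain ⟨hPn, K, hKn, _, hinf, hsup⟩ := Cfsg.Agent.Lib.Helper21.direct_factor_of_commute p h P
    exact ⟨P, K, hPn, hKn, hinf, hsup⟩

end Cfsg.Agent.S3986
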