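import Cfsg.Statements.S3987
import Mathlib
import Cfsg.Agent.Lib.Helper21.DirectFactor
import Cfsg.Agent.Lib.Helper21.ClassSize

set_option autoImplicit false
open Cfsg

namespace Cfsg.Agent.S3987

/-- Let p be a prime and G a finite group. Then some Sylow p-subgroup of G is a direct factor of G (normal with a normal complement) if and only if for every element x of p-power order and every element y whose order is a power of a prime other than p, the conjugacy class of x y has as many elements as the product of the sizes of the classes of x and of y. -/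
theorem result {G : Type*} [Group G] [Finite G] (p : ℕ) [Fact p.Prime] : (∃ (P : Sylow p G) (K : Subgroup G), (P : Subgroup G).Normal ∧ K.Normal ∧ (P : Subgroup G) ⊓ K = ⊥ ∧ (P : Subgroup G) ⊔ K = ⊤) ↔ ∀ x y : G, (∃ a : ℕ, orderOf x = p ^ a) → (∃ q b : ℕ, q.Prime ∧ q ≠ p ∧ orderOf y = q ^ b) → (Subgroup.centralizer ({x * y} : Set G)).index = (Subgroup.centralizer ({x} : Set G)).index * (Subgroup.centralizer ({y} : Set G)).index := by
  have hp : p.Prime := Fact.out
  constructor
  · rintro ⟨P, K, hPn, hKn, hinf, hsup⟩ x y ⟨a, ha⟩ ⟨q, b, hq, hqp, hb⟩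
    have hx : x ∈ (P : Subgroup G) := Cfsg.Agent.Lib.Helper21.mem_sylow_of_normal P hPn ha
    have hpq : Nat.Coprime q p := (Nat.coprime_primes hq hp).mpr hqp
    have hy : y ∈ K := by
      apply Cfsg.Agent.Lib.Helper21.mem_complement_of_coprime p P K hsup
      rw [hb]
      exact Nat.Coprime.pow_left b hpq
    have hcomm : ∀ u ∈ (P : Subgroup G), ∀ v ∈ K, Commute u v := fun u hu v hv =>
      Subgroup.commute_of_normal_of_disjoint _ _ hPn hKn (disjoint_iff.mpr hinf) u v hu hv
    have hxy : Commute x y := hcomm x hx y hy
    have hC : Subgroup.centralizer ({x * y} : Set G) =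
        Subgroup.centralizer ({x} : Set G) ⊓ Subgroup.centralizer ({y} : Set G) := by
      ext g
      simp only [Subgroup.mem_inf, Subgroup.mem_centralizer_iff, Set.mem_singleton_iff, forall_eq]
      constructor
      · intro hg
        have hg' : Commute (x * y) g := hg
        constructor
        · obtain ⟨m, hm⟩ := exists_pow_eq_self_of_coprime (x := x) (n := q ^ b)
            (by rw [ha]; exact Nat.Coprime.pow _ _ hpq)
          have h1 : (x * y) ^ (q ^ b) = x ^ (q ^ b) := by
            rw [hxy.mul_pow, ← hb, pow_orderOf_eq_one, mul_one]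
          have h2 : Commute (((x * y) ^ (q ^ b)) ^ m) g := (hg'.pow_left _).pow_left _
          rw [h1, hm] at h2
          exact h2
        · obtain ⟨m, hm⟩ := exists_pow_eq_self_of_coprime (x := y) (n := p ^ a)
            (by rw [hb]; exact Nat.Coprime.pow _ _ hpq.symm)
          have h1 : (x * y) ^ (p ^ a) = y ^ (p ^ a) := by
            rw [hxy.mul_pow, ← ha, pow_orderOf_eq_one, one_mul]
          have h2 : Commute (((x * y) ^ (p ^ a)) ^ m) g := (hg'.pow_left _).pow_left _
          rw [h1, hm] at h2
          exact h2
      · rintro ⟨h1, h2⟩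
        have h1' : Commute x g := h1
        have h2' : Commute y g := h2
        exact (h1'.mul_left h2').eq
    rw [hC]
    apply Cfsg.Agent.Lib.Helper21.index_inf_of_coprime
    have hcompl : Subgroup.IsComplement' (P : Subgroup G) K := by
      apply Subgroup.isComplement'_of_disjoint_and_mul_eq_univ (disjoint_iff.mpr hinf)
      rw [← Subgroup.mul_normal, hsup]; rfl
    have hK1 : K ≤ Subgroup.centralizer ({x} : Set G) := by
      intro k hk
      simp only [Subgroup.mem_centralizer_iff, Set.mem_singleton_iff, forall_eq]
      exact (hcomm x hx k hk).eq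
    have hP1 : (P : Subgroup G) ≤ Subgroup.centralizer ({y} : Set G) := by
      intro u hu
      simp only [Subgroup.mem_centralizer_iff, Set.mem_singleton_iff, forall_eq]
      exact (hcomm u hu y hy).eq.symm
    have d1 : (Subgroup.centralizer ({x} : Set G)).index ∣ Nat.card (P : Subgroup G) := by
      rw [← hcompl.index_eq_card]
      exact Subgroup.index_dvd_of_le hK1
    have d2 : (Subgroup.centralizer ({y} : Set G)).index ∣ (P : Subgroup G).index :=
      Subgroup.index_dvd_of_le hP1
    obtain ⟨n, hn⟩ := IsPGroup.iff_card.mp P.isPGroup'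
    rw [hn] at d1
    have hc : Nat.Coprime (p ^ n) (P : Subgroup G).index :=
      Nat.Coprime.pow_left n ((Nat.Prime.coprime_iff_not_dvd hp).mpr P.not_dvd_index)
    exact Nat.Coprime.coprime_dvd_left d1 (Nat.Coprime.coprime_dvd_right d2 hc)
  · intro h
    obtain ⟨P⟩ : Nonempty (Sylow p G) := inferInstance
    obtain ⟨hPn, K, hKn, _, hinf, hsup⟩ := Cfsg.Agent.Lib.Helper21.direct_factor_of_commute p
      (fun x y hx hy => Cfsg.Agent.Lib.Helper21.commute_of_index_mul x y (h x y hx hy)) P
    exact ⟨P, K, hPn, hKn, hinf, hsup⟩

end Cfsg.Agent.S3987
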