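import Cfsg.Statements.S4013
import Mathlib

set_option autoImplicit false
open Cfsg

namespace Cfsg.Agent.S4013

/-- Let G be a finite p-group (p prime) and N < M normal subgroups of G such that for some g ∈ M ∖ N the conjugacy class of g is exactly M ∖ N. Then p = 2 and N has index 2 in M. -/
theorem result {G : Type*} [Group G] [Finite G] (p : ℕ) [Fact p.Prime] (hG : IsPGroup p G) (N M : Subgroup G) [N.Normal] [M.Normal] (hNM : N < M) (g : G) (hgM : g ∈ M) (hgN : g ∉ N) (hcl : {h : G | IsConj g h} = (M : Set G) \ (N : Set G)) : p = 2 ∧ N.relIndex M = 2 := by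
  have hp : p.Prime := Fact.out
  -- class size is a power of p
  have hGc : IsPGroup p (ConjAct G) := hG.of_equiv ConjAct.toConjAct
  obtain ⟨a, ha⟩ := hGc.card_orbit (α := G) g
  have horb : (MulAction.orbit (ConjAct G) g : Set G) = (M : Set G) \ (N : Set G) := by
    rw [← hcl]
    ext h
    rw [ConjAct.mem_orbit_conjAct, Set.mem_setOf_eq]
    exact isConj_comm
  have hcard1 : Nat.card (MulAction.orbit (ConjAct G) g) = Nat.card M - Nat.card N := by
    rw [Nat.card_coe_set_eq, horb, Set.ncard_sdiff (show (N : Set G) ⊆ M from hNM.le)]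
    rfl
  have hmul : Nat.card N * N.relIndex M = Nat.card M := by
    have := Subgroup.relIndex_mul_relIndex ⊥ N M bot_le hNM.le
    simpa [Subgroup.relIndex_bot_left] using this
  obtain ⟨k, hk⟩ := (hG.to_subgroup M).index (N.subgroupOf M)
  have hk' : N.relIndex M = p ^ k := hk
  have hr1 : N.relIndex M ≠ 1 := by
    rw [Ne, Subgroup.relIndex_eq_one]
    exact not_le_of_gt hNM
  have hk0 : k ≠ 0 := by
    rintro rfl
    exact hr1 (by simpa using hk')
  have hdvd : (p ^ k - 1) ∣ p ^ a := by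
    rw [← ha, hcard1, ← hmul, hk']
    refine ⟨Nat.card N, ?_⟩
    rw [Nat.sub_mul, one_mul, mul_comm]
  obtain ⟨b, _, hb⟩ := (Nat.dvd_prime_pow hp).mp hdvd
  have hpos : 1 ≤ p ^ k := Nat.one_le_pow _ _ hp.pos
  have hb0 : b = 0 := by
    by_contra hb0
    have h1 : p ∣ p ^ k - 1 := by rw [hb]; exact dvd_pow_self p hb0
    have h2 : p ∣ p ^ k := dvd_pow_self p hk0
    have h3 : p ∣ 1 := by
      have := (Nat.dvd_sub h2 h1)
      rwa [Nat.sub_sub_self hpos] at this
    exact hp.one_lt.ne' (Nat.dvd_one.mp h3)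
  subst hb0
  have h2 : p ^ k = 2 := by
    simp at hb; omega
  have hp2 : p = 2 := by
    have : p ∣ 2 := by rw [← h2]; exact dvd_pow_self p hk0
    exact (Nat.prime_dvd_prime_iff_eq hp Nat.prime_two).mp this
  exact ⟨hp2, by rw [hk', h2]⟩

end Cfsg.Agent.S4013
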