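import Mathlib
import Cfsg.Statements.S4024
import Cfsg.Agent.H9.EqOrd

set_option autoImplicit false
open Cfsg
open scoped commutatorElement

namespace Cfsg.Agent.S4024

/-- Let p be an odd prime and G a finite group in which any two p-subgroups of the same order are conjugate, with Sylow p-subgroup P. If H is a normal p-solvable subgroup of G whose order is divisible by p, then P is abelian, and either P ≤ H or P is cyclic. -/
theorem result {G : Type*} [Group G] [Finite G]
    {p : ℕ} [Fact p.Prime] (hp : p ≠ 2) (hC : ∀ H K : Subgroup G, IsPGroup p H → IsPGroup p K → Nat.card H = Nat.card K →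
      ∃ g : G, K = H.map (MulAut.conj g).toMonoidHom) (P : Sylow p G)
    (H : Subgroup G) [H.Normal] (hsolv : Cfsg.IsPSolvable p H) (hdiv : p ∣ Nat.card H) :
    IsMulCommutative P ∧ ((P : Subgroup G) ≤ H ∨ IsCyclic P) := by
  obtain ⟨K, Q, hKn, hQn, hKQ, hQH, hKc, hrel, hne⟩ := Cfsg.H9.EqOrd.exists_normal_pair H hsolv hdiv
  obtain ⟨h1, h2⟩ := Cfsg.H9.EqOrd.main hp hC P K Q hKQ hKc hrel hne
  exact ⟨h1, h2.imp (fun h => h.trans hQH) id⟩

end Cfsg.Agent.S4024
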