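import Cfsg.Statements.S4028
import Cfsg.Agent.Lib.Helper16.TI
import Cfsg.Agent.Lib.Helper16.TI2
import Cfsg.Agent.Lib.Helper16.HSub

set_option autoImplicit false
open Cfsg

namespace Cfsg.Agent.S4028

open Cfsg.Agent.Lib.Helper16


/-- Let G be a finite group with Sylow 2-subgroup P. Then N_G(⟨x⟩) = C_G(x) holds for every 2-element x of G if and only if N_P(⟨y⟩) = C_P(y) holds for every y ∈ P (computed inside P). -/
theorem result {G : Type*} [Group G] [Finite G] (P : Sylow 2 G) :
    (∀ x : G, (∀ r : ℕ, r.Prime → r ∣ orderOf x → r = 2) →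
      Subgroup.normalizer ((Subgroup.zpowers x : Subgroup G) : Set G) ≤ Subgroup.centralizer {x}) ↔
    (∀ y : ↥(P : Subgroup G), Subgroup.normalizer ((Subgroup.zpowers y : Subgroup ↥(P : Subgroup G)) : Set ↥(P : Subgroup G)) ≤
        Subgroup.centralizer {y}) := by
  constructor
  · intro h y u hu
    have hy2 : ∀ r : ℕ, r.Prime → r ∣ orderOf (y : G) → r = 2 := by
      intro r hr hrd
      obtain ⟨n, hn⟩ := IsPGroup.iff_card.1 P.2
      have h2 : orderOf (y : G) ∣ 2 ^ n := by
        rw [← hn, Subgroup.orderOf_coe]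
        exact orderOf_dvd_natCard y
      exact (Nat.prime_dvd_prime_iff_eq hr Nat.prime_two).1 (hr.dvd_of_dvd_pow (hrd.trans h2))
    have h1 := h (y : G) hy2
    have hu' : (u : G) ∈ Subgroup.normalizer ((Subgroup.zpowers (y : G) : Subgroup G) : Set G) := by
      rw [mem_normalizer_zpowers_iff] at hu ⊢
      obtain ⟨i, hi⟩ := Subgroup.mem_zpowers_iff.1 hu
      exact Subgroup.mem_zpowers_iff.2 ⟨i, by have := congrArg Subtype.val hi; simpa using this⟩
    have h2 := h1 hu'
    rw [Subgroup.mem_centralizer_singleton_iff] at h2 ⊢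
    exact Subtype.ext h2
  · intro h x hx g hg
    have hxo : orderOf x = 2 ^ (orderOf x).primeFactorsList.length :=
      Nat.eq_prime_pow_of_unique_prime_dvd (orderOf_pos x).ne' (fun {d} hd hdd => hx d hd hdd)
    have hX : IsPGroup 2 ↥(Subgroup.zpowers x) :=
      IsPGroup.of_card (n := (orderOf x).primeFactorsList.length) (by rw [Nat.card_zpowers]; exact hxo)
    obtain ⟨k, hk⟩ := exists_pow_coprime (p := 2) g
    have hd : g ^ (2 ^ k) ∈ Subgroup.centralizer ({x} : Set G) := by
      have h1 := mem_centralizer_of_isCyclic (p := 2) hX inferInstance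
        (Subgroup.pow_mem _ hg (2 ^ k)) (by
          intro q hq hqd
          refine lt_of_le_of_ne hq.two_le ?_
          rintro rfl
          have := Nat.eq_one_of_dvd_coprimes hk hqd dvd_rfl
          omega)
      exact Subgroup.centralizer_le (by
        intro a ha
        rw [Set.mem_singleton_iff] at ha
        rw [ha]; exact Subgroup.mem_zpowers x) h1
    set m := orderOf (g ^ (2 ^ k)) with hm
    have he : g ^ m ∈ Subgroup.centralizer ({x} : Set G) := by
      have h1 : orderOf (g ^ m) ∣ 2 ^ k := by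
        apply orderOf_dvd_of_pow_eq_one
        rw [← pow_mul, mul_comm, pow_mul, hm, pow_orderOf_eq_one]
      obtain ⟨j, -, hj⟩ := (Nat.dvd_prime_pow Nat.prime_two).1 h1
      have hE : IsPGroup 2 ↥(Subgroup.zpowers (g ^ m)) :=
        IsPGroup.of_card (n := j) (by rw [Nat.card_zpowers, hj])
      have hT := IsPGroup.to_sup_of_normal_left' hX hE (by
        rw [Subgroup.zpowers_le]; exact Subgroup.pow_mem _ hg m)
      obtain ⟨P', hP'⟩ := hT.exists_le_sylow
      obtain ⟨h0, rfl⟩ := MulAction.exists_smul_eq G P P'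
      have hxP : x ∈ ((h0 • P : Sylow 2 G) : Subgroup G) :=
        hP' ((le_sup_left : Subgroup.zpowers x ≤ _) (Subgroup.mem_zpowers x))
      have heP : g ^ m ∈ ((h0 • P : Sylow 2 G) : Subgroup G) :=
        hP' ((le_sup_right : Subgroup.zpowers (g ^ m) ≤ _) (Subgroup.mem_zpowers _))
      rw [Sylow.coe_subgroup_smul, mem_conj_smul] at hxP heP
      have hu : (⟨h0⁻¹ * g ^ m * h0, heP⟩ : ↥(P : Subgroup G)) ∈ Subgroup.normalizer
          ((Subgroup.zpowers (⟨h0⁻¹ * x * h0, hxP⟩ : ↥(P : Subgroup G)) :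
            Subgroup ↥(P : Subgroup G)) : Set ↥(P : Subgroup G)) := by
        rw [mem_normalizer_zpowers_iff]
        have h2 := mem_normalizer_zpowers_iff.1 (Subgroup.pow_mem _ hg m)
        obtain ⟨i, hi⟩ := Subgroup.mem_zpowers_iff.1 h2
        refine Subgroup.mem_zpowers_iff.2 ⟨i, Subtype.ext ?_⟩
        have h3 : (h0⁻¹ * x * h0) ^ i = h0⁻¹ * x ^ i * h0 := by
          have := conj_zpow (a := h0⁻¹) (b := x) (i := i)
          rw [inv_inv] at this
          exact this
        simp only [Subgroup.coe_zpow, Subgroup.coe_mul, Subgroup.coe_inv]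
        rw [h3, hi]
        group
      have h4 := h _ hu
      rw [Subgroup.mem_centralizer_singleton_iff] at h4 ⊢
      have h5 : (h0⁻¹ * g ^ m * h0) * (h0⁻¹ * x * h0) = (h0⁻¹ * x * h0) * (h0⁻¹ * g ^ m * h0) :=
        congrArg Subtype.val h4
      have h6 : g ^ m * x = h0 * ((h0⁻¹ * g ^ m * h0) * (h0⁻¹ * x * h0)) * h0⁻¹ := by group
      have h7 : x * g ^ m = h0 * ((h0⁻¹ * x * h0) * (h0⁻¹ * g ^ m * h0)) * h0⁻¹ := by group
      rw [h6, h7, h5]
    exact mem_of_pow_mem_of_pow_mem (Nat.Coprime.pow_right k hk) he hd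

end Cfsg.Agent.S4028
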