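import Cfsg.Statements.S4029
import Mathlib
import Cfsg.Agent.Lib.Helper21.TwistOrbits
import Cfsg.Agent.S0160

set_option autoImplicit false
open Cfsg

namespace Cfsg.Agent.S4029

/-- Let P be a finite 2-group in which N_P(⟨y⟩) = C_P(y) for every y ∈ P. If s is the number of conjugacy classes of involutions of P, then #(P/Φ(P)) ≤ s + 1; in particular the subgroup generated by the involutions of P has order at least #(P/Φ(P)). -/
theorem result {P : Type*} [Group P] [Finite P] (hP : IsPGroup 2 P)
    (hirr : ∀ y : P, Subgroup.normalizer ((Subgroup.zpowers y : Subgroup P) : Set P) ≤ Subgroup.centralizer {y}) :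
    Nat.card (P ⧸ frattini P) ≤ Nat.card {c : ConjClasses P // ∃ y : P, ConjClasses.mk y = c ∧ orderOf y = 2} + 1 ∧
    Nat.card (P ⧸ frattini P) ≤ Nat.card (Subgroup.closure {y : P | orderOf y = 2}) := by
  classical
  haveI : Fact (Nat.Prime 2) := ⟨Nat.prime_two⟩
  haveI := Fintype.ofFinite P
  obtain ⟨h1, h2⟩ := Cfsg.H1.frattini_pgroup_ge 2 hP
  letI : CommGroup (P ⧸ frattini P) :=
    { (inferInstance : Group (P ⧸ frattini P)) with
      mul_comm := by
        intro a b
        induction a using QuotientGroup.induction_on with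
        | H a =>
        induction b using QuotientGroup.induction_on with
        | H b =>
        rw [← QuotientGroup.mk_mul, ← QuotientGroup.mk_mul, QuotientGroup.eq]
        have h3 : b⁻¹ * a⁻¹ * (b⁻¹)⁻¹ * (a⁻¹)⁻¹ ∈ frattini P :=
          h1 (Subgroup.commutator_mem_commutator (Subgroup.mem_top b⁻¹) (Subgroup.mem_top a⁻¹))
        have h4 : (a * b)⁻¹ * (b * a) = b⁻¹ * a⁻¹ * (b⁻¹)⁻¹ * (a⁻¹)⁻¹ := by group
        rw [h4]; exact h3 }
  have hsq : ∀ v : P ⧸ frattini P, v * v = 1 := by
    intro v
    induction v using QuotientGroup.induction_on with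
    | H a =>
    rw [← QuotientGroup.mk_mul, QuotientGroup.eq_one_iff, ← sq]
    exact h2 a
  set π : P →* P ⧸ frattini P := QuotientGroup.mk' (frattini P) with hπ
  have hπs : Function.Surjective π := QuotientGroup.mk'_surjective _
  have hA : Nat.card ((P ⧸ frattini P) →* ℂˣ) = Nat.card (P ⧸ frattini P) :=
    CommGroup.card_monoidHom_of_hasEnoughRootsOfUnity (P ⧸ frattini P) ℂ
  -- step 1 : real linear characters
  have step1 : Nat.card (P ⧸ frattini P) ≤
      Nat.card {χ : Cfsg.IrrCharacter P // ∀ g : P, ((χ : P → ℂ) g).im = 0} := by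
    rw [← hA]
    refine Nat.card_le_card_of_injective (fun a => ⟨⟨fun g => ((a.comp π) g : ℂ),
      Cfsg.Agent.CharLib.isIrrCharacter_of_hom (a.comp π)⟩, ?_⟩) ?_
    · intro g
      show (((a (π g) : ℂˣ) : ℂ)).im = 0
      rcases mul_self_eq_one_iff.1 (Cfsg.Agent.Lib.Helper21.val_mul_self hsq a (π g)) with h | h <;>
        rw [h] <;> simp
    · intro a b hab
      ext v
      have := congrFun (congrArg (fun z => (z.1 : P → ℂ)) hab) v
      exact this
  -- real elements are involutions
  have hreal : ∀ g : P, IsConj g g⁻¹ → g * g = 1 := by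
    intro g hg
    obtain ⟨c, hc⟩ := isConj_iff.1 hg
    have hc' : c⁻¹ * g * c = g⁻¹ := by
      have : g = c⁻¹ * g⁻¹ * c := by rw [← hc]; group
      calc c⁻¹ * g * c = (c⁻¹ * g⁻¹ * c)⁻¹ := by group
        _ = g⁻¹ := by rw [← this]
    have hcn : c ∈ Subgroup.normalizer ((Subgroup.zpowers g : Subgroup P) : Set P) := by
      rw [Subgroup.mem_normalizer_iff]
      intro h
      constructor
      · rintro ⟨i, rfl⟩
        refine ⟨-i, ?_⟩
        show g ^ (-i) = c * g ^ i * c⁻¹
        rw [← conj_zpow, hc, inv_zpow, zpow_neg]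
      · rintro ⟨i, hi⟩
        refine ⟨-i, ?_⟩
        have hi' : g ^ i = c * h * c⁻¹ := hi
        show g ^ (-i) = h
        have : h = c⁻¹ * g ^ i * c := by rw [hi']; group
        rw [this]
        have h5 : c⁻¹ * g ^ i * c = (c⁻¹ * g * c) ^ i := by
          have := conj_zpow (a := c⁻¹) (b := g) (i := i)
          simpa using this.symm
        rw [h5, hc', inv_zpow, zpow_neg]
    have h6 := hirr g hcn
    rw [Subgroup.mem_centralizer_singleton_iff] at h6
    have h7 : g = g⁻¹ := by
      rw [← hc]
      calc g = (c * g) * c⁻¹ := by rw [h6]; group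
        _ = c * g * c⁻¹ := rfl
    calc g * g = g * g⁻¹ := by rw [← h7]
      _ = 1 := mul_inv_cancel g
  set I := {c : ConjClasses P // ∃ y : P, ConjClasses.mk y = c ∧ orderOf y = 2} with hI
  -- step 2
  have step2 : Nat.card {C : ConjClasses P // ∀ g : P, ConjClasses.mk g = C → IsConj g g⁻¹} ≤
      Nat.card I + 1 := by
    rw [← Finite.card_option]
    refine Nat.card_le_card_of_injective (fun C =>
      if h : C.1 = ConjClasses.mk 1 then none else some ⟨C.1, ?_⟩) ?_
    · obtain ⟨y, hy⟩ := ConjClasses.exists_rep C.1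
      refine ⟨y, hy, ?_⟩
      have hy2 := hreal y (C.2 y hy)
      have hy1 : y ≠ 1 := by
        rintro rfl
        exact h hy.symm
      exact orderOf_eq_prime (by rw [sq]; exact hy2) hy1
    · intro C D hCD
      apply Subtype.ext
      by_cases hC : C.1 = ConjClasses.mk 1 <;> by_cases hD : D.1 = ConjClasses.mk 1
      · rw [hC, hD]
      · simp [hC, hD] at hCD
      · simp [hC, hD] at hCD
      · simp only [hC, hD, dite_false, Option.some.injEq] at hCD
        exact congrArg (fun z : I => z.1) hCD
  have hfirst : Nat.card (P ⧸ frattini P) ≤ Nat.card I + 1 :=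
    step1.trans ((Cfsg.Agent.S0160.result (G := P)).le.trans step2)
  refine ⟨hfirst, hfirst.trans ?_⟩
  -- step 3
  rw [← Finite.card_option]
  have hrep : ∀ c : I, ∃ y : P, ConjClasses.mk y = c.1 ∧ orderOf y = 2 := fun c => c.2
  choose rep hrep1 hrep2 using hrep
  refine Nat.card_le_card_of_injective (fun o => match o with
    | none => (1 : Subgroup.closure {y : P | orderOf y = 2})
    | some c => ⟨rep c, Subgroup.subset_closure (hrep2 c)⟩) ?_
  intro o o' hoo
  rcases o with _ | c <;> rcases o' with _ | c'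
  · rfl
  · exfalso
    have : (1 : P) = rep c' := congrArg Subtype.val hoo
    have h8 := hrep2 c'
    rw [← this, orderOf_one] at h8
    omega
  · exfalso
    have : rep c = (1 : P) := congrArg Subtype.val hoo
    have h8 := hrep2 c
    rw [this, orderOf_one] at h8
    omega
  · have : rep c = rep c' := congrArg Subtype.val hoo
    congr 1
    apply Subtype.ext
    rw [← hrep1 c, ← hrep1 c', this]

end Cfsg.Agent.S4029
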