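import Cfsg.Statements.S4032
import Cfsg.Agent.Lib.Helper16.NC
import Cfsg.Agent.Lib.Helper16.PRed

set_option autoImplicit false
open Cfsg

namespace Cfsg.Agent.S4032

open Cfsg.Agent.Lib.Helper16


/-- Let π be a set of primes and G a finite group in which N_G(⟨x⟩) = C_G(x) for every π-element x. If N is a normal subgroup of G whose order is divisible by no prime of π, then G/N has the same property: N_{G/N}(⟨y⟩) = C_{G/N}(y) for every π-element y of G/N. -/
theorem result {G : Type*} [Group G] [Finite G] (π : Set ℕ)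
    (hirr : ∀ x : G, (∀ r : ℕ, r.Prime → r ∣ orderOf x → r ∈ π) →
      Subgroup.normalizer ((Subgroup.zpowers x : Subgroup G) : Set G) ≤ Subgroup.centralizer {x})
    (N : Subgroup G) [N.Normal] (hN : ∀ r : ℕ, r.Prime → r ∣ Nat.card N → r ∉ π) :
    ∀ y : G ⧸ N, (∀ r : ℕ, r.Prime → r ∣ orderOf y → r ∈ π) →
      Subgroup.normalizer ((Subgroup.zpowers y : Subgroup (G ⧸ N)) : Set (G ⧸ N)) ≤ Subgroup.centralizer {y} := by
  have key : ∀ n : ℕ, ∀ y : G ⧸ N, orderOf y = n → (∀ r : ℕ, r.Prime → r ∣ orderOf y → r ∈ π) →
      ∀ v : G ⧸ N, v * y * v⁻¹ ∈ Subgroup.zpowers y → y ∈ Subgroup.centralizer ({v} : Set (G ⧸ N)) := by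
    intro n
    induction n using Nat.strong_induction_on with
    | _ n ih =>
      intro y hyn hyπ v hv
      obtain ⟨i, hi⟩ := Subgroup.mem_zpowers_iff.1 hv
      have hpow : ∀ a : ℕ, v * y ^ a * v⁻¹ ∈ Subgroup.zpowers (y ^ a) := by
        intro a
        refine Subgroup.mem_zpowers_iff.2 ⟨i, ?_⟩
        rw [← conj_pow, ← hi, ← zpow_natCast, ← zpow_natCast, ← zpow_mul, ← zpow_mul, mul_comm]
      have hπpow : ∀ a : ℕ, ∀ r : ℕ, r.Prime → r ∣ orderOf (y ^ a) → r ∈ π :=
        fun a r hr hrd => hyπ r hr (hrd.trans (orderOf_pow_dvd a))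
      have hnpos : 0 < n := hyn ▸ orderOf_pos y
      by_cases hn1 : n = 1
      · rw [hn1, orderOf_eq_one_iff] at hyn
        rw [hyn]; exact Subgroup.one_mem _
      · have hp : n.minFac.Prime := Nat.minFac_prime hn1
        set p := n.minFac with hpdef
        haveI : Fact p.Prime := ⟨hp⟩
        have hpn : p ∣ n := Nat.minFac_dvd n
        have hpπ : p ∈ π := hyπ p hp (hyn ▸ hpn)
        obtain ⟨k, m, hm, hkm⟩ := Nat.exists_eq_pow_mul_and_not_dvd hnpos.ne' p hp.ne_one
        have hk0 : k ≠ 0 := by
          rintro rfl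
          rw [pow_zero, one_mul] at hkm
          exact hm (hkm ▸ hpn)
        have hmpos : 0 < m := by
          rcases Nat.eq_zero_or_pos m with h | h
          · rw [h, mul_zero] at hkm; omega
          · exact h
        by_cases hm1 : m = 1
        · -- prime power case
          rw [hm1, mul_one] at hkm
          obtain ⟨x₀, rfl⟩ := QuotientGroup.mk'_surjective N y
          obtain ⟨u, rfl⟩ := QuotientGroup.mk'_surjective N v
          obtain ⟨j, m', hm', hjm⟩ :=
            Nat.exists_eq_pow_mul_and_not_dvd (orderOf_pos x₀).ne' p hp.ne_one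
          have hm'0 : m' ≠ 0 := by
            rintro rfl
            exact hm' (dvd_zero _)
          have hxo : orderOf (x₀ ^ m') = p ^ j := by
            rw [orderOf_pow_of_dvd hm'0 (by rw [hjm]; exact dvd_mul_left _ _), hjm]
            exact Nat.mul_div_cancel _ (Nat.pos_of_ne_zero hm'0)
          have hNp : (Nat.card N).Coprime p := by
            rw [Nat.coprime_comm, Nat.Prime.coprime_iff_not_dvd hp]
            intro hd
            exact hN p hp hd hpπ
          have h1 := comm_of_normalizes_quot N hNp (x₀ ^ m') ⟨j, hxo⟩ (hirr _ (by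
            intro r hr hrd
            rw [hxo] at hrd
            rw [(Nat.prime_dvd_prime_iff_eq hr hp).1 (hr.dvd_of_dvd_pow hrd)]
            exact hpπ)) u (by
              rw [map_pow]; exact hpow m')
          apply mem_of_pow_mem_of_coprime (n := m')
          · rw [Subgroup.mem_centralizer_singleton_iff, ← map_pow]
            exact h1.symm
          · rw [hyn, hkm]
            exact Nat.Coprime.pow_left _ ((Nat.Prime.coprime_iff_not_dvd hp).2 hm')
        · have hcop : Nat.Coprime (p ^ k) m :=
            Nat.Coprime.pow_left _ ((Nat.Prime.coprime_iff_not_dvd hp).2 hm)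
          have ho1 : orderOf (y ^ (p ^ k)) = m := by
            rw [orderOf_pow_of_dvd (pow_ne_zero _ hp.ne_zero) (by rw [hyn, hkm]; exact dvd_mul_right _ _),
              hyn, hkm]
            exact Nat.mul_div_cancel_left _ (pow_pos hp.pos _)
          have ho2 : orderOf (y ^ m) = p ^ k := by
            rw [orderOf_pow_of_dvd hmpos.ne' (by rw [hyn, hkm]; exact dvd_mul_left _ _), hyn, hkm]
            exact Nat.mul_div_cancel _ hmpos
          have hlt1 : m < n := by
            rw [hkm]
            have : 1 < p ^ k := Nat.one_lt_pow hk0 hp.one_lt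
            nlinarith
          have hlt2 : p ^ k < n := by
            rw [hkm]
            have : 1 < m := by omega
            have h2 : 0 < p ^ k := pow_pos hp.pos _
            nlinarith
          exact mem_of_pow_mem_of_pow_mem hcop
            (ih m hlt1 _ ho1 (hπpow _) v (hpow _)) (ih _ hlt2 _ ho2 (hπpow _) v (hpow _))
  intro y hy v hv
  have h1 := key _ y rfl hy v (mem_normalizer_zpowers_iff.1 hv)
  rw [Subgroup.mem_centralizer_singleton_iff] at h1 ⊢
  exact h1.symm

end Cfsg.Agent.S4032
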