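import Cfsg.Statements.S4034
import Mathlib
import Cfsg.Agent.H4.PRegClass
import Cfsg.Agent.Lib.Helper21.ClassSize

set_option autoImplicit false
open Cfsg

namespace Cfsg.Agent.S4034

/-- Let G be a finite group and p a prime. Every conjugacy class of p-regular elements of G (elements of order prime to p) has p-power size if and only if G has an abelian p-complement, i.e. an abelian subgroup of order prime to p and p-power index. -/
theorem result {G : Type*} [Group G] [Finite G] {p : ℕ} (hp : p.Prime) :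
    (∀ x : G, (orderOf x).Coprime p → ∃ k : ℕ, (ConjClasses.mk x).carrier.ncard = p ^ k) ↔
    (∃ H : Subgroup G, IsMulCommutative H ∧ ¬ p ∣ Nat.card H ∧ ∃ k : ℕ, H.index = p ^ k) := by
  have : Fact p.Prime := ⟨hp⟩
  constructor
  · intro h
    have hR : Cfsg.Agent.H4.PReg p G := by
      intro x hx
      obtain ⟨k, hk⟩ := h x hx
      exact ⟨k, by rw [Cfsg.Agent.Lib.Helper21.index_centralizer_eq_ncard_carrier, hk]⟩
    have hs : Group.IsSolvable G := hR.isSolvable hp
    obtain ⟨a, m, hm, hGm⟩ :=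
      Nat.exists_eq_pow_mul_and_not_dvd (Nat.card_pos (α := G)).ne' p hp.ne_one
    have hcop : m.Coprime p := ((Nat.Prime.coprime_iff_not_dvd hp).2 hm).symm
    obtain ⟨H, hH⟩ := Cfsg.H1.hall_exists_aux _ G le_rfl m (p ^ a) (by rw [hGm, mul_comm])
      (Nat.Coprime.pow_right a hcop)
    have hn := Cfsg.H1.pCore_normal (G := G) p
    refine ⟨H, ⟨⟨fun x y => ?_⟩⟩, by rw [hH]; exact hm, a, ?_⟩
    · have hord : ∀ z : H, (orderOf ((z : G) : G ⧸ Cfsg.pCore p G)).Coprime p := by
        intro z
        have h1 : orderOf ((z : G) : G ⧸ Cfsg.pCore p G) ∣ orderOf (z : G) :=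
          orderOf_map_dvd (QuotientGroup.mk' (Cfsg.pCore p G)) (z : G)
        have h2 : orderOf (z : G) ∣ m := by
          rw [Subgroup.orderOf_coe, ← hH]; exact orderOf_dvd_natCard z
        exact Nat.Coprime.coprime_dvd_left (h1.trans h2) hcop
      have hcomm := (hR.quotient hp (Cfsg.pCore p G)).commute_of_pCore_eq_bot
        (Cfsg.Agent.H4.pCore_quotient_pCore p) _ _ (hord x) (hord y)
      have hmem : (((x : G) * (y : G))⁻¹ * ((y : G) * (x : G))) ∈ Cfsg.pCore p G := by
        rw [← QuotientGroup.eq]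
        simpa using hcomm
      have hmemH : (((x : G) * (y : G))⁻¹ * ((y : G) * (x : G))) ∈ H :=
        H.mul_mem (H.inv_mem (H.mul_mem x.2 y.2)) (H.mul_mem y.2 x.2)
      obtain ⟨k, hk⟩ := (Cfsg.H1.pCore_isPGroup (G := G) p) ⟨_, hmem⟩
      have hk' : (((x : G) * (y : G))⁻¹ * ((y : G) * (x : G))) ^ p ^ k = 1 := by
        have := congrArg Subtype.val hk
        simpa using this
      have h1 : orderOf (((x : G) * (y : G))⁻¹ * ((y : G) * (x : G))) ∣ p ^ k := orderOf_dvd_of_pow_eq_one hk'
      have h2 : orderOf (((x : G) * (y : G))⁻¹ * ((y : G) * (x : G))) ∣ m := by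
        have := orderOf_dvd_natCard (⟨_, hmemH⟩ : H)
        rw [hH, ← Subgroup.orderOf_coe] at this
        exact this
      have h3 : orderOf (((x : G) * (y : G))⁻¹ * ((y : G) * (x : G))) = 1 :=
        Nat.eq_one_of_dvd_coprimes (Nat.Coprime.pow_right k hcop) h2 h1
      rw [orderOf_eq_one_iff, inv_mul_eq_one] at h3
      exact Subtype.ext h3
    · have := H.card_mul_index
      rw [hH, hGm, mul_comm] at this
      have hm0 : 0 < m := Nat.pos_of_ne_zero (by rintro rfl; exact hm (dvd_zero p))
      exact Nat.eq_of_mul_eq_mul_right hm0 this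
  · rintro ⟨H, hHc, hHp, k, hk⟩ x hx
    have hcopH : (Nat.card H).Coprime p := ((Nat.Prime.coprime_iff_not_dvd hp).2 hHp).symm
    have hnil : Group.IsNilpotent H := by
      let _ : CommGroup H := { (inferInstance : Group H) with mul_comm := hHc.is_comm.comm }
      infer_instance
    obtain ⟨n, hn⟩ := Cfsg.Agent.Tr.wielandt H hnil (by rw [hk]; exact Nat.Coprime.pow_right k hcopH)
      (Subgroup.zpowers x) (by
        intro q hq hqx
        rw [Nat.card_zpowers] at hqx
        have h1 : q ∣ Nat.card G := hqx.trans (orderOf_dvd_natCard x)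
        rw [← H.card_mul_index, hk] at h1
        rcases (Nat.Prime.dvd_mul hq).1 h1 with h2 | h2
        · exact h2
        · exfalso
          have h3 : q = p := (Nat.prime_dvd_prime_iff_eq hq hp).1 (hq.dvd_of_dvd_pow h2)
          rw [h3] at hqx
          exact hp.one_lt.ne' (Nat.eq_one_of_dvd_coprimes hx hqx dvd_rfl)
          )
    -- `n x n⁻¹ ∈ H`
    have hxH : n * x * n⁻¹ ∈ H := hn ⟨x, Subgroup.mem_zpowers x, rfl⟩
    have hle : H.map (MulAut.conj n⁻¹).toMonoidHom ≤ Subgroup.centralizer ({x} : Set G) := by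
      rintro _ ⟨h, hh, rfl⟩
      simp only [Subgroup.mem_centralizer_iff, Set.mem_singleton_iff, forall_eq]
      have hc : (n * x * n⁻¹) * h = h * (n * x * n⁻¹) := by
        have := hHc.is_comm.comm ⟨_, hxH⟩ ⟨h, hh⟩
        exact congrArg Subtype.val this
      simp only [MulEquiv.coe_toMonoidHom, MulAut.conj_apply, inv_inv]
      have e1 : x * (n⁻¹ * h * n) = n⁻¹ * ((n * x * n⁻¹) * h) * n := by group
      rw [e1, hc]
      group
    have hidx : (H.map (MulAut.conj n⁻¹).toMonoidHom).index = p ^ k := by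
      rw [← hk]
      exact Subgroup.index_map_of_bijective (MulAut.conj n⁻¹).bijective H
    have hdvd : (Subgroup.centralizer ({x} : Set G)).index ∣ p ^ k := by
      rw [← hidx]; exact Subgroup.index_dvd_of_le hle
    obtain ⟨j, _, hj⟩ := (Nat.dvd_prime_pow hp).1 hdvd
    exact ⟨j, by rw [← Cfsg.Agent.Lib.Helper21.index_centralizer_eq_ncard_carrier, hj]⟩

end Cfsg.Agent.S4034
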