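import Cfsg.Statements.S4035
import Mathlib
import Cfsg.Agent.Lib.Helper21.DirectFactor
import Cfsg.Agent.Lib.Helper21.ClassSize
import Cfsg.Agent.Lib.Helper21.Jordan

set_option autoImplicit false
open Cfsg

namespace Cfsg.Agent.S4035

/-- Let G be a finite group and p a prime such that p divides the size of no conjugacy class of p-regular elements (elements of order prime to p). Then G is the internal direct product of a Sylow p-subgroup P and a normal subgroup H of order prime to p: P is normal, P ⊓ H = 1 and PH = G. -/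
theorem result {G : Type*} [Group G] [Finite G] {p : ℕ} [Fact p.Prime]
    (h : ∀ x : G, (orderOf x).Coprime p → ¬ p ∣ (ConjClasses.mk x).carrier.ncard) (P : Sylow p G) :
    (P : Subgroup G).Normal ∧ ∃ H : Subgroup G, H.Normal ∧ ¬ p ∣ Nat.card H ∧
      (P : Subgroup G) ⊓ H = ⊥ ∧ (P : Subgroup G) ⊔ H = ⊤ := by
  have hp : p.Prime := Fact.out
  have hidx : ∀ v : G, (orderOf v).Coprime p → ¬ p ∣ (Subgroup.centralizer ({v} : Set G)).index := by
    intro v hv
    rw [Cfsg.Agent.Lib.Helper21.index_centralizer_eq_ncard_carrier]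
    exact h v hv
  have hfix : ∀ g : G, ∃ Q : Sylow p G, g • Q = Q := by
    intro g
    obtain ⟨u, v, huv, hcomm, ⟨k, hk⟩, hv, _, _⟩ := Cfsg.Agent.Lib.Helper21.exists_p_part p g
    have huC : Subgroup.zpowers u ≤ Subgroup.centralizer ({v} : Set G) := by
      rw [Subgroup.zpowers_le]
      simp only [Subgroup.mem_centralizer_iff, Set.mem_singleton_iff, forall_eq]
      exact hcomm.eq.symm
    obtain ⟨Q, hQC, hQu⟩ := Cfsg.Agent.Lib.Helper21.exists_sylow_le_of_not_dvd_index p _ (hidx v hv) _
      (Cfsg.Agent.Lib.Helper21.isPGroup_zpowers hk) huC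
    refine ⟨Q, ?_⟩
    rw [Sylow.smul_eq_iff_mem_normalizer, ← huv]
    apply Subgroup.mul_mem
    · exact Subgroup.le_normalizer (hQu (Subgroup.mem_zpowers u))
    · apply Subgroup.centralizer_le_normalizer
      rw [Subgroup.mem_centralizer_iff]
      intro w hw
      have := hQC hw
      simp only [Subgroup.mem_centralizer_iff, Set.mem_singleton_iff, forall_eq] at this
      exact this.symm
  have hsub : Subsingleton (Sylow p G) := Cfsg.Agent.Lib.Helper21.subsingleton_of_forall_exists_fixed hfix
  apply Cfsg.Agent.Lib.Helper21.direct_factor_of_commute p _ P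
  rintro x y ⟨a, ha⟩ ⟨q, b, hq, hqp, hb⟩
  have hy : (orderOf y).Coprime p := by
    rw [hb]; exact Nat.Coprime.pow_left b ((Nat.coprime_primes hq hp).mpr hqp)
  obtain ⟨Q, hQC, _⟩ := Cfsg.Agent.Lib.Helper21.exists_sylow_le_of_not_dvd_index p _ (hidx y hy) ⊥
    IsPGroup.of_bot bot_le
  have hx : x ∈ (Q : Subgroup G) :=
    Cfsg.Agent.Lib.Helper21.mem_sylow_of_normal Q (Sylow.normal_of_subsingleton Q) ha
  have := hQC hx
  simp only [Subgroup.mem_centralizer_iff, Set.mem_singleton_iff, forall_eq] at this
  exact this.symm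

end Cfsg.Agent.S4035
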