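import Cfsg.Statements.S4036

set_option autoImplicit false
open Cfsg

namespace Cfsg.Agent.S4036

/-- Let P be a finite abelian p-group and K a group of automorphisms of P (a subgroup of Aut P) whose order is divisible by p. If all non-identity elements of K have the same fixed-point subgroup on P, then K has no non-trivial normal subgroup of order prime to p. -/
theorem result {P : Type*} [CommGroup P] [Finite P] {p : ℕ}
    [Fact p.Prime] (hP : IsPGroup p P) (K : Subgroup (MulAut P)) (hK : p ∣ Nat.card K)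
    (hfix : ∀ x y : MulAut P, x ∈ K → y ∈ K → x ≠ 1 → y ≠ 1 → ∀ v : P, x v = v ↔ y v = v) :
    ∀ N : Subgroup ↥K, N.Normal → ¬ p ∣ Nat.card N → N = ⊥ := by
  classical
  intro N hNn hpN
  by_contra hNbot
  have hp : p.Prime := Fact.out
  haveI := hNn
  haveI : Fintype ↥N := Fintype.ofFinite _
  let τ : P →* P := ∏ x : ↥N, (((x : ↥K) : MulAut P)).toMonoidHom
  have hτ : ∀ v : P, τ v = ∏ x : ↥N, ((x : ↥K) : MulAut P) v := by
    intro v
    simp only [τ, MonoidHom.finsetProd_apply]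
    rfl
  have h1 : ∀ (y : ↥N) (v : P), τ (((y : ↥K) : MulAut P) v) = τ v := by
    intro y v
    rw [hτ, hτ]
    refine Fintype.prod_equiv (Equiv.mulRight y) _ _ ?_
    intro x
    simp [MulAut.mul_apply]
  have h2 : ∀ (a : ↥K) (v : P), τ ((a : MulAut P) v) = (a : MulAut P) (τ v) := by
    intro a v
    rw [hτ, hτ, map_prod]
    refine Fintype.prod_equiv (MulAut.conjNormal a⁻¹ : ↥N ≃* ↥N).toEquiv _ _ ?_
    intro x
    have h3 : (((MulAut.conjNormal a⁻¹ : ↥N ≃* ↥N) x : ↥N) : ↥K) = a⁻¹ * x * a⁻¹⁻¹ :=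
      MulAut.conjNormal_apply a⁻¹ x
    show ((x : ↥K) : MulAut P) ((a : MulAut P) v) =
      (a : MulAut P) (((((MulAut.conjNormal a⁻¹ : ↥N ≃* ↥N) x : ↥N) : ↥K) : MulAut P) v)
    rw [h3]
    simp [MulAut.mul_apply]
  -- fixed points of a nonidentity element in the kernel of τ are trivial
  have h4 : ∀ (a : ↥K), a ≠ 1 → ∀ v : P, (a : MulAut P) v = v → τ v = 1 → v = 1 := by
    intro a ha v hav hv
    have h5 : ∀ x : ↥N, ((x : ↥K) : MulAut P) v = v := by
      intro x
      by_cases hx : ((x : ↥K) : MulAut P) = 1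
      · rw [hx]; rfl
      · exact (hfix _ _ a.2 (x : ↥K).2 (fun h => ha (Subtype.ext h)) hx v).1 hav
    rw [hτ, Finset.prod_congr rfl (fun x _ => h5 x), Finset.prod_const, Finset.card_univ,
      ← Nat.card_eq_fintype_card] at hv
    obtain ⟨k, hk⟩ := hP v
    have h6 : orderOf v ∣ Nat.card ↥N := orderOf_dvd_of_pow_eq_one hv
    have h7 : orderOf v ∣ p ^ k := orderOf_dvd_of_pow_eq_one hk
    have h8 : (Nat.card ↥N).Coprime (p ^ k) :=
      Nat.Coprime.pow_right _ ((Nat.Prime.coprime_iff_not_dvd hp).2 hpN).symm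
    exact orderOf_eq_one_iff.1 (Nat.eq_one_of_dvd_coprimes h8 h6 h7)
  -- the kernel is nontrivial
  obtain ⟨y, hy1⟩ := Subgroup.ne_bot_iff_exists_ne_one.1 hNbot
  have hy2 : ((y : ↥K) : MulAut P) ≠ 1 := fun h => hy1 (Subtype.ext (Subtype.ext h))
  have hy3 : ∃ v : P, ((y : ↥K) : MulAut P) v ≠ v := by
    by_contra hcon
    apply hy2
    ext v
    by_contra hv
    exact hcon ⟨v, hv⟩
  obtain ⟨v, hv⟩ := hy3
  have hw : ((y : ↥K) : MulAut P) v * v⁻¹ ∈ τ.ker := by
    rw [MonoidHom.mem_ker, map_mul, map_inv, h1, mul_inv_cancel]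
  have hw1 : ((y : ↥K) : MulAut P) v * v⁻¹ ≠ 1 := fun h => hv (mul_inv_eq_one.1 h)
  obtain ⟨a, ha⟩ := exists_prime_orderOf_dvd_card' p hK
  have ha1 : a ≠ 1 := by
    rintro rfl
    rw [orderOf_one] at ha
    exact hp.one_lt.ne ha
  have hA : IsPGroup p ↥(Subgroup.zpowers a) :=
    IsPGroup.of_card (n := 1) (by rw [Nat.card_zpowers, ha, pow_one])
  let S : SubMulAction ↥(Subgroup.zpowers a) P :=
    { carrier := (τ.ker : Set P)
      smul_mem' := by
        intro c x hx
        have hx' : τ x = 1 := hx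
        show τ (((c : ↥K) : MulAut P) x) = 1
        rw [h2, hx', map_one] }
  have hScard : p ∣ Nat.card ↥S := by
    have h9 : Nat.card ↥S = Nat.card ↥τ.ker := rfl
    rw [h9]
    obtain ⟨k, hk⟩ := IsPGroup.iff_card.1 (hP.to_subgroup τ.ker)
    rw [hk]
    cases k with
    | zero =>
      rw [pow_zero, Subgroup.card_eq_one] at hk
      rw [hk, Subgroup.mem_bot] at hw
      exact absurd hw hw1
    | succ k => exact dvd_pow_self _ (Nat.succ_ne_zero k)
  have hone : (⟨1, τ.ker.one_mem⟩ : ↥S) ∈ MulAction.fixedPoints ↥(Subgroup.zpowers a) ↥S := by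
    intro c
    apply Subtype.ext
    show ((c : ↥K) : MulAut P) 1 = 1
    exact map_one _
  obtain ⟨b, hb, hb1⟩ := hA.exists_fixed_point_of_prime_dvd_card_of_fixed_point ↥S hScard hone
  have hb2 : (a : MulAut P) (b : P) = b := by
    have := hb ⟨a, Subgroup.mem_zpowers a⟩
    exact congrArg Subtype.val this
  have hb3 := h4 a ha1 (b : P) hb2 b.2
  exact hb1 (Subtype.ext hb3.symm)

end Cfsg.Agent.S4036
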