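import Cfsg.Statements.S4037
import Mathlib
import Cfsg.Agent.Tr.Kaz3
import Cfsg.Agent.Lib.Helper21.ClassSize

set_option autoImplicit false
open Cfsg

namespace Cfsg.Agent.S4037

/-- If an element x of a finite group G has a conjugacy class of prime-power size, then the normal closure of x in G (the subgroup generated by the conjugacy class of x) is solvable. -/
theorem result {G : Type*} [Group G] [Finite G]
    (x : G) {p : ℕ} (hp : p.Prime) (k : ℕ) (hx : (ConjClasses.mk x).carrier.ncard = p ^ k) :
    Group.IsSolvable ↥(Subgroup.normalClosure ({x} : Set G)) := by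
  exact Cfsg.Agent.Tr.Kaz.kazarin hp x k
    (by rw [Cfsg.Agent.Lib.Helper21.index_centralizer_eq_ncard_carrier, hx])

end Cfsg.Agent.S4037
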