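import Cfsg.Statements.S4043
import Mathlib
import Cfsg.Agent.Lib.Helper21.PNilCompl

set_option autoImplicit false
open Cfsg

namespace Cfsg.Agent.S4043

/-- Let G be a finite group that is the semidirect product of a normal p-subgroup N by a subgroup A, and also of N by a subgroup A₁, where p is a prime and A and A₁ both have normal p-complements. If C_N(A) = C_N(A₁) = 1, then A₁ is conjugate to A by an element of N. -/
theorem result {G : Type*} [Group G] [Finite G] {p : ℕ}
    [Fact p.Prime] (N : Subgroup G) [N.Normal] (hN : IsPGroup p N) (A A₁ : Subgroup G)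
    (hA : A.IsComplement' N) (hA₁ : A₁.IsComplement' N)
    (hAp : Cfsg.HasNormalPComplement p A) (hA₁p : Cfsg.HasNormalPComplement p A₁)
    (hC : ∀ n : G, n ∈ N → (∀ a : G, a ∈ A → a * n * a⁻¹ = n) → n = 1)
    (hC₁ : ∀ n : G, n ∈ N → (∀ a : G, a ∈ A₁ → a * n * a⁻¹ = n) → n = 1) :
    ∃ n : G, n ∈ N ∧ A₁ = A.map (MulAut.conj n).toMonoidHom := by
  obtain ⟨K, S, d⟩ := Cfsg.Agent.Lib.Helper21.exists_pNilData A hAp
  obtain ⟨K₁, S₁, d₁⟩ := Cfsg.Agent.Lib.Helper21.exists_pNilData A₁ hA₁p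
  exact Cfsg.Agent.Lib.Helper21.conj_of_pNilData hN hA hA₁ d d₁ hC₁

end Cfsg.Agent.S4043
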