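import Cfsg.Statements.S4049
import Mathlib
import Cfsg.Agent.Lib.Helper21.RealOdd2

set_option autoImplicit false
open Cfsg

namespace Cfsg.Agent.S4049

/-- Let G be a finite group such that N_G(H)/C_G(H) has odd order for every nontrivial subgroup H of odd order. Then the Sylow 2-subgroups of G are normal. -/
theorem result {G : Type*} [Group G] [Finite G]
    (hhom : ∀ H : Subgroup G, H ≠ ⊥ → ¬ 2 ∣ Nat.card ↥H →
        ¬ 2 ∣ (Subgroup.centralizer (H : Set G)).relIndex (Subgroup.normalizer (H : Set G))) (P : Sylow 2 G) :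
    (P : Subgroup G).Normal := by
  apply Cfsg.Agent.Lib.Helper21.sylow_two_normal_of_noRealOdd
  intro x g hodd hinv
  by_contra hx1
  set H := Subgroup.zpowers x with hH
  have hHbot : H ≠ ⊥ := by rwa [Ne, Subgroup.zpowers_eq_bot]
  have hcard : ¬ 2 ∣ Nat.card H := by rw [Nat.card_zpowers]; exact hodd.not_two_dvd_nat
  apply hhom H hHbot hcard
  have hgN : g ∈ Subgroup.normalizer (H : Set G) :=
    Cfsg.Agent.Lib.Helper21.mem_normalizer_zpowers_of_conj_eq_inv hinv
  rw [Subgroup.relIndex, ← Subgroup.normalizerMonoidHom_ker, Subgroup.index_ker]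
  set φ := H.normalizerMonoidHom ⟨g, hgN⟩ with hφ
  have hφ2 : φ ^ 2 = 1 := by
    ext ⟨a, ha⟩
    obtain ⟨j, rfl⟩ := Subgroup.mem_zpowers_iff.mp ha
    show g * (g * x ^ j * g⁻¹) * g⁻¹ = x ^ j
    rw [Cfsg.Agent.Lib.Helper21.conj_zpow_of_conj_eq_inv hinv j, ← zpow_neg,
      Cfsg.Agent.Lib.Helper21.conj_zpow_of_conj_eq_inv hinv (-j)]
    simp
  have hφ1 : φ ≠ 1 := by
    intro h1
    have h2 : φ ⟨x, Subgroup.mem_zpowers x⟩ = ⟨x, Subgroup.mem_zpowers x⟩ := by rw [h1]; rfl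
    have h3 : g * x * g⁻¹ = x := congrArg Subtype.val h2
    exact hx1 (Cfsg.Agent.Lib.Helper21.eq_one_of_odd_of_eq_inv hodd (h3.symm.trans hinv))
  have ho : orderOf φ = 2 := orderOf_eq_prime hφ2 hφ1
  have hmem : φ ∈ H.normalizerMonoidHom.range := ⟨_, rfl⟩
  have := orderOf_dvd_natCard (⟨φ, hmem⟩ : H.normalizerMonoidHom.range)
  rwa [Subgroup.orderOf_mk, ho] at this

end Cfsg.Agent.S4049
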