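import Mathlib
import Cfsg.Statements.S4050
import Cfsg.Agent.H9.PiCl

set_option autoImplicit false
open Cfsg
open scoped commutatorElement

namespace Cfsg.Agent.S4050

/-- Let π be a set of primes and G a finite group. The π-elements of G (elements whose order is divisible only by primes of π) form a subgroup if and only if G is π-separable (it has a chain of normal subgroups from 1 to G with each successive index divisible only by primes in π or only by primes outside π) and N_G(H)/C_G(H) is a π'-group for every nontrivial π'-subgroup H of G. -/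
theorem result {G : Type*} [Group G] [Finite G] (π : Set ℕ)
    (hπ : ∀ p ∈ π, p.Prime) :
    (∃ K : Subgroup G, ∀ x : G, x ∈ K ↔ ∀ p : ℕ, p.Prime → p ∣ orderOf x → p ∈ π) ↔
    ((∃ (n : ℕ) (H : Fin (n + 1) → Subgroup G), H 0 = ⊥ ∧ H (Fin.last n) = ⊤ ∧ Monotone H ∧ (∀ i, (H i).Normal) ∧
      ∀ i : Fin n, (∀ q : ℕ, q.Prime → q ∣ (H i.castSucc).relIndex (H i.succ) → q ∈ π) ∨
        (∀ q : ℕ, q.Prime → q ∣ (H i.castSucc).relIndex (H i.succ) → q ∉ π)) ∧
     (∀ H : Subgroup G, H ≠ ⊥ → (∀ p : ℕ, p.Prime → p ∣ Nat.card ↥H → p ∉ π) →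
        ∀ p : ℕ, p.Prime → p ∣ (Subgroup.centralizer (H : Set G)).relIndex (Subgroup.normalizer (H : Set G)) → p ∉ π)) := by
  rw [← Cfsg.H9.PiCl.closedIn_top_iff]
  constructor
  · intro h
    obtain ⟨K, hKn, -, hKc, hKr, hK⟩ := h.data
    refine ⟨⟨2, ![⊥, K, ⊤], rfl, rfl, ?_, ?_, ?_⟩, ?_⟩
    · rw [Fin.monotone_iff_le_succ]
      intro i
      fin_cases i
      · exact bot_le
      · exact le_top
    · intro i
      fin_cases i
      · exact (inferInstance : (⊥ : Subgroup G).Normal)
      · exact hKn
      · exact (inferInstance : (⊤ : Subgroup G).Normal)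
    · intro i
      fin_cases i
      · left
        have : (⊥ : Subgroup G).relIndex K = Nat.card K := Subgroup.relIndex_bot_left K
        intro q hq hd
        exact hKc q hq (this ▸ hd)
      · right
        exact hKr
    · intro H _ hH
      exact Cfsg.H9.PiCl.hom_of_closed h H hH
  · rintro ⟨⟨n, H, h0, hlast, hmono, hn, hs⟩, hhom⟩
    have := Cfsg.H9.PiCl.closed_of_series (Cfsg.H9.PiCl.hom'_of_hom hhom) n H h0 hn hs (Fin.last n)
    rwa [hlast] at this

end Cfsg.Agent.S4050
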