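import Cfsg.Statements.S4056
import Cfsg.Agent.S0841
import Cfsg.Agent.H1.Small2

set_option autoImplicit false
open Cfsg

namespace Cfsg.Agent.S4056


open scoped commutatorElement


/-- In a finite 2-group of nilpotency class at most 2 and exponent dividing 4, the Frattini subgroup lies in the centre and is elementary abelian. -/
theorem result {P : Type*} [Group P] [Finite P] (hP : IsPGroup 2 P)
    (hcl : Group.nilpotencyClass P ≤ 2) (hexp : Monoid.exponent P ∣ 4) :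
    frattini P ≤ Subgroup.center P ∧ Cfsg.IsElementaryAbelian 2 (frattini P) := by
  haveI : Fact (Nat.Prime 2) := ⟨Nat.prime_two⟩
  haveI : Group.IsNilpotent P := hP.isNilpotent
  have h2 : Subgroup.upperCentralSeries P 2 = ⊤ :=
    Subgroup.upperCentralSeries_eq_top_iff_nilpotencyClass_le.2 hcl
  have hcc : ∀ a b : P, ⁅a, b⁆ ∈ Subgroup.center P := by
    intro a b
    have h3 : a ∈ Subgroup.upperCentralSeries P (1 + 1) := by
      show a ∈ Subgroup.upperCentralSeries P 2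
      rw [h2]; exact Subgroup.mem_top a
    have h4 := Subgroup.mem_upperCentralSeries_succ_iff.1 h3 b
    rwa [Subgroup.upperCentralSeries_one] at h4
  have hZ : commutator P ≤ Subgroup.center P := by
    rw [commutator_def, Subgroup.commutator_le]
    intro a _ b _
    exact hcc a b
  have h4 : ∀ a : P, a ^ 4 = 1 := by
    intro a
    obtain ⟨c, hc⟩ := hexp
    rw [hc, pow_mul, Monoid.pow_exponent_eq_one, one_pow]
  have hc2 : ∀ a b : P, ⁅a, b⁆ ^ 2 = 1 := by
    intro a b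
    have h5 := Cfsg.Agent.S0841.result hZ b⁻¹ a⁻¹ 4
    rw [h4, h4, h4, one_mul, one_mul] at h5
    have h6 : a⁻¹⁻¹ * b⁻¹⁻¹ * a⁻¹ * b⁻¹ = ⁅a, b⁆ := by
      rw [commutatorElement_def]; group
    rw [h6] at h5
    have h7 : ⁅a, b⁆ ^ 6 = 1 := by
      have : 4 * (4 - 1) / 2 = 6 := by norm_num
      rw [this] at h5; exact h5.symm
    have h8 : ⁅a, b⁆ ^ 6 = ⁅a, b⁆ ^ 4 * ⁅a, b⁆ ^ 2 := by rw [← pow_add]
    rw [h8, h4, one_mul] at h7
    exact h7
  have hsq : ∀ x : P, x ^ 2 ∈ Subgroup.center P := by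
    intro x
    rw [Subgroup.mem_center_iff]
    intro y
    -- y * x^2 = x^2 * y
    have he := hcc x⁻¹ y
    have he2 := hc2 x⁻¹ y
    rw [Subgroup.mem_center_iff] at he
    have h5 : y * x = x * ⁅x⁻¹, y⁆ * y := by
      rw [commutatorElement_def]; group
    calc y * x ^ 2 = (y * x) * x := by rw [pow_two, mul_assoc]
      _ = (x * ⁅x⁻¹, y⁆ * y) * x := by rw [h5]
      _ = x * ⁅x⁻¹, y⁆ * (y * x) := by simp only [mul_assoc]
      _ = x * ⁅x⁻¹, y⁆ * (x * ⁅x⁻¹, y⁆ * y) := by rw [h5]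
      _ = x * (⁅x⁻¹, y⁆ * x) * ⁅x⁻¹, y⁆ * y := by simp only [mul_assoc]
      _ = x * (x * ⁅x⁻¹, y⁆) * ⁅x⁻¹, y⁆ * y := by rw [he x]
      _ = x ^ 2 * ⁅x⁻¹, y⁆ ^ 2 * y := by simp only [pow_two, mul_assoc]
      _ = x ^ 2 * y := by rw [he2, mul_one]
  let N : Subgroup P :=
    { carrier := {z | z ∈ Subgroup.center P ∧ z ^ 2 = 1}
      one_mem' := ⟨Subgroup.one_mem _, one_pow _⟩
      mul_mem' := by
        rintro a b ⟨ha, ha2⟩ ⟨hb, hb2⟩
        refine ⟨Subgroup.mul_mem _ ha hb, ?_⟩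
        have : Commute a b := (Subgroup.mem_center_iff.1 hb a)
        rw [this.mul_pow, ha2, hb2, one_mul]
      inv_mem' := by
        rintro a ⟨ha, ha2⟩
        exact ⟨Subgroup.inv_mem _ ha, by rw [inv_pow, ha2, inv_one]⟩ }
  haveI hNn : N.Normal := by
    refine ⟨fun n hn g => ?_⟩
    have : g * n * g⁻¹ = n := by
      rw [(Subgroup.mem_center_iff.1 hn.1 g), mul_inv_cancel_right]
    rw [this]; exact hn
  have hle : frattini P ≤ N := by
    apply Cfsg.H1.frattini_pgroup_le 2 N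
    · rw [commutator_def, Subgroup.commutator_le]
      intro a _ b _
      exact ⟨hcc a b, hc2 a b⟩
    · intro x
      exact ⟨hsq x, by rw [← pow_mul]; exact h4 x⟩
  refine ⟨fun a ha => (hle ha).1, ⟨⟨⟨?_⟩⟩, fun a ha => (hle ha).2⟩⟩
  intro a b
  apply Subtype.ext
  exact (Subgroup.mem_center_iff.1 (hle b.2).1 a)

end Cfsg.Agent.S4056
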