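import Cfsg.Statements.S4058
import Mathlib
import Cfsg.Agent.Lib.Helper21.TwistMain

set_option autoImplicit false
open Cfsg

namespace Cfsg.Agent.S4058

/-- Let G be a finite 2-group with #(G/Φ(G)) ≥ 2^(2k+1). Then the number of elements x of G with x² = 1 is divisible by 2^(k+1). -/
theorem result {G : Type*} [Group G] [Finite G] (hG : IsPGroup 2 G) (k : ℕ)
    (hgen : 2 ^ (2 * k + 1) ≤ Nat.card (G ⧸ frattini G)) :
    2 ^ (k + 1) ∣ Nat.card {x : G // x ^ 2 = 1} := by
  classical
  haveI : Fact (Nat.Prime 2) := ⟨Nat.prime_two⟩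
  haveI := Fintype.ofFinite G
  obtain ⟨h1, h2⟩ := Cfsg.H1.frattini_pgroup_ge 2 hG
  letI : CommGroup (G ⧸ frattini G) :=
    { (inferInstance : Group (G ⧸ frattini G)) with
      mul_comm := by
        intro a b
        induction a using QuotientGroup.induction_on with
        | H a =>
        induction b using QuotientGroup.induction_on with
        | H b =>
        rw [← QuotientGroup.mk_mul, ← QuotientGroup.mk_mul, QuotientGroup.eq]
        have h3 : b⁻¹ * a⁻¹ * (b⁻¹)⁻¹ * (a⁻¹)⁻¹ ∈ frattini G :=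
          h1 (Subgroup.commutator_mem_commutator (Subgroup.mem_top b⁻¹) (Subgroup.mem_top a⁻¹))
        have h4 : (a * b)⁻¹ * (b * a) = b⁻¹ * a⁻¹ * (b⁻¹)⁻¹ * (a⁻¹)⁻¹ := by group
        rw [h4]; exact h3 }
  refine Cfsg.Agent.Lib.Helper21.two_pow_dvd_card_sq_eq_one hG (QuotientGroup.mk' (frattini G))
    (QuotientGroup.mk'_surjective _) ?_ k hgen
  intro v
  induction v using QuotientGroup.induction_on with
  | H a =>
  rw [← QuotientGroup.mk_mul, QuotientGroup.eq_one_iff, ← sq]
  exact h2 a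

end Cfsg.Agent.S4058
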