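import Mathlib
import Cfsg.Statements.S4065
import Cfsg.Agent.H14.SL2Syl2

set_option autoImplicit false

namespace Cfsg.Agent.S4065

open Cfsg.Agent.H14

theorem isTISubset_centralizer_of_CT {G : Type*} [Group G]
    (hCT : ∀ x y z : G, y ≠ 1 → x * y = y * x → y * z = z * y → x * z = z * x) (x : G) :
    Cfsg.IsTISubset (Subgroup.centralizer ({x} : Set G) : Set G) := by
  intro g hg c hc hgc
  by_contra hc1
  apply hg
  by_cases hx : x = 1
  · subst hx
    have : Subgroup.centralizer ({1} : Set G) = ⊤ := by
      ext h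
      simp [Subgroup.mem_centralizer_singleton_iff]
    rw [this, Subgroup.mem_normalizer_iff]
    intro h
    simp
  have hc' : c * x = x * c := Subgroup.mem_centralizer_singleton_iff.mp hc
  have hgc' : g * c * g⁻¹ * x = x * (g * c * g⁻¹) := Subgroup.mem_centralizer_singleton_iff.mp hgc
  have hgc1 : g * c * g⁻¹ ≠ 1 := by
    intro h
    apply hc1
    have : c = g⁻¹ * (g * c * g⁻¹) * g := by group
    rw [this, h]; group
  rw [Subgroup.mem_normalizer_iff]
  intro h
  rw [Subgroup.mem_centralizer_singleton_iff, Subgroup.mem_centralizer_singleton_iff]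
  constructor
  · intro hh
    have h1 : h * c = c * h := hCT h x c hx hh hc'.symm
    have h2 : g * h * g⁻¹ * (g * c * g⁻¹) = g * c * g⁻¹ * (g * h * g⁻¹) := by
      have e1 : g * h * g⁻¹ * (g * c * g⁻¹) = g * (h * c) * g⁻¹ := by group
      rw [e1, h1]; group
    exact hCT _ _ _ hgc1 h2 hgc'
  · intro hh
    have h1 : g * h * g⁻¹ * (g * c * g⁻¹) = g * c * g⁻¹ * (g * h * g⁻¹) := hCT _ x _ hx hh hgc'.symm
    have h2 : h * c = c * h := by
      have e1 : h * c = g⁻¹ * (g * h * g⁻¹ * (g * c * g⁻¹)) * g := by group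
      rw [e1, h1]; group
    exact hCT _ _ _ hc1 h2 hc'

theorem result (n : ℕ) (hn : 2 ≤ n)
    (x : Matrix.ProjectiveSpecialLinearGroup (Fin 2) (GaloisField 2 n)) :
    Cfsg.IsTISubset (Subgroup.centralizer ({x} : Set (Matrix.ProjectiveSpecialLinearGroup (Fin 2) (GaloisField 2 n))) :
      Set (Matrix.ProjectiveSpecialLinearGroup (Fin 2) (GaloisField 2 n))) := by
  apply isTISubset_centralizer_of_CT
  have hneg : (-1 : (GaloisField 2 n)ˣ) = 1 := by
    apply Units.ext
    simp only [Units.val_neg, Units.val_one]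
    exact CharTwo.neg_eq 1
  have hker : ∀ z : Matrix.SpecialLinearGroup (Fin 2) (GaloisField 2 n),
      (QuotientGroup.mk z : Matrix.ProjectiveSpecialLinearGroup (Fin 2) (GaloisField 2 n)) = 1 ↔ z = 1 := by
    intro z
    rw [QuotientGroup.eq_one_iff, mem_center_iff_eq, hneg, dg_one, or_self]
  have hinj : ∀ a b : Matrix.SpecialLinearGroup (Fin 2) (GaloisField 2 n),
      (QuotientGroup.mk a : Matrix.ProjectiveSpecialLinearGroup (Fin 2) (GaloisField 2 n)) = QuotientGroup.mk b →
      a = b := by
    intro a b h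
    have : (QuotientGroup.mk (a * b⁻¹) : Matrix.ProjectiveSpecialLinearGroup (Fin 2) (GaloisField 2 n)) = 1 := by
      rw [QuotientGroup.mk_mul, QuotientGroup.mk_inv, h]; simp
    exact mul_inv_eq_one.mp ((hker _).mp this)
  intro a b c hb hab hbc
  induction a using QuotientGroup.induction_on with
  | H a =>
  induction b using QuotientGroup.induction_on with
  | H b =>
  induction c using QuotientGroup.induction_on with
  | H c =>
    have hb1 : b ≠ 1 := by
      rintro rfl
      exact hb rfl
    have hbs : ¬ IsScal b.1 := by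
      rw [isScal_iff_eq, hneg, dg_one, or_self]
      exact hb1
    have h1 : a * b = b * a := hinj _ _ hab
    have h2 : b * c = c * b := hinj _ _ hbc
    have := centralizer_comm b hbs (Subgroup.mem_centralizer_singleton_iff.mpr h1)
      (Subgroup.mem_centralizer_singleton_iff.mpr h2.symm)
    rw [← QuotientGroup.mk_mul, ← QuotientGroup.mk_mul, this]

end Cfsg.Agent.S4065
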