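import Cfsg.Statements.S4066
import Cfsg.Agent.Lib.Helper16.TI
import Cfsg.Agent.Lib.Helper16.TI2

set_option autoImplicit false
open Cfsg

namespace Cfsg.Agent.S4066

open Cfsg.Agent.Lib.Helper16


/-- Let G be a finite group in which the centralizer of every element meets each of its conjugates by elements outside its normalizer trivially. Then any two distinct Sylow p-subgroups of G, for any prime p, intersect trivially. -/
theorem result {G : Type*} [Group G] [Finite G] (hTI : ∀ x : G, Cfsg.IsTISubset (Subgroup.centralizer ({x} : Set G) : Set G))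
    {p : ℕ} [Fact p.Prime] (P Q : Sylow p G) (hPQ : P ≠ Q) : (P : Subgroup G) ⊓ (Q : Subgroup G) = ⊥ := by
  by_contra hne
  obtain ⟨y0, hy1⟩ := Subgroup.ne_bot_iff_exists_ne_one.1 hne
  obtain ⟨x, hx⟩ := y0
  have hx1 : x ≠ 1 := fun h => hy1 (Subtype.ext h)
  rw [Subgroup.mem_inf] at hx
  have hnt : Nontrivial ↥(P : Subgroup G) := ⟨⟨⟨x, hx.1⟩, 1, fun h => hx1 (congrArg Subtype.val h)⟩⟩
  have hnt2 : Nontrivial ↥(Subgroup.center ↥(P : Subgroup G)) := IsPGroup.center_nontrivial P.2
  obtain ⟨⟨⟨z, hzP⟩, hzc⟩, hz1⟩ := exists_ne (1 : ↥(Subgroup.center ↥(P : Subgroup G)))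
  have hz1' : z ≠ 1 := fun h => hz1 (Subtype.ext (Subtype.ext h))
  have hzcomm : ∀ a ∈ (P : Subgroup G), a * z = z * a := by
    intro a ha
    have := (Subgroup.mem_center_iff.1 hzc) ⟨a, ha⟩
    exact congrArg Subtype.val this
  obtain ⟨g, hg⟩ := MulAction.exists_smul_eq G P Q
  have hQ : ∀ q : G, q ∈ (Q : Subgroup G) ↔ g⁻¹ * q * g ∈ (P : Subgroup G) := by
    intro q
    rw [← hg, Sylow.coe_subgroup_smul, mem_conj_smul]
  have hPC : (P : Subgroup G) ≤ Subgroup.centralizer ({z} : Set G) := by
    intro a ha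
    rw [Subgroup.mem_centralizer_singleton_iff]
    exact hzcomm a ha
  have hgN : g ∈ Subgroup.normalizer ((Subgroup.centralizer ({z} : Set G) : Subgroup G) : Set G) := by
    by_contra hn
    have h1 := hTI z g hn (g⁻¹ * x * g) (hPC ((hQ x).1 hx.2)) (by
      have : g * (g⁻¹ * x * g) * g⁻¹ = x := by group
      rw [this]; exact hPC hx.1)
    apply hx1
    have : x = g * (g⁻¹ * x * g) * g⁻¹ := by group
    rw [this, h1]; simp
  have hQC : (Q : Subgroup G) ≤ Subgroup.centralizer ({z} : Set G) := by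
    intro q hq
    have h1 := hPC ((hQ q).1 hq)
    have h2 := (Subgroup.mem_normalizer_iff.1 hgN _).1 h1
    have : g * (g⁻¹ * q * g) * g⁻¹ = q := by group
    rwa [this] at h2
  have hnorm : ∀ y ∈ Subgroup.centralizer ({z} : Set G), ∀ h ∈ Subgroup.centralizer ({z} : Set G),
      h ∈ Subgroup.normalizer ((Subgroup.centralizer ({y} : Set G) : Subgroup G) : Set G) := by
    intro y hy h hh
    by_contra hn
    rw [Subgroup.mem_centralizer_singleton_iff] at hy hh
    apply hz1'
    apply hTI y h hn z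
    · show z ∈ Subgroup.centralizer ({y} : Set G)
      rw [Subgroup.mem_centralizer_singleton_iff]; exact hy.symm
    · show h * z * h⁻¹ ∈ Subgroup.centralizer ({y} : Set G)
      rw [hh, mul_inv_cancel_right, Subgroup.mem_centralizer_singleton_iff]; exact hy.symm
  have hcc : ∀ y ∈ Subgroup.centralizer ({z} : Set G), ∀ h ∈ Subgroup.centralizer ({z} : Set G),
      (h * y * h⁻¹) * y = y * (h * y * h⁻¹) := by
    intro y hy h hh
    have h1 : y ∈ Subgroup.centralizer ({y} : Set G) := by
      rw [Subgroup.mem_centralizer_singleton_iff]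
    have h2 := (Subgroup.mem_normalizer_iff.1 (hnorm y hy h hh) _).1 h1
    rw [Subgroup.mem_centralizer_singleton_iff] at h2
    exact h2
  have hle : (P : Subgroup G) ≤ (Q : Subgroup G) := by
    intro y hy
    set S : Set G := {w | ∃ h ∈ Subgroup.centralizer ({z} : Set G), w = h * y * h⁻¹} with hS
    have hyC := hPC hy
    have hA : IsPGroup p ↥(Subgroup.closure S) := by
      apply isPGroup_closure_of_comm
      · rintro _ ⟨h, hh, rfl⟩ _ ⟨h', hh', rfl⟩
        have h1 := hcc y hyC (h⁻¹ * h') (Subgroup.mul_mem _ (Subgroup.inv_mem _ hh) hh')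
        have h2 : h * y * h⁻¹ * (h' * y * h'⁻¹) = h * (y * ((h⁻¹ * h') * y * (h⁻¹ * h')⁻¹)) * h⁻¹ := by
          group
        have h3 : h' * y * h'⁻¹ * (h * y * h⁻¹) = h * (((h⁻¹ * h') * y * (h⁻¹ * h')⁻¹) * y) * h⁻¹ := by
          group
        rw [h2, h3, h1]
      · rintro _ ⟨h, hh, rfl⟩
        obtain ⟨k, hk⟩ := P.2 ⟨y, hy⟩
        refine ⟨k, ?_⟩
        have hk' : y ^ (p ^ k) = 1 := congrArg Subtype.val hk
        rw [conj_pow, hk']; simp
    have hQA : (Q : Subgroup G) ≤ Subgroup.normalizer ((Subgroup.closure S : Subgroup G) : Set G) := by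
      intro q hq
      have hqC := hQC hq
      have hconj : ∀ c ∈ Subgroup.centralizer ({z} : Set G), ∀ a ∈ Subgroup.closure S,
          c * a * c⁻¹ ∈ Subgroup.closure S := by
        intro c hc a ha
        induction ha using Subgroup.closure_induction with
        | mem w hw =>
          obtain ⟨h, hh, rfl⟩ := hw
          apply Subgroup.subset_closure
          exact ⟨c * h, Subgroup.mul_mem _ hc hh, by group⟩
        | one => simp
        | mul a b _ _ iha ihb =>
          have : c * (a * b) * c⁻¹ = (c * a * c⁻¹) * (c * b * c⁻¹) := by group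
          rw [this]; exact Subgroup.mul_mem _ iha ihb
        | inv a _ iha =>
          have : c * a⁻¹ * c⁻¹ = (c * a * c⁻¹)⁻¹ := by group
          rw [this]; exact Subgroup.inv_mem _ iha
      rw [Subgroup.mem_normalizer_iff]
      intro a
      constructor
      · exact hconj q hqC a
      · intro ha
        have := hconj q⁻¹ (Subgroup.inv_mem _ hqC) _ ha
        have h2 : q⁻¹ * (q * a * q⁻¹) * q⁻¹⁻¹ = a := by group
        rwa [h2] at this
    have hsup := IsPGroup.to_sup_of_normal_left' hA Q.2 hQA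
    have heq := Q.3 hsup le_sup_right
    have hyA : y ∈ Subgroup.closure S :=
      Subgroup.subset_closure ⟨1, Subgroup.one_mem _, by simp⟩
    rw [← heq]
    exact (le_sup_left : Subgroup.closure S ≤ _) hyA
  exact hPQ (Sylow.ext (P.3 Q.2 hle).symm)

end Cfsg.Agent.S4066
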