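import Cfsg.Statements.S4072
import Mathlib
import Cfsg.Agent.H4.SelfNorm

set_option autoImplicit false
open Cfsg

namespace Cfsg.Agent.S4072

/-- A finite group in which every non-abelian subgroup is self-normalizing is solvable or simple. -/
theorem result {G : Type*} [Group G] [Finite G] (hS : ∀ H : Subgroup G, ¬ IsMulCommutative H → Subgroup.normalizer (H : Set G) = H) :
    Group.IsSolvable G ∨ IsSimpleGroup G := by
  classical
  by_contra hcon
  push Not at hcon
  obtain ⟨hns, hnsimp⟩ := hcon
  have hSN : Cfsg.Agent.H4.SelfNorm G := hS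
  have hnt : Nontrivial G := by
    by_contra h
    rw [not_nontrivial_iff_subsingleton] at h
    exact hns inferInstance
  have hab : ∀ N : Subgroup G, N.Normal → N ≠ ⊤ → IsMulCommutative N := by
    intro N hN hne
    by_contra hc
    have := hS N hc
    rw [Subgroup.normalizer_eq_top] at this
    exact hne this.symm
  have hext : ∀ (N : Subgroup G) (hN : N.Normal), N ≠ ⊤ → ¬ Group.IsSolvable (G ⧸ N) := by
    intro N hN hne hs
    have hc := hab N hN hne
    have : Group.IsSolvable N := Group.isSolvable_of_comm (fun a b => hc.is_comm.comm a b)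
    exact hns (Group.isSolvable_of_ker_le_range N.subtype (QuotientGroup.mk' N) (by simp))
  -- a `p`-element of `p'`-order is trivial
  have hone : ∀ {H : Type _} [Group H] (p : ℕ) (x : H) (k : ℕ), x ^ p ^ k = 1 →
      (orderOf x).Coprime p → x = 1 := by
    intro H _ p x k hk hco
    have d2 : orderOf x ∣ p ^ k := orderOf_dvd_of_pow_eq_one hk
    exact orderOf_eq_one_iff.1 (Nat.eq_one_of_dvd_coprimes (Nat.Coprime.pow_right k hco) dvd_rfl d2)
  obtain ⟨N, ⟨hNn, hNt⟩, hmax⟩ :=
    (Set.toFinite {N : Subgroup G | N.Normal ∧ N ≠ ⊤}).exists_maximal ⟨⊥, inferInstance, bot_ne_top⟩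
  have hmax' : ∀ K : Subgroup G, K.Normal → N ≤ K → K = N ∨ K = ⊤ := by
    intro K hK hle
    by_cases hKt : K = ⊤
    · exact Or.inr hKt
    · exact Or.inl (le_antisymm (hmax ⟨hK, hKt⟩ hle) hle)
  have hNb : N ≠ ⊥ := by
    rintro rfl
    apply hnsimp
    exact ⟨fun K hK => hmax' K hK bot_le⟩
  have hNc := hab N hNn hNt
  have hNle : N ≤ Subgroup.centralizer (N : Set G) := by
    intro a ha
    rw [Subgroup.mem_centralizer_iff]
    intro b hb
    exact congrArg Subtype.val (hNc.is_comm.comm ⟨b, hb⟩ ⟨a, ha⟩)
  rcases hmax' _ inferInstance hNle with hC | hC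
  · -- `C_G(N) = N`
    have hcyc : ∀ y : G ⧸ N, y ≠ 1 →
        Subgroup.normalizer ((Subgroup.zpowers y : Subgroup (G ⧸ N)) : Set (G ⧸ N)) =
          Subgroup.zpowers y := by
      intro y hy
      obtain ⟨x, rfl⟩ := QuotientGroup.mk_surjective y
      have hxN : x ∉ N := fun h => hy ((QuotientGroup.eq_one_iff x).2 h)
      set Y := (Subgroup.zpowers (x : G ⧸ N)).comap (QuotientGroup.mk' N) with hY
      have hYnc : ¬ IsMulCommutative Y := by
        intro hc
        apply hxN
        rw [← hC, Subgroup.mem_centralizer_iff]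
        intro n hn
        have hnY : n ∈ Y := by
          rw [hY, Subgroup.mem_comap, QuotientGroup.mk'_apply, (QuotientGroup.eq_one_iff n).2 hn]
          exact one_mem _
        have hxY : x ∈ Y := by
          rw [hY, Subgroup.mem_comap]
          exact Subgroup.mem_zpowers _
        exact congrArg Subtype.val (hc.is_comm.comm ⟨n, hnY⟩ ⟨x, hxY⟩)
      have h1 := hS Y hYnc
      rw [hY, ← Subgroup.comap_normalizer_eq_of_surjective _ (QuotientGroup.mk'_surjective N)] at h1
      exact Subgroup.comap_injective (QuotientGroup.mk'_surjective N) h1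
    have hcard : Nat.card (G ⧸ N) ≠ 1 := by
      intro h
      apply hNt
      rw [← Subgroup.index_eq_one]
      exact h
    set r := (Nat.card (G ⧸ N)).minFac with hr
    have hrp : Fact r.Prime := ⟨Nat.minFac_prime hcard⟩
    have hrd : r ∣ Nat.card (G ⧸ N) := Nat.minFac_dvd _
    by_cases hF : Cfsg.Agent.Tr.Frob r (G ⧸ N)
    · obtain ⟨P, K, hK, hc⟩ := hF.hasNormalPComplement
      have hcc := hc.card_mul_card
      rcases hmax' (K.comap (QuotientGroup.mk' N)) (hK.comap _) (by
        intro n hn
        rw [Subgroup.mem_comap, QuotientGroup.mk'_apply, (QuotientGroup.eq_one_iff n).2 hn]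
        exact one_mem _) with h | h
      · have hKb : K = ⊥ := by
          apply Subgroup.comap_injective (QuotientGroup.mk'_surjective N)
          rw [h, MonoidHom.comap_bot, QuotientGroup.ker_mk']
        rw [hKb, Subgroup.card_bot, one_mul] at hcc
        obtain ⟨n, hn⟩ := (IsPGroup.iff_card).1 P.2
        have hpg : IsPGroup r (G ⧸ N) := IsPGroup.of_card (n := n) (by rw [← hcc, hn])
        have := hpg.isNilpotent
        exact hext N hNn hNt inferInstance
      · have hKt : K = ⊤ := by
          apply Subgroup.comap_injective (QuotientGroup.mk'_surjective N)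
          rw [h, Subgroup.comap_top]
        rw [hKt, Subgroup.card_top] at hcc
        have h2 : Nat.card (P : Subgroup (G ⧸ N)) = 1 := by
          have hpos := Nat.card_pos (α := G ⧸ N)
          exact Nat.eq_of_mul_eq_mul_left hpos (by rw [hcc, mul_one])
        exact P.ne_bot_of_dvd_card hrd (Subgroup.card_eq_one.1 h2)
    · unfold Cfsg.Agent.Tr.Frob at hF
      push Not at hF
      obtain ⟨Q, hQ, g, hg, hco, hgc⟩ := hF
      have hQb : Q ≠ ⊥ := by
        rintro rfl
        apply hgc
        rw [Subgroup.mem_centralizer_iff]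
        intro a ha
        have : a = 1 := by simpa using ha
        rw [this]; simp
      have : Nontrivial Q := (Subgroup.nontrivial_iff_ne_bot Q).2 hQb
      have hcn := hQ.center_nontrivial
      obtain ⟨z, hz⟩ := exists_ne (1 : Subgroup.center Q)
      have hz1 : ((z : Q) : G ⧸ N) ≠ 1 := by
        intro h
        apply hz
        exact Subtype.ext (Subtype.ext h)
      have hQle : Q ≤ Subgroup.zpowers ((z : Q) : G ⧸ N) := by
        rw [← hcyc _ hz1]
        intro q hq
        apply Subgroup.centralizer_le_normalizer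
        rw [Subgroup.mem_centralizer_iff]
        intro w hw
        obtain ⟨m, rfl⟩ := Subgroup.mem_zpowers_iff.1 hw
        have h1 : (⟨q, hq⟩ : Q) * (z : Q) = (z : Q) * ⟨q, hq⟩ := (Subgroup.mem_center_iff.1 z.2 ⟨q, hq⟩)
        have h2 : q * ((z : Q) : G ⧸ N) = ((z : Q) : G ⧸ N) * q := congrArg Subtype.val h1
        exact ((show Commute q ((z : Q) : G ⧸ N) from h2).zpow_right m).eq.symm
      have hQeq : Q = Subgroup.zpowers ((z : Q) : G ⧸ N) :=
        le_antisymm hQle (by rw [Subgroup.zpowers_le]; exact (z : Q).2)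
      have hgQ : g ∈ Q := by
        rw [hQeq, hcyc _ hz1, ← hQeq] at hg
        exact hg
      obtain ⟨k, hk⟩ := hQ ⟨g, hgQ⟩
      have hk' : g ^ r ^ k = 1 := by simpa using congrArg Subtype.val hk
      have hg1 := hone r g k hk' hco
      apply hgc
      rw [hg1]
      exact one_mem _
  · -- `N` central
    have hcardN : Nat.card N ≠ 1 := fun h => hNb (Subgroup.card_eq_one.1 h)
    set p := (Nat.card N).minFac with hp
    have hpp : Fact p.Prime := ⟨Nat.minFac_prime hcardN⟩
    have hpd : p ∣ Nat.card N := Nat.minFac_dvd _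
    obtain ⟨z, hz⟩ := exists_prime_orderOf_dvd_card' p hpd
    have hzc : ∀ a : G, (z : G) * a = a * z := by
      intro a
      have : a ∈ Subgroup.centralizer (N : Set G) := by rw [hC]; trivial
      rw [Subgroup.mem_centralizer_iff] at this
      exact this z z.2
    have hz1 : (z : G) ≠ 1 := by
      intro h
      have : z = 1 := Subtype.ext h
      rw [this, orderOf_one] at hz
      exact hpp.out.one_lt.ne hz
    by_cases hF : Cfsg.Agent.Tr.Frob p G
    · obtain ⟨P, K, hK, hc⟩ := hF.hasNormalPComplement
      have hcc := hc.card_mul_card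
      have hKt : K ≠ ⊤ := by
        rintro rfl
        rw [Subgroup.card_top] at hcc
        have h2 : Nat.card (P : Subgroup G) = 1 := by
          have hpos := Nat.card_pos (α := G)
          exact Nat.eq_of_mul_eq_mul_left hpos (by rw [hcc, mul_one])
        exact P.ne_bot_of_dvd_card (hpd.trans (Subgroup.card_subgroup_dvd_card N))
          (Subgroup.card_eq_one.1 h2)
      apply hext K hK hKt
      have h3 : Nat.card (G ⧸ K) = Nat.card (P : Subgroup G) := by
        have h4 := K.card_mul_index
        rw [← hcc] at h4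
        exact Nat.eq_of_mul_eq_mul_left Nat.card_pos h4
      obtain ⟨n, hn⟩ := (IsPGroup.iff_card).1 P.2
      have hpg : IsPGroup p (G ⧸ K) := IsPGroup.of_card (n := n) (by rw [h3, hn])
      have := hpg.isNilpotent
      infer_instance
    · unfold Cfsg.Agent.Tr.Frob at hF
      push Not at hF
      obtain ⟨Q, hQ, g, hg, hco, hgc⟩ := hF
      have hQc : IsMulCommutative Q := by
        by_contra hnc
        have h1 := hS Q hnc
        rw [h1] at hg
        obtain ⟨k, hk⟩ := hQ ⟨g, hg⟩
        have hk' : g ^ p ^ k = 1 := by simpa using congrArg Subtype.val hk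
        have hg1 := hone p g k hk' hco
        apply hgc
        rw [hg1]
        exact one_mem _
      apply hz1
      refine hSN.fixed_eq_one Q hQ (fun a ha b hb => congrArg Subtype.val
        (hQc.is_comm.comm ⟨a, ha⟩ ⟨b, hb⟩)) g hg hco hgc z ⟨1, ?_⟩ (fun a _ => hzc a) (hzc g)
      rw [pow_one, ← Subgroup.coe_pow, ← hz, pow_orderOf_eq_one]
      rfl

end Cfsg.Agent.S4072
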