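import Cfsg.Statements.S4074
import Mathlib
-- import your own Cfsg.Agent.* helpers here

set_option autoImplicit false
open Cfsg

namespace Cfsg.Agent.S4074

/-- For n > 2, every non-abelian subgroup of the dihedral group of order 2n is self-normalizing if and only if n = 4 or n is odd. -/
theorem result (n : ℕ) (hn : 2 < n) :
    (∀ H : Subgroup (DihedralGroup n), ¬ IsMulCommutative H → Subgroup.normalizer (H : Set (DihedralGroup n)) = H) ↔
    (n = 4 ∨ Odd n) := by
  classical
  constructor
  · intro hall
    by_contra hcon
    push_neg at hcon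
    obtain ⟨h4, hodd⟩ := hcon
    have heven : Even n := Nat.not_odd_iff_even.mp hodd
    have hd : 2 ∣ n := heven.two_dvd
    have h6 : 6 ≤ n := by
      obtain ⟨m, hm⟩ := hd
      omega
    let c := ZMod.castHom hd (ZMod 2)
    let f : DihedralGroup n →* Multiplicative (ZMod 2) :=
      MonoidHom.mk' (fun x => match x with
        | DihedralGroup.r j => Multiplicative.ofAdd (c j)
        | DihedralGroup.sr j => Multiplicative.ofAdd (c j)) (by
        rintro (i | i) (j | j)
        · show Multiplicative.ofAdd (c (i + j)) = Multiplicative.ofAdd (c i) * Multiplicative.ofAdd (c j)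
          rw [map_add, ofAdd_add]
        · show Multiplicative.ofAdd (c (j - i)) = Multiplicative.ofAdd (c i) * Multiplicative.ofAdd (c j)
          rw [map_sub, CharTwo.sub_eq_add, add_comm, ofAdd_add]
        · show Multiplicative.ofAdd (c (i + j)) = Multiplicative.ofAdd (c i) * Multiplicative.ofAdd (c j)
          rw [map_add, ofAdd_add]
        · show Multiplicative.ofAdd (c (j - i)) = Multiplicative.ofAdd (c i) * Multiplicative.ofAdd (c j)
          rw [map_sub, CharTwo.sub_eq_add, add_comm, ofAdd_add])
    have hna : ¬ IsMulCommutative f.ker := by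
      intro hc
      have m1 : DihedralGroup.r (2 : ZMod n) ∈ f.ker := by
        rw [MonoidHom.mem_ker]
        show Multiplicative.ofAdd (c 2) = 1
        have : c 2 = 0 := by
          rw [map_ofNat]; decide
        rw [this]; rfl
      have m2 : DihedralGroup.sr (0 : ZMod n) ∈ f.ker := by
        rw [MonoidHom.mem_ker]
        show Multiplicative.ofAdd (c 0) = 1
        rw [map_zero]; rfl
      have h1 := hc.is_comm.comm (⟨_, m1⟩ : f.ker) ⟨_, m2⟩
      have h2 := congrArg Subtype.val h1
      simp only [Subgroup.coe_mul, DihedralGroup.r_mul_sr, DihedralGroup.sr_mul_r] at h2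
      have h3 : (0 : ZMod n) - 2 = 0 + 2 := by
        injection h2
      have h5 : ((4 : ℕ) : ZMod n) = 0 := by
        push_cast
        linear_combination -h3
      rw [ZMod.natCast_eq_zero_iff] at h5
      have := Nat.le_of_dvd (by norm_num) h5
      omega
    have h1 := hall f.ker hna
    have h2 : Subgroup.normalizer (f.ker : Set (DihedralGroup n)) = ⊤ :=
      Subgroup.normalizer_eq_top_iff.mpr inferInstance
    rw [h2] at h1
    have h3 : DihedralGroup.r (1 : ZMod n) ∈ f.ker := h1 ▸ Subgroup.mem_top _
    rw [MonoidHom.mem_ker] at h3
    have h4' : Multiplicative.ofAdd (c 1) = 1 := h3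
    rw [map_one] at h4'
    exact absurd h4' (by decide)
  · rintro (rfl | hodd)
    · intro H hH
      have hdvd : Nat.card H ∣ 2 ^ 3 := by
        have := Subgroup.card_subgroup_dvd_card H
        rw [DihedralGroup.nat_card] at this
        exact this
      obtain ⟨k, hk, hcard⟩ := (Nat.dvd_prime_pow Nat.prime_two).mp hdvd
      interval_cases k
      · exfalso
        apply hH
        have : Subsingleton H := (Nat.card_eq_one_iff_unique.mp (by simpa using hcard)).1
        exact ⟨⟨fun a b => Subsingleton.elim _ _⟩⟩
      · exfalso
        apply hH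
        haveI : Fact (Nat.Prime 2) := ⟨Nat.prime_two⟩
        haveI := isCyclic_of_prime_card (α := H) (p := 2) (by rw [hcard, pow_one])
        exact ⟨⟨fun a b => (IsCyclic.commGroup (α := H)).mul_comm a b⟩⟩
      · exfalso
        apply hH
        haveI : Fact (Nat.Prime 2) := ⟨Nat.prime_two⟩
        exact ⟨⟨IsPGroup.commutative_of_card_eq_prime_sq (p := 2) hcard⟩⟩
      · have : H = ⊤ := by
          apply Subgroup.eq_top_of_card_eq
          rw [hcard, DihedralGroup.nat_card]; norm_num
        rw [this]
        exact Subgroup.normalizer_eq_top_iff.mpr inferInstance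
    · intro H hH
      obtain ⟨m, hm⟩ := hodd
      have hn0 : (2 * (m : ZMod n) + 1) = 0 := by
        have : ((2 * m + 1 : ℕ) : ZMod n) = 0 := by rw [← hm]; exact ZMod.natCast_self n
        push_cast at this
        exact this
      obtain ⟨i, hi⟩ : ∃ i, DihedralGroup.sr i ∈ H := by
        by_contra hno
        push_neg at hno
        apply hH
        refine ⟨⟨?_⟩⟩
        rintro ⟨a, ha⟩ ⟨b, hb⟩
        apply Subtype.ext
        rcases a with a | a
        · rcases b with b | b
          · show DihedralGroup.r a * DihedralGroup.r b = DihedralGroup.r b * DihedralGroup.r a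
            rw [DihedralGroup.r_mul_r, DihedralGroup.r_mul_r, add_comm]
          · exact absurd hb (hno b)
        · exact absurd ha (hno a)
      have hrot : ∀ j, DihedralGroup.r j ∈ Subgroup.normalizer (H : Set (DihedralGroup n)) →
          DihedralGroup.r j ∈ H := by
        intro j hj
        have h1 := (Subgroup.mem_normalizer_iff.mp hj _).mp hi
        rw [DihedralGroup.r_mul_sr, DihedralGroup.inv_r, DihedralGroup.sr_mul_r] at h1
        have h2 := H.mul_mem h1 hi
        rw [DihedralGroup.sr_mul_sr] at h2
        have h3 := H.pow_mem h2 (m + 1)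
        rw [DihedralGroup.r_pow] at h3
        have : (i - (i - j + -j)) * ((m + 1 : ℕ) : ZMod n) = j := by
          push_cast
          linear_combination j * hn0
        rwa [this] at h3
      apply le_antisymm _ Subgroup.le_normalizer
      intro x hx
      rcases x with j | k
      · exact hrot j hx
      · have h1 : DihedralGroup.sr k * DihedralGroup.sr i ∈ Subgroup.normalizer (H : Set (DihedralGroup n)) :=
          Subgroup.mul_mem _ hx (Subgroup.le_normalizer hi)
        rw [DihedralGroup.sr_mul_sr] at h1
        have h2 := H.mul_mem (hrot _ h1) hi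
        rw [DihedralGroup.r_mul_sr] at h2
        have : i - (i - k) = k := by ring
        rwa [this] at h2

end Cfsg.Agent.S4074
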