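import Cfsg.Statements.S4075
import Mathlib

set_option autoImplicit false
open Cfsg

namespace Cfsg.Agent.S4075

/-- Let G be a finite nilpotent group. Every non-abelian subgroup of G is self-normalizing if and only if G is abelian or G is a minimal non-abelian p-group for some prime p (non-abelian of prime-power order with every proper subgroup abelian). -/
theorem result {G : Type*} [Group G] [Finite G]
    [Group.IsNilpotent G] :
    (∀ H : Subgroup G, ¬ IsMulCommutative H → Subgroup.normalizer (H : Set G) = H) ↔
    (IsMulCommutative G ∨ (IsPrimePow (Nat.card G) ∧ ¬ IsMulCommutative G ∧ ∀ H : Subgroup G, H ≠ ⊤ → IsMulCommutative H)) := by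
  constructor
  · intro h
    by_cases hc : IsMulCommutative G
    · exact Or.inl hc
    right
    have hprop : ∀ H : Subgroup G, H ≠ ⊤ → IsMulCommutative H := by
      intro H hH
      by_contra hn
      have h1 := h H hn
      have h2 : NormalizerCondition G := Group.normalizerCondition_of_isNilpotent
      exact hH ((normalizerCondition_iff_only_full_group_self_normalizing.mp h2) H h1)
    refine ⟨?_, hc, hprop⟩
    by_contra hpp
    apply hc
    have hnil : Group.IsNilpotent G := inferInstance
    obtain ⟨e⟩ := ((Group.isNilpotent_of_finite_tfae (G := G)).out 0 4).mp hnil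
    have hS : ∀ (p : (Nat.card G).primeFactors) (P : Sylow p G), IsMulCommutative (P : Subgroup G) := by
      intro p P
      apply hprop
      intro htop
      apply hpp
      have hp : (p : ℕ).Prime := Nat.prime_of_mem_primeFactors p.2
      haveI := Fact.mk hp
      have hPG : IsPGroup p G := by
        have := P.isPGroup'
        rw [htop] at this
        exact this.of_equiv Subgroup.topEquiv
      obtain ⟨n, hn⟩ := IsPGroup.iff_card.mp hPG
      rw [isPrimePow_nat_iff]
      refine ⟨p, n, hp, ?_, hn.symm⟩
      rcases Nat.eq_zero_or_pos n with rfl | hpos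
      · exfalso
        have hdvd : (p : ℕ) ∣ Nat.card G := Nat.dvd_of_mem_primeFactors p.2
        have h1 : Nat.card G = 1 := by simpa using hn
        exact hp.one_lt.ne' (Nat.dvd_one.mp (h1 ▸ hdvd))
      · exact hpos
    rw [isMulCommutative_iff]
    intro a b
    obtain ⟨a, rfl⟩ := e.surjective a
    obtain ⟨b, rfl⟩ := e.surjective b
    rw [← map_mul, ← map_mul]
    congr 1
    funext p P
    haveI := hS p P
    exact mul_comm' (a p P) (b p P)
  · rintro (hc | ⟨_, _, hprop⟩) H hH
    · exact absurd (IsMulCommutative.of_comm fun a b => Subtype.ext (mul_comm' (a : G) (b : G))) hH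
    · have : H = ⊤ := by
        by_contra hne
        exact hH (hprop H hne)
      subst this
      exact Subgroup.normalizer_eq_top_iff.mpr inferInstance

end Cfsg.Agent.S4075
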