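import Cfsg.Statements.S4080

set_option autoImplicit false
open Cfsg

namespace Cfsg.Agent.S4080

open Matrix Polynomial

theorem exists_mul {p : ℕ} [Fact p.Prime] (r : ZMod (p ^ 2)) (h : p ∣ r.val) :
    ∃ s : ZMod (p ^ 2), r = (p : ZMod (p ^ 2)) * s := by
  have : NeZero (p ^ 2) := ⟨pow_ne_zero _ (Fact.out : p.Prime).ne_zero⟩
  obtain ⟨k, hk⟩ := h
  refine ⟨(k : ZMod (p ^ 2)), ?_⟩
  rw [← Nat.cast_mul, ← hk, ZMod.natCast_zmod_val]

theorem pp_zero {p : ℕ} : (p : ZMod (p ^ 2)) * (p : ZMod (p ^ 2)) = 0 := by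
  rw [← Nat.cast_mul, ← pow_two, ZMod.natCast_self]

theorem nilp_sq {p : ℕ} [Fact p.Prime] (M : Matrix (Fin 2) (Fin 2) (ZMod p)) (h : IsNilpotent M) :
    M ^ 2 = 0 := by
  have h1 := Matrix.isNilpotent_charpoly_sub_pow_of_isNilpotent h
  have h2 : M.charpoly = X ^ 2 := by
    have := h1.eq_zero
    rw [Fintype.card_fin] at this
    exact sub_eq_zero.1 this
  have h3 := Matrix.aeval_self_charpoly M
  rw [h2] at h3
  simpa using h3

theorem expand {R : Type*} [Ring R] (M : R) (h4 : M ^ 4 = 0) (n : ℕ) :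
    (1 + M) ^ n = 1 + n • M + (n.choose 2) • M ^ 2 + (n.choose 3) • M ^ 3 := by
  induction n with
  | zero => simp
  | succ n ih =>
    rw [pow_succ, ih]
    have e1 : (n + 1).choose 2 = n.choose 2 + n := by
      rw [Nat.choose_succ_succ' n 1, Nat.choose_one_right, add_comm]
    have e2 : (n + 1).choose 3 = n.choose 3 + n.choose 2 := by
      rw [Nat.choose_succ_succ' n 2, add_comm]
    rw [e1, e2]
    have m2 : M * M = M ^ 2 := (pow_two M).symm
    have m3 : M ^ 2 * M = M ^ 3 := (pow_succ M 2).symm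
    have m4 : M ^ 3 * M = 0 := by rw [← pow_succ]; exact h4
    simp only [mul_add, add_mul, mul_one, one_mul, smul_mul_assoc, m2, m3, m4, smul_zero, add_zero,
      add_smul, one_smul]
    abel

theorem mat {p : ℕ} [Fact p.Prime] (hp : 3 < p) (A : Matrix (Fin 2) (Fin 2) (ZMod (p ^ 2)))
    (hA : A ^ p = 1) : p • (A - 1) = 0 := by
  have : NeZero (p ^ 2) := ⟨pow_ne_zero _ (Fact.out : p.Prime).ne_zero⟩
  have hpp : p.Prime := Fact.out
  set ρ : ZMod (p ^ 2) →+* ZMod p := ZMod.castHom (dvd_pow_self p two_ne_zero) (ZMod p) with hρ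
  set M := A - 1 with hM
  have h1 : (ρ.mapMatrix M) ^ p = 0 := by
    rw [hM, map_sub, map_one, sub_pow_char_of_commute _ (Commute.one_right _), one_pow, ← map_pow, hA,
      map_one, sub_self]
  have h2 : (ρ.mapMatrix M) ^ 2 = 0 := nilp_sq _ ⟨p, h1⟩
  have h3 : ∀ i j, ∃ s, (M ^ 2) i j = (p : ZMod (p ^ 2)) * s := by
    intro i j
    apply exists_mul
    have h4 : ρ ((M ^ 2) i j) = 0 := by
      have := congrFun (congrFun h2 i) j
      rw [← map_pow] at this
      simpa using this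
    rw [hρ, ZMod.castHom_apply, ZMod.cast_eq_val, ZMod.natCast_eq_zero_iff] at h4
    exact h4
  choose K hK using h3
  have hMK : M ^ 2 = (p : ZMod (p ^ 2)) • (Matrix.of K) := by
    ext i j
    rw [hK]; rfl
  have h5 : p • M ^ 2 = 0 := by
    rw [← Nat.cast_smul_eq_nsmul (ZMod (p ^ 2)), hMK, smul_smul, pp_zero, zero_smul]
  have h6 : M ^ 4 = 0 := by
    have : M ^ 4 = M ^ 2 * M ^ 2 := by rw [← pow_add]
    rw [this, hMK, smul_mul_smul_comm, pp_zero, zero_smul]
  have h7 := expand M h6 p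
  have hA' : 1 + M = A := by rw [hM]; abel
  rw [hA', hA] at h7
  have h8 : (p.choose 2) • M ^ 2 = 0 := by
    obtain ⟨c, hc⟩ := hpp.dvd_choose_self (k := 2) (by norm_num) (by omega)
    rw [hc, mul_comm, mul_smul, h5, smul_zero]
  have h9 : (p.choose 3) • M ^ 3 = 0 := by
    obtain ⟨c, hc⟩ := hpp.dvd_choose_self (k := 3) (by norm_num) (by omega)
    have : p • M ^ 3 = 0 := by
      rw [pow_succ M 2, ← smul_mul_assoc, h5, zero_mul]
    rw [hc, mul_comm, mul_smul, this, smul_zero]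
  rw [h8, h9, add_zero, add_zero] at h7
  exact (left_eq_add.1 h7)

theorem dvd_val {p : ℕ} [Fact p.Prime] (r : ZMod (p ^ 2)) (h : p • r = 0) : p ∣ r.val := by
  have : NeZero (p ^ 2) := ⟨pow_ne_zero _ (Fact.out : p.Prime).ne_zero⟩
  have h1 : ((p * r.val : ℕ) : ZMod (p ^ 2)) = 0 := by
    rw [Nat.cast_mul, ZMod.natCast_zmod_val, ← nsmul_eq_mul]; exact h
  rw [ZMod.natCast_eq_zero_iff] at h1
  have h2 : p * p ∣ p * r.val := by rw [← pow_two]; exact h1
  exact Nat.dvd_of_mul_dvd_mul_left (Fact.out : p.Prime).pos h2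

/-- Let p > 3 be a prime and L the direct product of two cyclic groups of order p². Every automorphism of L of order p fixes every element of order p of L. -/
theorem result {p : ℕ} [Fact p.Prime] (hp : 3 < p)
    (a : MulAut (Multiplicative (ZMod (p ^ 2) × ZMod (p ^ 2)))) (ha : orderOf a = p)
    (x : Multiplicative (ZMod (p ^ 2) × ZMod (p ^ 2))) (hx : orderOf x = p) : a x = x := by
  let φ : ((ZMod (p ^ 2)) × (ZMod (p ^ 2))) →+ ((ZMod (p ^ 2)) × (ZMod (p ^ 2))) := AddMonoidHom.mk' (fun v => (a (Multiplicative.ofAdd v)).toAdd) (by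
    intro u v
    rw [ofAdd_add, map_mul, toAdd_mul])
  let f : Module.End (ZMod (p ^ 2)) ((ZMod (p ^ 2)) × (ZMod (p ^ 2))) := φ.toZModLinearMap (p ^ 2)
  have hf : ∀ v, f v = (a (Multiplicative.ofAdd v)).toAdd := fun v => rfl
  have hfn : ∀ (n : ℕ) v, (f ^ n) v = ((a ^ n) (Multiplicative.ofAdd v)).toAdd := by
    intro n
    induction n with
    | zero => intro v; simp
    | succ n ih =>
      intro v
      rw [pow_succ' f n, pow_succ' a n, Module.End.mul_apply, MulAut.mul_apply, hf, ih]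
      rfl
  have hfp : f ^ p = 1 := by
    apply LinearMap.ext
    intro v
    have hap : a ^ p = 1 := by
      have := pow_orderOf_eq_one a
      rwa [ha] at this
    rw [hfn, hap]
    rfl
  let b := Module.Basis.finTwoProd (ZMod (p ^ 2))
  have hA : (LinearMap.toMatrixAlgEquiv b f) ^ p = 1 := by
    rw [← map_pow, hfp, map_one]
  have h1 := mat hp _ hA
  have h2 : p • (f - 1) = 0 := by
    apply (LinearMap.toMatrixAlgEquiv b).injective
    rw [map_nsmul, map_sub, map_one, map_zero]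
    exact h1
  have hxp : p • x.toAdd = 0 := by
    have : x ^ p = 1 := by
      have := pow_orderOf_eq_one x
      rwa [hx] at this
    have h3 := congrArg Multiplicative.toAdd this
    rwa [toAdd_pow, toAdd_one] at h3
  obtain ⟨s1, hs1⟩ := exists_mul x.toAdd.1 (dvd_val _ (congrArg Prod.fst hxp))
  obtain ⟨s2, hs2⟩ := exists_mul x.toAdd.2 (dvd_val _ (congrArg Prod.snd hxp))
  have hy : x.toAdd = p • ((s1, s2) : (ZMod (p ^ 2)) × (ZMod (p ^ 2))) := by
    apply Prod.ext
    · rw [hs1]; simp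
    · rw [hs2]; simp
  have h3 : f x.toAdd = x.toAdd := by
    rw [hy, map_nsmul]
    have h4 := LinearMap.congr_fun h2 ((s1, s2) : (ZMod (p ^ 2)) × (ZMod (p ^ 2)))
    rw [LinearMap.smul_apply, LinearMap.sub_apply, Module.End.one_apply, LinearMap.zero_apply, smul_sub,
      sub_eq_zero] at h4
    exact h4
  have h5 : (a x).toAdd = x.toAdd := h3
  exact Multiplicative.toAdd.injective h5

end Cfsg.Agent.S4080
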