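import Cfsg.Statements.S4084
import Mathlib

set_option autoImplicit false
open Cfsg

namespace Cfsg.Agent.S4084

theorem aux {G H : Type*} [Group G] [Finite G] [Group H] [Finite H] (e : G ≃ H)
    (he : ∀ x y : G, Commute x y ↔ Commute (e x) (e y))
    {p q : ℕ} (hp : p.Prime) (hq : q.Prime) (hpq : p ≠ q) :
    (∃ g : G, orderOf g = p * q) → (∃ h : H, orderOf h = p * q) := by
  rintro ⟨g, hg⟩
  set A : Subgroup G := Subgroup.centralizer (Subgroup.centralizer ({g} : Set G) : Set G) with hA
  set B : Subgroup H := Subgroup.centralizer (Subgroup.centralizer ({e g} : Set H) : Set H) with hB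
  have memA : ∀ x : G, x ∈ A ↔ ∀ y : G, Commute y g → Commute y x := by
    intro x
    rw [hA, Subgroup.mem_centralizer_iff]
    constructor
    · intro h y hy
      exact h y (by
        rw [SetLike.mem_coe, Subgroup.mem_centralizer_iff]
        intro z hz
        rw [Set.mem_singleton_iff] at hz
        subst hz
        exact hy.symm.eq)
    · intro h y hy
      rw [SetLike.mem_coe, Subgroup.mem_centralizer_iff] at hy
      exact (h y (hy g rfl).symm)
  have memB : ∀ x : H, x ∈ B ↔ ∀ y : H, Commute y (e g) → Commute y x := by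
    intro x
    rw [hB, Subgroup.mem_centralizer_iff]
    constructor
    · intro h y hy
      exact h y (by
        rw [SetLike.mem_coe, Subgroup.mem_centralizer_iff]
        intro z hz
        rw [Set.mem_singleton_iff] at hz
        subst hz
        exact hy.symm.eq)
    · intro h y hy
      rw [SetLike.mem_coe, Subgroup.mem_centralizer_iff] at hy
      exact (h y (hy (e g) rfl).symm)
  have hAB : ∀ x : G, x ∈ A ↔ e x ∈ B := by
    intro x
    rw [memA, memB]
    constructor
    · intro h y hy
      obtain ⟨y, rfl⟩ := e.surjective y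
      exact (he y x).mp (h y ((he y g).mpr hy))
    · intro h y hy
      exact (he y x).mpr (h (e y) ((he y g).mp hy))
  have hcard : Nat.card A = Nat.card B := Nat.card_congr (e.subtypeEquiv hAB)
  have hgA : g ∈ A := (memA g).mpr fun y hy => hy
  have hdvd : p * q ∣ Nat.card B := by
    rw [← hcard, ← hg]
    exact Subgroup.orderOf_dvd_natCard A hgA
  haveI := Fact.mk hp
  haveI := Fact.mk hq
  obtain ⟨b1, hb1⟩ := exists_prime_orderOf_dvd_card' (G := B) p (Dvd.dvd.trans (Dvd.intro _ rfl) hdvd)
  obtain ⟨b2, hb2⟩ := exists_prime_orderOf_dvd_card' (G := B) q (Dvd.dvd.trans (Dvd.intro_left _ rfl) hdvd)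
  have hc : Commute (b1 : H) (b2 : H) := by
    have h2 : Commute (b1 : H) (e g) := ((memB b1).mp b1.2 (e g) (Commute.refl _)).symm
    exact (memB b2).mp b2.2 b1 h2
  refine ⟨(b1 : H) * (b2 : H), ?_⟩
  rw [hc.orderOf_mul_eq_mul_orderOf_of_coprime, Subgroup.orderOf_coe, Subgroup.orderOf_coe, hb1, hb2]
  rw [Subgroup.orderOf_coe, Subgroup.orderOf_coe, hb1, hb2]
  exact (Nat.coprime_primes hp hq).mpr hpq


/-- Let G and H be finite groups whose commuting graphs are isomorphic: there is a bijection e : G → H with x, y commuting exactly when e(x), e(y) commute. Then G and H have the same prime graph: for distinct primes p, q, G has an element of order pq if and only if H does (and #G = #H, so the prime divisors agree). -/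
theorem result {G H : Type*} [Group G] [Finite G] [Group H] [Finite H] (e : G ≃ H)
    (he : ∀ x y : G, Commute x y ↔ Commute (e x) (e y))
    {p q : ℕ} (hp : p.Prime) (hq : q.Prime) (hpq : p ≠ q) :
    (∃ g : G, orderOf g = p * q) ↔ (∃ h : H, orderOf h = p * q) := by
  constructor
  · exact aux e he hp hq hpq
  · apply aux e.symm _ hp hq hpq
    intro x y
    rw [he]
    simp

end Cfsg.Agent.S4084
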