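import Cfsg.Statements.S4086
import Mathlib

set_option autoImplicit false
open Cfsg

namespace Cfsg.Agent.S4086

theorem gcd_mem {G : Type*} [Group G] (z : G) (n b : ℕ) (hz : z ^ n = 1) :
    z ^ (Nat.gcd b n) ∈ Subgroup.zpowers (z ^ b) := by
  rw [Subgroup.mem_zpowers_iff]
  refine ⟨Nat.gcdA b n, ?_⟩
  have h := Nat.gcd_eq_gcd_ab b n
  rw [← zpow_natCast z (Nat.gcd b n), h, zpow_add, zpow_mul, zpow_mul, zpow_natCast, zpow_natCast, hz]
  simp

theorem comparable {G : Type*} [Group G] (z : G) (p k a b : ℕ) (hp : p.Prime) (hz : z ^ (p ^ k) = 1) :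
    z ^ a ∈ Subgroup.zpowers (z ^ b) ∨ z ^ b ∈ Subgroup.zpowers (z ^ a) := by
  obtain ⟨i, _, hi⟩ := (Nat.dvd_prime_pow hp).mp (Nat.gcd_dvd_right a (p ^ k))
  obtain ⟨j, _, hj⟩ := (Nat.dvd_prime_pow hp).mp (Nat.gcd_dvd_right b (p ^ k))
  rcases le_total i j with h | h
  · right
    have h1 : Nat.gcd a (p ^ k) ∣ b := by
      rw [hi]
      exact (pow_dvd_pow p h).trans (hj ▸ Nat.gcd_dvd_left b (p ^ k))
    obtain ⟨c, hc⟩ := h1
    rw [hc, pow_mul]
    exact Subgroup.pow_mem _ (gcd_mem z _ a hz) c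
  · left
    have h1 : Nat.gcd b (p ^ k) ∣ a := by
      rw [hj]
      exact (pow_dvd_pow p h).trans (hi ▸ Nat.gcd_dvd_left a (p ^ k))
    obtain ⟨c, hc⟩ := h1
    rw [hc, pow_mul]
    exact Subgroup.pow_mem _ (gcd_mem z _ b hz) c


/-- For a finite group G the following are equivalent: every non-identity element has prime-power order; whenever two elements generate a cyclic subgroup, one of them is a power of the other (the enhanced power graph of G coincides with its power graph). -/
theorem result {G : Type*} [Group G] [Finite G] :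
    (∀ g : G, g ≠ 1 → IsPrimePow (orderOf g)) ↔
    (∀ x y : G, IsCyclic ↥(Subgroup.closure ({x, y} : Set G)) → (x ∈ Subgroup.zpowers y ∨ y ∈ Subgroup.zpowers x)) := by
  constructor
  · intro h x y hc
    obtain ⟨z, hz⟩ := hc.exists_generator
    have hx : x ∈ Subgroup.closure ({x, y} : Set G) := Subgroup.subset_closure (by simp)
    have hy : y ∈ Subgroup.closure ({x, y} : Set G) := Subgroup.subset_closure (by simp)
    have hx' := hz ⟨x, hx⟩
    have hy' := hz ⟨y, hy⟩
    rw [← mem_powers_iff_mem_zpowers, Submonoid.mem_powers_iff] at hx' hy'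
    obtain ⟨a, ha⟩ := hx'
    obtain ⟨b, hb⟩ := hy'
    have ha' : (z : G) ^ a = x := by simpa using congrArg Subtype.val ha
    have hb' : (z : G) ^ b = y := by simpa using congrArg Subtype.val hb
    by_cases hz1 : (z : G) = 1
    · left
      rw [← ha', hz1, one_pow]
      exact Subgroup.one_mem _
    · obtain ⟨p, k, hp, _, hpk⟩ := (isPrimePow_nat_iff _).mp (h (z : G) hz1)
      have := comparable (z : G) p k a b hp (by rw [hpk]; exact pow_orderOf_eq_one _)
      rwa [ha', hb'] at this
  · intro h g hg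
    have hn0 : orderOf g ≠ 0 := (orderOf_pos g).ne'
    have hn1 : orderOf g ≠ 1 := by rwa [Ne, orderOf_eq_one_iff]
    set p := (orderOf g).minFac with hpdef
    have hp : p.Prime := Nat.minFac_prime hn1
    obtain ⟨k, m, hpm, hn⟩ := Nat.exists_eq_pow_mul_and_not_dvd hn0 p hp.ne_one
    have hk0 : k ≠ 0 := by
      rintro rfl
      apply hpm
      have : p ∣ orderOf g := Nat.minFac_dvd _
      rwa [hn, pow_zero, one_mul] at this
    by_cases hm1 : m = 1
    · rw [isPrimePow_nat_iff]
      exact ⟨p, k, hp, Nat.pos_of_ne_zero hk0, by rw [hn, hm1, mul_one]⟩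
    exfalso
    have hm0 : m ≠ 0 := by rintro rfl; exact hpm (dvd_zero p)
    have hpk0 : p ^ k ≠ 0 := pow_ne_zero _ hp.ne_zero
    have ox : orderOf (g ^ (p ^ k)) = m := by
      rw [orderOf_pow_of_dvd hpk0 (hn ▸ Dvd.intro _ rfl), hn, Nat.mul_div_cancel_left _ (Nat.pos_of_ne_zero hpk0)]
    have oy : orderOf (g ^ m) = p ^ k := by
      rw [orderOf_pow_of_dvd hm0 (hn ▸ Dvd.intro_left _ rfl), hn, Nat.mul_div_cancel _ (Nat.pos_of_ne_zero hm0)]
    have hle : Subgroup.closure ({g ^ (p ^ k), g ^ m} : Set G) ≤ Subgroup.zpowers g := by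
      rw [Subgroup.closure_le]
      intro w hw
      rcases hw with rfl | rfl
      · exact Subgroup.pow_mem _ (Subgroup.mem_zpowers g) _
      · exact Subgroup.pow_mem _ (Subgroup.mem_zpowers g) _
    have hcyc : IsCyclic ↥(Subgroup.closure ({g ^ (p ^ k), g ^ m} : Set G)) := Subgroup.isCyclic_of_le hle
    rcases h _ _ hcyc with h1 | h1
    · have := orderOf_dvd_of_mem_zpowers h1
      rw [ox, oy] at this
      obtain ⟨i, _, hi⟩ := (Nat.dvd_prime_pow hp).mp this
      rcases Nat.eq_zero_or_pos i with rfl | hi0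
      · exact hm1 (by simpa using hi)
      · exact hpm (hi ▸ dvd_pow_self p hi0.ne')
    · have := orderOf_dvd_of_mem_zpowers h1
      rw [ox, oy] at this
      exact hpm ((dvd_pow_self p hk0).trans this)

end Cfsg.Agent.S4086
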