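import Cfsg.Statements.S4089
import Mathlib
import Cfsg.Agent.Lib.Helper21.Subnormalizer

set_option autoImplicit false
open Cfsg

namespace Cfsg.Agent.S4089

/-- Let G be a finite group, p a prime and H a p-subgroup of G. Then the set of elements g of G such that H is subnormal in the subgroup generated by H and g is the union of the normalizers N_G(R) over the subgroups R of G containing H with R = O_p(N_G(R)); and this set does not change when H is replaced by the intersection of all Sylow p-subgroups of G containing H. -/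
theorem result {G : Type*} [Group G] [Finite G] (p : ℕ) [Fact p.Prime]
    (H : Subgroup G) (hH : IsPGroup p H) :
    {g : G | ((H).subgroupOf (H ⊔ Subgroup.zpowers g)).IsSubnormal} =
      {g : G | ∃ R : Subgroup G, H ≤ R ∧ (Cfsg.pCore p (Subgroup.normalizer (R : Set G))).map (Subgroup.normalizer (R : Set G)).subtype = R ∧ g ∈ Subgroup.normalizer (R : Set G)} ∧
    ∀ g : G, (((H).subgroupOf (H ⊔ Subgroup.zpowers g)).IsSubnormal ↔
      (((sInf {K : Subgroup G | ∃ Q : Sylow p G, H ≤ (Q : Subgroup G) ∧ K = (Q : Subgroup G)})).subgroupOf ((sInf {K : Subgroup G | ∃ Q : Sylow p G, H ≤ (Q : Subgroup G) ∧ K = (Q : Subgroup G)}) ⊔ Subgroup.zpowers g)).IsSubnormal) := by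
  have key : ∀ (K : Subgroup G) (g : G), ((K).subgroupOf (K ⊔ Subgroup.zpowers g)).IsSubnormal ↔
      Cfsg.Agent.H20.Sn K (K ⊔ Subgroup.zpowers g) := fun K g =>
    Cfsg.Agent.H20.isSubnormal_subgroupOf_iff_sn le_sup_left
  refine ⟨?_, ?_⟩
  · ext g
    simp only [Set.mem_setOf_eq]
    rw [key]
    exact Cfsg.Agent.Lib.Helper21.sn_sup_zpowers_iff p H hH g
  · intro g
    rw [key, key]
    exact Cfsg.Agent.Lib.Helper21.sn_sylInf_iff p H hH g

end Cfsg.Agent.S4089
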