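import Cfsg.Statements.S4092
import Mathlib
import Cfsg.Agent.S3993
import Cfsg.Agent.Lib.Helper21.Frobenius

set_option autoImplicit false
open Cfsg

namespace Cfsg.Agent.S4092

/-- Let G be a finite group, p a prime and P a Sylow p-subgroup of G that is not normal in G. Then G has at least p·#P elements of p-power order (the identity included). -/
theorem result {G : Type*} [Group G] [Finite G] (p : ℕ) [Fact p.Prime]
    (P : Sylow p G) (hP : ¬ (P : Subgroup G).Normal) :
    p * Nat.card (P : Subgroup G) ≤ Nat.card {g : G // ∃ k : ℕ, orderOf g = p ^ k} := by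
  classical
  have hp : p.Prime := Fact.out
  set n := (Nat.card G).factorization p with hn
  have hPcard : Nat.card (P : Subgroup G) = p ^ n := P.card_eq_multiplicity
  -- the set of `p`-elements
  have hiff : ∀ g : G, (∃ k : ℕ, orderOf g = p ^ k) ↔ g ^ (p ^ n) = 1 := by
    intro g
    constructor
    · rintro ⟨k, hk⟩
      have h1 : p ^ k ∣ Nat.card G := hk ▸ orderOf_dvd_natCard g
      have h2 : k ≤ n := (hp.pow_dvd_iff_le_factorization Nat.card_pos.ne').1 h1
      rw [← orderOf_dvd_iff_pow_eq_one, hk]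
      exact pow_dvd_pow p h2
    · intro h
      obtain ⟨k, -, hk⟩ := (Nat.dvd_prime_pow hp).1 (orderOf_dvd_of_pow_eq_one h)
      exact ⟨k, hk⟩
  set u := Nat.card {g : G // ∃ k : ℕ, orderOf g = p ^ k} with hu
  have hu1 : u = Nat.card {g : G // g ^ (p ^ n) = 1} :=
    Nat.card_congr (Equiv.subtypeEquivRight hiff)
  have hdvd : p ^ n ∣ u := by
    rw [hu1]
    exact Cfsg.Agent.S3993.result (p ^ n) (Nat.ordProj_dvd _ _)
  -- congruence modulo `p - 1`
  have hmod : (p - 1) ∣ Nat.card {g : G // (fun m => ∃ j : ℕ, m = p ^ (j + 1)) (orderOf g)} := by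
    refine Cfsg.Agent.Lib.Helper21.dvd_card_orderOf_of_dvd_totient
      (fun m => ∃ j : ℕ, m = p ^ (j + 1)) (p - 1) ?_
    rintro m ⟨j, rfl⟩
    rw [Nat.totient_prime_pow_succ hp]
    exact Dvd.intro_left _ rfl
  have hsplit : u = Nat.card {g : G // (fun m => ∃ j : ℕ, m = p ^ (j + 1)) (orderOf g)} + 1 := by
    haveI := Fintype.ofFinite G
    rw [hu, Nat.card_eq_fintype_card, Nat.card_eq_fintype_card, Fintype.card_subtype,
      Fintype.card_subtype]
    have h1 : (Finset.univ.filter (fun g : G => ∃ k : ℕ, orderOf g = p ^ k)) =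
        insert 1 (Finset.univ.filter (fun g : G => ∃ j : ℕ, orderOf g = p ^ (j + 1))) := by
      ext g
      simp only [Finset.mem_filter, Finset.mem_univ, true_and, Finset.mem_insert]
      constructor
      · rintro ⟨k, hk⟩
        rcases k with _ | k
        · left; simpa using hk
        · right; exact ⟨k, hk⟩
      · rintro (rfl | ⟨j, hj⟩)
        · exact ⟨0, by simp⟩
        · exact ⟨j + 1, hj⟩
    rw [h1, Finset.card_insert_of_notMem]
    simp only [Finset.mem_filter, Finset.mem_univ, true_and, orderOf_one, not_exists]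
    intro j hj
    exact (Nat.one_lt_pow (Nat.succ_ne_zero j) hp.one_lt).ne hj
  -- strictly more than `|P|` elements
  have hlt : p ^ n < u := by
    obtain ⟨Q, hQ⟩ : ∃ Q : Sylow p G, Q ≠ P := by
      by_contra hcon
      push Not at hcon
      apply hP
      haveI : Subsingleton (Sylow p G) := ⟨fun a b => (hcon a).trans (hcon b).symm⟩
      exact Sylow.normal_of_subsingleton P
    have hnle : ¬ (Q : Subgroup G) ≤ P := by
      intro hle
      apply hQ
      exact Sylow.ext (Q.3 P.2 hle).symm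
    obtain ⟨x, hxQ, hxP⟩ := SetLike.not_le_iff_exists.1 hnle
    rw [← hPcard]
    have hmem : ∀ (S : Sylow p G) (g : G), g ∈ (S : Subgroup G) → ∃ k : ℕ, orderOf g = p ^ k := by
      intro S g hg
      obtain ⟨k, hk⟩ := S.2 ⟨g, hg⟩
      have h2 : g ^ p ^ k = 1 := by simpa using congrArg Subtype.val hk
      obtain ⟨j, -, hj⟩ := (Nat.dvd_prime_pow hp).1 (orderOf_dvd_of_pow_eq_one h2)
      exact ⟨j, hj⟩
    let f : ↥(P : Subgroup G) → {g : G // ∃ k : ℕ, orderOf g = p ^ k} := fun y => ⟨y.1, hmem P y.1 y.2⟩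
    have hf : Function.Injective f := fun a b hab => Subtype.ext (congrArg (fun z => z.1) hab)
    have hns : ¬ Function.Surjective f := by
      intro hs
      obtain ⟨y, hy⟩ := hs ⟨x, hmem Q x hxQ⟩
      apply hxP
      have : y.1 = x := congrArg (fun z => z.1) hy
      rw [← this]; exact y.2
    haveI := Fintype.ofFinite ↥(P : Subgroup G)
    haveI := Fintype.ofFinite {g : G // ∃ k : ℕ, orderOf g = p ^ k}
    rw [hu, Nat.card_eq_fintype_card, Nat.card_eq_fintype_card]
    exact Fintype.card_lt_of_injective_not_surjective f hf hns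
  obtain ⟨k, hk⟩ := hdvd
  rw [hPcard, hk, mul_comm p]
  apply Nat.mul_le_mul_left
  have hk2 : 2 ≤ k := by
    by_contra hcon
    have : k ≤ 1 := by omega
    have h3 : p ^ n * k ≤ p ^ n * 1 := Nat.mul_le_mul_left _ this
    omega
  -- `k ≡ 1 mod (p - 1)`
  have h4 : p ^ n ≡ 1 [MOD (p - 1)] := by
    have h5 : p ≡ 1 [MOD (p - 1)] := by
      have : p = 1 + (p - 1) := by have := hp.one_lt; omega
      conv_lhs => rw [this]
      simp [Nat.ModEq]
    simpa using h5.pow n
  have h6 : u ≡ 1 [MOD (p - 1)] := by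
    rw [hsplit]
    obtain ⟨c, hc⟩ := hmod
    rw [hc]
    simp [Nat.ModEq]
  have h7 : k ≡ 1 [MOD (p - 1)] := by
    have h8 : p ^ n * k ≡ 1 * k [MOD (p - 1)] := h4.mul_right k
    rw [one_mul, ← hk] at h8
    exact h8.symm.trans h6
  have h9 : (p - 1) ∣ k - 1 := (Nat.modEq_iff_dvd' (by omega)).1 h7.symm
  have h10 := Nat.le_of_dvd (by omega) h9
  omega

end Cfsg.Agent.S4092
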