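import Cfsg.Statements.S4093
import Mathlib

set_option autoImplicit false
open scoped BigOperators
open Cfsg

namespace Cfsg.Agent.S4093

/-- Let G be a finite group with a normal subgroup N complementing a Sylow p-subgroup P (a normal p-complement). Then the number of elements of G of p-power order equals the sum over x ∈ P of the index of C_N(x) in N. -/
theorem result {G : Type*} [Group G] [Finite G] (p : ℕ) [Fact p.Prime]
    (P : Sylow p G) (N : Subgroup G) [N.Normal] (hNP : N.IsComplement' (P : Subgroup G)) :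
    Nat.card {g : G // ∃ k : ℕ, orderOf g = p ^ k} =
      ∑ᶠ x : (P : Subgroup G), Nat.card N / Nat.card ↥(N ⊓ Subgroup.centralizer ({(x : G)} : Set G)) := by
  classical
  have hp : p.Prime := Fact.out
  haveI : Fintype (P : Subgroup G) := Fintype.ofFinite _
  have hbot : N ⊓ (P : Subgroup G) = ⊥ := hNP.disjoint.eq_bot
  have htop : N ⊔ (P : Subgroup G) = ⊤ := hNP.sup_eq_top
  -- conjugation maps
  let f : ↥(P : Subgroup G) → N → G := fun x n => (n : G) * (x : G) * (n : G)⁻¹
  have hfmk : ∀ (x : (P : Subgroup G)) (n : N), (QuotientGroup.mk (f x n) : G ⧸ N) = QuotientGroup.mk (x : G) := by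
    intro x n
    change (QuotientGroup.mk ((n : G) * x * (n : G)⁻¹) : G ⧸ N) = _
    rw [QuotientGroup.mk_mul, QuotientGroup.mk_mul, QuotientGroup.mk_inv,
      (QuotientGroup.eq_one_iff (n : G)).2 n.2]
    simp
  have huniq : ∀ (x x' : (P : Subgroup G)) (n n' : N), f x n = f x' n' → x = x' := by
    intro x x' n n' h
    have h1 : (QuotientGroup.mk (x : G) : G ⧸ N) = QuotientGroup.mk (x' : G) := by
      rw [← hfmk x n, ← hfmk x' n', h]
    have h2 : (x : G)⁻¹ * x' ∈ N ⊓ (P : Subgroup G) :=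
      Subgroup.mem_inf.mpr ⟨QuotientGroup.eq.1 h1, Subgroup.mul_mem _ (Subgroup.inv_mem _ x.2) x'.2⟩
    rw [hbot, Subgroup.mem_bot, inv_mul_eq_one] at h2
    exact Subtype.ext h2
  have hpel : ∀ (x : (P : Subgroup G)) (n : N), ∃ k : ℕ, orderOf (f x n) = p ^ k := by
    intro x n
    have h1 : orderOf (f x n) = orderOf (x : G) := (MulAut.conj (n : G)).orderOf_eq (x : G)
    rw [h1]
    obtain ⟨k, hk⟩ := P.2 x
    have h2 : orderOf (x : G) ∣ p ^ k := by
      rw [Subgroup.orderOf_coe]; exact orderOf_dvd_of_pow_eq_one hk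
    obtain ⟨i, -, hi⟩ := (Nat.dvd_prime_pow hp).1 h2
    exact ⟨i, hi⟩
  have hex : ∀ g : G, (∃ k : ℕ, orderOf g = p ^ k) → ∃ (x : (P : Subgroup G)) (n : N), f x n = g := by
    rintro g ⟨k, hk⟩
    have hz : IsPGroup p (Subgroup.zpowers g) := IsPGroup.of_card (n := k) (by rw [Nat.card_zpowers, hk])
    obtain ⟨Q, hQ⟩ := hz.exists_le_sylow
    obtain ⟨h, hh⟩ := MulAction.exists_smul_eq G P Q
    have hgQ : g ∈ (Q : Subgroup G) := hQ (Subgroup.mem_zpowers g)
    rw [← hh, Sylow.coe_subgroup_smul, Subgroup.mem_pointwise_smul_iff_inv_smul_mem] at hgQ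
    have hgQ' : h⁻¹ * g * h ∈ (P : Subgroup G) := by simpa [MulAut.smul_def] using hgQ
    have hh2 : h ∈ ((N ⊔ (P : Subgroup G) : Subgroup G) : Set G) := by rw [htop]; trivial
    rw [Subgroup.normal_mul] at hh2
    obtain ⟨n, hn, u, hu, rfl⟩ := Set.mem_mul.1 hh2
    refine ⟨⟨u * ((n * u)⁻¹ * g * (n * u)) * u⁻¹,
      Subgroup.mul_mem _ (Subgroup.mul_mem _ hu hgQ') (Subgroup.inv_mem _ hu)⟩, ⟨n, hn⟩, ?_⟩
    change n * (u * ((n * u)⁻¹ * g * (n * u)) * u⁻¹) * n⁻¹ = g
    group
  -- the count of each class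
  have hcnt : ∀ x : (P : Subgroup G), Nat.card (Set.range (f x)) =
      Nat.card N / Nat.card ↥(N ⊓ Subgroup.centralizer ({(x : G)} : Set G)) := by
    intro x
    set T : Subgroup G := N ⊓ Subgroup.centralizer ({(x : G)} : Set G) with hT
    have hTN : T ≤ N := inf_le_left
    have hf : ∀ a b : N, f x a = f x b ↔ a⁻¹ * b ∈ T.subgroupOf N := by
      intro a b
      rw [Subgroup.mem_subgroupOf, hT, Subgroup.mem_inf, Subgroup.mem_centralizer_singleton_iff]
      change (a : G) * x * (a : G)⁻¹ = b * x * (b : G)⁻¹ ↔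
        ((a : G)⁻¹ * b ∈ N ∧ ((a : G)⁻¹ * b) * x = x * ((a : G)⁻¹ * b))
      constructor
      · intro h
        refine ⟨N.mul_mem (N.inv_mem a.2) b.2, ?_⟩
        have h2 : (x : G) = (a : G)⁻¹ * (b * x * (b : G)⁻¹) * a := by rw [← h]; group
        calc ((a : G)⁻¹ * b) * x = ((a : G)⁻¹ * (b * x * (b : G)⁻¹) * a) * ((a : G)⁻¹ * b) := by group
          _ = x * ((a : G)⁻¹ * b) := by rw [← h2]
      · rintro ⟨-, h⟩
        have h2 : (b : G) * x = a * x * ((a : G)⁻¹ * b) := by
          rw [mul_assoc, ← h]; group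
        rw [h2]; group
    let fb : N ⧸ T.subgroupOf N → G := fun q => Quotient.liftOn' q (f x) (by
      intro a b hab
      rw [QuotientGroup.leftRel_apply] at hab
      exact (hf a b).2 hab)
    have hfb : Function.Injective fb := by
      intro q1 q2
      induction q1 using QuotientGroup.induction_on with
      | H a =>
        induction q2 using QuotientGroup.induction_on with
        | H b =>
          intro h
          exact QuotientGroup.eq.2 ((hf a b).1 h)
    have hrange : Set.range fb = Set.range (f x) := by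
      ext g
      constructor
      · rintro ⟨q, rfl⟩
        induction q using QuotientGroup.induction_on with
        | H a => exact ⟨a, rfl⟩
      · rintro ⟨a, rfl⟩
        exact ⟨QuotientGroup.mk a, rfl⟩
    have h1 : Nat.card N = Nat.card (N ⧸ T.subgroupOf N) * Nat.card (T.subgroupOf N) :=
      Subgroup.card_eq_card_quotient_mul_card_subgroup _
    have h2 : Nat.card (T.subgroupOf N) = Nat.card T :=
      Nat.card_congr (Subgroup.subgroupOfEquivOfLe hTN).toEquiv
    have h3 : Nat.card (Set.range (f x)) = Nat.card (N ⧸ T.subgroupOf N) := by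
      rw [← hrange]
      exact (Nat.card_congr (Equiv.ofInjective fb hfb)).symm
    rw [h3, h1, h2]
    exact (Nat.mul_div_cancel _ Nat.card_pos).symm
  rw [finsum_eq_sum_of_fintype, ← Finset.sum_congr rfl (fun x _ => hcnt x), ← Nat.card_sigma]
  symm
  apply Nat.card_congr
  refine Equiv.ofBijective
    (fun s : (Σ x : (P : Subgroup G), Set.range (f x)) =>
      (⟨s.2.1, by obtain ⟨n, hn⟩ := s.2.2; rw [← hn]; exact hpel s.1 n⟩ :
        {g : G // ∃ k : ℕ, orderOf g = p ^ k})) ⟨?_, ?_⟩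
  · rintro ⟨x, ⟨g, n, hn⟩⟩ ⟨x', ⟨g', n', hn'⟩⟩ h
    have h1 : g = g' := congrArg Subtype.val h
    subst h1
    have h2 : x = x' := huniq x x' n n' (hn.trans hn'.symm)
    subst h2
    rfl
  · rintro ⟨g, hg⟩
    obtain ⟨x, n, hxn⟩ := hex g hg
    exact ⟨⟨x, ⟨g, n, hxn⟩⟩, rfl⟩

end Cfsg.Agent.S4093
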