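import Cfsg.Statements.S4106
import Cfsg.Agent.Lib.Helper22.PiClasses

set_option autoImplicit false
open Cfsg

namespace Cfsg.Agent.S4106

open Cfsg.Agent.Lib.Helper22

/-- Let G be a finite group, π a set of primes and m the π-part of the order of G. Then the number of conjugacy classes of G consisting of π-elements (elements whose order is divisible only by primes in π) is at most m. -/
theorem result {G : Type*} [Group G] [Finite G]
    (π : Set ℕ) (hπ : ∀ q ∈ π, q.Prime)
    (m : ℕ) (hm : m ∣ Nat.card G) (hmπ : ∀ q : ℕ, q.Prime → q ∣ m → q ∈ π)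
    (hm' : ∀ q ∈ π, ¬ q ∣ Nat.card G / m) :
    Nat.card {C : ConjClasses G // ∀ q : ℕ, q.Prime → (∃ g : G, ConjClasses.mk g = C ∧ q ∣ orderOf g) → q ∈ π} ≤ m := by
  classical
  set n := Nat.card G with hn
  have hn0 : n ≠ 0 := Nat.card_pos.ne'
  let s : Finset ℕ := n.primeFactors.filter (· ∈ π)
  have hs : ∀ q ∈ s, q.Prime := fun q hq => Nat.prime_of_mem_primeFactors (Finset.mem_filter.mp hq).1
  have h1 := card_piClasses_le s hs G
  have hiff : ∀ C : ConjClasses G,
      (∀ q : ℕ, q.Prime → (∃ g : G, ConjClasses.mk g = C ∧ q ∣ orderOf g) → q ∈ π) ↔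
        IsPiClass (↑s : Set ℕ) C := by
    intro C
    constructor
    · rintro h q hq ⟨g, hg, hd⟩
      have := h q hq ⟨g, hg, hd⟩
      simp only [s, Finset.coe_filter, Set.mem_setOf_eq]
      exact ⟨Nat.mem_primeFactors.mpr ⟨hq, hd.trans (orderOf_dvd_natCard g), hn0⟩, this⟩
    · intro h q hq hex
      have := h q hq hex
      simp only [s, Finset.coe_filter, Set.mem_setOf_eq] at this
      exact this.2
  rw [Nat.card_congr (Equiv.subtypeEquivRight hiff)]
  refine h1.trans (le_of_eq ?_)
  obtain ⟨k, hk⟩ := hm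
  have hm0 : m ≠ 0 := by rintro rfl; simp at hk; exact hn0 hk
  have hk0 : k ≠ 0 := by rintro rfl; simp at hk; exact hn0 hk
  have hdiv : n / m = k := by rw [hk]; exact Nat.mul_div_cancel_left k (Nat.pos_of_ne_zero hm0)
  have hfac : ∀ q ∈ s, n.factorization q = m.factorization q := by
    intro q hq
    have hqπ : q ∈ π := (Finset.mem_filter.mp hq).2
    have := hm' q hqπ
    rw [hdiv] at this
    rw [hk, Nat.factorization_mul hm0 hk0, Finsupp.add_apply,
      Nat.factorization_eq_zero_of_not_dvd this, add_zero]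
  rw [Finset.prod_congr rfl (fun q hq => by rw [hfac q hq])]
  conv_rhs => rw [← Nat.prod_factorization_pow_eq_self hm0]
  rw [Finsupp.prod, Nat.support_factorization]
  symm
  apply Finset.prod_subset
  · intro q hq
    have hq1 := Nat.prime_of_mem_primeFactors hq
    have hq2 := Nat.dvd_of_mem_primeFactors hq
    exact Finset.mem_filter.mpr ⟨Nat.mem_primeFactors.mpr ⟨hq1, hq2.trans ⟨k, hk⟩, hn0⟩, hmπ q hq1 hq2⟩
  · intro q _ hq
    have : m.factorization q = 0 := by
      rw [← Finsupp.notMem_support_iff, Nat.support_factorization]; exact hq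
    rw [this, pow_zero]

end Cfsg.Agent.S4106
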