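import Cfsg.Statements.S4108
import Mathlib
import Cfsg.Agent.H12.Cores
import Cfsg.Agent.S0039
import Cfsg.Agent.S0034
import Cfsg.Agent.Lib.Helper22.Frobenius

set_option autoImplicit false
open Cfsg

namespace Cfsg.Agent.S4108

/-- Let G be a finite group, p a prime and N a proper non-trivial normal p-subgroup such that for every x outside N all elements of the coset xN have the same order as x. Then every non-trivial subgroup H of G of order prime to p acts fixed-point-freely on N: NH is a Frobenius group with complement H and kernel N. -/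
theorem result {G : Type*} [Group G] [Finite G] (N : Subgroup G) [N.Normal] (hN1 : N ≠ ⊥) (hN2 : N ≠ ⊤)
    (heq : ∀ x : G, x ∉ N → ∀ n ∈ N, orderOf (x * n) = orderOf x)
    (p : ℕ) [Fact p.Prime] (hNp : IsPGroup p N) :
    ∀ H : Subgroup G, H ≠ ⊥ → (Nat.card H).Coprime p →
      Cfsg.IsFrobeniusComplement (H.subgroupOf (N ⊔ H)) ∧ Cfsg.frobeniusKernel (H.subgroupOf (N ⊔ H)) = (N.subgroupOf (N ⊔ H) : Set ↥(N ⊔ H)) := by
  classical
  intro H hH1 hHp
  have hNX : N ≤ N ⊔ H := le_sup_left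
  have hHX : H ≤ N ⊔ H := le_sup_right
  have hdisj : N ⊓ H = ⊥ := Cfsg.Agent.H12.inf_eq_bot_of_pGroup_of_coprime hNp hHp
  have hfpf : ∀ h ∈ H, h ≠ 1 → ∀ n ∈ N, h * n = n * h → n = 1 := by
    intro h hh hh1 n hn hcomm
    have hhN : h ∉ N := by
      intro hhN
      have : h ∈ N ⊓ H := Subgroup.mem_inf.mpr ⟨hhN, hh⟩
      rw [hdisj] at this
      exact hh1 (Subgroup.mem_bot.mp this)
    have h1 := heq h hhN n hn
    have hcop : (orderOf h).Coprime (orderOf n) := by
      obtain ⟨k, hk⟩ := hNp ⟨n, hn⟩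
      have hk' : n ^ p ^ k = 1 := by simpa using congrArg Subtype.val hk
      have h2 : orderOf n ∣ p ^ k := orderOf_dvd_of_pow_eq_one hk'
      have h3 : orderOf h ∣ Nat.card H := by
        have := orderOf_dvd_natCard (⟨h, hh⟩ : H)
        rwa [Subgroup.orderOf_mk] at this
      exact Nat.Coprime.coprime_dvd_left h3 (Nat.Coprime.coprime_dvd_right h2 (hHp.pow_right k))
    have h2 := Commute.orderOf_mul_eq_mul_orderOf_of_coprime (show Commute h n from hcomm) hcop
    rw [h1] at h2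
    have h3 : 0 < orderOf h := orderOf_pos h
    have h4 : orderOf n = 1 := by
      have : orderOf h * 1 = orderOf h * orderOf n := by rw [mul_one]; exact h2
      exact (Nat.eq_of_mul_eq_mul_left h3 this).symm
    exact orderOf_eq_one_iff.mp h4
  haveI hKn : (N.subgroupOf (N ⊔ H)).Normal := inferInstance
  have hd' : Disjoint (N.subgroupOf (N ⊔ H)) (H.subgroupOf (N ⊔ H)) := by
    rw [Subgroup.disjoint_def]
    rintro ⟨x, hx⟩ h1 h2
    rw [Subgroup.mem_subgroupOf] at h1 h2
    have : x ∈ N ⊓ H := Subgroup.mem_inf.mpr ⟨h1, h2⟩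
    rw [hdisj] at this
    exact Subtype.ext (Subgroup.mem_bot.mp this)
  have hc : Subgroup.IsComplement' (N.subgroupOf (N ⊔ H)) (H.subgroupOf (N ⊔ H)) := by
    apply Subgroup.isComplement'_of_disjoint_and_mul_eq_univ hd'
    rw [Set.eq_univ_iff_forall]
    rintro ⟨x, hx⟩
    have hx' : x ∈ ((N ⊔ H : Subgroup G) : Set G) := hx
    rw [Subgroup.normal_mul] at hx'
    obtain ⟨n, hn, h, hh, rfl⟩ := Set.mem_mul.mp hx'
    exact Set.mem_mul.mpr ⟨⟨n, hNX hn⟩, hn, ⟨h, hHX hh⟩, hh, rfl⟩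
  have hK1 : N.subgroupOf (N ⊔ H) ≠ ⊥ := by
    rw [Ne, Subgroup.subgroupOf_eq_bot, disjoint_iff, inf_of_le_left hNX]
    exact hN1
  have hH1' : H.subgroupOf (N ⊔ H) ≠ ⊥ := by
    rw [Ne, Subgroup.subgroupOf_eq_bot, disjoint_iff, inf_of_le_left hHX]
    exact hH1
  have hF : Cfsg.IsFrobeniusComplement (H.subgroupOf (N ⊔ H)) := by
    rw [Cfsg.Agent.S0039.result _ _ hc hK1 hH1']
    rintro ⟨h, hhX⟩ hh hh1
    rw [eq_bot_iff]
    rintro ⟨n, hnX⟩ hn
    obtain ⟨hn1, hn2⟩ := Subgroup.mem_inf.mp hn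
    rw [Subgroup.mem_subgroupOf] at hn1 hh
    rw [Subgroup.mem_centralizer_singleton_iff] at hn2
    have h5 : n * h = h * n := congrArg Subtype.val hn2
    rw [Subgroup.mem_bot]
    apply Subtype.ext
    exact hfpf h hh (fun e => hh1 (Subtype.ext e)) n hn1 h5.symm
  refine ⟨hF, ?_⟩
  symm
  apply Set.eq_of_subset_of_ncard_le
  · intro x hx
    rw [Cfsg.Agent.Lib.Helper22.mem_frobeniusKernel_iff]
    by_cases hx1 : x = 1
    · exact Or.inl hx1
    · right
      intro g hg
      apply hx1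
      have h1 : g⁻¹ * x * g ∈ N.subgroupOf (N ⊔ H) := by
        have := hKn.conj_mem x hx g⁻¹
        rwa [inv_inv] at this
      have h2 := Subgroup.disjoint_def.mp hd' h1 hg
      have : x = g * (g⁻¹ * x * g) * g⁻¹ := by group
      rw [this, h2]; group
  · rw [← Nat.card_coe_set_eq, (Cfsg.Agent.S0034.result _ hF).1, hc.index_eq_card,
      ← Nat.card_coe_set_eq]
    exact le_rfl
  · exact Set.toFinite _

end Cfsg.Agent.S4108
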