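import Cfsg.Statements.S4112
import Mathlib
-- import your own Cfsg.Agent.* helpers here
import Cfsg.Agent.H4.Nilp
import Cfsg.Agent.Lib.Helper2.CycSylowTwo

set_option autoImplicit false
open Cfsg

namespace Cfsg.Agent.S4112


theorem push_supp {G : Type*} [Group G] (N H : Subgroup G) (hHN : H ⊔ N = ⊤) (T : Subgroup H)
    (hT : T ⊔ N.subgroupOf H = ⊤) : T.map H.subtype ⊔ N = ⊤ := by
  rw [eq_top_iff, ← hHN, sup_le_iff]
  refine ⟨?_, le_sup_right⟩
  have h1 : H = (⊤ : Subgroup H).map H.subtype := by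
    rw [← MonoidHom.range_eq_map, Subgroup.range_subtype]
  calc H = (⊤ : Subgroup H).map H.subtype := h1
    _ = (T ⊔ N.subgroupOf H).map H.subtype := by rw [hT]
    _ = T.map H.subtype ⊔ (N.subgroupOf H).map H.subtype := Subgroup.map_sup _ _ _
    _ ≤ T.map H.subtype ⊔ N := by
      apply sup_le_sup_left
      rw [Subgroup.subgroupOf_map_subtype]
      exact inf_le_left

theorem exists_supp {G : Type*} [Group G] [Finite G] (N M : Subgroup G) [N.Normal]
    (hcop : N.index.Coprime (Nat.card M)) : ∃ H : Subgroup G, H ⊔ N = ⊤ ∧ H ⊓ M = ⊥ := by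
  classical
  obtain ⟨H, hHN, hmin⟩ := Set.exists_min_image {H : Subgroup G | H ⊔ N = ⊤}
    (fun H => Nat.card H) (Set.toFinite _) ⟨⊤, top_sup_eq N⟩
  have hHN' : H ⊔ N = ⊤ := hHN
  refine ⟨H, hHN', ?_⟩
  apply Subgroup.inf_eq_bot_of_coprime
  by_contra hnc
  obtain ⟨q, hq, hqH, hqM⟩ := Nat.Prime.not_coprime_iff_dvd.1 hnc
  haveI : Fact q.Prime := ⟨hq⟩
  have hqN : ¬ q ∣ N.index := by
    intro h
    have := Nat.dvd_gcd h hqM
    rw [hcop.gcd_eq_one] at this
    exact hq.one_lt.ne' (Nat.dvd_one.1 this)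
  have hidx : (N.subgroupOf H).index = N.index := by
    show N.relIndex H = N.index
    rw [← Subgroup.relIndex_sup_right, hHN', Subgroup.relIndex_top_right]
  have S : Sylow q H := default
  have hSK : (S : Subgroup H) ≤ N.subgroupOf H := by
    intro s hs
    apply Cfsg.Agent.Lib.Helper2.mem_of_normal_of_coprime_index
    obtain ⟨j, hj⟩ := IsPGroup.iff_orderOf.1 S.2 ⟨s, hs⟩
    rw [Subgroup.orderOf_mk] at hj
    rw [hj, hidx]
    exact Nat.Coprime.pow_right _ ((Nat.coprime_comm.1 ((Nat.Prime.coprime_iff_not_dvd hq).2 hqN)))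
  have hfr := Sylow.normalizer_sup_eq_top' S hSK
  have h1 := hmin _ (push_supp N H hHN' _ hfr)
  rw [Subgroup.card_map_of_injective H.subtype_injective] at h1
  have hnorm : Subgroup.normalizer ((S : Subgroup H) : Set H) = ⊤ :=
    Subgroup.eq_top_of_le_card _ h1
  haveI : (S : Subgroup H).Normal := Subgroup.normalizer_eq_top_iff.1 hnorm
  obtain ⟨k, hk⟩ := IsPGroup.iff_card.1 S.2
  obtain ⟨L, hL⟩ := Subgroup.exists_right_complement'_of_coprime (N := (S : Subgroup H)) (by
    rw [hk]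
    exact Nat.Coprime.pow_left _ ((Nat.Prime.coprime_iff_not_dvd hq).2 S.not_dvd_index))
  have hLK : L ⊔ N.subgroupOf H = ⊤ := by
    rw [eq_top_iff, ← hL.sup_eq_top, sup_comm]
    exact sup_le_sup_left hSK L
  have h2 := hmin _ (push_supp N H hHN' _ hLK)
  rw [Subgroup.card_map_of_injective H.subtype_injective] at h2
  have h3 := hL.card_mul
  have hLpos : 0 < Nat.card L := Nat.card_pos
  have hS1 : Nat.card (S : Subgroup H) = 1 := by
    by_contra hne
    have hSpos : 0 < Nat.card (S : Subgroup H) := Nat.card_pos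
    have : 2 ≤ Nat.card (S : Subgroup H) := by omega
    nlinarith
  exact S.ne_bot_of_dvd_card hqH (Subgroup.card_eq_one.1 hS1)


/-- Let G be a finite group and M ≤ N non-trivial proper normal subgroups such that for every g outside N the conjugacy class of g is a union of cosets of M (equivalently gm is conjugate to g for every m ∈ M). Then (1) and (2) below are equivalent, and they imply (3): (1) every g outside N acts fixed-point-freely on M, that is C_G(x) ≤ N for every x ∈ M, x ≠ 1; (2) the index of N in G is coprime to the order of M; (3) there is a subgroup H of G with HN = G and H ∩ M = 1. -/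
theorem result {G : Type*} [Group G] [Finite G] (N M : Subgroup G) [N.Normal] [M.Normal] (hMN : M ≤ N) (hM1 : M ≠ ⊥) (hN2 : N ≠ ⊤)
    (hcam : ∀ g : G, g ∉ N → ∀ m ∈ M, ∃ x : G, x * g * x⁻¹ = g * m) :
    ((∀ x ∈ M, x ≠ 1 → Subgroup.centralizer ({x} : Set G) ≤ N) ↔ N.index.Coprime (Nat.card M)) ∧
    ((∀ x ∈ M, x ≠ 1 → Subgroup.centralizer ({x} : Set G) ≤ N) → ∃ H : Subgroup G, H ⊔ N = ⊤ ∧ H ⊓ M = ⊥) := by
  classical
  have h12 : (∀ x ∈ M, x ≠ 1 → Subgroup.centralizer ({x} : Set G) ≤ N) →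
      N.index.Coprime (Nat.card M) := by
    intro h1
    by_contra hnc
    obtain ⟨p, hp, hpN, hpM⟩ := Nat.Prime.not_coprime_iff_dvd.1 hnc
    haveI : Fact p.Prime := ⟨hp⟩
    obtain ⟨⟨y, hyM⟩, hy⟩ := exists_prime_orderOf_dvd_card' (G := M) p hpM
    rw [Subgroup.orderOf_mk] at hy
    have hy1 : y ≠ 1 := by
      intro h
      rw [h, orderOf_one] at hy
      exact hp.one_lt.ne hy
    have hpz : IsPGroup p (Subgroup.zpowers y) :=
      IsPGroup.of_card (n := 1) (by rw [Nat.card_zpowers, hy, pow_one])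
    obtain ⟨P, hP⟩ := hpz.exists_le_sylow
    have hyP : y ∈ (P : Subgroup G) := hP (Subgroup.mem_zpowers y)
    haveI : Group.IsNilpotent (P : Subgroup G) := P.2.isNilpotent
    have hne : M.subgroupOf (P : Subgroup G) ≠ ⊥ := by
      intro h
      have : (⟨y, hyP⟩ : (P : Subgroup G)) ∈ M.subgroupOf (P : Subgroup G) := hyM
      rw [h, Subgroup.mem_bot] at this
      exact hy1 (congrArg Subtype.val this)
    have h3 := Cfsg.Agent.H4.normal_inf_center_ne_bot (M.subgroupOf (P : Subgroup G)) hne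
    obtain ⟨x, hx, hx1⟩ := (Subgroup.bot_or_exists_ne_one _).resolve_left h3
    have hxM : (x : G) ∈ M := hx.1
    have hx1' : (x : G) ≠ 1 := fun h => hx1 (Subtype.ext h)
    have hPN : (P : Subgroup G) ≤ N := by
      refine le_trans ?_ (h1 x hxM hx1')
      intro u hu
      rw [Subgroup.mem_centralizer_singleton_iff]
      exact congrArg Subtype.val (Subgroup.mem_center_iff.1 hx.2 ⟨u, hu⟩)
    exact P.not_dvd_index (hpN.trans (Subgroup.index_dvd_of_le hPN))
  refine ⟨⟨h12, ?_⟩, fun h1 => exists_supp N M (h12 h1)⟩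
  intro hcop x hxM hx1 g hg
  rw [Subgroup.mem_centralizer_singleton_iff] at hg
  by_contra hgN
  obtain ⟨q, hq, hqx⟩ := Nat.exists_prime_and_dvd (show orderOf x ≠ 1 by rwa [Ne, orderOf_eq_one_iff])
  set x0 := x ^ (orderOf x / q) with hx0
  have hox0 : orderOf x0 = q := orderOf_pow_orderOf_div (orderOf_pos x).ne' hqx
  have hx0M : x0 ∈ M := M.pow_mem hxM _
  have hqM : q ∣ Nat.card M := by
    have := orderOf_dvd_natCard (⟨x0, hx0M⟩ : M)
    rwa [Subgroup.orderOf_mk, hox0] at this
  have hqN : Nat.Coprime q N.index := by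
    rw [Nat.Prime.coprime_iff_not_dvd hq]
    intro h
    have := Nat.dvd_gcd h hqM
    rw [hcop.gcd_eq_one] at this
    exact hq.one_lt.ne' (Nat.dvd_one.1 this)
  obtain ⟨e, a, hqa, hga⟩ := Nat.exists_eq_pow_mul_and_not_dvd (orderOf_pos g).ne' q hq.one_lt.ne'
  set h := g ^ (q ^ e) with hh
  have hoh : orderOf h = a := by
    rw [hh, orderOf_pow_of_dvd (pow_pos hq.pos e).ne' ⟨a, hga⟩, hga,
      Nat.mul_div_cancel_left _ (pow_pos hq.pos e)]
  have hapos : 0 < a := by rw [← hoh]; exact orderOf_pos h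
  have hhN : h ∉ N := by
    intro hhN
    apply hgN
    rw [← QuotientGroup.eq_one_iff, ← orderOf_eq_one_iff]
    have h1 : orderOf (g : G ⧸ N) ∣ q ^ e := by
      apply orderOf_dvd_of_pow_eq_one
      rw [← QuotientGroup.mk_pow, QuotientGroup.eq_one_iff]
      exact hhN
    have h2 : orderOf (g : G ⧸ N) ∣ N.index := orderOf_dvd_natCard _
    exact Nat.eq_one_of_dvd_coprimes (Nat.Coprime.pow_left e hqN) h1 h2
  have hcomm : Commute h x0 := by
    apply Commute.pow_pow
    exact hg
  obtain ⟨y, hy⟩ := hcam h hhN x0 hx0M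
  have h1 : orderOf (h * x0) = a * q := by
    rw [hcomm.orderOf_mul_eq_mul_orderOf_of_coprime, hoh, hox0]
    rw [hoh, hox0]
    exact Nat.coprime_comm.1 ((Nat.Prime.coprime_iff_not_dvd hq).2 hqa)
  have h2 : orderOf (y * h * y⁻¹) = a := by
    rw [← hoh]
    exact orderOf_injective (MulAut.conj y).toMonoidHom (MulAut.conj y).injective h
  rw [hy, h1] at h2
  have := hq.two_le
  nlinarith

end Cfsg.Agent.S4112
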