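import Cfsg.Statements.S4116
import Cfsg.Agent.Lib.Helper22.TIHall

set_option autoImplicit false
open Cfsg

namespace Cfsg.Agent.S4116

open Cfsg.Agent.Lib.Helper22

/-- Let G be a finite group with a subgroup H whose order is coprime to its index (a Hall subgroup) and which meets each of its conjugates by elements outside N_G(H) trivially. Then every subgroup of G whose order is divisible only by primes dividing the order of H lies in a conjugate of H. -/
theorem result {G : Type*} [Group G] [Finite G] (H : Subgroup G)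
    (hHall : (Nat.card H).Coprime H.index) (hTI : Cfsg.IsTISubset (H : Set G))
    (K : Subgroup G) (hK : ∀ q : ℕ, q.Prime → q ∣ Nat.card K → q ∣ Nat.card H) :
    ∃ g : G, K ≤ H.map (MulAut.conj g).toMonoidHom := by
  classical
  have hcopK : ∀ y ∈ K, (orderOf y).Coprime H.index := by
    intro y hy
    by_contra hcon
    obtain ⟨r, hr, hr1, hr2⟩ := Nat.Prime.not_coprime_iff_dvd.mp hcon
    have h1 : r ∣ Nat.card H := hK r hr (hr1.trans (Subgroup.orderOf_dvd_natCard K hy))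
    exact (Nat.Prime.not_coprime_iff_dvd.mpr ⟨r, hr, h1, hr2⟩) hHall
  have hconjord : ∀ (a y : G), orderOf (a⁻¹ * y * a) = orderOf y := by
    intro a y
    have := (MulAut.conj a⁻¹).orderOf_eq y
    simpa using this
  have hNm : ∀ y' : G, ∀ x' ∈ H, x' ≠ 1 → y' * x' * y'⁻¹ ∈ H → y' ∈ Subgroup.normalizer (H : Set G) := by
    intro y' x' hx' hx1 hc
    by_contra hn
    exact hx1 (hTI y' hn x' hx' hc)
  have hN : ∀ y' : G, (orderOf y').Coprime H.index → ∀ x' ∈ H, x' ≠ 1 → y' * x' * y'⁻¹ ∈ H → y' ∈ H :=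
    fun y' hcop x' hx' hx1 hc => mem_of_mem_normalizer_of_coprime H (hNm y' x' hx' hx1 hc) hcop
  -- Step 1
  have F1 : ∀ y ∈ K, y ≠ 1 → ∃ a : G, a⁻¹ * y * a ∈ H := by
    intro y hy hy1
    have hord1 : orderOf y ≠ 1 := fun h => hy1 (orderOf_eq_one_iff.mp h)
    set q := (orderOf y).minFac with hq
    have hqp : q.Prime := Nat.minFac_prime hord1
    have hqd : q ∣ orderOf y := Nat.minFac_dvd _
    haveI : Fact q.Prime := ⟨hqp⟩
    set x := y ^ (orderOf y / q) with hx
    have hxord : orderOf x = q := orderOf_pow_orderOf_div (orderOf_pos y).ne' hqd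
    have hx1 : x ≠ 1 := by
      intro h
      rw [h, orderOf_one] at hxord
      exact hqp.one_lt.ne hxord
    have hqH : q ∣ Nat.card H := hK q hqp (hqd.trans (Subgroup.orderOf_dvd_natCard K hy))
    obtain ⟨Q⟩ : Nonempty (Sylow q H) := inferInstance
    have hQ'p : IsPGroup q ((Q : Subgroup H).map H.subtype) := Q.isPGroup'.map _
    have hQ'i : ¬ q ∣ ((Q : Subgroup H).map H.subtype).index := by
      rw [Subgroup.index_map_subtype]
      intro h
      rcases (Nat.Prime.dvd_mul hqp).mp h with h | h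
      · exact Q.not_dvd_index h
      · exact (Nat.Prime.not_coprime_iff_dvd.mpr ⟨q, hqp, hqH, h⟩) hHall
    have hzp : IsPGroup q (Subgroup.zpowers x) :=
      IsPGroup.of_card (n := 1) (by rw [Nat.card_zpowers, hxord, pow_one])
    obtain ⟨t, ht⟩ := exists_conj_mem_of_isPGroup _ _ hQ'p hQ'i hzp
    have h1 := ht x (Subgroup.mem_zpowers x)
    have h2 : t⁻¹ * x * t ∈ H := by
      obtain ⟨z, _, hz⟩ := Subgroup.mem_map.mp h1
      rw [← hz]; exact z.2
    refine ⟨t, hN _ (by rw [hconjord]; exact hcopK y hy) (t⁻¹ * x * t) h2 ?_ ?_⟩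
    · intro h
      apply hx1
      have : x = t * (t⁻¹ * x * t) * t⁻¹ := by group
      rw [this, h]; group
    · have hc : y * x = x * y := by rw [hx, ← pow_succ', ← pow_succ]
      have : t⁻¹ * y * t * (t⁻¹ * x * t) * (t⁻¹ * y * t)⁻¹ = t⁻¹ * (y * x) * y⁻¹ * t := by group
      rw [this, hc]
      have : t⁻¹ * (x * y) * y⁻¹ * t = t⁻¹ * x * t := by group
      rw [this]; exact h2
  let A : G → Subgroup K := fun a => H.comap ((MulAut.conj a⁻¹).toMonoidHom.comp K.subtype)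
  have memA : ∀ (a : G) (k : K), k ∈ A a ↔ a⁻¹ * (k : G) * a ∈ H := by
    intro a k
    simp [A, Subgroup.mem_comap]
  have ne1 : ∀ (a : G) (z : K), z ≠ 1 → a⁻¹ * (z : G) * a ≠ 1 := by
    intro a z hz h
    apply hz
    apply Subtype.ext
    have : (z : G) = a * (a⁻¹ * (z : G) * a) * a⁻¹ := by group
    rw [this, h]; simp
  have F2 : ∀ (a b : G) (z : K), z ≠ 1 → z ∈ A a → z ∈ A b → ∀ w : K, w ∈ A a → w ∈ A b := by
    intro a b z hz hza hzb w hwa
    rw [memA] at hza hzb hwa ⊢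
    have hn : b⁻¹ * a ∈ Subgroup.normalizer (H : Set G) := by
      apply hNm _ _ hza (ne1 a z hz)
      have : b⁻¹ * a * (a⁻¹ * (z : G) * a) * (b⁻¹ * a)⁻¹ = b⁻¹ * (z : G) * b := by group
      rw [this]; exact hzb
    have := (Subgroup.mem_normalizer_iff.mp hn _).mp hwa
    have e : b⁻¹ * a * (a⁻¹ * (w : G) * a) * (b⁻¹ * a)⁻¹ = b⁻¹ * (w : G) * b := by group
    rwa [e] at this
  have F3 : ∀ (a : G) (k z : K), z ∈ A a → z ≠ 1 → k * z * k⁻¹ ∈ A a → k ∈ A a := by
    intro a k z hz hz1 hc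
    rw [memA] at hz hc ⊢
    apply hN _ (by rw [hconjord]; exact hcopK _ k.2) _ hz (ne1 a z hz1)
    have : a⁻¹ * (k : G) * a * (a⁻¹ * (z : G) * a) * (a⁻¹ * (k : G) * a)⁻¹ =
        a⁻¹ * ((k * z * k⁻¹ : K) : G) * a := by
      simp only [Subgroup.coe_mul, Subgroup.coe_inv]; group
    rw [this]; exact hc
  by_cases hK1 : ∃ y : K, y ≠ 1
  swap
  · push Not at hK1
    refine ⟨1, fun k hk => ?_⟩
    have := congrArg Subtype.val (hK1 ⟨k, hk⟩)
    simp only [Subgroup.coe_one] at this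
    rw [this]; exact one_mem _
  obtain ⟨y, hy1⟩ := hK1
  obtain ⟨a, ha⟩ := F1 y y.2 (fun h => hy1 (Subtype.ext h))
  have hya : y ∈ A a := (memA a y).mpr ha
  have htop : ∀ c : G, A c = ⊤ → K ≤ H.map (MulAut.conj c).toMonoidHom := by
    intro c hc k hk
    have h1 : (⟨k, hk⟩ : K) ∈ A c := by rw [hc]; trivial
    rw [memA] at h1
    refine Subgroup.mem_map.mpr ⟨_, h1, ?_⟩
    simp only [MulEquiv.coe_toMonoidHom, MulAut.conj_apply]
    group
  by_cases hAtop : A a = ⊤
  · exact ⟨a, htop a hAtop⟩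
  exfalso
  let U : G → Set K := fun c => {x : K | ∃ k : K, ∃ z ∈ A c, z ≠ 1 ∧ x = k * z * k⁻¹}
  have hU : ∀ c, (U c).ncard = (A c).index * (Nat.card (A c) - 1) := fun c =>
    ncard_conj_union (A c) (F3 c)
  have hUsub : ∀ c, U c ⊆ ({1}ᶜ : Set K) := by
    rintro c x ⟨k, z, _, hz1, rfl⟩ h
    apply hz1
    have h' : k * z * k⁻¹ = 1 := h
    rwa [conj_eq_one_iff] at h'
  have hcompl : ({1}ᶜ : Set K).ncard = Nat.card K - 1 := by
    rw [Set.ncard_compl, Set.ncard_singleton]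
  have hnum : ∀ c (z : K), z ≠ 1 → z ∈ A c → A c ≠ ⊤ →
      (U c).ncard + (A c).index = Nat.card K ∧ 2 * (A c).index ≤ Nat.card K ∧ 2 ≤ (A c).index := by
    intro c z hz1 hz hne
    have h1 := (A c).card_mul_index
    have h2 : 1 < Nat.card (A c) := by
      rw [Subgroup.one_lt_card_iff_ne_bot]
      intro h
      rw [h, Subgroup.mem_bot] at hz
      exact hz1 hz
    have h3 : (A c).index ≠ 1 := fun h => hne (Subgroup.index_eq_one.mp h)
    have h4 : (A c).index ≠ 0 := (A c).index_ne_zero_of_finite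
    rw [hU c]
    obtain ⟨m, hm⟩ : ∃ m, Nat.card (A c) = m + 2 := ⟨Nat.card (A c) - 2, by omega⟩
    rw [hm] at h1 ⊢
    refine ⟨?_, ?_, by omega⟩
    · rw [← h1]; simp only [Nat.add_sub_cancel, show m + 2 - 1 = m + 1 by omega]; ring
    · rw [← h1]; nlinarith
  obtain ⟨hA1, hA2, hA3⟩ := hnum a y hy1 hya hAtop
  obtain ⟨w, hw1, hwU⟩ : ∃ w : K, w ≠ 1 ∧ w ∉ U a := by
    by_contra hcon
    push Not at hcon
    have hsub : ({1}ᶜ : Set K) ⊆ U a := fun w hw => hcon w hw
    have := Set.ncard_le_ncard hsub (Set.toFinite _)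
    rw [hcompl] at this
    omega
  obtain ⟨b, hb⟩ := F1 w w.2 (fun h => hw1 (Subtype.ext h))
  have hwb : w ∈ A b := (memA b w).mpr hb
  have hBtop : A b ≠ ⊤ := by
    intro h
    apply hAtop
    rw [eq_top_iff]
    intro v _
    exact F2 b a y hy1 (by rw [h]; trivial) hya v (by rw [h]; trivial)
  obtain ⟨hB1, hB2, hB3⟩ := hnum b w hw1 hwb hBtop
  have conjA : ∀ (c : G) (k z : K), z ∈ A c → k * z * k⁻¹ ∈ A ((k : G) * c) := by
    intro c k z hz
    rw [memA] at hz ⊢
    have : ((k : G) * c)⁻¹ * ((k * z * k⁻¹ : K) : G) * ((k : G) * c) = c⁻¹ * (z : G) * c := by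
      simp only [Subgroup.coe_mul, Subgroup.coe_inv]; group
    rw [this]; exact hz
  have hdisj : Disjoint (U a) (U b) := by
    rw [Set.disjoint_left]
    rintro x ⟨k, z, hz, hz1, rfl⟩ ⟨l, z', hz', hz'1, hx⟩
    apply hwU
    have h1 : k * z * k⁻¹ ∈ A ((k : G) * a) := conjA a k z hz
    have h2 : k * z * k⁻¹ ∈ A ((l : G) * b) := by rw [hx]; exact conjA b l z' hz'
    have h3 : k * z * k⁻¹ ≠ 1 := by
      intro h; rw [conj_eq_one_iff] at h; exact hz1 h
    have h4 : l * w * l⁻¹ ∈ A ((k : G) * a) := F2 _ _ _ h3 h2 h1 _ (conjA b l w hwb)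
    refine ⟨l⁻¹ * k, k⁻¹ * (l * w * l⁻¹) * k, ?_, ?_, by group⟩
    · rw [memA] at h4 ⊢
      have : a⁻¹ * ((k⁻¹ * (l * w * l⁻¹) * k : K) : G) * a =
          ((k : G) * a)⁻¹ * ((l * w * l⁻¹ : K) : G) * ((k : G) * a) := by
        simp only [Subgroup.coe_mul, Subgroup.coe_inv]; group
      rw [this]; exact h4
    · intro h
      apply hw1
      have : w = l⁻¹ * (k * (k⁻¹ * (l * w * l⁻¹) * k) * k⁻¹) * l := by group
      rw [this, h]; group
  have hunion := Set.ncard_union_eq hdisj (Set.toFinite _) (Set.toFinite _)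
  have hle := Set.ncard_le_ncard (Set.union_subset (hUsub a) (hUsub b)) (Set.toFinite _)
  rw [hunion, hcompl] at hle
  omega

end Cfsg.Agent.S4116
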