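import Cfsg.Statements.S4117
import Cfsg.Agent.Lib.Helper22.ExtCoprime
import Cfsg.Agent.Lib.Helper22.PRegIndex

set_option autoImplicit false
open Cfsg Cfsg.Agent.Lib.Helper22

namespace Cfsg.Agent.S4117

/-- Let A be a finite group acting on the finite group G by automorphisms with the orders of A and G coprime, and suppose every Sylow subgroup of G is cyclic. Then the fixed-point subgroup C_G(A) is a Hall subgroup of G (its order is coprime to its index), the subgroup [G, A] generated by the elements g⁻¹·a(g) is cyclic and normal with [G, A] ∩ C_G(A) = 1 and [G, A]·C_G(A) = G. -/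
theorem result {G A : Type*} [Group G] [Finite G] [Group A] [Finite A]
    [MulDistribMulAction A G] (hcop : (Nat.card A).Coprime (Nat.card G))
    (hcyc : ∀ (p : ℕ) [Fact p.Prime] (P : Sylow p G), IsCyclic (P : Subgroup G)) :
    (Nat.card (MulAction.fixedPoints A G : Set G)).Coprime (Nat.card G / Nat.card (MulAction.fixedPoints A G : Set G)) ∧
    IsCyclic (Subgroup.closure {y : G | ∃ (a : A) (g : G), y = g⁻¹ * a • g}) ∧
    (Subgroup.closure {y : G | ∃ (a : A) (g : G), y = g⁻¹ * a • g}).Normal ∧
    (Subgroup.closure {y : G | ∃ (a : A) (g : G), y = g⁻¹ * a • g} : Set G) ∩ MulAction.fixedPoints A G = {1} ∧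
    Subgroup.closure {y : G | ∃ (a : A) (g : G), y = g⁻¹ * a • g} ⊔ Subgroup.closure (MulAction.fixedPoints A G) = ⊤ := by
  classical
  haveI : IsZGroup G := ⟨fun p hp P => by haveI : Fact p.Prime := ⟨hp⟩; exact hcyc p P⟩
  change (Nat.card (MulAction.fixedPoints A G : Set G)).Coprime
      (Nat.card G / Nat.card (MulAction.fixedPoints A G : Set G)) ∧
    IsCyclic (extComm G A) ∧ (extComm G A).Normal ∧
    ((extComm G A : Subgroup G) : Set G) ∩ MulAction.fixedPoints A G = {1} ∧
    extComm G A ⊔ Subgroup.closure (MulAction.fixedPoints A G) = ⊤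
  haveI hD : IsCyclic (commutator G) := IsZGroup.isCyclic_commutator G
  let F : Subgroup G := Subgroup.centralizer (commutator G : Set G)
  haveI : Group.IsNilpotent F := by
    apply Subgroup.isNilpotent_of_ker_le_center ((Abelianization.of (G := G)).comp F.subtype)
    intro x hx
    rw [MonoidHom.mem_ker, MonoidHom.comp_apply] at hx
    have hx' : (x : G) ∈ commutator G := (QuotientGroup.eq_one_iff (x : G)).mp hx
    rw [Subgroup.mem_center_iff]
    intro y
    apply Subtype.ext
    exact (Subgroup.mem_centralizer_iff.mp y.2 (x : G) hx').symm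
  haveI : IsCyclic F := inferInstance
  have hDinv : ∀ (a : A) (x : G), x ∈ commutator G → a • x ∈ commutator G := by
    intro a x hx
    have h1 := (inferInstance : (commutator G).Characteristic).fixed
      (MulDistribMulAction.toMulAut A G a⁻¹)
    rw [← h1, Subgroup.mem_comap]
    show a⁻¹ • a • x ∈ commutator G
    rwa [inv_smul_smul]
  have hWF : extComm G A ≤ F := by
    unfold extComm
    rw [Subgroup.closure_le]
    rintro _ ⟨a, g, rfl⟩
    let κ : commutator G →* commutator G := (MulAut.conjNormal g : MulAut (commutator G)).toMonoidHom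
    let α : commutator G →* commutator G :=
      { toFun := fun x => ⟨a • (x : G), hDinv a x x.2⟩
        map_one' := Subtype.ext (smul_one a)
        map_mul' := fun x y => Subtype.ext (smul_mul' a (x : G) (y : G)) }
    obtain ⟨m, hm⟩ := MonoidHom.map_cyclic κ
    obtain ⟨l, hl⟩ := MonoidHom.map_cyclic α
    have hcomm : ∀ x, α (κ x) = κ (α x) := by
      intro x
      rw [hm, hl, hl, hm, ← zpow_mul, ← zpow_mul, mul_comm]
    show g⁻¹ * a • g ∈ Subgroup.centralizer (commutator G : Set G)
    rw [Subgroup.mem_centralizer_iff]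
    intro x hx
    have h1 := congrArg Subtype.val (hcomm ⟨a⁻¹ • x, hDinv a⁻¹ x hx⟩)
    have h2 : a • (g * (a⁻¹ • x) * g⁻¹) = g * (a • a⁻¹ • x) * g⁻¹ := h1
    rw [smul_mul', smul_mul', smul_inv_smul, smul_inv'] at h2
    calc x * (g⁻¹ * a • g) = g⁻¹ * (g * x * g⁻¹) * a • g := by group
      _ = g⁻¹ * (a • g * x * (a • g)⁻¹) * a • g := by rw [h2]
      _ = g⁻¹ * a • g * x := by group
  haveI hWcyc : IsCyclic (extComm G A) :=
    isCyclic_of_injective (Subgroup.inclusion hWF) (Subgroup.inclusion_injective hWF)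
  have hWcomm : ∀ x y : extComm G A, x * y = y * x := by
    letI := IsCyclic.commGroup (α := extComm G A)
    exact fun x y => mul_comm x y
  haveI hWn : (extComm G A).Normal := extComm_normal
  let C : Subgroup G := FixedPoints.subgroup A G
  have hCset : (C : Set G) = MulAction.fixedPoints A G := rfl
  have hinf : ∀ w : G, w ∈ extComm G A → w ∈ C → w = 1 := fun w hw hc =>
    eq_one_of_mem_extComm_of_fixed hWcomm hcop w hw hc
  have hcompl : Subgroup.IsComplement' C (extComm G A) := by
    apply Subgroup.isComplement'_of_disjoint_and_mul_eq_univ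
    · rw [Subgroup.disjoint_def]
      intro x hx hx'
      exact hinf x hx' hx
    · rw [Set.eq_univ_iff_forall]
      intro g
      obtain ⟨s, hs, hfix⟩ := exists_fixed_mul hWcomm hcop g
      exact ⟨g * s, hfix, s⁻¹, inv_mem hs, by simp⟩
  have hcard : Nat.card C * Nat.card (extComm G A) = Nat.card G := hcompl.card_mul_card
  refine ⟨?_, hWcyc, hWn, ?_, ?_⟩
  · show (Nat.card C).Coprime (Nat.card G / Nat.card C)
    rw [← hcard, Nat.mul_div_cancel_left _ Nat.card_pos]
    by_contra hnc
    obtain ⟨p, hp, hpC, hpW⟩ := Nat.Prime.not_coprime_iff_dvd.mp hnc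
    haveI : Fact p.Prime := ⟨hp⟩
    obtain ⟨u, hu⟩ := exists_prime_orderOf_dvd_card' (G := C) p hpC
    obtain ⟨w, hw⟩ := exists_prime_orderOf_dvd_card' (G := extComm G A) p hpW
    have hu' : orderOf (u : G) = p := by rw [Subgroup.orderOf_coe]; exact hu
    have hw' : orderOf (w : G) = p := by rw [Subgroup.orderOf_coe]; exact hw
    obtain ⟨P, hP⟩ := (isPGroup_zpowers_of_orderOf p (u : G) ⟨1, by rw [hu', pow_one]⟩).exists_le_sylow
    obtain ⟨P2, hP2⟩ := (isPGroup_zpowers_of_orderOf p (w : G) ⟨1, by rw [hw', pow_one]⟩).exists_le_sylow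
    obtain ⟨g, hg⟩ := MulAction.exists_smul_eq G P2 P
    have huP : (u : G) ∈ P := hP (Subgroup.mem_zpowers _)
    have hwP : g * (w : G) * g⁻¹ ∈ P := by
      rw [← hg, mem_sylow_smul_iff]
      have : g⁻¹ * (g * (w : G) * g⁻¹) * g = w := by group
      rw [this]
      exact hP2 (Subgroup.mem_zpowers _)
    haveI : IsCyclic P := hcyc p P
    haveI : Fintype P := Fintype.ofFinite P
    have hle := IsCyclic.card_pow_eq_one_le (α := P) hp.pos
    set u1 : P := ⟨(u : G), huP⟩ with hu1
    set w1 : P := ⟨g * (w : G) * g⁻¹, hwP⟩ with hw1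
    have hu1o : orderOf u1 = p := by rw [hu1, Subgroup.orderOf_mk]; exact hu'
    have hw1p : w1 ^ p = 1 := by
      apply Subtype.ext
      show (g * (w : G) * g⁻¹) ^ p = 1
      rw [conj_pow, ← hw', pow_orderOf_eq_one]
      group
    have hsub : (Finset.univ.image (fun i : Fin p => u1 ^ (i : ℕ))) ⊆
        Finset.univ.filter (fun a : P => a ^ p = 1) := by
      intro x hx
      obtain ⟨i, -, rfl⟩ := Finset.mem_image.mp hx
      rw [Finset.mem_filter]
      refine ⟨Finset.mem_univ _, ?_⟩
      have hu1p : u1 ^ p = 1 := by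
        have := pow_orderOf_eq_one u1
        rwa [hu1o] at this
      rw [← pow_mul, mul_comm, pow_mul, hu1p, one_pow]
    have hcardim : (Finset.univ.image (fun i : Fin p => u1 ^ (i : ℕ))).card = p := by
      rw [Finset.card_image_of_injective, Finset.card_univ, Fintype.card_fin]
      intro i j hij
      apply Fin.ext
      exact pow_injOn_Iio_orderOf (by rw [hu1o]; exact i.2) (by rw [hu1o]; exact j.2) hij
    have heq := Finset.eq_of_subset_of_card_le hsub (by rw [hcardim]; exact hle)
    have hw1mem : w1 ∈ Finset.univ.image (fun i : Fin p => u1 ^ (i : ℕ)) := by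
      rw [heq, Finset.mem_filter]
      exact ⟨Finset.mem_univ _, hw1p⟩
    obtain ⟨i, -, hi⟩ := Finset.mem_image.mp hw1mem
    have hi' : (u : G) ^ (i : ℕ) = g * (w : G) * g⁻¹ := congrArg Subtype.val hi
    have h1 : g * (w : G) * g⁻¹ = 1 := by
      apply hinf
      · exact hWn.conj_mem _ w.2 g
      · rw [← hi']
        exact pow_mem u.2 _
    have h2 : (w : G) = 1 := by
      have : (w : G) = g⁻¹ * (g * (w : G) * g⁻¹) * g := by group
      rw [this, h1]
      group
    rw [h2, orderOf_one] at hw'
    exact hp.one_lt.ne hw'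
  · ext w
    constructor
    · rintro ⟨hw, hc⟩
      exact hinf w hw hc
    · rintro rfl
      exact ⟨one_mem _, fun a => smul_one a⟩
  · rw [← hCset, Subgroup.closure_eq, sup_comm]
    exact hcompl.sup_eq_top

end Cfsg.Agent.S4117
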