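import Cfsg.Statements.S4127
import Cfsg.Agent.Lib.Helper22.PRegIndex
import Cfsg.Agent.Lib.Helper22.ConjCover
import Cfsg.Agent.Lib.Helper22.PiClasses
import Cfsg.Agent.S0071
import Cfsg.Agent.S0028
import Cfsg.Agent.H1.Basic

set_option autoImplicit false
open Cfsg Subgroup Cfsg.Agent.Lib.Helper22

namespace Cfsg.Agent.S4127

/-- Let G be a finite group, p a prime and p^a the largest power of p dividing the size of any conjugacy class of G. If some element of p-power order has a conjugacy class of size exactly p^a, then G has a normal p-complement. -/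
theorem result {G : Type*} [Group G] [Finite G] (p : ℕ) [Fact p.Prime]
    (a : ℕ) (hmax : ∀ y : G, ¬ p ^ (a + 1) ∣ (Subgroup.centralizer ({y} : Set G)).index)
    (hx : ∃ x : G, (∃ k : ℕ, orderOf x = p ^ k) ∧ (Subgroup.centralizer ({x} : Set G)).index = p ^ a) :
    Cfsg.HasNormalPComplement p G := by
  have hp : p.Prime := Fact.out
  obtain ⟨x, hxo, hxi⟩ := hx
  set C := centralizer ({x} : Set G) with hC
  -- no `p'`-element of `C` has class size (in `C`) divisible by `p`
  have HC : ∀ y : C, (orderOf y).Coprime p → ¬ p ∣ (centralizer ({y} : Set C)).index := by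
    intro y hy hdvd
    have hcomm : Commute x (y : G) := (mem_centralizer_singleton_iff.mp y.2).symm
    have hy' : (orderOf (y : G)).Coprime p := by rwa [Subgroup.orderOf_coe]
    have hcop : (orderOf x).Coprime (orderOf (y : G)) := by
      obtain ⟨k, hk⟩ := hxo
      rw [hk]
      exact (Nat.Coprime.pow_right k hy').symm
    have h1 : centralizer ({x * (y : G)} : Set G) = C ⊓ centralizer ({(y : G)} : Set G) := by
      apply le_antisymm
      · obtain ⟨k, hk⟩ := exists_pow_mul_eq_left hcomm hcop
        obtain ⟨l, hl⟩ := exists_pow_mul_eq_left hcomm.symm hcop.symm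
        refine le_inf ?_ ?_
        · have := centralizer_singleton_le_pow (x * (y : G)) k
          rwa [hk] at this
        · have := centralizer_singleton_le_pow (x * (y : G)) l
          rw [hcomm.eq, hl] at this
          rwa [hcomm.eq]
      · rintro g ⟨hg1, hg2⟩
        have hg1 : g ∈ centralizer ({x} : Set G) := hg1
        have hg2 : g ∈ centralizer ({(y : G)} : Set G) := hg2
        rw [mem_centralizer_singleton_iff] at hg1 hg2 ⊢
        rw [← mul_assoc, hg1, mul_assoc, hg2, mul_assoc]
    have h2 : (centralizer ({y} : Set C)) = (centralizer ({(y : G)} : Set G)).subgroupOf C := by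
      ext z
      simp [mem_subgroupOf, mem_centralizer_singleton_iff, Subtype.ext_iff]
    apply hmax (x * (y : G))
    rw [h1, ← relIndex_mul_index (inf_le_left : C ⊓ centralizer ({(y : G)} : Set G) ≤ C), hxi,
      pow_succ, mul_comm]
    apply mul_dvd_mul_right
    rw [inf_relIndex_left]
    rw [h2] at hdvd
    exact hdvd
  have hcommC : ∀ u y : G, u ∈ C → y ∈ C → (∃ a : ℕ, orderOf u = p ^ a) →
      (orderOf y).Coprime p → u * y = y * u := by
    intro u y hu hy hu' hy'
    have := commute_of_not_dvd_index p HC ⟨u, hu⟩ ⟨y, hy⟩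
      (by simpa [Subgroup.orderOf_mk] using hu') (by simpa [Subgroup.orderOf_mk] using hy')
    exact congrArg Subtype.val this
  -- the normal closure of `x` is a `p`-group
  obtain ⟨P, hxP⟩ := (isPGroup_zpowers_of_orderOf p x hxo).exists_le_sylow
  set U := normalClosure ({x} : Set G) with hU
  have hUP : U ≤ (P : Subgroup G) := by
    rw [hU, normalClosure, closure_le]
    intro z hz
    obtain ⟨a, ha, haz⟩ := Group.mem_conjugatesOfSet_iff.mp hz
    rw [Set.mem_singleton_iff] at ha
    subst ha
    obtain ⟨g, rfl⟩ := isConj_iff.mp haz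
    have hcop : (P : Subgroup G).index.Coprime C.index := by
      rw [hxi]
      apply Nat.Coprime.pow_right
      exact (Nat.Coprime.symm ((Nat.Prime.coprime_iff_not_dvd hp).mpr P.not_dvd_index))
    obtain ⟨u, hu, c, hc, rfl⟩ := Cfsg.H1.exists_mul_of_coprime_index _ _ hcop g
    rw [mem_centralizer_singleton_iff] at hc
    have : u * c * a * (u * c)⁻¹ = u * a * u⁻¹ := by
      calc u * c * a * (u * c)⁻¹ = u * (c * a) * c⁻¹ * u⁻¹ := by group
        _ = u * (a * c) * c⁻¹ * u⁻¹ := by rw [hc]
        _ = u * a * u⁻¹ := by group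
    rw [this]
    exact (P : Subgroup G).mul_mem ((P : Subgroup G).mul_mem hu (hxP (mem_zpowers a)))
      ((P : Subgroup G).inv_mem hu)
  have hUp : IsPGroup p U := P.isPGroup'.to_le hUP
  have hpel : ∀ u ∈ (P : Subgroup G), ∃ a : ℕ, orderOf u = p ^ a := by
    intro u hu
    obtain ⟨k, hk⟩ := P.isPGroup' ⟨u, hu⟩
    have h1 : u ^ p ^ k = 1 := congrArg Subtype.val hk
    obtain ⟨j, -, hj⟩ := (Nat.dvd_prime_pow hp).mp (orderOf_dvd_of_pow_eq_one h1)
    exact ⟨j, hj⟩
  set D := centralizer (U : Set G) with hD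
  have hDn : D.Normal := inferInstance
  have hDC : D ≤ C := centralizer_le (by
    intro z hz
    rw [Set.mem_singleton_iff] at hz
    rw [hz]
    exact subset_normalClosure (Set.mem_singleton x))
  -- `p'`-elements of `C` lie in `D`, by the `P × Q` lemma
  have hD1 : ∀ y ∈ C, (orderOf y).Coprime p → y ∈ D := by
    intro y hy hy'
    have hxy : y * x = x * y := mem_centralizer_singleton_iff.mp hy
    have := Cfsg.Agent.S0028.result p (zpowers x) (zpowers y) U
      (isPGroup_zpowers_of_orderOf p x hxo) (by rwa [Nat.card_zpowers]) hUp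
      (by
        rw [zpowers_le, mem_centralizer_iff]
        rintro _ ⟨k, rfl⟩
        exact ((Commute.zpow_left (show Commute y x from hxy) k)).eq)
      (by rw [normalizer_eq_top]; exact le_top)
      (by rw [normalizer_eq_top]; exact le_top)
      (by
        rintro u ⟨hu1, hu2⟩
        have hu3 : u ∈ C := by
          rw [mem_centralizer_singleton_iff]
          exact ((mem_centralizer_iff.mp hu2) x (mem_zpowers x)).symm
        have hu4 := hcommC u y hu3 hy (hpel u (hUP hu1)) hy'
        rw [mem_centralizer_iff]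
        rintro _ ⟨k, rfl⟩
        exact ((Commute.zpow_left (show Commute y u from hu4.symm) k)).eq)
    exact this (mem_zpowers y)
  have hD2 : ∀ y : G, (∃ q k : ℕ, q.Prime ∧ q ≠ p ∧ orderOf y = q ^ k) → y ∈ D := by
    rintro y ⟨q, k, hq, hqp, hy⟩
    haveI : Fact q.Prime := ⟨hq⟩
    have hidx : ¬ q ∣ C.index := by
      rw [hxi]
      intro h
      exact hqp ((Nat.prime_dvd_prime_iff_eq hq hp).mp (hq.dvd_of_dvd_pow h))
    obtain ⟨t, ht⟩ := exists_conj_le_of_not_dvd_index C (zpowers y) hidx
      (isPGroup_zpowers_of_orderOf q y ⟨k, hy⟩)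
    have h1 := ht y (mem_zpowers y)
    have h2 : orderOf (t⁻¹ * y * t) = orderOf y := by
      have := orderOf_eq_of_isConj (isConj_iff.mpr ⟨t⁻¹, by simp⟩ : IsConj y (t⁻¹ * y * t))
      exact this.symm
    have h3 : t⁻¹ * y * t ∈ D := by
      apply hD1 _ h1
      rw [h2, hy]
      exact Nat.Coprime.pow_left k ((Nat.coprime_primes hq hp).mpr hqp)
    have h4 := hDn.conj_mem _ h3 t
    simpa [mul_assoc] using h4
  have hD3 : ∀ y : G, (orderOf y).Coprime p → y ∈ D := fun y hy =>
    mem_of_coprime_of_prime_pow p D hD2 _ y rfl hy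
  -- Frobenius' criterion
  obtain ⟨N, hN1, hN2⟩ := (Cfsg.Agent.S0071.result P).mpr (by
    intro Q hQP g hg hgo
    rw [mem_centralizer_iff]
    intro u hu
    have hgD := hD3 g hgo
    set w := u * g * u⁻¹ * g⁻¹ with hw
    have hwD : w ∈ D := D.mul_mem (hDn.conj_mem g hgD u) (D.inv_mem hgD)
    have hwQ : w ∈ Q := by
      have h1 : g * u⁻¹ * g⁻¹ ∈ Q := (mem_normalizer_iff.mp hg u⁻¹).mp (Q.inv_mem hu)
      have h2 : w = u * (g * u⁻¹ * g⁻¹) := by rw [hw]; group
      rw [h2]; exact Q.mul_mem hu h1
    have hwg : w * g = g * w := hcommC w g (hDC hwD) (hDC hgD) (hpel w (hQP hwQ)) hgo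
    have h1 : u * g * u⁻¹ = w * g := by rw [hw]; group
    have h2 : (w * g) ^ orderOf g = 1 := by
      rw [← h1, conj_pow, pow_orderOf_eq_one]; group
    rw [(show Commute w g from hwg).mul_pow, pow_orderOf_eq_one, mul_one] at h2
    obtain ⟨j, hj⟩ := hpel w (hQP hwQ)
    have h3 : orderOf w ∣ orderOf g := orderOf_dvd_of_pow_eq_one h2
    have h4 : (orderOf w).Coprime (orderOf g) := by
      rw [hj]; exact (Nat.Coprime.pow_right j hgo).symm
    have h5 : orderOf w = 1 := Nat.Coprime.eq_one_of_dvd h4 h3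
    rw [orderOf_eq_one_iff] at h5
    rw [h5, one_mul] at h1
    calc u * g = u * g * u⁻¹ * u := by group
      _ = g * u := by rw [h1])
  exact ⟨P, N, hN1, hN2⟩

end Cfsg.Agent.S4127
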