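import Cfsg.Statements.S4138
import Cfsg.Agent.Lib.Helper16.ClsCop
import Cfsg.Agent.Lib.Helper16.Frob

set_option autoImplicit false
open Cfsg

namespace Cfsg.Agent.S4138

/-- Let G be a finite group whose two largest conjugacy class sizes m > n > 1 are coprime, and let x, y ∈ G have classes of sizes n and m respectively. Then C_G(x) and C_G(y) are abelian, and G/Z(G) is a Frobenius group with kernel C_G(x)/Z(G) and complement C_G(y)/Z(G). -/
theorem result {G : Type*} [Group G] [Finite G] (m n : ℕ) (hmn : n < m) (hn : 1 < n)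
    (hcop : m.Coprime n) (htop : ∀ z : G, (Subgroup.centralizer ({z} : Set G)).index ≤ m) (hsecond : ∀ z : G, (Subgroup.centralizer ({z} : Set G)).index < m → (Subgroup.centralizer ({z} : Set G)).index ≤ n)
    (x y : G) (hx : (Subgroup.centralizer ({x} : Set G)).index = n) (hy : (Subgroup.centralizer ({y} : Set G)).index = m) :
    IsMulCommutative (Subgroup.centralizer ({x} : Set G)) ∧ IsMulCommutative (Subgroup.centralizer ({y} : Set G)) ∧
    Cfsg.IsFrobeniusComplement ((Subgroup.centralizer ({y} : Set G)).map (QuotientGroup.mk' (Subgroup.center G))) ∧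
    Cfsg.frobeniusKernel ((Subgroup.centralizer ({y} : Set G)).map (QuotientGroup.mk' (Subgroup.center G))) =
      ((Subgroup.centralizer ({x} : Set G)).map (QuotientGroup.mk' (Subgroup.center G)) : Set (G ⧸ Subgroup.center G)) := by
  classical
  obtain ⟨N, hNn, hNne, hNab, hNH, hHN, hHab, B1, hCx⟩ :=
    Cfsg.Agent.Lib.Helper16.ClsCop.core m n hmn hn hcop htop hsecond x y hx hy
  set Z := Subgroup.center G with hZ
  set H := Subgroup.centralizer ({y} : Set G) with hH
  have hZH : Z ≤ H := fun z hz => by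
    rw [hH, Subgroup.mem_centralizer_singleton_iff]; exact (Subgroup.mem_center_iff.1 hz y).symm
  have hyZ : y ∉ Z := by
    intro h
    have h1 : H = ⊤ := by
      rw [eq_top_iff]; intro g _
      rw [hH, Subgroup.mem_centralizer_singleton_iff]; exact Subgroup.mem_center_iff.1 h g
    rw [h1, Subgroup.index_top] at hy; omega
  have hyH : y ∈ H := by rw [hH, Subgroup.mem_centralizer_singleton_iff]
  have hKab : ∀ a ∈ Z ⊔ N, ∀ b ∈ Z ⊔ N, a * b = b * a := by
    intro a ha b hb
    obtain ⟨z1, hz1, u1, hu1, rfl⟩ := Subgroup.mem_sup_of_normal_right.1 ha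
    obtain ⟨z2, hz2, u2, hu2, rfl⟩ := Subgroup.mem_sup_of_normal_right.1 hb
    have c1 : ∀ g, Commute z1 g := fun g => (Subgroup.mem_center_iff.1 hz1 g).symm
    have c2 : ∀ g, Commute z2 g := fun g => (Subgroup.mem_center_iff.1 hz2 g).symm
    have c3 : Commute u1 u2 := hNab u1 hu1 u2 hu2
    exact (((c1 z2).mul_right (c1 u2)).mul_left (((c2 u1).symm).mul_right c3)).eq
  refine ⟨?_, ⟨⟨fun a b => Subtype.ext (hHab b.1 b.2 a.1 a.2)⟩⟩, ?_⟩
  · rw [hCx]
    exact ⟨⟨fun a b => Subtype.ext (hKab a.1 a.2 b.1 b.2)⟩⟩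
  rw [hCx]
  set π := QuotientGroup.mk' Z with hπ
  have hπs : Function.Surjective π := QuotientGroup.mk'_surjective Z
  have hπ1 : ∀ g : G, π g = 1 ↔ g ∈ Z := fun g => QuotientGroup.eq_one_iff g
  haveI hKn : ((Z ⊔ N).map π).Normal := Subgroup.Normal.map inferInstance π hπs
  have hmemK : ∀ q ∈ (Z ⊔ N).map π, ∃ u ∈ N, π u = q := by
    intro q hq
    obtain ⟨a, ha, rfl⟩ := Subgroup.mem_map.1 hq
    obtain ⟨z1, hz1, u1, hu1, rfl⟩ := Subgroup.mem_sup_of_normal_right.1 ha
    exact ⟨u1, hu1, by rw [map_mul, (hπ1 z1).2 hz1, one_mul]⟩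
  apply Cfsg.Agent.Lib.Helper16.frob_of_fpf
  · apply Subgroup.isComplement'_of_disjoint_and_mul_eq_univ
    · rw [Subgroup.disjoint_def]
      intro q hq1 hq2
      obtain ⟨u, hu, rfl⟩ := hmemK q hq1
      obtain ⟨h, hh, hhu⟩ := Subgroup.mem_map.1 hq2
      have h1 : h⁻¹ * u ∈ Z := by
        rw [← hπ1, map_mul, map_inv, hhu, inv_mul_cancel]
      have h2 : u ∈ H := by
        have := H.mul_mem hh (hZH h1)
        rwa [mul_inv_cancel_left] at this
      rw [hNH u hu h2, map_one]
    · rw [Set.eq_univ_iff_forall]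
      intro q
      obtain ⟨g, rfl⟩ := hπs q
      have hg : g ∈ N ⊔ H := by rw [sup_comm, hHN]; exact Subgroup.mem_top g
      obtain ⟨e, he, h, hh, rfl⟩ := Subgroup.mem_sup_of_normal_left.1 hg
      exact ⟨π e, Subgroup.mem_map_of_mem π (Subgroup.mem_sup_right he), π h,
        Subgroup.mem_map_of_mem π hh, (map_mul π e h).symm⟩
  · intro h
    apply hNne
    rw [eq_bot_iff]; intro u hu
    have h1 : π u ∈ (Z ⊔ N).map π := Subgroup.mem_map_of_mem π (Subgroup.mem_sup_right hu)
    rw [h, Subgroup.mem_bot, hπ1] at h1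
    rw [Subgroup.mem_bot]
    exact hNH u hu (hZH h1)
  · intro h
    have h1 : π y ∈ H.map π := Subgroup.mem_map_of_mem π hyH
    rw [h, Subgroup.mem_bot, hπ1] at h1
    exact hyZ h1
  · intro q hq hq1
    obtain ⟨h, hh, rfl⟩ := Subgroup.mem_map.1 hq
    have hhZ : h ∉ Z := fun h0 => hq1 ((hπ1 h).2 h0)
    rw [eq_bot_iff]
    intro r hr
    rw [Subgroup.mem_inf, Subgroup.mem_centralizer_singleton_iff] at hr
    obtain ⟨u, hu, rfl⟩ := hmemK r hr.1
    have h1 : u * h * u⁻¹ * h⁻¹ ∈ Z := by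
      rw [← hπ1, map_mul, map_mul, map_mul, map_inv, map_inv, hr.2]
      group
    have h2 : u * h * u⁻¹ * h⁻¹ ∈ N := by
      have e : u * h * u⁻¹ * h⁻¹ = u * (h * u⁻¹ * h⁻¹) := by group
      rw [e]; exact N.mul_mem hu (hNn.conj_mem _ (N.inv_mem hu) _)
    have h3 := hNH _ h2 (hZH h1)
    have h4 : H = Subgroup.centralizer ({h} : Set G) := by
      apply Cfsg.Agent.Lib.Helper16.ClsCop.eq_of_le_of_index_le
      · intro k hk
        rw [Subgroup.mem_centralizer_singleton_iff]; exact hHab h hh k hk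
      · rw [hy, B1 h hh hhZ]
    have h5 : u ∈ H := by
      rw [h4, Subgroup.mem_centralizer_singleton_iff]
      calc u * h = (u * h * u⁻¹ * h⁻¹) * (h * u) := by group
        _ = h * u := by rw [h3, one_mul]
    rw [hNH u hu h5, map_one]; exact Subgroup.one_mem _

end Cfsg.Agent.S4138
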