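import Cfsg.Statements.S4142
import Mathlib

set_option autoImplicit false
open Cfsg

namespace Cfsg.Agent.S4142

/-- Let G be a finite group and N a normal subgroup. Then the conjugacy class of every element g outside N is a union of cosets of N (gn is conjugate to g for all n ∈ N) if and only if for every g outside N the centralizer of g in G has the same order as the centralizer of gN in G/N. -/
theorem result {G : Type*} [Group G] [Finite G] (N : Subgroup G) [N.Normal] :
    (∀ g : G, g ∉ N → ∀ n ∈ N, ∃ x : G, x * g * x⁻¹ = g * n) ↔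
      ∀ g : G, g ∉ N → Nat.card (Subgroup.centralizer ({g} : Set G)) =
        Nat.card (Subgroup.centralizer ({(QuotientGroup.mk g : G ⧸ N)} : Set (G ⧸ N))) := by
  classical
  -- key counting identity for every `g`
  have key : ∀ g : G, ∃ R : Set N, (∀ n : N, n ∈ R ↔ ∃ x : G, x * g * x⁻¹ = g * n) ∧
      Nat.card N * Nat.card (Subgroup.centralizer ({(QuotientGroup.mk g : G ⧸ N)} : Set (G ⧸ N))) =
        R.ncard * Nat.card (Subgroup.centralizer ({g} : Set G)) := by
    intro g
    set Cb := Subgroup.centralizer ({(QuotientGroup.mk g : G ⧸ N)} : Set (G ⧸ N)) with hCb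
    set S : Subgroup G := Cb.comap (QuotientGroup.mk' N) with hS
    set T : Subgroup G := Subgroup.centralizer ({g} : Set G) with hT
    have hmemS : ∀ x : G, x ∈ S ↔ g⁻¹ * (x * g * x⁻¹) ∈ N := by
      intro x
      rw [hS, Subgroup.mem_comap, hCb, Subgroup.mem_centralizer_singleton_iff,
        ← QuotientGroup.eq_one_iff]
      change (QuotientGroup.mk x : G ⧸ N) * QuotientGroup.mk g = QuotientGroup.mk g * QuotientGroup.mk x ↔ _
      rw [QuotientGroup.mk_mul, QuotientGroup.mk_mul, QuotientGroup.mk_mul, QuotientGroup.mk_inv,
        QuotientGroup.mk_inv, inv_mul_eq_one, eq_comm, eq_mul_inv_iff_mul_eq]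
    have hTS : T ≤ S := by
      intro x hx
      rw [hmemS]
      rw [hT, Subgroup.mem_centralizer_singleton_iff] at hx
      rw [hx]
      simp
    let f : S → N := fun x => ⟨g⁻¹ * (x * g * (x : G)⁻¹), (hmemS x).1 x.2⟩
    have hf : ∀ x y : S, f x = f y ↔ x⁻¹ * y ∈ T.subgroupOf S := by
      intro x y
      rw [Subgroup.mem_subgroupOf, hT, Subgroup.mem_centralizer_singleton_iff, Subtype.ext_iff]
      change g⁻¹ * (x * g * (x : G)⁻¹) = g⁻¹ * (y * g * (y : G)⁻¹) ↔
        ((x : G)⁻¹ * y) * g = g * ((x : G)⁻¹ * y)
      constructor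
      · intro h
        have h1 := mul_left_cancel h
        have h2 : g = (x : G)⁻¹ * (y * g * (y : G)⁻¹) * x := by rw [← h1]; group
        calc ((x : G)⁻¹ * y) * g = ((x : G)⁻¹ * (y * g * (y : G)⁻¹) * x) * ((x : G)⁻¹ * y) := by group
          _ = g * ((x : G)⁻¹ * y) := by rw [← h2]
      · intro h
        congr 1
        have h2 : (y : G) * g = x * g * ((x : G)⁻¹ * y) := by
          rw [mul_assoc, ← h]; group
        rw [h2]; group
    let fb : S ⧸ T.subgroupOf S → N := fun q => Quotient.liftOn' q f (by
      intro a b hab
      rw [QuotientGroup.leftRel_apply] at hab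
      exact (hf a b).2 hab)
    have hfb : Function.Injective fb := by
      intro q1 q2
      induction q1 using QuotientGroup.induction_on with
      | H a =>
        induction q2 using QuotientGroup.induction_on with
        | H b =>
          intro h
          exact QuotientGroup.eq.2 ((hf a b).1 h)
    refine ⟨Set.range fb, ?_, ?_⟩
    · intro n
      constructor
      · rintro ⟨q, rfl⟩
        induction q using QuotientGroup.induction_on with
        | H a =>
          refine ⟨a, ?_⟩
          change (a : G) * g * (a : G)⁻¹ = g * (g⁻¹ * (a * g * (a : G)⁻¹))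
          group
      · rintro ⟨x, hx⟩
        have hxS : x ∈ S := by
          rw [hmemS, hx]; simp
        refine ⟨QuotientGroup.mk ⟨x, hxS⟩, ?_⟩
        apply Subtype.ext
        change g⁻¹ * (x * g * x⁻¹) = n
        rw [hx]; group
    · have h1 : Nat.card S = Nat.card (S ⧸ T.subgroupOf S) * Nat.card (T.subgroupOf S) :=
        Subgroup.card_eq_card_quotient_mul_card_subgroup _
      have h2 : Nat.card (T.subgroupOf S) = Nat.card T :=
        Nat.card_congr (Subgroup.subgroupOfEquivOfLe hTS).toEquiv
      have h3 : (Set.range fb).ncard = Nat.card (S ⧸ T.subgroupOf S) := by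
        rw [← Nat.card_coe_set_eq]
        exact (Nat.card_congr (Equiv.ofInjective fb hfb)).symm
      have h4 : Nat.card S = Nat.card N * Nat.card Cb := by
        have h5 : S.index = Cb.index :=
          Subgroup.index_comap_of_surjective Cb (QuotientGroup.mk'_surjective N)
        have h6 := S.card_mul_index
        have h7 := Cb.card_mul_index
        have h8 := N.card_mul_index
        have h9 : N.index = Nat.card (G ⧸ N) := rfl
        have hpos : 0 < Cb.index := Nat.pos_of_ne_zero Subgroup.index_ne_zero_of_finite
        apply Nat.eq_of_mul_eq_mul_right hpos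
        rw [← h5] at h7 ⊢
        rw [h6, ← h8, h9, ← h7, mul_assoc]
      rw [← h4, h1, h2, h3]
  constructor
  · intro h g hg
    obtain ⟨R, hR, hcard⟩ := key g
    have hRu : R = Set.univ := by
      ext n
      simp only [Set.mem_univ, iff_true]
      exact (hR n).2 (h g hg n n.2)
    rw [hRu, Set.ncard_univ] at hcard
    exact (Nat.eq_of_mul_eq_mul_left Nat.card_pos hcard).symm
  · intro h g hg n hn
    obtain ⟨R, hR, hcard⟩ := key g
    rw [← h g hg] at hcard
    have h1 : Nat.card N = R.ncard := Nat.eq_of_mul_eq_mul_right Nat.card_pos hcard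
    have hRu : R = Set.univ := (Set.eq_univ_iff_ncard R).2 h1.symm
    have := (hR ⟨n, hn⟩).1 (hRu ▸ Set.mem_univ _)
    exact this

end Cfsg.Agent.S4142
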