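import Cfsg.Statements.S4160
import Cfsg.Agent.Lib.Helper22.ConjCover

set_option autoImplicit false
open Cfsg

namespace Cfsg.Agent.S4160

open Subgroup Cfsg.Agent.Lib.Helper22

/-- the non-identity elements centralizing some conjugate of `R` -/
def U {G : Type*} [Group G] (R : Subgroup G) : Set G :=
  {x : G | ∃ g : G, ∃ c ∈ centralizer (R : Set G), c ≠ 1 ∧ x = g * c * g⁻¹}

theorem mem_U {G : Type*} [Group G] [Finite G] {r : ℕ} [Fact r.Prime] (R : Sylow r G) (x : G)
    (hx1 : x ≠ 1) (hx : ¬ r ∣ (centralizer ({x} : Set G)).index) : x ∈ U (R : Subgroup G) := by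
  obtain ⟨t, ht⟩ := exists_conj_le_of_not_dvd_index _ (R : Subgroup G) hx R.isPGroup'
  refine ⟨t⁻¹, t * x * t⁻¹, ?_, ?_, by group⟩
  · rw [mem_centralizer_iff]
    intro k hk
    have h1 := ht k hk
    rw [mem_centralizer_singleton_iff] at h1
    calc k * (t * x * t⁻¹) = t * ((t⁻¹ * k * t) * x) * t⁻¹ := by group
      _ = t * (x * (t⁻¹ * k * t)) * t⁻¹ := by rw [h1]
      _ = t * x * t⁻¹ * k := by group
  · intro h
    rw [conj_eq_one_iff] at h
    exact hx1 h

theorem bound {G : Type*} [Group G] [Finite G] (R : Subgroup G)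
    (h : ¬ normalizer (R : Set G) ≤ centralizer (R : Set G)) :
    2 * (U R).ncard + 2 ≤ Nat.card G := by
  set C := centralizer (R : Set G) with hC
  set N := normalizer (R : Set G) with hN
  have hCN : C ≤ N := by
    intro c hc
    rw [hN, mem_normalizer_iff]
    intro y
    rw [hC, mem_centralizer_iff] at hc
    constructor
    · intro hy
      have := hc y hy
      have e : c * y * c⁻¹ = y := by rw [← this]; group
      rw [e]; exact hy
    · intro hy
      have := hc _ hy
      have e : c * y * c⁻¹ = y := by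
        have h2 : c * y * c⁻¹ * c = c * (c * y * c⁻¹) := this
        have h3 : c * y = c * (c * y * c⁻¹) := by rw [← h2]; group
        exact (mul_left_cancel h3).symm
      rw [e] at hy; exact hy
  have hnorm : ∀ n ∈ N, ∀ c ∈ C, n * c * n⁻¹ ∈ C := by
    intro n hn c hc
    rw [hC, mem_centralizer_iff] at hc ⊢
    intro y hy
    have hy' : n⁻¹ * y * n ∈ R := by
      have := (mem_normalizer_iff.mp (N.inv_mem hn) y).mp hy
      simpa using this
    have := hc _ hy'
    calc y * (n * c * n⁻¹) = n * ((n⁻¹ * y * n) * c) * n⁻¹ := by group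
      _ = n * (c * (n⁻¹ * y * n)) * n⁻¹ := by rw [this]
      _ = n * c * n⁻¹ * y := by group
  have h1 := ncard_conj_union_le C N hnorm
  have h2 : Nat.card C ∣ Nat.card N := card_dvd_of_le hCN
  have h3 : Nat.card C ≠ Nat.card N := by
    intro heq
    exact h (eq_of_le_of_card_ge hCN heq.ge).ge
  have h4 : 2 * Nat.card C ≤ Nat.card N := by
    obtain ⟨k, hk⟩ := h2
    have hNpos : 0 < Nat.card N := Nat.card_pos
    have hCpos : 0 < Nat.card C := Nat.card_pos
    have hk2 : 2 ≤ k := by
      rcases k with _ | _ | k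
      · simp at hk; omega
      · simp at hk; omega
      · omega
    rw [hk]; nlinarith
  have h5 := N.card_mul_index
  have hi : 0 < N.index := Nat.pos_of_ne_zero N.index_ne_zero_of_finite
  have hCpos : 0 < Nat.card C := Nat.card_pos
  obtain ⟨m, hm⟩ : ∃ m, Nat.card C = m + 1 := ⟨Nat.card C - 1, by omega⟩
  have h1' : (U R).ncard ≤ N.index * m := by
    have : (U R).ncard ≤ N.index * (Nat.card C - 1) := h1
    rwa [hm, Nat.add_sub_cancel] at this
  rw [hm] at h4
  nlinarith

/-- Let G be a finite group and p ≠ q primes each dividing the size of some conjugacy class of G, such that no conjugacy class size is divisible by pq. Then G has a normal p-complement or a normal q-complement. -/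
theorem result {G : Type*} [Group G] [Finite G] (p q : ℕ) (hp : p.Prime) (hq : q.Prime) (hpq : p ≠ q)
    (hp' : ∃ x : G, p ∣ (Subgroup.centralizer ({x} : Set G)).index) (hq' : ∃ x : G, q ∣ (Subgroup.centralizer ({x} : Set G)).index) (h : ∀ x : G, ¬ p * q ∣ (Subgroup.centralizer ({x} : Set G)).index) :
    Cfsg.HasNormalPComplement p G ∨ Cfsg.HasNormalPComplement q G := by
  haveI := Fact.mk hp
  haveI := Fact.mk hq
  obtain ⟨P⟩ : Nonempty (Sylow p G) := inferInstance
  obtain ⟨Q⟩ : Nonempty (Sylow q G) := inferInstance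
  by_cases hP : normalizer ((P : Subgroup G) : Set G) ≤ centralizer ((P : Subgroup G) : Set G)
  · left
    exact ⟨P, _, inferInstance, MonoidHom.ker_transferSylow_isComplement' P hP⟩
  by_cases hQ : normalizer ((Q : Subgroup G) : Set G) ≤ centralizer ((Q : Subgroup G) : Set G)
  · right
    exact ⟨Q, _, inferInstance, MonoidHom.ker_transferSylow_isComplement' Q hQ⟩
  exfalso
  have h1 := bound (P : Subgroup G) hP
  have h2 := bound (Q : Subgroup G) hQ
  have hcov : ({1}ᶜ : Set G) ⊆ U (P : Subgroup G) ∪ U (Q : Subgroup G) := by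
    intro x hx
    have hx1 : x ≠ 1 := hx
    by_cases hpx : p ∣ (centralizer ({x} : Set G)).index
    · right
      apply mem_U Q x hx1
      intro hqx
      exact h x (((Nat.coprime_primes hp hq).mpr hpq).mul_dvd_of_dvd_of_dvd hpx hqx)
    · left
      exact mem_U P x hx1 hpx
  have h3 := Set.ncard_le_ncard hcov (Set.toFinite _)
  have h4 := Set.ncard_union_le (U (P : Subgroup G)) (U (Q : Subgroup G))
  rw [Set.ncard_compl, Set.ncard_singleton] at h3
  omega

end Cfsg.Agent.S4160
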