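import Cfsg.Statements.S4149
import Cfsg.Agent.S4160

set_option autoImplicit false
open Cfsg

namespace Cfsg.Agent.S4149

/-- Let G be a finite group that has a normal p-complement for at most one prime p dividing its order, and let σ be a natural number such that every conjugacy class size of G has at most σ distinct prime divisors. Then the number of primes dividing at least one conjugacy class size of G is at most 2σ. -/
theorem result {G : Type*} [Group G] [Finite G] (σ : ℕ)
    (hσ : ∀ x : G, ((Subgroup.centralizer ({x} : Set G)).index).primeFactors.card ≤ σ)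
    (hnil : ∀ p q : ℕ, p.Prime → q.Prime → p ∣ Nat.card G → q ∣ Nat.card G →
      Cfsg.HasNormalPComplement p G → Cfsg.HasNormalPComplement q G → p = q) :
    Nat.card {p : ℕ | p.Prime ∧ ∃ x : G, p ∣ (Subgroup.centralizer ({x} : Set G)).index} ≤ 2 * σ := by
  classical
  haveI := Fintype.ofFinite G
  set V : Finset ℕ := (Nat.card G).primeFactors.filter
    (fun p => ∃ x : G, p ∣ (Subgroup.centralizer ({x} : Set G)).index) with hV
  have hVmem : ∀ p, p ∈ V ↔ p.Prime ∧ ∃ x : G, p ∣ (Subgroup.centralizer ({x} : Set G)).index := by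
    intro p
    rw [hV, Finset.mem_filter, Nat.mem_primeFactors]
    constructor
    · rintro ⟨⟨hp, _, _⟩, x, hx⟩; exact ⟨hp, x, hx⟩
    · rintro ⟨hp, x, hx⟩
      exact ⟨⟨hp, hx.trans (Subgroup.index_dvd_card _), Nat.card_pos.ne'⟩, x, hx⟩
  have hVset : {p : ℕ | p.Prime ∧ ∃ x : G, p ∣ (Subgroup.centralizer ({x} : Set G)).index}
      = (V : Set ℕ) := by
    ext p
    rw [Set.mem_setOf_eq, Finset.mem_coe, hVmem]
  rw [hVset, Nat.card_coe_set_eq, Set.ncard_coe_finset]
  by_contra hcon
  push Not at hcon
  set E : Finset G := Finset.univ.filter (fun g => g ≠ 1) with hE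
  have hEcard : E.card + 1 = Nat.card G := by
    have h1 : E = Finset.univ.erase 1 := by
      ext g; simp [hE]
    rw [h1, Finset.card_erase_of_mem (Finset.mem_univ _), Finset.card_univ, Nat.card_eq_fintype_card]
    have : 0 < Fintype.card G := Fintype.card_pos
    omega
  -- double counting
  have hdc := Finset.sum_card_bipartiteAbove_eq_sum_card_bipartiteBelow (s := V) (t := E)
    (fun (p : ℕ) (g : G) => ¬ p ∣ (Subgroup.centralizer ({g} : Set G)).index)
  have hlow : E.card * (V.card - σ) ≤ ∑ g ∈ E, (Finset.bipartiteBelow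
      (fun (p : ℕ) (g : G) => ¬ p ∣ (Subgroup.centralizer ({g} : Set G)).index) V g).card := by
    have := Finset.card_nsmul_le_sum E (fun g => (Finset.bipartiteBelow
      (fun (p : ℕ) (g : G) => ¬ p ∣ (Subgroup.centralizer ({g} : Set G)).index) V g).card)
      (V.card - σ) (by
        intro g _
        have h1 := Finset.card_filter_add_card_filter_not (s := V)
          (fun p => p ∣ (Subgroup.centralizer ({g} : Set G)).index)
        have h2 : (V.filter (fun p => p ∣ (Subgroup.centralizer ({g} : Set G)).index)).card ≤ σ := by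
          refine le_trans (Finset.card_le_card ?_) (hσ g)
          intro p hp
          rw [Finset.mem_filter, hVmem] at hp
          rw [Nat.mem_primeFactors]
          exact ⟨hp.1.1, hp.2, Subgroup.index_ne_zero_of_finite⟩
        have h3 : (Finset.bipartiteBelow
            (fun (p : ℕ) (g : G) => ¬ p ∣ (Subgroup.centralizer ({g} : Set G)).index) V g)
            = V.filter (fun p => ¬ p ∣ (Subgroup.centralizer ({g} : Set G)).index) := rfl
        rw [h3]
        omega)
    rwa [smul_eq_mul] at this
  obtain ⟨p0, hp0⟩ : V.Nonempty := by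
    rw [← Finset.card_pos]; omega
  have hG2 : 2 ≤ Nat.card G := by
    have h1 := (hVmem p0).1 hp0
    obtain ⟨hp, x, hx⟩ := h1
    exact hp.two_le.trans (Nat.le_of_dvd Nat.card_pos (hx.trans (Subgroup.index_dvd_card _)))
  obtain ⟨M, hM⟩ : ∃ M, Nat.card G = M + 2 := ⟨Nat.card G - 2, by omega⟩
  have hup : ∀ p ∈ V, 2 * (Finset.bipartiteAbove
      (fun (p : ℕ) (g : G) => ¬ p ∣ (Subgroup.centralizer ({g} : Set G)).index) E p).card
      ≤ M + (if Cfsg.HasNormalPComplement p G then M else 0) := by
    intro p hp
    obtain ⟨hpp, x, hx⟩ := (hVmem p).1 hp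
    haveI := Fact.mk hpp
    have h3 : (Finset.bipartiteAbove
        (fun (p : ℕ) (g : G) => ¬ p ∣ (Subgroup.centralizer ({g} : Set G)).index) E p)
        = E.filter (fun g => ¬ p ∣ (Subgroup.centralizer ({g} : Set G)).index) := rfl
    rw [h3]
    by_cases hc : Cfsg.HasNormalPComplement p G
    · rw [if_pos hc]
      have hx1 : x ≠ 1 := by
        rintro rfl
        have : Subgroup.centralizer ({1} : Set G) = ⊤ := by
          rw [eq_top_iff]; intro g _
          rw [Subgroup.mem_centralizer_singleton_iff]; simp
        rw [this, Subgroup.index_top] at hx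
        exact hpp.one_lt.ne' (Nat.dvd_one.1 hx)
      have h4 : E.filter (fun g => ¬ p ∣ (Subgroup.centralizer ({g} : Set G)).index) ⊆ E.erase x := by
        intro g hg
        rw [Finset.mem_filter] at hg
        rw [Finset.mem_erase]
        refine ⟨?_, hg.1⟩
        rintro rfl
        exact hg.2 hx
      have h5 := Finset.card_le_card h4
      rw [Finset.card_erase_of_mem (by rw [hE, Finset.mem_filter]; exact ⟨Finset.mem_univ _, hx1⟩)] at h5
      omega
    · rw [if_neg hc]
      obtain ⟨P⟩ : Nonempty (Sylow p G) := inferInstance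
      have hP : ¬ Subgroup.normalizer ((P : Subgroup G) : Set G)
          ≤ Subgroup.centralizer ((P : Subgroup G) : Set G) := by
        intro hP
        exact hc ⟨P, _, inferInstance, MonoidHom.ker_transferSylow_isComplement' P hP⟩
      have h1 := Cfsg.Agent.S4160.bound (P : Subgroup G) hP
      have h4 : ((E.filter (fun g => ¬ p ∣ (Subgroup.centralizer ({g} : Set G)).index) : Finset G) : Set G)
          ⊆ Cfsg.Agent.S4160.U (P : Subgroup G) := by
        intro g hg
        rw [Finset.mem_coe, Finset.mem_filter, hE, Finset.mem_filter] at hg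
        exact Cfsg.Agent.S4160.mem_U P g hg.1.2 hg.2
      have h5 := Set.ncard_le_ncard h4 (Set.toFinite _)
      rw [Set.ncard_coe_finset] at h5
      omega
  have hsum : 2 * ∑ p ∈ V, (Finset.bipartiteAbove
      (fun (p : ℕ) (g : G) => ¬ p ∣ (Subgroup.centralizer ({g} : Set G)).index) E p).card
      ≤ (V.card + 1) * M := by
    rw [Finset.mul_sum]
    refine le_trans (Finset.sum_le_sum hup) ?_
    rw [Finset.sum_add_distrib, Finset.sum_const, smul_eq_mul, ← Finset.sum_filter, Finset.sum_const,
      smul_eq_mul]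
    have h1 : (V.filter (fun p => Cfsg.HasNormalPComplement p G)).card ≤ 1 := by
      rw [Finset.card_le_one]
      intro a ha b hb
      rw [Finset.mem_filter, hVmem] at ha hb
      obtain ⟨⟨hap, xa, hxa⟩, hac⟩ := ha
      obtain ⟨⟨hbp, xb, hxb⟩, hbc⟩ := hb
      exact hnil a b hap hbp (hxa.trans (Subgroup.index_dvd_card _))
        (hxb.trans (Subgroup.index_dvd_card _)) hac hbc
    have h2 : (V.filter (fun p => Cfsg.HasNormalPComplement p G)).card * M ≤ 1 * M :=
      Nat.mul_le_mul_right _ h1
    linarith [h2]
  rw [hdc] at hsum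
  obtain ⟨d, hd⟩ : ∃ d, V.card = σ + d := ⟨V.card - σ, by omega⟩
  have hEc : E.card = M + 1 := by omega
  rw [hd, Nat.add_sub_cancel_left, hEc] at hlow
  rw [hd] at hsum
  have h1 : (σ + d + 1) * M ≤ (2 * d) * M := Nat.mul_le_mul_right _ (by omega)
  have h2 : 2 * ((M + 1) * d) ≤ (2 * d) * M := le_trans (le_trans (Nat.mul_le_mul_left 2 hlow) hsum) h1
  have h3 : d = 0 := by nlinarith
  omega

end Cfsg.Agent.S4149
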