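import Cfsg.Statements.S4153

set_option autoImplicit false
open Cfsg

namespace Cfsg.Agent.S4153

theorem relIndex_mul_card'' {G : Type*} [Group G] {H K : Subgroup G} (h : H ≤ K) :
    H.relIndex K * Nat.card ↥H = Nat.card ↥K := by
  have h1 := (H.subgroupOf K).card_mul_index
  rw [Nat.card_congr (Subgroup.subgroupOfEquivOfLe h).toEquiv] at h1
  rw [Subgroup.relIndex, mul_comm]; exact h1

theorem key {G : Type*} [Group G] [Finite G] (p : ℕ) [Fact p.Prime] (N : Subgroup G) [N.Normal]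
    (P : Sylow p G) (Pbar : Sylow p (G ⧸ N)) (Q : Sylow p G) :
    Nat.card (Pbar : Subgroup (G ⧸ N)) * Nat.card ↥((Q : Subgroup G) ⊓ N)
      = Nat.card (P : Subgroup G) := by
  have hf : Function.Surjective (QuotientGroup.mk' N) := QuotientGroup.mk'_surjective N
  have h1 : Nat.card (Pbar : Subgroup (G ⧸ N)) = Nat.card ((Q : Subgroup G).map (QuotientGroup.mk' N)) := by
    rw [← Sylow.coe_mapSurjective hf Q, Sylow.card_eq_multiplicity, Sylow.card_eq_multiplicity]
  have h2 : Nat.card (P : Subgroup G) = Nat.card (Q : Subgroup G) := by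
    rw [Sylow.card_eq_multiplicity, Sylow.card_eq_multiplicity]
  have h3 := Subgroup.relIndex_ker (K := (Q : Subgroup G)) (QuotientGroup.mk' N)
  rw [QuotientGroup.ker_mk'] at h3
  have h4 := relIndex_mul_card'' (inf_le_left : (Q : Subgroup G) ⊓ N ≤ (Q : Subgroup G))
  rw [inf_comm, Subgroup.inf_relIndex_right, h3] at h4
  rw [h1, h2, inf_comm]
  exact h4

theorem isP_of_mem {G : Type*} [Group G] (p : ℕ) [Fact p.Prime] (Q : Sylow p G) {g : G}
    (hg : g ∈ (Q : Subgroup G)) : ∃ k : ℕ, orderOf g = p ^ k := by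
  obtain ⟨k, hk⟩ := Q.2 ⟨g, hg⟩
  have h1 : g ^ p ^ k = 1 := by
    have := congrArg Subtype.val hk
    simpa using this
  exact (Nat.dvd_prime_pow Fact.out).1 (orderOf_dvd_of_pow_eq_one h1) |>.imp fun _ h => h.2

theorem exists_sylow_of_isP {G : Type*} [Group G] [Finite G] (p : ℕ) [Fact p.Prime] {g : G}
    (hg : ∃ k : ℕ, orderOf g = p ^ k) : ∃ Q : Sylow p G, g ∈ (Q : Subgroup G) := by
  obtain ⟨k, hk⟩ := hg
  have h1 : IsPGroup p (Subgroup.zpowers g) := by
    apply IsPGroup.of_card (n := k)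
    rw [Nat.card_zpowers, hk]
  obtain ⟨Q, hQ⟩ := h1.exists_le_sylow
  exact ⟨Q, hQ (Subgroup.mem_zpowers g)⟩

/-- Let G be a finite group, p a prime, N a normal subgroup, P a Sylow p-subgroup of G and P̄ a Sylow p-subgroup of G/N. Count the elements of p-power order, the identity included. Then (number of such elements of G/N)/#P̄ ≤ (number of such elements of G)/#P, stated as a cross-multiplied inequality, with equality when N is central. -/
theorem result {G : Type*} [Group G] [Finite G] (p : ℕ) [Fact p.Prime] (N : Subgroup G) [N.Normal]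
    (P : Sylow p G) (Pbar : Sylow p (G ⧸ N)) :
    Nat.card {g : (G ⧸ N) // ∃ k : ℕ, orderOf g = p ^ k} * Nat.card (P : Subgroup G) ≤ Nat.card {g : G // ∃ k : ℕ, orderOf g = p ^ k} * Nat.card (Pbar : Subgroup (G ⧸ N)) ∧
    (N ≤ Subgroup.center G → Nat.card {g : (G ⧸ N) // ∃ k : ℕ, orderOf g = p ^ k} * Nat.card (P : Subgroup G) = Nat.card {g : G // ∃ k : ℕ, orderOf g = p ^ k} * Nat.card (Pbar : Subgroup (G ⧸ N))) := by
  classical
  set A := {g : G // ∃ k : ℕ, orderOf g = p ^ k} with hA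
  set B := {g : (G ⧸ N) // ∃ k : ℕ, orderOf g = p ^ k} with hB
  set a := Nat.card ↥((P : Subgroup G) ⊓ N) with ha
  have hPa : Nat.card (Pbar : Subgroup (G ⧸ N)) * a = Nat.card (P : Subgroup G) := key p N P Pbar P
  have hpos : 0 < Nat.card (Pbar : Subgroup (G ⧸ N)) := Nat.card_pos
  have hQa : ∀ Q : Sylow p G, Nat.card ↥((Q : Subgroup G) ⊓ N) = a := by
    intro Q
    have h1 := key p N P Pbar Q
    rw [← hPa] at h1
    exact Nat.eq_of_mul_eq_mul_left hpos h1
  -- choice of data
  have hch : ∀ b : B, ∃ (Q : Sylow p G) (y : G), y ∈ (Q : Subgroup G) ∧ (QuotientGroup.mk' N) y = b.1 := by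
    intro b
    obtain ⟨R, hR⟩ := exists_sylow_of_isP p b.2
    obtain ⟨Q, hQ⟩ := Sylow.mapSurjective_surjective (QuotientGroup.mk'_surjective N) p R
    rw [← hQ, Sylow.coe_mapSurjective] at hR
    obtain ⟨y, hy, hyb⟩ := hR
    exact ⟨Q, y, hy, hyb⟩
  choose Qf yf hyQ hyb using hch
  have he : ∀ b : B, Nonempty (Fin a ≃ ↥((Qf b : Subgroup G) ⊓ N)) := by
    intro b
    have e := Finite.equivFin ↥((Qf b : Subgroup G) ⊓ N)
    rw [hQa] at e
    exact ⟨e.symm⟩
  let e : ∀ b : B, Fin a ≃ ↥((Qf b : Subgroup G) ⊓ N) := fun b => (he b).some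
  have hmk : ∀ (b : B) (i : Fin a), (QuotientGroup.mk' N) (yf b * (e b i).1) = b.1 := by
    intro b i
    rw [map_mul, hyb]
    have : (QuotientGroup.mk' N) (e b i).1 = 1 := by
      rw [← MonoidHom.mem_ker, QuotientGroup.ker_mk']
      exact (e b i).2.2
    rw [this, mul_one]
  let Φ : B × Fin a → A := fun x =>
    ⟨yf x.1 * (e x.1 x.2).1, isP_of_mem p (Qf x.1) (mul_mem (hyQ x.1) (e x.1 x.2).2.1)⟩
  have hinj : Function.Injective Φ := by
    rintro ⟨b, i⟩ ⟨b', i'⟩ h
    have h1 : yf b * (e b i).1 = yf b' * (e b' i').1 := congrArg Subtype.val h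
    have h2 : b = b' := by
      apply Subtype.ext
      rw [← hmk b i, ← hmk b' i', h1]
    subst h2
    have h3 : (e b i).1 = (e b i').1 := mul_left_cancel h1
    have h4 : i = i' := (e b).injective (Subtype.ext h3)
    rw [h4]
  have hcardBA : Nat.card (B × Fin a) = Nat.card B * a := by
    rw [Nat.card_prod, Nat.card_fin]
  have hle : Nat.card B * a ≤ Nat.card A := by
    rw [← hcardBA]
    exact Nat.card_le_card_of_injective Φ hinj
  refine ⟨?_, ?_⟩
  · calc Nat.card B * Nat.card (P : Subgroup G)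
        = (Nat.card B * a) * Nat.card (Pbar : Subgroup (G ⧸ N)) := by rw [← hPa]; ring
      _ ≤ Nat.card A * Nat.card (Pbar : Subgroup (G ⧸ N)) := Nat.mul_le_mul_right _ hle
  · intro hN
    have hsurj : Function.Surjective Φ := by
      rintro ⟨g, hg⟩
      have hgb : ∃ k : ℕ, orderOf ((QuotientGroup.mk' N) g) = p ^ k := by
        obtain ⟨k, hk⟩ := hg
        have h1 : orderOf ((QuotientGroup.mk' N) g) ∣ p ^ k := hk ▸ orderOf_map_dvd _ g
        exact ((Nat.dvd_prime_pow Fact.out).1 h1).imp fun _ h => h.2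
      let b : B := ⟨(QuotientGroup.mk' N) g, hgb⟩
      have hn : (yf b)⁻¹ * g ∈ N := by
        rw [← QuotientGroup.ker_mk' N, MonoidHom.mem_ker, map_mul, map_inv, hyb]
        exact inv_mul_cancel _
      have hcomm : Commute (yf b)⁻¹ g := by
        have h1 := Subgroup.mem_center_iff.1 (hN hn) (yf b)
        -- y * (y⁻¹ g) = (y⁻¹ g) * y
        have h2 : g * yf b = yf b * g := by
          calc g * yf b = yf b * ((yf b)⁻¹ * g * yf b) := by group
            _ = yf b * (yf b * ((yf b)⁻¹ * g)) := by rw [h1]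
            _ = yf b * g := by group
        have h3 : Commute (yf b) g := h2.symm
        exact h3.inv_left
      have hnp : ∃ k : ℕ, orderOf ((yf b)⁻¹ * g) = p ^ k := by
        obtain ⟨k, hk⟩ := hg
        obtain ⟨l, hl⟩ := isP_of_mem p (Qf b) (hyQ b)
        have h1 := hcomm.orderOf_mul_dvd_lcm
        rw [orderOf_inv, hk, hl] at h1
        have h2 : Nat.lcm (p ^ l) (p ^ k) ∣ p ^ (max l k) :=
          Nat.lcm_dvd (pow_dvd_pow _ (le_max_left _ _)) (pow_dvd_pow _ (le_max_right _ _))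
        exact ((Nat.dvd_prime_pow Fact.out).1 (h1.trans h2)).imp fun _ h => h.2
      obtain ⟨R, hR⟩ := exists_sylow_of_isP p hnp
      obtain ⟨c, hc⟩ := MulAction.exists_smul_eq G R (Qf b)
      have hnQ : (yf b)⁻¹ * g ∈ (Qf b : Subgroup G) := by
        rw [← hc, Sylow.coe_subgroup_smul, Subgroup.mem_pointwise_smul_iff_inv_smul_mem]
        have h1 : (MulAut.conj c)⁻¹ • ((yf b)⁻¹ * g) = (yf b)⁻¹ * g := by
          rw [← map_inv, MulAut.smul_def, MulAut.conj_apply, inv_inv]
          have h2 := Subgroup.mem_center_iff.1 (hN hn) c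
          rw [mul_assoc, ← h2]
          group
        rw [h1]
        exact hR
      refine ⟨(b, (e b).symm ⟨(yf b)⁻¹ * g, hnQ, hn⟩), ?_⟩
      apply Subtype.ext
      show yf b * (e b ((e b).symm ⟨(yf b)⁻¹ * g, hnQ, hn⟩)).1 = g
      rw [Equiv.apply_symm_apply]
      show yf b * ((yf b)⁻¹ * g) = g
      group
    have hbij : Nat.card (B × Fin a) = Nat.card A := Nat.card_eq_of_bijective Φ ⟨hinj, hsurj⟩
    rw [hcardBA] at hbij
    calc Nat.card B * Nat.card (P : Subgroup G)
        = (Nat.card B * a) * Nat.card (Pbar : Subgroup (G ⧸ N)) := by rw [← hPa]; ring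
      _ = Nat.card A * Nat.card (Pbar : Subgroup (G ⧸ N)) := by rw [hbij]

end Cfsg.Agent.S4153
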