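import Cfsg.Statements.S4154

set_option autoImplicit false
open Cfsg

namespace Cfsg.Agent.S4154

/-- Let G be a finite group and α an automorphism of G such that every element of G is the product of an element fixed by α and an element of the form g⁻¹α(g). If N is a normal α-invariant subgroup, then the automorphism ᾱ induced on G/N has the same property, and every coset fixed by ᾱ contains an element fixed by α (so the fixed points of ᾱ are the images of the fixed points of α). -/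
theorem result {G : Type*} [Group G] [Finite G] (α : MulAut G)
    (hccp : ∀ x : G, ∃ c g : G, α c = c ∧ x = c * (g⁻¹ * α g))
    (N : Subgroup G) [N.Normal] (hN : ∀ n ∈ N, α n ∈ N) :
    (∀ x : G, ∃ c g : G, c⁻¹ * α c ∈ N ∧ x⁻¹ * (c * (g⁻¹ * α g)) ∈ N) ∧
    (∀ x : G, x⁻¹ * α x ∈ N → ∃ c : G, α c = c ∧ c⁻¹ * x ∈ N) := by
  constructor
  · intro x
    obtain ⟨c, g, hc, hx⟩ := hccp x
    refine ⟨c, g, ?_, ?_⟩
    · rw [hc, inv_mul_cancel]; exact N.one_mem
    · rw [← hx, inv_mul_cancel]; exact N.one_mem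
  -- unique factorization
  let φ : G → G := fun g => g⁻¹ * α g
  have hφ : ∀ g h : G, φ g = φ h → α (h * g⁻¹) = h * g⁻¹ := by
    intro g h hgh
    have h1 : g⁻¹ * α g = h⁻¹ * α h := hgh
    have h2 : α h = h * g⁻¹ * α g := by
      rw [mul_assoc, h1]; group
    rw [map_mul, map_inv, h2]; group
  have hφc : ∀ c g : G, α c = c → φ (c * g) = φ g := by
    intro c g hc
    show (c * g)⁻¹ * α (c * g) = g⁻¹ * α g
    rw [map_mul, hc]; group
  let r : G → G := fun g => Function.invFun φ (φ g)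
  have hr : ∀ g, φ (r g) = φ g := fun g => Function.invFun_eq ⟨g, rfl⟩
  have hr2 : ∀ g h, φ g = φ h → r g = r h := fun g h hgh => by
    show Function.invFun φ (φ g) = Function.invFun φ (φ h)
    rw [hgh]
  let F : G → G := fun g => g * (r g)⁻¹ * φ g
  have hFc : ∀ c h : G, α c = c → F (c * r h) = c * φ h := by
    intro c h hc
    have h1 : φ (c * r h) = φ h := by rw [hφc c _ hc, hr]
    show c * r h * (r (c * r h))⁻¹ * φ (c * r h) = c * φ h
    rw [hr2 _ _ h1, h1]; group
  have hFs : Function.Surjective F := by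
    intro x
    obtain ⟨c, h, hc, hx⟩ := hccp x
    exact ⟨c * r h, by rw [hFc c h hc]; exact hx.symm⟩
  have hFi : Function.Injective F := Finite.injective_iff_surjective.2 hFs
  have hU : ∀ c₁ c₂ g₁ g₂ : G, α c₁ = c₁ → α c₂ = c₂ → c₁ * φ g₁ = c₂ * φ g₂ → c₁ = c₂ := by
    intro c₁ c₂ g₁ g₂ h1 h2 h
    have h3 : c₁ * r g₁ = c₂ * r g₂ := hFi (by rw [hFc c₁ g₁ h1, hFc c₂ g₂ h2, h])
    have h4 : φ g₁ = φ g₂ := by
      rw [← hr g₁, ← hφc c₁ _ h1, h3, hφc c₂ _ h2, hr]
    rw [hr2 _ _ h4] at h3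
    exact mul_right_cancel h3
  -- the same inside `N`
  let φN : N → N := fun m => ⟨φ m, N.mul_mem (N.inv_mem m.2) (hN m m.2)⟩
  let rN : N → N := fun m => Function.invFun φN (φN m)
  have hrN : ∀ m, φN (rN m) = φN m := fun m => Function.invFun_eq ⟨m, rfl⟩
  have hrN' : ∀ m : N, φ (rN m) = φ m := fun m => congrArg Subtype.val (hrN m)
  have hrN2 : ∀ m m' : N, φ m = φ m' → rN m = rN m' := fun m m' h => by
    show Function.invFun φN (φN m) = Function.invFun φN (φN m')
    have : φN m = φN m' := Subtype.ext h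
    rw [this]
  let FN : N → N := fun m => m * (rN m)⁻¹ * φN m
  have hFNv : ∀ m : N, ((FN m : N) : G) = ((m : G) * ((rN m : N) : G)⁻¹) * φ m := fun m => rfl
  have hfix : ∀ m : N, α ((m : G) * ((rN m : N) : G)⁻¹) = (m : G) * ((rN m : N) : G)⁻¹ :=
    fun m => hφ _ _ (hrN' m)
  have hFNi : Function.Injective FN := by
    intro m₁ m₂ h
    have h1 : ((m₁ : G) * ((rN m₁ : N) : G)⁻¹) * φ m₁ = ((m₂ : G) * ((rN m₂ : N) : G)⁻¹) * φ m₂ := by
      rw [← hFNv, ← hFNv, h]
    have h2 := hU _ _ _ _ (hfix m₁) (hfix m₂) h1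
    rw [h2] at h1
    have h3 : φ m₁ = φ m₂ := mul_left_cancel h1
    rw [hrN2 _ _ h3] at h2
    exact Subtype.ext (mul_right_cancel h2)
  have hFNs : Function.Surjective FN := Finite.injective_iff_surjective.1 hFNi
  intro x hx
  obtain ⟨m, hm⟩ := hFNs ⟨φ x, hx⟩
  have h1 : ((m : G) * ((rN m : N) : G)⁻¹) * φ m = 1 * φ x := by
    rw [← hFNv, hm, one_mul]
  have h2 := hU _ _ _ _ (hfix m) (map_one α) h1
  rw [h2] at h1
  have h3 : φ m = φ x := mul_left_cancel h1
  refine ⟨x * (m : G)⁻¹, hφ _ _ h3, ?_⟩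
  have : (x * (m : G)⁻¹)⁻¹ * x = m := by group
  rw [this]; exact m.2

end Cfsg.Agent.S4154
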