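import Cfsg.Statements.S4156
import Mathlib

set_option autoImplicit false
open Cfsg

namespace Cfsg.Agent.S4156

section aux
variable {n : ℕ} {F : Type*} [Field F]

def EE : (Fin n → F) →ₗ[F] (Fin (n + 1) → F) where
  toFun u := Fin.snoc (α := fun _ => F) u (- ∑ i, u i)
  map_add' u v := by
    funext k
    refine Fin.lastCases ?_ (fun i => ?_) k
    · simp [Finset.sum_add_distrib]; ring
    · simp
  map_smul' c u := by
    funext k
    refine Fin.lastCases ?_ (fun i => ?_) k
    · simp [Finset.mul_sum]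
    · simp

theorem EE_castSucc (u : Fin n → F) (i : Fin n) : EE u i.castSucc = u i := by
  simp [EE]

theorem EE_last (u : Fin n → F) : EE u (Fin.last n) = - ∑ i, u i := by
  simp [EE]

theorem sum_EE (u : Fin n → F) : ∑ k, EE u k = 0 := by
  rw [Fin.sum_univ_castSucc, EE_last]
  simp [EE_castSucc]

theorem EE_restrict (w : Fin (n + 1) → F) (hw : ∑ k, w k = 0) :
    EE (fun j : Fin n => w j.castSucc) = w := by
  funext k
  refine Fin.lastCases ?_ (fun i => ?_) k
  · rw [EE_last]
    rw [Fin.sum_univ_castSucc] at hw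
    linear_combination -hw
  · rw [EE_castSucc]

def TT (σ : Equiv.Perm (Fin (n + 1))) : (Fin n → F) →ₗ[F] (Fin n → F) :=
  (LinearMap.funLeft F F (fun j : Fin n => σ⁻¹ j.castSucc)).comp EE

theorem TT_apply (σ : Equiv.Perm (Fin (n + 1))) (u : Fin n → F) (j : Fin n) :
    TT σ u j = EE u (σ⁻¹ j.castSucc) := rfl

theorem TT_one : TT (1 : Equiv.Perm (Fin (n + 1))) = (LinearMap.id : (Fin n → F) →ₗ[F] _) := by
  ext u j
  simp [TT_apply, EE_castSucc]

theorem TT_mul (σ τ : Equiv.Perm (Fin (n + 1))) :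
    (TT (σ * τ) : (Fin n → F) →ₗ[F] _) = (TT σ).comp (TT τ) := by
  apply LinearMap.ext
  intro u
  funext j
  rw [LinearMap.comp_apply, TT_apply, TT_apply]
  have h1 : (TT τ u) = fun j : Fin n => (fun k => EE u (τ⁻¹ k)) j.castSucc := rfl
  have h2 := EE_restrict (fun k => EE u (τ⁻¹ k)) (by rw [Equiv.sum_comp τ⁻¹ (EE u)]; exact sum_EE u)
  rw [h1, h2]
  simp [mul_inv_rev]

def MM : Equiv.Perm (Fin (n + 1)) →* Matrix (Fin n) (Fin n) F where
  toFun σ := LinearMap.toMatrix' (TT σ)
  map_one' := by rw [TT_one, LinearMap.toMatrix'_id]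
  map_mul' σ τ := by rw [TT_mul, LinearMap.toMatrix'_comp]

theorem MM_apply (σ : Equiv.Perm (Fin (n + 1))) (i j : Fin n) :
    (MM σ : Matrix (Fin n) (Fin n) F) i j = EE (Pi.single j 1) (σ⁻¹ i.castSucc) := by
  show LinearMap.toMatrix' (TT σ) i j = _
  rw [LinearMap.toMatrix'_apply, TT_apply]

theorem det_MM (hn : 5 ≤ n) (x : alternatingGroup (Fin (n + 1))) :
    (MM (x : Equiv.Perm (Fin (n + 1))) : Matrix (Fin n) (Fin n) F).det = 1 := by
  let d : alternatingGroup (Fin (n + 1)) →* F :=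
    Matrix.detMonoidHom.comp ((MM (F := F)).comp (alternatingGroup (Fin (n + 1))).subtype)
  have h1 : commutator (alternatingGroup (Fin (n + 1))) ≤ d.ker := by
    rw [commutator_def, Subgroup.commutator_le]
    intro g₁ _ g₂ _
    rw [MonoidHom.mem_ker, commutatorElement_def, map_mul, map_mul, map_mul]
    have e1 : d g₁ * d g₁⁻¹ = 1 := by rw [← map_mul, mul_inv_cancel, map_one]
    have e2 : d g₂ * d g₂⁻¹ = 1 := by rw [← map_mul, mul_inv_cancel, map_one]
    calc d g₁ * d g₂ * d g₁⁻¹ * d g₂⁻¹ = (d g₁ * d g₁⁻¹) * (d g₂ * d g₂⁻¹) := by ring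
      _ = 1 := by rw [e1, e2, one_mul]
  have h2 : commutator (alternatingGroup (Fin (n + 1))) = ⊤ :=
    commutator_alternatingGroup_eq_top (by rw [Nat.card_eq_fintype_card, Fintype.card_fin]; omega)
  have h3 : x ∈ d.ker := h1 (h2 ▸ Subgroup.mem_top x)
  exact h3

def PS (hn : 5 ≤ n) : alternatingGroup (Fin (n + 1)) →* Matrix.SpecialLinearGroup (Fin n) F where
  toFun x := ⟨MM (x : Equiv.Perm (Fin (n + 1))), det_MM hn x⟩
  map_one' := by
    apply Subtype.ext
    show MM ((1 : alternatingGroup (Fin (n + 1))) : Equiv.Perm (Fin (n + 1))) = 1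
    simp
  map_mul' x y := by
    apply Subtype.ext
    show MM ((x * y : alternatingGroup (Fin (n + 1))) : Equiv.Perm (Fin (n + 1))) = MM (x : Equiv.Perm (Fin (n + 1))) * MM (y : Equiv.Perm (Fin (n + 1)))
    simp

end aux


/-- Let n ≥ 5 and F a finite field. Then the projective special linear group PSL_n(F) contains a subgroup isomorphic to the alternating group of degree n + 1. -/
theorem result (n : ℕ) (hn : 5 ≤ n) (F : Type*) [Field F] [Finite F] :
    ∃ f : alternatingGroup (Fin (n + 1)) →* Matrix.ProjectiveSpecialLinearGroup (Fin n) F, Function.Injective f := by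
  classical
  haveI := alternatingGroup.isSimpleGroup (α := Fin (n + 1)) (by rw [Nat.card_eq_fintype_card, Fintype.card_fin]; omega)
  let f : alternatingGroup (Fin (n + 1)) →* Matrix.ProjectiveSpecialLinearGroup (Fin n) F :=
    (QuotientGroup.mk' (Subgroup.center (Matrix.SpecialLinearGroup (Fin n) F))).comp (PS hn)
  refine ⟨f, ?_⟩
  rw [← MonoidHom.ker_eq_bot_iff]
  rcases (f.normal_ker).eq_bot_or_eq_top with h | h
  · exact h
  exfalso
  let a : Fin n := ⟨0, by omega⟩
  let b : Fin n := ⟨1, by omega⟩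
  let c : Fin n := ⟨2, by omega⟩
  have hab : a ≠ b := by simp [a, b, Fin.ext_iff]
  have hbc : b ≠ c := by simp [b, c, Fin.ext_iff]
  have hac : a ≠ c := by simp [a, c, Fin.ext_iff]
  have hab' : a.castSucc ≠ b.castSucc := fun h => hab (Fin.castSucc_injective _ h)
  have hbc' : b.castSucc ≠ c.castSucc := fun h => hbc (Fin.castSucc_injective _ h)
  have hac' : a.castSucc ≠ c.castSucc := fun h => hac (Fin.castSucc_injective _ h)
  let s : Equiv.Perm (Fin (n + 1)) := Equiv.swap a.castSucc b.castSucc * Equiv.swap b.castSucc c.castSucc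
  have hs : s ∈ alternatingGroup (Fin (n + 1)) := by
    rw [Equiv.Perm.mem_alternatingGroup, map_mul, Equiv.Perm.sign_swap hab', Equiv.Perm.sign_swap hbc']
    rfl
  have hsa : s a.castSucc = b.castSucc := by
    show Equiv.swap a.castSucc b.castSucc (Equiv.swap b.castSucc c.castSucc a.castSucc) = _
    rw [Equiv.swap_apply_of_ne_of_ne hab' hac', Equiv.swap_apply_left]
  have hsb : s⁻¹ b.castSucc = a.castSucc := by
    rw [Equiv.Perm.inv_eq_iff_eq, hsa]
  have hx : (⟨s, hs⟩ : alternatingGroup (Fin (n + 1))) ∈ f.ker := by rw [h]; trivial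
  rw [MonoidHom.mem_ker] at hx
  have hx2 : PS hn (⟨s, hs⟩ : alternatingGroup (Fin (n + 1))) ∈ Subgroup.center (Matrix.SpecialLinearGroup (Fin n) F) := by
    rw [← QuotientGroup.eq_one_iff]
    exact hx
  rw [Matrix.SpecialLinearGroup.mem_center_iff] at hx2
  obtain ⟨r, _, hr⟩ := hx2
  have h3 : (Matrix.scalar (Fin n) r) b a = (MM s : Matrix (Fin n) (Fin n) F) b a := by
    rw [hr]; rfl
  rw [MM_apply, hsb, EE_castSucc] at h3
  simp [Matrix.scalar_apply, hab.symm] at h3

end Cfsg.Agent.S4156
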