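import Mathlib
import Cfsg.Statements.S4168
-- import your own Cfsg.Agent.* helpers here

set_option autoImplicit false
open Cfsg

namespace Cfsg.Agent.S4168

/-- Let L be a finite quasisimple group (perfect with L/Z(L) simple). Then every prime dividing the order of the centre Z(L) also divides the order of L/Z(L). -/
theorem result {L : Type*} [Group L] [Finite L] (hL : Cfsg.IsQuasisimple L)
    (p : ℕ) (hp : p.Prime) (hdiv : p ∣ Nat.card (Subgroup.center L)) : p ∣ (Subgroup.center L).index := by
  have hperf := hL.1
  have : Fact p.Prime := ⟨hp⟩
  obtain ⟨z, hz⟩ := exists_prime_orderOf_dvd_card' p hdiv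
  have hker : ∀ g : L, MonoidHom.transferCenterPow L g = 1 := by
    intro g
    have h1 : g ∈ commutator L := by rw [hperf.commutator_eq_top]; exact Subgroup.mem_top g
    have hle : commutator L ≤ (MonoidHom.transferCenterPow L).ker := by
      rw [commutator_eq_closure, Subgroup.closure_le]
      rintro _ ⟨a, b, rfl⟩
      rw [SetLike.mem_coe, MonoidHom.mem_ker, map_commutatorElement,
        commutatorElement_eq_one_iff_mul_comm]
      apply Subtype.ext
      exact (Subgroup.mem_center_iff.1 (MonoidHom.transferCenterPow L b).2 _)
    exact MonoidHom.mem_ker.1 (hle h1)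
  have h2 : ((z : L)) ^ (Subgroup.center L).index = 1 := by
    have := congrArg Subtype.val (hker (z : L))
    simpa using this
  have h3 : orderOf (z : L) = p := by rw [Subgroup.orderOf_coe]; exact hz
  rw [← h3]
  exact orderOf_dvd_of_pow_eq_one h2

end Cfsg.Agent.S4168
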