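import Cfsg.Statements.S4176
import Cfsg.Agent.Lib.Helper22.OrbitSpan
import Cfsg.Agent.Lib.Helper22.PSolvSub
import Cfsg.Agent.S3744

set_option autoImplicit false
open Cfsg Cfsg.Agent.Lib.Helper22 Subgroup

namespace Cfsg.Agent.S4176

/-- Let k be a field of prime characteristic p, H a finite p-soluble group and ρ a k-linear representation of H on V. Let a be a vector that is fixed by some Sylow p-subgroup of H and whose H-orbit spans V. Then the space of H-fixed vectors has dimension at most 1, and every vector b whose H-orbit has size coprime to the size of the orbit of a is fixed by H. -/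
theorem result {k V H : Type*} [Field k] (p : ℕ) [Fact p.Prime] [CharP k p] [AddCommGroup V] [Module k V]
    [Group H] [Finite H] (hsol : Cfsg.IsPSolvable p H) (ρ : Representation k H V) (a : V)
    (hfix : ∃ P : Sylow p H, ∀ x : H, x ∈ (P : Subgroup H) → ρ x a = a)
    (hspan : Submodule.span k {u : V | ∃ h : H, ρ h a = u} = ⊤) :
    Module.finrank k ρ.invariants ≤ 1 ∧
    ∀ b : V, (Nat.card {u : V | ∃ h : H, ρ h a = u}).Coprime (Nat.card {u : V | ∃ h : H, ρ h b = u}) → ∀ h : H, ρ h b = b := by
  have hp : p.Prime := Fact.out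
  obtain ⟨P, hP⟩ := hfix
  have hcard : ∀ K : Subgroup H, (Nat.card K).Coprime p → (Nat.card K : k) ≠ 0 := by
    intro K hK h
    rw [CharP.cast_eq_zero_iff k p] at h
    have := Nat.Coprime.coprime_dvd_left h hK
    rw [Nat.coprime_self] at this
    exact hp.one_lt.ne' this
  -- the stabilizer of `a` has index prime to `p`
  have hPa : (P : Subgroup H) ≤ repStab ρ a := fun x hx => hP x hx
  have hia : ¬ p ∣ (repStab ρ a).index := fun h =>
    P.not_dvd_index (h.trans (index_dvd_of_le hPa))
  constructor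
  · obtain ⟨⟨K, hK1, n, hK2⟩, -, -⟩ := Cfsg.Agent.S3744.result hsol
    refine finrank_invariants_le_one ρ a hspan K (hcard K hK1) ?_
    intro g
    have hcop : K.index.Coprime (repStab ρ a).index := by
      rw [hK2]
      exact Nat.Coprime.pow_left n ((Nat.Prime.coprime_iff_not_dvd hp).mpr hia)
    obtain ⟨x, hx, y, hy, rfl⟩ := Cfsg.H1.exists_mul_of_coprime_index _ _ hcop g
    refine ⟨x, hx, ?_⟩
    rw [map_mul, Module.End.mul_apply, (mem_repStab ρ a y).mp hy]
  · intro b hcop
    set Hb := repStab ρ b with hHb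
    set Ha := repStab ρ a with hHa
    have hsolb : Cfsg.IsPSolvable p Hb := isPSolvable_subgroup hp hsol Hb
    obtain ⟨⟨Kb, hK1, n, hK2⟩, -, -⟩ := Cfsg.Agent.S3744.result hsolb
    have hcop' : Ha.index.Coprime Hb.index := by
      rw [hHa, hHb, index_repStab, index_repStab]; exact hcop
    -- the index of `Ha ∩ Hb` in `Hb`
    have hrel : Ha.relIndex Hb = Ha.index := by
      have h1 := Cfsg.H1.index_inf_of_coprime Ha Hb hcop'
      have h2 := relIndex_mul_index (inf_le_right : Ha ⊓ Hb ≤ Hb)
      rw [inf_relIndex_right, h1] at h2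
      exact Nat.eq_of_mul_eq_mul_right (Nat.pos_of_ne_zero index_ne_zero_of_finite) h2
    have hcop2 : Kb.index.Coprime (Ha.subgroupOf Hb).index := by
      rw [hK2]
      show (p ^ n).Coprime (Ha.relIndex Hb)
      rw [hrel]
      exact Nat.Coprime.pow_left n ((Nat.Prime.coprime_iff_not_dvd hp).mpr hia)
    refine fixed_of_fixed ρ a hspan (Kb.map Hb.subtype) (hcard _ ?_) ?_ b ?_
    · rw [card_map_of_injective Hb.subtype_injective]; exact hK1
    · intro g
      obtain ⟨x, hx, hxe⟩ := exists_mem_repStab_of_coprime ρ a b hcop g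
      obtain ⟨y, hy, d, hd, hyd⟩ := Cfsg.H1.exists_mul_of_coprime_index _ _ hcop2 (⟨x, hx⟩ : Hb)
      refine ⟨(y : H), ⟨y, hy, rfl⟩, ?_⟩
      have h1 : x = (y : H) * (d : H) := congrArg Subtype.val hyd
      have h2 : ρ (d : H) a = a := hd
      rw [hxe, h1, map_mul, Module.End.mul_apply, h2]
    · rintro _ ⟨y, _, rfl⟩
      exact y.2

end Cfsg.Agent.S4176
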