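import Cfsg.Statements.S4178
import Mathlib

set_option autoImplicit false
open Cfsg

namespace Cfsg.Agent.S4178

open Subgroup

theorem index_le_ncard_range {Γ X : Type*} [Group Γ] [Finite X] (R : Subgroup Γ) (f : Γ → X)
    (hf : ∀ a b, f a = f b → a⁻¹ * b ∈ R) : R.index ≤ (Set.range f).ncard := by
  rw [← Nat.card_coe_set_eq, index_eq_card]
  let g : Set.range f → Γ ⧸ R := fun y => QuotientGroup.mk y.2.choose
  apply Nat.card_le_card_of_surjective g
  intro q
  obtain ⟨a, rfl⟩ := QuotientGroup.mk_surjective q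
  refine ⟨⟨f a, a, rfl⟩, ?_⟩
  show (QuotientGroup.mk _ : Γ ⧸ R) = QuotientGroup.mk a
  rw [QuotientGroup.eq]
  apply hf
  exact (⟨a, rfl⟩ : ∃ y, f y = f a).choose_spec

theorem exists_fixed {F V : Type*} [Field F] [AddCommGroup V] [Module F V] [FiniteDimensional F V]
    (g : V ≃ₗ[F] V) (W : Submodule F V) (hW : ∀ w ∈ W, g w ∈ W) (v : V) (hv : v ∉ W)
    (hgv : g v - v ∈ W) : ∃ u : V, u ≠ 0 ∧ g u = u := by
  by_contra hcon
  push Not at hcon
  let T : V →ₗ[F] V := g.toLinearMap - LinearMap.id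
  have hT : ∀ u, T u = g u - u := fun u => rfl
  have hTW : ∀ w ∈ W, T w ∈ W := fun w hw => W.sub_mem (hW w hw) hw
  have hinj : Function.Injective T := by
    rw [← LinearMap.ker_eq_bot, Submodule.eq_bot_iff]
    intro u hu
    by_contra hu0
    apply hcon u hu0
    have : g u - u = 0 := hu
    exact sub_eq_zero.mp this
  let TW : W →ₗ[F] W := T.restrict hTW
  have hinjW : Function.Injective TW := by
    intro a b hab
    apply Subtype.ext
    apply hinj
    exact congrArg Subtype.val hab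
  have hsurjW : Function.Surjective TW := LinearMap.injective_iff_surjective.mp hinjW
  obtain ⟨w, hw⟩ := hsurjW ⟨T v, hgv⟩
  have h1 : T (w : V) = T v := congrArg Subtype.val hw
  have h2 := hinj h1
  exact hv (h2 ▸ w.2)

theorem real_bound (n q e d : ℕ) (hq : 1 ≤ q) (hn : n ≤ q ^ e - 1) (hed : 2 * e ≤ d) :
    (n : ℝ) ≤ Real.sqrt ((q : ℝ) ^ d) - 1 := by
  have h1 : 1 ≤ q ^ e := Nat.one_le_pow _ _ hq
  have h2 : (n : ℝ) ≤ (q : ℝ) ^ e - 1 := by
    have : ((q ^ e - 1 : ℕ) : ℝ) = (q : ℝ) ^ e - 1 := by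
      rw [Nat.cast_sub h1]; push_cast; ring
    rw [← this]; exact_mod_cast hn
  have hq' : (1 : ℝ) ≤ q := by exact_mod_cast hq
  have h3 : (q : ℝ) ^ e ≤ Real.sqrt ((q : ℝ) ^ d) := by
    apply Real.le_sqrt_of_sq_le
    rw [← pow_mul, mul_comm]
    exact pow_le_pow_right₀ hq' hed
  linarith

/-- Let F be a finite field with q elements, V a non-zero finite-dimensional F-space of dimension d, H a group of invertible linear maps of V, and R the subgroup of H generated by the elements of H that fix some non-zero vector (have eigenvalue 1). Then the index of R in H is at most q^d − 1; and if H leaves invariant some proper non-zero subspace, the index is at most q^(d/2) − 1. -/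
theorem result {F V : Type*} [Field F] [Fintype F] [AddCommGroup V] [Module F V] [FiniteDimensional F V] [Nontrivial V]
    (H : Subgroup (V ≃ₗ[F] V)) :
    (Subgroup.closure {h : ↥H | ∃ v : V, v ≠ 0 ∧ (h : V ≃ₗ[F] V) v = v}).index ≤ Fintype.card F ^ Module.finrank F V - 1 ∧
    ((∃ W : Submodule F V, W ≠ ⊥ ∧ W ≠ ⊤ ∧ ∀ h ∈ H, ∀ w ∈ W, h w ∈ W) →
      ((Subgroup.closure {h : ↥H | ∃ v : V, v ≠ 0 ∧ (h : V ≃ₗ[F] V) v = v}).index : ℝ) ≤ Real.sqrt ((Fintype.card F : ℝ) ^ Module.finrank F V) - 1) := by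
  classical
  haveI : Finite V := Module.finite_of_finite F
  set R := Subgroup.closure {h : ↥H | ∃ v : V, v ≠ 0 ∧ (h : V ≃ₗ[F] V) v = v} with hR
  have hq : 1 ≤ Fintype.card F := Fintype.card_pos
  -- orbits inside an invariant subspace
  have partA : ∀ W : Submodule F V, W ≠ ⊥ → (∀ h ∈ H, ∀ w ∈ W, h w ∈ W) →
      R.index ≤ Fintype.card F ^ Module.finrank F W - 1 := by
    intro W hW hinv
    obtain ⟨v, hvW, hv0⟩ := Submodule.exists_mem_ne_zero_of_ne_bot hW
    let f : ↥H → V := fun h => (h : V ≃ₗ[F] V) v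
    have h1 : R.index ≤ (Set.range f).ncard := by
      apply index_le_ncard_range
      intro a b hab
      apply Subgroup.subset_closure
      refine ⟨v, hv0, ?_⟩
      have hab' : (a : V ≃ₗ[F] V) v = (b : V ≃ₗ[F] V) v := hab
      show ((a : V ≃ₗ[F] V)⁻¹ * (b : V ≃ₗ[F] V)) v = v
      rw [LinearEquiv.mul_apply, ← hab']
      exact (a : V ≃ₗ[F] V).symm_apply_apply v
    have h2 : Set.range f ⊆ (W : Set V) \ {0} := by
      rintro _ ⟨h, rfl⟩
      refine ⟨hinv h h.2 v hvW, ?_⟩
      intro h0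
      apply hv0
      have h0' : (h : V ≃ₗ[F] V) v = 0 := h0
      exact (LinearEquiv.map_eq_zero_iff _).mp h0'
    have h3 := Set.ncard_le_ncard h2 (Set.toFinite _)
    rw [Set.ncard_sdiff_singleton_of_mem W.zero_mem] at h3
    have h4 : (W : Set V).ncard = Fintype.card F ^ Module.finrank F W := by
      rw [← Nat.card_coe_set_eq]
      have : Nat.card W = Nat.card F ^ Module.finrank F W := Module.natCard_eq_pow_finrank
      rw [Nat.card_eq_fintype_card (α := F)] at this
      exact this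
    rw [h4] at h3
    exact h1.trans h3
  have partB : ∀ W : Submodule F V, W ≠ ⊤ → (∀ h ∈ H, ∀ w ∈ W, h w ∈ W) →
      R.index ≤ Fintype.card F ^ Module.finrank F (V ⧸ W) - 1 := by
    intro W hW hinv
    obtain ⟨v, hvW⟩ : ∃ v, v ∉ W := by
      by_contra hcon
      push Not at hcon
      exact hW (eq_top_iff.mpr fun x _ => hcon x)
    haveI : Finite (V ⧸ W) := Module.finite_of_finite F
    let f : ↥H → V ⧸ W := fun h => Submodule.Quotient.mk ((h : V ≃ₗ[F] V) v)
    have hinvmem : ∀ h : ↥H, ∀ x : V, (h : V ≃ₗ[F] V) x ∈ W → x ∈ W := by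
      intro h x hx
      have := hinv (h⁻¹ : ↥H) (h⁻¹ : ↥H).2 _ hx
      have e : ((h⁻¹ : ↥H) : V ≃ₗ[F] V) ((h : V ≃ₗ[F] V) x) = x :=
        (h : V ≃ₗ[F] V).symm_apply_apply x
      rwa [e] at this
    have h1 : R.index ≤ (Set.range f).ncard := by
      apply index_le_ncard_range
      intro a b hab
      apply Subgroup.subset_closure
      have hab' : (a : V ≃ₗ[F] V) v - (b : V ≃ₗ[F] V) v ∈ W :=
        (Submodule.Quotient.eq W).mp hab
      apply exists_fixed _ W (fun w hw => hinv _ (a⁻¹ * b : ↥H).2 w hw) v hvW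
      apply hinvmem a
      have e : (a : V ≃ₗ[F] V) (((a⁻¹ * b : ↥H) : V ≃ₗ[F] V) v - v) =
          (b : V ≃ₗ[F] V) v - (a : V ≃ₗ[F] V) v := by
        rw [map_sub]
        congr 1
        show (a : V ≃ₗ[F] V) (((a : V ≃ₗ[F] V)⁻¹ * (b : V ≃ₗ[F] V)) v) = _
        rw [LinearEquiv.mul_apply]
        exact (a : V ≃ₗ[F] V).apply_symm_apply _
      rw [e]
      have := W.neg_mem hab'
      rwa [neg_sub] at this
    have h2 : Set.range f ⊆ ({0}ᶜ : Set (V ⧸ W)) := by
      rintro _ ⟨h, rfl⟩ h0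
      have h0' : (Submodule.Quotient.mk ((h : V ≃ₗ[F] V) v) : V ⧸ W) = 0 := h0
      rw [Submodule.Quotient.mk_eq_zero] at h0'
      exact hvW (hinvmem h v h0')
    have h3 := Set.ncard_le_ncard h2 (Set.toFinite _)
    rw [Set.ncard_compl, Set.ncard_singleton] at h3
    have h4 : Nat.card (V ⧸ W) = Fintype.card F ^ Module.finrank F (V ⧸ W) := by
      have : Nat.card (V ⧸ W) = Nat.card F ^ Module.finrank F (V ⧸ W) := Module.natCard_eq_pow_finrank
      rw [Nat.card_eq_fintype_card (α := F)] at this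
      exact this
    rw [h4] at h3
    exact h1.trans h3
  constructor
  · have := partA ⊤ top_ne_bot (fun _ _ _ _ => Submodule.mem_top)
    rwa [finrank_top] at this
  · rintro ⟨W, hW1, hW2, hinv⟩
    have hsum := Submodule.finrank_quotient_add_finrank W
    by_cases hcase : 2 * Module.finrank F W ≤ Module.finrank F V
    · exact real_bound _ _ _ _ hq (partA W hW1 hinv) hcase
    · exact real_bound _ _ _ _ hq (partB W hW2 hinv) (by omega)

end Cfsg.Agent.S4178
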