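import Cfsg.Statements.S4186
-- import your own Cfsg.Agent.* helpers here

set_option autoImplicit false
open Cfsg

namespace Cfsg.Agent.S4186

/-- Let T and X be subgroups of a group with T a finite 2-group normalizing X but not centralizing it. Then some element of T inverts some non-identity element of X under conjugation. -/
theorem result {G : Type*} [Group G] (T X : Subgroup G) [Finite ↥T] (hT : IsPGroup 2 ↥T) (hTN : T ≤ Subgroup.normalizer (X : Set G)) (hTC : ¬ T ≤ Subgroup.centralizer (X : Set G)) : ∃ t ∈ T, ∃ x ∈ X, x ≠ 1 ∧ t * x * t⁻¹ = x⁻¹ := by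
  classical
  obtain ⟨t0, ht0, ht0C⟩ := SetLike.not_le_iff_exists.1 hTC
  obtain ⟨k, hk⟩ := hT ⟨t0, ht0⟩
  have hk' : t0 ^ 2 ^ k = 1 := congrArg Subtype.val hk
  have hex : ∃ j : ℕ, t0 ^ 2 ^ j ∈ Subgroup.centralizer (X : Set G) :=
    ⟨k, by rw [hk']; exact Subgroup.one_mem _⟩
  have hj0 : Nat.find hex ≠ 0 := by
    intro h0
    have := Nat.find_spec hex
    rw [h0] at this
    simp at this
    exact ht0C this
  obtain ⟨j, hj⟩ := Nat.exists_eq_succ_of_ne_zero hj0
  have h1 : t0 ^ 2 ^ j ∉ Subgroup.centralizer (X : Set G) :=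
    Nat.find_min hex (by rw [hj]; exact Nat.lt_succ_self j)
  have h2 : (t0 ^ 2 ^ j) ^ 2 ∈ Subgroup.centralizer (X : Set G) := by
    have := Nat.find_spec hex
    rw [hj, Nat.succ_eq_add_one, pow_succ, pow_mul] at this
    exact this
  set t := t0 ^ 2 ^ j with ht
  have htT : t ∈ T := T.pow_mem ht0 _
  rw [Subgroup.mem_centralizer_iff] at h1 h2
  push Not at h1
  obtain ⟨x, hx, hxt⟩ := h1
  have hxX : x ∈ X := hx
  have htN := hTN htT
  rw [Subgroup.mem_normalizer_iff] at htN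
  refine ⟨t, htT, x * (t * x⁻¹ * t⁻¹), X.mul_mem hxX ((htN _).1 (X.inv_mem hxX)), ?_, ?_⟩
  · intro h3
    apply hxt
    have h4 : x * t * x⁻¹ * t⁻¹ = 1 := by simpa [mul_assoc] using h3
    have h5 : x * t = t * x := by
      have := congrArg (fun z => z * t * x) h4
      simpa [mul_assoc] using this
    exact h5
  · have h3 := h2 x hx
    have h4 : t * t * x⁻¹ * t⁻¹ * t⁻¹ = x⁻¹ := by
      rw [pow_two] at h3
      have h5 : x⁻¹ * (t * t) = t * t * x⁻¹ := by
        have := congrArg (fun z => x⁻¹ * z * x⁻¹) h3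
        simpa [mul_assoc] using this.symm
      rw [← h5]; simp [mul_assoc]
    calc t * (x * (t * x⁻¹ * t⁻¹)) * t⁻¹ = (t * x * t⁻¹) * (t * t * x⁻¹ * t⁻¹ * t⁻¹) := by group
      _ = (t * x * t⁻¹) * x⁻¹ := by rw [h4]
      _ = (x * (t * x⁻¹ * t⁻¹))⁻¹ := by group

end Cfsg.Agent.S4186
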