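import Cfsg.Statements.S4189
import Cfsg.Agent.Tr.MC12
-- import your own Cfsg.Agent.* helpers here

set_option autoImplicit false
open Cfsg

open Cfsg.Agent.Tr

namespace Cfsg.Agent.S4189

/-- Let P be a finite non-abelian 2-group whose commutator subgroup has index 4 and whose automorphism group is not a 2-group (some automorphism has order that is not a power of 2). Then P is isomorphic to the quaternion group of order 8. -/
theorem result {P : Type*} [Group P] [Finite P] (hP : IsPGroup 2 P) (hna : ¬ IsMulCommutative P) (h4 : (commutator P).index = 4) (haut : ¬ IsPGroup 2 (MulAut P)) : Nonempty (P ≃* QuaternionGroup 2) := by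

  obtain ⟨n, hn⟩ := IsPGroup.iff_card.1 hP
  have hdvd : (commutator P).index ∣ Nat.card P := Subgroup.index_dvd_card _
  rw [h4, hn] at hdvd
  have hn2 : 2 ≤ n := by
    have h7 : (2 : ℕ) ^ 2 ∣ 2 ^ n := by simpa using hdvd
    exact (Nat.pow_dvd_pow_iff_le_right (by norm_num : 1 < 2)).1 h7
  have hn3 : n ≠ 2 := by
    rintro rfl
    apply hna
    have hc1 : Nat.card (commutator P) = 1 := by
      have := (commutator P).card_mul_index
      rw [h4, hn] at this
      omega
    have hbot : commutator P = ⊥ := Subgroup.card_eq_one.1 hc1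
    exact (commutator_eq_bot_iff P).1 hbot
  obtain ⟨m, rfl⟩ : ∃ m, n = m + 1 := ⟨n - 1, by omega⟩
  have hm : 2 ≤ m := by omega
  obtain ⟨a, b, h⟩ := Cfsg.Agent.Tr.MC.dat_of_index_four hm hn h4
  by_cases hm3 : 3 ≤ m
  · exact absurd (h.isPGroup_aut hm3) haut
  · obtain rfl : m = 2 := by omega
    rcases h.trichotomy le_rfl with ⟨h2, hc⟩ | ⟨h2, hc⟩ | ⟨hm3', -⟩
    · exact absurd (h.isPGroup_aut_dih h2) haut
    · apply Cfsg.Agent.Lib.Helper18.mulEquiv_quaternion 2 a b _ h.nmem (by simpa using h2) hc
      · rw [h.card]; norm_num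
      · rw [h.ord]; norm_num
    · omega

end Cfsg.Agent.S4189
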