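import Cfsg.Statements.S4194
import Cfsg.Agent.Fus.CaminaHerzog

set_option autoImplicit false
open Cfsg

namespace Cfsg.Agent.S4194

/-- A finite group G has commutative Sylow 2-subgroups if and only if every 2-element of G (element of order a power of 2) is 2-central, that is, its centralizer contains a Sylow 2-subgroup of G. -/
theorem result {G : Type*} [Group G] [Finite G] (P : Sylow 2 G) :
    IsMulCommutative (P : Subgroup G) ↔ ∀ x : G, (∃ k : ℕ, orderOf x = 2 ^ k) → (∃ Q : Sylow 2 G, (Q : Subgroup G) ≤ Subgroup.centralizer ({x} : Set G)) := by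
  haveI : Fact (Nat.Prime 2) := ⟨Nat.prime_two⟩
  constructor
  · intro hab x hx
    obtain ⟨k, hk⟩ := hx
    have h1 : IsPGroup 2 (Subgroup.zpowers x) := by
      rw [IsPGroup.iff_card]
      exact ⟨k, by rw [Nat.card_zpowers, hk]⟩
    obtain ⟨Q, hQ⟩ := h1.exists_le_sylow
    refine ⟨Q, ?_⟩
    have hxQ : x ∈ Q := hQ (Subgroup.mem_zpowers x)
    obtain ⟨g, hg⟩ := MulAction.exists_smul_eq G P Q
    intro y hy
    rw [Subgroup.mem_centralizer_iff]
    intro z hz
    rw [Set.mem_singleton_iff] at hz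
    subst hz
    have hy' := hy
    have hz' : z ∈ (Q : Subgroup G) := hxQ
    rw [← hg, Sylow.coe_subgroup_smul] at hz'
    rw [← hg, Sylow.coe_subgroup_smul] at hy'
    obtain ⟨a, ha, rfl⟩ := hy'
    obtain ⟨b, hb, rfl⟩ := hz'
    have h2 : (⟨a, ha⟩ : (P : Subgroup G)) * ⟨b, hb⟩ = ⟨b, hb⟩ * ⟨a, ha⟩ := mul_comm' _ _
    have h3 : a * b = b * a := congrArg (fun w : (P : Subgroup G) => (w : G)) h2
    show (MulAut.conj g b) * (MulAut.conj g a) = (MulAut.conj g a) * (MulAut.conj g b)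
    rw [← map_mul, ← map_mul, h3]
  · intro h
    refine ⟨⟨fun x y => Subtype.ext ?_⟩⟩
    exact Cfsg.Agent.Fus.sylow_two_comm P h x x.2 y y.2

end Cfsg.Agent.S4194
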