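import Cfsg.Statements.S4195
import Cfsg.Agent.Lib.Helper22.ClassSize

set_option autoImplicit false
open Cfsg Cfsg.Agent.Lib.Helper22

namespace Cfsg.Agent.S4195

/-- Let x be a non-identity element of a finite group G whose centralizer contains a Sylow 2-subgroup of G. If x is conjugate to its inverse, then x has order 2. -/
theorem result {G : Type*} [Group G] [Finite G] (x : G) (hx : x ≠ 1) (P : Sylow 2 G) (hP : (P : Subgroup G) ≤ Subgroup.centralizer ({x} : Set G)) (hreal : IsConj x x⁻¹) : orderOf x = 2 := by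
  classical
  have hodd : ¬ 2 ∣ Nat.card {y : G // IsConj x y} := by
    rw [← index_centralizer_eq_card_conj]
    intro h
    exact P.not_dvd_index (h.trans (Subgroup.index_dvd_of_le hP))
  have := Fintype.ofFinite {y : G // IsConj x y}
  let f : Function.End {y : G // IsConj x y} := fun y =>
    ⟨(y : G)⁻¹, by
      obtain ⟨t, ht⟩ := isConj_iff.1 y.2
      refine hreal.trans (isConj_iff.2 ⟨t, ?_⟩)
      rw [← ht]; group⟩
  have hf : f ^ 2 ^ 1 = 1 := by
    rw [pow_one, pow_two]
    funext y
    apply Subtype.ext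
    change ((y : G)⁻¹)⁻¹ = y
    exact inv_inv _
  have h1 := Equiv.Perm.card_fixedPoints_modEq (p := 2) (n := 1) hf
  have h2 : Fintype.card (Function.fixedPoints f) ≠ 0 := by
    intro h0
    rw [h0, ← Nat.card_eq_fintype_card] at h1
    exact hodd ((Nat.modEq_zero_iff_dvd).1 h1)
  obtain ⟨⟨y, hy⟩⟩ := Fintype.card_pos_iff.1 (Nat.pos_of_ne_zero h2)
  have hy' : (y : G)⁻¹ = y := congrArg Subtype.val hy
  obtain ⟨t, ht⟩ := isConj_iff.1 y.2
  have hx2 : x ^ 2 = 1 := by
    have h3 : (y : G) ^ 2 = 1 := by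
      rw [pow_two]
      nth_rewrite 1 [← hy']
      exact inv_mul_cancel _
    rw [← ht, conj_pow] at h3
    have := congrArg (fun z => t⁻¹ * z * t) h3
    simpa [mul_assoc] using this
  exact orderOf_eq_prime hx2 hx

end Cfsg.Agent.S4195
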