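import Cfsg.Statements.S4196
import Cfsg.Agent.S4195
import Cfsg.Agent.Lib.Helper22.Frobenius

set_option autoImplicit false
open Cfsg Cfsg.Agent.Lib.Helper22

namespace Cfsg.Agent.S4196

/-- A finite group G has elementary abelian Sylow 2-subgroups (commutative with every element squaring to the identity) if and only if every 2-element of G has a Sylow 2-subgroup in its centralizer and is conjugate to its inverse. -/
theorem result {G : Type*} [Group G] [Finite G] (P : Sylow 2 G) :
    (IsMulCommutative (P : Subgroup G) ∧ ∀ x ∈ (P : Subgroup G), x ^ 2 = 1) ↔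
      ∀ x : G, (∃ k : ℕ, orderOf x = 2 ^ k) → (∃ Q : Sylow 2 G, (Q : Subgroup G) ≤ Subgroup.centralizer ({x} : Set G)) ∧ IsConj x x⁻¹ := by
  constructor
  · rintro ⟨hcomm, hexp⟩ x ⟨k, hk⟩
    have hpg : IsPGroup 2 (Subgroup.zpowers x) := by
      apply IsPGroup.of_card (n := k)
      rw [Nat.card_zpowers, hk]
    obtain ⟨Q, hQ⟩ := hpg.exists_le_sylow
    obtain ⟨g, hg⟩ := MulAction.exists_smul_eq G P Q
    have hmem : ∀ y : G, y ∈ (Q : Subgroup G) ↔ g⁻¹ * y * g ∈ (P : Subgroup G) := by
      intro y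
      rw [← hg, Sylow.coe_subgroup_smul, mem_conj_smul_iff]
    have hxQ : x ∈ (Q : Subgroup G) := hQ (Subgroup.mem_zpowers x)
    have hxP := (hmem x).1 hxQ
    refine ⟨⟨Q, ?_⟩, ?_⟩
    · intro y hy
      rw [Subgroup.mem_centralizer_singleton_iff]
      have hyP := (hmem y).1 hy
      have h1 : (g⁻¹ * y * g) * (g⁻¹ * x * g) = (g⁻¹ * x * g) * (g⁻¹ * y * g) :=
        congrArg Subtype.val (hcomm.is_comm.comm ⟨_, hyP⟩ ⟨_, hxP⟩)
      have := congrArg (fun z => g * z * g⁻¹) h1
      simpa [mul_assoc] using this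
    · have h1 := hexp _ hxP
      have h2 : x ^ 2 = 1 := by
        have h3 : g⁻¹ * x * g = g⁻¹ * x * (g⁻¹)⁻¹ := by rw [inv_inv]
        rw [h3, conj_pow] at h1
        have := congrArg (fun z => g * z * g⁻¹) h1
        simpa [mul_assoc] using this
      have h3 : x⁻¹ = x := by
        rw [inv_eq_iff_mul_eq_one, ← pow_two]; exact h2
      rw [h3]
  · intro h
    have hexp : ∀ x ∈ (P : Subgroup G), x ^ 2 = 1 := by
      intro x hx
      by_cases hx1 : x = 1
      · rw [hx1, one_pow]
      · obtain ⟨k, hk⟩ := (IsPGroup.iff_orderOf.1 P.isPGroup') ⟨x, hx⟩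
        rw [Subgroup.orderOf_mk] at hk
        obtain ⟨⟨Q, hQ⟩, hreal⟩ := h x ⟨k, hk⟩
        have := Cfsg.Agent.S4195.result x hx1 Q hQ hreal
        rw [← this]; exact pow_orderOf_eq_one x
    refine ⟨⟨⟨fun a b => ?_⟩⟩, hexp⟩
    apply Subtype.ext
    have ha := hexp a a.2
    have hb := hexp b b.2
    have hab := hexp (a * b) ((P : Subgroup G).mul_mem a.2 b.2)
    simp only [Subgroup.coe_mul]
    have h1 : (a : G) * b * (a * b) = 1 := by rw [← pow_two]; exact hab
    have h2 : (a : G) * a = 1 := by rw [← pow_two]; exact ha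
    have h3 : (b : G) * b = 1 := by rw [← pow_two]; exact hb
    calc (a : G) * b = a * b * (a * b * (b * a)) := by
          have : (a : G) * b * (b * a) = 1 := by
            rw [mul_assoc, ← mul_assoc (b : G) b a, h3, one_mul, h2]
          rw [this, mul_one]
      _ = (a * b * (a * b)) * (b * a) := by group
      _ = b * a := by rw [h1, one_mul]

end Cfsg.Agent.S4196
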