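import Cfsg.Statements.S4250
import Cfsg.Agent.H12.Transfer

set_option autoImplicit false
open Cfsg
open Cfsg.Agent.H12
open scoped commutatorElement

namespace Cfsg.Agent.S4250

/-- Let P be a Sylow p-subgroup of a finite group G. Call an intersection H = P ∩ Q with a Sylow p-subgroup Q tame when N_P(H) and N_Q(H) are Sylow p-subgroups of N_G(H). Then P ∩ G′ is generated by [P, N_G(P)] together with the commutator subgroups [P ∩ Q, ⟨x⟩] for all tame intersections P ∩ Q and all p-elements x of N_G(P ∩ Q). -/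
theorem result {G : Type*} [Group G] [Finite G] (p : ℕ) [Fact p.Prime] (P : Sylow p G) :
    (P : Subgroup G) ⊓ commutator G =
      ⁅(P : Subgroup G), Subgroup.normalizer ((P : Subgroup G) : Set G)⁆ ⊔
        ⨆ (Q : Sylow p G) (_ : (¬ p ∣ ((P : Subgroup G) ⊓ Subgroup.normalizer (((P : Subgroup G) ⊓ (Q : Subgroup G) : Subgroup G) : Set G)).relIndex (Subgroup.normalizer (((P : Subgroup G) ⊓ (Q : Subgroup G) : Subgroup G) : Set G)) ∧ ¬ p ∣ ((Q : Subgroup G) ⊓ Subgroup.normalizer (((P : Subgroup G) ⊓ (Q : Subgroup G) : Subgroup G) : Set G)).relIndex (Subgroup.normalizer (((P : Subgroup G) ⊓ (Q : Subgroup G) : Subgroup G) : Set G))))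
          (x : G) (_ : x ∈ Subgroup.normalizer (((P : Subgroup G) ⊓ (Q : Subgroup G) : Subgroup G) : Set G) ∧ ∃ k : ℕ, orderOf x = p ^ k),
          ⁅(P : Subgroup G) ⊓ (Q : Subgroup G), Subgroup.zpowers x⁆ := by
  set F : Subgroup G := ⁅(P : Subgroup G), Subgroup.normalizer ((P : Subgroup G) : Set G)⁆ ⊔
        ⨆ (Q : Sylow p G) (_ : (¬ p ∣ ((P : Subgroup G) ⊓ Subgroup.normalizer (((P : Subgroup G) ⊓ (Q : Subgroup G) : Subgroup G) : Set G)).relIndex (Subgroup.normalizer (((P : Subgroup G) ⊓ (Q : Subgroup G) : Subgroup G) : Set G)) ∧ ¬ p ∣ ((Q : Subgroup G) ⊓ Subgroup.normalizer (((P : Subgroup G) ⊓ (Q : Subgroup G) : Subgroup G) : Set G)).relIndex (Subgroup.normalizer (((P : Subgroup G) ⊓ (Q : Subgroup G) : Subgroup G) : Set G))))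
          (x : G) (_ : x ∈ Subgroup.normalizer (((P : Subgroup G) ⊓ (Q : Subgroup G) : Subgroup G) : Set G) ∧ ∃ k : ℕ, orderOf x = p ^ k),
          ⁅(P : Subgroup G) ⊓ (Q : Subgroup G), Subgroup.zpowers x⁆ with hF
  have hC := fusionClosed_comm (P : Subgroup G) F
  have hcomm : ∀ {D K : Subgroup G} {a g : G}, a ∈ D → g ∈ K → a⁻¹ * (g⁻¹ * a * g) ∈ ⁅D, K⁆ := by
    intro D K a g ha hg
    have := Subgroup.commutator_mem_commutator (inv_mem ha) (inv_mem hg)
    have e : ⁅a⁻¹, g⁻¹⁆ = a⁻¹ * (g⁻¹ * a * g) := by rw [commutatorElement_def]; group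
    rwa [e] at this
  have hle : ∀ {D K : Subgroup G}, K ≤ Subgroup.normalizer (D : Set G) → ⁅D, K⁆ ≤ D := by
    intro D K hK
    rw [Subgroup.commutator_le]
    intro a ha g hg
    rw [commutatorElement_def]
    have h1 : g * a⁻¹ * g⁻¹ ∈ D := (Subgroup.mem_normalizer_iff.mp (hK hg) a⁻¹).mp (inv_mem ha)
    have e : a * g * a⁻¹ * g⁻¹ = a * (g * a⁻¹ * g⁻¹) := by group
    rw [e]; exact mul_mem ha h1
  have main : ∀ T : Subgroup G, T ≤ P → ∀ g, cj T g ≤ P → ∀ a ∈ T, a⁻¹ * (g⁻¹ * a * g) ∈ F := by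
    refine alperin_abstract P _ hC ?_ ?_
    · intro g hg a ha
      exact Subgroup.mem_sup_left (hcomm ha hg)
    · intro T hT hne
      obtain ⟨h, hU, hfn⟩ := exists_fully_normalized P T (P.2.to_le hT)
      refine ⟨h, hU, hfn, ?_⟩
      intro IH
      have hUne : cj T h ≠ P := by
        intro e
        apply hne
        exact eq_of_le_of_card_eq hT (by rw [← e, card_cj])
      refine C_of_pElements hC hU hUne hfn (by intro a _; simp) (by rw [card_cj]; exact IH) ?_
      intro m hm hk hint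
      obtain ⟨Q, hQ, hQfn⟩ := exists_tame (cj T h) hU hfn hm hint
      intro a ha
      apply Subgroup.mem_sup_right
      unfold FullyNormalized at hfn hQfn
      rw [hQ] at hfn hQfn hm ha
      refine Subgroup.mem_iSup_of_mem Q (Subgroup.mem_iSup_of_mem ⟨hfn, hQfn⟩
        (Subgroup.mem_iSup_of_mem m (Subgroup.mem_iSup_of_mem ⟨hm, hk⟩ ?_)))
      exact hcomm ha (Subgroup.mem_zpowers m)
  apply le_antisymm
  · have hfoc := Subgroup.commutator_inf_eq_focalSubgroup P
    rw [inf_comm, hfoc, Subgroup.focalSubgroup_def, Subgroup.closure_le]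
    rintro g ⟨hgS, x, hx, u, rfl⟩
    have h1 : u * x⁻¹ * u⁻¹ ∈ (P : Subgroup G) := by
      have := mul_mem (inv_mem hx) hgS
      have e : x⁻¹ * ⁅x, u⁆ = u * x⁻¹ * u⁻¹ := by rw [commutatorElement_def]; group
      rwa [e] at this
    have h2 := main (Subgroup.zpowers x⁻¹) (by simpa using hx) u⁻¹ (by
      rw [cj_le_iff, Subgroup.zpowers_le, mem_cj]
      simpa using h1) x⁻¹ (Subgroup.mem_zpowers _)
    have e : ⁅x, u⁆ = x⁻¹⁻¹ * (u⁻¹⁻¹ * x⁻¹ * u⁻¹) := by rw [commutatorElement_def]; group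
    rw [SetLike.mem_coe, e]
    exact h2
  · rw [hF, commutator_def]
    refine sup_le (le_inf (hle le_rfl) (Subgroup.commutator_mono le_top le_top)) ?_
    refine iSup_le fun Q => iSup_le fun _ => iSup_le fun x => iSup_le fun hx => ?_
    refine le_inf ((hle ?_).trans inf_le_left) (Subgroup.commutator_mono le_top le_top)
    rw [Subgroup.zpowers_le]; exact hx.1

end Cfsg.Agent.S4250
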