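import Cfsg.Statements.S4216
import Cfsg.Agent.S4250
import Cfsg.Agent.Lib.Helper22.Basic2

set_option autoImplicit false
open Cfsg

namespace Cfsg.Agent.S4216

open Cfsg.Agent.Lib.Helper22
open scoped commutatorElement

/-- Grün's first Theorem: if `P` is a Sylow `p`-subgroup of the finite group `G`, then `P ∩ G'` is the subgroup generated by `P ∩ N_G(P)'` together with the subgroups `P ∩ z P' z⁻¹` for all `z ∈ G`, where `'` denotes the derived subgroup and `N_G(P)` the normalizer of `P`. -/
theorem result {G : Type*} [Group G] [Finite G] {p : ℕ} [Fact p.Prime] (P : Sylow p G) : (P : Subgroup G) ⊓ commutator G = ((P : Subgroup G) ⊓ ⁅Subgroup.normalizer ((P : Subgroup G) : Set G), Subgroup.normalizer ((P : Subgroup G) : Set G)⁆) ⊔ ⨆ z : G, (P : Subgroup G) ⊓ (⁅(P : Subgroup G), (P : Subgroup G)⁆).map (MulAut.conj z).toMonoidHom := by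
  apply le_antisymm
  · rw [Cfsg.Agent.S4250.result p P]
    apply sup_le
    · apply le_sup_of_le_left
      apply le_inf
      · rw [Subgroup.commutator_le]
        intro g₁ h₁ g₂ h₂
        rw [commutatorElement_def]
        have h3 : g₂ * g₁⁻¹ * g₂⁻¹ ∈ (P : Subgroup G) :=
          (Subgroup.mem_normalizer_iff.mp h₂ _).mp (inv_mem h₁)
        have : g₁ * g₂ * g₁⁻¹ * g₂⁻¹ = g₁ * (g₂ * g₁⁻¹ * g₂⁻¹) := by group
        rw [this]
        exact mul_mem h₁ h3
      · exact Subgroup.commutator_mono Subgroup.le_normalizer le_rfl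
    · refine iSup_le fun Q => iSup_le fun htame => iSup_le fun x => iSup_le fun hx => ?_
      obtain ⟨hxN, k, hk⟩ := hx
      set H : Subgroup G := (P : Subgroup G) ⊓ (Q : Subgroup G) with hH
      set NH := Subgroup.normalizer (H : Set G) with hNH
      have hPG : IsPGroup p (((P : Subgroup G) ⊓ NH).subgroupOf NH) := by
        apply IsPGroup.comap_of_injective _ NH.subtype NH.subtype_injective
        exact P.isPGroup'.to_le inf_le_left
      have hK : IsPGroup p (Subgroup.zpowers (⟨x, hxN⟩ : NH)) := by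
        apply IsPGroup.of_card (n := k)
        rw [Nat.card_zpowers, ← hk, ← Subgroup.orderOf_coe]
      obtain ⟨t, ht⟩ := exists_conj_mem_of_isPGroup _ _ hPG htame.1 hK
      rw [Subgroup.commutator_le]
      intro h hh w hw
      obtain ⟨n, rfl⟩ := Subgroup.mem_zpowers_iff.mp hw
      have h1 := ht ((⟨x, hxN⟩ : NH) ^ n) (Subgroup.zpow_mem_zpowers _ n)
      have h2 : (t : G)⁻¹ * x ^ n * t ∈ (P : Subgroup G) := by
        have h0 := (Subgroup.mem_subgroupOf.mp h1).1
        have e : (((t⁻¹ * (⟨x, hxN⟩ : NH) ^ n * t : NH)) : G) = (t : G)⁻¹ * x ^ n * t := by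
          simp
        rw [e] at h0
        exact h0
      have hxn : x ^ n ∈ NH := NH.zpow_mem hxN n
      have h3 : (t : G)⁻¹ * h * t ∈ H := by
        have := (Subgroup.mem_normalizer_iff.mp (NH.inv_mem t.2) h).mp hh
        simpa using this
      apply le_sup_of_le_right (le_iSup (fun z : G => (P : Subgroup G) ⊓
        (⁅(P : Subgroup G), (P : Subgroup G)⁆).map (MulAut.conj z).toMonoidHom) (t : G))
      constructor
      · have h4 : x ^ n * h⁻¹ * (x ^ n)⁻¹ ∈ H := (Subgroup.mem_normalizer_iff.mp hxn _).mp (inv_mem hh)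
        rw [commutatorElement_def]
        have : h * x ^ n * h⁻¹ * (x ^ n)⁻¹ = h * (x ^ n * h⁻¹ * (x ^ n)⁻¹) := by group
        rw [this]
        exact (mul_mem hh h4 : _ ∈ H).1
      · refine Subgroup.mem_map.mpr ⟨⁅(t : G)⁻¹ * h * t, (t : G)⁻¹ * x ^ n * t⁆,
          Subgroup.commutator_mem_commutator h3.1 h2, ?_⟩
        simp only [MulEquiv.coe_toMonoidHom, MulAut.conj_apply, commutatorElement_def]
        group
  · apply sup_le
    · exact inf_le_inf_left _ (Subgroup.commutator_mono le_top le_top)
    · refine iSup_le fun z => inf_le_inf_left _ ?_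
      rintro _ ⟨y, hy, rfl⟩
      have hy' : y ∈ commutator G := Subgroup.commutator_mono le_top le_top hy
      exact (inferInstance : (commutator G).Normal).conj_mem y hy' z

end Cfsg.Agent.S4216
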