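import Cfsg.Statements.S4230
import Mathlib

set_option autoImplicit false
open Cfsg

namespace Cfsg.Agent.S4230

/-- Let p be an odd prime, q a natural number not divisible by p, and e the multiplicative order of q modulo p. For a natural number f, p divides the value at q of the f-th cyclotomic polynomial if and only if f = e·p^j for some j ≥ 0. -/
theorem result (p q f : ℕ) (hp : p.Prime) (hp2 : p ≠ 2) (hpq : ¬ p ∣ q) :
    ((p : ℤ) ∣ (Polynomial.cyclotomic f ℤ).eval (q : ℤ)) ↔ ∃ j : ℕ, f = orderOf (q : ZMod p) * p ^ j := by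
  haveI : Fact p.Prime := ⟨hp⟩
  have hq0 : (q : ZMod p) ≠ 0 := by
    intro h
    exact hpq ((ZMod.natCast_eq_zero_iff q p).1 h)
  have hroot : ((p : ℤ) ∣ (Polynomial.cyclotomic f ℤ).eval (q : ℤ)) ↔
      (Polynomial.cyclotomic f (ZMod p)).IsRoot (q : ZMod p) := by
    rw [← ZMod.intCast_zmod_eq_zero_iff_dvd, Polynomial.IsRoot.def,
      ← Polynomial.map_cyclotomic_int f (ZMod p)]
    have h1 := Polynomial.eval_intCast_map (Int.castRingHom (ZMod p)) (Polynomial.cyclotomic f ℤ) (q : ℤ)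
    have h2 : (((q : ℤ) : ZMod p)) = (q : ZMod p) := by push_cast; rfl
    rw [h2] at h1
    rw [h1]
    rfl
  rw [hroot]
  have hne : ∀ m : ℕ, ¬ p ∣ m → NeZero ((m : ℕ) : ZMod p) := by
    intro m hm
    exact ⟨fun h => hm ((ZMod.natCast_eq_zero_iff m p).1 h)⟩
  constructor
  · intro h
    have hf0 : f ≠ 0 := by
      rintro rfl
      rw [Polynomial.cyclotomic_zero, Polynomial.IsRoot.def, Polynomial.eval_one] at h
      exact one_ne_zero h
    obtain ⟨k, m, hm, rfl⟩ := Nat.exists_eq_pow_mul_and_not_dvd hf0 p hp.one_lt.ne'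
    haveI := hne m hm
    rw [Polynomial.isRoot_cyclotomic_prime_pow_mul_iff_of_charP] at h
    exact ⟨k, by rw [← h.eq_orderOf, mul_comm]⟩
  · rintro ⟨j, rfl⟩
    have he : ¬ p ∣ orderOf (q : ZMod p) := by
      intro h
      have h1 : orderOf (q : ZMod p) ∣ p - 1 := ZMod.orderOf_dvd_card_sub_one hq0
      have h2 : p ∣ p - 1 := h.trans h1
      have h3 : p ≤ p - 1 := Nat.le_of_dvd (Nat.sub_pos_of_lt hp.one_lt) h2
      have := hp.pos
      omega
    haveI := hne _ he
    rw [mul_comm, Polynomial.isRoot_cyclotomic_prime_pow_mul_iff_of_charP]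
    exact IsPrimitiveRoot.orderOf _

end Cfsg.Agent.S4230
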