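import Cfsg.Statements.S4238
import Cfsg.Agent.Lib.Helper22.ExpSection
import Cfsg.Agent.S0027

set_option autoImplicit false
open Cfsg Subgroup Cfsg.Agent.H12 Cfsg.Agent.Lib.Helper22

namespace Cfsg.Agent.S4238

/-- Let G be a finite group and p a prime. Then G has a normal p-complement if and only if every section K = H/N of G (N a normal subgroup of a subgroup H) whose largest normal subgroup of order prime to p is trivial contains an element whose order equals the exponent of K. -/
theorem result {G : Type*} [Group G] [Finite G] (p : ℕ) [Fact p.Prime] :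
    Cfsg.HasNormalPComplement p G ↔
      ∀ (H : Subgroup G) (N : Subgroup H) [N.Normal], Cfsg.pPrimeCore p (H ⧸ N) = ⊥ →
        ∃ k : H ⧸ N, orderOf k = Monoid.exponent (H ⧸ N) := by
  have hp : p.Prime := Fact.out
  constructor
  · intro hG H N _ hcore
    have hH : HasNormalPComplement p H := Cfsg.Agent.Tr.HasNormalPComplement.subgroup hG H
    have hM := hasNormalPComplement_iff.mp hH
    haveI hMc : (pResidual p H).Characteristic := pResidual_characteristic p H
    have hMn : (pResidual p H).Normal := inferInstance
    have hle : pResidual p H ≤ N := by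
      have h1 : (pResidual p H).map (QuotientGroup.mk' N) ≤ pPrimeCore p (H ⧸ N) := by
        apply le_pPrimeCore (hMn.map _ (QuotientGroup.mk'_surjective N))
        exact Nat.Coprime.coprime_dvd_left (Subgroup.card_map_dvd _ _) hM
      rw [hcore, le_bot_iff, Subgroup.map_eq_bot_iff, QuotientGroup.ker_mk'] at h1
      exact h1
    apply exists_orderOf_eq_exponent_of_isPGroup p
    intro x
    obtain ⟨h, rfl⟩ := QuotientGroup.mk'_surjective N x
    obtain ⟨k, hk⟩ := isPGroup_quotient_pResidual (G := H) p (QuotientGroup.mk' _ h)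
    refine ⟨k, ?_⟩
    rw [← map_pow] at hk ⊢
    exact (QuotientGroup.eq_one_iff _).mpr (hle ((QuotientGroup.eq_one_iff _).mp hk))
  · intro hsec
    by_contra hG
    have hF : ¬ Cfsg.Agent.Tr.Frob p G := fun h => hG h.hasNormalPComplement
    unfold Cfsg.Agent.Tr.Frob at hF
    push Not at hF
    obtain ⟨Q, hQ, g0, hg0N, hg0c, hg0C⟩ := hF
    have hex : ∃ n : ℕ, ∃ g ∈ normalizer (Q : Set G), (orderOf g).Coprime p ∧
        g ∉ centralizer (Q : Set G) ∧ orderOf g = n := ⟨_, g0, hg0N, hg0c, hg0C, rfl⟩
    classical
    obtain ⟨g, hgN, hgc, hgC, hgn⟩ := Nat.find_spec hex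
    have hmin : ∀ x ∈ normalizer (Q : Set G), (orderOf x).Coprime p → orderOf x < orderOf g →
        x ∈ centralizer (Q : Set G) := by
      intro x hxN hxc hlt
      by_contra hxC
      exact Nat.find_min hex (hgn ▸ hlt) ⟨x, hxN, hxc, hxC, rfl⟩
    have hg1 : orderOf g ≠ 1 := by
      intro h
      rw [orderOf_eq_one_iff] at h
      exact hgC (h ▸ one_mem _)
    set q := (orderOf g).minFac with hqdef
    have hq : q.Prime := Nat.minFac_prime hg1
    have hqg : q ∣ orderOf g := Nat.minFac_dvd _
    have hqp : q ≠ p := by
      intro h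
      have : p ∣ Nat.gcd (orderOf g) p := Nat.dvd_gcd (h ▸ hqg) dvd_rfl
      rw [hgc.gcd_eq_one] at this
      exact hp.one_lt.ne' (Nat.dvd_one.mp this)
    have hgq : g ^ q ∈ centralizer (Q : Set G) := by
      apply hmin _ (pow_mem hgN q)
      · exact Nat.Coprime.coprime_dvd_left (orderOf_pow_dvd q) hgc
      · rw [orderOf_pow_of_dvd hq.ne_zero hqg]
        exact Nat.div_lt_self (orderOf_pos g) hq.one_lt
    have hAN : zpowers g ≤ normalizer (Q : Set G) := zpowers_le.mpr hgN
    have hcop : (Nat.card (zpowers g)).Coprime (Nat.card Q) := by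
      rw [Nat.card_zpowers]
      obtain ⟨n, hn⟩ := IsPGroup.iff_card.mp hQ
      rw [hn]
      exact Nat.Coprime.pow_right n hgc
    have hst := Cfsg.Agent.S0027.result (zpowers g) Q hAN hcop (Or.inl inferInstance)
    set U : Subgroup G := ⁅Q, zpowers g⁆ with hU
    have hUQ : U ≤ Q := Cfsg.H1.commutator_le_of_le_normalizer hAN
    have hUp : IsPGroup p U := hQ.to_le hUQ
    have hU1 : U ≠ ⊥ := by
      intro h
      rw [hU, commutator_eq_bot_iff_le_centralizer] at h
      apply hgC
      rw [mem_centralizer_iff]
      intro x hx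
      exact ((mem_centralizer_iff.mp (h hx)) g (mem_zpowers g)).symm
    have hAU : zpowers g ≤ normalizer (U : Set G) := normalizer_commutator_ge_right Q (zpowers g)
    set H : Subgroup G := U ⊔ zpowers g with hH
    have hUH : U ≤ H := le_sup_left
    have hgH : g ∈ H := (le_sup_right : zpowers g ≤ H) (mem_zpowers g)
    have hHN : H ≤ normalizer (U : Set G) := sup_le le_normalizer hAU
    haveI hUn : (U.subgroupOf H).Normal := normal_subgroupOf_of_le_normalizer hHN
    have hmapU : (U.subgroupOf H).map H.subtype = U := by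
      rw [subgroupOf_map_subtype, inf_eq_left.mpr hUH]
    have hmapg : (zpowers (⟨g, hgH⟩ : H)).map H.subtype = zpowers g := by
      rw [MonoidHom.map_zpowers]
      rfl
    obtain ⟨N, hNn, hcore, hno⟩ := exists_bad_quotient p q hq hqp (U.subgroupOf H)
      (hUp.comap_subtype) (by
        intro h
        apply hU1
        rw [← hmapU, h, Subgroup.map_bot]) (⟨g, hgH⟩ : H) (by rw [Subgroup.orderOf_mk]; exact hgc)
      (by
        apply map_injective H.subtype_injective
        rw [Subgroup.map_sup, hmapU, hmapg, ← MonoidHom.range_eq_map, range_subtype])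
      (by
        apply map_injective H.subtype_injective
        rw [map_commutator, hmapU, hmapg, hst])
      (by
        rw [mem_centralizer_iff]
        intro x hx
        apply Subtype.ext
        exact mem_centralizer_iff.mp hgq x (hUQ (mem_subgroupOf.mp hx)))
    exact hno (hsec H N hcore)

end Cfsg.Agent.S4238
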