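import Cfsg.Statements.S4242
import Mathlib
import Cfsg.Agent.H4.MaxNilp

set_option autoImplicit false
open Cfsg

namespace Cfsg.Agent.S4242

/-- Let G be a finite group and p a prime dividing its order. Every maximal subgroup of G of order divisible by p is nilpotent if and only if G is nilpotent, or G is a minimal non-nilpotent group, or G is the internal direct product of a normal subgroup of order p and a normal minimal non-nilpotent subgroup of order prime to p. -/
theorem result {G : Type*} [Group G] [Finite G] (p : ℕ) (hp : p.Prime) (hpG : p ∣ Nat.card G) :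
    (∀ M : Subgroup G, IsCoatom M → p ∣ Nat.card M → Group.IsNilpotent M) ↔
      (Group.IsNilpotent G ∨ Cfsg.IsMinimalNonNilpotent G ∨
        ∃ Z K : Subgroup G, Z.Normal ∧ K.Normal ∧ Z ⊓ K = ⊥ ∧ Z ⊔ K = ⊤ ∧ Nat.card Z = p ∧
          Cfsg.IsMinimalNonNilpotent K ∧ ¬ p ∣ Nat.card K) := by
  have : Fact p.Prime := ⟨hp⟩
  constructor
  · intro h
    have hH : ∀ L : Subgroup G, L ≠ ⊤ → p ∣ Nat.card L → Group.IsNilpotent L := by
      intro L hL hpL
      obtain ⟨M, hM, hle⟩ := (eq_top_or_exists_le_coatom L).resolve_left hL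
      exact Cfsg.Agent.H4.isNilpotent_of_le hle (h M hM (hpL.trans (Subgroup.card_dvd_of_le hle)))
    by_cases hn : Group.IsNilpotent G
    · exact Or.inl hn
    by_cases hm : Cfsg.IsMinimalNonNilpotent G
    · exact Or.inr (Or.inl hm)
    refine Or.inr (Or.inr ?_)
    have hex : ∃ L : Subgroup G, L ≠ ⊤ ∧ ¬ Group.IsNilpotent L := by
      by_contra hcon
      push Not at hcon
      exact hm ⟨hn, hcon⟩
    obtain ⟨L, hL, hLn⟩ := hex
    obtain ⟨M, hM, hle⟩ := (eq_top_or_exists_le_coatom L).resolve_left hL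
    have hMn : ¬ Group.IsNilpotent M := fun hc => hLn (Cfsg.Agent.H4.isNilpotent_of_le hle hc)
    have hMp : (Nat.card M).Coprime p :=
      ((Nat.Prime.coprime_iff_not_dvd hp).2 (fun hd => hMn (h M hM hd))).symm
    exact Cfsg.Agent.H4.maxNilp_structure hpG hH M hM hMp hMn
  · rintro (hn | hm | ⟨Z, K, hZ, hK, _, hsup, hcard, hKm, hpK⟩) M hM hpM
    · infer_instance
    · exact hm.2 M hM.1
    · exact Cfsg.Agent.H4.nilpotent_of_direct Z K hZ hK hsup hcard hKm hpK M hM.1 hpM

end Cfsg.Agent.S4242
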