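import Cfsg.Statements.S4249
import Cfsg.Agent.Lib.Helper22.Hughes2
import Cfsg.Agent.Lib.Helper22.Hughes4

set_option autoImplicit false
open Cfsg

namespace Cfsg.Agent.S4249

/-- Let G be a finite group and p a prime such that G is not a p-group, and suppose the Hughes subgroup H_p(G), generated by all elements g with g^p ≠ 1, is a proper subgroup. Then H_p(G) is nilpotent and has index p in G. -/
theorem result {G : Type*} [Group G] [Finite G] (p : ℕ) (hp : p.Prime) (hG : ¬ IsPGroup p G)
    (hH : Subgroup.closure {g : G | g ^ p ≠ 1} ≠ ⊤) :
    Group.IsNilpotent (Subgroup.closure {g : G | g ^ p ≠ 1}) ∧ (Subgroup.closure {g : G | g ^ p ≠ 1}).index = p := by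
  haveI := Fact.mk hp
  have hpair : Cfsg.Agent.Lib.Helper22.HP p (Subgroup.closure {g : G | g ^ p ≠ 1}) :=
    { normal := by
        constructor
        intro n hn g
        induction hn using Subgroup.closure_induction with
        | mem x hx =>
          apply Subgroup.subset_closure
          show (g * x * g⁻¹) ^ p ≠ 1
          rw [conj_pow]
          intro h1
          exact hx (conj_eq_one_iff.1 h1)
        | one => simp
        | mul x y _ _ hx hy =>
          rw [← conj_mul]
          exact Subgroup.mul_mem _ hx hy
        | inv x _ hx =>
          rw [← conj_inv]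
          exact Subgroup.inv_mem _ hx
      ne_top := hH
      pow := by
        intro g hg
        by_contra h1
        exact hg (Subgroup.subset_closure h1) }
  exact ⟨hpair.isNilpotent, hpair.index_eq hG⟩

end Cfsg.Agent.S4249
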