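import Cfsg.Statements.S4251
import Cfsg.Agent.Tr.Control
-- import your own Cfsg.Agent.* helpers here

set_option autoImplicit false
open Cfsg

open Cfsg.Agent.Tr Cfsg.Agent.H12

namespace Cfsg.Agent.S4251

/-- Let P be a Sylow p-subgroup of a finite group G. Call an intersection H = P ∩ Q with a Sylow p-subgroup Q tame when N_P(H) and N_Q(H) are Sylow p-subgroups of N_G(H). If N_G(H)/C_G(H) is a p-group for every nontrivial tame intersection H = P ∩ Q, then G has a normal p-complement. -/
theorem result {G : Type*} [Group G] [Finite G] (p : ℕ) [Fact p.Prime] (P : Sylow p G)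
    (h : ∀ Q : Sylow p G, (P : Subgroup G) ⊓ (Q : Subgroup G) ≠ ⊥ → (¬ p ∣ ((P : Subgroup G) ⊓ Subgroup.normalizer (((P : Subgroup G) ⊓ (Q : Subgroup G) : Subgroup G) : Set G)).relIndex (Subgroup.normalizer (((P : Subgroup G) ⊓ (Q : Subgroup G) : Subgroup G) : Set G)) ∧ ¬ p ∣ ((Q : Subgroup G) ⊓ Subgroup.normalizer (((P : Subgroup G) ⊓ (Q : Subgroup G) : Subgroup G) : Set G)).relIndex (Subgroup.normalizer (((P : Subgroup G) ⊓ (Q : Subgroup G) : Subgroup G) : Set G))) →
      IsPGroup p (Subgroup.normalizer (((P : Subgroup G) ⊓ (Q : Subgroup G) : Subgroup G) : Set G) ⧸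
        (Subgroup.centralizer (((P : Subgroup G) ⊓ (Q : Subgroup G) : Subgroup G) : Set G)).subgroupOf
          (Subgroup.normalizer (((P : Subgroup G) ⊓ (Q : Subgroup G) : Subgroup G) : Set G)))) :
    Cfsg.HasNormalPComplement p G := by
  apply Frob.hasNormalPComplement
  apply frob_of_controls P
  -- local step
  have key : ∀ U : Subgroup G, U ≤ P → FullyNormalized p P U →
      (∃ Q : Sylow p G, U = (P : Subgroup G) ⊓ Q ∧ FullyNormalized p Q U) →
      ∀ m ∈ Subgroup.normalizer (U : Set G), HC (P : Subgroup G) U m := by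
    intro U hU hfn hQ m hm
    by_cases hUb : U = ⊥
    · refine ⟨1, one_mem _, fun a ha => ?_⟩
      rw [hUb, Subgroup.mem_bot] at ha
      rw [ha]; simp
    obtain ⟨Q, rfl, hfnQ⟩ := hQ
    have hpg := h Q hUb ⟨hfn, hfnQ⟩
    obtain ⟨o, ho, r, hr, e⟩ := exists_mul_of_sylow_rel (p := p)
      (Y := Subgroup.normalizer (((P : Subgroup G) ⊓ Q : Subgroup G) : Set G))
      (R := (P : Subgroup G) ⊓ Subgroup.normalizer (((P : Subgroup G) ⊓ Q : Subgroup G) : Set G))
      (K := Subgroup.centralizer (((P : Subgroup G) ⊓ Q : Subgroup G) : Set G))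
      inf_le_right (P.2.to_le inf_le_left) hfn (fun y hy hc => by
        have := mem_of_coprime_orderOf hpg (g := ⟨y, hy⟩) (by rwa [← Subgroup.orderOf_coe])
        exact this) hm
    refine ⟨r, hr.1, fun a ha => ?_⟩
    have h1 := (Subgroup.mem_centralizer_iff.mp ho.1) a ha
    rw [e]
    calc r⁻¹ * a * r = r⁻¹ * (o⁻¹ * (o * a)) * r := by group
      _ = r⁻¹ * (o⁻¹ * (a * o)) * r := by rw [h1]
      _ = (o * r)⁻¹ * a * (o * r) := by group
  have hfnP : FullyNormalized p (P : Subgroup G) (P : Subgroup G) := by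
    unfold FullyNormalized
    rw [inf_eq_left.mpr Subgroup.le_normalizer]
    exact sylow_not_dvd_relIndex P Subgroup.le_normalizer
  apply alperin_abstract P _ (HC.fusionClosed _ _)
  · intro g hg
    exact key P le_rfl hfnP ⟨P, (inf_idem _).symm, hfnP⟩ g hg
  · intro T hT hTne
    obtain ⟨x, h1, h2⟩ := exists_fully_normalized P T (P.2.to_le hT)
    refine ⟨x, h1, h2, fun IH => ?_⟩
    have hne : cj T x ≠ P := by
      intro he
      apply hTne
      apply eq_of_le_of_card_eq hT
      rw [← card_cj T x, he]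
    apply C_of_pElements (HC.fusionClosed _ _) h1 hne h2 (HC.of_mem (one_mem _))
    · intro R hR hlt g hg
      exact IH R hR (by rwa [card_cj] at hlt) g hg
    · intro m hm _ hint
      exact key _ h1 h2 (exists_tame _ h1 h2 hm hint) m hm

end Cfsg.Agent.S4251
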