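import Cfsg.Statements.S4253
import Cfsg.Agent.Lib.Helper22.Frobenius

set_option autoImplicit false
open Cfsg Cfsg.Agent.Lib.Helper22

namespace Cfsg.Agent.S4253

/-- Let H be a Frobenius complement in a finite group G (a nontrivial proper subgroup meeting each conjugate gHg⁻¹ with g outside H trivially). Then in the action of G on the left cosets of H by left multiplication, no non-identity element of G fixes two distinct cosets. -/
theorem result {G : Type*} [Group G] [Finite G] (H : Subgroup G) (hH : Cfsg.IsFrobeniusComplement H)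
    (g : G) (hg : g ≠ 1) (a b : G ⧸ H) (ha : g • a = a) (hb : g • b = b) : a = b := by
  obtain ⟨s, rfl⟩ := QuotientGroup.mk_surjective a
  obtain ⟨t, rfl⟩ := QuotientGroup.mk_surjective b
  have ha' : ((g * s : G) : G ⧸ H) = (s : G ⧸ H) := ha
  have hb' : ((g * t : G) : G ⧸ H) = (t : G ⧸ H) := hb
  rw [QuotientGroup.eq] at ha' hb'
  have h1 : s⁻¹ * g * s ∈ H := by
    have := H.inv_mem ha'
    simpa [mul_assoc] using this
  have h2 : t⁻¹ * g * t ∈ H := by
    have := H.inv_mem hb'
    simpa [mul_assoc] using this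
  rw [QuotientGroup.eq]
  by_contra hu
  have h3 : (s⁻¹ * t)⁻¹ * (s⁻¹ * g * s) * (s⁻¹ * t) ∈ H := by
    have : (s⁻¹ * t)⁻¹ * (s⁻¹ * g * s) * (s⁻¹ * t) = t⁻¹ * g * t := by group
    rw [this]; exact h2
  have h4 := IsFrobeniusComplement.eq_one' hH hu h1 h3
  apply hg
  have : g = s * (s⁻¹ * g * s) * s⁻¹ := by group
  rw [this, h4]; group

end Cfsg.Agent.S4253
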