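import Cfsg.Statements.S4261
import Cfsg.Agent.S0048

set_option autoImplicit false
open Cfsg

namespace Cfsg.Agent.S4261

/-- Let M be a maximal subgroup of a finite solvable group G such that x^[G : M] lies in M for every x in G. Then M is normal in G. -/
theorem result {G : Type*} [Group G] [Finite G] (hG : Group.IsSolvable G) (M : Subgroup G) (hM : IsCoatom M)
    (hexp : ∀ x : G, x ^ M.index ∈ M) : M.Normal := by
  obtain ⟨p, k, hp, hk, hidx⟩ := Cfsg.Agent.S0048.result M hM
  have hp' : p.Prime := Nat.prime_iff.mpr hp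
  haveI : Fact p.Prime := ⟨hp'⟩
  set K := M.normalCore with hK
  have hKM : K ≤ M := Subgroup.normalCore_le M
  have hpow : ∀ x : G, x ^ (p ^ k) ∈ K := by
    intro x
    show ∀ b : G, b * x ^ (p ^ k) * b⁻¹ ∈ M
    intro b
    have := hexp (b * x * b⁻¹)
    rwa [conj_pow, ← hidx] at this
  have hPG : IsPGroup p (G ⧸ K) := by
    intro g
    obtain ⟨x, rfl⟩ := QuotientGroup.mk_surjective g
    refine ⟨k, ?_⟩
    rw [← QuotientGroup.mk_pow, QuotientGroup.eq_one_iff]
    exact hpow x
  haveI := hPG.isNilpotent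
  have hnc := Group.normalizerCondition_of_isNilpotent (G := G ⧸ K)
  have hsurj := QuotientGroup.mk'_surjective K
  have hcomap : (M.map (QuotientGroup.mk' K)).comap (QuotientGroup.mk' K) = M := by
    rw [Subgroup.comap_map_eq, QuotientGroup.ker_mk']; exact sup_eq_left.mpr hKM
  have hne : M.map (QuotientGroup.mk' K) < ⊤ := by
    refine lt_top_iff_ne_top.mpr fun h => hM.1 ?_
    rw [← hcomap, h, Subgroup.comap_top]
  have h1 := hnc _ hne
  have h2 : M < Subgroup.normalizer (M : Set G) := by
    refine lt_of_le_of_ne Subgroup.le_normalizer fun h => h1.ne ?_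
    have h3 := Subgroup.comap_normalizer_eq_of_surjective (M.map (QuotientGroup.mk' K)) hsurj
    rw [hcomap, ← h] at h3
    have h4 := congrArg (Subgroup.map (QuotientGroup.mk' K)) h3
    rw [Subgroup.map_comap_eq_self_of_surjective hsurj] at h4
    exact h4.symm
  exact Subgroup.normalizer_eq_top_iff.mp (hM.2 _ h2)

end Cfsg.Agent.S4261
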