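import Cfsg.Statements.S4262
import Cfsg.Agent.Lib.Helper22.MaxCent2
import Cfsg.Agent.Lib.Helper22.MaxCent3

set_option autoImplicit false
open Cfsg Cfsg.Agent.Lib.Helper22.MaxCent

namespace Cfsg.Agent.S4262

/-- Let G be a finite group in which the centralizer of every non-central element is a maximal subgroup of G. Then G is solvable. -/
theorem result {G : Type*} [Group G] [Finite G]
    (h : ∀ g : G, g ∉ Subgroup.center G → IsCoatom (Subgroup.centralizer ({g} : Set G))) :
    Group.IsSolvable G := by
  by_cases hZ : ∀ g : G, g ∈ Subgroup.center G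
  · exact Group.isSolvable_of_comm (fun a b => (Subgroup.mem_center_iff.1 (hZ b) a))
  · push Not at hZ
    obtain ⟨g0, hg0⟩ := hZ
    by_cases hN : ∃ g : G, g ∉ Subgroup.center G ∧ (Subgroup.centralizer ({g} : Set G)).Normal
    · obtain ⟨g, hg, hn⟩ := hN
      exact solvable_of_normal h g hg hn
    · push Not at hN
      exfalso
      by_cases hA : ∃ g : G, g ∉ Subgroup.center G ∧
          ∀ a ∈ Subgroup.centralizer ({g} : Set G), ∀ b ∈ Subgroup.centralizer ({g} : Set G), a * b = b * a
      · obtain ⟨g, hg, hab⟩ := hA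
        exact caseA h hN g hg hab
      · exact caseB h hN (fun g hg hab => hA ⟨g, hg, hab⟩) g0 hg0

end Cfsg.Agent.S4262
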