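import Cfsg.Statements.S4269
-- import your own Cfsg.Agent.* helpers here

set_option autoImplicit false
open Cfsg

namespace Cfsg.Agent.S4269

open Subgroup
open scoped commutatorElement

theorem mem_map_conj_iff {G : Type*} [Group G] (H : Subgroup G) (a y : G) :
    y ∈ H.map (MulAut.conj a).toMonoidHom ↔ a⁻¹ * y * a ∈ H := by
  constructor
  · rintro ⟨h, hh, rfl⟩
    simpa [mul_assoc] using hh
  · intro h
    exact ⟨a⁻¹ * y * a, h, by simp [mul_assoc]⟩

theorem exists_mul_of_mem_sup {G : Type*} [Group G] (W H : Subgroup G)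
    (hn : ∀ h ∈ H, ∀ w ∈ W, h * w * h⁻¹ ∈ W) (x : G) (hx : x ∈ W ⊔ H) :
    ∃ w ∈ W, ∃ h ∈ H, x = w * h := by
  let T : Subgroup G :=
    { carrier := {x | ∃ w ∈ W, ∃ h ∈ H, x = w * h}
      mul_mem' := by
        rintro _ _ ⟨w1, hw1, h1, hh1, rfl⟩ ⟨w2, hw2, h2, hh2, rfl⟩
        exact ⟨w1 * (h1 * w2 * h1⁻¹), W.mul_mem hw1 (hn h1 hh1 w2 hw2), h1 * h2,
          H.mul_mem hh1 hh2, by group⟩
      one_mem' := ⟨1, W.one_mem, 1, H.one_mem, by simp⟩
      inv_mem' := by
        rintro _ ⟨w, hw, h, hh, rfl⟩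
        refine ⟨h⁻¹ * w⁻¹ * h⁻¹⁻¹, hn h⁻¹ (H.inv_mem hh) w⁻¹ (W.inv_mem hw), h⁻¹,
          H.inv_mem hh, by group⟩ }
  have h1 : W ⊔ H ≤ T := sup_le (fun w hw => ⟨w, hw, 1, H.one_mem, by simp⟩)
    (fun h hh => ⟨1, W.one_mem, h, hh, by simp⟩)
  exact h1 hx

theorem map_conj_mul_of_mem_normalizer {G : Type*} [Group G] (H : Subgroup G) (w n : G)
    (hn : n ∈ normalizer (H : Set G)) :
    H.map (MulAut.conj (w * n)).toMonoidHom = H.map (MulAut.conj w).toMonoidHom := by
  ext y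
  rw [mem_map_conj_iff, mem_map_conj_iff]
  have h1 := (mem_normalizer_iff.mp hn) (n⁻¹ * (w⁻¹ * y * w) * n)
  have h2 : n * (n⁻¹ * (w⁻¹ * y * w) * n) * n⁻¹ = w⁻¹ * y * w := by group
  have h3 : (w * n)⁻¹ * y * (w * n) = n⁻¹ * (w⁻¹ * y * w) * n := by group
  rw [h2] at h1
  rw [h3]
  exact h1

/-- Let G be a finite group, V an abelian normal subgroup and H a subgroup with HV = G. Then H is pronormal in G (H and gHg⁻¹ are conjugate inside the subgroup they generate, for every g) if and only if every H-invariant subgroup U of V satisfies U = N_U(H)·[H, U], that is, U is the join of U ∩ N_G(H) and the commutator subgroup [H, U]. -/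
theorem result {G : Type*} [Group G] [Finite G]
    (V : Subgroup G) [V.Normal] (hV : IsMulCommutative ↥V) (H : Subgroup G) (hHV : H ⊔ V = ⊤) :
    Cfsg.IsPronormal H ↔
      ∀ U : Subgroup G, U ≤ V → (∀ h ∈ H, U.map (MulAut.conj h).toMonoidHom = U) →
        U = (U ⊓ Subgroup.normalizer (H : Set G)) ⊔ ⁅H, U⁆ := by
  have hcommV : ∀ a ∈ V, ∀ b ∈ V, a * b = b * a := by
    intro a ha b hb
    have h1 : (⟨a, ha⟩ : V) * ⟨b, hb⟩ = ⟨b, hb⟩ * ⟨a, ha⟩ := hV.is_comm.comm _ _
    exact congrArg Subtype.val h1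
  constructor
  · intro hpro U hUV hUH
    have hconjU : ∀ h ∈ H, ∀ u ∈ U, h * u * h⁻¹ ∈ U := by
      intro h hh u hu
      have h1 : h * u * h⁻¹ ∈ U.map (MulAut.conj h).toMonoidHom := ⟨u, hu, by simp⟩
      rwa [hUH h hh] at h1
    have hWU : ⁅H, U⁆ ≤ U := by
      rw [commutator_le]
      intro h hh u hu
      rw [commutatorElement_def]
      exact U.mul_mem (hconjU h hh u hu) (U.inv_mem hu)
    have hHH : ∀ h ∈ H, H.map (MulAut.conj h).toMonoidHom = H := by
      intro h hh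
      ext y
      rw [mem_map_conj_iff]
      constructor
      · intro h1
        have := H.mul_mem (H.mul_mem hh h1) (H.inv_mem hh)
        simpa [mul_assoc] using this
      · intro h1
        exact H.mul_mem (H.mul_mem (H.inv_mem hh) h1) hh
    have hnW : ∀ h ∈ H, ∀ w ∈ ⁅H, U⁆, h * w * h⁻¹ ∈ ⁅H, U⁆ := by
      intro h hh w hw
      have h1 : h * w * h⁻¹ ∈ (⁅H, U⁆).map (MulAut.conj h).toMonoidHom := ⟨w, hw, by simp⟩
      rwa [map_commutator, hHH h hh, hUH h hh] at h1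
    apply le_antisymm
    · intro u hu
      obtain ⟨x, hx, hxe⟩ := hpro u
      have hle : H ⊔ H.map (MulAut.conj u).toMonoidHom ≤ ⁅H, U⁆ ⊔ H := by
        refine sup_le le_sup_right ?_
        rintro _ ⟨h, hh, rfl⟩
        have h1 : (MulAut.conj u).toMonoidHom h = (⁅h, u⁆)⁻¹ * h := by
          rw [commutatorElement_def]
          simp [mul_assoc]
        rw [h1]
        exact (⁅H, U⁆ ⊔ H).mul_mem
          (le_sup_left (a := ⁅H, U⁆) ((⁅H, U⁆).inv_mem (commutator_mem_commutator hh hu)))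
          (le_sup_right (a := ⁅H, U⁆) hh)
      obtain ⟨w, hw, h, hh, rfl⟩ := exists_mul_of_mem_sup _ H hnW x (hle hx)
      rw [map_conj_mul_of_mem_normalizer H w h (le_normalizer hh)] at hxe
      have hn : w⁻¹ * u ∈ normalizer (H : Set G) := by
        rw [mem_normalizer_iff]
        intro y
        have h1 : (u * y * u⁻¹ ∈ H.map (MulAut.conj u).toMonoidHom) ↔
            (u * y * u⁻¹ ∈ H.map (MulAut.conj w).toMonoidHom) := by rw [hxe]
        rw [mem_map_conj_iff, mem_map_conj_iff] at h1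
        have h2 : u⁻¹ * (u * y * u⁻¹) * u = y := by group
        have h3 : w⁻¹ * (u * y * u⁻¹) * w = w⁻¹ * u * y * (w⁻¹ * u)⁻¹ := by group
        rw [h2, h3] at h1
        exact h1
      have h1 : u = (w⁻¹ * u) * w := by
        have := hcommV (w⁻¹ * u) (V.mul_mem (V.inv_mem (hUV (hWU hw))) (hUV hu)) w (hUV (hWU hw))
        rw [this]; group
      rw [h1]
      exact mul_mem (le_sup_left (b := ⁅H, U⁆)
        (⟨U.mul_mem (U.inv_mem (hWU hw)) hu, hn⟩ : w⁻¹ * u ∈ U ⊓ normalizer (H : Set G)))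
        (le_sup_right (a := U ⊓ normalizer (H : Set G)) hw)
    · exact sup_le inf_le_left hWU
  · intro hcond g
    have hg : g ∈ V ⊔ H := by rw [sup_comm, hHV]; exact mem_top g
    rw [← SetLike.mem_coe, normal_mul] at hg
    obtain ⟨v, hv, h0, hh0, rfl⟩ := Set.mem_mul.mp hg
    have hv : v ∈ V := hv
    have hh0 : h0 ∈ H := hh0
    rw [map_conj_mul_of_mem_normalizer H v h0 (le_normalizer hh0)]
    set J := H ⊔ H.map (MulAut.conj v).toMonoidHom with hJ
    set U := closure {y : G | ∃ k ∈ H, y = k * v * k⁻¹} with hU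
    have hUV : U ≤ V := by
      rw [hU, closure_le]
      rintro _ ⟨k, _, rfl⟩
      exact ‹V.Normal›.conj_mem v hv k
    have hvU : v ∈ U := subset_closure ⟨1, H.one_mem, by simp⟩
    have hUH : ∀ h ∈ H, U.map (MulAut.conj h).toMonoidHom = U := by
      have hle : ∀ h ∈ H, U.map (MulAut.conj h).toMonoidHom ≤ U := by
        intro h hh
        rw [hU, MonoidHom.map_closure, closure_le]
        rintro _ ⟨_, ⟨k, hk, rfl⟩, rfl⟩
        exact subset_closure ⟨h * k, H.mul_mem hh hk, by simp [mul_assoc]⟩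
      intro h hh
      apply le_antisymm (hle h hh)
      intro u hu
      rw [mem_map_conj_iff]
      have h1 := hle h⁻¹ (H.inv_mem hh) (⟨u, hu, rfl⟩ : _ ∈ U.map (MulAut.conj h⁻¹).toMonoidHom)
      simpa using h1
    have hWJ : ⁅H, U⁆ ≤ J := by
      rw [commutator_le]
      intro h hh u hu
      have key : u ∈ V ∧ ⁅h, u⁆ ∈ J := by
        refine closure_induction (p := fun u _ => u ∈ V ∧ ⁅h, u⁆ ∈ J) ?_ ?_ ?_ ?_ hu
        · rintro _ ⟨k, hk, rfl⟩
          refine ⟨‹V.Normal›.conj_mem v hv k, ?_⟩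
          have h1 : ⁅h, k * v * k⁻¹⁆ =
              k * ((k⁻¹ * h * k) * (v * (k⁻¹ * h * k)⁻¹ * v⁻¹)) * k⁻¹ := by
            rw [commutatorElement_def]; group
          rw [h1]
          have hk' : k⁻¹ * h * k ∈ H := H.mul_mem (H.mul_mem (H.inv_mem hk) hh) hk
          have h2 : v * (k⁻¹ * h * k)⁻¹ * v⁻¹ ∈ J :=
            le_sup_right (a := H) ⟨(k⁻¹ * h * k)⁻¹, H.inv_mem hk', by simp⟩
          have hkJ : k ∈ J := le_sup_left (a := H) hk
          exact J.mul_mem (J.mul_mem hkJ (J.mul_mem (le_sup_left (a := H) hk') h2)) (J.inv_mem hkJ)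
        · exact ⟨V.one_mem, by simp⟩
        · rintro a b _ _ ⟨ha, ha'⟩ ⟨hb, hb'⟩
          refine ⟨V.mul_mem ha hb, ?_⟩
          have h1 : ⁅h, a * b⁆ = ⁅h, a⁆ * ⁅h, b⁆ := by
            have hc : ⁅h, b⁆ ∈ V := by
              rw [commutatorElement_def]
              exact V.mul_mem (‹V.Normal›.conj_mem b hb h) (V.inv_mem hb)
            have h2 := hcommV a⁻¹ (V.inv_mem ha) ⁅h, b⁆ hc
            calc ⁅h, a * b⁆ = h * a * h⁻¹ * (⁅h, b⁆ * a⁻¹) := by
                  rw [commutatorElement_def, commutatorElement_def]; group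
              _ = h * a * h⁻¹ * (a⁻¹ * ⁅h, b⁆) := by rw [h2]
              _ = ⁅h, a⁆ * ⁅h, b⁆ := by
                  rw [commutatorElement_def h a]; group
          rw [h1]
          exact J.mul_mem ha' hb'
        · rintro a _ ⟨ha, ha'⟩
          refine ⟨V.inv_mem ha, ?_⟩
          have h1 : ⁅h, a⁻¹⁆ = (⁅h, a⁆)⁻¹ := by
            have h2 := hcommV (h * a⁻¹ * h⁻¹) (‹V.Normal›.conj_mem a⁻¹ (V.inv_mem ha) h) a ha
            calc ⁅h, a⁻¹⁆ = h * a⁻¹ * h⁻¹ * a := by rw [commutatorElement_def]; group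
              _ = a * (h * a⁻¹ * h⁻¹) := h2
              _ = (⁅h, a⁆)⁻¹ := by rw [commutatorElement_def]; group
          rw [h1]
          exact J.inv_mem ha'
      exact key.2
    have hWU : ⁅H, U⁆ ≤ U := by
      rw [commutator_le]
      intro h hh u hu
      rw [commutatorElement_def]
      have h1 : h * u * h⁻¹ ∈ U.map (MulAut.conj h).toMonoidHom := ⟨u, hu, by simp⟩
      rw [hUH h hh] at h1
      exact U.mul_mem h1 (U.inv_mem hu)
    have hdec := hcond U hUV hUH
    have hv2 : v ∈ ⁅H, U⁆ ⊔ (U ⊓ normalizer (H : Set G)) := by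
      rw [sup_comm, ← hdec]; exact hvU
    obtain ⟨w, hw, n, hn, rfl⟩ := exists_mul_of_mem_sup _ _ (by
      intro n hn w hw
      have := hcommV n (hUV hn.1) w (hUV (hWU hw))
      rw [this]
      simpa using hw) v hv2
    exact ⟨w, hWJ hw, map_conj_mul_of_mem_normalizer H w n hn.2⟩

end Cfsg.Agent.S4269
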