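import Mathlib
import Cfsg.Statements.S4332
import Cfsg.Agent.H9.Cores
-- import your own Cfsg.Agent.* helpers here

set_option autoImplicit false
open Pointwise
open Cfsg

namespace Cfsg.Agent.S4332

open Equiv Equiv.Perm

/-- the three-cycle on `i j k` -/
def tc (i j k : Fin 8) : Perm (Fin 8) := swap i j * swap i k

theorem tc_three {i j k : Fin 8} (h1 : i ≠ j) (h2 : i ≠ k) (h3 : j ≠ k) : (tc i j k).IsThreeCycle :=
  isThreeCycle_swap_mul_swap_same h1 h2 h3

theorem conj_tc (c : Perm (Fin 8)) (i j k : Fin 8) : c * tc i j k * c⁻¹ = tc (c i) (c j) (c k) := by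
  unfold tc
  rw [swap_apply_apply, swap_apply_apply]
  group

theorem tc_apply_of_ne {i j k x : Fin 8} (h1 : x ≠ i) (h2 : x ≠ j) (h3 : x ≠ k) : tc i j k x = x := by
  unfold tc
  rw [Perm.mul_apply, swap_apply_of_ne_of_ne h1 h3, swap_apply_of_ne_of_ne h1 h2]

theorem tc_rot : ∀ a b c : Fin 8, a ≠ b → a ≠ c → b ≠ c → tc b c a = tc a b c := by
  unfold tc
  decide

/-- independent triple gives commuting conjugate -/
theorem commute_of_indep (c : Perm (Fin 8)) {i j k : Fin 8}
    (h : ∀ x, (x = i ∨ x = j ∨ x = k) → c x ≠ i ∧ c x ≠ j ∧ c x ≠ k) :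
    Commute (c * tc i j k * c⁻¹) (tc i j k) := by
  rw [conj_tc]
  apply Perm.Disjoint.commute
  intro x
  by_cases hx : x = i ∨ x = j ∨ x = k
  · left
    obtain ⟨a1, a2, a3⟩ := h i (Or.inl rfl)
    obtain ⟨b1, b2, b3⟩ := h j (Or.inr (Or.inl rfl))
    obtain ⟨c1, c2, c3⟩ := h k (Or.inr (Or.inr rfl))
    rcases hx with rfl | rfl | rfl
    · exact tc_apply_of_ne a1.symm b1.symm c1.symm
    · exact tc_apply_of_ne a2.symm b2.symm c2.symm
    · exact tc_apply_of_ne a3.symm b3.symm c3.symm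
  · right
    push Not at hx
    exact tc_apply_of_ne hx.1 hx.2.1 hx.2.2

theorem exists_tc (c : Perm (Fin 8)) :
    ∃ τ : Perm (Fin 8), τ.IsThreeCycle ∧ Commute (c * τ * c⁻¹) τ := by
  classical
  -- case B : a 3-cycle in c
  by_cases hB : ∃ p, c p ≠ p ∧ c (c (c p)) = p
  · obtain ⟨p, hp, hp3⟩ := hB
    have h12 : c p ≠ c (c p) := fun h => hp (c.injective h).symm
    have h02 : p ≠ c (c p) := by
      intro h
      apply hp
      have := congrArg c h
      rw [hp3] at this
      exact this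
    refine ⟨tc p (c p) (c (c p)), tc_three hp.symm h02 h12, ?_⟩
    rw [conj_tc, hp3, tc_rot p (c p) (c (c p)) hp.symm h02 h12]
  push Not at hB
  -- case A : three fixed points
  by_cases hA : 6 ≤ c.support.card
  swap
  · have h1 : 3 ≤ (c.supportᶜ).card := by
      rw [Finset.card_compl, Fintype.card_fin]; omega
    obtain ⟨s, hs, hs3⟩ := Finset.exists_subset_card_eq h1
    obtain ⟨i, j, k, hij, hik, hjk, rfl⟩ := Finset.card_eq_three.1 hs3
    have hfix : ∀ x ∈ ({i, j, k} : Finset (Fin 8)), c x = x := by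
      intro x hx
      have := hs hx
      rwa [Finset.mem_compl, Perm.mem_support, not_not] at this
    refine ⟨tc i j k, tc_three hij hik hjk, ?_⟩
    rw [conj_tc, hfix i (by simp), hfix j (by simp), hfix k (by simp)]
  -- case C
  by_cases hC : ∃ p, c (c p) ≠ p
  · obtain ⟨p, hp2⟩ := hC
    have hp : c p ≠ p := fun h => hp2 (by rw [h, h])
    have hp3 := hB p hp
    obtain ⟨r, hrM, hrE⟩ : ∃ r ∈ c.support, r ∉ ({c⁻¹ p, p, c p, c (c p), c (c (c p))} : Finset (Fin 8)) := by
      by_contra hcon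
      push Not at hcon
      have h1 : c.support ⊆ {c⁻¹ p, p, c p, c (c p), c (c (c p))} := hcon
      have h2 := Finset.card_le_card h1
      have h3 : ({c⁻¹ p, p, c p, c (c p), c (c (c p))} : Finset (Fin 8)).card ≤ 5 :=
        Finset.card_le_five
      omega
    simp only [Finset.mem_insert, Finset.mem_singleton, not_or] at hrE
    obtain ⟨e1, e2, e3, e4, e5⟩ := hrE
    rw [Perm.mem_support] at hrM
    refine ⟨tc p (c (c p)) r, tc_three hp2.symm (Ne.symm e2) (Ne.symm e4), ?_⟩
    apply commute_of_indep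
    rintro x (rfl | rfl | rfl)
    · exact ⟨hp, fun h => hp (c.injective h).symm, Ne.symm e3⟩
    · refine ⟨hp3, fun h => hp (c.injective (c.injective h)), Ne.symm e5⟩
    · refine ⟨fun h => e1 ?_, fun h => e3 (c.injective h), hrM⟩
      rw [← h]; simp
  · push Not at hC
    obtain ⟨p, hpM⟩ : ∃ p, p ∈ c.support := by
      apply Finset.card_pos.1; omega
    obtain ⟨q, hqM, hqE⟩ : ∃ q ∈ c.support, q ∉ ({p, c p} : Finset (Fin 8)) := by
      by_contra hcon
      push Not at hcon
      have h1 : c.support ⊆ {p, c p} := hcon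
      have h2 := Finset.card_le_card h1
      have h3 : ({p, c p} : Finset (Fin 8)).card ≤ 2 := Finset.card_le_two
      omega
    obtain ⟨r, hrM, hrE⟩ : ∃ r ∈ c.support, r ∉ ({p, c p, q, c q} : Finset (Fin 8)) := by
      by_contra hcon
      push Not at hcon
      have h1 : c.support ⊆ {p, c p, q, c q} := hcon
      have h2 := Finset.card_le_card h1
      have h3 : ({p, c p, q, c q} : Finset (Fin 8)).card ≤ 4 := Finset.card_le_four
      omega
    simp only [Finset.mem_insert, Finset.mem_singleton, not_or] at hqE hrE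
    rw [Perm.mem_support] at hpM hqM hrM
    obtain ⟨q1, q2⟩ := hqE
    obtain ⟨r1, r2, r3, r4⟩ := hrE
    refine ⟨tc p q r, tc_three (Ne.symm q1) (Ne.symm r1) (Ne.symm r3), ?_⟩
    apply commute_of_indep
    rintro x (rfl | rfl | rfl)
    · exact ⟨hpM, Ne.symm q2, Ne.symm r2⟩
    · refine ⟨fun h => q2 ?_, hqM, Ne.symm r4⟩
      rw [← h, hC]
    · refine ⟨fun h => r2 ?_, fun h => r4 ?_, hrM⟩
      · rw [← h, hC]
      · rw [← h, hC]

/-- In the symmetric group of degree 8, let A be the subgroup generated by a 3-cycle. Then every conjugacy class contains an element g for which A is subnormal in the subgroup generated by A and its conjugate by g, although O_3 of the symmetric group of degree 8 is trivial. -/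
theorem result
    (σ : Equiv.Perm (Fin 8)) (hσ : σ.IsThreeCycle) :
    (∀ c : Equiv.Perm (Fin 8), ∃ g : Equiv.Perm (Fin 8), IsConj c g ∧
      ((Subgroup.zpowers σ).subgroupOf (Subgroup.zpowers σ ⊔ MulAut.conj g • Subgroup.zpowers σ)).IsSubnormal) ∧
    Cfsg.pCore 3 (Equiv.Perm (Fin 8)) = ⊥ := by
  constructor
  · intro c
    obtain ⟨τ, hτ, hcomm⟩ := exists_tc c
    obtain ⟨y, hy⟩ := isConj_iff.1 (Equiv.Perm.isConj_iff_cycleType_eq.2 (hτ.trans hσ.symm))
    refine ⟨y * c * y⁻¹, isConj_iff.2 ⟨y, rfl⟩, ?_⟩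
    obtain ⟨g, hg⟩ : ∃ g, g = y * c * y⁻¹ := ⟨_, rfl⟩
    rw [← hg]
    have hc2 : Commute (g * σ * g⁻¹) σ := by
      have h1 : g * σ * g⁻¹ = y * (c * τ * c⁻¹) * y⁻¹ := by
        rw [hg, ← hy]; group
      rw [h1]
      conv_rhs => rw [← hy]
      show _ * _ = _ * _
      have := hcomm.eq
      calc y * (c * τ * c⁻¹) * y⁻¹ * (y * τ * y⁻¹) = y * ((c * τ * c⁻¹) * τ) * y⁻¹ := by group
        _ = y * (τ * (c * τ * c⁻¹)) * y⁻¹ := by rw [this]
        _ = _ := by group
    have hL : Subgroup.zpowers σ ⊔ MulAut.conj g • Subgroup.zpowers σ ≤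
        Subgroup.centralizer {σ} := by
      rw [sup_le_iff]
      constructor
      · rw [Subgroup.zpowers_le, Subgroup.mem_centralizer_singleton_iff]
      · intro x hx
        obtain ⟨z, hz, rfl⟩ := Subgroup.mem_smul_pointwise_iff_exists _ _ _ |>.1 hx
        obtain ⟨n, rfl⟩ := Subgroup.mem_zpowers_iff.1 hz
        rw [Subgroup.mem_centralizer_singleton_iff]
        have h2 : MulAut.conj g • σ ^ n = (g * σ * g⁻¹) ^ n := by
          rw [MulAut.smul_def, map_zpow]; rfl
        rw [h2]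
        exact (hc2.zpow_left n).eq
    apply Subgroup.Normal.isSubnormal
    constructor
    intro n hn x
    rw [Subgroup.mem_subgroupOf] at hn ⊢
    obtain ⟨j, hj⟩ := Subgroup.mem_zpowers_iff.1 hn
    have hx : Commute (x : Equiv.Perm (Fin 8)) σ :=
      (Subgroup.mem_centralizer_singleton_iff.1 (hL x.2))
    have h3 : ((x * n * x⁻¹ : _) : Equiv.Perm (Fin 8)) = (n : Equiv.Perm (Fin 8)) := by
      show (x : Equiv.Perm (Fin 8)) * n * (x : Equiv.Perm (Fin 8))⁻¹ = n
      rw [← hj, (hx.zpow_right j).eq, mul_inv_cancel_right]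
    rw [h3]
    exact hn
  · haveI : Fact (Nat.Prime 3) := ⟨Nat.prime_three⟩
    obtain ⟨N, hN⟩ : ∃ N, N = Cfsg.pCore 3 (Equiv.Perm (Fin 8)) := ⟨_, rfl⟩
    rw [← hN]
    have hNp : IsPGroup 3 N := by rw [hN]; exact Cfsg.H9.pCore_isPGroup 3
    haveI hNn : N.Normal := by rw [hN]; infer_instance
    have hle : N ≤ alternatingGroup (Fin 8) := by
      intro n hn
      rw [Equiv.Perm.mem_alternatingGroup]
      obtain ⟨k, hk⟩ := hNp ⟨n, hn⟩
      have hk' : n ^ 3 ^ k = 1 := congrArg Subtype.val hk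
      have h1 : (Equiv.Perm.sign n) ^ 3 ^ k = 1 := by rw [← map_pow, hk', map_one]
      rcases Int.units_eq_one_or (Equiv.Perm.sign n) with h | h
      · exact h
      · rw [h, Odd.neg_one_pow (Odd.pow (by decide))] at h1
        exact absurd h1 (by decide)
    haveI := alternatingGroup.isSimpleGroup (α := Fin 8) (by simp)
    have hn2 : (N.subgroupOf (alternatingGroup (Fin 8))).Normal := inferInstance
    rcases hn2.eq_bot_or_eq_top with h | h
    · rw [Subgroup.subgroupOf_eq_bot] at h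
      rw [eq_bot_iff]
      exact fun x hx => h.le_bot ⟨hx, hle hx⟩
    · rw [Subgroup.subgroupOf_eq_top] at h
      exfalso
      have h1 : (swap 0 1 * swap 2 3 : Equiv.Perm (Fin 8)) ∈ N := h (by
        rw [Equiv.Perm.mem_alternatingGroup]; decide)
      obtain ⟨k, hk⟩ := hNp ⟨_, h1⟩
      have hk' : (swap 0 1 * swap 2 3 : Equiv.Perm (Fin 8)) ^ 3 ^ k = 1 := congrArg Subtype.val hk
      have h2 : orderOf (swap 0 1 * swap 2 3 : Equiv.Perm (Fin 8)) = 2 :=
        orderOf_eq_prime (by decide) (by decide)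
      have h3 := orderOf_dvd_of_pow_eq_one hk'
      rw [h2] at h3
      have h4 := Nat.prime_two.dvd_of_dvd_pow h3
      norm_num at h4

end Cfsg.Agent.S4332
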