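import Cfsg.Statements.S4337
import Mathlib
-- import your own Cfsg.Agent.* helpers here
import Cfsg.Agent.H5.SwapOrbit

set_option autoImplicit false
open Cfsg

namespace Cfsg.Agent.S4337



/-- In a finite symmetric group, any three transpositions generate a solvable subgroup. -/
theorem result (n : ℕ) (a b c : Equiv.Perm (Fin n))
    (ha : a.IsSwap) (hb : b.IsSwap) (hc : c.IsSwap) :
    Group.IsSolvable (Subgroup.closure ({a, b, c} : Set (Equiv.Perm (Fin n)))) := by
  have hr : ({a, b, c} : Set (Equiv.Perm (Fin n))) = Set.range ![a, b, c] := by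
    ext g
    simp only [Set.mem_insert_iff, Set.mem_singleton_iff, Set.mem_range]
    constructor
    · rintro (rfl | rfl | rfl)
      · exact ⟨0, rfl⟩
      · exact ⟨1, rfl⟩
      · exact ⟨2, rfl⟩
    · rintro ⟨i, rfl⟩
      fin_cases i <;> simp
  rw [hr]
  apply Cfsg.Agent.H5SwapOrbit.solvable_of_orbits
  intro x
  apply Cfsg.Agent.H5SwapOrbit.orbit_card_le 3
  intro i
  fin_cases i
  · exact ha
  · exact hb
  · exact hc

end Cfsg.Agent.S4337
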