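import Cfsg.Statements.S4343

set_option autoImplicit false
open Cfsg

namespace Cfsg.Agent.S4343

section
variable {S : Type*} [Group S] [Finite S] {p : ℕ} [Fact p.Prime]

theorem mem_smul_iff (g x : S) (P : Sylow p S) :
    x ∈ ((g • P : Sylow p S) : Subgroup S) ↔ g⁻¹ * x * g ∈ (P : Subgroup S) := by
  rw [Sylow.coe_subgroup_smul, Subgroup.mem_pointwise_smul_iff_inv_smul_mem]
  simp [MulAut.smul_def, mul_assoc]

theorem ncard_orbit_eq (P Q : Sylow p S) :
    (MulAction.orbit (P : Subgroup S) Q).ncard = (Q : Subgroup S).relIndex P := by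
  rw [← MulAction.index_stabilizer]
  have h1 : MulAction.stabilizer (P : Subgroup S) Q =
      (Subgroup.normalizer ((Q : Subgroup S) : Set S)).subgroupOf P := by
    ext g
    rw [MulAction.mem_stabilizer_iff, Subgroup.mem_subgroupOf, Subgroup.smul_def]
    exact Sylow.smul_eq_iff_mem_normalizer
  rw [h1]
  change (Subgroup.normalizer ((Q : Subgroup S) : Set S)).relIndex P = _
  have h2 : (P : Subgroup S) ⊓ Subgroup.normalizer ((Q : Subgroup S) : Set S) = (P : Subgroup S) ⊓ Q :=
    P.2.inf_normalizer_sylow Q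
  rw [← Subgroup.inf_relIndex_right, ← Subgroup.inf_relIndex_right (Q : Subgroup S), inf_comm,
    h2, inf_comm]

theorem relIndex_eq (hn : Nat.card (Sylow p S) < p ^ 2) (P Q : Sylow p S) (hPQ : P ≠ Q) :
    (Q : Subgroup S).relIndex P = p := by
  have hp : p.Prime := Fact.out
  obtain ⟨k, hk⟩ := IsPGroup.iff_card.1 P.2
  have h1 : (Q : Subgroup S).relIndex P ∣ p ^ k := by
    rw [← hk]; exact Subgroup.relIndex_dvd_card _ _
  obtain ⟨j, -, hj⟩ := (Nat.dvd_prime_pow hp).1 h1
  have h2 : (Q : Subgroup S).relIndex P < p ^ 2 := by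
    rw [← ncard_orbit_eq]
    refine lt_of_le_of_lt ?_ hn
    rw [← Set.ncard_univ]
    exact Set.ncard_le_ncard (Set.subset_univ _) (Set.toFinite _)
  have h3 : (Q : Subgroup S).relIndex P ≠ 1 := by
    intro h
    rw [Subgroup.relIndex_eq_one] at h
    exact hPQ (Sylow.ext (P.3 Q.2 h)).symm
  rw [hj] at h2 h3 ⊢
  have hj2 : j < 2 := (Nat.pow_lt_pow_iff_right hp.one_lt).1 h2
  have hj0 : j ≠ 0 := by rintro rfl; simp at h3
  have : j = 1 := by omega
  rw [this, pow_one]

theorem card_inf_mul (hn : Nat.card (Sylow p S) < p ^ 2) (P Q : Sylow p S) (hPQ : P ≠ Q) :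
    Nat.card ((P : Subgroup S) ⊓ Q : Subgroup S) * p = Nat.card P := by
  have h1 := relIndex_eq hn P Q hPQ
  have h2 := Subgroup.relIndex_mul_relIndex ⊥ ((P : Subgroup S) ⊓ Q) P bot_le inf_le_left
  rw [Subgroup.relIndex_bot_left, Subgroup.relIndex_bot_left, inf_comm, Subgroup.inf_relIndex_right, h1,
    inf_comm] at h2
  exact h2

theorem conj_mem_inf (hn : Nat.card (Sylow p S) < p ^ 2) (P Q : Sylow p S) (hPQ : P ≠ Q)
    (g : S) (hg : g ∈ (P : Subgroup S)) (d : S) (hd : d ∈ (P : Subgroup S) ⊓ Q) :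
    g * d * g⁻¹ ∈ (P : Subgroup S) ⊓ Q := by
  have hp : p.Prime := Fact.out
  have hidx : (((P : Subgroup S) ⊓ Q).subgroupOf P).index = p := by
    change ((P : Subgroup S) ⊓ Q).relIndex P = p
    rw [inf_comm, Subgroup.inf_relIndex_right]
    exact relIndex_eq hn P Q hPQ
  have hcard : (Nat.card (P : Subgroup S)).minFac = p := by
    obtain ⟨k, hk⟩ := IsPGroup.iff_card.1 P.2
    have hk0 : k ≠ 0 := by
      rintro rfl
      have h1 := card_inf_mul hn P Q hPQ
      have h2 : Nat.card P = 1 := by simpa using hk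
      rw [h2] at h1
      have := Nat.dvd_one.1 (Dvd.intro_left _ h1)
      exact hp.one_lt.ne' this
    have : Nat.card (P : Subgroup S) = p ^ k := hk
    rw [this, hp.pow_minFac hk0]
  have hnorm : (((P : Subgroup S) ⊓ Q).subgroupOf P).Normal :=
    Subgroup.normal_of_index_eq_minFac_card (by rw [hidx, hcard])
  have := hnorm.conj_mem ⟨d, hd.1⟩ (by rw [Subgroup.mem_subgroupOf]; exact hd) ⟨g, hg⟩
  rw [Subgroup.mem_subgroupOf] at this
  exact this

theorem card_sylow_eq (P Q : Sylow p S) : Nat.card P = Nat.card Q := by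
  rw [Sylow.card_eq_multiplicity, Sylow.card_eq_multiplicity]

/-- Key step: the intersection of two distinct Sylow subgroups lies in every Sylow subgroup. -/
theorem inf_le_all (hn : Nat.card (Sylow p S) < p ^ 2) (P Q : Sylow p S) (hPQ : P ≠ Q)
    (R : Sylow p S) : (P : Subgroup S) ⊓ Q ≤ R := by
  classical
  have hp : p.Prime := Fact.out
  by_contra hR
  set D := (P : Subgroup S) ⊓ Q with hD
  have := Fintype.ofFinite (Sylow p S)
  -- members of the P-orbit of Q contain D
  have hA : ∀ X ∈ MulAction.orbit (P : Subgroup S) Q, D ≤ (X : Subgroup S) := by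
    rintro _ ⟨g, rfl⟩ d hd
    change d ∈ (((g : S) • Q : Sylow p S) : Subgroup S)
    rw [mem_smul_iff]
    have h1 := conj_mem_inf hn P Q hPQ (g : S)⁻¹ (Subgroup.inv_mem _ g.2) d hd
    rw [inv_inv] at h1
    exact h1.2
  have hDcard : ∀ X Y : Sylow p S, X ≠ Y → D ≤ X → D ≤ Y → (X : Subgroup S) ⊓ Y = D := by
    intro X Y hXY hX hY
    symm
    apply Subgroup.eq_of_le_of_card_ge (le_inf hX hY)
    have h1 := card_inf_mul hn X Y hXY
    have h2 := card_inf_mul hn P Q hPQ
    rw [card_sylow_eq X P, ← h2] at h1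
    exact (Nat.eq_of_mul_eq_mul_right hp.pos h1).le
  let A : Finset (Sylow p S) := (MulAction.orbit (P : Subgroup S) Q).toFinset
  let O : Sylow p S → Finset (Sylow p S) := fun X => (MulAction.orbit (R : Subgroup S) X).toFinset
  have hAcard : A.card = p := by
    exact (Set.ncard_eq_toFinset_card' _).symm.trans ((ncard_orbit_eq P Q).trans (relIndex_eq hn P Q hPQ))
  have hRX : ∀ X ∈ A, R ≠ X := by
    intro X hX h
    apply hR
    rw [h]
    exact hA X (Set.mem_toFinset.1 hX)
  have hOcard : ∀ X ∈ A, (O X).card = p := by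
    intro X hX
    exact (Set.ncard_eq_toFinset_card' _).symm.trans
      ((ncard_orbit_eq R X).trans (relIndex_eq hn R X (hRX X hX)))
  have hdisj : (A : Set (Sylow p S)).PairwiseDisjoint O := by
    intro X hX Y hY hXY
    rw [Function.onFun, Finset.disjoint_left]
    intro Z hZX hZY
    rw [Set.mem_toFinset] at hZX hZY
    obtain ⟨r, rfl⟩ := hZX
    obtain ⟨r', hr'⟩ := hZY
    -- Y = (r'⁻¹ r) • X
    have hY' : Y = (r'⁻¹ * r) • X := by
      rw [mul_smul]
      change Y = r'⁻¹ • (r • X)
      have hr'' : r' • Y = r • X := hr'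
      rw [← hr'', inv_smul_smul]
    set u := r'⁻¹ * r with hu
    apply hR
    have hXA := hA X (Set.mem_toFinset.1 hX)
    have hYA := hA Y (Set.mem_toFinset.1 hY)
    have hE : (R : Subgroup S) ⊓ X ≤ (X : Subgroup S) ⊓ Y := by
      intro e he
      refine ⟨he.2, ?_⟩
      rw [hY']
      change e ∈ (((u : S) • X : Sylow p S) : Subgroup S)
      rw [mem_smul_iff]
      have h1 := conj_mem_inf hn R X (hRX X hX) (u : S)⁻¹ (Subgroup.inv_mem _ u.2) e he
      rw [inv_inv] at h1
      exact h1.2
    rw [hDcard X Y hXY hXA hYA] at hE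
    have hEeq : (R : Subgroup S) ⊓ X = D := by
      apply Subgroup.eq_of_le_of_card_ge hE
      have h1 := card_inf_mul hn R X (hRX X hX)
      have h2 := card_inf_mul hn P Q hPQ
      rw [card_sylow_eq R P, ← h2] at h1
      exact (Nat.eq_of_mul_eq_mul_right hp.pos h1).ge
    rw [← hEeq]
    exact inf_le_left
  have h1 : (A.biUnion O).card = p * p := by
    rw [Finset.card_biUnion hdisj, Finset.sum_congr rfl hOcard, Finset.sum_const, hAcard, smul_eq_mul]
  have h2 : (A.biUnion O).card ≤ Fintype.card (Sylow p S) := Finset.card_le_univ _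
  rw [Nat.card_eq_fintype_card] at hn
  rw [h1] at h2
  nlinarith

end

/-- Let S be a finite non-abelian simple group and p a prime dividing its order. If S has fewer than p² Sylow p-subgroups, then its Sylow p-subgroups have order p. -/
theorem result {S : Type*} [Group S] [Finite S]
    [IsSimpleGroup S] (hS : ¬ IsMulCommutative S) (p : ℕ) [Fact p.Prime] (hp : p ∣ Nat.card S)
    (hn : Nat.card (Sylow p S) < p ^ 2) (P : Sylow p S) : Nat.card P = p := by
  have hPtop : (P : Subgroup S) ≠ ⊤ := by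
    intro htop
    apply hS
    have hPG : IsPGroup p S := by
      have := P.2
      rw [htop] at this
      exact this.of_equiv Subgroup.topEquiv
    have hc : Subgroup.center S ≠ ⊥ := (hPG.bot_lt_center).ne'
    have hc' : Subgroup.center S = ⊤ :=
      ((inferInstance : (Subgroup.center S).Normal).eq_bot_or_eq_top).resolve_left hc
    refine ⟨⟨fun a b => ?_⟩⟩
    have : b ∈ Subgroup.center S := hc' ▸ Subgroup.mem_top b
    exact (Subgroup.mem_center_iff.1 this a)
  have hPbot : (P : Subgroup S) ≠ ⊥ := P.ne_bot_of_dvd_card hp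
  obtain ⟨Q, hPQ⟩ : ∃ Q : Sylow p S, P ≠ Q := by
    by_contra hcon
    push Not at hcon
    have : Subsingleton (Sylow p S) := ⟨fun a b => (hcon a).symm.trans (hcon b)⟩
    have hPn : (P : Subgroup S).Normal := Sylow.normal_of_subsingleton P
    rcases hPn.eq_bot_or_eq_top with h | h
    · exact hPbot h
    · exact hPtop h
  have hall := inf_le_all hn P Q hPQ
  have hcore : (P : Subgroup S) ⊓ Q ≤ (P : Subgroup S).normalCore := by
    intro d hd b
    have := hall (b⁻¹ • P) hd
    rw [mem_smul_iff, inv_inv] at this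
    exact this
  have hcb : (P : Subgroup S).normalCore = ⊥ := by
    rcases (inferInstance : (P : Subgroup S).normalCore.Normal).eq_bot_or_eq_top with h | h
    · exact h
    · exfalso
      apply hPtop
      rw [eq_top_iff, ← h]
      exact Subgroup.normalCore_le _
  rw [hcb, le_bot_iff] at hcore
  have := card_inf_mul hn P Q hPQ
  rw [hcore] at this
  simpa using this.symm

end Cfsg.Agent.S4343
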