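import Cfsg.Statements.S4344

set_option autoImplicit false
open Cfsg

namespace Cfsg.Agent.S4344



/-- Let S be a finite non-abelian simple group, M a maximal subgroup of S and C a cyclic normal subgroup of M. If a Sylow p-subgroup P of S (for a prime p dividing the order of S) is contained in C, then the number of Sylow p-subgroups of S equals the index of M. -/
theorem result {S : Type*} [Group S] [Finite S]
    [IsSimpleGroup S] (hS : ¬ IsMulCommutative S) (p : ℕ) [Fact p.Prime] (hp : p ∣ Nat.card S)
    (M : Subgroup S) (hM : IsCoatom M) (C : Subgroup S) (hCM : C ≤ M) (hCn : (C.subgroupOf M).Normal)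
    (hC : IsCyclic C) (P : Sylow p S) (hP : (P : Subgroup S) ≤ C) :
    Nat.card (Sylow p S) = M.index := by
  have hCcomm : ∀ a ∈ C, ∀ b ∈ C, a * b = b * a := by
    intro a ha b hb
    have := (isMulCommutative_iff.1 (IsCyclic.isMulCommutative (α := C))) ⟨a, ha⟩ ⟨b, hb⟩
    exact congrArg Subtype.val this
  have hMC : M ≤ Subgroup.normalizer (C : Set S) := (Subgroup.normal_subgroupOf_iff_le_normalizer hCM).1 hCn
  have hMP : M ≤ Subgroup.normalizer ((P : Subgroup S) : Set S) := by
    rw [Subgroup.le_normalizer_iff]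
    intro m hm x hx
    set P' : Subgroup S := (P : Subgroup S).map (MulAut.conj m).toMonoidHom with hP'
    have hP'C : P' ≤ C := by
      rintro _ ⟨y, hy, rfl⟩
      exact (Subgroup.le_normalizer_iff.1 hMC) m hm y (hP hy)
    have hP'p : IsPGroup p P' := P.2.map _
    have hnorm : P' ≤ Subgroup.normalizer ((P : Subgroup S) : Set S) := by
      rw [Subgroup.le_normalizer_iff]
      intro h hh k hk
      rw [hCcomm h (hP'C hh) k (hP hk), mul_inv_cancel_right]
      exact hk
    have hsup : IsPGroup p (P' ⊔ (P : Subgroup S) : Subgroup S) := hP'p.to_sup_of_normal_right' P.2 hnorm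
    have heq := P.3 hsup le_sup_right
    have : m * x * m⁻¹ ∈ P' := ⟨x, hx, rfl⟩
    rw [← heq]
    exact (le_sup_left : P' ≤ _) this
  rw [Sylow.card_eq_index_normalizer P]
  rcases eq_or_lt_of_le hMP with h | h
  · rw [h]; rfl
  · exfalso
    have htop := hM.2 _ h
    have hPn : (P : Subgroup S).Normal := Subgroup.normalizer_eq_top_iff.1 htop
    rcases hPn.eq_bot_or_eq_top with hb | ht
    · exact P.ne_bot_of_dvd_card hp hb
    · apply hS
      have hCtop : C = ⊤ := top_le_iff.1 (ht ▸ hP)
      refine ⟨⟨fun a b => hCcomm a (hCtop ▸ Subgroup.mem_top a) b (hCtop ▸ Subgroup.mem_top b)⟩⟩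

end Cfsg.Agent.S4344
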