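import Cfsg.Statements.S4345
import Cfsg.Agent.Lib.Helper23.SylowNumber
import Cfsg.Agent.H1.HallPrep

set_option autoImplicit false
open Cfsg

namespace Cfsg.Agent.S4345

open Cfsg.Agent.Lib.Helper23 in
theorem aux (n : ℕ) : ∀ (G : Type*) [Group G] [Finite G], Nat.card G = n →
    Group.IsSolvable G → ∀ (p ℓ : ℕ) [Fact p.Prime], ℓ.Prime →
    ℓ ^ (Nat.card (Sylow p G)).factorization ℓ ≡ 1 [MOD p] := by
  induction n using Nat.strong_induction_on with
  | _ n ih =>
    intro G _ _ hn hG p ℓ _ hℓ
    rcases subsingleton_or_nontrivial G with hs | hnt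
    · have : Nat.card (Sylow p G) = 1 := by
        have : Subsingleton (Sylow p G) := ⟨fun P Q => Sylow.ext (Subsingleton.elim _ _)⟩
        exact Nat.card_unique
      rw [this]; simp [Nat.ModEq]
    · obtain ⟨q, K, hq, hKn, hKb, hKq⟩ := Cfsg.H1.exists_normal_pgroup (G := G)
      obtain ⟨P⟩ : Nonempty (Sylow p G) := inferInstance
      have h1 := card_sylow_eq_card_quotient_mul_relIndex P K
      have hlt : Nat.card (G ⧸ K) < n := by
        rw [← hn, Subgroup.card_eq_card_quotient_mul_card_subgroup K]
        have h2 : 1 < Nat.card K := by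
          rw [Finite.one_lt_card_iff_nontrivial]
          exact (Subgroup.nontrivial_iff_ne_bot K).2 hKb
        have h3 : 0 < Nat.card (G ⧸ K) := Nat.card_pos
        nlinarith
      have h4 := ih _ hlt (G ⧸ K) rfl inferInstance p ℓ hℓ
      have h5 : Nat.card (Sylow p (G ⧸ K)) ≠ 0 := Nat.card_pos.ne'
      have h6 : (Subgroup.normalizer ((P : Subgroup G) : Set G)).relIndex K ≠ 0 :=
        Subgroup.index_ne_zero_of_finite
      rw [h1, Nat.factorization_mul h5 h6, Finsupp.add_apply, pow_add]
      have h7 : ℓ ^ ((Subgroup.normalizer ((P : Subgroup G) : Set G)).relIndex K).factorization ℓ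
          ≡ 1 [MOD p] := by
        have h8 : (Subgroup.normalizer ((P : Subgroup G) : Set G)).relIndex K ≡ 1 [MOD p] := by
          rw [← card_sylow_sup_eq_relIndex]
          exact card_sylow_modEq_one p _
        have : Fact q.Prime := ⟨hq⟩
        obtain ⟨k, hk⟩ := IsPGroup.iff_card.1 hKq
        have h9 : (Subgroup.normalizer ((P : Subgroup G) : Set G)).relIndex K ∣ q ^ k := by
          rw [← hk]; exact Subgroup.relIndex_dvd_card _ _
        obtain ⟨j, -, hj⟩ := (Nat.dvd_prime_pow hq).1 h9
        rw [hj] at h8 ⊢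
        rw [Nat.Prime.factorization_pow hq]
        by_cases hql : ℓ = q
        · subst hql
          simpa using h8
        · simp [Finsupp.single_apply, Ne.symm hql, Nat.ModEq]
      simpa using h4.mul h7

/-- Let G be a finite solvable group and p, ℓ primes. Then the largest power of ℓ dividing the number of Sylow p-subgroups of G is congruent to 1 modulo p. -/
theorem result {G : Type*} [Group G] [Finite G]
    (hG : Group.IsSolvable G) (p ℓ : ℕ) [Fact p.Prime] (hℓ : ℓ.Prime) :
    ℓ ^ (Nat.card (Sylow p G)).factorization ℓ ≡ 1 [MOD p] := by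
  exact aux _ G rfl hG p ℓ hℓ

end Cfsg.Agent.S4345
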