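import Cfsg.Statements.S4354
import Cfsg.Agent.Fus.CentralConj2

set_option autoImplicit false
open Cfsg

namespace Cfsg.Agent.S4354

/-- Let G be a finite group and p a prime such that the Sylow p-subgroups of G are non-abelian while every element of p-power order has conjugacy class size prime to p, and suppose no nontrivial proper normal subgroup N of G has this property and no quotient G/N by such an N has it. Then G is simple. -/
theorem result {G : Type*} [Group G] [Finite G]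
    (p : ℕ) [Fact p.Prime] (h : ((∃ P : Sylow p G, ¬ IsMulCommutative P) ∧ ∀ x : G, (∃ k : ℕ, orderOf x = p ^ k) → ¬ p ∣ (Subgroup.centralizer ({x} : Set G)).index))
    (hmin : ∀ (N : Subgroup G) [N.Normal], N ≠ ⊥ → N ≠ ⊤ →
      ¬ ((∃ P : Sylow p N, ¬ IsMulCommutative P) ∧ ∀ x : N, (∃ k : ℕ, orderOf x = p ^ k) → ¬ p ∣ (Subgroup.centralizer ({x} : Set N)).index) ∧
      ¬ ((∃ P : Sylow p (G ⧸ N), ¬ IsMulCommutative P) ∧ ∀ x : (G ⧸ N), (∃ k : ℕ, orderOf x = p ^ k) → ¬ p ∣ (Subgroup.centralizer ({x} : Set (G ⧸ N))).index)) :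
    IsSimpleGroup G := by
  obtain ⟨⟨P, hP⟩, hc⟩ := h
  have hc' : ∀ x : G, (∃ k : ℕ, orderOf x = p ^ k) →
      ∃ Q : Sylow p G, (Q : Subgroup G) ≤ Subgroup.centralizer ({x} : Set G) :=
    fun x hx => Cfsg.Agent.Fus.exists_sylow_le_of_not_dvd_index _ (hc x hx)
  have hnt : Nontrivial G := by
    by_contra hn
    rw [not_nontrivial_iff_subsingleton] at hn
    exact hP ⟨⟨fun x y => Subsingleton.elim _ _⟩⟩
  refine { exists_pair_ne := hnt.exists_pair_ne, eq_bot_or_eq_top_of_normal := ?_ }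
  intro N hN
  by_contra hcon
  push Not at hcon
  obtain ⟨h1, h2⟩ := hmin N hcon.1 hcon.2
  have h1' : ∀ R : Sylow p N, IsMulCommutative R := by
    intro R
    by_contra hR
    exact h1 ⟨⟨R, hR⟩, Cfsg.Agent.Fus.central_cond_normal hc N⟩
  have h2' : ∀ R : Sylow p (G ⧸ N), IsMulCommutative R := by
    intro R
    by_contra hR
    exact h2 ⟨⟨R, hR⟩, Cfsg.Agent.Fus.central_cond_quotient hc N⟩
  apply hP
  refine ⟨⟨fun x y => Subtype.ext ?_⟩⟩
  refine Cfsg.Agent.Fus.sylow_comm_of_normal P hc' N ?_ ?_ x x.2 y y.2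
  · obtain ⟨R, hR⟩ := (Cfsg.Agent.Fus.isSylowIn_top P).inf_normal le_top le_top
      (fun k hk a _ => hN.conj_mem k hk a)
    intro a ha b hb
    have hR' := h1' R
    have ha' : (⟨a, ha.2⟩ : N) ∈ (R : Subgroup N) := by rw [hR]; exact Subgroup.mem_subgroupOf.2 ha
    have hb' : (⟨b, hb.2⟩ : N) ∈ (R : Subgroup N) := by rw [hR]; exact Subgroup.mem_subgroupOf.2 hb
    have h3 : (⟨⟨a, ha.2⟩, ha'⟩ : R) * ⟨⟨b, hb.2⟩, hb'⟩ = ⟨⟨b, hb.2⟩, hb'⟩ * ⟨⟨a, ha.2⟩, ha'⟩ :=
      mul_comm' _ _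
    exact congrArg (fun w : R => ((w : N) : G)) h3
  · intro a ha b hb
    have hR' := h2' (P.mapSurjective (QuotientGroup.mk'_surjective N))
    have ha' : QuotientGroup.mk' N a ∈ P.mapSurjective (QuotientGroup.mk'_surjective N) := ⟨a, ha, rfl⟩
    have hb' : QuotientGroup.mk' N b ∈ P.mapSurjective (QuotientGroup.mk'_surjective N) := ⟨b, hb, rfl⟩
    have h3 : (⟨_, ha'⟩ : P.mapSurjective (QuotientGroup.mk'_surjective N)) * ⟨_, hb'⟩
        = ⟨_, hb'⟩ * ⟨_, ha'⟩ := mul_comm' _ _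
    have h4 : QuotientGroup.mk' N a * QuotientGroup.mk' N b
        = QuotientGroup.mk' N b * QuotientGroup.mk' N a :=
      congrArg (fun w : P.mapSurjective (QuotientGroup.mk'_surjective N) => (w : G ⧸ N)) h3
    rw [← QuotientGroup.eq_one_iff]
    show QuotientGroup.mk' N (a * b * a⁻¹ * b⁻¹) = 1
    rw [map_mul, map_mul, map_mul, h4, map_inv, map_inv]
    group

end Cfsg.Agent.S4354
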