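import Cfsg.Statements.S4355
import Cfsg.Agent.Fus.CaminaHerzog

set_option autoImplicit false
open Cfsg

namespace Cfsg.Agent.S4355

/-- If every element of 2-power order of a finite group has a conjugacy class of odd size, then the Sylow 2-subgroups of the group are abelian. -/
theorem result {G : Type*} [Group G] [Finite G]
    (h : ∀ x : G, (∃ k : ℕ, orderOf x = 2 ^ k) → ¬ 2 ∣ (Subgroup.centralizer ({x} : Set G)).index) (P : Sylow 2 G) :
    IsMulCommutative P := by
  haveI : Fact (Nat.Prime 2) := ⟨Nat.prime_two⟩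
  refine ⟨⟨fun x y => Subtype.ext ?_⟩⟩
  exact Cfsg.Agent.Fus.sylow_two_comm P
    (fun x hx => Cfsg.Agent.Fus.exists_sylow_le_of_not_dvd_index _ (h x hx)) x x.2 y y.2

end Cfsg.Agent.S4355
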