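import Cfsg.Statements.S4377

set_option autoImplicit false
open Cfsg

namespace Cfsg.Agent.S4377

theorem key {G : Type*} [Group G] [Finite G] {n : ℕ} (hn : n ≠ 0) :
    ∑ m ∈ n.divisors, Nat.card {g : G // orderOf g = m} = Nat.card {g : G // g ^ n = 1} := by
  classical
  have := Fintype.ofFinite G
  have h := sum_card_orderOf_eq_card_pow_eq_one (G := G) hn
  simp only [Nat.card_eq_fintype_card, Fintype.card_subtype]
  exact h

/-- Two finite groups have the same number of elements of each order if and only if, for every n, they have the same number of elements g with gⁿ = 1. -/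
theorem result {G H : Type*} [Group G] [Finite G] [Group H] [Finite H] :
    (∀ n : ℕ, Nat.card {g : G // orderOf g = n} = Nat.card {h : H // orderOf h = n}) ↔
      ∀ n : ℕ, Nat.card {g : G // g ^ n = 1} = Nat.card {h : H // h ^ n = 1} := by
  constructor
  · intro h
    have hpos : ∀ n : ℕ, n ≠ 0 → Nat.card {g : G // g ^ n = 1} = Nat.card {h : H // h ^ n = 1} := by
      intro n hn
      rw [← key hn, ← key hn]
      exact Finset.sum_congr rfl (fun m _ => h m)
    intro n
    rcases eq_or_ne n 0 with rfl | hn
    · have hN : Nat.card G * Nat.card H ≠ 0 := by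
        have h1 : Nat.card G ≠ 0 := Nat.card_pos.ne'
        have h2 : Nat.card H ≠ 0 := Nat.card_pos.ne'
        exact mul_ne_zero h1 h2
      have := hpos _ hN
      have e1 : ∀ g : G, g ^ (Nat.card G * Nat.card H) = 1 := by
        intro g; rw [pow_mul, pow_card_eq_one']; simp
      have e2 : ∀ g : H, g ^ (Nat.card G * Nat.card H) = 1 := by
        intro g; rw [mul_comm, pow_mul, pow_card_eq_one']; simp
      simp only [e1, e2] at this
      simpa using this
    · exact hpos n hn
  · intro h n
    induction n using Nat.strong_induction_on with
    | _ n ih =>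
      rcases eq_or_ne n 0 with rfl | hn
      · have e1 : ∀ g : G, orderOf g ≠ 0 := fun g => (orderOf_pos g).ne'
        have e2 : ∀ g : H, orderOf g ≠ 0 := fun g => (orderOf_pos g).ne'
        simp [e1, e2]
      · have h1 := key (G := G) hn
        have h2 := key (G := H) hn
        rw [← Nat.cons_self_properDivisors hn, Finset.sum_cons] at h1 h2
        have h3 : ∑ m ∈ n.properDivisors, Nat.card {g : G // orderOf g = m} =
            ∑ m ∈ n.properDivisors, Nat.card {g : H // orderOf g = m} :=
          Finset.sum_congr rfl (fun m hm => ih m (Nat.mem_properDivisors.1 hm).2)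
        have := h n
        omega

end Cfsg.Agent.S4377
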