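import Cfsg.Statements.S4381
import Cfsg.Agent.Lib.Helper16.ExtCop
import Cfsg.Agent.Lib.Helper16.Frat
import Cfsg.Agent.H1.Coprime

set_option autoImplicit false
open Pointwise
open Cfsg

namespace Cfsg.Agent.S4381

open Cfsg.Agent.Lib.Helper16
open scoped commutatorElement


/-- Let the finite group A act by automorphisms on the finite group G with the orders of A and G coprime, and assume that A or G is solvable. Call a proper A-invariant subgroup of G maximal A-invariant when no A-invariant subgroup lies strictly between it and G. Then all maximal A-invariant subgroups of G are conjugate under elements of the fixed-point subgroup C_G(A) if and only if G is a p-group for some prime p and A leaves invariant no subgroup strictly between the Frattini subgroup of G and G. In that case, if G is nontrivial, the Frattini subgroup is the only maximal A-invariant subgroup (a trivial G has none). -/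
theorem result {A G : Type*} [Group A] [Finite A]
    [Group G] [Finite G] [MulDistribMulAction A G] (hcop : (Nat.card A).Coprime (Nat.card G)) (hsol : Group.IsSolvable A ∨ Group.IsSolvable G) :
    ((∀ M N : Subgroup G, (M ≠ ⊤ ∧ (∀ a : A, ∀ x ∈ M, a • x ∈ M) ∧ ∀ L : Subgroup G, M < L → (∀ a : A, ∀ x ∈ L, a • x ∈ L) → L = ⊤) → (N ≠ ⊤ ∧ (∀ a : A, ∀ x ∈ N, a • x ∈ N) ∧ ∀ L : Subgroup G, N < L → (∀ a : A, ∀ x ∈ L, a • x ∈ L) → L = ⊤) →
        ∃ c : G, (∀ a : A, a • c = c) ∧ N = MulAut.conj c • M) ↔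
      ((∃ p : ℕ, p.Prime ∧ IsPGroup p G) ∧ ∀ L : Subgroup G, frattini G < L → (∀ a : A, ∀ x ∈ L, a • x ∈ L) → L = ⊤)) ∧
    (((∃ p : ℕ, p.Prime ∧ IsPGroup p G) ∧ ∀ L : Subgroup G, frattini G < L → (∀ a : A, ∀ x ∈ L, a • x ∈ L) → L = ⊤) →
      ∀ M : Subgroup G, (M ≠ ⊤ ∧ (∀ a : A, ∀ x ∈ M, a • x ∈ M) ∧ ∀ L : Subgroup G, M < L → (∀ a : A, ∀ x ∈ L, a • x ∈ L) → L = ⊤) ↔ (M = frattini G ∧ M ≠ ⊤)) := by
  classical
  -- invariance of the Frattini subgroup
  have hΦ : ∀ a : A, ∀ x ∈ frattini G, a • x ∈ frattini G := by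
    intro a x hx
    have h := (Subgroup.characteristic_iff_map_le.1
      (inferInstance : (frattini G).Characteristic)) (MulDistribMulAction.toMulAut A G a)
    exact h ⟨x, hx, rfl⟩
  have hsup : ∀ H K : Subgroup G, (∀ a : A, ∀ x ∈ H, a • x ∈ H) → (∀ a : A, ∀ x ∈ K, a • x ∈ K) →
      ∀ a : A, ∀ x ∈ H ⊔ K, a • x ∈ H ⊔ K := by
    intro H K hH hK a x hx
    have h1 : (H ⊔ K).map (MulDistribMulAction.toMonoidHom G a) ≤ H ⊔ K := by
      rw [Subgroup.map_sup]
      refine sup_le_sup ?_ ?_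
      · rintro _ ⟨y, hy, rfl⟩; exact hH a y hy
      · rintro _ ⟨y, hy, rfl⟩; exact hK a y hy
    exact h1 ⟨x, hx, rfl⟩
  -- maximal invariant subgroups contain the Frattini subgroup
  have hB : ∀ M : Subgroup G, (M ≠ ⊤ ∧ (∀ a : A, ∀ x ∈ M, a • x ∈ M) ∧ ∀ L : Subgroup G, M < L →
      (∀ a : A, ∀ x ∈ L, a • x ∈ L) → L = ⊤) → frattini G ≤ M := by
    rintro M ⟨hM1, hM2, hM3⟩
    by_contra hle
    have hlt : M < M ⊔ frattini G := by
      refine lt_of_le_of_ne le_sup_left (fun h => hle ?_)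
      rw [h]; exact le_sup_right
    exact hM1 (frattini_nongenerating (hM3 _ hlt (hsup _ _ hM2 hΦ)))
  have hC : (∀ L : Subgroup G, frattini G < L → (∀ a : A, ∀ x ∈ L, a • x ∈ L) → L = ⊤) →
      ∀ M : Subgroup G, (M ≠ ⊤ ∧ (∀ a : A, ∀ x ∈ M, a • x ∈ M) ∧ ∀ L : Subgroup G, M < L →
        (∀ a : A, ∀ x ∈ L, a • x ∈ L) → L = ⊤) ↔ (M = frattini G ∧ M ≠ ⊤) := by
    intro h2 M
    constructor
    · intro hM
      refine ⟨?_, hM.1⟩
      by_contra hne
      exact hM.1 (h2 M (lt_of_le_of_ne (hB M hM) (fun h => hne h.symm)) hM.2.1)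
    · rintro ⟨rfl, hne⟩
      exact ⟨hne, hΦ, h2⟩
  refine ⟨⟨fun h1 => ?_, fun h2 M N hM hN => ?_⟩, fun h2 => hC h2.2⟩
  swap
  · refine ⟨1, fun a => smul_one a, ?_⟩
    rw [((hC h2.2 M).1 hM).1, ((hC h2.2 N).1 hN).1, map_one, one_smul]
  -- the main direction
  have hex : ∀ H : Subgroup G, H ≠ ⊤ → (∀ a : A, ∀ x ∈ H, a • x ∈ H) →
      ∃ M : Subgroup G, H ≤ M ∧ (M ≠ ⊤ ∧ (∀ a : A, ∀ x ∈ M, a • x ∈ M) ∧ ∀ L : Subgroup G, M < L →
        (∀ a : A, ∀ x ∈ L, a • x ∈ L) → L = ⊤) := by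
    intro H hH1 hH2
    obtain ⟨M, hHM, hM⟩ := Set.Finite.exists_le_maximal
      (s := {L : Subgroup G | L ≠ ⊤ ∧ ∀ a : A, ∀ x ∈ L, a • x ∈ L}) (Set.toFinite _) ⟨hH1, hH2⟩
    refine ⟨M, hHM, hM.prop.1, hM.prop.2, fun L hL hLinv => ?_⟩
    by_contra hne
    exact hL.not_ge (hM.le_of_ge ⟨hne, hLinv⟩ hL.le)
  have hcard : ∀ M N : Subgroup G, (M ≠ ⊤ ∧ (∀ a : A, ∀ x ∈ M, a • x ∈ M) ∧ ∀ L : Subgroup G, M < L →
      (∀ a : A, ∀ x ∈ L, a • x ∈ L) → L = ⊤) → (N ≠ ⊤ ∧ (∀ a : A, ∀ x ∈ N, a • x ∈ N) ∧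
      ∀ L : Subgroup G, N < L → (∀ a : A, ∀ x ∈ L, a • x ∈ L) → L = ⊤) →
      Nat.card N = Nat.card M := by
    intro M N hM hN
    obtain ⟨c, -, hc⟩ := h1 M N hM hN
    rw [hc, Cfsg.H1.card_conj_smul]
  by_cases htriv : (⊥ : Subgroup G) = ⊤
  · have hss : Subsingleton (Subgroup G) := subsingleton_of_bot_eq_top htriv
    refine ⟨⟨2, Nat.prime_two, ?_⟩, fun L _ _ => Subsingleton.elim _ _⟩
    intro g
    refine ⟨0, ?_⟩
    have : g ∈ (⊥ : Subgroup G) := by rw [htriv]; trivial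
    rw [Subgroup.mem_bot] at this
    rw [this, one_pow]
  obtain ⟨M0, -, hM0⟩ := hex ⊥ htriv (by
    intro a x hx
    rw [Subgroup.mem_bot] at hx ⊢
    rw [hx, smul_one])
  have hp : ∃ p : ℕ, p.Prime ∧ IsPGroup p G := by
    by_contra hno
    have hdvd : Nat.card G ∣ Nat.card M0 := by
      rw [← Nat.factorization_prime_le_iff_dvd Nat.card_pos.ne' Nat.card_pos.ne']
      intro p hp
      haveI : Fact p.Prime := ⟨hp⟩
      obtain ⟨P, hP⟩ := exists_invariant_sylow hcop hsol p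
      have hPne : (P : Subgroup G) ≠ ⊤ := by
        intro htop
        apply hno
        refine ⟨p, hp, ?_⟩
        have := P.isPGroup'
        rw [htop] at this
        exact this.of_equiv Subgroup.topEquiv
      obtain ⟨M, hPM, hM⟩ := hex P hPne hP
      have h2 : Nat.card (P : Subgroup G) ∣ Nat.card M0 := by
        rw [hcard M M0 hM hM0]
        exact Subgroup.card_dvd_of_le hPM
      rw [P.card_eq_multiplicity] at h2
      exact (hp.pow_dvd_iff_le_factorization Nat.card_pos.ne').1 h2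
    exact hM0.1 (Subgroup.eq_top_of_le_card _ (Nat.le_of_dvd Nat.card_pos hdvd))
  refine ⟨hp, ?_⟩
  obtain ⟨p, hp, hG⟩ := hp
  haveI : Fact p.Prime := ⟨hp⟩
  have hfr := Cfsg.H1.frattini_pgroup_ge p hG
  have hM0Φ : M0 = frattini G := by
    by_contra hne
    have hcop' : (Nat.card A).Coprime p := by
      obtain ⟨n, hn⟩ := (IsPGroup.iff_card).1 hG
      have hn0 : n ≠ 0 := by
        rintro rfl
        rw [pow_zero] at hn
        apply htriv
        have : Subsingleton G := (Nat.card_eq_one_iff_unique.1 hn).1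
        exact Subsingleton.elim _ _
      exact Nat.Coprime.coprime_dvd_right (hn ▸ dvd_pow_self p hn0) hcop
    obtain ⟨U, hU1, hU2, hU3, hU4⟩ := rel_maschke (p := p) hcop' (frattini G) hΦ (by
      intro x y
      have : x * y * (y * x)⁻¹ = ⁅x, y⁆ := by
        rw [commutatorElement_def]; group
      rw [this]
      exact hfr.1 (Subgroup.commutator_mem_commutator (Subgroup.mem_top x) (Subgroup.mem_top y)))
      hfr.2 M0 hM0.2.1
    have hUne : U ≠ ⊤ := by
      rintro rfl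
      apply hne
      refine le_antisymm ?_ (hB M0 hM0)
      rwa [inf_top_eq] at hU3
    obtain ⟨M1, hUM1, hM1⟩ := hex U hUne hU1
    obtain ⟨c, -, hc⟩ := h1 M0 M1 hM0 hM1
    have hM0n : M0.Normal := normal_of_commutator_le (hfr.1.trans (hB M0 hM0))
    rw [Subgroup.Normal.conj_smul_eq_self] at hc
    apply hM0.1
    rw [← hU4, eq_comm, sup_eq_left, ← hc]
    exact hUM1
  rw [← hM0Φ]
  exact hM0.2.2

end Cfsg.Agent.S4381
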