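import Cfsg.Statements.S4387
import Cfsg.Agent.Lib.Helper23.ConjCover

set_option autoImplicit false
open Pointwise
open Cfsg

namespace Cfsg.Agent.S4387

open Pointwise

/-- Let G be a non-trivial finite group in which any two maximal subgroups are conjugate. Then G is cyclic of prime-power order. -/
theorem result {G : Type*} [Group G] [Finite G] [Nontrivial G]
    (h : ∀ M N : Subgroup G, IsCoatom M → IsCoatom N → ∃ g : G, N = MulAut.conj g • M) :
    IsCyclic G ∧ IsPrimePow (Nat.card G) := by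
  -- a maximal subgroup exists
  have hbt : (⊥ : Subgroup G) ≠ ⊤ := bot_ne_top
  obtain ⟨M, hM, -⟩ := (eq_top_or_exists_le_coatom (⊥ : Subgroup G)).resolve_left hbt
  obtain ⟨x, hx⟩ := Cfsg.Agent.Lib.Helper23.exists_not_mem_conj M hM.1
  have hxtop : Subgroup.zpowers x = ⊤ := by
    by_contra hne
    obtain ⟨N, hN, hle⟩ := (eq_top_or_exists_le_coatom (Subgroup.zpowers x)).resolve_left hne
    obtain ⟨g, rfl⟩ := h M N hM hN
    have hxN := hle (Subgroup.mem_zpowers x)
    rw [Subgroup.mem_pointwise_smul_iff_inv_smul_mem] at hxN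
    apply hx g
    simpa [MulAut.smul_def, mul_assoc] using hxN
  have hcyc : IsCyclic G := ⟨x, fun y => by
    have : y ∈ (⊤ : Subgroup G) := Subgroup.mem_top y
    rwa [← hxtop] at this⟩
  refine ⟨hcyc, ?_⟩
  have hcomm : ∀ a b : G, a * b = b * a := isMulCommutative_iff.1 IsCyclic.isMulCommutative
  have huniq : ∀ N : Subgroup G, IsCoatom N → N = M := by
    intro N hN
    obtain ⟨g, rfl⟩ := h M N hM hN
    ext y
    rw [Subgroup.mem_pointwise_smul_iff_inv_smul_mem]
    simp [MulAut.smul_def, hcomm g⁻¹ y]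
  have hidx : M.index ≠ 1 := fun h1 => hM.1 (Subgroup.index_eq_one.1 h1)
  obtain ⟨p, hp, hpM⟩ := Nat.exists_prime_and_dvd hidx
  have : Fact p.Prime := ⟨hp⟩
  obtain ⟨P⟩ : Nonempty (Sylow p G) := inferInstance
  have hPtop : (P : Subgroup G) = ⊤ := by
    by_contra hne
    obtain ⟨N, hN, hle⟩ := (eq_top_or_exists_le_coatom (P : Subgroup G)).resolve_left hne
    rw [huniq N hN] at hle
    exact P.not_dvd_index (hpM.trans (Subgroup.index_dvd_of_le hle))
  have hPG : IsPGroup p G := by
    have := P.2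
    rw [hPtop] at this
    exact this.of_equiv Subgroup.topEquiv
  obtain ⟨n, hn⟩ := IsPGroup.iff_card.1 hPG
  rw [hn]
  have hn0 : n ≠ 0 := by
    rintro rfl
    have : 1 < Nat.card G := Finite.one_lt_card
    rw [pow_zero] at hn
    omega
  exact (Nat.prime_iff.1 hp).isPrimePow.pow hn0

end Cfsg.Agent.S4387
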