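import Cfsg.Statements.S4398
import Cfsg.Agent.Tr.MC8
import Cfsg.Agent.H1.MaxClass2

set_option autoImplicit false
open Cfsg

namespace Cfsg.Agent.S4398

open Cfsg.Agent.Tr.MC

/-- the data we need about a nonabelian group of order 8 -/
structure Oct {S : Type*} [Group S] (H : Subgroup S) (z : S) : Prop where
  card : Nat.card H = 8
  zmem : z ∈ H
  zsq : z ^ 2 = 1
  zcen : ∀ h ∈ H, h * z = z * h
  sq : ∀ h ∈ H, h ^ 2 = 1 ∨ h ^ 2 = z
  cen : ∀ h ∈ H, (∀ k ∈ H, k * h = h * k) → h = 1 ∨ h = z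
  na : ¬ IsMulCommutative H

theorem oct_of_equiv {S : Type*} [Group S] (H : Subgroup S) {D : Type} [Group D] (e : H ≃* D) (w : D)
    (hc : Nat.card D = 8) (hw : w ^ 2 = 1) (hwc : ∀ d : D, d * w = w * d) (hsq : ∀ d : D, d ^ 2 = 1 ∨ d ^ 2 = w)
    (hcen : ∀ d : D, (∀ k : D, k * d = d * k) → d = 1 ∨ d = w)
    (hna : ∃ a b : D, a * b ≠ b * a) : Oct H ((e.symm w : H) : S) where
  card := by rw [Nat.card_congr e.toEquiv, hc]
  zmem := (e.symm w).2
  zsq := by
    have : (e.symm w) ^ 2 = 1 := by rw [← map_pow, hw, map_one]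
    have h2 := congrArg (Subtype.val) this
    simpa using h2
  zcen := by
    intro h hh
    have h1 : (⟨h, hh⟩ : H) * e.symm w = e.symm w * ⟨h, hh⟩ := by
      apply e.injective
      rw [map_mul, map_mul, MulEquiv.apply_symm_apply, hwc]
    simpa using congrArg Subtype.val h1
  sq := by
    intro h hh
    rcases hsq (e ⟨h, hh⟩) with h1 | h1
    · left
      have : (⟨h, hh⟩ : H) ^ 2 = 1 := by
        apply e.injective; rw [map_pow, h1, map_one]
      simpa using congrArg Subtype.val this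
    · right
      have : (⟨h, hh⟩ : H) ^ 2 = e.symm w := by
        apply e.injective; rw [map_pow, h1, MulEquiv.apply_symm_apply]
      simpa using congrArg Subtype.val this
  cen := by
    intro h hh hk
    have key : ∀ k : D, k * e ⟨h, hh⟩ = e ⟨h, hh⟩ * k := by
      intro k
      have h1 := hk (e.symm k) (e.symm k).2
      have h2 : e.symm k * ⟨h, hh⟩ = ⟨h, hh⟩ * e.symm k := Subtype.ext h1
      have h3 := congrArg e h2
      simpa using h3
    rcases hcen _ key with h1 | h1
    · left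
      have : (⟨h, hh⟩ : H) = 1 := by apply e.injective; rw [h1, map_one]
      simpa using congrArg Subtype.val this
    · right
      have : (⟨h, hh⟩ : H) = e.symm w := by apply e.injective; rw [h1, MulEquiv.apply_symm_apply]
      simpa using congrArg Subtype.val this
  na := by
    intro hcomm
    obtain ⟨a, b, hab⟩ := hna
    apply hab
    have := hcomm.is_comm.comm (e.symm a) (e.symm b)
    have h3 := congrArg e this
    simpa using h3

theorem centralizer_le {S : Type*} [Group S] [Finite S] (h2 : IsPGroup 2 S)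
    (hr : Cfsg.SectionalPRankLE 2 2 S) (H : Subgroup S) (z : S) (hO : Oct H z) :
    Subgroup.centralizer (H : Set S) ≤ H := by
  by_contra hcon
  obtain ⟨c0, hc0, hc0H⟩ := SetLike.not_le_iff_exists.1 hcon
  -- find `c` in the centralizer, outside `H`, with square in `H`
  obtain ⟨c, hc, hcH, hc2⟩ : ∃ c ∈ Subgroup.centralizer (H : Set S), c ∉ H ∧ c ^ 2 ∈ H := by
    obtain ⟨k, hk⟩ := h2 c0
    have hex : ∃ j, c0 ^ 2 ^ j ∈ H := ⟨k, by rw [hk]; exact H.one_mem⟩
    classical
    have hj := Nat.find_spec hex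
    have hmin := @Nat.find_min _ _ hex
    have hpos : Nat.find hex ≠ 0 := by
      intro h0
      rw [h0] at hj
      simp at hj
      exact hc0H hj
    obtain ⟨j, hjj⟩ := Nat.exists_eq_succ_of_ne_zero hpos
    refine ⟨c0 ^ 2 ^ j, Subgroup.pow_mem _ hc0 _, hmin (by omega), ?_⟩
    rw [← pow_mul, ← pow_succ, ← Nat.succ_eq_add_one, ← hjj]
    exact hj
  have hcomm : ∀ h ∈ H, h * c = c * h := fun h hh => (Subgroup.mem_centralizer_iff.1 hc h hh)
  have hcz : ∀ (i : ℤ), ∀ h ∈ H, h * c ^ i = c ^ i * h := by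
    intro i h hh
    exact ((Commute.zpow_right (show Commute h c from hcomm h hh)) i)
  have hc2z : c ^ 2 = 1 ∨ c ^ 2 = z := by
    apply hO.cen _ hc2
    intro k hk
    exact ((Commute.pow_right (show Commute k c from hcomm k hk)) 2)
  let E : Subgroup S :=
    { carrier := {x | ∃ h ∈ H, ∃ i : ℤ, x = h * c ^ i}
      one_mem' := ⟨1, H.one_mem, 0, by simp⟩
      mul_mem' := by
        rintro _ _ ⟨h, hh, i, rfl⟩ ⟨k, hk, j, rfl⟩
        refine ⟨h * k, H.mul_mem hh hk, i + j, ?_⟩
        rw [zpow_add, mul_assoc, ← mul_assoc (c ^ i), ← hcz i k hk]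
        group
      inv_mem' := by
        rintro _ ⟨h, hh, i, rfl⟩
        refine ⟨h⁻¹, H.inv_mem hh, -i, ?_⟩
        rw [mul_inv_rev, hcz (-i) h⁻¹ (H.inv_mem hh), zpow_neg] }
  have hHE : H ≤ E := fun h hh => ⟨h, hh, 0, by simp⟩
  have hcE : c ∈ E := ⟨1, H.one_mem, 1, by simp⟩
  have hzE : z ∈ E := hHE hO.zmem
  have hsqE : ∀ x ∈ E, x ^ 2 ∈ Subgroup.zpowers z := by
    rintro _ ⟨h, hh, i, rfl⟩
    have h1 : (h * c ^ i) ^ 2 = h ^ 2 * (c ^ 2) ^ i := by
      rw [(show Commute h (c ^ i) from hcz i h hh).mul_pow, ← zpow_natCast (c ^ i), ← zpow_mul,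
        ← zpow_natCast c 2, ← zpow_mul, mul_comm i]
    rw [h1]
    apply Subgroup.mul_mem
    · rcases hO.sq h hh with h3 | h3 <;> rw [h3]
      · exact Subgroup.one_mem _
      · exact Subgroup.mem_zpowers z
    · apply Subgroup.zpow_mem
      rcases hc2z with h3 | h3 <;> rw [h3]
      · exact Subgroup.one_mem _
      · exact Subgroup.mem_zpowers z
  -- the normal subgroup
  have hzcen : ∀ x ∈ E, x * z = z * x := by
    rintro _ ⟨h, hh, i, rfl⟩
    rw [mul_assoc, ← hcz i z hO.zmem, ← mul_assoc, hO.zcen h hh, mul_assoc]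
  let N : Subgroup E := (Subgroup.zpowers z).subgroupOf E
  have hNn : N.Normal := by
    constructor
    intro n hn g
    rw [Subgroup.mem_subgroupOf] at hn ⊢
    obtain ⟨k, hk⟩ := Subgroup.mem_zpowers_iff.1 hn
    have h1 : (g : S) * (n : S) = (n : S) * (g : S) := by
      rw [← hk]
      exact ((Commute.zpow_right (show Commute (g : S) z from hzcen g g.2)) k)
    have h2 : ((g * n * g⁻¹ : E) : S) = (n : S) := by
      push_cast
      rw [h1]; group
    rw [h2]; exact hn
  have hrank := hr E N ⊤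
  have hexp : ∀ q : E ⧸ N, q ^ 2 = 1 := by
    intro q
    induction q using QuotientGroup.induction_on with
    | H x =>
      rw [← QuotientGroup.mk_pow, QuotientGroup.eq_one_iff, Subgroup.mem_subgroupOf]
      exact hsqE x x.2
  have hcommQ : ∀ a b : E ⧸ N, a * b = b * a := by
    intro a b
    have h1 := hexp (a * b)
    have ha := hexp a
    have hb := hexp b
    have ha' : a⁻¹ = a := by rw [inv_eq_iff_mul_eq_one, ← pow_two, ha]
    have hb' : b⁻¹ = b := by rw [inv_eq_iff_mul_eq_one, ← pow_two, hb]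
    have hab' : (a * b)⁻¹ = a * b := by rw [inv_eq_iff_mul_eq_one, ← pow_two, h1]
    rw [← hab', mul_inv_rev, ha', hb']
  have hle := hrank ⟨⟨fun a b => Subtype.ext (hcommQ a b)⟩⟩ (fun a _ => hexp a)
  rw [Subgroup.card_top] at hle
  -- cardinalities
  have hcardN : Nat.card N ≤ 2 := by
    have h1 : Nat.card N = Nat.card (Subgroup.zpowers z) := by
      have hle' : Subgroup.zpowers z ≤ E := by
        rw [Subgroup.zpowers_le]; exact hzE
      exact Nat.card_congr (Subgroup.subgroupOfEquivOfLe hle').toEquiv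
    rw [h1, Nat.card_zpowers]
    exact orderOf_le_of_pow_eq_one (by norm_num) hO.zsq
  have hcardE : Nat.card E = Nat.card (E ⧸ N) * Nat.card N := Subgroup.card_eq_card_quotient_mul_card_subgroup N
  have hlt : H < E := lt_of_le_of_ne hHE (fun hEq => hcH (hEq ▸ hcE))
  have hE16 : 16 ≤ Nat.card E := by
    have h8 : 8 < Nat.card E := by
      rw [← hO.card]; exact Cfsg.H1.card_lt_card_of_lt hlt
    obtain ⟨m, hm⟩ := IsPGroup.iff_card.1 (h2.to_subgroup E)
    rw [hm] at h8 ⊢
    have : 3 < m := by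
      by_contra hm3
      push Not at hm3
      have := Nat.pow_le_pow_right (show 0 < 2 by norm_num) hm3
      omega
    calc 16 = 2 ^ 4 := by norm_num
      _ ≤ 2 ^ m := Nat.pow_le_pow_right (by norm_num) this
  have : Nat.card (E ⧸ N) * Nat.card N ≤ 4 * 2 := Nat.mul_le_mul (by simpa using hle) hcardN
  omega

/-- Let S be a finite 2-group of sectional 2-rank at most 2 that contains a subgroup isomorphic to the dihedral group of order 8 or to the quaternion group of order 8. Then S is dihedral of order at least 8, semidihedral of order at least 16 (order 2^(k+4) with an element a of order 2^(k+3) and an involution b with b a b⁻¹ = a^(2^(k+2)−1)), or generalized quaternion of order at least 8. -/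
theorem result {S : Type*} [Group S] [Finite S] (h2 : IsPGroup 2 S) (hr : Cfsg.SectionalPRankLE 2 2 S)
    (hsub : ∃ H : Subgroup S, Nonempty (↥H ≃* DihedralGroup 4) ∨ Nonempty (↥H ≃* QuaternionGroup 2)) :
    ((∃ k : ℕ, Nonempty (S ≃* DihedralGroup (2 ^ (k + 2)))) ∨
      (∃ k : ℕ, Nat.card S = 2 ^ (k + 4) ∧ ∃ a b : S, orderOf a = 2 ^ (k + 3) ∧ orderOf b = 2 ∧ b * a * b⁻¹ = a ^ (2 ^ (k + 2) - 1)) ∨
      (∃ k : ℕ, Nonempty (S ≃* QuaternionGroup (2 ^ (k + 1))))) := by
  obtain ⟨H, hH⟩ := hsub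
  obtain ⟨z, hO⟩ : ∃ z, Oct H z := by
    rcases hH with ⟨⟨e⟩⟩ | ⟨⟨e⟩⟩
    · refine ⟨_, oct_of_equiv H e (DihedralGroup.r 2) ?_ ?_ ?_ ?_ ?_ ?_⟩
      · rw [Nat.card_eq_fintype_card]; decide
      · decide
      · decide
      · decide
      · decide
      · exact ⟨DihedralGroup.r 1, DihedralGroup.sr 0, by decide⟩
    · refine ⟨_, oct_of_equiv H e (QuaternionGroup.a 2) ?_ ?_ ?_ ?_ ?_ ?_⟩
      · rw [Nat.card_eq_fintype_card]; decide
      · decide
      · decide
      · decide
      · decide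
      · exact ⟨QuaternionGroup.a 1, QuaternionGroup.xa 0, by decide⟩
  have hC := centralizer_le h2 hr H z hO
  obtain ⟨n, hn⟩ := IsPGroup.iff_card.1 h2
  have : Fact (Nat.Prime 2) := ⟨Nat.prime_two⟩
  have hcl := Cfsg.H1.maximal_class_of_nonabelian_cube (p := 2) n hn H (by rw [hO.card]; norm_num) hO.na hC
  have hn3 : 3 ≤ n := by
    have := Subgroup.card_subgroup_dvd_card H
    rw [hO.card, hn] at this
    have h3 : (2 : ℕ) ^ 3 ∣ 2 ^ n := by simpa using this
    exact (Nat.pow_dvd_pow_iff_le_right (by norm_num : 1 < 2)).1 h3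
  obtain ⟨k, rfl⟩ : ∃ k, n = k + 3 := ⟨n - 3, by omega⟩
  obtain ⟨-, a, b, h⟩ := dat_of_class (m := k + 2) (by omega) hn (by rw [hcl]; omega)
  rcases h.classification (by omega) with h1 | h1 | ⟨hm3, b', hb', hc⟩
  · exact Or.inl ⟨k, h1⟩
  · exact Or.inr (Or.inr ⟨k, h1⟩)
  · obtain ⟨j, rfl⟩ : ∃ j, k = j + 1 := ⟨k - 1, by omega⟩
    exact Or.inr (Or.inl ⟨j, hn, a, b', h.ord, hb', hc⟩)

end Cfsg.Agent.S4398
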