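import Cfsg.Statements.S4399
import Cfsg.Agent.Tr.MC8
-- import your own Cfsg.Agent.* helpers here

set_option autoImplicit false
open Cfsg

open Cfsg.Agent.Tr.MC

namespace Cfsg.Agent.S4399

/-- Let S be a finite 2-group whose commutator quotient S/[S,S] is a Klein four-group (order 4 and exponent 2). Then S itself has order 4, or S is dihedral of order at least 8, semidihedral of order at least 16 (order 2^(k+4) with an element a of order 2^(k+3) and an involution b with b a b⁻¹ = a^(2^(k+2)−1)), or generalized quaternion of order at least 8. -/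
theorem result {S : Type*} [Group S] [Finite S] (h2 : IsPGroup 2 S) (hab : Nat.card (Abelianization S) = 4)
    (hexp : ∀ x : Abelianization S, x ^ 2 = 1) :
    Nat.card S = 4 ∨
    ((∃ k : ℕ, Nonempty (S ≃* DihedralGroup (2 ^ (k + 2)))) ∨
      (∃ k : ℕ, Nat.card S = 2 ^ (k + 4) ∧ ∃ a b : S, orderOf a = 2 ^ (k + 3) ∧ orderOf b = 2 ∧ b * a * b⁻¹ = a ^ (2 ^ (k + 2) - 1)) ∨
      (∃ k : ℕ, Nonempty (S ≃* QuaternionGroup (2 ^ (k + 1))))) := by
  obtain ⟨n, hn⟩ := IsPGroup.iff_card.1 h2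
  have hidx : (commutator S).index = 4 := by
    rw [Subgroup.index_eq_card]; exact hab
  have hn2 : 2 ≤ n := by
    have h1 := (commutator S).index_dvd_card
    rw [hidx, hn] at h1
    have h3 : (2 : ℕ) ^ 2 ∣ 2 ^ n := by simpa using h1
    exact (Nat.pow_dvd_pow_iff_le_right (by norm_num : 1 < 2)).1 h3
  rcases Nat.eq_or_lt_of_le hn2 with rfl | hn3
  · left; rw [hn]; norm_num
  · right
    obtain ⟨k, rfl⟩ : ∃ k, n = k + 3 := ⟨n - 3, by omega⟩
    obtain ⟨a, b, h⟩ := dat_of_index_four (m := k + 2) (by omega) hn hidx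
    rcases h.classification (by omega) with h1 | h1 | ⟨hm3, b', hb', hc⟩
    · exact Or.inl ⟨k, h1⟩
    · exact Or.inr (Or.inr ⟨k, h1⟩)
    · obtain ⟨j, rfl⟩ : ∃ j, k = j + 1 := ⟨k - 1, by omega⟩
      exact Or.inr (Or.inl ⟨j, hn, a, b', h.ord, hb', hc⟩)

end Cfsg.Agent.S4399
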