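import Cfsg.Statements.S4405
import Cfsg.Agent.Lib.Helper27.XS2
import Cfsg.Agent.H1.Fit
import Cfsg.Agent.S0061
import Cfsg.Agent.S0199

set_option autoImplicit false
open Cfsg

namespace Cfsg.Agent.S4405

open Cfsg.Agent.Lib.Helper27.XS

section aux

variable {G : Type*} [Group G]

/-- the elements fixing the coset `h⟨z⟩` under conjugation. -/
def St (z h : G) (hz : ∀ g : G, g * z * g⁻¹ = z) (hzz : z * z = 1) : Subgroup G where
  carrier := {g | g * h * g⁻¹ = h ∨ g * h * g⁻¹ = z * h}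
  one_mem' := by left; simp
  mul_mem' := by
    intro a b ha hb
    have e : (a * b) * h * (a * b)⁻¹ = a * (b * h * b⁻¹) * a⁻¹ := by group
    have e2 : a * (z * h) * a⁻¹ = z * (a * h * a⁻¹) := by
      calc a * (z * h) * a⁻¹ = (a * z * a⁻¹) * (a * h * a⁻¹) := by group
        _ = _ := by rw [hz]
    show (a * b) * h * (a * b)⁻¹ = h ∨ (a * b) * h * (a * b)⁻¹ = z * h
    rw [e]
    rcases hb with hb | hb <;> rcases ha with ha | ha
    · left; rw [hb, ha]
    · right; rw [hb, ha]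
    · right; rw [hb, e2, ha]
    · left; rw [hb, e2, ha, ← mul_assoc, hzz, one_mul]
  inv_mem' := by
    intro a ha
    show a⁻¹ * h * a⁻¹⁻¹ = h ∨ a⁻¹ * h * a⁻¹⁻¹ = z * h
    rw [inv_inv]
    rcases ha with ha | ha
    · left
      calc a⁻¹ * h * a = a⁻¹ * (a * h * a⁻¹) * a := by rw [ha]
        _ = h := by group
    · right
      have h1 : a⁻¹ * (z * h) * a = h := by rw [← ha]; group
      have e3 : a⁻¹ * (z * h) * a = z * (a⁻¹ * h * a) := by
        calc a⁻¹ * (z * h) * a = (a⁻¹ * z * a⁻¹⁻¹) * (a⁻¹ * h * a) := by group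
          _ = _ := by rw [hz]
      calc a⁻¹ * h * a = (z * z) * (a⁻¹ * h * a) := by rw [hzz, one_mul]
        _ = z * (z * (a⁻¹ * h * a)) := by rw [mul_assoc]
        _ = z * h := by rw [← e3, h1]

theorem mem_St {z h g : G} {hz : ∀ g : G, g * z * g⁻¹ = z} {hzz : z * z = 1} :
    g ∈ St z h hz hzz ↔ (g * h * g⁻¹ = h ∨ g * h * g⁻¹ = z * h) := Iff.rfl

theorem St_symm {z h g : G} {hz : ∀ g : G, g * z * g⁻¹ = z} {hzz : z * z = 1}
    (hg : g ∈ St z h hz hzz) : h ∈ St z g hz hzz := by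
  rw [mem_St] at hg ⊢
  rcases hg with hg | hg
  · left
    calc h * g * h⁻¹ = (g * h * g⁻¹) * g * h⁻¹ := by rw [hg]
      _ = g := by group
  · right
    have hzh : h * z * h⁻¹ = z := hz h
    calc h * g * h⁻¹ = (z * z) * (h * g * h⁻¹) := by rw [hzz, one_mul]
      _ = z * ((z * h) * g * h⁻¹) := by group
      _ = z * ((g * h * g⁻¹) * g * h⁻¹) := by rw [hg]
      _ = z * g := by group

theorem St_conj {z h g a : G} {hz : ∀ g : G, g * z * g⁻¹ = z} {hzz : z * z = 1}
    (hg : g ∈ St z h hz hzz) : a * g * a⁻¹ ∈ St z (a * h * a⁻¹) hz hzz := by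
  rw [mem_St] at hg ⊢
  have e : a * g * a⁻¹ * (a * h * a⁻¹) * (a * g * a⁻¹)⁻¹ = a * (g * h * g⁻¹) * a⁻¹ := by group
  rw [e]
  rcases hg with hg | hg
  · left; rw [hg]
  · right
    rw [hg]
    calc a * (z * h) * a⁻¹ = (a * z * a⁻¹) * (a * h * a⁻¹) := by group
      _ = _ := by rw [hz]

theorem card_mul_le [Finite G] {A B H : Subgroup G} (hA : A ≤ H) (hB : B ≤ H) :
    Nat.card A * Nat.card B ≤ Nat.card ↥(A ⊓ B) * Nat.card H := by
  have h1 : Nat.card ↥(A ⊓ B) * (A ⊓ B).relIndex A = Nat.card A := by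
    have := Subgroup.relIndex_mul_relIndex ⊥ (A ⊓ B) A bot_le inf_le_left
    rwa [Subgroup.relIndex_bot_left, Subgroup.relIndex_bot_left] at this
  have h2 : Nat.card B * B.relIndex H = Nat.card H := by
    have := Subgroup.relIndex_mul_relIndex ⊥ B H bot_le hB
    rwa [Subgroup.relIndex_bot_left, Subgroup.relIndex_bot_left] at this
  have h3 : B.relIndex A ≤ B.relIndex H := Subgroup.relIndex_le_of_le_right hA (by
    intro h
    rw [h, mul_zero] at h2
    exact (Nat.card_pos (α := H)).ne h2)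
  rw [Subgroup.inf_relIndex_left] at h1
  calc Nat.card A * Nat.card B = Nat.card ↥(A ⊓ B) * (B.relIndex A * Nat.card B) := by
        rw [← h1]; ring
    _ ≤ Nat.card ↥(A ⊓ B) * (B.relIndex H * Nat.card B) := by gcongr
    _ = _ := by rw [mul_comm (B.relIndex H), h2]

theorem card_fix5 [Finite G] {H : Subgroup G} [hHn : H.Normal] (h32 : Nat.card H = 32) {x : G}
    (hx5 : x ^ 5 = 1) (hxC : ¬ ∀ q ∈ H, x * q * x⁻¹ = q) :
    Nat.card ↥(H ⊓ Subgroup.centralizer ({x} : Set G)) = 2 := by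
  have hp5 : Fact (Nat.Prime 5) := ⟨by norm_num⟩
  have hx1 : x ≠ 1 := by
    rintro rfl
    exact hxC (fun q _ => by simp)
  have hxo : orderOf x = 5 := orderOf_eq_prime hx5 hx1
  have hxN : x ∈ Subgroup.normalizer (H : Set G) := by
    rw [Subgroup.normalizer_eq_top]; exact Subgroup.mem_top _
  obtain ⟨R, hRdef⟩ : ∃ R : Subgroup ↥(Subgroup.normalizer (H : Set G)),
      R = Subgroup.zpowers (⟨x, hxN⟩ : ↥(Subgroup.normalizer (H : Set G))) := ⟨_, rfl⟩
  have hR : IsPGroup 5 R := by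
    apply IsPGroup.of_card (n := 1)
    rw [hRdef, Nat.card_zpowers, pow_one, ← hxo]
    exact Subgroup.orderOf_mk x hxN
  have hmod := hR.card_modEq_card_fixedPoints ↥H
  have hFcard : Nat.card (MulAction.fixedPoints R ↥H) = Nat.card (FixedPoints.subgroup R ↥H) := rfl
  rw [hFcard] at hmod
  have hmap : (FixedPoints.subgroup R ↥H).map H.subtype = H ⊓ Subgroup.centralizer ({x} : Set G) := by
    ext q
    constructor
    · rintro ⟨⟨q, hq⟩, hfix, rfl⟩
      refine Subgroup.mem_inf.2 ⟨hq, ?_⟩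
      have h2 := hfix ⟨⟨x, hxN⟩, hRdef ▸ Subgroup.mem_zpowers _⟩
      have h3 : x * q * x⁻¹ = q := congrArg Subtype.val h2
      show q ∈ Subgroup.centralizer ({x} : Set G)
      rw [Subgroup.mem_centralizer_singleton_iff]
      calc q * x = (x * q * x⁻¹) * x := by rw [h3]
        _ = x * q := by group
    · intro hq
      obtain ⟨hqH, hqc⟩ := Subgroup.mem_inf.1 hq
      have hqc' : q ∈ Subgroup.centralizer ({x} : Set G) := hqc
      rw [Subgroup.mem_centralizer_singleton_iff] at hqc'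
      refine ⟨⟨q, hqH⟩, ?_, rfl⟩
      have hle : Subgroup.zpowers (⟨x, hxN⟩ : ↥(Subgroup.normalizer (H : Set G))) ≤
          MulAction.stabilizer ↥(Subgroup.normalizer (H : Set G)) (⟨q, hqH⟩ : ↥H) := by
        rw [Subgroup.zpowers_le, MulAction.mem_stabilizer_iff]
        apply Subtype.ext
        show x * q * x⁻¹ = q
        rw [← hqc']; group
      intro r
      exact MulAction.mem_stabilizer_iff.1 (hle (hRdef ▸ r.2))
  have hcard : Nat.card ↥(H ⊓ Subgroup.centralizer ({x} : Set G)) =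
      Nat.card (FixedPoints.subgroup R ↥H) := by
    rw [← hmap, Subgroup.card_map_of_injective H.subtype_injective]
  rw [hcard]
  have hFtop : FixedPoints.subgroup R ↥H ≠ ⊤ := by
    intro h
    apply hxC
    intro q hq
    have h1 : (⟨q, hq⟩ : ↥H) ∈ FixedPoints.subgroup R ↥H := h ▸ Subgroup.mem_top _
    have h2 := h1 ⟨⟨x, hxN⟩, hRdef ▸ Subgroup.mem_zpowers _⟩
    exact congrArg Subtype.val h2
  have hFd : Nat.card (FixedPoints.subgroup R ↥H) ∣ 2 ^ 5 := by
    have := Subgroup.card_subgroup_dvd_card (FixedPoints.subgroup R ↥H)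
    rwa [h32] at this
  obtain ⟨b, hbn, hb⟩ := (Nat.dvd_prime_pow Nat.prime_two).1 hFd
  have hbne : b ≠ 5 := by
    intro h
    apply hFtop
    apply Subgroup.eq_top_of_card_eq
    rw [hb, h32, h]; norm_num
  rw [h32, hb] at hmod
  rw [hb]
  have hb5 : b < 5 := lt_of_le_of_ne hbn hbne
  interval_cases b <;> first | rfl | (exfalso; revert hmod; decide)

theorem pow_conj {z h x : G} (hz : ∀ g : G, g * z * g⁻¹ = z) (e : x * h * x⁻¹ = z * h) (n : ℕ) :
    x ^ n * h * (x ^ n)⁻¹ = z ^ n * h := by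
  induction n with
  | zero => simp
  | succ n ih =>
    calc x ^ (n + 1) * h * (x ^ (n + 1))⁻¹ = x * (x ^ n * h * (x ^ n)⁻¹) * x⁻¹ := by
          rw [pow_succ']; group
      _ = x * (z ^ n * h) * x⁻¹ := by rw [ih]
      _ = (x * z ^ n * x⁻¹) * (x * h * x⁻¹) := by group
      _ = z ^ n * (z * h) := by rw [e, ← conj_pow, hz]
      _ = z ^ (n + 1) * h := by rw [pow_succ, mul_assoc]

/-- the central elements of `C` of order at most two. -/
def Om (C : Subgroup G) : Subgroup G where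
  carrier := {c | c ∈ C ∧ (∀ c' ∈ C, c * c' = c' * c) ∧ c * c = 1}
  one_mem' := ⟨C.one_mem, fun c' _ => by simp, by simp⟩
  mul_mem' := by
    rintro a b ⟨ha, ha2, ha3⟩ ⟨hb, hb2, hb3⟩
    refine ⟨C.mul_mem ha hb, fun c' hc' => ?_, ?_⟩
    · rw [mul_assoc, hb2 c' hc', ← mul_assoc, ha2 c' hc', mul_assoc]
    · calc a * b * (a * b) = a * (b * a) * b := by group
        _ = a * (a * b) * b := by rw [hb2 a ha]
        _ = (a * a) * (b * b) := by group
        _ = 1 := by rw [ha3, hb3, one_mul]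
  inv_mem' := by
    rintro a ⟨ha, ha2, ha3⟩
    have h : a⁻¹ = a := inv_eq_of_mul_eq_one_left ha3
    show a⁻¹ ∈ C ∧ (∀ c' ∈ C, a⁻¹ * c' = c' * a⁻¹) ∧ a⁻¹ * a⁻¹ = 1
    rw [h]
    exact ⟨ha, ha2, ha3⟩

end aux

/-- Let G be a finite group of order 320 = 64·5 whose largest normal 2-subgroup H = O₂(G) equals the Fitting subgroup F(G) and is extraspecial of order 32 containing no elementary abelian subgroup of order 8 (so H is the central product of a quaternion group and a dihedral group of order 8). If T is an involution of G outside H whose centralizer in H contains an elementary abelian subgroup of order 4, then C_H(T) itself is elementary abelian of order 4. -/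
theorem result {G : Type*} [Group G] [Finite G]
    (hG : Nat.card G = 320) (hHF : Cfsg.pCore 2 G = Cfsg.fittingSubgroup G)
    (hex : Cfsg.IsExtraspecial 2 ↥(Cfsg.pCore 2 G)) (h32 : Nat.card ↥(Cfsg.pCore 2 G) = 32)
    (hminus : ∀ A : Subgroup G, A ≤ Cfsg.pCore 2 G → Cfsg.IsElementaryAbelian 2 A → Nat.card ↥A ≤ 4)
    (T : G) (hT : orderOf T = 2) (hTH : T ∉ Cfsg.pCore 2 G)
    (V : Subgroup G) (hV : V ≤ Cfsg.pCore 2 G ⊓ Subgroup.centralizer ({T} : Set G)) (hV4 : Nat.card ↥V = 4) (hVe : Cfsg.IsElementaryAbelian 2 V) :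
    Nat.card ↥(Cfsg.pCore 2 G ⊓ Subgroup.centralizer ({T} : Set G)) = 4 ∧
      Cfsg.IsElementaryAbelian 2 (Cfsg.pCore 2 G ⊓ Subgroup.centralizer ({T} : Set G)) := by
  classical
  generalize hHdef : Cfsg.pCore 2 G = H at *
  have hHn : H.Normal := hHdef ▸ Cfsg.H1.pCore_normal 2
  have hH2 : IsPGroup 2 H := hHdef ▸ Cfsg.H1.pCore_isPGroup 2
  have hsolv : Group.IsSolvable G :=
    Cfsg.Agent.S0061.result 2 5 6 Nat.prime_two (by norm_num) (by rw [hG]; norm_num)
  have hCH : Subgroup.centralizer (H : Set G) ≤ H := by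
    have := Cfsg.H1.centralizer_fitting_le (G := G)
    rwa [← hHF] at this
  have hZ2 := card_Z hex
  obtain ⟨z, hzZ, hz1⟩ : ∃ z ∈ (Subgroup.center ↥H).map H.subtype, z ≠ 1 := by
    by_contra hcon
    push Not at hcon
    have : (Subgroup.center ↥H).map H.subtype = ⊥ := (Subgroup.eq_bot_iff_forall _).2 hcon
    rw [this] at hZ2
    simp at hZ2
  have S : Setup H z :=
    { ex := hex
      zZ := hzZ
      z1 := hz1
      cent := by
        intro c hc
        have h1 : c ∈ Subgroup.centralizer (H : Set G) := Subgroup.mem_centralizer_iff.2 hc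
        exact eq_of_mem_Z hex hzZ hz1 (mem_Z_iff.2 ⟨hCH h1, fun y hy => hc y hy⟩)
      norm := by
        intro c _
        rw [Subgroup.normalizer_eq_top]; exact Subgroup.mem_top _ }
  have hzz := S.zz
  have hzG : ∀ g : G, g * z * g⁻¹ = z := by
    intro g
    rcases S.cent (g * z * g⁻¹) (fun q hq => by
      have hq' : g⁻¹ * q * g ∈ H := by
        have := hHn.conj_mem q hq g⁻¹
        simpa using this
      have h2 := S.zc hq'
      calc q * (g * z * g⁻¹) = g * ((g⁻¹ * q * g) * z) * g⁻¹ := by group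
        _ = g * (z * (g⁻¹ * q * g)) * g⁻¹ := by rw [h2]
        _ = _ := by group) with h | h
    · exact absurd h (Setup.conj_ne_one hz1)
    · exact h
  have hzc : ∀ g : G, g * z = z * g := by
    intro g
    calc g * z = (g * z * g⁻¹) * g := by group
      _ = z * g := by rw [hzG]
  have hTT : T * T = 1 := by
    have := pow_orderOf_eq_one T
    rwa [hT, pow_two] at this
  have hTinv : T⁻¹ = T := inv_eq_of_mul_eq_one_left hTT
  have hp2 : Fact (Nat.Prime 2) := ⟨Nat.prime_two⟩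
  obtain ⟨g, hg⟩ : ∃ g : G, ¬ IsPGroup 2
      ↥(Subgroup.zpowers T ⊔ (Subgroup.zpowers T).map (MulAut.conj g).toMonoidHom) := by
    by_contra hcon
    push Not at hcon
    have hX : IsPGroup 2 (Subgroup.zpowers T) := by
      apply IsPGroup.of_card (n := 1)
      rw [Nat.card_zpowers, hT, pow_one]
    obtain ⟨N, hN, hNp, hle⟩ := Cfsg.Agent.S0199.result (Subgroup.zpowers T) hX hcon
    apply hTH
    rw [← hHdef]
    exact Cfsg.H1.le_pCore hN hNp (hle (Subgroup.mem_zpowers T))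
  obtain ⟨l, hl⟩ : ∃ l : ↥(Subgroup.zpowers T ⊔
      (Subgroup.zpowers T).map (MulAut.conj g).toMonoidHom), ∀ k : ℕ, l ^ 2 ^ k ≠ 1 := by
    unfold IsPGroup at hg
    push Not at hg
    exact hg
  obtain ⟨x, hxdef⟩ : ∃ x : G, x = (l : G) ^ 64 := ⟨_, rfl⟩
  have hx5 : x ^ 5 = 1 := by
    rw [hxdef, ← pow_mul]
    have := pow_card_eq_one' (x := (l : G))
    rwa [hG] at this
  have hx1 : x ≠ 1 := by
    intro h
    apply hl 6
    apply Subtype.ext
    rw [hxdef] at h
    rw [Subgroup.coe_pow]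
    norm_num
    exact h
  have hxmem : x ∈ Subgroup.zpowers T ⊔ (Subgroup.zpowers T).map (MulAut.conj g).toMonoidHom := by
    rw [hxdef]; exact Subgroup.pow_mem _ l.2 _
  have hz5 : z ^ 5 = z := by
    have hz2 : z ^ 2 = 1 := by rw [pow_two]; exact hzz
    calc z ^ 5 = (z ^ 2) ^ 2 * z := by rw [← pow_mul, ← pow_succ]
      _ = z := by rw [hz2]; simp
  have hxC : ¬ ∀ q ∈ H, x * q * x⁻¹ = q := by
    intro h
    rcases S.cent x (fun q hq => by
      calc q * x = (x * q * x⁻¹) * x := by rw [h q hq]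
        _ = x * q := by group) with h1 | h1
    · exact hx1 h1
    · rw [h1, hz5] at hx5
      exact hz1 hx5
  have h2 := card_fix5 h32 hx5 hxC
  obtain ⟨A, hAdef⟩ : ∃ A : Subgroup G, A = H ⊓ St z T hzG hzz := ⟨_, rfl⟩
  obtain ⟨B, hBdef⟩ : ∃ B : Subgroup G, B = H ⊓ St z (g * T * g⁻¹) hzG hzz := ⟨_, rfl⟩
  have hAB : A ⊓ B ≤ H ⊓ Subgroup.centralizer ({x} : Set G) := by
    intro h hh
    obtain ⟨hhA, hhB⟩ := Subgroup.mem_inf.1 hh
    rw [hAdef] at hhA
    rw [hBdef] at hhB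
    obtain ⟨hhH, hA1⟩ := Subgroup.mem_inf.1 hhA
    obtain ⟨-, hB1⟩ := Subgroup.mem_inf.1 hhB
    have hT1 : T ∈ St z h hzG hzz := St_symm hA1
    have hT2 : g * T * g⁻¹ ∈ St z h hzG hzz := St_symm hB1
    have hle : Subgroup.zpowers T ⊔ (Subgroup.zpowers T).map (MulAut.conj g).toMonoidHom ≤
        St z h hzG hzz := by
      refine sup_le (Subgroup.zpowers_le.2 hT1) ?_
      rw [MonoidHom.map_zpowers]
      exact Subgroup.zpowers_le.2 hT2
    have hxS : x ∈ St z h hzG hzz := hle hxmem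
    refine Subgroup.mem_inf.2 ⟨hhH, ?_⟩
    show h ∈ Subgroup.centralizer ({x} : Set G)
    rw [Subgroup.mem_centralizer_singleton_iff]
    rcases mem_St.1 hxS with e | e
    · calc h * x = (x * h * x⁻¹) * x := by rw [e]
        _ = x * h := by group
    · exfalso
      have h5 := pow_conj hzG e 5
      rw [hx5, hz5] at h5
      apply hz1
      have : z * h = 1 * h := by rw [← h5]; simp
      exact mul_right_cancel this
  have hAH : A ≤ H := hAdef ▸ inf_le_left
  have hBH : B ≤ H := hBdef ▸ inf_le_left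
  have hcAB : Nat.card A ≤ Nat.card B := by
    have h1 : A.map (MulAut.conj g).toMonoidHom ≤ B := by
      rintro _ ⟨h, hh, rfl⟩
      rw [hAdef] at hh
      obtain ⟨hhH, hA1⟩ := Subgroup.mem_inf.1 hh
      rw [hBdef]
      exact Subgroup.mem_inf.2 ⟨hHn.conj_mem h hhH g, St_conj hA1⟩
    have h3 := Subgroup.card_le_of_le h1
    rwa [Subgroup.card_map_of_injective (MulAut.conj g).injective] at h3
  have hA8 : Nat.card A ≤ 8 := by
    have h3 := card_mul_le hAH hBH
    have h4 : Nat.card ↥(A ⊓ B) ≤ 2 := h2 ▸ Subgroup.card_le_of_le hAB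
    rw [h32] at h3
    by_contra hcon
    push Not at hcon
    nlinarith
  obtain ⟨C, hCdef⟩ : ∃ C : Subgroup G, C = H ⊓ Subgroup.centralizer ({T} : Set G) := ⟨_, rfl⟩
  rw [← hCdef] at hV ⊢
  have hCmem : ∀ c : G, c ∈ C ↔ c ∈ H ∧ c * T = T * c := by
    intro c
    rw [hCdef, Subgroup.mem_inf, Subgroup.mem_centralizer_singleton_iff]
  have hCA : C ≤ A := by
    intro c hc
    obtain ⟨hcH, hcT⟩ := (hCmem c).1 hc
    rw [hAdef]
    refine Subgroup.mem_inf.2 ⟨hcH, mem_St.2 (Or.inl ?_)⟩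
    rw [hcT]; group
  have h4dvd : 4 ∣ Nat.card C := hV4 ▸ Subgroup.card_dvd_of_le hV
  have hC8 : Nat.card C ≤ 8 := (Subgroup.card_le_of_le hCA).trans hA8
  have hC4 : Nat.card C = 4 := by
    by_contra hne
    have hC8' : Nat.card C = 8 := by
      obtain ⟨m, hm⟩ := h4dvd
      have : 0 < Nat.card C := Nat.card_pos
      omega
    have hCeq : C = A := Subgroup.eq_of_le_of_card_ge hCA (by rw [hC8']; exact hA8)
    obtain ⟨f, hf⟩ : ∃ f : G → G, ∀ k, f k = k⁻¹ * T * k * T := ⟨_, fun _ => rfl⟩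
    have hfH : ∀ k ∈ H, f k ∈ H := by
      intro k hk
      have h1 : T * k * T⁻¹ ∈ H := hHn.conj_mem k hk T
      rw [hTinv] at h1
      have h3 : f k = k⁻¹ * (T * k * T) := by rw [hf]; group
      rw [h3]; exact H.mul_mem (H.inv_mem hk) h1
    have hfinv : ∀ k : G, T * f k * T⁻¹ = (f k)⁻¹ := by
      intro k
      rw [hf]
      calc T * (k⁻¹ * T * k * T) * T⁻¹ = T * k⁻¹ * T * k := by group
        _ = T⁻¹ * k⁻¹ * T⁻¹ * k := by rw [hTinv]
        _ = _ := by group
    have hfC : ∀ k ∈ H, f k ∈ C := by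
      intro k hk
      rw [hCeq, hAdef]
      refine Subgroup.mem_inf.2 ⟨hfH k hk, St_symm (mem_St.2 ?_)⟩
      rw [hfinv]
      rcases S.sq (hfH k hk) with h | h
      · left; exact inv_eq_of_mul_eq_one_right h
      · right
        apply inv_eq_of_mul_eq_one_right
        rw [← mul_assoc, S.zc (hfH k hk), mul_assoc, h, hzz]
    have hfsq : ∀ k ∈ H, f k * f k = 1 := by
      intro k hk
      obtain ⟨-, hc⟩ := (hCmem _).1 (hfC k hk)
      have h1 := hfinv k
      have h3 : T * f k * T⁻¹ = f k := by rw [← hc]; group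
      rw [h3] at h1
      exact mul_eq_one_iff_eq_inv.2 h1
    have hfcomm : ∀ k ∈ H, ∀ c ∈ C, f k * c = c * f k := by
      intro k hk c hc
      obtain ⟨hcH, hcT⟩ := (hCmem c).1 hc
      have hcT' : c * T * c⁻¹ = T := by rw [hcT]; group
      have e : c * f k * c⁻¹ =
          (c * k * c⁻¹)⁻¹ * (c * T * c⁻¹) * (c * k * c⁻¹) * (c * T * c⁻¹) := by
        rw [hf]; group
      have e2 : c * f k * c⁻¹ = f k := by
        rcases S.comm hcH hk with h | h
        · have h5 : c * k * c⁻¹ = k := by rw [h]; group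
          rw [e, hcT', h5, hf]
        · have h5 : c * k * c⁻¹ = z * k := by rw [h]; group
          rw [e, hcT', h5, hf]
          calc (z * k)⁻¹ * T * (z * k) * T = k⁻¹ * (z⁻¹ * (T * z)) * k * T := by group
            _ = k⁻¹ * (z⁻¹ * (z * T)) * k * T := by rw [hzc T]
            _ = _ := by group
      calc f k * c = (c * f k * c⁻¹) * c := by rw [e2]
        _ = c * f k := by group
    have hfz : ∀ k ∈ H, f k ≠ z := by
      intro k hk h
      have h1 : T * k * T⁻¹ = z * k := by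
        calc T * k * T⁻¹ = T * k * T := by rw [hTinv]
          _ = k * (k⁻¹ * T * k * T) := by group
          _ = k * z := by rw [← hf, h]
          _ = z * k := hzc k
      have hkA : k ∈ A := by
        rw [hAdef]; exact Subgroup.mem_inf.2 ⟨hk, St_symm (mem_St.2 (Or.inr h1))⟩
      rw [← hCeq] at hkA
      obtain ⟨-, hkT⟩ := (hCmem k).1 hkA
      apply hz1
      have h3 : T * k * T⁻¹ = k := by rw [← hkT]; group
      rw [h3] at h1
      exact mul_right_cancel (show z * k = 1 * k by rw [one_mul, ← h1])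
    have hfinj : ∀ k ∈ H, ∀ k' ∈ H, f k = f k' → k' * k⁻¹ ∈ C := by
      intro k hk k' hk' h
      rw [hf, hf] at h
      have h1 : k⁻¹ * T * k = k'⁻¹ * T * k' := mul_right_cancel h
      refine (hCmem _).2 ⟨H.mul_mem hk' (H.inv_mem hk), ?_⟩
      calc k' * k⁻¹ * T = k' * (k⁻¹ * T * k) * k⁻¹ := by group
        _ = k' * (k'⁻¹ * T * k') * k⁻¹ := by rw [h1]
        _ = T * (k' * k⁻¹) := by group
    have hE4 : Nat.card ↥(Om C) ≤ 4 :=
      hminus (Om C) (fun c hc => ((hCmem c).1 hc.1).1)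
        ⟨⟨⟨fun a b => Subtype.ext (a.2.2.1 b b.2.1)⟩⟩, fun a ha => by rw [pow_two]; exact ha.2.2⟩
    have hzE : z ∈ Om C :=
      ⟨(hCmem z).2 ⟨S.zQ, (hzc T).symm⟩, fun c' _ => (hzc c').symm, hzz⟩
    have hfE : ∀ k ∈ H, f k ∈ Om C := fun k hk => ⟨hfC k hk, hfcomm k hk, hfsq k hk⟩
    let F : ↥H → {e : ↥(Om C) // e ≠ ⟨z, hzE⟩} :=
      fun k => ⟨⟨f k, hfE k k.2⟩, fun h => hfz k k.2 (congrArg Subtype.val h)⟩
    have hrep : ∀ k : ↥H, F (Function.invFun F (F k)) = F k :=
      fun k => Function.invFun_eq ⟨k, rfl⟩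
    have hrep' : ∀ k : ↥H, f ((Function.invFun F (F k) : ↥H) : G) = f k :=
      fun k => congrArg (fun e : {e : ↥(Om C) // e ≠ ⟨z, hzE⟩} => ((e.1 : ↥(Om C)) : G)) (hrep k)
    let Φ : ↥H → {e : ↥(Om C) // e ≠ ⟨z, hzE⟩} × ↥C :=
      fun k => (F k, ⟨(k : G) * ((Function.invFun F (F k) : ↥H) : G)⁻¹,
        hfinj _ (Subtype.property _) _ k.2 (hrep' k)⟩)
    have hΦ : Function.Injective Φ := by
      intro k k' h
      have h1 : F k = F k' := congrArg Prod.fst h
      have h3 : (k : G) * ((Function.invFun F (F k) : ↥H) : G)⁻¹ =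
          (k' : G) * ((Function.invFun F (F k') : ↥H) : G)⁻¹ :=
        congrArg (fun p : {e : ↥(Om C) // e ≠ ⟨z, hzE⟩} × ↥C => ((p.2 : ↥C) : G)) h
      rw [h1] at h3
      exact Subtype.ext (mul_right_cancel h3)
    have hcard := Nat.card_le_card_of_injective Φ hΦ
    rw [Nat.card_prod, h32, hC8'] at hcard
    have hlt : Nat.card {e : ↥(Om C) // e ≠ ⟨z, hzE⟩} < Nat.card ↥(Om C) :=
      Finite.card_subtype_lt (x := ⟨z, hzE⟩) (by simp)
    omega
  refine ⟨hC4, ?_⟩
  have hVC : V = C := Subgroup.eq_of_le_of_card_ge hV (by rw [hV4, hC4])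
  rw [← hVC]; exact hVe

end Cfsg.Agent.S4405
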