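import Cfsg.Statements.S4406
import Mathlib
-- import your own Cfsg.Agent.* helpers here

set_option autoImplicit false
open Cfsg

namespace Cfsg.Agent.S4406

abbrev A := ↥(alternatingGroup (Fin 4))

set_option maxRecDepth 100000 in
theorem D23 : ∀ v : A, v ^ 2 = 1 ∨ v ^ 3 = 1 := by decide +kernel

theorem cardA : Nat.card A = 12 := by
  rw [Nat.card_eq_fintype_card]; decide +kernel

set_option maxRecDepth 100000 in
set_option synthInstance.maxSize 100000 in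
set_option synthInstance.maxHeartbeats 0 in
theorem Dmain : ∀ v1 : A, (v1 ^ 2 = 1 ∧ v1 ≠ 1) → ∀ w1 : A, (w1 ^ 2 = 1 ∧ w1 ≠ 1) →
    ∀ v2 : A, (v2 ^ 2 = 1 ∧ v2 ≠ 1 ∧ v2 ≠ v1) → ∀ w2 : A, (w2 ^ 2 = 1 ∧ w2 ≠ 1 ∧ w2 ≠ w1) →
    ∀ c1 : A, (c1 ^ 3 = 1 ∧ c1 ≠ 1) → ∀ c2 : A, (c2 ^ 3 = 1 ∧ c2 ≠ 1) →
    ∃ d : A, (d = c2 ∨ d = c2⁻¹) ∧
      ((c1 * v1 * c1⁻¹ = v1 ∧ d * w1 * d⁻¹ = w1) ∨ (c1 * v1 * c1⁻¹ = v2 ∧ d * w1 * d⁻¹ = w2) ∨
        (c1 * v1 * c1⁻¹ = v1 * v2 ∧ d * w1 * d⁻¹ = w1 * w2)) ∧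
      ((c1 * v2 * c1⁻¹ = v1 ∧ d * w2 * d⁻¹ = w1) ∨ (c1 * v2 * c1⁻¹ = v2 ∧ d * w2 * d⁻¹ = w2) ∨
        (c1 * v2 * c1⁻¹ = v1 * v2 ∧ d * w2 * d⁻¹ = w1 * w2)) := by decide +kernel

theorem two_of (v : A) (k : ℕ) (h : v ^ (2 ^ k) = 1) : v ^ 2 = 1 := by
  rcases D23 v with h2 | h3
  · exact h2
  · have h1 : orderOf v ∣ 3 := orderOf_dvd_of_pow_eq_one h3
    have h2 : orderOf v ∣ 2 ^ k := orderOf_dvd_of_pow_eq_one h
    have hc : Nat.Coprime 3 (2 ^ k) := Nat.Coprime.pow_right k (by norm_num)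
    have h4 : orderOf v = 1 := Nat.eq_one_of_dvd_coprimes hc h1 h2
    rw [orderOf_eq_one_iff.mp h4, one_pow]

theorem three_of (v : A) (k : ℕ) (h : v ^ (3 ^ k) = 1) : v ^ 3 = 1 := by
  rcases D23 v with h2 | h3
  · have h1 : orderOf v ∣ 2 := orderOf_dvd_of_pow_eq_one h2
    have h2 : orderOf v ∣ 3 ^ k := orderOf_dvd_of_pow_eq_one h
    have hc : Nat.Coprime 2 (3 ^ k) := Nat.Coprime.pow_right k (by norm_num)
    have h4 : orderOf v = 1 := Nat.eq_one_of_dvd_coprimes hc h1 h2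
    rw [orderOf_eq_one_iff.mp h4, one_pow]
  · exact h3

theorem mem_norm_of_conj_le {G : Type*} [Group G] (H : Subgroup G) [Finite H] (g : G)
    (h : ∀ x ∈ H, g * x * g⁻¹ ∈ H) : g ∈ Subgroup.normalizer (H : Set G) := by
  have hle : H.map (MulAut.conj g).toMonoidHom ≤ H := by
    rintro _ ⟨x, hx, rfl⟩
    exact h x hx
  have hcard : Nat.card (H.map (MulAut.conj g).toMonoidHom) = Nat.card H :=
    Subgroup.card_map_of_injective (MulAut.conj g).injective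
  have heq : H.map (MulAut.conj g).toMonoidHom = H := Subgroup.eq_of_le_of_card_ge hle hcard.ge
  rw [Subgroup.mem_normalizer_iff]
  intro x
  refine ⟨h x, fun hx => ?_⟩
  rw [← heq] at hx
  obtain ⟨y, hy, hyx⟩ := hx
  have : y = x := (MulAut.conj g).injective hyx
  exact this ▸ hy

theorem ker_ne (Q : Subgroup (A × A)) (hQ : Nat.card ↥Q = 9) (φ : A × A →* A) :
    ∃ q ∈ Q, φ q = 1 ∧ q ≠ 1 := by
  by_contra hall
  push_neg at hall
  have hinj : Function.Injective (φ.comp Q.subtype) := by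
    rw [injective_iff_map_eq_one]
    intro q hq
    exact Subtype.ext (hall q.1 q.2 hq)
  have h1 : Nat.card ↥(φ.comp Q.subtype).range = 9 := by
    rw [← Nat.card_congr (MonoidHom.ofInjective hinj).toEquiv, hQ]
  have h2 := Subgroup.card_subgroup_dvd_card (φ.comp Q.subtype).range
  rw [h1, cardA] at h2
  omega


/-- In the direct product P = A₄ × A₄, let X be the Sylow 2-subgroup, X₁ and X₂ its intersections with the two direct factors, Q a Sylow 3-subgroup and Q₁, Q₂ its intersections with the two factors. Then every subgroup B of X of order 4 either meets X₁ or X₂ nontrivially, or is normalized by one of the two subgroups of Q of order 3 other than Q₁ and Q₂. -/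
theorem result
    (X : Sylow 2 (↥(alternatingGroup (Fin 4)) × ↥(alternatingGroup (Fin 4))))
    (Q : Sylow 3 (↥(alternatingGroup (Fin 4)) × ↥(alternatingGroup (Fin 4))))
    (B : Subgroup (↥(alternatingGroup (Fin 4)) × ↥(alternatingGroup (Fin 4)))) (hBX : B ≤ (X : Subgroup _)) (hB4 : Nat.card ↥B = 4) :
    B ⊓ ((X : Subgroup _) ⊓ Subgroup.prod ⊤ ⊥) ≠ ⊥ ∨ B ⊓ ((X : Subgroup _) ⊓ Subgroup.prod ⊥ ⊤) ≠ ⊥ ∨
      ∃ R : Subgroup (↥(alternatingGroup (Fin 4)) × ↥(alternatingGroup (Fin 4))), R ≤ (Q : Subgroup _) ∧ Nat.card ↥R = 3 ∧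
        R ≠ (Q : Subgroup _) ⊓ Subgroup.prod ⊤ ⊥ ∧ R ≠ (Q : Subgroup _) ⊓ Subgroup.prod ⊥ ⊤ ∧ R ≤ Subgroup.normalizer (B : Set _) := by
  classical
  by_cases hc1 : B ⊓ ((X : Subgroup _) ⊓ Subgroup.prod ⊤ ⊥) ≠ ⊥
  · exact Or.inl hc1
  by_cases hc2 : B ⊓ ((X : Subgroup _) ⊓ Subgroup.prod ⊥ ⊤) ≠ ⊥
  · exact Or.inr (Or.inl hc2)
  right; right
  have hc1' := not_not.mp hc1
  have hc2' := not_not.mp hc2
  have hB2 : ∀ b ∈ B, b.2 = 1 → b = 1 := by
    intro b hb h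
    have : b ∈ B ⊓ ((X : Subgroup _) ⊓ Subgroup.prod ⊤ ⊥) :=
      ⟨hb, hBX hb, Subgroup.mem_prod.mpr ⟨Subgroup.mem_top _, Subgroup.mem_bot.mpr h⟩⟩
    rw [hc1'] at this
    exact Subgroup.mem_bot.mp this
  have hB1 : ∀ b ∈ B, b.1 = 1 → b = 1 := by
    intro b hb h
    have : b ∈ B ⊓ ((X : Subgroup _) ⊓ Subgroup.prod ⊥ ⊤) :=
      ⟨hb, hBX hb, Subgroup.mem_prod.mpr ⟨Subgroup.mem_bot.mpr h, Subgroup.mem_top _⟩⟩
    rw [hc2'] at this
    exact Subgroup.mem_bot.mp this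
  have hX : ∀ b ∈ (X : Subgroup (A × A)), b.1 ^ 2 = 1 ∧ b.2 ^ 2 = 1 := by
    intro b hb
    obtain ⟨k, hk⟩ := X.2 ⟨b, hb⟩
    have hk' : b ^ (2 ^ k) = 1 := congrArg Subtype.val hk
    exact ⟨two_of b.1 k (by rw [← Prod.pow_fst, hk']; rfl), two_of b.2 k (by rw [← Prod.pow_snd, hk']; rfl)⟩
  have hQ3 : ∀ c ∈ (Q : Subgroup (A × A)), c.1 ^ 3 = 1 ∧ c.2 ^ 3 = 1 := by
    intro b hb
    obtain ⟨k, hk⟩ := Q.2 ⟨b, hb⟩
    have hk' : b ^ (3 ^ k) = 1 := congrArg Subtype.val hk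
    exact ⟨three_of b.1 k (by rw [← Prod.pow_fst, hk']; rfl), three_of b.2 k (by rw [← Prod.pow_snd, hk']; rfl)⟩
  haveI : Fact (Nat.Prime 3) := ⟨Nat.prime_three⟩
  have hQ9 : Nat.card ↥(Q : Subgroup (A × A)) = 9 := by
    obtain ⟨k, hk⟩ := (IsPGroup.iff_card).mp Q.2
    have h1 := Subgroup.index_mul_card (Q : Subgroup (A × A))
    have h2 := Q.not_dvd_index
    rw [Nat.card_prod, cardA] at h1
    have hk' : Nat.card ↥(Q : Subgroup (A × A)) = 3 ^ k := hk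
    rw [hk'] at h1
    have hk1 : k ≤ 2 := by
      by_contra hlt
      have h9 : 3 ^ 3 ∣ 3 ^ k := pow_dvd_pow 3 (by omega)
      have : 3 ^ 3 ∣ 12 * 12 := h1 ▸ (h9.trans (Dvd.intro_left _ rfl))
      omega
    interval_cases k
    · exfalso; apply h2; omega
    · exfalso; apply h2; omega
    · rw [hk']; norm_num
  obtain ⟨q1, hq1Q, hq12, hq1⟩ := ker_ne (Q : Subgroup (A × A)) hQ9 (MonoidHom.snd A A)
  obtain ⟨q2, hq2Q, hq21, hq2⟩ := ker_ne (Q : Subgroup (A × A)) hQ9 (MonoidHom.fst A A)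
  have hq12' : q1.2 = 1 := hq12
  have hq21' : q2.1 = 1 := hq21
  have hc1ne : q1.1 ≠ 1 := fun h => hq1 (Prod.ext h hq12')
  have hc2ne : q2.2 ≠ 1 := fun h => hq2 (Prod.ext hq21' h)
  -- two generators of B
  have hBn : (B : Set (A × A)).ncard = 4 := by rw [← Nat.card_coe_set_eq]; exact hB4
  obtain ⟨b1, hb1B, hb1⟩ : ∃ b ∈ (B : Set (A × A)), b ∉ ({1} : Set (A × A)) :=
    Set.exists_mem_notMem_of_ncard_lt_ncard (by rw [Set.ncard_singleton, hBn]; norm_num)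
  obtain ⟨b2, hb2B, hb2⟩ : ∃ b ∈ (B : Set (A × A)), b ∉ ({1, b1} : Set (A × A)) :=
    Set.exists_mem_notMem_of_ncard_lt_ncard
      (lt_of_le_of_lt (Set.ncard_insert_le _ _) (by rw [Set.ncard_singleton, hBn]; norm_num))
  have hb1' : b1 ≠ 1 := hb1
  have hb2' : b2 ≠ 1 ∧ b2 ≠ b1 := by
    simp only [Set.mem_insert_iff, Set.mem_singleton_iff, not_or] at hb2
    exact hb2
  have hb1B' : b1 ∈ B := hb1B
  have hb2B' : b2 ∈ B := hb2B
  have hv1 : b1.1 ≠ 1 := fun h => hb1' (hB1 b1 hb1B' h)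
  have hw1 : b1.2 ≠ 1 := fun h => hb1' (hB2 b1 hb1B' h)
  have hv2 : b2.1 ≠ 1 := fun h => hb2'.1 (hB1 b2 hb2B' h)
  have hw2 : b2.2 ≠ 1 := fun h => hb2'.1 (hB2 b2 hb2B' h)
  have hv12 : b2.1 ≠ b1.1 := by
    intro h
    have h1 : b1⁻¹ * b2 = 1 := hB1 _ (B.mul_mem (B.inv_mem hb1B') hb2B') (by
      show b1.1⁻¹ * b2.1 = 1
      rw [h, inv_mul_cancel])
    exact hb2'.2 (inv_mul_eq_one.mp h1).symm
  have hw12 : b2.2 ≠ b1.2 := by
    intro h
    have h1 : b1⁻¹ * b2 = 1 := hB2 _ (B.mul_mem (B.inv_mem hb1B') hb2B') (by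
      show b1.2⁻¹ * b2.2 = 1
      rw [h, inv_mul_cancel])
    exact hb2'.2 (inv_mul_eq_one.mp h1).symm
  have hx1 := hX b1 (hBX hb1B')
  have hx2 := hX b2 (hBX hb2B')
  obtain ⟨d, hd, hr1, hr2⟩ := Dmain b1.1 ⟨hx1.1, hv1⟩ b1.2 ⟨hx1.2, hw1⟩ b2.1 ⟨hx2.1, hv2, hv12⟩
    b2.2 ⟨hx2.2, hw2, hw12⟩ q1.1 ⟨(hQ3 q1 hq1Q).1, hc1ne⟩ q2.2 ⟨(hQ3 q2 hq2Q).2, hc2ne⟩
  set r : A × A := (q1.1, d) with hr
  have hdne : d ≠ 1 := by
    rcases hd with h | h
    · rw [h]; exact hc2ne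
    · rw [h]; exact fun h' => hc2ne (inv_eq_one.mp h')
  have hd3 : d ^ 3 = 1 := by
    rcases hd with h | h
    · rw [h]; exact (hQ3 q2 hq2Q).2
    · rw [h, inv_pow, (hQ3 q2 hq2Q).2, inv_one]
  have hrQ : r ∈ (Q : Subgroup (A × A)) := by
    rcases hd with h | h
    · have : r = q1 * q2 := by
        apply Prod.ext
        · show q1.1 = q1.1 * q2.1
          rw [hq21', mul_one]
        · show d = q1.2 * q2.2
          rw [hq12', one_mul, h]
      rw [this]; exact Subgroup.mul_mem _ hq1Q hq2Q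
    · have : r = q1 * q2⁻¹ := by
        apply Prod.ext
        · show q1.1 = q1.1 * q2.1⁻¹
          rw [hq21', inv_one, mul_one]
        · show d = q1.2 * q2.2⁻¹
          rw [hq12', one_mul, h]
      rw [this]; exact Subgroup.mul_mem _ hq1Q (Subgroup.inv_mem _ hq2Q)
  have hrb1 : r * b1 * r⁻¹ ∈ B := by
    rcases hr1 with ⟨h1, h2⟩ | ⟨h1, h2⟩ | ⟨h1, h2⟩
    · have : r * b1 * r⁻¹ = b1 := Prod.ext h1 h2
      rw [this]; exact hb1B'
    · have : r * b1 * r⁻¹ = b2 := Prod.ext h1 h2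
      rw [this]; exact hb2B'
    · have : r * b1 * r⁻¹ = b1 * b2 := Prod.ext h1 h2
      rw [this]; exact B.mul_mem hb1B' hb2B'
  have hrb2 : r * b2 * r⁻¹ ∈ B := by
    rcases hr2 with ⟨h1, h2⟩ | ⟨h1, h2⟩ | ⟨h1, h2⟩
    · have : r * b2 * r⁻¹ = b1 := Prod.ext h1 h2
      rw [this]; exact hb1B'
    · have : r * b2 * r⁻¹ = b2 := Prod.ext h1 h2
      rw [this]; exact hb2B'
    · have : r * b2 * r⁻¹ = b1 * b2 := Prod.ext h1 h2
      rw [this]; exact B.mul_mem hb1B' hb2B'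
  -- B = {1, b1, b2, b1 b2}
  have hb1sq : b1 * b1 = 1 := by
    apply Prod.ext
    · show b1.1 * b1.1 = 1
      rw [← sq]; exact hx1.1
    · show b1.2 * b1.2 = 1
      rw [← sq]; exact hx1.2
  have h03 : (1 : A × A) ≠ b1 * b2 := by
    intro h
    apply hb2'.2
    calc b2 = (b1 * b1) * b2 := by rw [hb1sq, one_mul]
      _ = b1 * (b1 * b2) := by rw [mul_assoc]
      _ = b1 := by rw [← h, mul_one]
  have h13 : b1 ≠ b1 * b2 := fun h => hb2'.1 (by simpa using h.symm)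
  have h23 : b2 ≠ b1 * b2 := fun h => hb1' (by simpa using h.symm)
  have hs4 : ({1, b1, b2, b1 * b2} : Finset (A × A)).card = 4 := by
    rw [Finset.card_insert_of_notMem (by simp [hb1'.symm, hb2'.1.symm, h03]),
      Finset.card_insert_of_notMem (by simp [hb2'.2.symm, h13]),
      Finset.card_insert_of_notMem (by simp [h23]), Finset.card_singleton]
  have hsB : ((({1, b1, b2, b1 * b2} : Finset (A × A)) : Set (A × A))) = (B : Set (A × A)) := by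
    apply Set.eq_of_subset_of_ncard_le
    · intro b hb
      simp only [Finset.coe_insert, Finset.coe_singleton, Set.mem_insert_iff,
        Set.mem_singleton_iff] at hb
      rcases hb with rfl | rfl | rfl | rfl
      · exact B.one_mem
      · exact hb1B'
      · exact hb2B'
      · exact B.mul_mem hb1B' hb2B'
    · rw [Set.ncard_coe_finset, hs4, hBn]
    · exact Set.toFinite _
  have hnorm : r ∈ Subgroup.normalizer (B : Set (A × A)) := by
    apply mem_norm_of_conj_le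
    intro b hb
    have hb' : b ∈ (B : Set (A × A)) := hb
    rw [← hsB] at hb'
    simp only [Finset.coe_insert, Finset.coe_singleton, Set.mem_insert_iff,
      Set.mem_singleton_iff] at hb'
    rcases hb' with rfl | rfl | rfl | rfl
    · simp [B.one_mem]
    · exact hrb1
    · exact hrb2
    · have : r * (b1 * b2) * r⁻¹ = (r * b1 * r⁻¹) * (r * b2 * r⁻¹) := by group
      rw [this]; exact B.mul_mem hrb1 hrb2
  refine ⟨Subgroup.zpowers r, Subgroup.zpowers_le.mpr hrQ, ?_, ?_, ?_, Subgroup.zpowers_le.mpr hnorm⟩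
  · rw [Nat.card_zpowers]
    apply orderOf_eq_prime
    · apply Prod.ext
      · show q1.1 ^ 3 = 1
        exact (hQ3 q1 hq1Q).1
      · show d ^ 3 = 1
        exact hd3
    · intro h
      exact hdne (congrArg Prod.snd h)
  · intro h
    have h1 : r ∈ (Q : Subgroup (A × A)) ⊓ Subgroup.prod ⊤ ⊥ := h ▸ Subgroup.mem_zpowers r
    exact hdne (Subgroup.mem_bot.mp (Subgroup.mem_prod.mp h1.2).2)
  · intro h
    have h1 : r ∈ (Q : Subgroup (A × A)) ⊓ Subgroup.prod ⊥ ⊤ := h ▸ Subgroup.mem_zpowers r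
    exact hc1ne (Subgroup.mem_bot.mp (Subgroup.mem_prod.mp h1.2).1)

end Cfsg.Agent.S4406
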