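import Cfsg.Statements.S4408
import Cfsg.Agent.H1.ElemTwoAct
import Cfsg.Agent.H1.Fit
import Cfsg.Agent.Lib.Helper22.FittingSub

set_option autoImplicit false
open Cfsg

namespace Cfsg.Agent.S4408

/-- Let S be a finite solvable group whose Fitting subgroup F(S) has odd order, and let I be an elementary abelian 2-subgroup of S of order 2ⁿ with n ≥ 1. Then F(S) contains subgroups A₁, …, Aₙ of prime order, each normalized by I, pairwise commuting and generating a subgroup A of order |A₁|⋯|Aₙ| (their internal direct product), such that no non-identity element of I centralizes A. -/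
theorem result {S : Type*} [Group S] [Finite S]
    [Group.IsSolvable S] (hF : Odd (Nat.card ↥(Cfsg.fittingSubgroup S)))
    (I : Subgroup S) (hI : Cfsg.IsElementaryAbelian 2 I) (n : ℕ) (hn : 1 ≤ n) (hIn : Nat.card ↥I = 2 ^ n) :
    ∃ f : Fin n → Subgroup S, (∀ i, (Nat.card ↥(f i)).Prime) ∧ (∀ i, f i ≤ Cfsg.fittingSubgroup S) ∧
      (∀ i, I ≤ Subgroup.normalizer ((f i) : Set S)) ∧ (∀ i j, i ≠ j → ∀ a ∈ f i, ∀ b ∈ f j, a * b = b * a) ∧
      Nat.card ↥(⨆ i, f i) = ∏ i, Nat.card ↥(f i) ∧ I ⊓ Subgroup.centralizer ((⨆ i, f i : Subgroup S) : Set S) = ⊥ := by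
  classical
  have hIc : ∀ a ∈ I, ∀ b ∈ I, a * b = b * a := by
    intro a ha b hb
    haveI := hI.1
    exact congrArg Subtype.val (mul_comm' (⟨a, ha⟩ : I) ⟨b, hb⟩)
  have hI2 : ∀ b ∈ I, b * b = 1 := by
    intro b hb
    rw [← sq]; exact hI.2 b hb
  set F := Cfsg.fittingSubgroup S with hFdef
  haveI hFn : F.Normal := Cfsg.Agent.Lib.Helper22.fittingSubgroup_normal
  have hFnil : Group.IsNilpotent F := Cfsg.Agent.Lib.Helper22.fittingSubgroup_isNilpotent
  have hfaith : I ⊓ Subgroup.centralizer (F : Set S) = ⊥ := by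
    rw [eq_bot_iff]
    intro b hb
    obtain ⟨hb1, hb2⟩ := Subgroup.mem_inf.mp hb
    rw [Subgroup.mem_bot]
    exact Cfsg.H1.eq_one_of_mul_self_of_odd F hF (Cfsg.H1.centralizer_fitting_le hb2) (hI2 b hb1)
  obtain ⟨x, a, h1, h2, h3, h4, h5, h6, h7, h8, h9⟩ := Cfsg.H1.elem_two_ambient F I hFnil hF
    (by rw [Subgroup.normalizer_eq_top]; exact le_top) hIc hI2 n hIn hfaith
  refine ⟨fun i => Subgroup.zpowers (x i), ?_, ?_, ?_, ?_, ?_, ?_⟩
  · intro i
    rw [Nat.card_zpowers]; exact h2 i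
  · intro i
    rw [Subgroup.zpowers_le]; exact h1 i
  · intro i b hb
    apply Cfsg.H1.mem_normalizer_of_conj_mem'
    intro u hu
    obtain ⟨k, rfl⟩ := Subgroup.mem_zpowers_iff.mp hu
    rw [← conj_zpow]
    rcases h8 b hb i with h | h
    · rw [h]; exact Subgroup.zpow_mem _ (Subgroup.mem_zpowers _) k
    · rw [h]; exact Subgroup.zpow_mem _ (Subgroup.inv_mem _ (Subgroup.mem_zpowers _)) k
  · intro i j _ u hu v hv
    obtain ⟨k, rfl⟩ := Subgroup.mem_zpowers_iff.mp hu
    obtain ⟨l, rfl⟩ := Subgroup.mem_zpowers_iff.mp hv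
    exact ((show Commute (x i) (x j) from h5 i j).zpow_zpow k l).eq
  · apply Cfsg.H1.card_iSup_eq_prod' (fun i => Subgroup.zpowers (x i))
      (fun i => Subgroup.centralizer ({a i} : Set S))
    · intro i j _ u hu v hv
      obtain ⟨k, rfl⟩ := Subgroup.mem_zpowers_iff.mp hu
      obtain ⟨l, rfl⟩ := Subgroup.mem_zpowers_iff.mp hv
      exact ((show Commute (x i) (x j) from h5 i j).zpow_zpow k l).eq
    · intro i j hij
      rw [Subgroup.zpowers_le, Subgroup.mem_centralizer_singleton_iff]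
      exact (h7 i j hij).symm
    · intro i
      rw [eq_bot_iff]
      intro u hu
      obtain ⟨hu1, hu2⟩ := Subgroup.mem_inf.mp hu
      rw [Subgroup.mem_centralizer_singleton_iff] at hu2
      obtain ⟨k, rfl⟩ := Subgroup.mem_zpowers_iff.mp hu1
      have e1 : a i * x i ^ k * (a i)⁻¹ = x i ^ k := by
        rw [← hu2, mul_inv_cancel_right]
      have e2 : a i * x i ^ k * (a i)⁻¹ = (x i ^ k)⁻¹ := by
        rw [← conj_zpow, h6 i, inv_zpow]
      have e3 : x i ^ k * x i ^ k = 1 := by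
        nth_rewrite 1 [← e1]
        rw [e2, inv_mul_cancel]
      rw [Subgroup.mem_bot]
      exact Cfsg.H1.eq_one_of_mul_self_of_odd F hF (F.zpow_mem (h1 i) k) e3
  · rw [eq_bot_iff]
    intro b hb
    obtain ⟨hb1, hb2⟩ := Subgroup.mem_inf.mp hb
    rw [Subgroup.mem_bot]
    apply h9 b hb1
    intro i
    have hxi : x i ∈ (⨆ i, Subgroup.zpowers (x i) : Subgroup S) :=
      (le_iSup (fun i => Subgroup.zpowers (x i)) i) (Subgroup.mem_zpowers (x i))
    exact (Subgroup.mem_centralizer_iff.mp hb2 (x i) hxi).symm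

end Cfsg.Agent.S4408
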