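import Cfsg.Statements.S4420

set_option autoImplicit false
open Cfsg

namespace Cfsg.Agent.S4420



/-- Structure of groups in which every element outside some proper subgroup has square 1. Let H be a finite group with a proper subgroup A such that every element outside A has square 1. Then H has an abelian normal subgroup B of index 2 such that every element outside B is an involution inverting every element of B; and if H is not an elementary abelian 2-group, B is the only abelian normal subgroup of index 2 with this property. -/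
theorem result {H : Type*} [Group H] [Finite H] (A : Subgroup H) (hA : A ≠ ⊤) (hD : ∀ x : H, x ∉ A → x ^ 2 = 1) :
    ∃ B : Subgroup H, B.Normal ∧ IsMulCommutative ↥B ∧ B.index = 2 ∧
      (∀ x : H, x ∉ B → x ^ 2 = 1 ∧ ∀ b ∈ B, x * b * x⁻¹ = b⁻¹) ∧
      (¬ (IsMulCommutative H ∧ ∀ x : H, x ^ 2 = 1) →
        ∀ B' : Subgroup H, B'.Normal → IsMulCommutative ↥B' → B'.index = 2 →
          (∀ x : H, x ∉ B' → x ^ 2 = 1 ∧ ∀ b ∈ B', x * b * x⁻¹ = b⁻¹) → B' = B) := by
  obtain ⟨t, htA⟩ : ∃ t : H, t ∉ A := by
    by_contra hcon
    push Not at hcon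
    exact hA (Subgroup.eq_top_iff' A |>.2 hcon)
  by_cases hall : ∀ x : H, x ^ 2 = 1
  · -- elementary abelian case
    have hcomm : ∀ a b : H, a * b = b * a := by
      intro a b
      have h1 := hall (a * b)
      have h2 := hall a
      have h3 := hall b
      have ha : a⁻¹ = a := by rw [inv_eq_iff_mul_eq_one, ← sq]; exact h2
      have hb : b⁻¹ = b := by rw [inv_eq_iff_mul_eq_one, ← sq]; exact h3
      have hab : (a * b)⁻¹ = a * b := by rw [inv_eq_iff_mul_eq_one, ← sq]; exact h1
      rw [mul_inv_rev, ha, hb] at hab
      exact hab.symm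
    obtain ⟨M, hM, hAM⟩ := (eq_top_or_exists_le_coatom A).resolve_left hA
    obtain ⟨s, hsM⟩ : ∃ s : H, s ∉ M := by
      by_contra hcon
      push Not at hcon
      exact hM.1 (Subgroup.eq_top_iff' M |>.2 hcon)
    have hsup : M ⊔ Subgroup.zpowers s = ⊤ := by
      apply hM.2
      refine lt_of_le_of_ne le_sup_left ?_
      intro heq
      apply hsM
      rw [heq]
      exact (le_sup_right : Subgroup.zpowers s ≤ _) (Subgroup.mem_zpowers s)
    have hidx : M.index = 2 := by
      rw [Subgroup.index_eq_two_iff]
      refine ⟨s, fun b => ?_⟩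
      by_cases hb : b ∈ M
      · right
        refine ⟨hb, ?_⟩
        intro hbs
        apply hsM
        have := M.mul_mem (M.inv_mem hb) hbs
        simpa using this
      · left
        refine ⟨?_, hb⟩
        have hbt : b ∈ M ⊔ Subgroup.zpowers s := by rw [hsup]; exact Subgroup.mem_top b
        have hMn : M.Normal := ⟨fun n hn g => by rw [hcomm g n]; simpa using hn⟩
        have hbt' : b ∈ ((M ⊔ Subgroup.zpowers s : Subgroup H) : Set H) := hbt
        rw [Subgroup.normal_mul] at hbt'
        obtain ⟨m, hm, z, hz, rfl⟩ := Set.mem_mul.1 hbt'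
        obtain ⟨k, rfl⟩ := Subgroup.mem_zpowers_iff.1 hz
        rcases Int.even_or_odd' k with ⟨j, rfl | rfl⟩
        · exfalso
          apply hb
          rw [zpow_mul, zpow_ofNat, hall s]
          simpa using hm
        · rw [zpow_add, zpow_mul, zpow_ofNat, hall s]
          simp only [one_zpow, zpow_one, one_mul, mul_assoc]
          rw [← sq, hall s, mul_one]
          exact hm
    refine ⟨M, ⟨fun n hn g => by rw [hcomm g n]; simpa using hn⟩, ⟨⟨fun a b => Subtype.ext (hcomm a b)⟩⟩, hidx, ?_, ?_⟩
    · intro x _
      refine ⟨hall x, fun b _ => ?_⟩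
      rw [hcomm x b, mul_inv_cancel_right, eq_comm, inv_eq_iff_mul_eq_one, ← sq]
      exact hall b
    · intro hne
      exact absurd ⟨⟨⟨hcomm⟩⟩, hall⟩ hne
  · push Not at hall
    obtain ⟨y, hy⟩ := hall
    have hyA : y ∈ A := by
      by_contra h
      exact hy (hD y h)
    -- elements outside A invert A
    have hinv : ∀ x : H, x ∉ A → ∀ a ∈ A, x * a * x⁻¹ = a⁻¹ := by
      intro x hx a ha
      have hxa : x * a ∉ A := by
        intro h
        apply hx
        have := A.mul_mem h (A.inv_mem ha)
        simpa using this
      have h1 := hD _ hxa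
      have h2 := hD _ hx
      have hx' : x⁻¹ = x := by rw [inv_eq_iff_mul_eq_one, ← sq]; exact h2
      rw [hx', eq_inv_iff_mul_eq_one]
      rw [sq] at h1
      simpa [mul_assoc] using h1
    have hAcomm : ∀ a ∈ A, ∀ b ∈ A, a * b = b * a := by
      intro a ha b hb
      have h1 := hinv t htA (a * b) (A.mul_mem ha hb)
      have h2 := hinv t htA a ha
      have h3 := hinv t htA b hb
      have h4 : t * (a * b) * t⁻¹ = (t * a * t⁻¹) * (t * b * t⁻¹) := by group
      rw [h4, h2, h3, mul_inv_rev] at h1
      have := congrArg (·⁻¹) h1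
      simpa using this.symm
    have hyinv : y⁻¹ ≠ y := by
      intro h
      apply hy
      rw [sq]
      rw [inv_eq_iff_mul_eq_one] at h
      exact h
    have hcent : ∀ x : H, x * y * x⁻¹ = y → x ∈ A := by
      intro x hx
      by_contra hxA
      exact hyinv ((hinv x hxA y hyA).symm.trans hx)
    have hidx : A.index = 2 := by
      rw [Subgroup.index_eq_two_iff]
      refine ⟨t, fun b => ?_⟩
      by_cases hb : b ∈ A
      · right
        refine ⟨hb, ?_⟩
        intro hbs
        apply htA
        have := A.mul_mem (A.inv_mem hb) hbs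
        simpa using this
      · left
        refine ⟨?_, hb⟩
        apply hcent
        have h1 := hinv t htA y hyA
        have h2 := hinv b hb y⁻¹ (A.inv_mem hyA)
        have : b * t * y * (b * t)⁻¹ = b * (t * y * t⁻¹) * b⁻¹ := by group
        rw [this, h1, h2, inv_inv]
    refine ⟨A, Subgroup.normal_of_index_eq_two hidx, ⟨⟨fun a b => Subtype.ext (hAcomm a a.2 b b.2)⟩⟩, hidx, ?_, ?_⟩
    · intro x hx
      exact ⟨hD x hx, hinv x hx⟩
    · intro _ B' _ hB'c _ hB'
      have hyB' : y ∈ B' := by
        by_contra h
        exact hy (hB' y h).1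
      apply le_antisymm
      · intro b hb
        apply hcent
        have := (isMulCommutative_iff.1 hB'c) ⟨b, hb⟩ ⟨y, hyB'⟩
        have h2 : b * y = y * b := congrArg Subtype.val this
        rw [h2, mul_inv_cancel_right]
      · intro a ha
        by_contra haB'
        have h1 := (hB' a haB').2 y hyB'
        have h2 := hAcomm a ha y hyA
        rw [h2, mul_inv_cancel_right] at h1
        exact hyinv h1.symm

end Cfsg.Agent.S4420
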