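import Cfsg.Statements.S4518
import Cfsg.Agent.Lib.Helper10.CliffConj
import Cfsg.Agent.Lib.Helper10.GaloisIrr
-- import your own Cfsg.Agent.* helpers here

set_option autoImplicit false
open Cfsg Cfsg.Agent.CharLib Cfsg.Agent.CharLib.H2 Cfsg.Agent.Lib.Helper10
open scoped ComplexConjugate

namespace Cfsg.Agent.S4518

/-- Let N be a normal subgroup of the finite group G whose index is not divisible by the prime p, and let k be coprime to the order of G with k ^ (p ^ e) ≡ 1 modulo the order of G for some e (so g ↦ g ^ k induces a field automorphism of p-power order on character values). If an irreducible character χ of G satisfies χ (g ^ k) = χ g for all g, then every irreducible constituent θ of the restriction of χ to N satisfies θ (n ^ k) = θ n for all n. -/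
theorem result {G : Type*} [Group G] [Fintype G] (p : ℕ) [Fact p.Prime] (N : Subgroup G) [N.Normal] [Fintype N] (hidx : ¬ p ∣ N.index) (k e : ℕ) (hk : Nat.Coprime k (Nat.card G)) (hke : k ^ (p ^ e) ≡ 1 [MOD Nat.card G]) (χ : Cfsg.IrrCharacter G) (hχ : ∀ g : G, (χ : G → ℂ) (g ^ k) = (χ : G → ℂ) g) (θ : Cfsg.IrrCharacter N) (hθ : Cfsg.classInner (fun n : N => (χ : G → ℂ) n) (θ : N → ℂ) ≠ 0) : ∀ n : N, (θ : N → ℂ) (n ^ k) = (θ : N → ℂ) n := by
  classical
  have hN : N.Normal := inferInstance
  have hkN : Nat.Coprime k (Nat.card N) :=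
    Nat.Coprime.coprime_dvd_right (Subgroup.card_subgroup_dvd_card N) hk
  -- conjugation commutes with the power map
  have hconjpow : ∀ (ψ : N → ℂ) (g : G),
      (fun n : N => H2.conjFun hN ψ g (n ^ k)) = H2.conjFun hN (fun n : N => ψ (n ^ k)) g := by
    intro ψ g
    funext n
    simp only [H2.conjFun_apply]
    congr 1
    apply Subtype.ext
    simp [conj_pow]
  -- the power map preserves inner products
  have hinner : ∀ α β : N → ℂ, classInner (fun n : N => α (n ^ k)) (fun n : N => β (n ^ k)) =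
      classInner α β := by
    intro α β
    rw [classInner, classInner]
    congr 1
    exact Fintype.sum_equiv (powCoprime hkN.symm) _ _ (fun n => rfl)
  have hθk : IsIrrCharacter N (fun n : N => (θ : N → ℂ) (n ^ k)) := isIrrCharacter_pow θ.2 k hkN
  have hθk2 : classInner (fun n : N => (χ : G → ℂ) n) (fun n : N => (θ : N → ℂ) (n ^ k)) ≠ 0 := by
    have h1 : (fun n : N => (χ : G → ℂ) n) = fun n : N => (fun m : N => (χ : G → ℂ) m) (n ^ k) := by
      funext n
      exact (hχ n).symm
    rw [h1, hinner (fun m : N => (χ : G → ℂ) m) (θ : N → ℂ)]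
    exact hθ
  obtain ⟨g₁, hg₁⟩ := clifford_conj N hN χ.2 θ.2 hθk hθ hθk2
  set Ω := Finset.univ.image (fun g : G => H2.conjFun hN (θ : N → ℂ) g) with hΩ
  have hcard : ¬ p ∣ Fintype.card Ω := by
    have h0 : Ω.card = (inertia hN (θ : N → ℂ)).index := by
      rw [hΩ]
      convert card_orbit_conjFun hN (θ : N → ℂ)
    rw [Fintype.card_coe, h0]
    intro h
    exact hidx (h.trans (Subgroup.index_dvd_of_le (le_inertia hN (isClassFunction_of_irr θ.2))))
  let f : Function.End Ω := fun ψ => ⟨fun n => ψ.1 (n ^ k), by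
    obtain ⟨g, -, hg⟩ := Finset.mem_image.1 ψ.2
    rw [← hg, hconjpow, hg₁, conjFun_conjFun]
    exact Finset.mem_image.2 ⟨_, Finset.mem_univ _, rfl⟩⟩
  have hiter : ∀ (m : ℕ) (ψ : Ω) (n : N), (f^[m] ψ).1 n = ψ.1 (n ^ (k ^ m)) := by
    intro m
    induction m with
    | zero =>
      intro ψ n
      rw [pow_zero, pow_one]
      rfl
    | succ m ih =>
      intro ψ n
      rw [Function.iterate_succ_apply']
      change (f^[m] ψ).1 (n ^ k) = _
      rw [ih, ← pow_mul, pow_succ, mul_comm]
  have hf : f ^ p ^ e = 1 := by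
    have h1 : (f ^ p ^ e : Function.End Ω) = f^[p ^ e] :=
      hom_coe_pow (fun g : Function.End Ω => g) rfl (fun g h => rfl) f (p ^ e)
    rw [h1]
    funext ψ
    apply Subtype.ext
    funext n
    rw [hiter]
    have h2 : n ^ (k ^ p ^ e) = n := by
      have h3 : k ^ p ^ e ≡ 1 [MOD orderOf n] :=
        hke.of_dvd ((orderOf_dvd_natCard n).trans (Subgroup.card_subgroup_dvd_card N))
      have h4 := pow_eq_pow_iff_modEq.2 h3
      rw [h4, pow_one]
    rw [h2]
    rfl
  have hmod := Equiv.Perm.card_fixedPoints_modEq hf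
  have hne : Fintype.card (Function.fixedPoints f) ≠ 0 := by
    intro h0
    rw [h0] at hmod
    exact hcard (Nat.modEq_zero_iff_dvd.1 hmod)
  obtain ⟨⟨ψ₀, hψ₀⟩⟩ := Fintype.card_pos_iff.1 (Nat.pos_of_ne_zero hne)
  have hfix : ∀ n : N, ψ₀.1 (n ^ k) = ψ₀.1 n := by
    intro n
    have h1 : f ψ₀ = ψ₀ := hψ₀
    exact congrFun (congrArg Subtype.val h1) n
  obtain ⟨g₀, -, hg₀⟩ := Finset.mem_image.1 ψ₀.2
  have hθ0 : (θ : N → ℂ) = H2.conjFun hN ψ₀.1 g₀⁻¹ := by
    rw [← hg₀, conjFun_conjFun, mul_inv_cancel, conjFun_one]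
  intro n
  have h1 := congrFun (hconjpow ψ₀.1 g₀⁻¹) n
  rw [hθ0]
  rw [h1]
  congr 1
  funext m
  exact hfix m

end Cfsg.Agent.S4518
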