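import Cfsg.Statements.S4520
import Cfsg.Agent.S4517
import Cfsg.Agent.S4438
import Cfsg.Agent.S0906
import Cfsg.Agent.Lib.Helper10.GaloisIrr
import Cfsg.Agent.Lib.Helper23.MinMax2

set_option autoImplicit false
open Cfsg

namespace Cfsg.Agent.S4520

open Cfsg Cfsg.Agent.CharLib Cfsg.Agent.BlockLib Cfsg.Agent.Lib.Helper23 Cfsg.Agent.Lib.Helper23.MinMax
open scoped ComplexConjugate

theorem h23_centralizer_pow {G : Type*} [Group G] [Finite G] (g : G) {k : ℕ}
    (hk : Nat.Coprime k (Nat.card G)) :
    Subgroup.centralizer ({g ^ k} : Set G) = Subgroup.centralizer ({g} : Set G) := by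
  obtain ⟨j, hj⟩ := exists_pow_eq_self_of_coprime
    (Nat.Coprime.coprime_dvd_right (orderOf_dvd_natCard g) hk)
  ext c
  rw [Subgroup.mem_centralizer_singleton_iff, Subgroup.mem_centralizer_singleton_iff]
  constructor
  · intro h
    have : Commute c (g ^ k) := h
    have h2 := this.pow_right j
    rw [hj] at h2
    exact h2
  · intro h
    exact (show Commute c g from h).pow_right k

/-- the block of a character fixed by a power map is stable under that power map -/
theorem h23_stab_of_fixed {G : Type*} [Group G] [Finite G] (M : Ideal AlgInt) {k : ℕ}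
    (hk : Nat.Coprime k (Nat.card G)) (χ : IrrCharacter G)
    (hχ : ∀ g : G, (χ : G → ℂ) (g ^ k) = (χ : G → ℂ) g) :
    ∀ ψ ∈ blockOf M (χ : G → ℂ), ∃ ψ' ∈ blockOf M (χ : G → ℂ),
      ∀ g : G, (ψ' : G → ℂ) g = (ψ : G → ℂ) (g ^ k) := by
  intro ψ hψ
  refine ⟨⟨fun g => (ψ : G → ℂ) (g ^ k), Cfsg.Agent.Lib.Helper10.isIrrCharacter_pow ψ.2 k hk⟩, ?_,
    fun g => rfl⟩
  intro g
  have h := hψ (g ^ k)
  simp only [centralChar] at h ⊢
  rw [h23_centralizer_pow g hk, hχ] at h
  rw [one_pow]
  exact h

theorem h23_defect_principal {G : Type*} [Group G] [Finite G] {M : Ideal AlgInt} (hM : M ≠ ⊤)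
    (p : ℕ) : blockDefect p (principalBlock M G) = (Nat.card G).factorization p := by
  cases nonempty_fintype G
  have h1 : trivIrr G ∈ principalBlock M G := SameBlock.refl' hM _
  have h2 := minExp_le (p := p) h1
  have h3 : charDegree ((trivIrr G : IrrCharacter G) : G → ℂ) = 1 := by
    simp [charDegree, trivIrr]
  rw [h3] at h2
  simp only [Nat.factorization_one, Finsupp.coe_zero, Pi.zero_apply, Nat.le_zero_eq] at h2
  rw [blockDefect_eq, h2, Nat.sub_zero]

/-- Let N be a normal subgroup of odd index in the finite group G, M a maximal ideal of the algebraic integers containing 2, and k coprime to the order of G with k ^ (2 ^ e) ≡ 1 modulo the order of G for some e and g ^ k = g⁻¹ for every element g of odd order. Let θ be an irreducible character of N and χ an irreducible character of G over θ, both unchanged by composing with g ↦ g ^ k. Then χ lies in the principal 2-block of G if and only if θ lies in the principal 2-block of N. -/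
theorem result {G : Type*} [Group G] [Fintype G] (M : Ideal Cfsg.AlgInt) (hM : Cfsg.IsPModular 2 M) (N : Subgroup G) [N.Normal] [Fintype N] (hidx : Odd N.index) (k e : ℕ) (hk : Nat.Coprime k (Nat.card G)) (hke : k ^ (2 ^ e) ≡ 1 [MOD Nat.card G]) (hk₂ : ∀ g : G, Odd (orderOf g) → g ^ k = g⁻¹) (θ : Cfsg.IrrCharacter N) (hθ : ∀ n : N, (θ : N → ℂ) (n ^ k) = (θ : N → ℂ) n) (χ : Cfsg.IrrCharacter G) (hχ : ∀ g : G, (χ : G → ℂ) (g ^ k) = (χ : G → ℂ) g) (hover : Cfsg.classInner (fun n : N => (χ : G → ℂ) n) (θ : N → ℂ) ≠ 0) : χ ∈ Cfsg.principalBlock M G ↔ θ ∈ Cfsg.principalBlock M N := by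
  classical
  have hp : Nat.Prime 2 := hM.1
  have : Fact (Nat.Prime 2) := ⟨hp⟩
  have htop := ne_top_of_isPModular hM
  have hMp := isPrime_of_isPModular hM
  have hB : IsPBlock M (blockOf M (χ : G → ℂ)) := ⟨χ, rfl⟩
  have hb : IsPBlock M (blockOf M (θ : N → ℂ)) := ⟨θ, rfl⟩
  have hχB : χ ∈ blockOf M (χ : G → ℂ) := SameBlock.refl' htop _
  have hθb : θ ∈ blockOf M (θ : N → ℂ) := SameBlock.refl' htop _
  have hPG : IsPBlock M (principalBlock M G) := ⟨trivIrr G, rfl⟩
  have hPN : IsPBlock M (principalBlock M N) := ⟨trivIrr N, rfl⟩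
  have hkN : Nat.Coprime k (Nat.card N) :=
    Nat.Coprime.coprime_dvd_right (Subgroup.card_subgroup_dvd_card N) hk
  have hcard : (Nat.card G).factorization 2 = (Nat.card N).factorization 2 := by
    rw [← Subgroup.card_mul_index N, Nat.factorization_mul Nat.card_pos.ne'
      (Nat.pos_of_ne_zero (fun h => by rw [h] at hidx; simp at hidx)).ne']
    have : (N.index).factorization 2 = 0 :=
      Nat.factorization_eq_zero_of_not_dvd (fun h => by
        rw [Nat.odd_iff] at hidx; omega)
    simp [this]
  -- equality of defects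
  have hdef : blockDefect 2 (blockOf M (χ : G → ℂ)) = blockDefect 2 (blockOf M (θ : N → ℂ)) := by
    obtain ⟨g, hg⟩ := Cfsg.Agent.S0906.result 2 M hM _ hb
    obtain ⟨S⟩ : Nonempty (Sylow 2 (Subgroup.centralizer ({g} : Set N))) := inferInstance
    have hD : IsDefectGroup 2 M (blockOf M (θ : N → ℂ)) _ := ⟨g, hg, S, rfl⟩
    set Q' : Subgroup N := (S : Subgroup (Subgroup.centralizer ({g} : Set N))).map
      (Subgroup.centralizer ({g} : Set N)).subtype with hQ'
    have hQQ : (Q'.map N.subtype).subgroupOf N = Q' := by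
      ext n
      rw [Subgroup.mem_subgroupOf, Subgroup.mem_map]
      constructor
      · rintro ⟨m, hm, hmn⟩
        have : m = n := Subtype.ext hmn
        rwa [← this]
      · intro hn
        exact ⟨n, hn, rfl⟩
    obtain ⟨P, hP, hPN'⟩ := Cfsg.Agent.S4438.result 2 M hM N _ hb (Q'.map N.subtype)
      (Subgroup.map_subtype_le _) (by rw [hQQ]; exact hD) _ hB ⟨χ, hχB, θ, hθb, hover⟩
    have h1 := card_of_isDefectGroup hM hb hD
    have h2 := card_of_isDefectGroup hM hB hP
    have hPle : P ≤ N := by
      intro x hx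
      have hxo : orderOf x ∣ 2 ^ blockDefect 2 (blockOf M (χ : G → ℂ)) := by
        rw [← h2]
        have := orderOf_dvd_natCard (⟨x, hx⟩ : P)
        rwa [Subgroup.orderOf_mk] at this
      have h3 : orderOf (QuotientGroup.mk x : G ⧸ N) ∣ 2 ^ blockDefect 2 (blockOf M (χ : G → ℂ)) :=
        (orderOf_map_dvd (QuotientGroup.mk' N) x).trans hxo
      have h4 : orderOf (QuotientGroup.mk x : G ⧸ N) ∣ N.index := by
        rw [Subgroup.index]; exact orderOf_dvd_natCard _
      have h5 : Nat.Coprime (2 ^ blockDefect 2 (blockOf M (χ : G → ℂ))) N.index :=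
        Nat.Coprime.pow_left _ (Nat.coprime_two_left.2 hidx)
      have h6 := Nat.eq_one_of_dvd_coprimes h5 h3 h4
      rw [orderOf_eq_one_iff, QuotientGroup.eq_one_iff] at h6
      exact h6
    rw [inf_eq_left.2 hPle] at hPN'
    rw [hPN', Subgroup.card_map_of_injective (Subgroup.subtype_injective _), h1] at h2
    exact (Nat.pow_right_injective (le_refl 2) h2).symm
  constructor
  · intro h
    have hBeq : blockOf M (χ : G → ℂ) = principalBlock M G := block_eq_of_mem hB hPG hχB h
    have hfull : blockDefect 2 (blockOf M (θ : N → ℂ)) = (Nat.card N).factorization 2 := by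
      rw [← hdef, hBeq, h23_defect_principal htop, hcard]
    have := Cfsg.Agent.S4517.result M hM k hkN (fun n hn => by
      have h1 := hk₂ (n : G) (by rwa [Subgroup.orderOf_coe])
      exact Subtype.ext (by simpa using h1)) _ hb hfull (h23_stab_of_fixed M hkN θ hθ)
    rw [← this]; exact hθb
  · intro h
    have hbeq : blockOf M (θ : N → ℂ) = principalBlock M N := block_eq_of_mem hb hPN hθb h
    have hfull : blockDefect 2 (blockOf M (χ : G → ℂ)) = (Nat.card G).factorization 2 := by
      rw [hdef, hbeq, h23_defect_principal htop, hcard]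
    have := Cfsg.Agent.S4517.result M hM k hk hk₂ _ hB hfull (h23_stab_of_fixed M hk χ hχ)
    rw [← this]; exact hχB

end Cfsg.Agent.S4520
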