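import Cfsg.Statements.S4521
import Cfsg.Agent.H25.CentralProdU
import Cfsg.Agent.Lib.Helper23.CharDeg
import Cfsg.Agent.H25.IndBlock
import Cfsg.Agent.BlockLib.KG.GrpAux

set_option autoImplicit false
open Cfsg

namespace Cfsg.Agent.S4521

/-- Let the finite group G be generated by subgroups U₁ and U₂ that commute elementwise and whose intersection is a p-group, and let M be a maximal ideal of the algebraic integers containing the prime p. If the irreducible character χ of G has the irreducible constituents ψ₁ on U₁ and ψ₂ on U₂, then χ lies in the principal block of G if and only if ψ₁ and ψ₂ lie in the principal blocks of U₁ and U₂. -/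
theorem result {G : Type*} [Group G] [Fintype G] (p : ℕ) [Fact p.Prime] (M : Ideal Cfsg.AlgInt) (hM : Cfsg.IsPModular p M) (U₁ U₂ : Subgroup G) [Fintype U₁] [Fintype U₂] (hcomm : ∀ u ∈ U₁, ∀ v ∈ U₂, u * v = v * u) (hgen : U₁ ⊔ U₂ = ⊤) (hZ : IsPGroup p ↥(U₁ ⊓ U₂)) (χ : Cfsg.IrrCharacter G) (ψ₁ : Cfsg.IrrCharacter U₁) (ψ₂ : Cfsg.IrrCharacter U₂) (h₁ : Cfsg.classInner (fun u : U₁ => (χ : G → ℂ) u) (ψ₁ : U₁ → ℂ) ≠ 0) (h₂ : Cfsg.classInner (fun u : U₂ => (χ : G → ℂ) u) (ψ₂ : U₂ → ℂ) ≠ 0) : χ ∈ Cfsg.principalBlock M G ↔ (ψ₁ ∈ Cfsg.principalBlock M U₁ ∧ ψ₂ ∈ Cfsg.principalBlock M U₂) := by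
  classical
  have hMp := BlockLib.isPrime_of_isPModular hM
  have htop := BlockLib.ne_top_of_isPModular hM
  have hp : p.Prime := Fact.out
  obtain ⟨ζ₁, ζ₂, hfac⟩ := H25.CentralProdU.exists_factor hcomm hgen χ
  have hz1 : (ζ₁ : U₁ → ℂ) 1 ≠ 0 := CharLib.irr_apply_one_ne_zero ζ₁
  have hz2 : (ζ₂ : U₂ → ℂ) 1 ≠ 0 := CharLib.irr_apply_one_ne_zero ζ₂
  have e₁ : ζ₁ = ψ₁ := by
    by_contra hne
    apply h₁
    have : (fun u : U₁ => (χ : G → ℂ) u) = ((ζ₂ : U₂ → ℂ) 1) • (ζ₁ : U₁ → ℂ) := by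
      funext u
      have := hfac u 1
      simp only [OneMemClass.coe_one, mul_one] at this
      rw [this, Pi.smul_apply, smul_eq_mul, mul_comm]
    rw [this, CharLib.classInner_smul_left,
      CharLib.classInner_irr_ne ζ₁.2 ψ₁.2 (fun h => hne (Subtype.ext h)), mul_zero]
  have e₂ : ζ₂ = ψ₂ := by
    by_contra hne
    apply h₂
    have : (fun u : U₂ => (χ : G → ℂ) u) = ((ζ₁ : U₁ → ℂ) 1) • (ζ₂ : U₂ → ℂ) := by
      funext u
      have := hfac 1 u
      simp only [OneMemClass.coe_one, one_mul] at this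
      rw [this, Pi.smul_apply, smul_eq_mul]
    rw [this, CharLib.classInner_smul_left,
      CharLib.classInner_irr_ne ζ₂.2 ψ₂.2 (fun h => hne (Subtype.ext h)), mul_zero]
  subst e₁ e₂
  have hχ1 : (χ : G → ℂ) 1 = (ζ₁ : U₁ → ℂ) 1 * (ζ₂ : U₂ → ℂ) 1 := by
    have := hfac 1 1
    simpa using this
  -- central characters multiply
  have key : ∀ (u₁ : U₁) (u₂ : U₂),
      (∀ v₁ : U₁, ((u₁ : G) * v₁)⁻¹ * ((v₁ : G) * u₁) ∈ U₂ → v₁ * u₁ = u₁ * v₁) →
      Cfsg.centralChar (χ : G → ℂ) ((u₁ : G) * u₂) =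
        Cfsg.centralChar (ζ₁ : U₁ → ℂ) u₁ * Cfsg.centralChar (ζ₂ : U₂ → ℂ) u₂ ∧
      Cfsg.centralChar (fun _ : G => (1 : ℂ)) ((u₁ : G) * u₂) =
        Cfsg.centralChar (fun _ : U₁ => (1 : ℂ)) u₁ * Cfsg.centralChar (fun _ : U₂ => (1 : ℂ)) u₂ := by
    intro u₁ u₂ Hz
    unfold Cfsg.centralChar
    rw [H25.CentralProdU.index_centralizer_mul hcomm hgen u₁ u₂ Hz, hfac, hχ1]
    constructor
    · push_cast
      field_simp
    · push_cast
      ring
  have cc1 : ∀ {H : Type _} [Group H] (f : H → ℂ), f 1 ≠ 0 → Cfsg.centralChar f 1 = 1 := by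
    intro H _ f hf
    unfold Cfsg.centralChar
    have : Subgroup.centralizer ({(1 : H)} : Set H) = ⊤ := by
      rw [eq_top_iff]; intro x _
      rw [Subgroup.mem_centralizer_singleton_iff]; simp
    rw [this, Subgroup.index_top, Nat.cast_one, one_mul, div_self hf]
  constructor
  · intro h
    constructor
    · apply H25.Osima.sameBlock_of_regular hM (Lib.Helper23.trivIrr U₁) ζ₁
      intro x hx
      have h1 := h ((x : G) * ((1 : U₂) : G))
      obtain ⟨k1, k2⟩ := key x 1 (H25.CentralProdU.comm_of_regular hcomm hZ x hx)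
      rw [k1, k2, cc1 _ hz2, cc1 _ one_ne_zero, mul_one, mul_one] at h1
      exact h1
    · apply H25.Osima.sameBlock_of_regular hM (Lib.Helper23.trivIrr U₂) ζ₂
      intro y _
      have h1 := h (((1 : U₁) : G) * (y : G))
      obtain ⟨k1, k2⟩ := key 1 y (by intro v₁ _; simp)
      rw [k1, k2, cc1 _ hz1, cc1 _ one_ne_zero, one_mul, one_mul] at h1
      exact h1
  · rintro ⟨h1, h2⟩
    apply H25.Osima.sameBlock_of_regular hM (Lib.Helper23.trivIrr G) χ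
    intro g hg
    obtain ⟨⟨u₁, u₂⟩, hu⟩ := H25.CentralProdU.prodHom_surjective hcomm hgen g
    rw [H25.CentralProdU.prodHom_apply] at hu
    simp only at hu
    obtain ⟨a₁, ha₁⟩ := BlockLib.GrpAux.exists_pow_preg p u₁
    obtain ⟨a₂, ha₂⟩ := BlockLib.GrpAux.exists_pow_preg p u₂
    have hco : (p ^ (a₁ + a₂)).Coprime (orderOf g) :=
      Nat.Coprime.pow_left _ ((Nat.Prime.coprime_iff_not_dvd hp).mpr hg)
    obtain ⟨m, hm⟩ := exists_pow_eq_self_of_coprime hco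
    set w₁ : U₁ := (u₁ ^ (p ^ (a₁ + a₂))) ^ m with hw₁
    set w₂ : U₂ := (u₂ ^ (p ^ (a₁ + a₂))) ^ m with hw₂
    have hgw : g = (w₁ : G) * (w₂ : G) := by
      have hc : Commute (u₁ : G) (u₂ : G) := hcomm u₁ u₁.2 u₂ u₂.2
      rw [hw₁, hw₂, Subgroup.coe_pow, Subgroup.coe_pow, Subgroup.coe_pow, Subgroup.coe_pow,
        ← (hc.pow_pow _ _).mul_pow, ← hc.mul_pow, hu, hm]
    have hr₁ : ¬ p ∣ orderOf w₁ := by
      intro hd
      apply ha₁
      have e : w₁ = (u₁ ^ (p ^ a₁)) ^ (p ^ a₂ * m) := by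
        rw [hw₁, ← pow_mul, ← pow_mul, pow_add, mul_assoc]
      rw [e] at hd
      exact hd.trans (orderOf_pow_dvd _)
    obtain ⟨k1, k2⟩ := key w₁ w₂ (H25.CentralProdU.comm_of_regular hcomm hZ w₁ hr₁)
    rw [hgw]
    change Cfsg.MemLocalIdeal M (Cfsg.centralChar (fun _ : G => (1 : ℂ)) ((w₁ : G) * w₂) -
      Cfsg.centralChar (χ : G → ℂ) ((w₁ : G) * w₂))
    rw [k1, k2]
    have e : Cfsg.centralChar (fun _ : U₁ => (1 : ℂ)) w₁ * Cfsg.centralChar (fun _ : U₂ => (1 : ℂ)) w₂ -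
        Cfsg.centralChar (ζ₁ : U₁ → ℂ) w₁ * Cfsg.centralChar (ζ₂ : U₂ → ℂ) w₂ =
        Cfsg.centralChar (fun _ : U₁ => (1 : ℂ)) w₁ *
          (Cfsg.centralChar (fun _ : U₂ => (1 : ℂ)) w₂ - Cfsg.centralChar (ζ₂ : U₂ → ℂ) w₂) +
        (Cfsg.centralChar (fun _ : U₁ => (1 : ℂ)) w₁ - Cfsg.centralChar (ζ₁ : U₁ → ℂ) w₁) *
          Cfsg.centralChar (ζ₂ : U₂ → ℂ) w₂ := by ring
    rw [e]
    apply BlockLib.memLocalIdeal_add
    · exact BlockLib.memLocalIdeal_mul_left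
        (H25.memLocalRing_centralChar (Lib.Helper23.trivIrr U₁) w₁) (h2 w₂)
    · exact BlockLib.memLocalIdeal_mul_right (h1 w₁) (H25.memLocalRing_centralChar ζ₂ w₂)

end Cfsg.Agent.S4521
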