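import Mathlib
import Cfsg.Statements.S4539
import Cfsg.Agent.H6.RankTwo3

set_option autoImplicit false
open Cfsg

namespace Cfsg.Agent.S4539

/-- Let B be a p-block of the finite group G (relative to a maximal ideal M of the algebraic integers containing p) of defect d with defect group D. Let z be an element of D commuting with every element of D, and let b be a block of the centralizer C of z with defect group D that induces B (a major subsection (z, b)). If b has p-regular rank at most two, then B contains at most p ^ d irreducible characters. -/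
theorem result {G : Type*} [Group G] [Finite G] (p : ℕ) [Fact p.Prime] (M : Ideal Cfsg.AlgInt) (hM : Cfsg.IsPModular p M) (B : Set (Cfsg.IrrCharacter G)) (hB : Cfsg.IsPBlock M B) (D : Subgroup G) (hD : Cfsg.IsDefectGroup p M B D) (z : G) (hzD : z ∈ D) (hzc : ∀ d ∈ D, d * z = z * d) (b : Set (Cfsg.IrrCharacter ↥(Subgroup.centralizer ({z} : Set G)))) (hb : Cfsg.IsInducedBlock M (Subgroup.centralizer ({z} : Set G)) b B) (hbD : Cfsg.IsDefectGroup p M b (D.subgroupOf (Subgroup.centralizer ({z} : Set G)))) (hl : Cfsg.blockRank p b ≤ 2) : Nat.card B ≤ p ^ Cfsg.blockDefect p B := by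
  classical
  cases nonempty_fintype G
  have hp : p.Prime := Fact.out
  have hcardD := Cfsg.Agent.Lib.Helper23.MinMax.card_of_isDefectGroup hM hB hD
  obtain ⟨s, -, hs⟩ := (Nat.dvd_prime_pow hp).mp
    (hcardD ▸ Subgroup.orderOf_dvd_natCard D hzD)
  have hle : D ≤ Subgroup.centralizer ({z} : Set G) := by
    intro d hd
    rw [Subgroup.mem_centralizer_singleton_iff]
    exact hzc d hd
  have hcardb := Cfsg.Agent.Lib.Helper23.MinMax.card_of_isDefectGroup hM hb.1 hbD
  rw [Nat.card_congr (Subgroup.subgroupOfEquivOfLe hle).toEquiv, hcardD] at hcardb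
  have hd : blockDefect p b = blockDefect p B := (Nat.pow_right_injective hp.two_le hcardb).symm
  rcases Nat.lt_or_ge (blockRank p b) 2 with h | h
  · have h1 := Cfsg.Agent.H6.MajorSub.card_le_of_major hM hs hb hd
    calc Nat.card B ≤ p ^ blockDefect p B * blockRank p b := h1
      _ ≤ p ^ blockDefect p B * 1 := Nat.mul_le_mul_left _ (by omega)
      _ = p ^ blockDefect p B := mul_one _
  · exact Cfsg.Agent.H6.RankTwo.card_le_of_rank_two hM hs hb hd (le_antisymm hl h)

end Cfsg.Agent.S4539
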