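import Mathlib
import Cfsg.Statements.S4540
import Cfsg.Agent.H6.TwoMajor5

set_option autoImplicit false
open Cfsg

namespace Cfsg.Agent.S4540

/-- Let B be a 2-block of the finite group G (relative to a maximal ideal M of the algebraic integers containing 2) of defect d with defect group D. Let z be an element of D commuting with every element of D, and let b be a block of the centralizer C of z with defect group D that induces B (a major subsection (z, b)). If b has 2-regular rank at most three, then 3·k(B) ≤ 3·k₀(B) + 2·Σ 2 ^ h(χ), where k(B) is the number of members of B, k₀(B) the number of members of height zero, and the sum runs over the members χ of B of positive height h(χ); this bound is at most 3·2 ^ d, so in particular B contains at most 2 ^ d irreducible characters. -/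
theorem result {G : Type*} [Group G] [Finite G] (M : Ideal Cfsg.AlgInt) (hM : Cfsg.IsPModular 2 M) (B : Set (Cfsg.IrrCharacter G)) (hB : Cfsg.IsPBlock M B) (D : Subgroup G) (hD : Cfsg.IsDefectGroup 2 M B D) (z : G) (hzD : z ∈ D) (hzc : ∀ d ∈ D, d * z = z * d) (b : Set (Cfsg.IrrCharacter ↥(Subgroup.centralizer ({z} : Set G)))) (hb : Cfsg.IsInducedBlock M (Subgroup.centralizer ({z} : Set G)) b B) (hbD : Cfsg.IsDefectGroup 2 M b (D.subgroupOf (Subgroup.centralizer ({z} : Set G)))) (hl : Cfsg.blockRank 2 b ≤ 3) : 3 * Nat.card B ≤ 3 * Nat.card {χ : Cfsg.IrrCharacter G // χ ∈ B ∧ Cfsg.blockHeight 2 B (χ : G → ℂ) = 0} + 2 * (∑ᶠ χ ∈ {χ : Cfsg.IrrCharacter G | χ ∈ B ∧ 1 ≤ Cfsg.blockHeight 2 B (χ : G → ℂ)}, 2 ^ Cfsg.blockHeight 2 B (χ : G → ℂ)) ∧ 3 * Nat.card {χ : Cfsg.IrrCharacter G // χ ∈ B ∧ Cfsg.blockHeight 2 B (χ : G → ℂ) = 0} + 2 * (∑ᶠ χ ∈ {χ : Cfsg.IrrCharacter G | χ ∈ B ∧ 1 ≤ Cfsg.blockHeight 2 B (χ : G → ℂ)}, 2 ^ Cfsg.blockHeight 2 B (χ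 : G → ℂ)) ≤ 3 * 2 ^ Cfsg.blockDefect 2 B := by
  classical
  cases nonempty_fintype G
  have hp : Nat.Prime 2 := Nat.prime_two
  have : Fact (Nat.Prime 2) := ⟨hp⟩
  have hcardD := Cfsg.Agent.Lib.Helper23.MinMax.card_of_isDefectGroup hM hB hD
  obtain ⟨s, -, hs⟩ := (Nat.dvd_prime_pow hp).mp
    (hcardD ▸ Subgroup.orderOf_dvd_natCard D hzD)
  have hle : D ≤ Subgroup.centralizer ({z} : Set G) := by
    intro d hd
    rw [Subgroup.mem_centralizer_singleton_iff]
    exact hzc d hd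
  have hcardb := Cfsg.Agent.Lib.Helper23.MinMax.card_of_isDefectGroup hM hb.1 hbD
  rw [Nat.card_congr (Subgroup.subgroupOfEquivOfLe hle).toEquiv, hcardD] at hcardb
  have hd : blockDefect 2 b = blockDefect 2 B := (Nat.pow_right_injective (le_refl 2) hcardb).symm
  have h3 : Nat.card B = (Finset.univ.filter (fun χ : IrrCharacter G => χ ∈ B)).card := by
    rw [Nat.card_eq_fintype_card, ← Fintype.card_subtype]
  have key := Cfsg.Agent.H6.TwoMajor.weighted_le hM hs rfl hb hd hl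
  set F := Finset.univ.filter (fun χ : IrrCharacter G => χ ∈ B) with hF
  have hht : ∀ χ : IrrCharacter G, blockHeight 2 B (χ : G → ℂ) = Cfsg.Agent.H6.TwoMajor.ht B χ :=
    fun χ => rfl
  have e0 : Nat.card {χ : IrrCharacter G // χ ∈ B ∧ blockHeight 2 B (χ : G → ℂ) = 0} =
      (F.filter fun χ : IrrCharacter G => Cfsg.Agent.H6.TwoMajor.ht B χ = 0).card := by
    rw [Nat.card_eq_fintype_card, Fintype.card_subtype, hF, Finset.filter_filter]
    rfl
  have e1 : (∑ᶠ χ ∈ {χ : IrrCharacter G | χ ∈ B ∧ 1 ≤ blockHeight 2 B (χ : G → ℂ)},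
      2 ^ blockHeight 2 B (χ : G → ℂ)) =
      ∑ χ ∈ F.filter (fun χ : IrrCharacter G => ¬ Cfsg.Agent.H6.TwoMajor.ht B χ = 0),
        2 ^ Cfsg.Agent.H6.TwoMajor.ht B χ := by
    rw [finsum_mem_eq_finite_toFinset_sum _ (Set.toFinite _)]
    apply Finset.sum_congr
    · ext χ
      simp only [Set.Finite.mem_toFinset, Set.mem_setOf_eq, hF, Finset.mem_filter,
        Finset.mem_univ, true_and, hht]
      constructor
      · rintro ⟨h1, h2⟩
        exact ⟨h1, by omega⟩
      · rintro ⟨h1, h2⟩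
        exact ⟨h1, by omega⟩
    · intro χ _
      rfl
  have e2 : ∑ χ ∈ F, (if Cfsg.Agent.H6.TwoMajor.ht B χ = 0 then 3
      else 2 * 2 ^ Cfsg.Agent.H6.TwoMajor.ht B χ) =
      3 * (F.filter fun χ : IrrCharacter G => Cfsg.Agent.H6.TwoMajor.ht B χ = 0).card +
      2 * ∑ χ ∈ F.filter (fun χ : IrrCharacter G => ¬ Cfsg.Agent.H6.TwoMajor.ht B χ = 0),
        2 ^ Cfsg.Agent.H6.TwoMajor.ht B χ := by
    rw [← Finset.sum_filter_add_sum_filter_not F
      (fun χ : IrrCharacter G => Cfsg.Agent.H6.TwoMajor.ht B χ = 0)]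
    congr 1
    · rw [Finset.sum_congr rfl (fun χ hχ => if_pos (Finset.mem_filter.1 hχ).2), Finset.sum_const,
        smul_eq_mul, mul_comm]
    · rw [Finset.sum_congr rfl (fun χ hχ => if_neg (Finset.mem_filter.1 hχ).2), Finset.mul_sum]
  rw [e0, e1, h3, ← e2, ← hd]
  refine ⟨?_, key⟩
  rw [mul_comm, ← smul_eq_mul, ← Finset.sum_const]
  apply Finset.sum_le_sum
  intro χ _
  split_ifs with h0
  · exact le_rfl
  · obtain ⟨e, he⟩ : ∃ e, Cfsg.Agent.H6.TwoMajor.ht B χ = e + 1 :=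
      ⟨Cfsg.Agent.H6.TwoMajor.ht B χ - 1, by omega⟩
    rw [he, pow_succ]
    have : 1 ≤ 2 ^ e := Nat.one_le_two_pow
    omega

end Cfsg.Agent.S4540
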