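import Cfsg.Statements.S4541
import Cfsg.Agent.Lib.Helper23.Contrib4

set_option autoImplicit false
open Cfsg

namespace Cfsg.Agent.S4541

open Cfsg Cfsg.Agent.CharLib Cfsg.Agent.BlockLib Cfsg.Agent.Lib.Helper23 Cfsg.Agent.Lib.Helper23.MinMax Cfsg.Agent.Lib.Helper23.Contrib Cfsg.Agent.Lib.Helper23.Defect01

theorem h23_arith (K Q L S A : ℤ) (hK : 0 ≤ K) (hQ : 0 < Q) (hS : 0 ≤ S) (hS1 : S * S ≤ L)
    (hS2 : L < (S + 1) * (S + 1)) (hA : Odd A) (h1 : K ≤ Q * A) (h2 : K * A ≤ Q * L) :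
    (Odd S → K ≤ S * Q) ∧ (¬ Odd S → (S + 1) * K ≤ L * Q) := by
  constructor
  · intro hSo
    by_cases hAS : A ≤ S
    · calc K ≤ Q * A := h1
        _ ≤ Q * S := mul_le_mul_of_nonneg_left hAS hQ.le
        _ = S * Q := mul_comm _ _
    · have hA2 : S + 2 ≤ A := by
        obtain ⟨i, hi⟩ := hA
        obtain ⟨j, hj⟩ := hSo
        omega
      have h3 : K * (S + 2) ≤ (S * Q) * (S + 2) := by
        calc K * (S + 2) ≤ K * A := mul_le_mul_of_nonneg_left hA2 hK
          _ ≤ Q * L := h2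
          _ ≤ Q * (S * S + 2 * S) := mul_le_mul_of_nonneg_left (by nlinarith) hQ.le
          _ = (S * Q) * (S + 2) := by ring
      exact le_of_mul_le_mul_right h3 (by omega)
  · intro hSe
    by_cases hAS : S + 1 ≤ A
    · calc (S + 1) * K ≤ A * K := mul_le_mul_of_nonneg_right hAS hK
        _ = K * A := mul_comm _ _
        _ ≤ Q * L := h2
        _ = L * Q := mul_comm _ _
    · have hA2 : A ≤ S - 1 := by
        obtain ⟨i, hi⟩ := hA
        rw [Int.not_odd_iff_even] at hSe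
        obtain ⟨j, hj⟩ := hSe
        omega
      calc (S + 1) * K ≤ (S + 1) * (Q * A) := mul_le_mul_of_nonneg_left h1 (by omega)
        _ ≤ (S + 1) * (Q * (S - 1)) :=
            mul_le_mul_of_nonneg_left (mul_le_mul_of_nonneg_left hA2 hQ.le) (by omega)
        _ = Q * (S * S - 1) := by ring
        _ ≤ Q * L := mul_le_mul_of_nonneg_left (by omega) hQ.le
        _ = L * Q := mul_comm _ _

/-- Let B be a 2-block of the finite group G (relative to a maximal ideal M of the algebraic integers containing 2), u a 2-element, and b a block of the centralizer of u inducing B (a subsection (u, b)), of defect q and 2-regular rank l; write s for the integer square root of l and k₀(B) for the number of members of B of height zero. If s is odd then k₀(B) ≤ s·2 ^ q, and otherwise (s + 1)·k₀(B) ≤ l·2 ^ q; in particular k₀(B) ≤ 2 ^ q when l ≤ 3. -/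
theorem result {G : Type*} [Group G] [Finite G] (M : Ideal Cfsg.AlgInt) (hM : Cfsg.IsPModular 2 M) (B : Set (Cfsg.IrrCharacter G)) (hB : Cfsg.IsPBlock M B) (u : G) (hu : ∃ j : ℕ, orderOf u = 2 ^ j) (b : Set (Cfsg.IrrCharacter ↥(Subgroup.centralizer ({u} : Set G)))) (hb : Cfsg.IsInducedBlock M (Subgroup.centralizer ({u} : Set G)) b B) : (Odd (Nat.sqrt (Cfsg.blockRank 2 b)) → Nat.card {χ : Cfsg.IrrCharacter G // χ ∈ B ∧ Cfsg.blockHeight 2 B (χ : G → ℂ) = 0} ≤ Nat.sqrt (Cfsg.blockRank 2 b) * 2 ^ Cfsg.blockDefect 2 b) ∧ (¬ Odd (Nat.sqrt (Cfsg.blockRank 2 b)) → (Nat.sqrt (Cfsg.blockRank 2 b) + 1) * Nat.card {χ : Cfsg.IrrCharacter G // χ ∈ B ∧ Cfsg.blockHeight 2 B (χ : G → ℂ) = 0} ≤ Cfsg.blockRank 2 b * 2 ^ Cfsg.blockDefect 2 b) ∧ (Cfsg.blockRank 2 b ≤ 3 → Nat.card {χ : Cfsg.IrrCharacter G // χ ∈ B ∧ Cfsg.blockHeight 2 B (χ : G → ℂ) = 0} ≤ 2 ^ Cfsg.blockDefect 2 b) := by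
  classical
  cases nonempty_fintype G
  have htop := ne_top_of_isPModular hM
  obtain ⟨s, hs⟩ := hu
  obtain ⟨a, ha, hsum⟩ := exists_odd_diag hM hs hb
  set F := Finset.univ.filter (fun χ : IrrCharacter G => χ ∈ B ∧
      (charDegree (χ : G → ℂ)).factorization 2 = minExp 2 B) with hF
  have hcard : Nat.card {χ : Cfsg.IrrCharacter G // χ ∈ B ∧ Cfsg.blockHeight 2 B (χ : G → ℂ) = 0} =
      F.card := by
    rw [Nat.card_eq_fintype_card, Fintype.card_subtype]
    congr 1
    ext χ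
    rw [hF]
    simp only [Finset.mem_filter, Finset.mem_univ, true_and]
    constructor
    · rintro ⟨hχ, h0⟩
      refine ⟨hχ, ?_⟩
      have h1 := minExp_le (p := 2) hχ
      have h2 : (charDegree (χ : G → ℂ)).factorization 2 - minExp 2 B = 0 := h0
      omega
    · rintro ⟨hχ, h0⟩
      refine ⟨hχ, ?_⟩
      show (charDegree (χ : G → ℂ)).factorization 2 - minExp 2 B = 0
      omega
  rw [hcard]
  set l := blockRank 2 b with hl
  set q := blockDefect 2 b with hq
  have hlpos : 0 < l := blockRank_pos hM.1 (nonempty_of_isPBlock htop hb.1)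
  have main : (Odd (Nat.sqrt l) → F.card ≤ Nat.sqrt l * 2 ^ q) ∧
      (¬ Odd (Nat.sqrt l) → (Nat.sqrt l + 1) * F.card ≤ l * 2 ^ q) := by
    by_cases hne : F.Nonempty
    swap
    · rw [Finset.not_nonempty_iff_eq_empty] at hne
      rw [hne]
      simp
    obtain ⟨χ₀, hχ₀, hmin⟩ := Finset.exists_min_image F a hne
    have h2 : (F.card : ℤ) * a χ₀ ≤ 2 ^ q * (l : ℤ) := by
      refine le_trans ?_ hsum
      have := Finset.card_nsmul_le_sum F a (a χ₀) hmin
      rwa [nsmul_eq_mul] at this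
    have := h23_arith (F.card : ℤ) (2 ^ q) (l : ℤ) (Nat.sqrt l : ℤ) (a χ₀) (by positivity)
      (by positivity) (by positivity) (by exact_mod_cast Nat.sqrt_le l)
      (by exact_mod_cast Nat.lt_succ_sqrt l) (ha χ₀ hχ₀).1 (ha χ₀ hχ₀).2 h2
    constructor
    · intro ho
      have h3 := this.1 (by exact_mod_cast ho)
      exact_mod_cast h3
    · intro ho
      have h3 := this.2 (by
        intro h
        apply ho
        exact_mod_cast h)
      exact_mod_cast h3
  refine ⟨main.1, main.2, ?_⟩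
  intro hl3
  have hsq : Nat.sqrt l = 1 := by
    symm
    rw [Nat.eq_sqrt]
    omega
  have := main.1 (by rw [hsq]; exact odd_one)
  rwa [hsq, one_mul] at this

end Cfsg.Agent.S4541
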