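import Cfsg.Statements.S4550
import Mathlib
import Cfsg.Agent.Lib.Helper2.GalTwo

set_option autoImplicit false
open Cfsg

namespace Cfsg.Agent.S4550

/-- Let G be a finite group of even order and M a maximal ideal of the algebraic integers containing 2. Let k be a natural number with g ^ k = g ^ 3 for every 2-element g and g ^ k = g for every element g of odd order (such k exist); an irreducible character χ is unchanged by g ↦ g ^ k exactly when it is fixed by the field automorphism that cubes the 2-power roots of unity and fixes the roots of unity of odd order. Then the number of members χ of the principal 2-block of odd degree with χ (g ^ k) = χ g for all g is even. -/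
theorem result {G : Type*} [Group G] [Finite G] (M : Ideal Cfsg.AlgInt) (hM : Cfsg.IsPModular 2 M) (hev : Even (Nat.card G)) (k : ℕ) (hk₁ : ∀ g : G, (∃ j : ℕ, orderOf g = 2 ^ j) → g ^ k = g ^ 3) (hk₂ : ∀ g : G, Odd (orderOf g) → g ^ k = g) : Even (Nat.card {χ : Cfsg.IrrCharacter G // χ ∈ Cfsg.principalBlock M G ∧ Odd (Cfsg.charDegree (χ : G → ℂ)) ∧ ∀ g : G, (χ : G → ℂ) (g ^ k) = (χ : G → ℂ) g}) := by
  classical
  -- arithmetic of `k` modulo the order of an element
  have key : ∀ g : G, ∃ j m : ℕ, Odd m ∧ orderOf g = 2 ^ j * m ∧ k ≡ 3 [MOD 2 ^ j] ∧ k ≡ 1 [MOD m] := by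
    intro g
    obtain ⟨j, m, hm, ho⟩ := Nat.exists_eq_two_pow_mul_odd (orderOf_pos g).ne'
    have hmpos : 0 < m := hm.pos
    refine ⟨j, m, hm, ho, ?_, ?_⟩
    · have h1 : orderOf (g ^ m) = 2 ^ j := by
        rw [orderOf_pow, ho, Nat.gcd_eq_right (Dvd.intro_left _ rfl), Nat.mul_div_cancel _ hmpos]
      have h2 := hk₁ (g ^ m) ⟨j, h1⟩
      rw [pow_eq_pow_iff_modEq, h1] at h2
      exact h2
    · have h1 : orderOf (g ^ (2 ^ j)) = m := by
        rw [orderOf_pow, ho, Nat.gcd_eq_right (Dvd.intro _ rfl),
          Nat.mul_div_cancel_left _ (by positivity)]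
      have h2 := hk₂ (g ^ (2 ^ j)) (by rw [h1]; exact hm)
      have h3 : (g ^ (2 ^ j)) ^ k = (g ^ (2 ^ j)) ^ 1 := by rw [h2, pow_one]
      rw [pow_eq_pow_iff_modEq, h1] at h3
      exact h3
  have hcopo : ∀ g : G, Nat.Coprime k (orderOf g) := by
    intro g
    obtain ⟨j, m, hm, ho, h3, h1⟩ := key g
    rw [ho]
    apply Nat.Coprime.mul_right
    · have := h3.gcd_eq
      rw [Nat.Coprime, this]
      exact Nat.Coprime.pow_right j (by decide)
    · have := h1.gcd_eq
      rw [Nat.Coprime, this]
      exact Nat.gcd_one_left m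
  have h : Cfsg.Agent.Lib.Helper2.PS G k (Nat.card G) := by
    refine ⟨?_, ?_⟩
    · apply Nat.Coprime.symm
      apply Nat.coprime_of_dvd
      intro q hq hqG hqk
      haveI : Fact q.Prime := ⟨hq⟩
      obtain ⟨x, hx⟩ := exists_prime_orderOf_dvd_card' q hqG
      have := hcopo x
      rw [hx] at this
      exact (Nat.Prime.coprime_iff_not_dvd hq).mp this.symm hqk
    · intro g
      obtain ⟨j, m, hm, ho, h3, h1⟩ := key g
      have hgoal : k ^ (2 ^ Nat.card G) ≡ 1 [MOD orderOf g] := by
        rw [ho]
        have hc : Nat.Coprime (2 ^ j) m := (Nat.coprime_two_left.mpr hm).pow_left j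
        rw [← Nat.modEq_and_modEq_iff_modEq_mul hc]
        constructor
        · rcases j with _ | j
          · rw [pow_zero]; exact Nat.modEq_one
          · have hk2 : Nat.Coprime k (2 ^ (j + 1)) := by
              have := h3.gcd_eq
              rw [Nat.Coprime, this]
              exact Nat.Coprime.pow_right _ (by decide)
            have h4 := Nat.ModEq.pow_totient hk2
            rw [Nat.totient_prime_pow_succ Nat.prime_two] at h4
            simp only [Nat.add_one_sub_one, mul_one] at h4
            have hj : j ≤ Nat.card G := by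
              have h5 : 2 ^ (j + 1) ∣ Nat.card G :=
                (Dvd.intro _ rfl : 2 ^ (j + 1) ∣ 2 ^ (j + 1) * m).trans
                  (ho ▸ orderOf_dvd_natCard g)
              have h6 := Nat.le_of_dvd Nat.card_pos h5
              have h7 : j < 2 ^ j := Nat.lt_two_pow_self
              have h8 : 2 ^ j ≤ 2 ^ (j + 1) := Nat.pow_le_pow_right (by norm_num) (Nat.le_succ j)
              omega
            obtain ⟨d, hd⟩ := Nat.exists_eq_add_of_le hj
            have h9 : k ^ (2 ^ Nat.card G) = (k ^ 2 ^ j) ^ (2 ^ d) := by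
              rw [hd, ← pow_mul, ← pow_add]
            rw [h9]
            have := h4.pow (2 ^ d)
            rwa [one_pow] at this
        · have := h1.pow (2 ^ Nat.card G)
          rwa [one_pow] at this
      have h5 : g ^ (k ^ (2 ^ Nat.card G)) = g ^ 1 := pow_eq_pow_iff_modEq.mpr hgoal
      rwa [pow_one] at h5
  exact Cfsg.Agent.Lib.Helper2.even_card_fixed_principal h hM hev

end Cfsg.Agent.S4550
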