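import Cfsg.Statements.S4553
import Cfsg.Agent.Lib.Helper24.ExtTwist
import Cfsg.Agent.Lib.Helper24.CycHom
import Cfsg.Agent.Lib.Helper10.PResChar
import Cfsg.Agent.Lib.Helper2.GlauCyc
import Cfsg.Agent.BlockLib.KG.PrinOver
import Cfsg.Agent.Fus.Residual
import Cfsg.Agent.S0867

set_option autoImplicit false
open Cfsg Cfsg.Agent.BlockLib

namespace Cfsg.Agent.S4553

/-- Let G be a finite group, p a prime, P a Sylow p-subgroup, N the p-residual of G (the subgroup generated by the elements of order prime to p, the smallest normal subgroup with G/N a p-group), and M a maximal ideal of the algebraic integers containing p; suppose G/N is cyclic and nontrivial. Let k be a natural number with g ^ k = g ^ (1 + p) for every p-element g and g ^ k = g for every element g of order prime to p (so that χ (g ^ k) is the image of χ g under the field automorphism that raises p-power roots of unity to the power 1 + p and fixes the roots of unity of order prime to p). Then the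 number of members χ of the principal block of G of degree prime to p with χ (g ^ k) = χ g for all g equals p times the number of members θ of the principal block of N of degree prime to p that are invariant under conjugation by P and satisfy θ (n ^ k) = θ n for all n. -/
theorem result {G : Type*} [Group G] [Finite G] (p : ℕ) [Fact p.Prime] (M : Ideal Cfsg.AlgInt) (hM : Cfsg.IsPModular p M) (P : Sylow p G) (N : Subgroup G) [hN : N.Normal] (hNres : N = Cfsg.pResidual p G) (hcyc : IsCyclic (G ⧸ N)) (hnt : N ≠ ⊤) (k : ℕ) (hk₁ : ∀ g : G, (∃ j : ℕ, orderOf g = p ^ j) → g ^ k = g ^ (1 + p)) (hk₂ : ∀ g : G, Nat.Coprime (orderOf g) p → g ^ k = g) : Nat.card {χ : Cfsg.IrrCharacter G // χ ∈ Cfsg.principalBlock M G ∧ ¬ p ∣ Cfsg.charDegree (χ : G → ℂ) ∧ ∀ g : G, (χ : G → ℂ) (g ^ k) = (χ : G → ℂ) g} = p * Nat.card {θ : Cfsg.IrrCharacter ↥N // θ ∈ Cfsg.principalBlock M ↥N ∧ ¬ p ∣ Cfsg.charDegree (θ : ↥N → ℂ) ∧ (∀ x ∈ (P : Subgroup G), ∀ n : ↥N, (θ : ↥N → ℂ) ⟨x * n * x⁻¹,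 hN.conj_mem n n.2 x⟩ = (θ : ↥N → ℂ) n) ∧ ∀ n : ↥N, (θ : ↥N → ℂ) (n ^ k) = (θ : ↥N → ℂ) n} := by
  classical
  letI := Fintype.ofFinite G
  haveI := isPrime_of_isPModular hM
  subst hNres
  have hq : IsPGroup p (G ⧸ pResidual p G) := Lib.Helper16.quotient_pResidual_isPGroup
  have hkcop : k.Coprime (Nat.card G) := Lib.Helper24.coprime_card_of_pow p k hk₁ hk₂
  have hpQ : p ∣ Nat.card (G ⧸ pResidual p G) := by
    obtain ⟨j, hj⟩ := IsPGroup.iff_card.1 hq
    rw [hj]
    apply dvd_pow_self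
    rintro rfl
    rw [pow_zero, ← Subgroup.index_eq_card, Subgroup.index_eq_one] at hj
    exact hnt hj
  have hpG : p ∣ Nat.card G := by
    rw [← Subgroup.index_eq_card] at hpQ
    exact hpQ.trans (Subgroup.index_dvd_card _)
  have hres : ∀ x : {χ : Cfsg.IrrCharacter G // χ ∈ Cfsg.principalBlock M G ∧
      ¬ p ∣ Cfsg.charDegree (χ : G → ℂ) ∧ ∀ g : G, (χ : G → ℂ) (g ^ k) = (χ : G → ℂ) g},
      ∃ y : {θ : Cfsg.IrrCharacter ↥(pResidual p G) // θ ∈ Cfsg.principalBlock M ↥(pResidual p G) ∧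
        ¬ p ∣ Cfsg.charDegree (θ : ↥(pResidual p G) → ℂ) ∧
        (∀ x ∈ (P : Subgroup G), ∀ n : ↥(pResidual p G),
          (θ : ↥(pResidual p G) → ℂ) ⟨x * n * x⁻¹, hN.conj_mem n n.2 x⟩ =
            (θ : ↥(pResidual p G) → ℂ) n) ∧
        ∀ n : ↥(pResidual p G), (θ : ↥(pResidual p G) → ℂ) (n ^ k) = (θ : ↥(pResidual p G) → ℂ) n},
      ∀ n : ↥(pResidual p G), (x.1 : G → ℂ) n = (y.1 : ↥(pResidual p G) → ℂ) n := by
    rintro ⟨χ, hB, hdeg, hσ⟩
    obtain ⟨θ, hθ⟩ := Lib.Helper24.exists_restrict_eq_of_not_dvd p (pResidual p G) hq χ hdeg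
    refine ⟨⟨θ, ?_, ?_, ?_, ?_⟩, hθ⟩
    · apply PrinOver.mem_principalBlock_of_under hM (pResidual p G) hB
      rw [show (fun n : ↥(pResidual p G) => (χ : G → ℂ) n) = θ from funext hθ,
        CharLib.classInner_irr_self θ.2]
      exact one_ne_zero
    · have : Cfsg.charDegree (θ : ↥(pResidual p G) → ℂ) = Cfsg.charDegree (χ : G → ℂ) := by
        unfold Cfsg.charDegree
        rw [← hθ 1]; rfl
      rwa [this]
    · intro x _ n
      rw [← hθ, ← hθ]
      exact CharLib.isClassFunction_of_irr χ.2 n x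
    · intro n
      rw [← hθ, ← hθ]
      exact hσ n
  choose r hr using hres
  have hfib : ∀ y, Nat.card {x // r x = y} = p := by
    rintro ⟨θ, hθB, hθdeg, hθP, hθσ⟩
    have hinv : ∀ (g : G) (n : ↥(pResidual p G)),
        (θ : ↥(pResidual p G) → ℂ) ⟨g * n * g⁻¹, hN.conj_mem (n : G) n.2 g⟩ =
          (θ : ↥(pResidual p G) → ℂ) n := by
      intro g n
      obtain ⟨b, hb, u, hu, rfl⟩ := Fus.exists_mul_pResidual_sylow P g
      have h1 := CharLib.isClassFunction_of_irr θ.2 ⟨u * n * u⁻¹, hN.conj_mem n n.2 u⟩ ⟨b, hb⟩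
      rw [hθP u hu n] at h1
      rw [← h1]
      refine congrArg (θ : ↥(pResidual p G) → ℂ) (Subtype.ext ?_)
      simp [mul_assoc]
    have hd := Lib.Helper23.charDegree_cast (CharLib.isCharacter_of_irr θ.2)
    obtain ⟨j, hj⟩ := Lib.Helper10.index_pResidual (G := G) p
    have hcop : Nat.Coprime (pResidual p G).index
        (detOrder (θ : ↥(pResidual p G) → ℂ) * charDegree (θ : ↥(pResidual p G) → ℂ)) := by
      rw [hj]
      apply Nat.Coprime.pow_left
      rw [Nat.Prime.coprime_iff_not_dvd Fact.out, Nat.Prime.dvd_mul Fact.out]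
      rintro (h | h)
      · exact Lib.Helper10.not_dvd_detOrder_pResidual p (CharLib.isCharacter_of_irr θ.2) h
      · exact hθdeg h
    obtain ⟨χ₀, ⟨h0, h0N, h0det⟩, huniq⟩ :=
      S0867.result (pResidual p G) θ θ.2 hinv _ hd.symm hcop
    have h0σ : (fun g => χ₀ (g ^ k)) = χ₀ := by
      apply huniq _ (Lib.Helper10.isIrrCharacter_pow h0 k hkcop)
      · intro n
        have := h0N (n ^ k)
        rw [hθσ] at this
        exact this
      · unfold detOrder
        rw [Lib.Helper2.detChar_pow (CharLib.isCharacter_of_irr h0) k hkcop]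
        have h1 : orderOf (detChar χ₀ ^ k) ∣ orderOf (detChar χ₀) := orderOf_pow_dvd k
        have h2 : Nat.Coprime (pResidual p G).index (detOrder χ₀) := by
          rw [h0det]; exact Nat.Coprime.coprime_mul_right_right hcop
        exact Nat.Coprime.coprime_dvd_right h1 h2
    have h0Nirr : IsIrrCharacter ↥(pResidual p G) (fun n : ↥(pResidual p G) => χ₀ n) := by
      rw [show (fun n : ↥(pResidual p G) => χ₀ n) = θ from funext h0N]; exact θ.2
    have hT : ∀ μ : G ⧸ pResidual p G →* ℂˣ,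
        IsIrrCharacter G (fun g => ((μ (g : G ⧸ pResidual p G) : ℂˣ) : ℂ) * χ₀ g) :=
      fun μ => H25.isIrrCharacter_hom_mul (μ.comp (QuotientGroup.mk' _)) h0
    have hTN : ∀ (μ : G ⧸ pResidual p G →* ℂˣ) (n : ↥(pResidual p G)),
        ((μ ((n : G) : G ⧸ pResidual p G) : ℂˣ) : ℂ) * χ₀ n = (θ : ↥(pResidual p G) → ℂ) n := by
      intro μ n
      rw [(QuotientGroup.eq_one_iff (n : G)).2 n.2, map_one, Units.val_one, one_mul, h0N]
    have hTB : ∀ μ, (⟨_, hT μ⟩ : IrrCharacter G) ∈ principalBlock M G := by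
      intro μ
      apply PrinOver.mem_principalBlock_of_over hM (pResidual p G) hq hθB
      rw [show (fun n : ↥(pResidual p G) => ((⟨_, hT μ⟩ : IrrCharacter G) : G → ℂ) n) = θ from
        funext (hTN μ), CharLib.classInner_irr_self θ.2]
      exact one_ne_zero
    have hTdeg : ∀ μ, ¬ p ∣ charDegree ((⟨_, hT μ⟩ : IrrCharacter G) : G → ℂ) := by
      intro μ
      have : charDegree ((⟨_, hT μ⟩ : IrrCharacter G) : G → ℂ) =
          charDegree (θ : ↥(pResidual p G) → ℂ) := by
        unfold charDegree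
        rw [← hTN μ 1]; rfl
      rwa [this]
    have hTσ : ∀ μ : G ⧸ pResidual p G →* ℂˣ, (∀ q, μ q ^ p = 1) → ∀ g : G,
        ((⟨_, hT μ⟩ : IrrCharacter G) : G → ℂ) (g ^ k) =
          ((⟨_, hT μ⟩ : IrrCharacter G) : G → ℂ) g := by
      intro μ hμ g
      show ((μ ((g ^ k : G) : G ⧸ pResidual p G) : ℂˣ) : ℂ) * χ₀ (g ^ k) =
        ((μ (g : G ⧸ pResidual p G) : ℂˣ) : ℂ) * χ₀ g
      rw [congrFun h0σ g, QuotientGroup.mk_pow, map_pow,
        Lib.Helper24.pow_eq_self_of_pow p k hk₁ hpG _ (hμ _)]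
    have hry : ∀ x, (∀ n : ↥(pResidual p G), (x.1 : G → ℂ) n = (θ : ↥(pResidual p G) → ℂ) n) →
        r x = ⟨θ, hθB, hθdeg, hθP, hθσ⟩ := by
      intro x hx
      apply Subtype.ext; apply Subtype.ext
      funext n
      rw [← hr x n, hx n]
    let F : {μ : G ⧸ pResidual p G →* ℂˣ // ∀ q, μ q ^ p = 1} →
        {x // r x = ⟨θ, hθB, hθdeg, hθP, hθσ⟩} := fun μ =>
      ⟨⟨⟨_, hT μ.1⟩, hTB μ.1, hTdeg μ.1, hTσ μ.1 μ.2⟩, hry _ (hTN μ.1)⟩
    have hFbij : Function.Bijective F := by
      constructor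
      · intro μ μ' h
        apply Subtype.ext
        apply Lib.Helper24.hom_eq_of_twist_eq (pResidual p G) h0 h0Nirr
        intro g
        have := congrArg (fun x => (x.1.1 : G → ℂ) g) h
        exact this
      · rintro ⟨⟨χ, hB, hdeg, hσ⟩, hx⟩
        have hχN : ∀ n : ↥(pResidual p G), (χ : G → ℂ) n = χ₀ n := by
          intro n
          rw [hr ⟨χ, hB, hdeg, hσ⟩ n, hx, h0N]
        obtain ⟨μ, hμ⟩ := Lib.Helper24.exists_hom_of_extensions (pResidual p G) h0 χ.2 h0Nirr hχN
        have hμk : μ ^ k = μ := by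
          apply Lib.Helper24.hom_eq_of_twist_eq (pResidual p G) h0 h0Nirr
          intro g
          have h1 := hσ g
          rw [hμ, hμ, congrFun h0σ g, QuotientGroup.mk_pow, map_pow] at h1
          exact h1
        have hμp : ∀ q, μ q ^ p = 1 := by
          intro q
          obtain ⟨g, rfl⟩ := QuotientGroup.mk_surjective q
          obtain ⟨b, hb, u, hu, rfl⟩ := Fus.exists_mul_pResidual_sylow P g
          have h1 : ((b * u : G) : G ⧸ pResidual p G) = (u : G ⧸ pResidual p G) := by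
            rw [QuotientGroup.mk_mul, (QuotientGroup.eq_one_iff b).2 hb, one_mul]
          rw [h1]
          obtain ⟨j, hj⟩ := (IsPGroup.iff_orderOf.1 P.2) ⟨u, hu⟩
          have h2 := hk₁ u ⟨j, by rw [← hj]; exact (Subgroup.orderOf_mk u hu).symm⟩
          have h3 : μ (u : G ⧸ pResidual p G) ^ k = μ (u : G ⧸ pResidual p G) :=
            congrFun (congrArg DFunLike.coe hμk) _
          rw [← map_pow, ← QuotientGroup.mk_pow, h2, QuotientGroup.mk_pow, map_pow, pow_add,
            pow_one] at h3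
          exact mul_left_cancel (h3.trans (mul_one _).symm)
        refine ⟨⟨μ, hμp⟩, ?_⟩
        apply Subtype.ext; apply Subtype.ext; apply Subtype.ext
        funext g
        exact (hμ g).symm
    haveI := hcyc
    rw [← Nat.card_congr (Equiv.ofBijective F hFbij)]
    exact Lib.Helper24.card_hom_pow_eq_one _ p hpQ
  letI : Fintype {θ : Cfsg.IrrCharacter ↥(pResidual p G) // θ ∈ Cfsg.principalBlock M ↥(pResidual p G) ∧
        ¬ p ∣ Cfsg.charDegree (θ : ↥(pResidual p G) → ℂ) ∧
        (∀ x ∈ (P : Subgroup G), ∀ n : ↥(pResidual p G),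
          (θ : ↥(pResidual p G) → ℂ) ⟨x * n * x⁻¹, hN.conj_mem n n.2 x⟩ =
            (θ : ↥(pResidual p G) → ℂ) n) ∧
        ∀ n : ↥(pResidual p G), (θ : ↥(pResidual p G) → ℂ) (n ^ k) = (θ : ↥(pResidual p G) → ℂ) n} :=
    Fintype.ofFinite _
  rw [← Nat.card_congr (Equiv.sigmaFiberEquiv r), Nat.card_sigma, Finset.sum_congr rfl (fun y _ => hfib y),
    Finset.sum_const, Finset.card_univ, smul_eq_mul, Nat.card_eq_fintype_card, mul_comm]

end Cfsg.Agent.S4553
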