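import Cfsg.Statements.S4565
import Cfsg.Agent.Lib.Helper10.FullyRam2
import Cfsg.Agent.Lib.Helper10.CliffCorr
import Cfsg.Agent.S0886
-- import your own Cfsg.Agent.* helpers here

set_option autoImplicit false
open Cfsg Cfsg.Agent.CharLib Cfsg.Agent.Lib.Helper10
open scoped ComplexConjugate
set_option linter.style.haveILetI false

namespace Cfsg.Agent.S4565

/-- Let χ be an irreducible character of the finite group H that is fully ramified over the normal subgroup Z: the restriction of χ to Z is e times an irreducible character of Z with e ^ 2 equal to the index of Z. If Z ≠ H, then H/Z has no cyclic subgroup that is its own centralizer. -/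
theorem result {H : Type*} [Group H] [Finite H] (Z : Subgroup H) [Z.Normal] (χ : Cfsg.IrrCharacter H) (hfr : ∃ (θ : Cfsg.IrrCharacter ↥Z) (e : ℕ), e ^ 2 = Z.index ∧ ∀ z : ↥Z, (χ : H → ℂ) z = (e : ℂ) * (θ : ↥Z → ℂ) z) (hZ : Z ≠ ⊤) (C : Subgroup (H ⧸ Z)) (hC : IsCyclic C) : Subgroup.centralizer (C : Set (H ⧸ Z)) ≠ C := by
  classical
  intro hcent
  cases nonempty_fintype H
  obtain ⟨θ, e, he, hres⟩ := hfr
  letI : Fintype Z := Fintype.ofFinite _
  obtain ⟨⟨c0, hc0C⟩, hgen⟩ := hC.exists_generator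
  obtain ⟨g₀, rfl⟩ := QuotientGroup.mk_surjective c0
  let D : Subgroup H := C.comap (QuotientGroup.mk' Z)
  have hZD : Z ≤ D := fun z hz => by
    show QuotientGroup.mk' Z z ∈ C
    have h2 : QuotientGroup.mk' Z z = 1 := (QuotientGroup.eq_one_iff z).2 hz
    rw [h2]
    exact C.one_mem
  have hg₀D : g₀ ∈ D := hc0C
  have he0 : (e : ℂ) ≠ 0 := by
    have : e ≠ 0 := by
      rintro rfl
      exact Subgroup.index_ne_zero_of_finite (H := Z) (by rw [← he]; simp)
    exact_mod_cast this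
  have hinv : ∀ (x : H) (z : Z) (hz : x * z * x⁻¹ ∈ Z),
      (θ : Z → ℂ) ⟨x * z * x⁻¹, hz⟩ = (θ : Z → ℂ) z := by
    intro x z hz
    have h1 := hres ⟨x * z * x⁻¹, hz⟩
    have h2 := hres z
    have h3 := isClassFunction_of_irr χ.2 z x
    have h4 : (χ : H → ℂ) (x * z * x⁻¹) = (e : ℂ) * (θ : Z → ℂ) ⟨x * z * x⁻¹, hz⟩ := h1
    rw [h3, h2] at h4
    exact (mul_left_cancel₀ he0 h4).symm
  have hgenC : ∀ c ∈ C, ∃ k : ℤ, (QuotientGroup.mk g₀ : H ⧸ Z) ^ k = c := by
    intro c hc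
    obtain ⟨k, hk⟩ := Subgroup.mem_zpowers_iff.1 (hgen ⟨c, hc⟩)
    exact ⟨k, by simpa using congrArg Subtype.val hk⟩
  let Z' : Subgroup D := Z.subgroupOf D
  haveI : Z'.Normal := Subgroup.Normal.subgroupOf inferInstance D
  letI : Fintype D := Fintype.ofFinite _
  letI : Fintype Z' := Fintype.ofFinite _
  have hcyc : IsCyclic (D ⧸ Z') := by
    rw [isCyclic_iff_exists_zpowers_eq_top]
    refine ⟨QuotientGroup.mk ⟨g₀, hg₀D⟩, ?_⟩
    rw [eq_top_iff]
    intro y _
    obtain ⟨d, rfl⟩ := QuotientGroup.mk_surjective y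
    obtain ⟨k, hk⟩ := hgenC (QuotientGroup.mk (d : H)) d.2
    refine Subgroup.mem_zpowers_iff.2 ⟨k, ?_⟩
    rw [← QuotientGroup.mk_zpow, QuotientGroup.eq]
    rw [← QuotientGroup.mk_zpow, QuotientGroup.eq] at hk
    exact Subgroup.mem_subgroupOf.2 (by simpa using hk)
  obtain ⟨φ, hφ, hφZ⟩ := Cfsg.Agent.S0886.result Z' hcyc (resSub Z D θ)
    (isIrrCharacter_resSub hZD θ.2) (by
      intro x n
      exact hinv (x : H) ⟨((n : D) : H), Subgroup.mem_subgroupOf.1 n.2⟩ _)
  have hφZirr : IsIrrCharacter Z' (fun n : Z' => φ n) := by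
    have : (fun n : Z' => φ n) = resSub Z D θ := funext hφZ
    rw [this]
    exact isIrrCharacter_resSub hZD θ.2
  have hcomm : ∀ x : H, x ∈ D ↔
      (QuotientGroup.mk g₀ : H ⧸ Z) * QuotientGroup.mk x = QuotientGroup.mk x * QuotientGroup.mk g₀ := by
    intro x
    constructor
    · intro hx
      have h1 : (QuotientGroup.mk x : H ⧸ Z) ∈ Subgroup.centralizer (C : Set (H ⧸ Z)) := by
        rw [hcent]; exact hx
      exact Subgroup.mem_centralizer_iff.1 h1 _ hc0C
    · intro hx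
      show (QuotientGroup.mk x : H ⧸ Z) ∈ C
      rw [← hcent, Subgroup.mem_centralizer_iff]
      intro c hc
      obtain ⟨k, rfl⟩ := hgenC c hc
      exact (Commute.zpow_left (show Commute _ _ from hx) k)
  have hg₀Z : g₀ ∉ Z := by
    intro h
    apply hZ
    rw [eq_top_iff]
    intro x _
    have h1 : (QuotientGroup.mk g₀ : H ⧸ Z) = 1 := (QuotientGroup.eq_one_iff g₀).2 h
    have h2 : x ∈ D := (hcomm x).2 (by rw [h1]; simp)
    obtain ⟨k, hk⟩ := hgenC _ h2
    rw [h1, one_zpow] at hk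
    exact (QuotientGroup.eq_one_iff x).1 hk.symm
  have hvan : ∀ n : Z', φ ((n : D) * ⟨g₀, hg₀D⟩) = 0 := by
    intro n
    have hnZ : ((n : D) : H) ∈ Z := Subgroup.mem_subgroupOf.1 n.2
    have hn1 : (QuotientGroup.mk ((n : D) : H) : H ⧸ Z) = 1 := (QuotientGroup.eq_one_iff _).2 hnZ
    apply fr_ext_vanish Z χ θ e he hres D hZD φ hφ
      (fun z => hφZ ⟨⟨z, hZD z.2⟩, Subgroup.mem_subgroupOf.2 z.2⟩)
    · intro h4
      exact hg₀Z ((Subgroup.mul_mem_cancel_left Z hnZ).1 h4)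
    · intro x
      rw [hcomm x, ← QuotientGroup.eq_one_iff]
      have h5 : (((n : D) * ⟨g₀, hg₀D⟩ : D) : H) = ((n : D) : H) * g₀ := rfl
      rw [h5]
      simp only [QuotientGroup.mk_mul, QuotientGroup.mk_inv, hn1, one_mul]
      constructor
      · intro h6
        have h7 := mul_inv_eq_one.1 h6
        calc (QuotientGroup.mk g₀ : H ⧸ Z) * QuotientGroup.mk x
            = QuotientGroup.mk x * ((QuotientGroup.mk x)⁻¹ * QuotientGroup.mk g₀ * QuotientGroup.mk x) := by group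
          _ = _ := by rw [h7]
      · intro h6
        rw [mul_inv_eq_one, mul_assoc, h6]; group
  have h1 := congrFun ((Cfsg.Agent.S0868.result Z' φ hφ hφZirr φ hφ _ rfl).2.2 rfl) ⟨g₀, hg₀D⟩
  simp only [hvan] at h1
  simp at h1

end Cfsg.Agent.S4565
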