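import Cfsg.Statements.S4566
import Mathlib
import Cfsg.Agent.H6.Extraspecial
import Cfsg.Agent.CharLib.L.AbelianIndex
import Cfsg.Agent.CharLib.L.Linear
-- import your own Cfsg.Agent.* helpers here

set_option autoImplicit false
open Cfsg
open Cfsg.Agent.CharLib Cfsg.Agent.CharLib.L
open scoped ComplexConjugate

namespace Cfsg.Agent.S4566

/-- Let N be a central subgroup of the finite group G, ψ a faithful irreducible (hence degree-one) character of N, and χ an irreducible character of G whose restriction to N contains ψ. If g ∈ G and some x ∈ G has commutator x⁻¹ g⁻¹ x g in N but different from 1, then χ g = 0. -/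
theorem result {G : Type*} [Group G] [Fintype G] (N : Subgroup G) [Fintype N] (hN : N ≤ Subgroup.center G) (ψ : Cfsg.IrrCharacter ↥N) (hfaith : ∀ n : ↥N, (ψ : ↥N → ℂ) n = (ψ : ↥N → ℂ) 1 → n = 1) (χ : Cfsg.IrrCharacter G) (hover : Cfsg.classInner (fun n : ↥N => (χ : G → ℂ) n) (ψ : ↥N → ℂ) ≠ 0) (g x : G) (hcomm : x⁻¹ * g⁻¹ * x * g ∈ N) (hne : x⁻¹ * g⁻¹ * x * g ≠ 1) : (χ : G → ℂ) g = 0 := by
  classical
  have hNc : ∀ a b : N, a * b = b * a := by
    intro a b
    apply Subtype.ext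
    exact Subgroup.mem_center_iff.1 (hN b.2) a
  have hψ1 : (ψ : N → ℂ) 1 = 1 := irr_apply_one_of_comm hNc ψ
  have hψmul := irr_mul_of_apply_one_eq_one ψ hψ1
  let z₀ : N := ⟨x⁻¹ * g⁻¹ * x * g, hcomm⟩
  have hz₀c : (z₀ : G) ∈ Subgroup.center G := hN hcomm
  obtain ⟨n, ρ, hirr, hch⟩ := χ.2
  haveI := hirr
  obtain ⟨ω, hω⟩ := Cfsg.Agent.H6.exists_scalar_of_mem_center ρ hz₀c
  have key : ∀ h : G, (χ : G → ℂ) (h * z₀) = ω * (χ : G → ℂ) h := by
    intro h
    rw [← hch]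
    show LinearMap.trace ℂ _ (ρ (h * z₀)) = ω * LinearMap.trace ℂ _ (ρ h)
    rw [map_mul, hω]
    have : ρ h * (ω • LinearMap.id) = ω • ρ h := by
      ext v; simp
    rw [this, map_smul, smul_eq_mul]
  by_cases hω1 : ω = 1
  · exfalso
    have hS : ∑ z : N, (χ : G → ℂ) z * conj ((ψ : N → ℂ) z) =
        conj ((ψ : N → ℂ) z₀) * ∑ z : N, (χ : G → ℂ) z * conj ((ψ : N → ℂ) z) := by
      rw [Finset.mul_sum]
      rw [← Fintype.sum_equiv (Equiv.mulRight z₀) (fun z : N => (χ : G → ℂ) ((z * z₀ : N) : G) * conj ((ψ : N → ℂ) (z * z₀)))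
        (fun z : N => (χ : G → ℂ) z * conj ((ψ : N → ℂ) z)) (fun z => rfl)]
      refine Finset.sum_congr rfl fun z _ => ?_
      rw [Subgroup.coe_mul, key, hω1, one_mul, hψmul, map_mul]
      ring
    have hS0 : ∑ z : N, (χ : G → ℂ) z * conj ((ψ : N → ℂ) z) ≠ 0 := by
      intro h
      apply hover
      rw [classInner, h, mul_zero]
    have h1 : conj ((ψ : N → ℂ) z₀) = 1 := by
      have h2 : (conj ((ψ : N → ℂ) z₀) - 1) * ∑ z : N, (χ : G → ℂ) z * conj ((ψ : N → ℂ) z) = 0 := by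
        rw [sub_mul, ← hS, one_mul, sub_self]
      rcases mul_eq_zero.1 h2 with h3 | h3
      · exact sub_eq_zero.1 h3
      · exact absurd h3 hS0
    have h2 : (ψ : N → ℂ) z₀ = 1 := by
      have := congrArg conj h1
      simpa using this
    have h3 := hfaith z₀ (by rw [h2, hψ1])
    exact hne (congrArg Subtype.val h3)
  · have h1 : (χ : G → ℂ) (x⁻¹ * g⁻¹ * x⁻¹⁻¹) = (χ : G → ℂ) g⁻¹ := isClassFunction_of_irr χ.2 g⁻¹ x⁻¹
    have h2 : x⁻¹ * g⁻¹ * x⁻¹⁻¹ = g⁻¹ * z₀ := by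
      have h3 := Subgroup.mem_center_iff.1 hz₀c g⁻¹
      rw [h3]
      show _ = x⁻¹ * g⁻¹ * x * g * g⁻¹
      group
    rw [h2, key] at h1
    have h4 : (ω - 1) * (χ : G → ℂ) g⁻¹ = 0 := by rw [sub_mul, h1, one_mul, sub_self]
    have h5 : (χ : G → ℂ) g⁻¹ = 0 := by
      rcases mul_eq_zero.1 h4 with h | h
      · exact absurd (sub_eq_zero.1 h) hω1
      · exact h
    rw [isCharacter_inv (isCharacter_of_irr χ.2)] at h5
    have := congrArg conj h5
    simpa using this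

end Cfsg.Agent.S4566
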