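import Cfsg.Statements.S4567
import Mathlib
import Cfsg.Agent.Lib.Helper10.CentralCount
-- import your own Cfsg.Agent.* helpers here

set_option autoImplicit false
open Cfsg Cfsg.Agent.CharLib Cfsg.Agent.Lib.Helper10

namespace Cfsg.Agent.S4567

/-- Let N be a central subgroup of the finite group G and ψ a faithful irreducible (hence degree-one) character of N. Call a coset g N special when every x ∈ G whose commutator x⁻¹ g⁻¹ x g lies in N actually commutes with g (this depends only on the coset). Then the number of irreducible characters of G whose restriction to N contains ψ equals the number of conjugacy classes of G/N consisting of special cosets. -/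
theorem result {G : Type*} [Group G] [Fintype G] (N : Subgroup G) [N.Normal] [Fintype N] (hN : N ≤ Subgroup.center G) (ψ : Cfsg.IrrCharacter ↥N) (hfaith : ∀ n : ↥N, (ψ : ↥N → ℂ) n = (ψ : ↥N → ℂ) 1 → n = 1) : Nat.card {χ : Cfsg.IrrCharacter G // Cfsg.classInner (fun n : ↥N => (χ : G → ℂ) n) (ψ : ↥N → ℂ) ≠ 0} = Nat.card {C : ConjClasses (G ⧸ N) // ∃ g : G, ConjClasses.mk (g : G ⧸ N) = C ∧ ∀ x : G, x⁻¹ * g⁻¹ * x * g ∈ N → x * g = g * x} := by
  classical
  have hN0 : (Nat.card N : ℂ) ≠ 0 := by exact_mod_cast Nat.card_pos.ne'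
  have hG0 : (Nat.card G : ℂ) ≠ 0 := by exact_mod_cast Nat.card_pos.ne'
  set P : ConjClasses (G ⧸ N) → Prop := fun C => ∃ g : G, ConjClasses.mk (g : G ⧸ N) = C ∧
    ∀ x : G, x⁻¹ * g⁻¹ * x * g ∈ N → x * g = g * x with hP
  have hPiff : ∀ g : G, P (ConjClasses.mk (g : G ⧸ N)) ↔ SpecialMod N g := by
    intro g
    constructor
    · rintro ⟨g', hg', hs⟩
      obtain ⟨c, hc⟩ := isConj_iff.1 (ConjClasses.mk_eq_mk_iff_isConj.1 hg')
      obtain ⟨y, rfl⟩ := QuotientGroup.mk_surjective c
      have h1 : ((y * g' * y⁻¹ : G) : G ⧸ N) = (g : G ⧸ N) := hc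
      have h2 := QuotientGroup.eq.1 h1
      have h3 := specialMod_mul hN h2 (specialMod_conj y hs)
      rwa [mul_inv_cancel_left] at h3
    · intro h
      exact ⟨g, rfl, h⟩
  have h1 := card_over_eq_sum hN ψ hfaith
  have h2 : ∀ g : G, (Nat.card N : ℂ)⁻¹ *
        ((Nat.card (Subgroup.centralizer ({g} : Set G)) : ℂ) * (if SpecialMod N g then 1 else 0)) =
      (fun q : G ⧸ N => if P (ConjClasses.mk q) then
        (Nat.card (Subgroup.centralizer ({q} : Set (G ⧸ N))) : ℂ) else 0) (g : G ⧸ N) := by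
    intro g
    by_cases h : SpecialMod N g
    · simp only [if_pos h, if_pos ((hPiff g).2 h)]
      rw [card_centralizer_of_specialMod h]
      push_cast
      rw [mul_one, inv_mul_cancel_left₀ hN0]
    · simp only [if_neg h, if_neg (fun h' => h ((hPiff g).1 h'))]
      simp
  rw [Finset.sum_congr rfl (fun g _ => h2 g), sum_comp_quotient_mk N (fun q : G ⧸ N => if P (ConjClasses.mk q) then
        (Nat.card (Subgroup.centralizer ({q} : Set (G ⧸ N))) : ℂ) else 0),
    sum_card_centralizer_of_pred P, nsmul_eq_mul] at h1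
  have h3 : (Nat.card G : ℂ) = (Nat.card (G ⧸ N) : ℂ) * (Nat.card N : ℂ) := by
    exact_mod_cast Subgroup.card_eq_card_quotient_mul_card_subgroup N
  have h4 : (Nat.card {χ : Cfsg.IrrCharacter G // Cfsg.classInner (fun n : ↥N => (χ : G → ℂ) n) (ψ : ↥N → ℂ) ≠ 0} : ℂ) = (Nat.card {C // P C} : ℂ) := by
    rw [h1, h3]
    have hQ0 : (Nat.card (G ⧸ N) : ℂ) ≠ 0 := by exact_mod_cast Nat.card_pos.ne'
    field_simp
  exact_mod_cast h4

end Cfsg.Agent.S4567
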