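import Cfsg.Statements.S4571
import Cfsg.Agent.Lib.Helper8.BQ1
import Cfsg.Agent.S0941

set_option autoImplicit false
open Cfsg

namespace Cfsg.Agent.S4571

/-- Let Q be a normal p-subgroup of the finite group G with G = Q·C_G(Q), and M a maximal ideal of the algebraic integers containing p. Then the principal p-blocks of G and of G/Q have the same p-regular rank (the same number of irreducible Brauer characters). -/
theorem result {G : Type*} [Group G] [Finite G] (p : ℕ) [Fact p.Prime] (M : Ideal Cfsg.AlgInt) (hM : Cfsg.IsPModular p M) (Q : Subgroup G) [Q.Normal] (hQ : IsPGroup p Q) (hsup : Q ⊔ Subgroup.centralizer (Q : Set G) = ⊤) : Cfsg.blockRank p (Cfsg.principalBlock M G) = Cfsg.blockRank p (Cfsg.principalBlock M (G ⧸ Q)) := by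
  have hC : ∃ k : ℕ, (Subgroup.centralizer (Q : Set G)).index = p ^ k := by
    have hn : (Subgroup.centralizer (Q : Set G)).Normal := inferInstance
    have h1 : (Subgroup.centralizer (Q : Set G)).relIndex Q =
        (Subgroup.centralizer (Q : Set G)).index := by
      rw [← Subgroup.relIndex_sup_left, sup_comm, hsup, Subgroup.relIndex_top_right]
    have h2 : (Subgroup.centralizer (Q : Set G)).relIndex Q ∣ Nat.card Q :=
      Subgroup.index_dvd_card _
    obtain ⟨n, hn'⟩ := IsPGroup.iff_card.mp hQ
    rw [hn', h1] at h2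
    obtain ⟨k, -, hk⟩ := (Nat.dvd_prime_pow Fact.out).mp h2
    exact ⟨k, hk⟩
  apply Cfsg.Agent.Lib.Helper8.BQ.blockRank_quot hM Q hQ hsup
  intro χ
  exact (Cfsg.Agent.S0941.result p M hM Q hQ hC).1
    ⟨fun _ => 1, Cfsg.Agent.CharLib.isIrrCharacter_one⟩ χ

end Cfsg.Agent.S4571
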