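import Cfsg.Statements.S4574
import Mathlib
import Cfsg.Agent.Lib.Helper10.GaloisSum
import Cfsg.Agent.Lib.Helper23.CharDeg
-- import your own Cfsg.Agent.* helpers here

set_option autoImplicit false
open Cfsg
open Cfsg.Agent.CharLib Cfsg.Agent.Lib.Helper10 Cfsg.Agent.Lib.Helper23
open scoped ComplexConjugate

namespace Cfsg.Agent.S4574

/-- Let χ be an irreducible character of the finite group G, of degree d, and let Z(χ) be the set of elements g with |χ g| = d (the centre of χ). Then χ vanishes on at least (d ^ 2 - 1) · |Z(χ)| elements of G, with equality when every value |χ g| is 0, 1 or d. -/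
theorem result {G : Type*} [Group G] [Fintype G] [DecidableEq G] (χ : G → ℂ) (hχ : Cfsg.IsIrrCharacter G χ) : (Cfsg.charDegree χ ^ 2 - 1) * (Finset.univ.filter (fun g : G => ‖χ g‖ = (Cfsg.charDegree χ : ℝ))).card ≤ (Finset.univ.filter (fun g : G => χ g = 0)).card ∧ ((∀ g : G, ‖χ g‖ = 0 ∨ ‖χ g‖ = 1 ∨ ‖χ g‖ = (Cfsg.charDegree χ : ℝ)) → (Cfsg.charDegree χ ^ 2 - 1) * (Finset.univ.filter (fun g : G => ‖χ g‖ = (Cfsg.charDegree χ : ℝ))).card = (Finset.univ.filter (fun g : G => χ g = 0)).card) := by
  classical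
  set d := Cfsg.charDegree χ with hd
  have hchar := isCharacter_of_irr hχ
  have hd1 : (d : ℂ) = χ 1 := charDegree_cast hchar
  have hdpos : 0 < d := charDegree_pos_irr ⟨χ, hχ⟩
  set n := Nat.card G with hn
  have hn0 : 0 < n := Nat.card_pos
  haveI : NeZero n := ⟨hn0.ne'⟩
  set Z := Finset.univ.filter (fun g : G => ‖χ g‖ = (d : ℝ)) with hZ
  set V := Finset.univ.filter (fun g : G => χ g = 0) with hV
  -- the sum of squares
  have hsG : ∑ g : G, Complex.normSq (χ g) = (n : ℝ) := by
    have hnG : classInner χ χ = 1 := classInner_irr_self hχ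
    have hG : (Nat.card G : ℂ) ≠ 0 := by exact_mod_cast Nat.card_pos.ne'
    have h1 : ∑ g : G, χ g * (starRingEnd ℂ) (χ g) = (Nat.card G : ℂ) := by
      rw [classInner] at hnG
      field_simp at hnG
      exact hnG
    have h2 : ((∑ g : G, Complex.normSq (χ g) : ℝ) : ℂ) = ((Nat.card G : ℝ) : ℂ) := by
      push_cast
      rw [← h1]
      exact Finset.sum_congr rfl fun g _ => (Complex.mul_conj _).symm
    exact_mod_cast h2
  let c : G → ℝ := fun g => 1 + ((d : ℝ) ^ 2 - 1) * (if ‖χ g‖ = (d : ℝ) then 1 else 0) - (if χ g = 0 then 1 else 0)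
  have hsumc : ∑ g : G, c g = (n : ℝ) + ((d : ℝ) ^ 2 - 1) * (Z.card : ℝ) - (V.card : ℝ) := by
    simp only [c, Finset.sum_sub_distrib, Finset.sum_add_distrib, ← Finset.mul_sum, Finset.sum_boole,
      Finset.sum_const, Finset.card_univ, nsmul_eq_mul, mul_one]
    rw [← Nat.card_eq_fintype_card]
  have hfin : ∀ a b : ℕ, ((d : ℝ) ^ 2 - 1) * (a : ℝ) ≤ (b : ℝ) → (d ^ 2 - 1) * a ≤ b := by
    intro a b h
    have h1 : ((d ^ 2 - 1 : ℕ) : ℝ) = (d : ℝ) ^ 2 - 1 := by
      rw [Nat.cast_sub (Nat.one_le_pow _ _ hdpos)]; push_cast; ring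
    rw [← h1] at h
    exact_mod_cast h
  have hfin' : ∀ a b : ℕ, ((d : ℝ) ^ 2 - 1) * (a : ℝ) = (b : ℝ) → (d ^ 2 - 1) * a = b := by
    intro a b h
    have h1 : ((d ^ 2 - 1 : ℕ) : ℝ) = (d : ℝ) ^ 2 - 1 := by
      rw [Nat.cast_sub (Nat.one_le_pow _ _ hdpos)]; push_cast; ring
    rw [← h1] at h
    exact_mod_cast h
  have hdR : (0 : ℝ) < d := by exact_mod_cast hdpos
  constructor
  · apply hfin
    -- double sum
    have hA : ∑ u : (ZMod n)ˣ, ∑ g : G, Complex.normSq (χ (g ^ (u : ZMod n).val))
        = (Fintype.card (ZMod n)ˣ : ℝ) * n := by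
      have : ∀ u : (ZMod n)ˣ, ∑ g : G, Complex.normSq (χ (g ^ (u : ZMod n).val)) = (n : ℝ) := by
        intro u
        rw [← hsG]
        have hc : (Nat.card G).Coprime (u : ZMod n).val := (ZMod.val_coe_unit_coprime u).symm
        exact Fintype.sum_equiv (powCoprime hc) _ _ (fun g => rfl)
      simp only [this, Finset.sum_const, Finset.card_univ, nsmul_eq_mul]
    rw [Finset.sum_comm] at hA
    have hU : (0 : ℝ) < Fintype.card (ZMod n)ˣ := by exact_mod_cast Fintype.card_pos
    have hle : ∀ g : G, (Fintype.card (ZMod n)ˣ : ℝ) * c g ≤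
        ∑ u : (ZMod n)ˣ, Complex.normSq (χ (g ^ (u : ZMod n).val)) := by
      intro g
      by_cases h0 : χ g = 0
      · have hnz : ¬ ‖χ g‖ = (d : ℝ) := by
          rw [h0, norm_zero]; exact hdR.ne
        simp only [c, if_pos h0, if_neg hnz]
        have : (0 : ℝ) ≤ ∑ u : (ZMod n)ˣ, Complex.normSq (χ (g ^ (u : ZMod n).val)) :=
          Finset.sum_nonneg fun u _ => Complex.normSq_nonneg _
        simpa using this
      · by_cases hz : ‖χ g‖ = (d : ℝ)
        · simp only [c, if_neg h0, if_pos hz]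
          have h1 : χ g * conj (χ g) = ((d ^ 2 : ℕ) : ℂ) := by
            rw [Complex.mul_conj, Complex.normSq_eq_norm_sq, hz]; push_cast; rfl
          have h2 : ∀ u : (ZMod n)ˣ, Complex.normSq (χ (g ^ (u : ZMod n).val)) = (d : ℝ) ^ 2 := by
            intro u
            have h3 := char_pow_normSq_eq hchar g _ (ZMod.val_coe_unit_coprime u) (d ^ 2) h1
            rw [Complex.mul_conj] at h3
            have h4 : ((Complex.normSq (χ (g ^ (u : ZMod n).val)) : ℝ) : ℂ) = (((d : ℝ) ^ 2 : ℝ) : ℂ) := by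
              rw [h3]; push_cast; rfl
            exact_mod_cast h4
          simp only [h2, Finset.sum_const, Finset.card_univ, nsmul_eq_mul]
          apply le_of_eq; ring
        · simp only [c, if_neg h0, if_neg hz]
          have := card_units_le_sum_normSq_of_ne hchar g h0
          rw [mul_zero, add_zero, sub_zero, mul_one]
          exact this
    have h5 : (Fintype.card (ZMod n)ˣ : ℝ) * ∑ g : G, c g ≤ (Fintype.card (ZMod n)ˣ : ℝ) * n := by
      rw [← hA, Finset.mul_sum]
      exact Finset.sum_le_sum fun g _ => hle g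
    have h6 := le_of_mul_le_mul_left h5 hU
    rw [hsumc] at h6
    linarith
  · intro hall
    apply hfin'
    have hc : ∀ g : G, Complex.normSq (χ g) = c g := by
      intro g
      rw [Complex.normSq_eq_norm_sq]
      by_cases h0 : χ g = 0
      · have hnz : ¬ ‖χ g‖ = (d : ℝ) := by
          rw [h0, norm_zero]; exact hdR.ne
        simp only [c, if_pos h0, if_neg hnz]
        rw [h0]; simp
      · by_cases hz : ‖χ g‖ = (d : ℝ)
        · simp only [c, if_neg h0, if_pos hz]
          rw [hz]; ring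
        · simp only [c, if_neg h0, if_neg hz]
          rcases hall g with h | h | h
          · exact absurd (norm_eq_zero.1 h) h0
          · rw [h]; ring
          · exact absurd h hz
    have h7 : ∑ g : G, c g = (n : ℝ) := by
      rw [← hsG]
      exact Finset.sum_congr rfl fun g _ => (hc g).symm
    rw [hsumc] at h7
    linarith

end Cfsg.Agent.S4574
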