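import Cfsg.Statements.S4582
import Cfsg.Agent.Lib.Helper8.Transfer
import Cfsg.Agent.Lib.Helper8.Transfer2

set_option autoImplicit false
open Cfsg

namespace Cfsg.Agent.S4582

open Cfsg.Agent.Lib.Helper8 in
theorem transfer_comp' {G A B : Type*} [Group G] {H : Subgroup G} [CommGroup A] [CommGroup B]
    (φ : H →* A) (f : A →* B) [H.FiniteIndex] (g : G) :
    (f.comp φ).transfer g = f (φ.transfer g) := by
  classical
  let := H.fintypeQuotientOfFiniteIndex
  rw [MonoidHom.transfer_eq_prod_quotient_orbitRel_zpowers_quot,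
    MonoidHom.transfer_eq_prod_quotient_orbitRel_zpowers_quot, map_prod]
  rfl

open Cfsg.Agent.Lib.Helper8 in
theorem core {Γ : Type*} [Group Γ] [Finite Γ] (N P : Subgroup Γ) [hNn : N.Normal]
    (hP2 : IsPGroup 2 P)
    (hodd : Odd P.index) (hNP : ∀ g : Γ, ∃ s ∈ P, ∃ n ∈ N, g = s * n)
    (ha : ∀ x ∈ P, ∀ f : Γ →* Abelianization P, (∀ n ∈ N, f n = 1) → f (x ^ 2) = 1)
    (hb : ∀ w ∈ P ⊓ N, w ^ 2 ∈ ⁅P, P⁆)
    (hc : ∀ f : Γ →* Abelianization P, ∀ n ∈ N, f n = 1) :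
    ∀ x ∈ P, x ^ 2 ∈ ⁅P, P⁆ := by
  intro x hx
  let φ : P →* Abelianization P := Abelianization.of
  have hker : ∀ y : P, φ y = 1 ↔ (y : Γ) ∈ ⁅P, P⁆ := by
    intro y
    rw [← Subgroup.map_subtype_commutator]
    have h1 : φ y = 1 ↔ y ∈ commutator P := by
      rw [← MonoidHom.mem_ker, Abelianization.ker_of]
    rw [h1]
    exact (Subgroup.mem_map_iff_mem P.subtype_injective (x := y)).symm
  let φ₂ : P →* Abelianization P := (powMonoidHom 2).comp φ
  have hφ₂ : ∀ y : P, φ₂ y = φ y ^ 2 := fun y => rfl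
  have step1 : ∀ (y g : Γ) (hy : y ∈ P) (hg : g⁻¹ * y * g ∈ P),
      φ₂ ⟨g⁻¹ * y * g, hg⟩ = φ₂ ⟨y, hy⟩ := by
    intro y g hy hg
    obtain ⟨s, hs, n, hn, rfl⟩ := hNP g
    have hy' : s⁻¹ * y * s ∈ P := mul_mem (mul_mem (inv_mem hs) hy) hs
    have hwP : (s⁻¹ * y * s)⁻¹ * ((s * n)⁻¹ * y * (s * n)) ∈ P := mul_mem (inv_mem hy') hg
    have hwN : (s⁻¹ * y * s)⁻¹ * ((s * n)⁻¹ * y * (s * n)) ∈ N := by
      have : (s⁻¹ * y * s)⁻¹ * ((s * n)⁻¹ * y * (s * n))
          = ((s⁻¹ * y * s)⁻¹ * n⁻¹ * (s⁻¹ * y * s)⁻¹⁻¹) * n := by group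
      rw [this]
      exact mul_mem (hNn.conj_mem _ (inv_mem hn) _) hn
    have hw2 : φ (⟨_, hwP⟩ ^ 2) = 1 := (hker _).mpr (hb _ ⟨hwP, hwN⟩)
    have e1 : (⟨(s * n)⁻¹ * y * (s * n), hg⟩ : P) = ⟨_, hy'⟩ * ⟨_, hwP⟩ := by
      apply Subtype.ext
      simp only [Subgroup.coe_mul]
      group
    have e2 : (⟨s⁻¹ * y * s, hy'⟩ : P) = (⟨s, hs⟩ : P)⁻¹ * ⟨y, hy⟩ * ⟨s, hs⟩ := rfl
    rw [e1, map_mul, hφ₂ ⟨_, hwP⟩, ← map_pow, hw2, mul_one, hφ₂, hφ₂, e2, map_mul, map_mul,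
      map_inv]
    congr 1
    rw [mul_comm, ← mul_assoc, mul_inv_cancel, one_mul]
  have hV2 : φ₂.transfer x = φ₂ ⟨x, hx⟩ ^ P.index := transfer_eq_pow_of_map φ₂ x hx (by
    intro k g₀ hk
    rw [step1 (x ^ k) g₀ (pow_mem hx k) hk, ← map_pow]; rfl)
  have hV1 : φ₂.transfer x = 1 := by
    rw [transfer_comp' φ (powMonoidHom 2) x]
    show (φ.transfer x) ^ 2 = 1
    rw [← map_pow]
    exact ha x hx φ.transfer (hc φ.transfer)
  have h3 : (φ ⟨x, hx⟩ ^ 2) ^ P.index = 1 := by rw [← hV1, hV2, hφ₂]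
  have hA2 : IsPGroup 2 (Abelianization P) := hP2.to_quotient (commutator P)
  obtain ⟨k, hk⟩ := hA2 (φ ⟨x, hx⟩ ^ 2)
  have hcop : Nat.Coprime P.index (2 ^ k) := by
    apply Nat.Coprime.pow_right
    exact (Nat.coprime_two_right).mpr hodd
  have h4 : φ ⟨x, hx⟩ ^ 2 = 1 := eq_one_of_pow_coprime hcop h3 hk
  have := (hker (⟨x, hx⟩ ^ 2)).mp (by rw [map_pow]; exact h4)
  simpa using this

/-- Let N be a normal subgroup of the finite group G, P a Sylow 2-subgroup of G and Q = P ∩ N. Suppose that P/QP' and Q/Q' are elementary abelian (every square of an element of P lies in the subgroup generated by Q and the derived subgroup of P, and every square of an element of Q lies in the derived subgroup of Q), and that the commutator factor group N/N' has odd order. Then P/P' is elementary abelian. -/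
theorem result {G : Type*} [Group G] [Finite G] (N : Subgroup G) [N.Normal] (P : Sylow 2 G)
    (hP : ∀ x ∈ (P : Subgroup G), x ^ 2 ∈ ((P : Subgroup G) ⊓ N) ⊔ ⁅(P : Subgroup G), (P : Subgroup G)⁆)
    (hQ : ∀ x ∈ (P : Subgroup G) ⊓ N, x ^ 2 ∈ ⁅(P : Subgroup G) ⊓ N, (P : Subgroup G) ⊓ N⁆)
    (hodd : Odd (Nat.card (Abelianization N))) :
    ∀ x ∈ (P : Subgroup G), x ^ 2 ∈ ⁅(P : Subgroup G), (P : Subgroup G)⁆ := by
  haveI : Fact (Nat.Prime 2) := ⟨Nat.prime_two⟩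
  set G₀ : Subgroup G := (P : Subgroup G) ⊔ N with hG₀
  have hPG : (P : Subgroup G) ≤ G₀ := le_sup_left
  have hNG : N ≤ G₀ := le_sup_right
  let P₀ : Subgroup G₀ := (P : Subgroup G).subgroupOf G₀
  let N₀ : Subgroup G₀ := N.subgroupOf G₀
  haveI : N₀.Normal := Subgroup.normal_subgroupOf
  have hcomm : (⁅P₀, P₀⁆).map G₀.subtype = ⁅(P : Subgroup G), (P : Subgroup G)⁆ := by
    rw [Subgroup.map_commutator, Subgroup.map_subgroupOf_eq_of_le hPG]
  have hmem : ∀ w : G₀, w ∈ ⁅P₀, P₀⁆ ↔ (w : G) ∈ ⁅(P : Subgroup G), (P : Subgroup G)⁆ := by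
    intro w
    rw [← hcomm]
    exact (Subgroup.mem_map_iff_mem G₀.subtype_injective (x := w)).symm
  have hP2 : IsPGroup 2 P₀ := P.2.comap_subtype
  have hA2 : IsPGroup 2 (Abelianization P₀) := hP2.to_quotient (commutator P₀)
  have hoddP : Odd P₀.index := by
    have h1 : (P : Subgroup G).relIndex G₀ ∣ (P : Subgroup G).index :=
      Subgroup.relIndex_dvd_index_of_le hPG
    have h2 : Odd (P : Subgroup G).index := by
      rw [← Nat.not_even_iff_odd, even_iff_two_dvd]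
      exact P.not_dvd_index
    exact Odd.of_dvd_nat h2 h1
  have key := core N₀ P₀ hP2 hoddP
    (by
      intro g
      obtain ⟨s, hs, n, hn, h⟩ := Subgroup.mem_sup_of_normal_right.mp g.2
      exact ⟨⟨s, hPG hs⟩, hs, ⟨n, hNG hn⟩, hn, Subtype.ext h.symm⟩)
    (by
      intro x hx f hf
      have hle : ((P : Subgroup G) ⊓ N) ⊔ ⁅(P : Subgroup G), (P : Subgroup G)⁆
          ≤ f.ker.map G₀.subtype := by
        apply sup_le
        · intro w hw
          exact ⟨⟨w, hPG hw.1⟩, hf _ hw.2, rfl⟩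
        · rw [Subgroup.commutator_le]
          intro a ha b hb
          refine ⟨(⟨a, hPG ha⟩ : G₀) * (⟨b, hPG hb⟩ : G₀) * (⟨a, hPG ha⟩ : G₀)⁻¹ *
            (⟨b, hPG hb⟩ : G₀)⁻¹, ?_, rfl⟩
          show f _ = 1
          rw [map_mul, map_mul, map_mul, map_inv, map_inv, mul_comm (f _) (f _), mul_assoc,
            mul_assoc, mul_inv_cancel_left, mul_inv_cancel]
      obtain ⟨k, hk, hkx⟩ := hle (hP x hx)
      have : k = x ^ 2 := Subtype.ext (by simpa using hkx)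
      rw [← this]; exact hk)
    (by
      intro w hw
      rw [hmem]
      have := hQ w ⟨hw.1, hw.2⟩
      exact Subgroup.commutator_mono inf_le_left inf_le_left this)
    (by
      intro f n hn
      let fN : N →* Abelianization P₀ := f.comp (Subgroup.inclusion hNG)
      have h1 : f n = Abelianization.lift fN (Abelianization.of ⟨n, hn⟩) := by
        rw [Abelianization.lift_apply_of]; rfl
      have h2 : (f n) ^ (Nat.card (Abelianization N)) = 1 := by
        rw [h1, ← map_pow, pow_card_eq_one', map_one]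
      obtain ⟨k, hk⟩ := hA2 (f n)
      exact Cfsg.Agent.Lib.Helper8.eq_one_of_pow_coprime
        (Nat.Coprime.pow_right _ ((Nat.coprime_two_right).mpr hodd)) h2 hk)
  intro x hx
  have := key ⟨x, hPG hx⟩ (Subgroup.mem_subgroupOf.mpr hx)
  rw [hmem] at this
  simpa using this

end Cfsg.Agent.S4582
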