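import Cfsg.Statements.S4583
import Cfsg.Agent.BlockLib.KG.PrinOver2

set_option autoImplicit false
open Cfsg Cfsg.Agent.BlockLib Cfsg.Agent.CharLib

namespace Cfsg.Agent.S4583

/-- Let N be a normal subgroup of the finite group G, p a prime, M a maximal ideal of the algebraic integers containing p, and P a Sylow p-subgroup of G. Let θ be an irreducible character of N of degree prime to p lying in the principal p-block of N, and suppose θ extends to the subgroup NP (some irreducible character of NP restricts to θ). Then some irreducible character χ of G of degree prime to p in the principal p-block of G lies over θ (θ is a constituent of the restriction of χ to N). -/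
theorem result {G : Type*} [Group G] [Finite G] (N : Subgroup G) [N.Normal] (p : ℕ) [Fact p.Prime] (M : Ideal Cfsg.AlgInt) (hM : Cfsg.IsPModular p M) (P : Sylow p G)
    (θ : Cfsg.IrrCharacter N) (hθ : θ ∈ Cfsg.principalBlock M N) (hdeg : ¬ p ∣ Cfsg.charDegree (θ : N → ℂ))
    (hext : ∃ η : Cfsg.IrrCharacter ↥(N ⊔ (P : Subgroup G)), ∀ n : N, (η : ↥(N ⊔ (P : Subgroup G)) → ℂ) (Subgroup.inclusion le_sup_left n) = (θ : N → ℂ) n) :
    ∃ χ : Cfsg.IrrCharacter G, χ ∈ Cfsg.principalBlock M G ∧ ¬ p ∣ Cfsg.charDegree (χ : G → ℂ) ∧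
      haveI := Fintype.ofFinite N; Cfsg.classInner (fun n : N => (χ : G → ℂ) n) (θ : N → ℂ) ≠ 0 := by
  classical
  letI := Fintype.ofFinite G
  letI : Fintype N := Fintype.ofFinite N
  letI : Fintype ↥(N ⊔ (P : Subgroup G)) := Fintype.ofFinite _
  obtain ⟨η, hη⟩ := hext
  have hover : classInner (fun n : N => (η : ↥(N ⊔ (P : Subgroup G)) → ℂ)
      (Subgroup.inclusion le_sup_left n)) (θ : N → ℂ) ≠ 0 := by
    have : (fun n : N => (η : ↥(N ⊔ (P : Subgroup G)) → ℂ) (Subgroup.inclusion le_sup_left n))
        = (θ : N → ℂ) := funext hη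
    rw [this, classInner_irr_self θ.2]; exact one_ne_zero
  have hηB := PrinOver.mem_principalBlock_sup hM N (P : Subgroup G) P.2 hθ hover
  have hdegη : charDegree (η : ↥(N ⊔ (P : Subgroup G)) → ℂ) = charDegree (θ : N → ℂ) := by
    unfold charDegree
    rw [← hη 1]
    rfl
  obtain ⟨χ, hχ, h1, h2⟩ := PrinOver.exists_over hM P (N ⊔ (P : Subgroup G)) le_sup_right η hηB
  refine ⟨χ, hχ, h2 (by rw [hdegη]; exact hdeg), ?_⟩
  exact PrinOver.classInner_ne_zero_trans le_sup_left h1 hover

end Cfsg.Agent.S4583
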