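import Cfsg.Statements.S4585
import Mathlib
-- import your own Cfsg.Agent.* helpers here
import Cfsg.Agent.S4584

set_option autoImplicit false
open Cfsg

namespace Cfsg.Agent.S4585

open scoped commutatorElement

theorem stab {G : Type*} [Group G] [hG : Group.IsNilpotent G] (n : ℕ)
    (h : (⊤ : Subgroup G).lowerCentralSeries n ≤ (⊤ : Subgroup G).lowerCentralSeries (n + 1)) :
    (⊤ : Subgroup G).lowerCentralSeries n = ⊥ := by
  have key : ∀ k, (⊤ : Subgroup G).lowerCentralSeries n ≤ (⊤ : Subgroup G).lowerCentralSeries (n + k) := by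
    intro k
    induction k with
    | zero => exact le_refl _
    | succ k ih =>
      refine h.trans ?_
      rw [Subgroup.lowerCentralSeries_succ, ← add_assoc, Subgroup.lowerCentralSeries_succ]
      exact Subgroup.commutator_mono ih le_rfl
  obtain ⟨m, hm⟩ := Subgroup.nilpotent_iff_lowerCentralSeries.mp hG
  rw [eq_bot_iff, ← hm]
  exact (key m).trans (Subgroup.lowerCentralSeries_antitone _ (Nat.le_add_left m n))

theorem notdvd {P : Type*} [Group P] {p : ℕ} (hp : p.Prime) (h : (commutator P).index ∣ p) :
    commutator P ≤ ⁅commutator P, (⊤ : Subgroup P)⁆ := by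
  set K : Subgroup P := ⁅commutator P, (⊤ : Subgroup P)⁆ with hK
  have hcomm := Cfsg.Agent.S4584.CZ (X := P ⧸ K) hp ((commutator P).map (QuotientGroup.mk' K))
    (by
      rintro _ ⟨d, hd, rfl⟩ g
      obtain ⟨g, rfl⟩ := QuotientGroup.mk'_surjective K g
      rw [← map_mul, ← map_mul]
      refine QuotientGroup.eq.mpr ?_
      have h1 : ⁅d⁻¹, g⁻¹⁆ ∈ K :=
        Subgroup.commutator_mem_commutator ((commutator P).inv_mem hd) (Subgroup.mem_top _)
      rw [commutatorElement_def] at h1
      have h2 : (g * d)⁻¹ * (d * g) = d⁻¹ * g⁻¹ * d⁻¹⁻¹ * g⁻¹⁻¹ := by group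
      rw [h2]; exact h1)
    ((Subgroup.index_map_dvd _ (QuotientGroup.mk'_surjective K)).trans h)
  apply Cfsg.Agent.S4584.comm_le
  intro x y
  rw [← QuotientGroup.eq_one_iff]
  simp only [QuotientGroup.mk_mul, QuotientGroup.mk_inv]
  rw [hcomm (x : P ⧸ K) (y : P ⧸ K)]; group


/-- Let p be a prime and P a group of order p^4. Then P' has index p^2 in P if and only if P has maximal nilpotency class, that is, nilpotency class exactly 3. -/
theorem result {P : Type*} [Group P] [Finite P] (p : ℕ) [Fact p.Prime] (hP : Nat.card P = p ^ 4) :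
    (commutator P).index = p ^ 2 ↔ Group.nilpotencyClass P = 3 := by
  classical
  have hp : p.Prime := Fact.out
  haveI hnil : Group.IsNilpotent P := (IsPGroup.of_card hP).isNilpotent
  have e1 : (⊤ : Subgroup P).lowerCentralSeries 1 = commutator P := Subgroup.top_lowerCentralSeries_one
  have e2 : (⊤ : Subgroup P).lowerCentralSeries 2 = ⁅commutator P, (⊤ : Subgroup P)⁆ := by
    rw [Subgroup.lowerCentralSeries_succ, e1]
  have a21 : (⊤ : Subgroup P).lowerCentralSeries 2 ≤ (⊤ : Subgroup P).lowerCentralSeries 1 :=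
    Subgroup.lowerCentralSeries_antitone _ (by norm_num)
  have a32 : (⊤ : Subgroup P).lowerCentralSeries 3 ≤ (⊤ : Subgroup P).lowerCentralSeries 2 :=
    Subgroup.lowerCentralSeries_antitone _ (by norm_num)
  have c3 : (⊤ : Subgroup P).lowerCentralSeries 3 = ⊥ ↔ Group.nilpotencyClass P ≤ 3 :=
    Subgroup.lowerCentralSeries_eq_bot_iff_nilpotencyClass_le
  have c2 : (⊤ : Subgroup P).lowerCentralSeries 2 = ⊥ ↔ Group.nilpotencyClass P ≤ 2 :=
    Subgroup.lowerCentralSeries_eq_bot_iff_nilpotencyClass_le
  have hpow : ∀ H : Subgroup P, ∃ k ≤ 4, Nat.card ↥H = p ^ k := fun H =>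
    (Nat.dvd_prime_pow hp).mp (hP ▸ Subgroup.card_subgroup_dvd_card H)
  constructor
  · intro hidx
    have hcard : Nat.card ↥(commutator P) = p ^ 2 := by
      have h1 := Subgroup.index_mul_card (commutator P)
      rw [hidx, hP] at h1
      have h2 : p ^ 2 * Nat.card ↥(commutator P) = p ^ 2 * p ^ 2 := by rw [h1]; ring
      exact Nat.eq_of_mul_eq_mul_left (pow_pos hp.pos 2) h2
    have hp2 : 1 < p ^ 2 := Nat.one_lt_pow (by norm_num) hp.one_lt
    have hne1 : commutator P ≠ ⊥ := by
      intro h
      rw [h] at hcard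
      simp at hcard
      omega
    have h12 : ¬ (⊤ : Subgroup P).lowerCentralSeries 1 ≤ (⊤ : Subgroup P).lowerCentralSeries 2 := by
      intro h
      exact hne1 (e1 ▸ stab 1 h)
    have hne2 : (⊤ : Subgroup P).lowerCentralSeries 2 ≠ ⊥ := by
      intro h
      have hDZ : commutator P ≤ Subgroup.center P := by
        intro d hd
        rw [Subgroup.mem_center_iff]
        intro g
        have h1 : ⁅d, g⁆ ∈ ⁅commutator P, (⊤ : Subgroup P)⁆ :=
          Subgroup.commutator_mem_commutator hd (Subgroup.mem_top _)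
        rw [← e2, h, Subgroup.mem_bot, commutatorElement_def] at h1
        calc g * d = (d * g * d⁻¹ * g⁻¹)⁻¹ * (d * g) := by group
          _ = d * g := by rw [h1, inv_one, one_mul]
      have hd : (Subgroup.center P).index ∣ p ^ 2 := hidx ▸ Subgroup.index_dvd_of_le hDZ
      obtain ⟨k, hk, hZk⟩ := (Nat.dvd_prime_pow hp).mp hd
      by_cases hk1 : k ≤ 1
      · have hd : (Subgroup.center P).index ∣ p := by
          rw [hZk]
          calc p ^ k ∣ p ^ 1 := pow_dvd_pow p hk1
            _ = p := pow_one p
        have hcomm := Cfsg.Agent.S4584.CZ hp (Subgroup.center P)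
          (fun w hw => Subgroup.mem_center_iff.mp hw) hd
        apply hne1
        rw [eq_bot_iff]
        apply Cfsg.Agent.S4584.comm_le
        intro a b
        rw [Subgroup.mem_bot, hcomm a b]; group
      · have hk2 : k = 2 := by omega
        rw [hk2] at hZk
        have h3 := (Cfsg.Agent.S4584.result p hP).mpr hZk
        rw [hcard] at h3
        have : p ^ 2 = p ^ 1 := by rw [h3, pow_one]
        have := Nat.pow_right_injective hp.two_le this
        omega
    have hc2 : Nat.card ↥((⊤ : Subgroup P).lowerCentralSeries 2) = p := by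
      have hd : Nat.card ↥((⊤ : Subgroup P).lowerCentralSeries 2) ∣ p ^ 2 := by
        rw [← hcard, ← e1]; exact Subgroup.card_dvd_of_le a21
      obtain ⟨a, ha, hca⟩ := (Nat.dvd_prime_pow hp).mp hd
      interval_cases a
      · exact absurd (Subgroup.card_eq_one.mp (by simpa using hca)) hne2
      · simpa using hca
      · exfalso
        apply h12
        have : (⊤ : Subgroup P).lowerCentralSeries 2 = (⊤ : Subgroup P).lowerCentralSeries 1 :=
          Subgroup.eq_of_le_of_card_ge a21 (by rw [hca, e1, hcard])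
        rw [this]
    have h3 : (⊤ : Subgroup P).lowerCentralSeries 3 = ⊥ := by
      have hd : Nat.card ↥((⊤ : Subgroup P).lowerCentralSeries 3) ∣ p := by
        rw [← hc2]; exact Subgroup.card_dvd_of_le a32
      rcases (Nat.dvd_prime hp).mp hd with h | h
      · exact Subgroup.card_eq_one.mp h
      · exfalso
        have : (⊤ : Subgroup P).lowerCentralSeries 3 = (⊤ : Subgroup P).lowerCentralSeries 2 :=
          Subgroup.eq_of_le_of_card_ge a32 (by rw [h, hc2])
        exact hne2 (stab 2 (by rw [this]))
    have i3 := c3.mp h3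
    have i2 : ¬ Group.nilpotencyClass P ≤ 2 := fun h => hne2 (c2.mpr h)
    omega
  · intro hcl
    have h3 : (⊤ : Subgroup P).lowerCentralSeries 3 = ⊥ := c3.mpr (by omega)
    have hne2 : (⊤ : Subgroup P).lowerCentralSeries 2 ≠ ⊥ := fun h => by
      have := c2.mp h
      omega
    have h12 : ¬ (⊤ : Subgroup P).lowerCentralSeries 1 ≤ (⊤ : Subgroup P).lowerCentralSeries 2 := by
      intro h
      have h1 := stab 1 h
      apply hne2
      rw [eq_bot_iff, ← h1]; exact a21
    have hnd : ¬ (commutator P).index ∣ p := by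
      intro h
      apply h12
      rw [e1, e2]
      exact notdvd hp h
    obtain ⟨a, ha, hca⟩ := hpow ((⊤ : Subgroup P).lowerCentralSeries 2)
    obtain ⟨b, hb, hcb⟩ := hpow (commutator P)
    have ha1 : 1 ≤ a := by
      by_contra hlt
      have : a = 0 := by omega
      rw [this, pow_zero] at hca
      exact hne2 (Subgroup.card_eq_one.mp hca)
    have hb2 : 2 ≤ b := by
      by_contra hlt
      have hb1 : b ≤ a := by omega
      apply h12
      have : (⊤ : Subgroup P).lowerCentralSeries 2 = (⊤ : Subgroup P).lowerCentralSeries 1 :=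
        Subgroup.eq_of_le_of_card_ge a21 (by
          rw [hca, e1, hcb]; exact Nat.pow_le_pow_right hp.pos hb1)
      rw [this]
    have h1 := Subgroup.index_mul_card (commutator P)
    rw [hcb, hP] at h1
    obtain ⟨k, hk, hik⟩ := (Nat.dvd_prime_pow hp).mp (Dvd.intro _ h1 : (commutator P).index ∣ p ^ 4)
    rw [hik, ← pow_add] at h1
    have h4 := Nat.pow_right_injective hp.two_le h1
    have hk2 : 2 ≤ k := by
      by_contra hlt
      apply hnd
      rw [hik]
      calc p ^ k ∣ p ^ 1 := pow_dvd_pow p (by omega)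
        _ = p := pow_one p
    have : k = 2 := by omega
    rw [hik, this]

end Cfsg.Agent.S4585
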