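import Cfsg.Statements.S4604
import Cfsg.Agent.Lib.Helper10.FrobCong
import Cfsg.Agent.S0876
import Cfsg.Agent.Lib.Helper23.DefectZero
import Cfsg.Agent.CharLib.PermLemma
-- import your own Cfsg.Agent.* helpers here

set_option autoImplicit false
open Cfsg Cfsg.Agent.CharLib Cfsg.Agent.Lib.Helper10

namespace Cfsg.Agent.S4604

/-- Let G be a finite group, p a prime and p^a the p-part of the order of G. Let x, y ∈ G and let x′, y′ be their p-regular parts: x′ has order prime to p, commutes with x·x′⁻¹, and x·x′⁻¹ has p-power order (likewise for y). Then x′ and y′ are conjugate in G if and only if for every irreducible character χ of G the algebraic integer χ(x)^(p^a) − χ(y)^(p^a) is p times an algebraic integer. -/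
theorem result {G : Type*} [Group G] [Finite G] (p : ℕ) [Fact p.Prime] (x y x' y' : G)
    (hx : (∃ k : ℕ, orderOf (x * x'⁻¹) = p ^ k) ∧ Commute (x * x'⁻¹) x' ∧ ¬ p ∣ orderOf x')
    (hy : (∃ k : ℕ, orderOf (y * y'⁻¹) = p ^ k) ∧ Commute (y * y'⁻¹) y' ∧ ¬ p ∣ orderOf y') :
    IsConj x' y' ↔ ∀ χ : Cfsg.IrrCharacter G, ∃ γ : Cfsg.AlgInt,
      (χ : G → ℂ) x ^ (p ^ (Nat.card G).factorization p) - (χ : G → ℂ) y ^ (p ^ (Nat.card G).factorization p) = (p : ℂ) * (γ : ℂ) := by
  have hp : p.Prime := Fact.out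
  set a := (Nat.card G).factorization p with ha
  -- `x ^ q = x' ^ q`
  have hpow : ∀ z z' : G, (∃ k : ℕ, orderOf (z * z'⁻¹) = p ^ k) → Commute (z * z'⁻¹) z' →
      z ^ p ^ a = z' ^ p ^ a := by
    rintro z z' ⟨k, hk⟩ hc
    have h1 : p ^ k ∣ Nat.card G := by
      rw [← hk]
      exact orderOf_dvd_natCard _
    have h2 : k ≤ a := (hp.pow_dvd_iff_le_factorization Nat.card_pos.ne').1 h1
    have h3 : (z * z'⁻¹) ^ p ^ a = 1 := by
      apply orderOf_dvd_iff_pow_eq_one.1
      rw [hk]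
      exact pow_dvd_pow p h2
    have h4 : z = (z * z'⁻¹) * z' := by group
    conv_lhs => rw [h4]
    rw [hc.mul_pow, h3, one_mul]
  have hxq := hpow x x' hx.1 hx.2.1
  have hyq := hpow y y' hy.1 hy.2.1
  constructor
  · intro hconj χ
    obtain ⟨γ₁, h1⟩ := character_pow_congr (isCharacter_of_irr χ.2) p hp a x
    obtain ⟨γ₂, h2⟩ := character_pow_congr (isCharacter_of_irr χ.2) p hp a y
    have h3 : (χ : G → ℂ) (x ^ p ^ a) = (χ : G → ℂ) (y ^ p ^ a) := by
      rw [hxq, hyq]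
      obtain ⟨c, hc⟩ := isConj_iff.1 hconj
      rw [← hc, conj_pow]
      exact (isClassFunction_of_irr χ.2 _ c).symm
    refine ⟨γ₁ - γ₂, ?_⟩
    push_cast
    rw [mul_sub, ← h1, ← h2, h3]
    ring
  · intro h
    obtain ⟨M, hM⟩ := Cfsg.Agent.Lib.Helper23.exists_isPModular p hp
    have hpart : ∀ z' : G, ¬ p ∣ orderOf z' → Cfsg.IsPPart p (z' ^ p ^ a) 1 := by
      intro z' hz'
      refine ⟨z' ^ p ^ a, one_mul _, Commute.one_left _, ⟨0, by simp⟩, ?_⟩
      exact fun h => hz' (h.trans (orderOf_pow_dvd _))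
    have key := (Cfsg.Agent.S0876.result p M hM (x' ^ p ^ a) (y' ^ p ^ a) 1 1 (hpart x' hx.2.2)
      (hpart y' hy.2.2)).2 (by
        intro χ
        obtain ⟨γ₁, h1⟩ := character_pow_congr (isCharacter_of_irr χ.2) p hp a x
        obtain ⟨γ₂, h2⟩ := character_pow_congr (isCharacter_of_irr χ.2) p hp a y
        obtain ⟨γ, h3⟩ := h χ
        refine ⟨(p : Cfsg.AlgInt) * (γ - γ₁ + γ₂), 1, M.mul_mem_right _ hM.2.2, ?_, ?_⟩
        · exact fun h1 => hM.2.1.ne_top ((Ideal.eq_top_iff_one M).2 h1)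
        · rw [← hxq, ← hyq]
          push_cast
          rw [div_one, mul_add, mul_sub, ← h1, ← h2, ← h3]
          ring)
    rw [inv_one, one_mul, one_mul] at key
    obtain ⟨c, hc⟩ := isConj_iff.1 key
    -- recover `x'` from `x' ^ q`
    have hrec : ∀ z' : G, ¬ p ∣ orderOf z' →
        z' = (z' ^ p ^ a) ^ (Nat.gcdA (p ^ a) (ordCompl[p] (Nat.card G))) := by
      intro z' hz'
      have h1 : orderOf z' ∣ ordCompl[p] (Nat.card G) := by
        have h2 : orderOf z' ∣ p ^ a * ordCompl[p] (Nat.card G) := by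
          rw [ha, Nat.ordProj_mul_ordCompl_eq_self]
          exact orderOf_dvd_natCard _
        exact Nat.Coprime.dvd_of_dvd_mul_left
          (Nat.Coprime.pow_right a ((Nat.Prime.coprime_iff_not_dvd hp).2 hz').symm) h2
      have h3 : z' ^ (ordCompl[p] (Nat.card G)) = 1 := orderOf_dvd_iff_pow_eq_one.1 h1
      have h4 : Nat.gcd (p ^ a) (ordCompl[p] (Nat.card G)) = 1 :=
        Nat.Coprime.pow_left a ((Nat.Prime.coprime_iff_not_dvd hp).2
          (Nat.not_dvd_ordCompl hp Nat.card_pos.ne'))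
      have h5 := Nat.gcd_eq_gcd_ab (p ^ a) (ordCompl[p] (Nat.card G))
      rw [h4] at h5
      calc z' = z' ^ ((1 : ℕ) : ℤ) := by simp
        _ = z' ^ (((p ^ a : ℕ) : ℤ) * Nat.gcdA (p ^ a) (ordCompl[p] (Nat.card G)) +
              ((ordCompl[p] (Nat.card G) : ℕ) : ℤ) * Nat.gcdB (p ^ a) (ordCompl[p] (Nat.card G))) := by
            rw [h5]
        _ = (z' ^ p ^ a) ^ (Nat.gcdA (p ^ a) (ordCompl[p] (Nat.card G))) := by
            rw [zpow_add, zpow_mul, zpow_mul, zpow_natCast, zpow_natCast, h3, one_zpow, mul_one]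
    rw [isConj_iff]
    refine ⟨c, ?_⟩
    rw [hrec x' hx.2.2, hrec y' hy.2.2, ← hc, conj_zpow]

end Cfsg.Agent.S4604
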