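import Cfsg.Statements.S4611
import Cfsg.Agent.Lib.Helper10.PrincipalPSolv
import Cfsg.Agent.Lib.Helper10.PSolvOfSolv
import Cfsg.Agent.CharLib.PermLemma
-- import your own Cfsg.Agent.* helpers here

set_option autoImplicit false
open Cfsg

namespace Cfsg.Agent.S4611

/-- Let G be a finite solvable group and π a nonempty set of primes, each dividing the order of G; fix for each p in π a maximal ideal M p of the algebraic integers containing p. Then the only irreducible character lying in the principal p-block for every p in π is the principal character if and only if G is generated by the subgroups O_{p'}(G), p in π (the largest normal subgroups of order prime to p). -/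
theorem result {G : Type*} [Group G] [Finite G] [Group.IsSolvable G] (π : Set ℕ) (hπ : ∀ p ∈ π, p.Prime ∧ p ∣ Nat.card G) (hne : π.Nonempty) (M : ℕ → Ideal Cfsg.AlgInt) (hM : ∀ p ∈ π, Cfsg.IsPModular p (M p)) :
    (∀ χ : Cfsg.IrrCharacter G, (∀ p ∈ π, χ ∈ Cfsg.principalBlock (M p) G) → (χ : G → ℂ) = fun _ => 1) ↔
      ⨆ p ∈ π, Cfsg.pPrimeCore p G = ⊤ := by
  classical
  have hB : ∀ p ∈ π, Cfsg.principalBlock (M p) G =
      {χ : Cfsg.IrrCharacter G | ∀ n ∈ Cfsg.pPrimeCore p G, (χ : G → ℂ) n = (χ : G → ℂ) 1} := by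
    intro p hp
    have : Fact p.Prime := ⟨(hπ p hp).1⟩
    exact Cfsg.Agent.Lib.Helper10.principalBlock_eq_of_isPSolvable p (M p) (hM p hp)
      (Cfsg.Agent.Lib.Helper10.isPSolvable_of_isSolvable p (hπ p hp).1)
  constructor
  · intro h
    by_contra hL
    have hLn : (⨆ p ∈ π, Cfsg.pPrimeCore p G).Normal :=
      Subgroup.biSup_normal π (fun p => Cfsg.pPrimeCore p G) (fun p _ => inferInstance)
    set L := ⨆ p ∈ π, Cfsg.pPrimeCore p G with hLdef
    obtain ⟨g, hg⟩ : ∃ g : G, g ∉ L := by
      by_contra hcon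
      push Not at hcon
      exact hL (Subgroup.eq_top_iff' L |>.2 hcon)
    have hnc : ¬ IsConj (QuotientGroup.mk' L g) 1 := by
      intro hc
      have h1 : QuotientGroup.mk' L g = 1 := isConj_one_left.1 hc
      exact hg ((QuotientGroup.eq_one_iff g).1 h1)
    rw [Cfsg.Agent.CharLib.isConj_iff_forall_irr] at hnc
    push Not at hnc
    obtain ⟨ψ, hψ⟩ := hnc
    let χ : Cfsg.IrrCharacter G := ⟨fun x => (ψ : G ⧸ L → ℂ) (QuotientGroup.mk' L x),
      Cfsg.Agent.CharLib.isIrrCharacter_comp_of_surjective ψ.2 _ (QuotientGroup.mk'_surjective L)⟩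
    have h1 := h χ (by
      intro p hp
      rw [hB p hp]
      intro n hn
      have hnL : n ∈ L := (le_biSup (fun p => Cfsg.pPrimeCore p G) hp) hn
      show (ψ : G ⧸ L → ℂ) (QuotientGroup.mk' L n) = (ψ : G ⧸ L → ℂ) (QuotientGroup.mk' L 1)
      have hn1 : QuotientGroup.mk' L n = 1 := (QuotientGroup.eq_one_iff n).2 hnL
      rw [hn1, map_one])
    apply hψ
    have h2 := congrFun h1 g
    have h3 := congrFun h1 1
    have h2' : (ψ : G ⧸ L → ℂ) (QuotientGroup.mk' L g) = 1 := h2
    have h3' : (ψ : G ⧸ L → ℂ) (QuotientGroup.mk' L 1) = 1 := h3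
    rw [map_one] at h3'
    rw [h2', h3']
  · intro h χ hχ
    have hk : Cfsg.Agent.H25.kerSub χ = ⊤ := by
      rw [eq_top_iff, ← h]
      refine iSup₂_le fun p hp => ?_
      intro n hn
      have h1 := hχ p hp
      rw [hB p hp] at h1
      exact (Cfsg.Agent.H25.mem_kerSub χ n).2 (h1 n hn)
    exact Cfsg.Agent.H25.eq_one_of_kerSub_eq_top χ hk

end Cfsg.Agent.S4611
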