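import Mathlib
import Cfsg.Statements.S4620
import Cfsg.Agent.S0721
-- import your own Cfsg.Agent.* helpers here

set_option autoImplicit false
open scoped Pointwise
open Cfsg

namespace Cfsg.Agent.S4620

/-- Let H be a finite group with no nontrivial normal p-subgroup and no nontrivial normal subgroup of order prime to p, whose Sylow p-subgroup P is nontrivial and a trivial-intersection set (P meets its conjugates by elements outside N_H(P) trivially). Then H has a unique minimal normal subgroup N; N is non-abelian simple with trivial centralizer in H (so H embeds in Aut(N)), and a Sylow p-subgroup of N is again a nontrivial trivial-intersection set in N. -/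
theorem result {H : Type*} [Group H] [Finite H] (p : ℕ) [Fact p.Prime] (hOp : Cfsg.pCore p H = ⊥) (hOp' : Cfsg.pPrimeCore p H = ⊥) (P : Sylow p H) (hP1 : (P : Subgroup H) ≠ ⊥)
    (hTI : ∀ g : H, g ∉ Subgroup.normalizer ((P : Subgroup H) : Set H) → (P : Subgroup H) ⊓ (MulAut.conj g • (P : Subgroup H)) = ⊥) :
    ∃ N : Subgroup H, N.Normal ∧ N ≠ ⊥ ∧ (∀ K : Subgroup H, K.Normal → K ≠ ⊥ → N ≤ K) ∧
      IsSimpleGroup N ∧ ¬ IsMulCommutative N ∧ Subgroup.centralizer (N : Set H) = ⊥ ∧
      ∀ Q : Sylow p N, (Q : Subgroup N) ≠ ⊥ ∧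
        ∀ n : N, n ∉ Subgroup.normalizer ((Q : Subgroup N) : Set N) → (Q : Subgroup N) ⊓ (MulAut.conj n • (Q : Subgroup N)) = ⊥ := by
  classical
  have hp : p.Prime := Fact.out
  have hmem : ∀ (P' : Sylow p H) (g y : H), y ∈ g • P' ↔ g⁻¹ * y * g ∈ P' := by
    intro P' g y
    show y ∈ ((g • P' : Sylow p H) : Subgroup H) ↔ _
    rw [Sylow.coe_subgroup_smul, Subgroup.mem_pointwise_smul_iff_inv_smul_mem, MulAut.smul_def,
      MulAut.conj_inv_apply]
    rfl
  -- general TI
  have hTI' : ∀ (P' : Sylow p H) (g y : H), y ∈ P' → g⁻¹ * y * g ∈ P' → y ≠ 1 → g • P' = P' := by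
    intro P' g y hy hgy hy1
    obtain ⟨h, rfl⟩ := MulAction.exists_smul_eq H P P'
    rw [hmem] at hy hgy
    have key : (h⁻¹ * g * h) • P = P := by
      rw [Sylow.smul_eq_iff_mem_normalizer]
      by_contra hn
      have h1 := hTI _ hn
      have h2 : h⁻¹ * y * h ∈ (P : Subgroup H) ⊓ (MulAut.conj (h⁻¹ * g * h) • (P : Subgroup H)) := by
        refine ⟨hy, ?_⟩
        show h⁻¹ * y * h ∈ (MulAut.conj (h⁻¹ * g * h) • (P : Subgroup H))
        rw [Subgroup.mem_pointwise_smul_iff_inv_smul_mem, MulAut.smul_def, MulAut.conj_inv_apply]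
        have : (h⁻¹ * g * h)⁻¹ * (h⁻¹ * y * h) * (h⁻¹ * g * h) = h⁻¹ * (g⁻¹ * y * g) * h := by group
        rw [this]
        exact hgy
      rw [h1, Subgroup.mem_bot] at h2
      apply hy1
      have : y = h * (h⁻¹ * y * h) * h⁻¹ := by group
      rw [this, h2]
      group
    calc g • h • P = h • (h⁻¹ * g * h) • P := by
          rw [smul_smul, smul_smul]
          congr 1
          group
      _ = h • P := by rw [key]
  -- p-elements in the normaliser of a Sylow subgroup
  have hpel : ∀ (P' : Sylow p H) (x : H), orderOf x = p → x • P' = P' → x ∈ P' := by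
    intro P' x hx hxP
    rw [Sylow.smul_eq_iff_mem_normalizer] at hxP
    have h1 : IsPGroup p (Subgroup.zpowers x) := by
      apply IsPGroup.of_card (n := 1)
      rw [Nat.card_zpowers, hx, pow_one]
    have h2 := h1.inf_normalizer_sylow P'
    have h3 : x ∈ Subgroup.zpowers x ⊓ Subgroup.normalizer ((P' : Subgroup H) : Set H) :=
      ⟨Subgroup.mem_zpowers x, hxP⟩
    have h4 : x ∈ Subgroup.zpowers x ⊓ (P' : Subgroup H) := h2 ▸ h3
    exact h4.2
  have hnop : ∀ K : Subgroup H, K.Normal → IsPGroup p K → K = ⊥ := by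
    intro K hK hKp
    rw [eq_bot_iff, ← hOp]
    exact le_sSup ⟨hK, hKp⟩
  have hdvd : ∀ K : Subgroup H, K.Normal → K ≠ ⊥ → p ∣ Nat.card K := by
    intro K hK hK1
    by_contra hnd
    apply hK1
    rw [eq_bot_iff, ← hOp']
    exact le_sSup ⟨hK, ((Nat.Prime.coprime_iff_not_dvd hp).2 hnd).symm⟩
  -- a normal subgroup of order divisible by p cannot normalise a Sylow subgroup
  have hL : ∀ (K : Subgroup H) (P' : Sylow p H), K.Normal → K ≠ ⊥ → (∀ g ∈ K, g • P' = P') → False := by
    intro K P' hK hK1 hKP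
    obtain ⟨x, hx⟩ := exists_prime_orderOf_dvd_card' p (hdvd K hK hK1)
    have hx' : orderOf (x : H) = p := by rw [Subgroup.orderOf_coe, hx]
    have h1 : Subgroup.normalClosure {(x : H)} ≤ (P' : Subgroup H) := by
      rw [Subgroup.normalClosure, Subgroup.closure_le]
      intro y hy
      rw [Group.mem_conjugatesOfSet_iff] at hy
      obtain ⟨a, ha, hay⟩ := hy
      rw [Set.mem_singleton_iff] at ha
      subst ha
      rw [isConj_iff] at hay
      obtain ⟨c, rfl⟩ := hay
      apply hpel
      · have := orderOf_injective (MulAut.conj c).toMonoidHom (MulAut.conj c).injective (x : H)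
        rw [← hx', ← this]
        rfl
      · exact hKP _ (hK.conj_mem _ x.2 c)
    have h2 := hnop _ Subgroup.normalClosure_normal (P'.isPGroup'.to_le h1)
    have h3 : (x : H) ∈ Subgroup.normalClosure {(x : H)} := Subgroup.subset_normalClosure rfl
    rw [h2, Subgroup.mem_bot] at h3
    rw [h3, orderOf_one] at hx'
    exact hp.one_lt.ne hx'
  have hsyl : ∀ y : H, orderOf y = p → ∃ P' : Sylow p H, y ∈ P' := by
    intro y hy
    have h1 : IsPGroup p (Subgroup.zpowers y) := by
      apply IsPGroup.of_card (n := 1)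
      rw [Nat.card_zpowers, hy, pow_one]
    obtain ⟨P', hP'⟩ := h1.exists_le_sylow
    exact ⟨P', hP' (Subgroup.mem_zpowers y)⟩
  have hcent : ∀ (P' : Sylow p H) (g y : H), y ∈ P' → orderOf y = p → Commute g y → g • P' = P' := by
    intro P' g y hy hyp hgy
    apply hTI' P' g y hy
    · have : g⁻¹ * y * g = y := by
        rw [mul_assoc, ← hgy.eq, ← mul_assoc, inv_mul_cancel, one_mul]
      rw [this]; exact hy
    · intro h
      rw [h, orderOf_one] at hyp
      exact hp.one_lt.ne hyp
  have hmeet : ∀ K₁ K₂ : Subgroup H, K₁.Normal → K₂.Normal → K₁ ≠ ⊥ → K₂ ≠ ⊥ → K₁ ⊓ K₂ ≠ ⊥ := by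
    intro K₁ K₂ h1 h2 h1b h2b hb
    obtain ⟨y, hy⟩ := exists_prime_orderOf_dvd_card' p (hdvd K₂ h2 h2b)
    have hy' : orderOf (y : H) = p := by rw [Subgroup.orderOf_coe, hy]
    obtain ⟨P', hP'⟩ := hsyl _ hy'
    apply hL K₁ P' h1 h1b
    intro g hg
    exact hcent P' g y hP' hy'
      (Subgroup.commute_of_normal_of_disjoint K₁ K₂ h1 h2 (disjoint_iff.2 hb) g y hg y.2)
  have htop : (⊤ : Subgroup H) ≠ ⊥ := by
    intro h
    apply hP1
    rw [eq_bot_iff, ← h]
    exact le_top
  obtain ⟨N, ⟨hNn, hN1⟩, hNmin⟩ := exists_minimal_of_wellFoundedLT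
    (fun K : Subgroup H => K.Normal ∧ K ≠ ⊥) ⟨⊤, inferInstance, htop⟩
  have hNle : ∀ K : Subgroup H, K.Normal → K ≠ ⊥ → N ≤ K := by
    intro K hK hK1
    have h1 : (N ⊓ K).Normal := Subgroup.normal_inf_normal N K
    exact (hNmin ⟨h1, hmeet N K hNn hK hN1 hK1⟩ inf_le_left).trans inf_le_right
  have hNnotp : ¬ IsPGroup p N := fun h => hN1 (hnop N hNn h)
  have hNdvd := hdvd N hNn hN1
  obtain ⟨T, _, m, hT, hm, ⟨e⟩⟩ := Cfsg.Agent.S0721.result N hN1 (by
    intro M hM hMN
    by_cases hM1 : M = ⊥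
    · exact Or.inl hM1
    · exact Or.inr (le_antisymm hMN (hNle M hM hM1)))
  let φ : Fin m → T →* H := fun i =>
    N.subtype.comp (e.symm.toMonoidHom.comp (MonoidHom.mulSingle (fun _ : Fin m => T) i))
  have hφinj : ∀ i, Function.Injective (φ i) := by
    intro i
    have h1 : Function.Injective (MonoidHom.mulSingle (fun _ : Fin m => T) i) :=
      Pi.mulSingle_injective (M := fun _ : Fin m => T) i
    exact N.subtype_injective.comp (e.symm.injective.comp h1)
  haveI : Finite T := Finite.of_injective _ (hφinj ⟨0, hm⟩)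
  have hcardN : Nat.card N = Nat.card T ^ m := by
    rw [Nat.card_congr e.toEquiv, Nat.card_fun, Nat.card_fin]
  have hTdvd : p ∣ Nat.card T := by
    rw [hcardN] at hNdvd
    exact hp.dvd_of_dvd_pow hNdvd
  have hTnotp : ¬ IsPGroup p T := by
    intro h
    obtain ⟨k, hk⟩ := IsPGroup.iff_card.1 h
    apply hNnotp
    apply IsPGroup.of_card (n := k * m)
    rw [hcardN, hk, pow_mul]
  have hm1 : m = 1 := by
    by_contra hne
    have hm2 : 2 ≤ m := by omega
    let i : Fin m := ⟨0, by omega⟩
    let j : Fin m := ⟨1, by omega⟩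
    have hij : i ≠ j := by
      intro h
      have := congrArg Fin.val h
      simp [i, j] at this
    obtain ⟨x₀, hx₀⟩ := exists_prime_orderOf_dvd_card' p hTdvd
    have hord : ∀ k, orderOf (φ k x₀) = p := by
      intro k
      rw [orderOf_injective (φ k) (hφinj k), hx₀]
    obtain ⟨P', hP'⟩ := hsyl _ (hord j)
    have hnorm : ∀ t, φ i t • P' = P' := by
      intro t
      apply hcent P' _ _ hP' (hord j)
      have h1 : Commute (Pi.mulSingle i t : Fin m → T) (Pi.mulSingle j x₀) :=
        Pi.mulSingle_commute (f := fun _ : Fin m => T) hij t x₀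
      have h2 := h1.map (N.subtype.comp e.symm.toMonoidHom)
      exact h2
    have hRn : ((P' : Subgroup H).comap (φ i)).Normal := by
      constructor
      intro t ht s
      rw [Subgroup.mem_comap] at ht ⊢
      have h1 : φ i (s * t * s⁻¹) ∈ φ i s • P' := by
        rw [hmem, map_mul, map_mul, map_inv]
        have : (φ i s)⁻¹ * (φ i s * φ i t * (φ i s)⁻¹) * φ i s = φ i t := by group
        rw [this]
        exact ht
      rw [hnorm] at h1
      exact h1
    rcases hT.eq_bot_or_eq_top_of_normal _ hRn with h | h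
    · have h1 : x₀ ∈ (P' : Subgroup H).comap (φ i) := hpel P' _ (hord i) (hnorm x₀)
      rw [h, Subgroup.mem_bot] at h1
      rw [h1, orderOf_one] at hx₀
      exact hp.one_lt.ne hx₀
    · apply hTnotp
      intro t
      have h1 : t ∈ (P' : Subgroup H).comap (φ i) := by rw [h]; exact Subgroup.mem_top t
      obtain ⟨k, hk⟩ := P'.isPGroup' ⟨φ i t, h1⟩
      refine ⟨k, hφinj i ?_⟩
      rw [map_pow, map_one]
      exact congrArg Subtype.val hk
  subst hm1
  haveI hNsimple : IsSimpleGroup N := (e.trans (MulEquiv.funUnique (Fin 1) T)).isSimpleGroup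
  have hNnc : ¬ IsMulCommutative N := by
    intro hc
    letI : CommGroup N := { (inferInstance : Group N) with mul_comm := hc.is_comm.comm }
    have h1 : (Nat.card N).Prime := IsSimpleGroup.prime_card
    have h2 := (Nat.prime_dvd_prime_iff_eq hp h1).1 hNdvd
    apply hNnotp
    apply IsPGroup.of_card (n := 1)
    rw [← h2, pow_one]
  refine ⟨N, hNn, hN1, hNle, hNsimple, hNnc, ?_, ?_⟩
  · by_contra hC
    have h1 := hNle _ Subgroup.normal_centralizer hC
    apply hNnc
    refine ⟨⟨fun a b => Subtype.ext ?_⟩⟩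
    exact (Subgroup.mem_centralizer_iff.1 (h1 b.2) a a.2)
  · intro Q
    haveI : Fact p.Prime := ⟨hp⟩
    refine ⟨Q.ne_bot_of_dvd_card hNdvd, ?_⟩
    intro n hn
    by_contra hne
    apply hn
    obtain ⟨P', hP'⟩ := (Q.isPGroup'.map N.subtype).exists_le_sylow
    have hQ : (P' : Subgroup H).subgroupOf N = Q := by
      apply Q.is_maximal'
      · exact P'.isPGroup'.comap_subtype
      · intro x hx
        exact hP' (Subgroup.mem_map_of_mem _ hx)
    obtain ⟨y, hy, hy1⟩ : ∃ y, y ∈ (Q : Subgroup N) ⊓ (MulAut.conj n • (Q : Subgroup N)) ∧ y ≠ 1 := by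
      by_contra hcon
      push Not at hcon
      apply hne
      rw [eq_bot_iff]
      intro y hy
      exact hcon y hy
    have hy2 : n⁻¹ * y * n ∈ (Q : Subgroup N) := by
      have : y ∈ (MulAut.conj n • (Q : Subgroup N)) := hy.2
      rw [Subgroup.mem_pointwise_smul_iff_inv_smul_mem, MulAut.smul_def, MulAut.conj_inv_apply] at this
      exact this
    have h1 : (n : H) • P' = P' := by
      apply hTI' P' n y
      · have := hy.1
        rw [← hQ] at this
        exact this
      · rw [← hQ] at hy2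
        exact hy2
      · intro h
        exact hy1 (Subtype.ext h)
    rw [Subgroup.mem_normalizer_iff]
    intro x
    show x ∈ (Q : Subgroup N) ↔ n * x * n⁻¹ ∈ (Q : Subgroup N)
    rw [← hQ, Subgroup.mem_subgroupOf, Subgroup.mem_subgroupOf]
    have h2 := hmem P' (n : H) ((n : H) * x * (n : H)⁻¹)
    rw [h1] at h2
    have h3 : (n : H)⁻¹ * ((n : H) * x * (n : H)⁻¹) * (n : H) = x := by group
    rw [h3] at h2
    exact h2.symm

end Cfsg.Agent.S4620
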