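import Mathlib
import Cfsg.Statements.S4741
import Cfsg.Agent.H6.DefZero
import Cfsg.Agent.H6.GpDefect
import Cfsg.Agent.H6.MinorLemma
import Cfsg.Agent.Lib.Helper23.MinMax
import Cfsg.Agent.BlockLib.KG.DefectTr

set_option autoImplicit false
open Cfsg Cfsg.Agent.BlockLib Cfsg.Agent.CharLib Cfsg.Agent.H6 Cfsg.Agent.Lib.Helper23
  Cfsg.Agent.H6.PSocle Cfsg.Agent.H6.GpDefect Cfsg.Agent.Lib.Helper23.MinMax

namespace Cfsg.Agent.S4741

/-- reduction commutes with determinants -/
theorem redS_det {M : Ideal AlgInt} [M.IsPrime] {n : ℕ} (X : Matrix (Fin n) (Fin n) ℂ)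
    (hX : ∀ i j, MemLocalRing M (X i j)) :
    MemLocalRing M X.det ∧ redS M X.det = (Matrix.of fun i j => redS M (X i j)).det := by
  let X' : Matrix (Fin n) (Fin n) (localSubring M) := fun i j => ⟨X i j, hX i j⟩
  have e1 : X = (localSubring M).subtype.mapMatrix X' := by
    ext i j; rfl
  have e2 : X.det = ((X'.det : localSubring M) : ℂ) := by
    rw [e1, ← RingHom.map_det]; rfl
  have h1 : MemLocalRing M X.det := by rw [e2]; exact (X'.det).2
  refine ⟨h1, ?_⟩
  rw [redS_of_mem h1]
  have e3 : (⟨X.det, h1⟩ : localSubring M) = X'.det := Subtype.ext e2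
  rw [e3, RingHom.map_det]
  congr 1
  ext i j
  exact (redS_of_mem (hX i j)).symm

/-- `n = p ^ e * u` with `u` prime to `p` -/
theorem exists_eq_pow_mul {p : ℕ} (hp : p.Prime) {n e : ℕ} (hn : n ≠ 0) (he : n.factorization p = e) :
    ∃ u : ℕ, ¬ p ∣ u ∧ n = p ^ e * u :=
  ⟨n / p ^ n.factorization p, Nat.not_dvd_ordCompl hp hn, by
    rw [← he]; exact (Nat.ordProj_mul_ordCompl_eq_self n p).symm⟩

/-- Let p be a prime, M a maximal ideal of the algebraic integers containing p, and D a subgroup of the finite group G. Let x₁, …, x_r be pairwise non-conjugate elements of G such that D is a Sylow p-subgroup of the centralizer of each xᵢ, and such that for any conjugates g of some xᵢ and h of some xⱼ the element g h⁻¹ is never a non-identity p-element. Then there are r distinct p-blocks B₁, …, B_r of G, each having D as a defect group, such that for every choice of characters χᵢ ∈ Bᵢ of height zero the determinant of the r × r matrix (χᵢ(xⱼ)) does not lie in the local ideal at M. -/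
theorem result {G : Type*} [Group G] [Finite G] (p : ℕ) [Fact p.Prime] (M : Ideal Cfsg.AlgInt) (hM : Cfsg.IsPModular p M) (D : Subgroup G) {r : ℕ} (x : Fin r → G) (hx : ∀ i j : Fin r, IsConj (x i) (x j) → i = j) (hD : ∀ i : Fin r, ∃ S : Sylow p ↥(Subgroup.centralizer ({x i} : Set G)), (S : Subgroup ↥(Subgroup.centralizer ({x i} : Set G))).map (Subgroup.centralizer ({x i} : Set G)).subtype = D) (hsep : ∀ i j : Fin r, ∀ g h : G, IsConj (x i) g → IsConj (x j) h → ∀ k : ℕ, 0 < k → orderOf (g * h⁻¹) ≠ p ^ k) : ∃ B : Fin r → Set (Cfsg.IrrCharacter G), Function.Injective B ∧ (∀ i : Fin r, Cfsg.IsPBlock M (B i) ∧ Cfsg.IsDefectGroup p M (B i) D) ∧ ∀ χ : Fin r → Cfsg.IrrCharacter G, (∀ i : Fin r, χ i ∈ B i ∧ Cfsg.blockHeight p (B i) (χ i : G → ℂ) = 0) → ¬ Cfsg.MemLocalIdeal M (Matrix.det (Matrix.of fun i j : Fin r => (χ i : G → ℂ) (x j))) := by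
  classical
  cases nonempty_fintype G
  have hp : p.Prime := Fact.out
  haveI := isPrime_of_isPModular hM
  haveI := charP_resField hM
  have htop := ne_top_of_isPModular hM
  have hSyl : ∀ i, CA.IsSylIn p D (Subgroup.centralizer ({x i} : Set G)) := fun i => by
    obtain ⟨S, hS⟩ := hD i
    rw [← hS]
    exact CA.isSylIn_of_sylow S
  -- step 1: the identity matrix
  have h1 : ∀ i j, (gp (ResField M) p G * red M (classInd (x j))) (x i) = if j = i then 1 else 0 := by
    intro i j
    rw [CA.mul_apply, Finset.sum_eq_single (1 : G)]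
    · rw [gp_apply, red_apply, classInd_apply, inv_one, one_mul, if_pos ⟨0, by simp⟩, one_mul]
      by_cases hij : j = i
      · rw [if_pos hij, if_pos (by rw [hij]), redS_one]
      · rw [if_neg hij, if_neg (fun h => hij (hx j i h)), redS_zero]
    · intro h _ hh1
      rw [gp_apply, red_apply, classInd_apply]
      by_cases hc : IsConj (x j) (h⁻¹ * x i)
      · rw [if_neg, zero_mul]
        rintro ⟨n, hn⟩
        have hn0 : 0 < n := by
          rcases Nat.eq_zero_or_pos n with h0 | h0
          · rw [h0, pow_zero, orderOf_eq_one_iff] at hn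
            exact absurd hn hh1
          · exact h0
        apply hsep i j (x i) (h⁻¹ * x i) (IsConj.refl _) hc n hn0
        have : x i * (h⁻¹ * x i)⁻¹ = h := by group
        rw [this, hn]
      · rw [if_neg hc, redS_zero, mul_zero]
    · intro h; exact absurd (Finset.mem_univ _) h
  -- the blocks with defect group `D`
  set 𝔅 := (pblocks M G).filter (fun B => IsDefectGroup p M B D) with h𝔅
  let Λ : Matrix (Fin r) 𝔅 (ResField M) :=
    fun j B => CA.lam ⊤ (eps M B.1) (red M (classInd (x j)))
  let C : Matrix 𝔅 (Fin r) (ResField M) := fun B i => (gp (ResField M) p G * eps M B.1) (x i)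
  have hΛC : Λ * C = 1 := by
    ext j i
    rw [Matrix.mul_apply, Matrix.one_apply, ← h1 i j,
      Cfsg.Agent.S0940.gp_mul_central hM (red_mem_cen (isClassFunction_classInd (x j))),
      CA.sum_apply]
    simp only [CA.smul_apply]
    rw [Finset.sum_coe_sort 𝔅 (fun B => CA.lam ⊤ (eps M B) (red M (classInd (x j))) *
      (gp (ResField M) p G * eps M B) (x i)), h𝔅, Finset.sum_filter]
    refine Finset.sum_congr rfl fun B hB => ?_
    have hB' := mem_pblocks.mp hB
    split_ifs with hBD
    · rfl
    · by_contra hne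
      apply hBD
      rw [isDefectGroup_iff hB']
      have hne' := Ne.symm hne
      refine isDefGrp_of_ne_zero (isBlk_eps hB') (hSyl j) ?_ (hSyl i).2.1
        (right_ne_zero_of_mul hne')
      rw [clsSum_top_eq_red]
      exact left_ne_zero_of_mul hne'
  obtain ⟨f, hf, hdet⟩ := MinorLemma.exists_minor Λ C hΛC
  have hfB : ∀ i, IsPBlock M (f i).1 ∧ IsDefectGroup p M (f i).1 D := by
    intro i
    have := Finset.mem_filter.mp (f i).2
    exact ⟨mem_pblocks.mp this.1, this.2⟩
  refine ⟨fun i => (f i).1, fun i i' h => hf (Subtype.ext h), hfB, ?_⟩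
  intro χ hχ hmem
  -- valuations
  set a := (Nat.card G).factorization p with ha
  set d := (Nat.card D).factorization p with hd
  have hdeg : ∀ i, (charDegree (χ i : G → ℂ)).factorization p = a - d := by
    intro i
    have h2 := card_of_isDefectGroup hM (hfB i).1 (hfB i).2
    have h3 : blockDefect p (f i).1 = d := by
      rw [hd, h2, hp.factorization_pow, Finsupp.single_eq_same]
    have h3' : a - minExp p (f i).1 = d := h3
    have h4 : minExp p (f i).1 ≤ (charDegree (χ i : G → ℂ)).factorization p :=
      minExp_le (p := p) (hχ i).1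
    have h5 : minExp p (f i).1 ≤ a := minExp_le_card (p := p) (pb_nonempty (hfB i).1)
    have h6 : (charDegree (χ i : G → ℂ)).factorization p - minExp p (f i).1 = 0 := (hχ i).2
    omega
  have hidx : ∀ j, ((Subgroup.centralizer ({x j} : Set G)).index).factorization p = a - d := by
    intro j
    obtain ⟨S, hS⟩ := hD j
    have h2 : Nat.card D = p ^ (Nat.card (Subgroup.centralizer ({x j} : Set G))).factorization p := by
      rw [← hS, Subgroup.card_map_of_injective (Subgroup.subtype_injective _),
        S.card_eq_multiplicity]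
    have h3 : (Nat.card (Subgroup.centralizer ({x j} : Set G))).factorization p = d := by
      rw [hd, h2, hp.factorization_pow, Finsupp.single_eq_same]
    have h4 := Subgroup.card_mul_index (Subgroup.centralizer ({x j} : Set G))
    have h5 : (Subgroup.centralizer ({x j} : Set G)).index ≠ 0 := Subgroup.index_ne_zero_of_finite
    have h6 : (Nat.card (Subgroup.centralizer ({x j} : Set G)) *
        (Subgroup.centralizer ({x j} : Set G)).index).factorization p = a := by rw [h4]
    rw [Nat.factorization_mul Nat.card_pos.ne' h5, Finsupp.add_apply, h3] at h6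
    omega
  choose u hu hu' using fun j => exists_eq_pow_mul hp
    (Subgroup.index_ne_zero_of_finite (H := Subgroup.centralizer ({x j} : Set G))) (hidx j)
  choose v hv hv' using fun i => exists_eq_pow_mul hp (charDegree_pos_irr (χ i)).ne' (hdeg i)
  have hXl : ∀ i j, MemLocalRing M ((χ i : G → ℂ) (x j)) := fun i j =>
    memLocalRing_of_isIntegral htop (isCharacter_isIntegral (isCharacter_of_irr (χ i).2) (x j))
  have hkey : ∀ i j, (v i : ResField M) * Λ j (f i) =
      (u j : ResField M) * redS M ((χ i : G → ℂ) (x j)) := by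
    intro i j
    show (v i : ResField M) * CA.lam ⊤ (eps M (f i).1) (red M (classInd (x j))) = _
    rw [lam_eps (hfB i).1 (hχ i).1 (isClassFunction_classInd (x j)) (DefZero.rVal_classInd (x j)),
      omega_classInd (isClassFunction_of_irr (χ i).2)]
    have hcc : MemLocalRing M (centralChar (χ i : G → ℂ) (x j)) :=
      memLocalRing_of_isIntegral htop (isIntegral_centralChar_irr (χ i).2 (x j))
    rw [← redS_natCast, ← redS_natCast, ← redS_mul (memLocalRing_natCast htop _) hcc,
      ← redS_mul (memLocalRing_natCast htop _) (hXl i j)]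
    congr 1
    unfold centralChar
    rw [← charDegree_cast_irr (χ i), hu' j, hv' i]
    have hp0 : (p : ℂ) ≠ 0 := by exact_mod_cast hp.ne_zero
    have hv0 : (v i : ℂ) ≠ 0 := by
      intro h
      have : v i = 0 := by exact_mod_cast h
      exact hv i (this ▸ dvd_zero p)
    push_cast
    field_simp
  obtain ⟨-, hred⟩ := redS_det (M := M) (Matrix.of fun i j : Fin r => (χ i : G → ℂ) (x j))
    (fun i j => hXl i j)
  have hmem' := (redS_eq_zero_iff (memLocalRing_of_memLocalIdeal hmem)).mpr hmem
  rw [hred] at hmem'
  have hA : (Matrix.of fun j i : Fin r => (v i : ResField M) * (Λ.submatrix id f) j i).det =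
      (Matrix.of fun j i : Fin r => (u j : ResField M) *
        (Matrix.of fun i j : Fin r => redS M ((χ i : G → ℂ) (x j))).transpose j i).det := by
    congr 1
    ext j i
    exact hkey i j
  rw [Matrix.det_mul_row, Matrix.det_mul_column, Matrix.det_transpose] at hA
  have hz : (Matrix.of fun i j : Fin r => redS M ((χ i : G → ℂ) (x j))).det = 0 := hmem'
  rw [hz, mul_zero] at hA
  rcases mul_eq_zero.mp hA with h | h
  · rw [Finset.prod_eq_zero_iff] at h
    obtain ⟨i, -, hi⟩ := h
    rw [CharP.cast_eq_zero_iff (ResField M) p] at hi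
    exact hv i hi
  · exact hdet h

end Cfsg.Agent.S4741
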