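import Cfsg.Statements.S4743
import Cfsg.Agent.S4742

set_option autoImplicit false
open Cfsg

namespace Cfsg.Agent.S4743


/-- the conclusion of S4742 -/
def Sep (p q : ℕ) (G : Type*) [Group G] : Prop :=
  ∀ z : G, z ≠ 1 → (∃ k : ℕ, orderOf z = q ^ k) → ∃ g h : G, IsConj z g ∧ IsConj z h ∧
    g * h⁻¹ ≠ 1 ∧ ∃ k : ℕ, orderOf (g * h⁻¹) = p ^ k

theorem dvd_card_of_mem {G : Type*} [Group G] [Finite G] {p : ℕ} {N : Subgroup G} {x : G}
    (hx : x ∈ N) (hx1 : x ≠ 1) (hk : ∃ k : ℕ, orderOf x = p ^ k) : p ∣ Nat.card N := by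
  obtain ⟨k, hk⟩ := hk
  have h1 : orderOf x ∣ Nat.card N := by
    have := orderOf_dvd_natCard (⟨x, hx⟩ : N)
    rwa [Subgroup.orderOf_mk] at this
  have hk0 : k ≠ 0 := by
    rintro rfl
    rw [pow_zero, orderOf_eq_one_iff] at hk
    exact hx1 hk
  exact (dvd_pow_self p hk0).trans (hk ▸ h1)

theorem sep_mem {G : Type*} [Group G] [Finite G] {p q : ℕ} [Fact q.Prime] (h : Sep p q G)
    {N : Subgroup G} [N.Normal] (hq : q ∣ Nat.card N) : p ∣ Nat.card N := by
  obtain ⟨z, hz⟩ := exists_prime_orderOf_dvd_card' q hq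
  have hz' : orderOf (z : G) = q := by rw [Subgroup.orderOf_coe]; exact hz
  have hz1 : (z : G) ≠ 1 := by
    intro h0
    rw [h0, orderOf_one] at hz'
    exact (Fact.out : q.Prime).one_lt.ne hz'
  obtain ⟨g, h', hg, hh, hne, hord⟩ := h z hz1 ⟨1, by rw [hz', pow_one]⟩
  obtain ⟨c, rfl⟩ := isConj_iff.mp hg
  obtain ⟨d, rfl⟩ := isConj_iff.mp hh
  refine dvd_card_of_mem (N.mul_mem ?_ (N.inv_mem ?_)) hne hord
  · exact (inferInstance : N.Normal).conj_mem _ z.2 c
  · exact (inferInstance : N.Normal).conj_mem _ z.2 d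

theorem not_dvd_of_sep {G : Type*} [Group G] [Finite G] {p q : ℕ} [hp : Fact p.Prime]
    [hq : Fact q.Prime] (hpq : p ≠ q) (ha : Sep p q G) (hb : Sep q p G)
    (hs : Cfsg.IsPSolvable p G) : ¬ p ∣ Nat.card G := by
  obtain ⟨n, H, h0, hn, hmono, hnorm, hstep⟩ := hs
  have key : ∀ i : Fin (n + 1), ¬ p ∣ Nat.card (H i) := by
    intro i
    induction i using Fin.induction with
    | zero =>
      rw [h0, Subgroup.card_bot]
      exact hp.out.one_lt.ne' ∘ Nat.dvd_one.mp
    | succ i ih =>
      intro hdvd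
      haveI := hnorm i.castSucc
      haveI := hnorm i.succ
      have hle : H i.castSucc ≤ H i.succ := hmono (Fin.castSucc_lt_succ).le
      have hcard : Nat.card (H i.castSucc) * (H i.castSucc).relIndex (H i.succ) =
          Nat.card (H i.succ) := by
        have := Subgroup.relIndex_mul_relIndex ⊥ (H i.castSucc) (H i.succ) bot_le hle
        rwa [Subgroup.relIndex_bot_left, Subgroup.relIndex_bot_left] at this
      have hq1 : ¬ q ∣ Nat.card (H i.castSucc) := fun h => ih (sep_mem ha h)
      have hq2 : q ∣ Nat.card (H i.succ) := sep_mem hb hdvd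
      rcases hstep i with ⟨m, hm⟩ | hco
      · rw [← hcard, hm] at hq2
        rcases (Nat.Prime.dvd_mul hq.out).mp hq2 with h | h
        · exact hq1 h
        · exact hpq ((Nat.prime_dvd_prime_iff_eq hq.out hp.out).mp (hq.out.dvd_of_dvd_pow h)).symm
      · rw [← hcard] at hdvd
        rcases (Nat.Prime.dvd_mul hp.out).mp hdvd with h | h
        · exact ih h
        · exact (Nat.Prime.coprime_iff_not_dvd hp.out).mp hco.symm h
  have := key (Fin.last n)
  rwa [hn, Subgroup.card_top] at this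

/-- Let p ≠ q be primes dividing the order of the finite group G, suppose the centralizer of every non-identity p-element has order prime to q, and suppose G is p-solvable or q-solvable. Then G has an irreducible character of p-defect zero or an irreducible character of q-defect zero. -/
theorem result {G : Type*} [Group G] [Finite G] (p q : ℕ) [Fact p.Prime] [Fact q.Prime] (hppq : p ≠ q) (hpG : p ∣ Nat.card G) (hqG : q ∣ Nat.card G) (hC : ∀ g : G, g ≠ 1 → (∃ k : ℕ, orderOf g = p ^ k) → ¬ q ∣ Nat.card ↥(Subgroup.centralizer ({g} : Set G))) (hsolv : Cfsg.IsPSolvable p G ∨ Cfsg.IsPSolvable q G) : (∃ χ : Cfsg.IrrCharacter G, (Cfsg.charDegree (χ : G → ℂ)).factorization p = (Nat.card G).factorization p) ∨ (∃ χ : Cfsg.IrrCharacter G, (Cfsg.charDegree (χ : G → ℂ)).factorization q = (Nat.card G).factorization q) := by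
  classical
  by_contra hcon
  push Not at hcon
  obtain ⟨hcp, hcq⟩ := hcon
  have hp : p.Prime := Fact.out
  have hq : q.Prime := Fact.out
  have hC' : ∀ g : G, g ≠ 1 → (∃ k : ℕ, orderOf g = q ^ k) →
      ¬ p ∣ Nat.card ↥(Subgroup.centralizer ({g} : Set G)) := by
    intro y hy1 hy hdvd
    obtain ⟨x, hx⟩ := exists_prime_orderOf_dvd_card' p hdvd
    have hx' : orderOf (x : G) = p := by rw [Subgroup.orderOf_coe]; exact hx
    have hx1 : (x : G) ≠ 1 := by
      intro h0
      rw [h0, orderOf_one] at hx'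
      exact hp.one_lt.ne hx'
    apply hC (x : G) hx1 ⟨1, by rw [hx', pow_one]⟩
    refine dvd_card_of_mem (x := y) ?_ hy1 hy
    rw [Subgroup.mem_centralizer_singleton_iff]
    exact (Subgroup.mem_centralizer_singleton_iff.mp x.2).symm
  have ha : Sep p q G := by
    rcases Cfsg.Agent.S4742.result p q hppq hpG hqG hC with ⟨χ, h⟩ | h
    · exact absurd h (hcp χ)
    · exact h
  have hb : Sep q p G := by
    rcases Cfsg.Agent.S4742.result q p hppq.symm hqG hpG hC' with ⟨χ, h⟩ | h
    · exact absurd h (hcq χ)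
    · exact h
  rcases hsolv with hs | hs
  · exact not_dvd_of_sep hppq ha hb hs hpG
  · exact not_dvd_of_sep hppq.symm hb ha hs hqG

end Cfsg.Agent.S4743
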