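import Cfsg.Statements.S4744
import Cfsg.Agent.BlockLib.KG.InvSyl2

set_option autoImplicit false
open Cfsg Cfsg.Agent.BlockLib

namespace Cfsg.Agent.S4744

/-- Let p be an odd prime and G a finite group of even order divisible by p in which the centralizer of every non-identity p-element has odd order. Then either G has an irreducible character of p-defect zero, or the normalizer of every Sylow p-subgroup P of G has even order and P is abelian. -/
theorem result {G : Type*} [Group G] [Finite G] (p : ℕ) [Fact p.Prime] (hp2 : p ≠ 2) (hpG : p ∣ Nat.card G) (h2G : 2 ∣ Nat.card G) (hC : ∀ g : G, g ≠ 1 → (∃ k : ℕ, orderOf g = p ^ k) → Odd (Nat.card ↥(Subgroup.centralizer ({g} : Set G)))) : (∃ χ : Cfsg.IrrCharacter G, (Cfsg.charDegree (χ : G → ℂ)).factorization p = (Nat.card G).factorization p) ∨ ∀ P : Sylow p G, Even (Nat.card ↥(Subgroup.normalizer ((P : Subgroup G) : Set G))) ∧ IsMulCommutative ↥(P : Subgroup G) := by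
  classical
  by_cases hno : ∃ χ : Cfsg.IrrCharacter G,
      (Cfsg.charDegree (χ : G → ℂ)).factorization p = (Nat.card G).factorization p
  · exact Or.inl hno
  right
  intro P
  haveI : Fact (Nat.Prime 2) := ⟨Nat.prime_two⟩
  obtain ⟨s, hs⟩ := exists_prime_orderOf_dvd_card' 2 h2G
  obtain ⟨g, -, hgg, hg1, hinv⟩ := InvSyl.exists_conj_inverting hp2 hpG h2G hC hno hs P
  refine ⟨?_, ⟨⟨fun a b => Subtype.ext (InvSyl.commute_of_inverts hinv a.2 b.2)⟩⟩⟩
  have hgN := InvSyl.mem_normalizer_of_inverts (P := (P : Subgroup G)) hgg hinv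
  have h2 : orderOf g = 2 := orderOf_eq_prime (by rw [pow_two]; exact hgg) hg1
  have h3 := orderOf_dvd_natCard (⟨g, hgN⟩ : Subgroup.normalizer ((P : Subgroup G) : Set G))
  rw [Subgroup.orderOf_mk, h2] at h3
  exact even_iff_two_dvd.mpr h3

end Cfsg.Agent.S4744
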