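import Cfsg.Statements.S4746
import Cfsg.Agent.BlockLib.KG.InvSyl2
import Cfsg.Agent.BlockLib.KG.RealOdd

set_option autoImplicit false
open Cfsg Cfsg.Agent.BlockLib

namespace Cfsg.Agent.S4746

/-- Let p be an odd prime and G a finite group of even order divisible by p in which the centralizer of every non-identity p-element has odd order. Then G has an irreducible character of p-defect zero or an irreducible character of even degree. -/
theorem result {G : Type*} [Group G] [Finite G] (p : ℕ) [Fact p.Prime] (hp2 : p ≠ 2) (hpG : p ∣ Nat.card G) (h2G : 2 ∣ Nat.card G) (hC : ∀ g : G, g ≠ 1 → (∃ k : ℕ, orderOf g = p ^ k) → Odd (Nat.card ↥(Subgroup.centralizer ({g} : Set G)))) : (∃ χ : Cfsg.IrrCharacter G, (Cfsg.charDegree (χ : G → ℂ)).factorization p = (Nat.card G).factorization p) ∨ ∃ χ : Cfsg.IrrCharacter G, Even (Cfsg.charDegree (χ : G → ℂ)) := by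
  classical
  haveI : Fact (Nat.Prime 2) := ⟨Nat.prime_two⟩
  rcases Cfsg.Agent.S4742.result p 2 hp2 hpG h2G (fun g hg1 hg => by
    have := hC g hg1 hg
    intro h2
    exact (Nat.not_even_iff_odd.mpr this) (even_iff_two_dvd.mpr h2)) with h | h
  · exact Or.inl h
  right
  obtain ⟨s, hs⟩ := exists_prime_orderOf_dvd_card' 2 h2G
  have hss := InvSyl.mul_self_of_orderOf hs
  have hs1 : s ≠ 1 := by
    intro h
    rw [h, orderOf_one] at hs
    omega
  obtain ⟨g, h', hg, hh, hne, hord⟩ := h s hs1 ⟨1, by rw [hs, pow_one]⟩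
  have hgg := InvSyl.mul_self_of_isConj hss hg
  have hhh := InvSyl.mul_self_of_isConj hss hh
  have hh' : h'⁻¹ = h' := inv_eq_of_mul_eq_one_left hhh
  have hinv : g * (g * h'⁻¹) * g⁻¹ = (g * h'⁻¹)⁻¹ := by
    rw [mul_inv_rev, inv_inv, ← mul_assoc, hgg, one_mul, hh']
  exact RealOdd.exists_even_degree hne (isConj_iff.mpr ⟨g, hinv⟩) (hC _ hne hord)

end Cfsg.Agent.S4746
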