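import Cfsg.Statements.S4748
import Cfsg.Agent.Lib.Helper24.TISolv
import Cfsg.Agent.Lib.Helper13.HHDual
import Cfsg.Agent.H17.Basic

set_option autoImplicit false
open scoped Pointwise
open Cfsg

namespace Cfsg.Agent.S4748

/-- Let G be a finite p-solvable group whose Sylow p-subgroup P meets each conjugate g P g⁻¹ with g outside N_G(P) trivially, and let χ be a faithful character of G (χ g = χ 1 only for g = 1) whose degree d satisfies d² ≤ |P|. Then P is normal in G. -/
theorem result {G : Type*} [Group G] [Finite G] (p : ℕ) [Fact p.Prime] (hsolv : Cfsg.IsPSolvable p G) (P : Sylow p G) (hTI : ∀ g : G, g ∉ Subgroup.normalizer ((P : Subgroup G) : Set G) → (P : Subgroup G) ⊓ (MulAut.conj g • (P : Subgroup G)) = ⊥) (χ : G → ℂ) (hχ : Cfsg.IsCharacter G χ) (hfaith : ∀ g : G, χ g = χ 1 → g = 1) (hdeg : Cfsg.charDegree χ ^ 2 ≤ Nat.card ↥(P : Subgroup G)) : (P : Subgroup G).Normal := by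
  classical
  by_contra hn
  have hp : p.Prime := Fact.out
  obtain ⟨g, hg⟩ : ∃ g : G, g ∉ Subgroup.normalizer ((P : Subgroup G) : Set G) := by
    by_contra hcon
    push Not at hcon
    apply hn
    exact Subgroup.normalizer_eq_top_iff.1 ((Subgroup.eq_top_iff' _).2 hcon)
  have hcore : pCore p G = ⊥ := by
    rw [eq_bot_iff, ← hTI g hg]
    apply le_inf (Cfsg.Agent.H17.pCore_le_sylow P)
    exact Cfsg.Agent.H17.pCore_le_sylow (g • P)
  haveI hKn : (pPrimeCore p G).Normal := Cfsg.H1.pPrimeCore_normal p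
  have hKp : (Nat.card (pPrimeCore p G)).Coprime p := Cfsg.Agent.H12.pPrimeCore_coprime p
  have hcent := Cfsg.Agent.Lib.Helper13.centralizer_pPrimeCore_le_of_isPSolvable p hsolv hcore
  have hPne : (P : Subgroup G) ≠ ⊥ := by
    intro h
    apply hn
    rw [h]
    infer_instance
  haveI : Nontrivial (P : Subgroup G) := (Subgroup.nontrivial_iff_ne_bot _).2 hPne
  haveI := IsPGroup.center_nontrivial P.2
  obtain ⟨⟨⟨z, hzP⟩, hzc⟩, hz1⟩ := exists_ne (1 : Subgroup.center (P : Subgroup G))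
  obtain ⟨n, hn'⟩ := IsPGroup.iff_card.1 P.2
  have hcop : (Nat.card (pPrimeCore p G)).Coprime (Nat.card (P : Subgroup G)) := by
    rw [hn']
    exact Nat.Coprime.pow_right n hKp
  have hzc' : ∀ v ∈ (P : Subgroup G), z * v = v * z := by
    intro v hv
    have := Subgroup.mem_center_iff.1 hzc ⟨v, hv⟩
    exact (congrArg Subtype.val this).symm
  have hTI' : ∀ u ∈ (P : Subgroup G), u ≠ 1 → ∀ g : G, g * u * g⁻¹ ∈ (P : Subgroup G) →
      g ∈ Subgroup.normalizer ((P : Subgroup G) : Set G) := by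
    intro u hu hu1 g hg
    by_contra hgn
    have h1 : g⁻¹ ∉ Subgroup.normalizer ((P : Subgroup G) : Set G) := fun h => hgn (by
      simpa using Subgroup.inv_mem _ h)
    have h2 := hTI g⁻¹ h1
    have h3 : u ∈ (P : Subgroup G) ⊓ (MulAut.conj g⁻¹ • (P : Subgroup G)) := by
      rw [Subgroup.mem_inf]
      refine ⟨hu, ?_⟩
      rw [Subgroup.mem_pointwise_smul_iff_inv_smul_mem]
      simpa [MulAut.smul_def] using hg
    rw [h2, Subgroup.mem_bot] at h3
    exact hu1 h3
  have hzK : z ∈ pPrimeCore p G := by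
    apply hcent
    rw [Subgroup.mem_centralizer_iff]
    intro k hk
    exact (Cfsg.Agent.Lib.Helper24.TISolv.commute_of_ti (pPrimeCore p G) (P : Subgroup G) hcop hTI'
      hχ hfaith hdeg hzP hzc' hk).symm
  have := Cfsg.Agent.Lib.Helper24.TISolv.eq_one_of_mem_of_mem (pPrimeCore p G) (P : Subgroup G) hcop
    hzK hzP
  apply hz1
  apply Subtype.ext
  apply Subtype.ext
  exact this

end Cfsg.Agent.S4748
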