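import Cfsg.Statements.S4755
import Cfsg.Agent.CharLib.PermLemma
import Cfsg.Agent.CharLib.L.Linear
-- import your own Cfsg.Agent.* helpers here

set_option autoImplicit false
open Cfsg Cfsg.Agent.CharLib Cfsg.Agent.CharLib.L
open scoped ComplexConjugate commutatorElement

namespace Cfsg.Agent.S4755

/-- Let x, y be non-identity elements of the finite group G such that χ(x' y') = χ(x') χ(y') for all conjugates x' of x, y' of y and every irreducible character χ. Then the conjugacy class of x y is the set of all products of a conjugate of x with a conjugate of y; every irreducible character of degree greater than 1 vanishes at x y; and the conjugacy class of x y is the coset of the commutator subgroup containing x y. -/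
theorem result {G : Type*} [Group G] [Finite G] (x y : G) (hx : x ≠ 1) (hy : y ≠ 1) (h : ∀ (a b : G) (χ : Cfsg.IrrCharacter G), (χ : G → ℂ) (a * x * a⁻¹ * (b * y * b⁻¹)) = (χ : G → ℂ) (a * x * a⁻¹) * (χ : G → ℂ) (b * y * b⁻¹)) : (∀ z : G, IsConj (x * y) z ↔ ∃ a b : G, z = a * x * a⁻¹ * (b * y * b⁻¹)) ∧ (∀ χ : Cfsg.IrrCharacter G, (χ : G → ℂ) 1 ≠ 1 → (χ : G → ℂ) (x * y) = 0) ∧ (∀ z : G, IsConj (x * y) z ↔ (x * y)⁻¹ * z ∈ commutator G) := by
  classical
  cases nonempty_fintype G
  have hG : (Nat.card G : ℂ) ≠ 0 := by exact_mod_cast Nat.card_pos.ne'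
  have hcl : ∀ (χ : Cfsg.IrrCharacter G) (a g : G), (χ : G → ℂ) (a * g * a⁻¹) = (χ : G → ℂ) g :=
    fun χ a g => isClassFunction_of_irr χ.2 g a
  have h1 : ∀ (a b : G) (χ : Cfsg.IrrCharacter G),
      (χ : G → ℂ) (a * x * a⁻¹ * (b * y * b⁻¹)) = (χ : G → ℂ) x * (χ : G → ℂ) y := by
    intro a b χ
    rw [h a b χ, hcl, hcl]
  have h2 : ∀ χ : Cfsg.IrrCharacter G, (χ : G → ℂ) (x * y) = (χ : G → ℂ) x * (χ : G → ℂ) y := by
    intro χ
    have := h1 1 1 χ
    simpa using this
  have hvan : ∀ χ : Cfsg.IrrCharacter G, (χ : G → ℂ) 1 ≠ 1 → (χ : G → ℂ) (x * y) = 0 := by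
    intro χ hχ
    have h3 := sum_irr_conj_mul χ x y
    have h4 : ∀ a : G, (χ : G → ℂ) (a * x * a⁻¹ * y) = (χ : G → ℂ) x * (χ : G → ℂ) y := by
      intro a
      have := h1 a 1 χ
      simpa using this
    simp only [h4] at h3
    rw [Finset.sum_const, Finset.card_univ, nsmul_eq_mul, ← Nat.card_eq_fintype_card] at h3
    have h0 : (χ : G → ℂ) 1 ≠ 0 := irr_apply_one_ne_zero χ
    rw [h2]
    field_simp at h3
    have h5 : (χ : G → ℂ) x * (χ : G → ℂ) y * ((χ : G → ℂ) 1 - 1) = 0 := by
      linear_combination h3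
    rcases mul_eq_zero.1 h5 with h6 | h6
    · exact h6
    · exact absurd (sub_eq_zero.1 h6) hχ
  refine ⟨?_, hvan, ?_⟩
  · intro z
    constructor
    · intro hz
      obtain ⟨c, hc⟩ := isConj_iff.1 hz
      exact ⟨c, c, by rw [← hc]; group⟩
    · rintro ⟨a, b, rfl⟩
      rw [isConj_iff_forall_irr]
      intro χ
      rw [h1, h2]
  · intro z
    constructor
    · intro hz
      obtain ⟨c, hc⟩ := isConj_iff.1 hz
      rw [← hc]
      have : (x * y)⁻¹ * (c * (x * y) * c⁻¹) = ⁅(x * y)⁻¹, c⁆ := by
        rw [commutatorElement_def]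
        group
      rw [this]
      exact Subgroup.commutator_mem_commutator (Subgroup.mem_top _) (Subgroup.mem_top _)
    · intro hz
      by_contra hcon
      have h3 := sum_irr_mul_conj_of_not_isConj hcon
      have h4 : ∀ χ : Cfsg.IrrCharacter G, (χ : G → ℂ) (x * y) * conj ((χ : G → ℂ) z) =
          if (χ : G → ℂ) 1 = 1 then 1 else 0 := by
        intro χ
        split_ifs with hχ
        · have hm := irr_mul_of_apply_one_eq_one χ hχ
          let f : G →* ℂ := { toFun := χ, map_one' := hχ, map_mul' := hm }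
          have h5 : f.toHomUnits ((x * y)⁻¹ * z) = 1 :=
            MonoidHom.mem_ker.1 (Abelianization.commutator_subset_ker f.toHomUnits hz)
          have h6 : (χ : G → ℂ) ((x * y)⁻¹ * z) = 1 := by
            have := congrArg Units.val h5
            exact this
          have h7 : (χ : G → ℂ) z = (χ : G → ℂ) (x * y) := by
            have : z = (x * y) * ((x * y)⁻¹ * z) := by group
            rw [this, hm, h6, mul_one]
          rw [h7, ← isCharacter_inv (isCharacter_of_irr χ.2), ← hm, mul_inv_cancel, hχ]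
        · rw [hvan χ hχ, zero_mul]
      simp only [h4] at h3
      rw [Finset.sum_ite, Finset.sum_const_zero, add_zero, Finset.sum_const, nsmul_eq_mul,
        mul_one] at h3
      have h5 : (Finset.univ.filter (fun χ : Cfsg.IrrCharacter G => (χ : G → ℂ) 1 = 1)).card ≠ 0 := by
        apply Finset.card_ne_zero_of_mem (a := ⟨fun _ => 1, isIrrCharacter_one⟩)
        simp
      exact h5 (by exact_mod_cast h3)

end Cfsg.Agent.S4755
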