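import Cfsg.Statements.S4757
import Cfsg.Agent.H25.RealExt
import Cfsg.Agent.H25.Codeg2
import Cfsg.Agent.H9.Cores
import Cfsg.Agent.CharLib.Orth

set_option autoImplicit false
open Cfsg Cfsg.Agent.BlockLib Cfsg.Agent.CharLib

namespace Cfsg.Agent.S4757

/-- Let u ≠ 1 be an element of the finite group G and c a complex number such that every non-principal irreducible character χ satisfies χ(1) − χ(u) = c or χ(u) = 0. Then the following are equivalent: (a) u has order 2, G is generated by u together with O(G), the largest normal subgroup of G of odd order, and the centralizer of u is {1, u}; (b) G is not perfect; (c) c = 2. -/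
theorem result {G : Type*} [Group G] [Finite G] (u : G) (hu : u ≠ 1) (c : ℂ) (hyp : ∀ χ : Cfsg.IrrCharacter G, (χ : G → ℂ) ≠ (fun _ => (1 : ℂ)) → ((χ : G → ℂ) 1 - (χ : G → ℂ) u = c ∨ (χ : G → ℂ) u = 0)) : ((orderOf u = 2 ∧ Subgroup.zpowers u ⊔ Cfsg.oddCore G = ⊤ ∧ Subgroup.centralizer ({u} : Set G) = Subgroup.zpowers u) ↔ commutator G ≠ ⊤) ∧ (commutator G ≠ ⊤ ↔ c = 2) := by
  classical
  letI := Fintype.ofFinite G
  have hS1 : ∑ χ : IrrCharacter G, (χ : G → ℂ) 1 * (χ : G → ℂ) u = 0 := by
    rw [sum_irr_one_mul, if_neg hu]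
  have hdeg : ∀ χ : IrrCharacter G, ∃ d : ℕ, 0 < d ∧ (χ : G → ℂ) 1 = d := by
    intro χ
    obtain ⟨n, hn⟩ := isCharacter_apply_one (isCharacter_of_irr χ.2)
    refine ⟨n, Nat.pos_of_ne_zero ?_, hn⟩
    rintro rfl
    exact irr_apply_one_ne_zero χ (by simpa using hn)
  let one : IrrCharacter G := ⟨fun _ => 1, isIrrCharacter_one⟩
  -- some term has negative real part
  have hneg : ∃ χ : IrrCharacter G, ((χ : G → ℂ) 1 * (χ : G → ℂ) u).re < 0 := by
    by_contra hcon
    push_neg at hcon
    have h1 : ∑ χ : IrrCharacter G, ((χ : G → ℂ) 1 * (χ : G → ℂ) u).re = 0 := by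
      rw [← Complex.re_sum, hS1]; rfl
    have h2 := (Finset.sum_eq_zero_iff_of_nonneg (fun χ _ => hcon χ)).1 h1 one (Finset.mem_univ _)
    simp [one] at h2
  -- B : c = 2 → nontrivial linear character
  have hB : c = 2 → commutator G ≠ ⊤ := by
    intro hc htop
    obtain ⟨χ, hχ⟩ := hneg
    obtain ⟨d, hd, hd1⟩ := hdeg χ
    have hne : (χ : G → ℂ) ≠ fun _ => (1 : ℂ) := by
      intro h
      rw [h] at hχ
      simp at hχ
      linarith
    have hχ1 : (χ : G → ℂ) 1 = 1 := by
      rcases hyp χ hne with h | h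
      · have hu' : (χ : G → ℂ) u = (d : ℂ) - 2 := by
          rw [← hd1, ← hc, ← h]; ring
        rw [hu', hd1] at hχ
        have h3 : ((d : ℂ) * ((d : ℂ) - 2)).re = (d : ℝ) * ((d : ℝ) - 2) := by
          simp
        rw [h3] at hχ
        have h4 : d < 2 := by
          by_contra h5
          push_neg at h5
          have h6 : (2 : ℝ) ≤ d := by exact_mod_cast h5
          nlinarith
        have h5 : d = 1 := by omega
        rw [hd1, h5]; simp
      · rw [h] at hχ; simp at hχ
    let H : Subgroup G :=
      { carrier := {g | (χ : G → ℂ) g = 1}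
        mul_mem' := by
          intro a b ha hb
          simp only [Set.mem_setOf_eq] at ha hb ⊢
          rw [L.irr_mul_of_apply_one_eq_one χ hχ1, ha, hb, mul_one]
        one_mem' := hχ1
        inv_mem' := by
          intro a ha
          simp only [Set.mem_setOf_eq] at ha ⊢
          have := L.irr_mul_of_apply_one_eq_one χ hχ1 a a⁻¹
          rw [mul_inv_cancel, hχ1, ha, one_mul] at this
          exact this.symm }
    have hle : commutator G ≤ H := by
      rw [commutator_def, Subgroup.commutator_le]
      intro a _ b _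
      exact L.irr_commutator_of_apply_one_eq_one χ hχ1 a b
    apply hne
    funext g
    have : g ∈ H := hle (htop ▸ Subgroup.mem_top g)
    exact this
  -- C
  have hC : (orderOf u = 2 ∧ Subgroup.zpowers u ⊔ Cfsg.oddCore G = ⊤ ∧
      Subgroup.centralizer ({u} : Set G) = Subgroup.zpowers u) → commutator G ≠ ⊤ := by
    rintro ⟨ho, hsup, -⟩ htop
    haveI hNn : (oddCore G).Normal := inferInstance
    have hpow : ∀ a : G, ∃ i : ℤ, (QuotientGroup.mk a : G ⧸ oddCore G) = (QuotientGroup.mk u) ^ i := by
      intro a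
      have ha : a ∈ Subgroup.zpowers u ⊔ oddCore G := hsup ▸ Subgroup.mem_top a
      rw [Subgroup.mem_sup_of_normal_right] at ha
      obtain ⟨y, hy, z, hz, rfl⟩ := ha
      obtain ⟨i, rfl⟩ := Subgroup.mem_zpowers_iff.1 hy
      refine ⟨i, ?_⟩
      rw [QuotientGroup.mk_mul, (QuotientGroup.eq_one_iff z).2 hz, mul_one, QuotientGroup.mk_zpow]
    have hle : commutator G ≤ oddCore G := by
      rw [commutator_def, Subgroup.commutator_le]
      intro a _ b _
      rw [← QuotientGroup.eq_one_iff]
      obtain ⟨i, hi⟩ := hpow a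
      obtain ⟨j, hj⟩ := hpow b
      rw [commutatorElement_def, QuotientGroup.mk_mul, QuotientGroup.mk_mul, QuotientGroup.mk_mul,
        QuotientGroup.mk_inv, QuotientGroup.mk_inv, hi, hj]
      rw [← zpow_add, ← zpow_neg, ← zpow_neg, ← zpow_add, ← zpow_add]
      have : i + j + -i + -j = 0 := by ring
      rw [this, zpow_zero]
    have hu' : u ∈ oddCore G := hle (htop ▸ Subgroup.mem_top u)
    have hcop : (Nat.card (oddCore G)).Coprime 2 := Cfsg.H9.pPrimeCore_coprime 2
    have hdvd : orderOf (⟨u, hu'⟩ : oddCore G) ∣ Nat.card (oddCore G) := orderOf_dvd_natCard _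
    rw [Subgroup.orderOf_mk, ho] at hdvd
    have := Nat.Coprime.eq_one_of_dvd hcop.symm hdvd
    omega
  -- A
  have hA : commutator G ≠ ⊤ → c = 2 ∧ (orderOf u = 2 ∧ Subgroup.zpowers u ⊔ Cfsg.oddCore G = ⊤ ∧
      Subgroup.centralizer ({u} : Set G) = Subgroup.zpowers u) := by
    intro hnt
    obtain ⟨p, μ, hp, hμ⟩ := Cfsg.Agent.H25.exists_hom_prime_index hnt
    have hc0 : c ≠ 0 := by
      intro hc
      obtain ⟨χ, hχ⟩ := hneg
      obtain ⟨d, hd, hd1⟩ := hdeg χ
      have hne : (χ : G → ℂ) ≠ fun _ => (1 : ℂ) := by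
        intro h
        rw [h] at hχ
        simp at hχ
        linarith
      rcases hyp χ hne with h | h
      · have hu' : (χ : G → ℂ) u = (d : ℂ) := by
          rw [← hd1]; rw [hc] at h; linear_combination -h
        rw [hu', hd1] at hχ
        have h3 : ((d : ℂ) * (d : ℂ)).re = (d : ℝ) * (d : ℝ) := by simp
        rw [h3] at hχ
        nlinarith
      · rw [h] at hχ; simp at hχ
    -- nontrivial homs take the value 1 - c at u
    have hval : ∀ ν : G →* ℂˣ, ν ≠ 1 → ((ν u : ℂˣ) : ℂ) = 1 - c := by
      intro ν hν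
      have hne : (fun g => ((ν g : ℂˣ) : ℂ)) ≠ fun _ => (1 : ℂ) := by
        intro h
        apply hν
        ext g
        simpa using congrFun h g
      rcases hyp ⟨_, isIrrCharacter_of_hom ν⟩ hne with h | h
      · simp only [map_one, Units.val_one] at h
        rw [← h]; ring
      · exact absurd h (Units.ne_zero _)
    have hμ1 : μ ≠ 1 := by
      rintro rfl
      rw [MonoidHom.ker_one, Subgroup.index_top] at hμ
      exact hp.one_lt.ne hμ
    have hμu := hval μ hμ1
    have hμ2 : μ * μ = 1 := by
      by_contra h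
      have h2 := hval (μ * μ) h
      simp only [MonoidHom.mul_apply, Units.val_mul] at h2
      rw [hμu] at h2
      have h3 : (1 - c) ≠ 0 := by rw [← hμu]; exact Units.ne_zero _
      have h4 : (1 - c) = 1 := by
        apply mul_left_cancel₀ h3
        rw [h2, mul_one]
      apply hc0
      linear_combination -h4
    have hμsq : ∀ g, ((μ g : ℂˣ) : ℂ) * ((μ g : ℂˣ) : ℂ) = 1 := by
      intro g
      have := congrArg (fun ν : G →* ℂˣ => ((ν g : ℂˣ) : ℂ)) hμ2
      simpa using this
    have hc2 : c = 2 := by
      have h1 := hμsq u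
      rw [hμu] at h1
      have h2 : c * (c - 2) = 0 := by linear_combination h1
      rcases mul_eq_zero.1 h2 with h | h
      · exact absurd h hc0
      · linear_combination h
    have hμu' : ((μ u : ℂˣ) : ℂ) = -1 := by rw [hμu, hc2]; norm_num
    refine ⟨hc2, ?_⟩
    let mu : IrrCharacter G := ⟨_, isIrrCharacter_of_hom μ⟩
    have hmu_ne : mu ≠ one := by
      intro h
      have := congrFun (congrArg Subtype.val h) u
      simp only [mu, one] at this
      rw [hμu'] at this
      norm_num at this
    have hvan : ∀ χ : IrrCharacter G, χ ≠ one → χ ≠ mu → (χ : G → ℂ) u = 0 := by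
      intro χ h1 h2
      by_contra h0
      have hne1 : (χ : G → ℂ) ≠ fun _ => (1 : ℂ) := fun h => h1 (Subtype.ext h)
      have hne2 : (fun g => ((μ g : ℂˣ) : ℂ) * (χ : G → ℂ) g) ≠ fun _ => (1 : ℂ) := by
        intro h
        apply h2
        apply Subtype.ext
        funext g
        have h3 : ((μ g : ℂˣ) : ℂ) * (χ : G → ℂ) g = 1 := congrFun h g
        have h4 := hμsq g
        simp only [mu]
        calc (χ : G → ℂ) g = (((μ g : ℂˣ) : ℂ) * ((μ g : ℂˣ) : ℂ)) * (χ : G → ℂ) g := by
              rw [h4, one_mul]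
          _ = ((μ g : ℂˣ) : ℂ) * (((μ g : ℂˣ) : ℂ) * (χ : G → ℂ) g) := by ring
          _ = ((μ g : ℂˣ) : ℂ) := by rw [h3, mul_one]
      have e1 : (χ : G → ℂ) 1 - (χ : G → ℂ) u = c := (hyp χ hne1).resolve_right h0
      have e2 := hyp ⟨_, Cfsg.Agent.H25.isIrrCharacter_hom_mul μ χ.2⟩ hne2
      simp only [map_one, Units.val_one, one_mul, hμu'] at e2
      rcases e2 with e2 | e2
      · apply h0
        linear_combination (e2 - e1) / 2
      · apply h0
        linear_combination -e2
    have hcard : Nat.card (Subgroup.centralizer ({u} : Set G)) = 2 := by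
      have h1 := sum_irr_mul_conj_self u
      have h2 : ∑ χ : IrrCharacter G, (χ : G → ℂ) u * (starRingEnd ℂ) ((χ : G → ℂ) u) = 2 := by
        rw [← Finset.sum_subset (Finset.subset_univ ({one, mu} : Finset (IrrCharacter G)))]
        · rw [Finset.sum_pair hmu_ne.symm]
          simp only [one, mu, hμu']
          norm_num
        · intro χ _ hχ
          simp only [Finset.mem_insert, Finset.mem_singleton, not_or] at hχ
          rw [hvan χ hχ.1 hχ.2, zero_mul]
      rw [h2] at h1
      exact_mod_cast h1.symm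
    have hzle : Subgroup.zpowers u ≤ Subgroup.centralizer ({u} : Set G) := by
      rw [Subgroup.zpowers_le]
      exact Subgroup.mem_centralizer_singleton_iff.2 rfl
    have ho2 : 2 ≤ orderOf u := by
      have h1 : orderOf u ≠ 1 := fun h => hu (orderOf_eq_one_iff.1 h)
      have h0 : 0 < orderOf u := orderOf_pos u
      omega
    have hole : orderOf u ≤ 2 := by
      rw [← hcard, ← Nat.card_zpowers]
      exact Subgroup.card_le_of_le hzle
    have ho : orderOf u = 2 := le_antisymm hole ho2
    have hcz : Subgroup.centralizer ({u} : Set G) = Subgroup.zpowers u := by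
      symm
      apply Subgroup.eq_of_le_of_card_ge hzle
      rw [hcard, Nat.card_zpowers, ho]
    refine ⟨ho, ?_, hcz⟩
    -- the kernel of μ has odd order
    have hpG : IsPGroup 2 (Subgroup.zpowers u) := by
      apply IsPGroup.of_card (n := 1)
      rw [Nat.card_zpowers, ho, pow_one]
    haveI : Fact (Nat.Prime 2) := ⟨Nat.prime_two⟩
    obtain ⟨S, hS⟩ := hpG.exists_le_sylow
    have huS : u ∈ (S : Subgroup G) := hS (Subgroup.mem_zpowers u)
    have hSle : (S : Subgroup G) ≤ Subgroup.centralizer ({u} : Set G) := by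
      haveI : Nontrivial (S : Subgroup G) := ⟨⟨⟨u, huS⟩, 1, fun h => hu (congrArg Subtype.val h)⟩⟩
      haveI := S.2.center_nontrivial
      obtain ⟨z, hz⟩ := exists_ne (1 : Subgroup.center (S : Subgroup G))
      have hz1 : ((z : (S : Subgroup G)) : G) ≠ 1 := by
        intro h
        apply hz
        ext
        exact h
      have hzc : ((z : (S : Subgroup G)) : G) ∈ Subgroup.centralizer ({u} : Set G) := by
        rw [Subgroup.mem_centralizer_singleton_iff]
        have := Subgroup.mem_center_iff.1 z.2 ⟨u, huS⟩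
        exact (congrArg Subtype.val this).symm
      rw [hcz] at hzc
      obtain ⟨i, hi⟩ := Subgroup.mem_zpowers_iff.1 hzc
      have hzu : ((z : (S : Subgroup G)) : G) = u := by
        rcases Int.even_or_odd' i with ⟨k, rfl | rfl⟩
        · exfalso
          apply hz1
          rw [← hi, zpow_mul, zpow_ofNat, ← ho, pow_orderOf_eq_one, one_zpow]
        · rw [← hi, zpow_add, zpow_mul, zpow_ofNat, ← ho, pow_orderOf_eq_one, one_zpow, one_mul,
            zpow_one]
      intro s hs
      rw [Subgroup.mem_centralizer_singleton_iff]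
      have := Subgroup.mem_center_iff.1 z.2 ⟨s, hs⟩
      have h2 := congrArg Subtype.val this
      simp only [Subgroup.coe_mul, hzu] at h2
      exact h2
    have hScard : Nat.card (S : Subgroup G) ≤ 2 := by
      exact le_trans (Subgroup.card_le_of_le hSle) hcard.le
    have hker_idx : μ.ker.index = 2 := by
      have h1 : (QuotientGroup.mk u : G ⧸ μ.ker) ^ 2 = 1 := by
        rw [← QuotientGroup.mk_pow, ← ho, pow_orderOf_eq_one]; rfl
      have h2 : (QuotientGroup.mk u : G ⧸ μ.ker) ≠ 1 := by
        intro h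
        rw [QuotientGroup.eq_one_iff, MonoidHom.mem_ker] at h
        rw [h] at hμu'
        norm_num at hμu'
      have h3 : orderOf (QuotientGroup.mk u : G ⧸ μ.ker) = 2 :=
        orderOf_eq_prime h1 h2
      have h4 : orderOf (QuotientGroup.mk u : G ⧸ μ.ker) ∣ Nat.card (G ⧸ μ.ker) :=
        orderOf_dvd_natCard _
      rw [h3, ← Subgroup.index_eq_card, hμ] at h4
      rw [hμ]
      exact ((Nat.prime_dvd_prime_iff_eq Nat.prime_two hp).1 h4).symm
    have hker_odd : (Nat.card μ.ker).Coprime 2 := by
      have h4 : ¬ (4 ∣ Nat.card G) := by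
        intro h
        have h5 : 2 ≤ (Nat.card G).factorization 2 :=
          (Nat.Prime.pow_dvd_iff_le_factorization Nat.prime_two Nat.card_pos.ne').1
            (by simpa using h)
        have hc := S.card_eq_multiplicity
        have h6 : 2 ^ 2 ≤ Nat.card (S : Subgroup G) := by
          rw [hc]; exact Nat.pow_le_pow_right (by norm_num) h5
        omega
      rw [Nat.coprime_comm, Nat.Prime.coprime_iff_not_dvd Nat.prime_two]
      intro hdv
      obtain ⟨k, hk⟩ := hdv
      apply h4
      have := Subgroup.card_mul_index μ.ker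
      rw [hker_idx, hk] at this
      exact ⟨k, by omega⟩
    have hkle : μ.ker ≤ oddCore G := Cfsg.H9.le_pPrimeCore 2 inferInstance hker_odd
    rw [eq_top_iff]
    intro g _
    have h1 := hμsq g
    have h2 : (((μ g : ℂˣ) : ℂ) - 1) * (((μ g : ℂˣ) : ℂ) + 1) = 0 := by linear_combination h1
    rcases mul_eq_zero.1 h2 with h | h
    · apply Subgroup.mem_sup_right
      apply hkle
      rw [MonoidHom.mem_ker]
      ext
      simp only [Units.val_one]
      linear_combination h
    · have h3 : u⁻¹ * g ∈ μ.ker := by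
        rw [MonoidHom.mem_ker]
        ext
        simp only [map_mul, map_inv, Units.val_mul, Units.val_one, Units.val_inv_eq_inv_val, hμu']
        have : ((μ g : ℂˣ) : ℂ) = -1 := by linear_combination h
        rw [this]; norm_num
      have : g = u * (u⁻¹ * g) := by group
      rw [this]
      exact Subgroup.mul_mem_sup (Subgroup.mem_zpowers u) (hkle h3)
  exact ⟨⟨hC, fun h => (hA h).2⟩, ⟨fun h => (hA h).1, hB⟩⟩

end Cfsg.Agent.S4757
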