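import Cfsg.Statements.S4762
import Mathlib
import Cfsg.Agent.Lib.Helper10.OneDeg
import Cfsg.Agent.S0894
import Cfsg.Agent.S0095
-- import your own Cfsg.Agent.* helpers here

set_option autoImplicit false
open Cfsg Cfsg.Agent.CharLib Cfsg.Agent.Lib.Helper10 Cfsg.Agent.Lib.Helper23

namespace Cfsg.Agent.S4762

/-- Let p be a prime and G a finite nilpotent group. Then G has exactly one irreducible complex character of degree divisible by p if and only if p = 2 and G is an extraspecial 2-group. -/
theorem result {G : Type*} [Group G] [Finite G] [Group.IsNilpotent G] (p : ℕ) [Fact p.Prime] : Nat.card {χ : Cfsg.IrrCharacter G // p ∣ Cfsg.charDegree (χ : G → ℂ)} = 1 ↔ (p = 2 ∧ Cfsg.IsExtraspecial 2 G) := by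
  classical
  cases nonempty_fintype G
  constructor
  · intro h
    obtain ⟨hsub, ⟨χ₀, h0⟩⟩ := Nat.card_eq_one_iff_unique.1 h
    have huniq : ∀ χ : IrrCharacter G, p ∣ charDegree (χ : G → ℂ) → χ = χ₀ := by
      intro χ hχ
      exact congrArg Subtype.val (hsub.elim ⟨χ, hχ⟩ ⟨χ₀, h0⟩)
    exact extraspecial_of_unique_nonlinear p (isPGroup_of_unique_dvd p χ₀ h0 huniq) χ₀ h0 huniq
  · rintro ⟨rfl, hE⟩
    obtain ⟨n, hn, hcard⟩ := Cfsg.Agent.S0095.result hE
    obtain ⟨h1, h2⟩ := Cfsg.Agent.S0894.result 2 n hE hcard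
    rw [← (by norm_num : 2 - 1 = 1), ← h2]
    refine Nat.card_congr (Equiv.subtypeEquivRight (fun χ => ?_))
    constructor
    · intro hd
      rcases h1 χ with h3 | h3
      · exfalso
        have h4 : charDegree (χ : G → ℂ) = 1 :=
          Cfsg.Agent.H25.charDegree_of_apply_one (by rw [h3]; simp)
        rw [h4] at hd
        omega
      · exact h3
    · intro h3
      have h4 : charDegree (χ : G → ℂ) = 2 ^ n :=
        Cfsg.Agent.H25.charDegree_of_apply_one (by rw [h3]; simp)
      rw [h4]
      exact dvd_pow_self 2 (by omega)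

end Cfsg.Agent.S4762
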