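import Cfsg.Statements.S4763
import Cfsg.Agent.Lib.Helper24.UniqueSing

set_option autoImplicit false
open Cfsg Cfsg.Agent.Lib.Helper24.UniqueSing

namespace Cfsg.Agent.S4763

/-- Let p be a prime and G a finite group that is not nilpotent and has a normal p-complement (a normal subgroup of order prime to p and index a power of p). If G has exactly one irreducible complex character of degree divisible by p, then G has exactly one conjugacy class whose size is divisible by p. -/
theorem result {G : Type*} [Group G] [Finite G] (p : ℕ) [Fact p.Prime] (hnil : ¬ Group.IsNilpotent G) (N : Subgroup G) [N.Normal] (hN : (Nat.card N).Coprime p) (hidx : ∃ k : ℕ, N.index = p ^ k) (hone : Nat.card {χ : Cfsg.IrrCharacter G // p ∣ Cfsg.charDegree (χ : G → ℂ)} = 1) : Nat.card {C : ConjClasses G // p ∣ Nat.card C.carrier} = 1 := by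
  classical
  have hp : p.Prime := Fact.out
  obtain ⟨k, hk⟩ := hidx
  obtain ⟨P⟩ : Nonempty (Sylow p G) := inferInstance
  obtain ⟨m, hm⟩ := IsPGroup.iff_card.1 P.2
  have hcop : (Nat.card N).Coprime (Nat.card (P : Subgroup G)) := by
    rw [hm]
    exact Nat.Coprime.pow_right m hN
  have hq : IsPGroup p (G ⧸ N) := IsPGroup.of_card (n := k) (by rw [← hk]; rfl)
  have hN1 : N ≠ ⊥ := by
    intro h
    apply hnil
    have : IsPGroup p G := IsPGroup.of_card (n := k) (by rw [← hk, h, Subgroup.index_bot])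
    exact this.isNilpotent
  obtain ⟨hsub, ⟨χ₀, hχ₀⟩⟩ := Nat.card_eq_one_iff_unique.1 hone
  have hone' : ∀ χ ψ : IrrCharacter G, p ∣ charDegree (χ : G → ℂ) → p ∣ charDegree (ψ : G → ℂ) →
      χ = ψ := fun χ ψ h1 h2 => congrArg Subtype.val (hsub.elim ⟨χ, h1⟩ ⟨ψ, h2⟩)
  have hcomm := comm_of_unique p N hq hN1 hone'
  have htop : N ⊔ (P : Subgroup G) = ⊤ := by
    rw [← Subgroup.index_eq_one]
    have h1 : (N ⊔ (P : Subgroup G)).index ∣ p ^ k := hk ▸ Subgroup.index_dvd_of_le le_sup_left
    have h2 : (N ⊔ (P : Subgroup G)).index ∣ (P : Subgroup G).index :=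
      Subgroup.index_dvd_of_le le_sup_right
    have h3 : (p ^ k).Coprime (P : Subgroup G).index :=
      Nat.Coprime.pow_left k ((Nat.Prime.coprime_iff_not_dvd hp).2 P.not_dvd_index)
    exact Nat.eq_one_of_dvd_coprimes h3 h1 h2
  have hKP : ∀ x : G, ∃ a ∈ N, ∃ u ∈ (P : Subgroup G), x = a * u := by
    intro x
    have hx' : x ∈ ((N ⊔ (P : Subgroup G) : Subgroup G) : Set G) := by
      rw [htop]
      trivial
    rw [Subgroup.normal_mul] at hx'
    obtain ⟨a, ha, u, hu, rfl⟩ := Set.mem_mul.1 hx'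
    exact ⟨a, ha, u, hu, rfl⟩
  have hab : ∀ u ∈ (P : Subgroup G), ∀ v ∈ (P : Subgroup G), u * v = v * u := by
    intro u hu v hv
    have h1 : u * v * u⁻¹ * v⁻¹ ∈ N := by
      rw [← QuotientGroup.eq_one_iff]
      have h0 := hcomm (u : G ⧸ N) (v : G ⧸ N)
      show (u : G ⧸ N) * (v : G ⧸ N) * (u : G ⧸ N)⁻¹ * (v : G ⧸ N)⁻¹ = 1
      rw [h0]
      group
    have h2 : u * v * u⁻¹ * v⁻¹ ∈ (P : Subgroup G) :=
      (P : Subgroup G).mul_mem ((P : Subgroup G).mul_mem ((P : Subgroup G).mul_mem hu hv)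
        ((P : Subgroup G).inv_mem hu)) ((P : Subgroup G).inv_mem hv)
    have h3 := Cfsg.Agent.Lib.Helper24.TISolv.eq_one_of_mem_of_mem N (P : Subgroup G) hcop h1 h2
    calc u * v = (u * v * u⁻¹ * v⁻¹) * (v * u) := by group
      _ = v * u := by rw [h3, one_mul]
  have hm0 : 0 < m := by
    rcases Nat.eq_zero_or_pos m with h0 | h0
    · exfalso
      have h1 : p ∣ Nat.card G := hχ₀.trans (Cfsg.Agent.Lib.Helper23.charDegree_dvd_card χ₀)
      rw [← (P : Subgroup G).card_mul_index, hm, h0, pow_zero, one_mul] at h1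
      exact P.not_dvd_index h1
    · exact h0
  have hB := card_classes_not_dvd p N P hcop hKP hab _ rfl
  have hA := Cfsg.Agent.Lib.Helper2.card_coprime_deg N (P : Subgroup G) htop hcop
  have hS := Cfsg.Agent.Lib.Helper2.card_sInv_eq (G := N) (S := (P : Subgroup G))
    (fun s _ g hg => (inferInstance : N.Normal).conj_mem g hg s) hcop
    (IsNilpotent.to_isSolvable (h := P.2.isNilpotent))
  have hA' : Nat.card {χ : IrrCharacter G // (charDegree (χ : G → ℂ)).Coprime
      (Nat.card (P : Subgroup G))} = Nat.card {χ : IrrCharacter G // ¬ p ∣ charDegree (χ : G → ℂ)} := by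
    apply Nat.card_congr
    refine Equiv.subtypeEquivRight fun χ => ?_
    rw [hm, Nat.coprime_pow_right_iff hm0, Nat.coprime_comm, Nat.Prime.coprime_iff_not_dvd hp]
  have hab' : ∀ a b : (P : Subgroup G), a * b = b * a := fun a b =>
    Subtype.ext (hab a a.2 b b.2)
  have hlin : Nat.card {μ : IrrCharacter (P : Subgroup G) // (μ : ↥(P : Subgroup G) → ℂ) 1 = 1} =
      Nat.card (P : Subgroup G) := by
    have h1 : Nat.card {μ : IrrCharacter (P : Subgroup G) // (μ : ↥(P : Subgroup G) → ℂ) 1 = 1} =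
        Nat.card (IrrCharacter (P : Subgroup G)) :=
      Nat.card_congr (Equiv.subtypeUnivEquiv fun μ => Cfsg.Agent.CharLib.L.irr_apply_one_of_comm hab' μ)
    rw [h1, Cfsg.Agent.CharLib.card_irrCharacter]
    symm
    refine Nat.card_congr (Equiv.ofBijective ConjClasses.mk ⟨?_, ConjClasses.mk_surjective⟩)
    intro a b h
    obtain ⟨c, hc⟩ := isConj_iff.1 (ConjClasses.mk_eq_mk_iff_isConj.1 h)
    rw [← hc, hab' c a, mul_assoc, mul_inv_cancel, mul_one]
  have h1 : Nat.card (IrrCharacter G) = Nat.card {χ : IrrCharacter G // p ∣ charDegree (χ : G → ℂ)} +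
      Nat.card {χ : IrrCharacter G // ¬ p ∣ charDegree (χ : G → ℂ)} := by
    rw [← Nat.card_sum]
    exact Nat.card_congr (Equiv.sumCompl (fun χ : IrrCharacter G => p ∣ charDegree (χ : G → ℂ))).symm
  have h2 : Nat.card (ConjClasses G) = Nat.card {C : ConjClasses G // p ∣ Nat.card C.carrier} +
      Nat.card {C : ConjClasses G // ¬ p ∣ Nat.card C.carrier} := by
    rw [← Nat.card_sum]
    exact Nat.card_congr (Equiv.sumCompl (fun C : ConjClasses G => p ∣ Nat.card C.carrier)).symm
  rw [Cfsg.Agent.CharLib.card_irrCharacter, h2, hone, ← hA', hA, hS, hlin, hB,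
    Cfsg.Agent.CharLib.card_irrCharacter] at h1
  omega

end Cfsg.Agent.S4763
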