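import Mathlib
import Cfsg.Statements.S4765
import Cfsg.Agent.H14.PSL2Char

namespace Cfsg.Agent.S4765

open Cfsg Cfsg.Agent.H14 Cfsg.Agent.H25 Cfsg.Agent.CharLib

theorem result (p : ℕ) [Fact p.Prime] (F : Type*) [Field F] [Fintype F] [CharP F p] (hF : 4 ≤ Fintype.card F) : Nat.card {χ : Cfsg.IrrCharacter (Matrix.ProjectiveSpecialLinearGroup (Fin 2) F) // p ∣ Cfsg.charDegree (χ : Matrix.ProjectiveSpecialLinearGroup (Fin 2) F → ℂ)} = 1 ∧ ∀ χ : Cfsg.IrrCharacter (Matrix.ProjectiveSpecialLinearGroup (Fin 2) F), p ∣ Cfsg.charDegree (χ : Matrix.ProjectiveSpecialLinearGroup (Fin 2) F → ℂ) → Cfsg.charDegree (χ : Matrix.ProjectiveSpecialLinearGroup (Fin 2) F → ℂ) = Fintype.card F := by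
  classical
  obtain ⟨n, -, hn⟩ := FiniteField.card F p
  have hp : p.Prime := Fact.out
  have hpq : p ∣ Fintype.card F := by rw [hn]; exact dvd_pow_self p n.ne_zero
  obtain ⟨C, hC⟩ := exists_NST (F := F)
  have key : ∀ χ : Cfsg.IrrCharacter (Matrix.ProjectiveSpecialLinearGroup (Fin 2) F),
      p ∣ Cfsg.charDegree (χ : Matrix.ProjectiveSpecialLinearGroup (Fin 2) F → ℂ) →
      Cfsg.charDegree (χ : Matrix.ProjectiveSpecialLinearGroup (Fin 2) F → ℂ) = Fintype.card F := by
    intro χ hd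
    have hmem : charDegree (χ : Matrix.ProjectiveSpecialLinearGroup (Fin 2) F → ℂ) ∈
        charDegrees (Matrix.SpecialLinearGroup (Fin 2) F) := charDegrees_psl2_subset ⟨χ, rfl⟩
    set d := charDegree (χ : Matrix.ProjectiveSpecialLinearGroup (Fin 2) F → ℂ) with hd'
    have no1 : ¬ p ∣ 1 := fun h => hp.one_lt.ne' (Nat.dvd_one.mp h)
    have nop : ¬ p ∣ Fintype.card F + 1 := fun h => no1 ((Nat.dvd_add_right hpq).mp h)
    have nom : ¬ p ∣ Fintype.card F - 1 := by
      intro h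
      apply no1
      have := (Nat.dvd_sub_iff_right (by omega) hpq).mp h
      exact this
    rcases mem_charDegrees_sl2 hmem with h | h | h | h | h | h
    · exfalso
      have : d = 1 := by omega
      rw [this] at hd
      exact no1 hd
    · omega
    · exfalso
      have : d = Fintype.card F + 1 := by omega
      rw [this] at hd
      exact nop hd
    · exfalso
      exact nop (hd.trans ⟨2, by omega⟩)
    · exfalso
      have : d = Fintype.card F - 1 := by omega
      rw [this] at hd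
      exact nom hd
    · exfalso
      exact nom (hd.trans ⟨2, by omega⟩)
  refine ⟨?_, key⟩
  obtain ⟨χ₀, h0⟩ := exists_descend (isIrr_Stc (F := F)) Stc_dg_neg_one
  have hdeg0 : charDegree (χ₀ : Matrix.ProjectiveSpecialLinearGroup (Fin 2) F → ℂ) = Fintype.card F := by
    apply charDegree_of_apply_one
    rw [← Stc_apply_one, ← h0 1]
    rfl
  rw [Nat.card_eq_one_iff_unique]
  refine ⟨⟨?_⟩, ⟨⟨χ₀, by rw [hdeg0]; exact hpq⟩⟩⟩
  have uniq : ∀ χ : Cfsg.IrrCharacter (Matrix.ProjectiveSpecialLinearGroup (Fin 2) F),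
      p ∣ Cfsg.charDegree (χ : Matrix.ProjectiveSpecialLinearGroup (Fin 2) F → ℂ) → χ = χ₀ := by
    intro χ hd
    have hq := key χ hd
    have hirr := isIrr_inflate χ
    have h1 : (χ : Matrix.ProjectiveSpecialLinearGroup (Fin 2) F → ℂ) 1 = (Fintype.card F : ℂ) := by
      rw [charDegree_irr χ, hq]
    have e : 2 * (fun g : Matrix.SpecialLinearGroup (Fin 2) F =>
        (χ : Matrix.ProjectiveSpecialLinearGroup (Fin 2) F → ℂ) (QuotientGroup.mk g)) 1 =
        ((2 * Fintype.card F : ℕ) : ℂ) := by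
      simp only [QuotientGroup.mk_one]
      rw [h1]; push_cast; ring
    have hst : (fun g : Matrix.SpecialLinearGroup (Fin 2) F =>
        (χ : Matrix.ProjectiveSpecialLinearGroup (Fin 2) F → ℂ) (QuotientGroup.mk g)) = Stc := by
      rcases classification_nat hC hirr _ e with ⟨h1, h2⟩ | ⟨h1, h2⟩ | ⟨h1, h2⟩ | ⟨h1, h2⟩ | ⟨h1, h2⟩ | ⟨h1, h2⟩ <;>
        try (exfalso; omega)
      exact h1
    apply Subtype.ext
    funext x
    obtain ⟨g, rfl⟩ := QuotientGroup.mk_surjective x
    rw [h0 g]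
    exact congrFun hst g
  rintro ⟨a, ha⟩ ⟨b, hb⟩
  apply Subtype.ext
  simp only
  rw [uniq a ha, uniq b hb]

end Cfsg.Agent.S4765
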