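import Mathlib
import Cfsg.Statements.S4774
import Cfsg.Agent.H14.PSL2Char

namespace Cfsg.Agent.S4774

open Cfsg Cfsg.Agent.H14

theorem result (F : Type*) [Field F] [Fintype F] (t : ℕ) [Fact t.Prime] [CharP F t] (ht : t ≠ 2) (q : ℕ) (hq : Fintype.card F = q) (h5 : 5 < q) {S : Type*} [Group S] [Finite S] (hS : Nonempty (S ≃* Matrix.ProjectiveSpecialLinearGroup (Fin 2) F) ∨ Nonempty (S ≃* Matrix.SpecialLinearGroup (Fin 2) F)) : Cfsg.degreePrimes S = {r : ℕ | r.Prime ∧ r ∣ q * (q ^ 2 - 1)} ∧ ∀ r s : ℕ, (Cfsg.degreeGraph S).Adj r s ↔ (r ≠ s ∧ r.Prime ∧ s.Prime ∧ r ∣ q ^ 2 - 1 ∧ s ∣ q ^ 2 - 1 ∧ (r = 2 ∨ s = 2 ∨ (r ∣ q + 1 ∧ s ∣ q + 1) ∨ (r ∣ q - 1 ∧ s ∣ q - 1))) := by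
  classical
  subst hq
  obtain ⟨n, -, hn⟩ := FiniteField.card F t
  have htp : t.Prime := Fact.out
  have hodd : Odd (Fintype.card F) := by
    rw [hn]
    exact (htp.odd_of_ne_two ht).pow
  obtain ⟨k, hk⟩ := hodd
  have d1 : 2 ∣ Fintype.card F + 1 := ⟨k + 1, by omega⟩
  have d2 : 2 ∣ Fintype.card F - 1 := ⟨k, by omega⟩
  have h := cdLike_of_equiv (by omega) (by omega) hS
  refine ⟨h.degreePrimes_eq (by omega), fun r s => ?_⟩
  rw [h.adj_iff htp hn, sq_sub_one_eq _ (by omega)]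
  constructor
  · rintro ⟨hne, hr, hs, h⟩
    refine ⟨hne, hr, hs, ?_, ?_, Or.inr (Or.inr h)⟩
    · rcases h with ⟨a, -⟩ | ⟨a, -⟩
      · exact Dvd.dvd.mul_left a _
      · exact Dvd.dvd.mul_right a _
    · rcases h with ⟨-, a⟩ | ⟨-, a⟩
      · exact Dvd.dvd.mul_left a _
      · exact Dvd.dvd.mul_right a _
  · rintro ⟨hne, hr, hs, hr', hs', h⟩
    refine ⟨hne, hr, hs, ?_⟩
    rcases h with rfl | rfl | h | h
    · rcases (Nat.Prime.dvd_mul hs).mp hs' with a | a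
      · right; exact ⟨d2, a⟩
      · left; exact ⟨d1, a⟩
    · rcases (Nat.Prime.dvd_mul hr).mp hr' with a | a
      · right; exact ⟨a, d2⟩
      · left; exact ⟨a, d1⟩
    · left; exact h
    · right; exact h

end Cfsg.Agent.S4774
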