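import Cfsg.Statements.S4784
import Mathlib
import Cfsg.Agent.H25.FS
import Cfsg.Agent.H25.Codeg2
import Cfsg.Agent.CharLib.Ind

set_option autoImplicit false
open Cfsg

namespace Cfsg.Agent.S4784

open scoped ComplexConjugate

variable {G : Type*} [Group G] [Fintype G]

/-- multiplicity of `χ` in the permutation character -/
theorem mult_eq (H : Subgroup G) [Fintype H] (χ : Cfsg.IrrCharacter G) :
    Cfsg.classInner (Cfsg.indFun H (fun _ : H => (1 : ℂ))) (χ : G → ℂ) =
      (Nat.card H : ℂ)⁻¹ * conj (∑ h : H, (χ : G → ℂ) h) := by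
  classical
  rw [CharLib.H2.frobenius_reciprocity H _ (CharLib.isClassFunction_of_irr χ.2),
    CharLib.classInner_def, map_sum]
  simp

theorem mult_nat (H : Subgroup G) (χ : Cfsg.IrrCharacter G) :
    ∃ m : ℕ, Cfsg.classInner (Cfsg.indFun H (fun _ : H => (1 : ℂ))) (χ : G → ℂ) = m :=
  CharLib.classInner_char_nat
    (CharLib.H2.isCharacter_indFun H (CharLib.isCharacter_of_irr CharLib.isIrrCharacter_one))
    (CharLib.isCharacter_of_irr χ.2)

theorem sum_eq_mult (H : Subgroup G) [Fintype H] (χ : Cfsg.IrrCharacter G) :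
    ∑ h : H, (χ : G → ℂ) h = (Nat.card H : ℂ) *
      Cfsg.classInner (Cfsg.indFun H (fun _ : H => (1 : ℂ))) (χ : G → ℂ) := by
  obtain ⟨m, hm⟩ := mult_nat H χ
  have h1 := mult_eq H χ
  have h2 := congrArg conj h1
  rw [hm, map_natCast, map_mul, map_inv₀, map_natCast, Complex.conj_conj] at h2
  rw [hm, h2, ← mul_assoc, mul_inv_cancel₀ (CharLib.H2.card_subgroup_ne_zero H), one_mul]

open Classical in
/-- the number of elements whose square lies in `H` -/
theorem card_sq_mem (H : Subgroup G) :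
    ((Finset.univ.filter (fun u : G => u * u ∈ H)).card : ℂ) = (Nat.card H : ℂ) *
      ∑ χ : Cfsg.IrrCharacter G, H25.fsInd (χ : G → ℂ) *
        Cfsg.classInner (Cfsg.indFun H (fun _ : H => (1 : ℂ))) (χ : G → ℂ) := by
  have h1 : ((Finset.univ.filter (fun u : G => u * u ∈ H)).card : ℂ) =
      ∑ h : H, ((Finset.univ.filter (fun u : G => u * u = (h : G))).card : ℂ) := by
    rw [← Nat.cast_sum]
    congr 1
    rw [← Finset.card_biUnion]
    · congr 1
      ext u
      simp only [Finset.mem_filter, Finset.mem_univ, true_and, Finset.mem_biUnion]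
      constructor
      · intro hu; exact ⟨⟨u * u, hu⟩, rfl⟩
      · rintro ⟨h, hh⟩; rw [hh]; exact h.2
    · intro a _ b _ hab
      rw [Function.onFun, Finset.disjoint_left]
      intro u hu hu'
      simp only [Finset.mem_filter, Finset.mem_univ, true_and] at hu hu'
      exact hab (Subtype.ext (hu.symm.trans hu'))
  rw [h1]
  simp only [H25.card_sqrt_eq_sum]
  rw [Finset.sum_comm, Finset.mul_sum]
  refine Finset.sum_congr rfl fun χ _ => ?_
  rw [← Finset.mul_sum, sum_eq_mult]
  ring

/-- constituents of the permutation character contain the core in their kernel -/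
theorem core_le_ker (H : Subgroup G) (χ : Cfsg.IrrCharacter G)
    (hχ : Cfsg.classInner (Cfsg.indFun H (fun _ : H => (1 : ℂ))) (χ : G → ℂ) ≠ 0) :
    H.normalCore ≤ H25.kerSub χ := by
  classical
  by_contra hle
  apply hχ
  have hex : ∃ x ∈ H.normalCore, (χ : G → ℂ) x ≠ (χ : G → ℂ) 1 := by
    by_contra hcon
    push Not at hcon
    exact hle (fun x hx => hcon x hx)
  have h0 := H25.sum_coset_eq_zero H.normalCore χ hex
  have h1 : ∑ h : H, ∑ x : G, (if x ∈ H.normalCore then (χ : G → ℂ) (h * x) else 0) = 0 :=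
    Finset.sum_eq_zero fun h _ => h0 h
  rw [Finset.sum_comm] at h1
  have h2 : ∀ x : G, ∑ h : H, (if x ∈ H.normalCore then (χ : G → ℂ) (h * x) else 0) =
      if x ∈ H.normalCore then ∑ h : H, (χ : G → ℂ) h else 0 := by
    intro x
    split_ifs with hx
    · exact Fintype.sum_equiv (Equiv.mulRight (⟨x, H.normalCore_le hx⟩ : H)) _ _ (fun h => rfl)
    · simp
  simp only [h2] at h1
  rw [← Finset.sum_filter, Finset.sum_const, nsmul_eq_mul] at h1
  have hc : (Finset.univ.filter (fun x => x ∈ H.normalCore)).card ≠ 0 := by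
    rw [Finset.card_ne_zero]
    exact ⟨1, by simp [Subgroup.one_mem]⟩
  have h3 : ∑ h : H, (χ : G → ℂ) h = 0 := by
    rcases mul_eq_zero.1 h1 with h4 | h4
    · exact absurd (by exact_mod_cast h4) hc
    · exact h4
  rw [mult_eq, h3, map_zero, mul_zero]

/-- if `N ≤ ker χ` has odd index then the indicator of `χ` is `[χ, 1]` -/
theorem fsInd_of_odd (N : Subgroup G) [N.Normal] (hodd : Odd N.index) (χ : Cfsg.IrrCharacter G)
    (hN : N ≤ H25.kerSub χ) :
    H25.fsInd (χ : G → ℂ) = Cfsg.classInner (χ : G → ℂ) (fun _ => 1) := by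
  classical
  have : Fintype (G ⧸ N) := Fintype.ofFinite _
  obtain ⟨χ', hχ'⟩ := H25.exists_quotient_irr χ N hN
  unfold H25.fsInd
  rw [CharLib.classInner_def]
  congr 1
  simp only [map_one, mul_one]
  rw [CharLib.L.sum_eq_card_mul_sum_quotient N (fun s => (χ : G → ℂ) (s * s)) (by
      intro x y hxy
      show (χ : G → ℂ) (x * x) = (χ : G → ℂ) (y * y)
      rw [← hχ', ← hχ', QuotientGroup.mk_mul, QuotientGroup.mk_mul, hxy]),
    CharLib.L.sum_eq_card_mul_sum_quotient N (fun s => (χ : G → ℂ) s) (by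
      intro x y hxy
      show (χ : G → ℂ) x = (χ : G → ℂ) y
      rw [← hχ', ← hχ', hxy])]
  congr 1
  have hc : (Nat.card (G ⧸ N)).Coprime 2 := by
    rw [← Subgroup.index_eq_card]
    exact Nat.Coprime.symm (Nat.coprime_two_left.2 hodd)
  have e1 : ∀ q : G ⧸ N, (χ : G → ℂ) (q.out * q.out) = (χ' : G ⧸ N → ℂ) (q ^ 2) := by
    intro q
    rw [← hχ', QuotientGroup.mk_mul, QuotientGroup.out_eq', pow_two]
  have e2 : ∀ q : G ⧸ N, (χ : G → ℂ) q.out = (χ' : G ⧸ N → ℂ) q := by
    intro q
    rw [← hχ', QuotientGroup.out_eq']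
  simp only [e1, e2]
  exact Fintype.sum_equiv (powCoprime hc) _ _ (fun q => rfl)

/-- Let H be a subgroup of the finite group G and consider the permutation character of G on the cosets of H (the function induced from the principal character of H). Then exactly one irreducible constituent of it is real-valued with Frobenius–Schur indicator +1 (namely the principal character) if and only if the normal core of H has odd index in G. -/
theorem result {G : Type*} [Group G] [Fintype G] (H : Subgroup G) : Nat.card {χ : Cfsg.IrrCharacter G // Cfsg.classInner (Cfsg.indFun H (fun _ : H => (1 : ℂ))) (χ : G → ℂ) ≠ 0 ∧ (∀ g : G, (starRingEnd ℂ) ((χ : G → ℂ) g) = (χ : G → ℂ) g) ∧ (Nat.card G : ℂ)⁻¹ * ∑ g : G, (χ : G → ℂ) (g * g) = 1} = 1 ↔ Odd H.normalCore.index := by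
  classical
  let χ₀ : Cfsg.IrrCharacter G := ⟨fun _ => 1, CharLib.isIrrCharacter_one⟩
  have hm0 : Cfsg.classInner (Cfsg.indFun H (fun _ : H => (1 : ℂ))) (χ₀ : G → ℂ) = 1 := by
    rw [mult_eq]
    simp only [χ₀, Finset.sum_const, Finset.card_univ, nsmul_eq_mul, mul_one, map_natCast]
    rw [← Nat.card_eq_fintype_card]
    exact inv_mul_cancel₀ (CharLib.H2.card_subgroup_ne_zero H)
  have hmem0 : Cfsg.classInner (Cfsg.indFun H (fun _ : H => (1 : ℂ))) (χ₀ : G → ℂ) ≠ 0 ∧
      (∀ g : G, (starRingEnd ℂ) ((χ₀ : G → ℂ) g) = (χ₀ : G → ℂ) g) ∧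
      (Nat.card G : ℂ)⁻¹ * ∑ g : G, (χ₀ : G → ℂ) (g * g) = 1 := by
    refine ⟨by rw [hm0]; exact one_ne_zero, fun g => by simp [χ₀], H25.fsInd_one⟩
  rw [Nat.card_eq_one_iff_unique]
  constructor
  · rintro ⟨hsub, -⟩
    by_contra hodd
    rw [Nat.not_odd_iff_even] at hodd
    -- every member is trivial
    have hall : ∀ χ : Cfsg.IrrCharacter G,
        Cfsg.classInner (Cfsg.indFun H (fun _ : H => (1 : ℂ))) (χ : G → ℂ) ≠ 0 →
        H25.fsInd (χ : G → ℂ) = 1 → χ = χ₀ := by
      intro χ h1 h2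
      have hreal : ∀ g : G, (starRingEnd ℂ) ((χ : G → ℂ) g) = (χ : G → ℂ) g := by
        intro g
        rw [Complex.conj_eq_iff_im]
        by_contra hne
        have := (H25.fsInd_eq_zero_iff χ).2 ⟨g, hne⟩
        rw [this] at h2
        exact zero_ne_one h2
      have := hsub.elim ⟨χ, h1, hreal, h2⟩ ⟨χ₀, hmem0⟩
      exact congrArg Subtype.val this
    have hcount := card_sq_mem H
    rw [← Finset.add_sum_erase Finset.univ _ (Finset.mem_univ χ₀), hm0] at hcount
    have hfs0 : H25.fsInd (χ₀ : G → ℂ) = 1 := H25.fsInd_one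
    rw [hfs0, mul_one] at hcount
    obtain ⟨K, hK⟩ : ∃ K : ℕ, ∑ χ ∈ Finset.univ.erase χ₀, H25.fsInd (χ : G → ℂ) *
        Cfsg.classInner (Cfsg.indFun H (fun _ : H => (1 : ℂ))) (χ : G → ℂ) = -(K : ℂ) := by
      apply Finset.sum_induction _ (fun z : ℂ => ∃ K : ℕ, z = -(K : ℂ))
      · rintro _ _ ⟨a, rfl⟩ ⟨b, rfl⟩
        exact ⟨a + b, by push_cast; ring⟩
      · exact ⟨0, by simp⟩
      · intro χ hχ
        have hne : χ ≠ χ₀ := Finset.ne_of_mem_erase hχ
        obtain ⟨m, hm⟩ := mult_nat H χ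
        rw [hm]
        rcases H25.fsInd_cases χ with h | h | h
        · exact ⟨0, by rw [h]; simp⟩
        · by_cases hm0' : m = 0
          · exact ⟨0, by rw [hm0']; simp⟩
          · exfalso
            apply hne
            apply hall χ _ h
            rw [hm]; exact_mod_cast hm0'
        · exact ⟨m, by rw [h]; ring⟩
    rw [hK] at hcount
    have hle : (Finset.univ.filter (fun u : G => u * u ∈ H)).card + Nat.card H * K = Nat.card H := by
      have : (((Finset.univ.filter (fun u : G => u * u ∈ H)).card + Nat.card H * K : ℕ) : ℂ) =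
          ((Nat.card H : ℕ) : ℂ) := by
        push_cast
        rw [hcount]; ring
      exact_mod_cast this
    -- an element outside H with square in H
    have : Fact (Nat.Prime 2) := ⟨Nat.prime_two⟩
    obtain ⟨t, ht⟩ := exists_prime_orderOf_dvd_card' (G := G ⧸ H.normalCore) 2
      (by rw [← Subgroup.index_eq_card]; exact hodd.two_dvd)
    obtain ⟨t, rfl⟩ := QuotientGroup.mk_surjective t
    have ht1 : t ∉ H.normalCore := by
      intro h0
      rw [(QuotientGroup.eq_one_iff t).2 h0, orderOf_one] at ht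
      omega
    have ht2 : t * t ∈ H.normalCore := by
      rw [← QuotientGroup.eq_one_iff, QuotientGroup.mk_mul, ← pow_two, ← ht]
      exact pow_orderOf_eq_one _
    have hy : ∃ y : G, y * t * y⁻¹ ∉ H := by
      by_contra hcon
      push Not at hcon
      exact ht1 hcon
    obtain ⟨y, hy⟩ := hy
    have hy2 : (y * t * y⁻¹) * (y * t * y⁻¹) ∈ H := by
      have h1 := ht2 y
      have e : y * (t * t) * y⁻¹ = (y * t * y⁻¹) * (y * t * y⁻¹) := by group
      rwa [e] at h1
    have hlt : Nat.card H < (Finset.univ.filter (fun u : G => u * u ∈ H)).card := by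
      have h1 : Nat.card H = (Finset.univ.filter (fun u : G => u ∈ H)).card := by
        rw [Nat.card_eq_fintype_card, Fintype.card_subtype]
      rw [h1]
      apply Finset.card_lt_card
      rw [Finset.ssubset_iff_of_subset]
      · exact ⟨y * t * y⁻¹, by simpa using hy2, by simpa using hy⟩
      · intro u hu
        simp only [Finset.mem_filter, Finset.mem_univ, true_and] at hu ⊢
        exact H.mul_mem hu hu
    omega
  · intro hodd
    refine ⟨⟨?_⟩, ⟨⟨χ₀, hmem0⟩⟩⟩
    have hall : ∀ a : {χ : Cfsg.IrrCharacter G // Cfsg.classInner (Cfsg.indFun H (fun _ : H => (1 : ℂ))) (χ : G → ℂ) ≠ 0 ∧ (∀ g : G, (starRingEnd ℂ) ((χ : G → ℂ) g) = (χ : G → ℂ) g) ∧ (Nat.card G : ℂ)⁻¹ * ∑ g : G, (χ : G → ℂ) (g * g) = 1}, a.1 = χ₀ := by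
      rintro ⟨χ, h1, h2, h3⟩
      by_contra hne
      have h4 := fsInd_of_odd H.normalCore hodd χ (core_le_ker H χ h1)
      rw [CharLib.classInner_irr_ne χ.2 CharLib.isIrrCharacter_one
        (fun he => hne (Subtype.ext he))] at h4
      have h5 : H25.fsInd (χ : G → ℂ) = 1 := h3
      rw [h4] at h5
      exact zero_ne_one h5
    intro a b
    exact Subtype.ext ((hall a).trans (hall b).symm)

end Cfsg.Agent.S4784
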