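import Cfsg.Statements.S4796
import Mathlib
import Cfsg.Agent.H25.PrimeCodeg

set_option autoImplicit false
open Cfsg

namespace Cfsg.Agent.S4796

/-- Let G be a finite group with a faithful irreducible complex character χ whose codegree #G / χ(1) is a prime p (for a faithful character the kernel is trivial, so the codegree is #G / χ(1)). Then either G is cyclic of order p, or G is a Frobenius group whose Frobenius kernel has order p: some proper non-trivial subgroup H satisfies H ∩ gHg⁻¹ = 1 for every element g outside H, and the set of elements lying in no conjugate of H, together with the identity, has exactly p elements. -/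
theorem result {G : Type*} [Group G] [Finite G] (χ : Cfsg.IrrCharacter G) (hfaith : ∀ g : G, (χ : G → ℂ) g = (χ : G → ℂ) 1 → g = 1) (p : ℕ) (hp : p.Prime) (hcod : Nat.card G = p * Cfsg.charDegree (χ : G → ℂ)) : (IsCyclic G ∧ Nat.card G = p) ∨ ∃ H : Subgroup G, Cfsg.IsFrobeniusComplement H ∧ Nat.card ↥(Cfsg.frobeniusKernel H) = p := by
  classical
  have : Fact p.Prime := ⟨hp⟩
  obtain ⟨P, hPn, hPcard, hPidx, hC⟩ := H25.exists_normal_prime_of_card_eq χ hp hcod
  by_cases htop : P = ⊤
  · left
    have h1 : Nat.card G = p := by
      rw [← hPcard, htop]; exact (Subgroup.card_top).symm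
    exact ⟨isCyclic_of_prime_card h1, h1⟩
  · right
    have hdp := H25.deg_lt_of_card_eq χ hp hcod
    have hd0 := H25.charDegree_pos χ
    have hcop : (Nat.card P).Coprime P.index := by
      rw [hPcard, hPidx]
      exact (Nat.Prime.coprime_iff_not_dvd hp).2
        (fun h => absurd (Nat.le_of_dvd hd0 h) (not_le.2 hdp))
    obtain ⟨H, hH, hK⟩ := H25.frobenius_of_prime_normal P hp hPcard hcop htop hC
    refine ⟨H, hH, ?_⟩
    rw [hK]
    exact hPcard

end Cfsg.Agent.S4796
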