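import Cfsg.Statements.S4797
import Mathlib
import Cfsg.Agent.H25.Codeg2

set_option autoImplicit false
open Cfsg

namespace Cfsg.Agent.S4797

/-- The codegree of an irreducible complex character χ of a finite group G is [G : ker χ] / χ(1), where ker χ is the set of elements at which χ takes the value χ(1). A non-trivial finite group is perfect if and only if no irreducible complex character of it has prime codegree. -/
theorem result {G : Type*} [Group G] [Finite G] [Nontrivial G] : commutator G = ⊤ ↔ ∀ χ : Cfsg.IrrCharacter G, ¬ ((Nat.card G / (Nat.card {g : G // (χ : G → ℂ) g = (χ : G → ℂ) 1} * Cfsg.charDegree (χ : G → ℂ)))).Prime := by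
  classical
  constructor
  · intro hperf χ hprime
    set p := (Nat.card G / (Nat.card {g : G // (χ : G → ℂ) g = (χ : G → ℂ) 1} *
      Cfsg.charDegree (χ : G → ℂ))) with hp
    obtain ⟨χ', hχ'⟩ := H25.exists_quotient_irr χ (H25.kerSub χ) le_rfl
    have hdeg : Cfsg.charDegree (χ' : G ⧸ H25.kerSub χ → ℂ) = Cfsg.charDegree (χ : G → ℂ) := by
      unfold Cfsg.charDegree
      rw [← hχ' 1]; rfl
    have hcard : Nat.card (G ⧸ H25.kerSub χ) =
        p * Cfsg.charDegree (χ' : G ⧸ H25.kerSub χ → ℂ) := by
      rw [hdeg, hp, H25.codeg_mul, Subgroup.index_eq_card]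
    obtain ⟨P, hPn, hPcard, hPidx, hC⟩ := H25.exists_normal_prime_of_card_eq χ' hprime hcard
    have : Fact p.Prime := ⟨hprime⟩
    have hcyc : IsCyclic P := isCyclic_of_prime_card hPcard
    have hperf' : commutator (G ⧸ H25.kerSub χ) = ⊤ := by
      have h1 := Subgroup.map_commutator (⊤ : Subgroup G) ⊤ (QuotientGroup.mk' (H25.kerSub χ))
      rw [Subgroup.map_top_of_surjective _ (QuotientGroup.mk'_surjective _)] at h1
      rw [commutator_def, ← h1, ← commutator_def, hperf,
        Subgroup.map_top_of_surjective _ (QuotientGroup.mk'_surjective _)]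
    have hle : commutator (G ⧸ H25.kerSub χ) ≤ P := by
      rw [commutator_eq_closure, Subgroup.closure_le]
      rintro _ ⟨a, b, rfl⟩
      exact hC _ (fun y hy => H25.commutator_comm_of_cyclic_normal P a b y hy)
    have hPtop : P = ⊤ := by rw [← top_le_iff, ← hperf']; exact hle
    have hbot : commutator (G ⧸ H25.kerSub χ) ≤ ⊥ := by
      rw [commutator_eq_closure, Subgroup.closure_le]
      rintro _ ⟨a, b, rfl⟩
      have ha : a ∈ P := by rw [hPtop]; exact Subgroup.mem_top a
      have hb : b ∈ P := by rw [hPtop]; exact Subgroup.mem_top b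
      have h1 := hcyc.commGroup.mul_comm (⟨a, ha⟩ : P) ⟨b, hb⟩
      have h2 : a * b = b * a := congrArg Subtype.val h1
      rw [SetLike.mem_coe, Subgroup.mem_bot, commutatorElement_def, h2]
      group
    rw [hperf', top_le_iff] at hbot
    rw [hPtop, ← hbot] at hPcard
    simp at hPcard
    exact hprime.one_lt.ne hPcard
  · intro h
    by_contra hne
    obtain ⟨p, μ, hp, hidx⟩ := H25.exists_hom_prime_index hne
    let χ : Cfsg.IrrCharacter G := ⟨fun g => (μ g : ℂ), CharLib.isIrrCharacter_of_hom μ⟩
    apply h χ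
    have h1 := H25.codeg_mul χ
    have h2 : Cfsg.charDegree (χ : G → ℂ) = 1 := H25.charDegree_of_apply_one (by simp [χ])
    have h3 : H25.kerSub χ = μ.ker := by
      ext g
      rw [H25.mem_kerSub, MonoidHom.mem_ker]
      simp [χ]
    rw [h2, mul_one, h3, hidx] at h1
    rw [h2, h1]
    exact hp

end Cfsg.Agent.S4797
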