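import Cfsg.Statements.S4798
import Mathlib
import Cfsg.Agent.H25.Codeg
import Cfsg.Agent.CharLib.Ind
import Cfsg.Agent.CharLib.L.Linear

set_option autoImplicit false
open Cfsg

namespace Cfsg.Agent.S4798

/-- Let p be a prime and χ a faithful irreducible complex character of the finite group G (χ(g) = χ(1) only for g = 1), so that its codegree is #G / χ(1). Then #G / χ(1) is a power of p if and only if χ is induced from a character of a Sylow p-subgroup of G. -/
theorem result {G : Type*} [Group G] [Fintype G] (p : ℕ) [Fact p.Prime] (χ : Cfsg.IrrCharacter G) (hfaith : ∀ g : G, (χ : G → ℂ) g = (χ : G → ℂ) 1 → g = 1) : (∃ k : ℕ, Nat.card G = p ^ k * Cfsg.charDegree (χ : G → ℂ)) ↔ ∃ (P : Sylow p G) (θ : ↥(P : Subgroup G) → ℂ), Cfsg.IsCharacter ↥(P : Subgroup G) θ ∧ (χ : G → ℂ) = Cfsg.indFun (P : Subgroup G) θ := by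
  classical
  have hp : p.Prime := Fact.out
  constructor
  · rintro ⟨k, hk⟩
    obtain ⟨P⟩ : Nonempty (Sylow p G) := inferInstance
    set m := (P : Subgroup G).index with hm
    have hpm : ¬ p ∣ m := P.not_dvd_index
    obtain ⟨a, hPa⟩ : ∃ a, Nat.card (P : Subgroup G) = p ^ a := ⟨_, P.card_eq_multiplicity⟩
    have hG : Nat.card G = p ^ a * m := by rw [← hPa, hm, Subgroup.card_mul_index]
    set d := Cfsg.charDegree (χ : G → ℂ) with hd
    have hcop : ∀ i, Nat.Coprime (p ^ i) m := fun i =>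
      Nat.Coprime.pow_left _ ((Nat.Prime.coprime_iff_not_dvd hp).2 hpm)
    have hka : k ≤ a := by
      have h1 : p ^ k ∣ p ^ a * m := by rw [← hG, hk]; exact dvd_mul_right _ _
      have h2 := (hcop k).dvd_of_dvd_mul_right h1
      exact (Nat.pow_dvd_pow_iff_le_right hp.one_lt).1 h2
    obtain ⟨j, rfl⟩ : ∃ j, a = k + j := ⟨a - k, by omega⟩
    have hdj : d = p ^ j * m := by
      have h1 : p ^ k * d = p ^ k * (p ^ j * m) := by rw [← hk, hG, pow_add, mul_assoc]
      exact Nat.eq_of_mul_eq_mul_left (pow_pos hp.pos k) h1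
    -- decompose the restriction
    have hres : Cfsg.IsCharacter ↥(P : Subgroup G) (fun x : ↥(P : Subgroup G) => (χ : G → ℂ) x) :=
      CharLib.isCharacter_restrict (CharLib.isCharacter_of_irr χ.2) _
    obtain ⟨mult, hmult, hmult2⟩ := CharLib.H2.exists_mult hres
    have hdsum : d = ∑ θ : Cfsg.IrrCharacter ↥(P : Subgroup G),
        mult θ * Cfsg.charDegree (θ : ↥(P : Subgroup G) → ℂ) := by
      have h1 := congrFun hmult 1
      simp only [Finset.sum_apply, Pi.smul_apply, smul_eq_mul, OneMemClass.coe_one] at h1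
      rw [H25.charDegree_irr χ] at h1
      have h2 : ((d : ℕ) : ℂ) = ((∑ θ : Cfsg.IrrCharacter ↥(P : Subgroup G),
          mult θ * Cfsg.charDegree (θ : ↥(P : Subgroup G) → ℂ) : ℕ) : ℂ) := by
        push_cast
        rw [h1]
        exact Finset.sum_congr rfl fun θ _ => by rw [H25.charDegree_irr θ]
      exact_mod_cast h2
    have hex : ∃ θ : Cfsg.IrrCharacter ↥(P : Subgroup G), mult θ ≠ 0 ∧
        ¬ p ^ (j + 1) ∣ Cfsg.charDegree (θ : ↥(P : Subgroup G) → ℂ) := by
      by_contra hcon
      push Not at hcon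
      have h1 : p ^ (j + 1) ∣ d := by
        rw [hdsum]
        apply Finset.dvd_sum
        intro θ _
        by_cases h0 : mult θ = 0
        · rw [h0, zero_mul]; exact dvd_zero _
        · exact (hcon θ h0).mul_left _
      rw [hdj, pow_succ] at h1
      exact hpm (Nat.dvd_of_mul_dvd_mul_left (pow_pos hp.pos j) h1)
    obtain ⟨θ, hθ0, hθp⟩ := hex
    obtain ⟨i, hi, hθi⟩ : ∃ i, i ≤ k + j ∧ Cfsg.charDegree (θ : ↥(P : Subgroup G) → ℂ) = p ^ i := by
      obtain ⟨n, hn0, hn1, hn2⟩ := CharLib.L.irr_degree_dvd θ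
      rw [H25.charDegree_of_apply_one hn1]
      rw [hPa] at hn2
      exact (Nat.dvd_prime_pow hp).1 hn2
    have hij : i ≤ j := by
      by_contra hlt
      apply hθp
      rw [hθi]
      exact pow_dvd_pow p (by omega)
    refine ⟨P, (θ : ↥(P : Subgroup G) → ℂ), CharLib.isCharacter_of_irr θ.2, ?_⟩
    have hind : Cfsg.IsCharacter G (Cfsg.indFun (P : Subgroup G) (θ : ↥(P : Subgroup G) → ℂ)) :=
      CharLib.H2.isCharacter_indFun _ (CharLib.isCharacter_of_irr θ.2)
    have hfr := CharLib.H2.frobenius_reciprocity (P : Subgroup G) (θ : ↥(P : Subgroup G) → ℂ)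
      (CharLib.isClassFunction_of_irr χ.2)
    have hne : Cfsg.classInner (Cfsg.indFun (P : Subgroup G) (θ : ↥(P : Subgroup G) → ℂ))
        (χ : G → ℂ) ≠ 0 := by
      rw [hfr, ← CharLib.classInner_conj_symm, hmult2 θ, map_natCast]
      exact_mod_cast hθ0
    have hsub := CharLib.H2.isCharacter_sub_irr hind χ.2 hne
    obtain ⟨n, ρ, hρ⟩ := hsub
    have h1 : (n : ℂ) = (m * p ^ i : ℕ) - (p ^ j * m : ℕ) := by
      have h2 := congrFun hρ 1
      rw [Representation.char_one, Pi.sub_apply, CharLib.H2.indFun_apply_one,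
        H25.charDegree_irr χ, H25.charDegree_irr θ, hθi, ← hd, hdj] at h2
      simp only [Module.finrank_fin_fun] at h2
      rw [h2]; push_cast; ring
    have h2 : n + p ^ j * m = m * p ^ i := by
      have : ((n + p ^ j * m : ℕ) : ℂ) = ((m * p ^ i : ℕ) : ℂ) := by
        push_cast at h1 ⊢
        rw [h1]; ring
      exact_mod_cast this
    have h3 : p ^ i ≤ p ^ j := Nat.pow_le_pow_right hp.pos hij
    have hn0 : n = 0 := by
      have : m * p ^ i ≤ p ^ j * m := by rw [mul_comm]; exact Nat.mul_le_mul_right _ h3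
      omega
    subst hn0
    have h4 : ρ.character = 0 := by
      funext g
      have h5 := CharLib.norm_character_le ρ g
      simp only [Module.finrank_fin_fun, Nat.cast_zero] at h5
      exact norm_le_zero_iff.1 h5
    rw [h4] at hρ
    exact (sub_eq_zero.1 hρ.symm).symm
  · rintro ⟨P, θ, hθ, hχ⟩
    obtain ⟨t, ht⟩ := CharLib.isCharacter_apply_one hθ
    have h1 : Cfsg.charDegree (χ : G → ℂ) = (P : Subgroup G).index * t := by
      apply H25.charDegree_of_apply_one
      rw [hχ, CharLib.H2.indFun_apply_one, ht]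
      push_cast; rfl
    obtain ⟨n, hn0, hn1, hn2⟩ := CharLib.L.irr_degree_dvd χ
    rw [← H25.charDegree_of_apply_one hn1, h1, ← (P : Subgroup G).index_mul_card] at hn2
    have hidx : 0 < (P : Subgroup G).index := Nat.pos_of_ne_zero Subgroup.index_ne_zero_of_finite
    have h2 : t ∣ Nat.card (P : Subgroup G) := Nat.dvd_of_mul_dvd_mul_left hidx hn2
    rw [P.card_eq_multiplicity] at h2
    obtain ⟨i, hi, rfl⟩ := (Nat.dvd_prime_pow hp).1 h2
    obtain ⟨a, ha⟩ : ∃ a, a = (Nat.card G).factorization p := ⟨_, rfl⟩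
    rw [← ha] at hi
    refine ⟨a - i, ?_⟩
    rw [h1, ← (P : Subgroup G).index_mul_card, P.card_eq_multiplicity, ← ha]
    have : p ^ a = p ^ (a - i) * p ^ i := by
      rw [← pow_add]; congr 1; omega
    rw [this]; ring

end Cfsg.Agent.S4798
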