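import Cfsg.Statements.S4801
import Mathlib
import Cfsg.Agent.H25.Codeg

set_option autoImplicit false
open Cfsg

namespace Cfsg.Agent.S4801

/-- The codegree of an irreducible complex character χ of a finite group G is [G : ker χ] / χ(1), where ker χ is the set of elements at which χ takes the value χ(1). Let S be a finite simple group and G a finite group such that every codegree of an irreducible character of S is a codegree of an irreducible character of G. Then the order of S divides the order of G. -/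
theorem result {S : Type*} [Group S] [Finite S] (hS : IsSimpleGroup S) {G : Type*} [Group G] [Finite G] (hsub : ∀ χ : Cfsg.IrrCharacter S, ∃ ψ : Cfsg.IrrCharacter G, (Nat.card S / (Nat.card {g : S // (χ : S → ℂ) g = (χ : S → ℂ) 1} * Cfsg.charDegree (χ : S → ℂ))) = (Nat.card G / (Nat.card {g : G // (ψ : G → ℂ) g = (ψ : G → ℂ) 1} * Cfsg.charDegree (ψ : G → ℂ)))) : Nat.card S ∣ Nat.card G := by
  classical
  have hS0 : Nat.card S ≠ 0 := Nat.card_pos.ne'
  have hG0 : Nat.card G ≠ 0 := Nat.card_pos.ne'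
  rw [← Nat.factorization_prime_le_iff_dvd hS0 hG0]
  intro p hp
  by_cases hpS : p ∣ Nat.card S
  swap
  · rw [Nat.factorization_eq_zero_of_not_dvd hpS]; exact Nat.zero_le _
  -- a nontrivial character of degree prime to p
  have hex : ∃ χ : Cfsg.IrrCharacter S, (χ : S → ℂ) ≠ (fun _ => 1) ∧
      ¬ p ∣ Cfsg.charDegree (χ : S → ℂ) := by
    by_contra hcon
    push Not at hcon
    have h1 := H25.sum_sq_of_le_ker (⊥ : Subgroup S)
    simp only [bot_le, if_true, Subgroup.index_bot] at h1
    let χ₀ : Cfsg.IrrCharacter S := ⟨fun _ => 1, CharLib.isIrrCharacter_one⟩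
    rw [← Finset.add_sum_erase Finset.univ _ (Finset.mem_univ χ₀)] at h1
    have h2 : Cfsg.charDegree (χ₀ : S → ℂ) = 1 := H25.charDegree_of_apply_one (by simp [χ₀])
    have h3 : p ∣ ∑ χ ∈ Finset.univ.erase χ₀, Cfsg.charDegree (χ : S → ℂ) ^ 2 := by
      apply Finset.dvd_sum
      intro χ hχ
      have hne : χ ≠ χ₀ := Finset.ne_of_mem_erase hχ
      exact dvd_pow (hcon χ (fun h0 => hne (Subtype.ext h0))) two_ne_zero
    rw [h2, one_pow] at h1
    rw [← h1] at hpS
    have h4 : p ∣ 1 := (Nat.dvd_add_left h3).1 hpS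
    exact hp.one_lt.ne' (Nat.dvd_one.1 h4)
  obtain ⟨χ, hχ1, hχp⟩ := hex
  have hker : H25.kerSub χ = ⊥ := by
    rcases hS.eq_bot_or_eq_top_of_normal _ (H25.kerSub_normal χ) with h | h
    · exact h
    · exact absurd (H25.eq_one_of_kerSub_eq_top χ h) hχ1
  have h1 := H25.codeg_mul χ
  rw [hker, Subgroup.index_bot] at h1
  obtain ⟨ψ, hψ⟩ := hsub χ
  have h2 : p ^ (Nat.card S).factorization p ∣
      (Nat.card S / (Nat.card {g : S // (χ : S → ℂ) g = (χ : S → ℂ) 1} *
        Cfsg.charDegree (χ : S → ℂ))) * Cfsg.charDegree (χ : S → ℂ) := by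
    rw [h1]; exact Nat.ordProj_dvd _ _
  have hcop : Nat.Coprime (p ^ (Nat.card S).factorization p) (Cfsg.charDegree (χ : S → ℂ)) :=
    Nat.Coprime.pow_left _ ((Nat.Prime.coprime_iff_not_dvd hp).2 hχp)
  have h3 := hcop.dvd_of_dvd_mul_right h2
  rw [hψ] at h3
  exact (hp.pow_dvd_iff_le_factorization hG0).1 (h3.trans (H25.codeg_dvd_card ψ))

end Cfsg.Agent.S4801
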