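import Cfsg.Statements.S4802
import Mathlib
import Cfsg.Agent.H25.NormalSum

set_option autoImplicit false
open Cfsg

namespace Cfsg.Agent.S4802

/-- Let N < M be normal subgroups of the finite group G and g ∈ M ∖ N. Then the conjugacy class of g is exactly M ∖ N if and only if every irreducible complex character of G whose kernel contains N takes the same value at all elements of M ∖ N, and every irreducible complex character of G whose kernel does not contain N vanishes at g. -/
theorem result {G : Type*} [Group G] [Finite G] (N M : Subgroup G) [N.Normal] [M.Normal] (hNM : N < M) (g : G) (hgM : g ∈ M) (hgN : g ∉ N) : {h : G | IsConj g h} = (M : Set G) \ (N : Set G) ↔ ((∀ χ : Cfsg.IrrCharacter G, (∀ x ∈ N, (χ : G → ℂ) x = (χ : G → ℂ) 1) → ∀ x ∈ M, x ∉ N → ∀ y ∈ M, y ∉ N → (χ : G → ℂ) x = (χ : G → ℂ) y) ∧ (∀ χ : Cfsg.IrrCharacter G, (∃ x ∈ N, (χ : G → ℂ) x ≠ (χ : G → ℂ) 1) → (χ : G → ℂ) g = 0)) := by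
  classical
  cases nonempty_fintype G
  have hNn : N.Normal := inferInstance
  have hMn : M.Normal := inferInstance
  constructor
  · intro H
    have hconj : ∀ x ∈ M, x ∉ N → IsConj g x := by
      intro x hx hxN
      have : x ∈ (M : Set G) \ (N : Set G) := ⟨hx, hxN⟩
      rw [← H] at this
      exact this
    refine ⟨?_, ?_⟩
    · intro χ _ x hx hxN y hy hyN
      have hcl := CharLib.isClassFunction_of_irr χ.2
      rw [← CharLib.isClassFunction_apply_of_isConj hcl (hconj x hx hxN),
        ← CharLib.isClassFunction_apply_of_isConj hcl (hconj y hy hyN)]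
    · intro χ hχ
      have hcl := CharLib.isClassFunction_of_irr χ.2
      have h1 := H25.sum_coset_eq_zero N χ hχ g
      have h2 : ∀ x : G, (if x ∈ N then (χ : G → ℂ) (g * x) else 0) =
          (if x ∈ N then (χ : G → ℂ) g else 0) := by
        intro x
        split_ifs with hx
        · have hm : g * x ∈ M := M.mul_mem hgM (hNM.le hx)
          have hn : g * x ∉ N := by
            intro h
            apply hgN
            have := N.mul_mem h (N.inv_mem hx)
            simpa using this
          exact (CharLib.isClassFunction_apply_of_isConj hcl (hconj _ hm hn)).symm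
        · rfl
      simp only [h2] at h1
      rw [← Finset.sum_filter, Finset.sum_const, nsmul_eq_mul] at h1
      rcases mul_eq_zero.1 h1 with h | h
      · exfalso
        have h3 : (Finset.univ.filter (fun x => x ∈ N)).card ≠ 0 := by
          apply Finset.card_ne_zero_of_mem (a := 1)
          simp [N.one_mem]
        exact h3 (by exact_mod_cast h)
      · exact h
  · rintro ⟨H1, H2⟩
    ext h
    constructor
    · intro hc
      obtain ⟨c, rfl⟩ := isConj_iff.1 hc
      refine ⟨hMn.conj_mem g hgM c, ?_⟩
      intro hn
      apply hgN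
      have := hNn.conj_mem _ hn c⁻¹
      simpa [mul_assoc] using this
    · rintro ⟨hM, hN⟩
      by_contra hc
      have hc' : ¬ IsConj g h := hc
      have h1 := CharLib.sum_irr_mul_conj_of_not_isConj hc'
      have h2 := CharLib.sum_irr_mul_conj_self g
      have h3 : ∀ χ : IrrCharacter G, (χ : G → ℂ) g * (starRingEnd ℂ) ((χ : G → ℂ) h) =
          (χ : G → ℂ) g * (starRingEnd ℂ) ((χ : G → ℂ) g) := by
        intro χ
        by_cases hk : ∀ x ∈ N, (χ : G → ℂ) x = (χ : G → ℂ) 1
        · rw [H1 χ hk h hM hN g hgM hgN]
        · push Not at hk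
          rw [H2 χ hk, zero_mul, zero_mul]
      simp only [h3] at h1
      rw [h1] at h2
      have h4 : Nat.card (Subgroup.centralizer ({g} : Set G)) ≠ 0 := Nat.card_pos.ne'
      exact h4 (by exact_mod_cast h2.symm)

end Cfsg.Agent.S4802
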