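import Cfsg.Statements.S4808
import Mathlib
import Cfsg.Agent.H25.Codeg

set_option autoImplicit false
open Cfsg

namespace Cfsg.Agent.S4808

/-- The codegree of an irreducible complex character χ of a finite group G is [G : ker χ] / χ(1), where ker χ is the set of elements at which χ takes the value χ(1). A prime divides the order of G if and only if it divides the codegree of some irreducible complex character of G. -/
theorem result {G : Type*} [Group G] [Finite G] (p : ℕ) (hp : p.Prime) : p ∣ Nat.card G ↔ ∃ χ : Cfsg.IrrCharacter G, p ∣ (Nat.card G / (Nat.card {g : G // (χ : G → ℂ) g = (χ : G → ℂ) 1} * Cfsg.charDegree (χ : G → ℂ))) := by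
  classical
  have : Fact p.Prime := ⟨hp⟩
  constructor
  · intro hpG
    by_contra hcon
    push Not at hcon
    obtain ⟨P⟩ : Nonempty (Sylow p G) := inferInstance
    set N : Subgroup G := Subgroup.normalClosure (P : Set G) with hN
    have hPN : (P : Subgroup G) ≤ N := Subgroup.le_normalClosure
    have hdeg : ∀ χ : Cfsg.IrrCharacter G, ¬ N ≤ H25.kerSub χ → p ∣ Cfsg.charDegree (χ : G → ℂ) := by
      intro χ hχ
      have h1 : p ∣ (H25.kerSub χ).index := by
        by_contra hnd
        apply hχ
        apply Subgroup.normalClosure_le_normal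
        intro x hx
        obtain ⟨k, hk⟩ := P.2 ⟨x, hx⟩
        have hk' : x ^ p ^ k = 1 := by simpa using congrArg Subtype.val hk
        have h2 : orderOf (x : G ⧸ H25.kerSub χ) ∣ p ^ k := by
          apply orderOf_dvd_of_pow_eq_one
          rw [← QuotientGroup.mk_pow, hk']; rfl
        have h3 : orderOf (x : G ⧸ H25.kerSub χ) ∣ (H25.kerSub χ).index := by
          rw [Subgroup.index_eq_card]; exact orderOf_dvd_natCard _
        have hcop : Nat.Coprime (p ^ k) (H25.kerSub χ).index :=
          Nat.Coprime.pow_left _ ((Nat.Prime.coprime_iff_not_dvd hp).2 hnd)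
        have h4 : orderOf (x : G ⧸ H25.kerSub χ) = 1 :=
          Nat.eq_one_of_dvd_coprimes hcop h2 h3
        exact (QuotientGroup.eq_one_iff x).1 (orderOf_eq_one_iff.1 h4)
      rw [← H25.codeg_mul χ] at h1
      exact (hp.dvd_mul.1 h1).resolve_left (hcon χ)
    have h1 := H25.sum_sq_of_le_ker (⊥ : Subgroup G)
    have h2 := H25.sum_sq_of_le_ker N
    simp only [bot_le, if_true, Subgroup.index_bot] at h1
    have h3 : ∑ χ : Cfsg.IrrCharacter G, Cfsg.charDegree (χ : G → ℂ) ^ 2 =
        ∑ χ : Cfsg.IrrCharacter G, (if N ≤ H25.kerSub χ then Cfsg.charDegree (χ : G → ℂ) ^ 2 else 0) +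
        ∑ χ : Cfsg.IrrCharacter G, (if N ≤ H25.kerSub χ then 0 else Cfsg.charDegree (χ : G → ℂ) ^ 2) := by
      rw [← Finset.sum_add_distrib]
      refine Finset.sum_congr rfl fun χ _ => ?_
      split_ifs <;> simp
    have h4 : p ∣ ∑ χ : Cfsg.IrrCharacter G,
        (if N ≤ H25.kerSub χ then 0 else Cfsg.charDegree (χ : G → ℂ) ^ 2) := by
      apply Finset.dvd_sum
      intro χ _
      split_ifs with hk
      · exact dvd_zero p
      · exact dvd_pow (hdeg χ hk) two_ne_zero
    rw [h1, h2] at h3
    have h5 : p ∣ N.index := by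
      rw [h3] at hpG
      exact (Nat.dvd_add_left h4).1 hpG
    exact P.not_dvd_index (h5.trans (Subgroup.index_dvd_of_le hPN))
  · rintro ⟨χ, hχ⟩
    exact hχ.trans (H25.codeg_dvd_card χ)

end Cfsg.Agent.S4808
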