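import Cfsg.Statements.S4814
import Mathlib
import Cfsg.Agent.H25.CommCount

set_option autoImplicit false
open Cfsg

namespace Cfsg.Agent.S4814

/-- Let G be a finite group such that the sum, over the irreducible complex characters χ of G, of 1/χ(1)² is less than 2. Then every element of G is a product of two commutators. -/
theorem result {G : Type*} [Group G] [Finite G]
    (h : ∑ᶠ χ : Cfsg.IrrCharacter G, 1 / ‖(χ : G → ℂ) 1‖ ^ 2 < (2 : ℝ)) (g : G) :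
    ∃ a b c d : G, (a * b * a⁻¹ * b⁻¹) * (c * d * c⁻¹ * d⁻¹) = g := by
  classical
  cases nonempty_fintype G
  rw [finsum_eq_sum_of_fintype] at h
  by_contra hcon
  push Not at hcon
  let w : (G × G) × (G × G) → G := fun p =>
    (p.1.1 * p.1.2 * p.1.1⁻¹ * p.1.2⁻¹) * (p.2.1 * p.2.2 * p.2.1⁻¹ * p.2.2⁻¹)
  have hcf : ∀ x z : G, Nat.card {i : (G × G) × (G × G) // w i = x * z * x⁻¹} =
        Nat.card {i : (G × G) × (G × G) // w i = z} := by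
    intro x z
    apply Nat.card_congr
    refine ⟨fun i => ⟨((x⁻¹ * i.1.1.1 * x, x⁻¹ * i.1.1.2 * x), (x⁻¹ * i.1.2.1 * x, x⁻¹ * i.1.2.2 * x)), ?_⟩,
      fun i => ⟨((x * i.1.1.1 * x⁻¹, x * i.1.1.2 * x⁻¹), (x * i.1.2.1 * x⁻¹, x * i.1.2.2 * x⁻¹)), ?_⟩,
      ?_, ?_⟩
    · have := i.2
      simp only [w] at this ⊢
      calc _ = x⁻¹ * ((i.1.1.1 * i.1.1.2 * i.1.1.1⁻¹ * i.1.1.2⁻¹) *
            (i.1.2.1 * i.1.2.2 * i.1.2.1⁻¹ * i.1.2.2⁻¹)) * x := by group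
        _ = z := by rw [this]; group
    · have := i.2
      simp only [w] at this ⊢
      calc _ = x * ((i.1.1.1 * i.1.1.2 * i.1.1.1⁻¹ * i.1.1.2⁻¹) *
            (i.1.2.1 * i.1.2.2 * i.1.2.1⁻¹ * i.1.2.2⁻¹)) * x⁻¹ := by group
        _ = x * z * x⁻¹ := by rw [this]
    · intro i
      apply Subtype.ext
      apply Prod.ext <;> apply Prod.ext <;> simp [mul_assoc]
    · intro i
      apply Subtype.ext
      apply Prod.ext <;> apply Prod.ext <;> simp [mul_assoc]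
  have h0 : Nat.card {i : (G × G) × (G × G) // w i = g} = 0 := by
    have : IsEmpty {i : (G × G) × (G × G) // w i = g} :=
      ⟨fun i => hcon i.1.1.1 i.1.1.2 i.1.2.1 i.1.2.2 i.2⟩
    exact Nat.card_of_isEmpty
  have h1 := H25.card_fiber_eq w hcf g
  rw [h0, Nat.cast_zero] at h1
  have hG : (Nat.card G : ℂ) ≠ 0 := CharLib.card_ne_zero_complex
  have h2 : ∑ χ : IrrCharacter G, (χ : G → ℂ) g / (χ : G → ℂ) 1 ^ 3 = 0 := by
    have h3 : ∑ χ : IrrCharacter G, (starRingEnd ℂ) (∑ i, (χ : G → ℂ) (w i)) * (χ : G → ℂ) g = 0 := by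
      rcases mul_eq_zero.1 h1.symm with h | h
      · exact absurd (inv_eq_zero.1 h) hG
      · exact h
    have h4 : ∀ χ : IrrCharacter G, (starRingEnd ℂ) (∑ i, (χ : G → ℂ) (w i)) * (χ : G → ℂ) g =
        (Nat.card G : ℂ) ^ 4 * ((χ : G → ℂ) g / (χ : G → ℂ) 1 ^ 3) := by
      intro χ
      have := H25.sum_two_commutators_char χ
      simp only [w]
      rw [this, map_div₀, map_pow, map_pow, map_natCast, CharLib.conj_irr_apply_one]
      ring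
    simp only [h4] at h3
    rw [← Finset.mul_sum] at h3
    rcases mul_eq_zero.1 h3 with h | h
    · exact absurd (pow_eq_zero_iff (by norm_num) |>.1 h) hG
    · exact h
  let χ₀ : IrrCharacter G := ⟨fun _ => 1, CharLib.isIrrCharacter_one⟩
  have hbound : ∀ χ : IrrCharacter G, ‖(χ : G → ℂ) g / (χ : G → ℂ) 1 ^ 3‖ ≤
      1 / ‖(χ : G → ℂ) 1‖ ^ 2 := by
    intro χ
    have hle : ‖(χ : G → ℂ) g‖ ≤ ‖(χ : G → ℂ) 1‖ := by
      obtain ⟨n, ρ, hρ, hχ⟩ := χ.2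
      rw [← hχ, Representation.char_one]
      simpa using CharLib.norm_character_le ρ g
    have hpos : 0 < ‖(χ : G → ℂ) 1‖ := norm_pos_iff.2 (CharLib.irr_apply_one_ne_zero χ)
    rw [norm_div, norm_pow, div_le_div_iff₀ (by positivity) (by positivity)]
    calc ‖(χ : G → ℂ) g‖ * ‖(χ : G → ℂ) 1‖ ^ 2 ≤ ‖(χ : G → ℂ) 1‖ * ‖(χ : G → ℂ) 1‖ ^ 2 :=
          mul_le_mul_of_nonneg_right hle (by positivity)
      _ = 1 * ‖(χ : G → ℂ) 1‖ ^ 3 := by ring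
  rw [← Finset.add_sum_erase _ _ (Finset.mem_univ χ₀)] at h2 h
  have e1 : ((χ₀ : G → ℂ) g / (χ₀ : G → ℂ) 1 ^ 3) = 1 := by simp [χ₀]
  have e2 : 1 / ‖(χ₀ : G → ℂ) 1‖ ^ 2 = 1 := by simp [χ₀]
  rw [e1] at h2
  rw [e2] at h
  have h5 : ‖∑ χ ∈ Finset.univ.erase χ₀, (χ : G → ℂ) g / (χ : G → ℂ) 1 ^ 3‖ = 1 := by
    have : ∑ χ ∈ Finset.univ.erase χ₀, (χ : G → ℂ) g / (χ : G → ℂ) 1 ^ 3 = -1 := by
      linear_combination h2
    rw [this]; simp
  have h6 : ‖∑ χ ∈ Finset.univ.erase χ₀, (χ : G → ℂ) g / (χ : G → ℂ) 1 ^ 3‖ ≤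
      ∑ χ ∈ Finset.univ.erase χ₀, 1 / ‖(χ : G → ℂ) 1‖ ^ 2 :=
    (norm_sum_le _ _).trans (Finset.sum_le_sum fun χ _ => hbound χ)
  linarith

end Cfsg.Agent.S4814
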