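import Cfsg.Statements.S4825
import Cfsg.Agent.H25.Osima
import Cfsg.Agent.H25.Codeg
import Cfsg.Agent.S0174

set_option autoImplicit false
open Cfsg

namespace Cfsg.Agent.S4825

/-- Let p be a prime, G a finite group with Sylow p-subgroup P, M a maximal ideal of the algebraic integers containing p, and B a p-block of G with defect group P. Let N be a normal subgroup of G not containing P and θ an irreducible character of N. Then the number of irreducible characters in B of degree prime to p lying over θ (having θ as a constituent on restriction to N) is either 0 or at least 2, and when p ≤ 3 it is divisible by p. -/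
theorem result {G : Type*} [Group G] [Fintype G] (p : ℕ) [Fact p.Prime] (P : Sylow p G) (M : Ideal Cfsg.AlgInt) (hM : Cfsg.IsPModular p M) (B : Set (Cfsg.IrrCharacter G)) (hB : Cfsg.IsPBlock M B) (hBP : Cfsg.IsDefectGroup p M B P) (N : Subgroup G) [N.Normal] [Fintype N] (hPN : ¬ (P : Subgroup G) ≤ N) (θ : Cfsg.IrrCharacter N) :
    (Nat.card {χ : Cfsg.IrrCharacter G // χ ∈ B ∧ ¬ p ∣ Cfsg.charDegree (χ : G → ℂ) ∧ Cfsg.classInner (fun n : N => (χ : G → ℂ) n) (θ : N → ℂ) ≠ 0} = 0 ∨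
      2 ≤ Nat.card {χ : Cfsg.IrrCharacter G // χ ∈ B ∧ ¬ p ∣ Cfsg.charDegree (χ : G → ℂ) ∧ Cfsg.classInner (fun n : N => (χ : G → ℂ) n) (θ : N → ℂ) ≠ 0}) ∧
    (p ≤ 3 → p ∣ Nat.card {χ : Cfsg.IrrCharacter G // χ ∈ B ∧ ¬ p ∣ Cfsg.charDegree (χ : G → ℂ) ∧ Cfsg.classInner (fun n : N => (χ : G → ℂ) n) (θ : N → ℂ) ≠ 0}) := by
  classical
  have hMp := BlockLib.isPrime_of_isPModular hM
  have htop := BlockLib.ne_top_of_isPModular hM
  have hp : p.Prime := Fact.out
  have hNn : N.Normal := inferInstance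
  have hfin : (B : Set (Cfsg.IrrCharacter G)).Finite := Set.toFinite _
  set e : Cfsg.IrrCharacter G → ℂ := fun χ => Cfsg.classInner (fun n : N => (χ : G → ℂ) n) (θ : N → ℂ) with he
  -- the orbit sum at 1
  set O : Set (N → ℂ) := {ψ : N → ℂ | ∃ g : G, ψ = fun n : N => (θ : N → ℂ) ⟨g * n * g⁻¹, hNn.conj_mem n n.2 g⟩} with hO
  have hOfin : O.Finite := by
    refine (Set.finite_range (fun g : G => fun n : N =>
      (θ : N → ℂ) ⟨g * n * g⁻¹, hNn.conj_mem n n.2 g⟩)).subset ?_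
    rintro _ ⟨g, rfl⟩
    exact ⟨g, rfl⟩
  obtain ⟨c, hc⟩ : ∃ c : ℕ, (∑ᶠ ψ ∈ O, ψ) 1 = (c : ℂ) := by
    refine ⟨hOfin.toFinset.card * Cfsg.charDegree (θ : N → ℂ), ?_⟩
    rw [finsum_mem_eq_finite_toFinset_sum _ hOfin, Finset.sum_apply]
    rw [Finset.sum_congr rfl (g := fun _ => (Cfsg.charDegree (θ : N → ℂ) : ℂ))]
    · rw [Finset.sum_const, nsmul_eq_mul]; push_cast; ring
    · intro ψ hψ
      obtain ⟨g, rfl⟩ := hOfin.mem_toFinset.mp hψ
      rw [← H25.charDegree_irr θ]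
      show (θ : N → ℂ) ⟨g * ((1 : N) : G) * g⁻¹, _⟩ = (θ : N → ℂ) 1
      have : (⟨g * ((1 : N) : G) * g⁻¹, hNn.conj_mem _ (1 : N).2 g⟩ : N) = 1 := by
        apply Subtype.ext
        simp
      rw [this]
  have hdeg : ∀ χ : Cfsg.IrrCharacter G, e χ ≠ 0 → (χ : G → ℂ) 1 = e χ * (c : ℂ) := by
    intro χ hχ
    have h1 := congrFun (S0174.result N hNn (χ : G → ℂ) χ.2 (θ : N → ℂ) θ.2 hχ) 1
    rw [Pi.smul_apply, smul_eq_mul, hc] at h1
    exact h1
  have hterm : ∀ χ : Cfsg.IrrCharacter G, (c : ℂ) * ((χ : G → ℂ) 1 * (starRingEnd ℂ) (e χ)) =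
      if e χ ≠ 0 then (((Cfsg.charDegree (χ : G → ℂ)) ^ 2 : ℕ) : ℂ) else 0 := by
    intro χ
    split_ifs with h
    · have h1 := hdeg χ h
      have hc0 : (c : ℂ) ≠ 0 := by
        intro h0
        rw [h0, mul_zero] at h1
        exact CharLib.irr_apply_one_ne_zero χ h1
      have h2 : e χ = (Cfsg.charDegree (χ : G → ℂ) : ℂ) / (c : ℂ) := by
        rw [← H25.charDegree_irr χ, h1]; field_simp
      rw [h2, H25.charDegree_irr χ]
      simp only [map_div₀, Complex.conj_natCast]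
      push_cast
      field_simp
    · push Not at h
      rw [h]; simp
  -- the local integer T
  set T : ℂ := ∑ n : N, Cfsg.blockCoeff B (n : G) * (θ : N → ℂ) n with hT
  have hTR : Cfsg.MemLocalRing M T := by
    apply BlockLib.memLocalRing_sum
    intro n _
    apply BlockLib.memLocalRing_mul (BlockLib.memLocalRing_blockCoeff hB _)
    obtain ⟨k, ρ, _, h⟩ := θ.2
    rw [← h]
    exact BlockLib.memLocalRing_of_isIntegral htop (CharLib.isIntegral_character ρ n)
  have hTeq : T = (Nat.card G : ℂ)⁻¹ * (Nat.card N : ℂ) *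
      ∑ χ ∈ hfin.toFinset, (χ : G → ℂ) 1 * (starRingEnd ℂ) (e χ) := by
    rw [hT]
    unfold Cfsg.blockCoeff
    simp only [finsum_mem_eq_finite_toFinset_sum _ hfin]
    have hN0 : (Nat.card N : ℂ) ≠ 0 := by exact_mod_cast Nat.card_pos.ne'
    have e1 : ∀ χ : Cfsg.IrrCharacter G, (Nat.card N : ℂ) * (starRingEnd ℂ) (e χ) =
        ∑ n : N, (starRingEnd ℂ) ((χ : G → ℂ) n) * (θ : N → ℂ) n := by
      intro χ
      rw [he]
      simp only [Cfsg.classInner, map_mul, map_inv₀, Complex.conj_natCast, map_sum,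
        Complex.conj_conj]
      rw [← mul_assoc, mul_inv_cancel₀ hN0, one_mul]
    rw [mul_assoc, Finset.mul_sum (a := (Nat.card N : ℂ))]
    have e2 : ∀ χ : Cfsg.IrrCharacter G, (Nat.card N : ℂ) * ((χ : G → ℂ) 1 * (starRingEnd ℂ) (e χ)) =
        ∑ n : N, (χ : G → ℂ) 1 * (starRingEnd ℂ) ((χ : G → ℂ) n) * (θ : N → ℂ) n := by
      intro χ
      rw [mul_left_comm, e1, Finset.mul_sum]
      exact Finset.sum_congr rfl (fun n _ => by ring)
    rw [Finset.sum_congr rfl (fun χ _ => e2 χ), Finset.sum_comm, Finset.mul_sum]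
    refine Finset.sum_congr rfl (fun n _ => ?_)
    rw [mul_assoc, Finset.sum_mul]
  -- the sum of squares of degrees
  set X : Finset (Cfsg.IrrCharacter G) := hfin.toFinset.filter (fun χ => e χ ≠ 0) with hX
  have hS : ((∑ χ ∈ X, (Cfsg.charDegree (χ : G → ℂ)) ^ 2 : ℕ) : ℂ) = ((c * N.index : ℕ) : ℂ) * T := by
    rw [hTeq, hX, Finset.sum_filter, Nat.cast_sum]
    have hG0 : (Nat.card G : ℂ) ≠ 0 := by exact_mod_cast Nat.card_pos.ne'
    have hidx : (Nat.card G : ℂ) = (Nat.card N : ℂ) * (N.index : ℂ) := by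
      rw [← Nat.cast_mul, Subgroup.card_mul_index]
    have hN0 : (Nat.card N : ℂ) ≠ 0 := by exact_mod_cast Nat.card_pos.ne'
    have e3 : ((c * N.index : ℕ) : ℂ) * ((Nat.card G : ℂ)⁻¹ * (Nat.card N : ℂ) *
        ∑ χ ∈ hfin.toFinset, (χ : G → ℂ) 1 * (starRingEnd ℂ) (e χ)) =
        ∑ χ ∈ hfin.toFinset, (c : ℂ) * ((χ : G → ℂ) 1 * (starRingEnd ℂ) (e χ)) := by
      rw [← Finset.mul_sum, hidx]
      have hi0 : (N.index : ℂ) ≠ 0 := by
        intro h0; rw [h0, mul_zero] at hidx; exact hG0 hidx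
      push_cast
      field_simp
    rw [e3]
    refine Finset.sum_congr rfl (fun χ _ => ?_)
    rw [hterm]
    split_ifs <;> simp
  have hpidx : p ∣ N.index := by
    by_contra hnd
    apply hPN
    intro x hx
    have h1 : (QuotientGroup.mk' N x) = 1 := by
      obtain ⟨k, hk⟩ := P.2 ⟨x, hx⟩
      have hk' : x ^ p ^ k = 1 := congrArg Subtype.val hk
      have h2 : (QuotientGroup.mk' N x) ^ p ^ k = 1 := by rw [← map_pow, hk', map_one]
      have h3 : (QuotientGroup.mk' N x) ^ N.index = 1 := by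
        rw [Subgroup.index_eq_card]; exact pow_card_eq_one'
      have hco : (p ^ k).Coprime N.index :=
        Nat.Coprime.pow_left k ((Nat.Prime.coprime_iff_not_dvd hp).mpr hnd)
      have := pow_gcd_eq_one.mpr ⟨h2, h3⟩
      rwa [hco.gcd_eq_one, pow_one] at this
    exact (QuotientGroup.eq_one_iff x).mp h1
  have hpS : p ∣ ∑ χ ∈ X, (Cfsg.charDegree (χ : G → ℂ)) ^ 2 := by
    rw [← BlockLib.memLocalIdeal_natCast_iff hM, hS]
    apply BlockLib.memLocalIdeal_mul_right _ hTR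
    rw [BlockLib.memLocalIdeal_natCast_iff hM]
    exact Dvd.dvd.mul_left hpidx c
  set X' : Finset (Cfsg.IrrCharacter G) := X.filter (fun χ => ¬ p ∣ Cfsg.charDegree (χ : G → ℂ)) with hX'
  have hpS' : p ∣ ∑ χ ∈ X', (Cfsg.charDegree (χ : G → ℂ)) ^ 2 := by
    have h1 := Finset.sum_filter_add_sum_filter_not X (fun χ => ¬ p ∣ Cfsg.charDegree (χ : G → ℂ))
      (fun χ => (Cfsg.charDegree (χ : G → ℂ)) ^ 2)
    have h2 : p ∣ ∑ χ ∈ X.filter (fun χ : Cfsg.IrrCharacter G => ¬ ¬ p ∣ Cfsg.charDegree (χ : G → ℂ)),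
        (Cfsg.charDegree (χ : G → ℂ)) ^ 2 := by
      apply Finset.dvd_sum
      intro χ hχ
      have := (Finset.mem_filter.mp hχ).2
      push Not at this
      exact dvd_pow this two_ne_zero
    rw [← h1] at hpS
    exact (Nat.dvd_add_left h2).mp hpS
  have hcard : Nat.card {χ : Cfsg.IrrCharacter G // χ ∈ B ∧ ¬ p ∣ Cfsg.charDegree (χ : G → ℂ) ∧ Cfsg.classInner (fun n : N => (χ : G → ℂ) n) (θ : N → ℂ) ≠ 0} = X'.card := by
    rw [Nat.card_eq_fintype_card, Fintype.card_subtype]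
    congr 1
    ext χ
    simp only [hX', hX, Finset.mem_filter, Finset.mem_univ, true_and, Set.Finite.mem_toFinset, he]
    tauto
  rw [hcard]
  constructor
  · by_contra hcon
    push Not at hcon
    have h1 : X'.card = 1 := by omega
    obtain ⟨χ, hχ⟩ := Finset.card_eq_one.mp h1
    rw [hχ, Finset.sum_singleton] at hpS'
    have h2 : χ ∈ X' := by rw [hχ]; exact Finset.mem_singleton_self χ
    exact (Finset.mem_filter.mp h2).2 (hp.dvd_of_dvd_pow hpS')
  · intro h3
    have haux : ∀ d : ℕ, ¬ p ∣ d → d ^ 2 % p = 1 % p := by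
      intro d hd
      have h2 := hp.two_le
      have hcases : p = 2 ∨ p = 3 := by omega
      have hd' : d % p ≠ 0 := fun h => hd (Nat.dvd_of_mod_eq_zero h)
      have hlt : d % p < p := Nat.mod_lt _ hp.pos
      rw [Nat.pow_mod]
      rcases hcases with h | h
      · rw [h] at hd' hlt ⊢
        have : d % 2 = 1 := by omega
        rw [this]
      · rw [h] at hd' hlt ⊢
        have : d % 3 = 1 ∨ d % 3 = 2 := by omega
        rcases this with h' | h' <;> rw [h']
    have h4 : (∑ χ ∈ X', (Cfsg.charDegree (χ : G → ℂ)) ^ 2) % p = X'.card % p := by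
      rw [Finset.sum_nat_mod, Finset.sum_congr rfl (fun χ hχ => haux _ (Finset.mem_filter.mp hχ).2),
        ← Finset.sum_nat_mod, Finset.sum_const, smul_eq_mul, mul_one]
    rw [Nat.dvd_iff_mod_eq_zero, ← h4]
    exact Nat.mod_eq_zero_of_dvd hpS'

end Cfsg.Agent.S4825
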