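import Cfsg.Statements.S4828
import Cfsg.Agent.BlockLib.KG.CentralMax
import Cfsg.Agent.BlockLib.KG.DefSubTr
import Cfsg.Agent.BlockLib.KG.StabTr
import Cfsg.Agent.H25.CentralDefect3
import Cfsg.Agent.S0969

set_option autoImplicit false
open Cfsg Cfsg.Agent.BlockLib

namespace Cfsg.Agent.S4828

/-- Let p be a prime, M a maximal ideal of the algebraic integers containing p, and (Q, e) a Brauer pair of the finite group G (Q a p-subgroup, e a block of C_G(Q)). Then (Q, e) is a maximal Brauer pair of some block of G if and only if e contains an irreducible character θ such that θ takes the value θ(1) at every element of Z(Q) = Q ∩ C_G(Q), the p-part of θ(1) times the p-part of the order of Z(Q) equals the p-part of the order of C_G(Q) (θ has defect zero as a character of C_G(Q)/Z(Q)), and every element of N_G(Q) of p-power order that stabilizes e lies in Q·C_G(Q) (the stabilizer of e in N_G(Q) has index prime to p over Q·C_G(Q)). -/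
theorem result {G : Type*} [Group G] [Finite G] (p : ℕ) [Fact p.Prime] (M : Ideal Cfsg.AlgInt) (hM : Cfsg.IsPModular p M) (Q : Subgroup G) (e : Set (Cfsg.IrrCharacter (Subgroup.centralizer (Q : Set G)))) (he : Cfsg.IsBrauerPair p M Q e) :
    (∃ B : Set (Cfsg.IrrCharacter G), Cfsg.IsMaximalBrauerPair p M B Q e) ↔
      ∃ θ ∈ e, (∀ z : Subgroup.centralizer (Q : Set G), (z : G) ∈ Q → (θ : Subgroup.centralizer (Q : Set G) → ℂ) z = (θ : Subgroup.centralizer (Q : Set G) → ℂ) 1) ∧
        (Cfsg.charDegree (θ : Subgroup.centralizer (Q : Set G) → ℂ)).factorization p + (Nat.card ↥(Q ⊓ Subgroup.centralizer (Q : Set G))).factorization p = (Nat.card (Subgroup.centralizer (Q : Set G))).factorization p ∧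
        (∀ g : G, g ∈ Subgroup.normalizer (Q : Set G) → Cfsg.StabilizesBlock (Subgroup.centralizer (Q : Set G)) e g → (∃ k : ℕ, orderOf g = p ^ k) → g ∈ Q ⊔ Subgroup.centralizer (Q : Set G)) := by
  classical
  letI := Fintype.ofFinite G
  haveI := isPrime_of_isPModular hM
  haveI := charP_resField hM
  have hQ := he.1
  have hblk := he.2
  have hBP : CA.IsBP p Q (epsS M (Subgroup.centralizer (Q : Set G)) e) := ⟨hQ, isBlk_epsS hblk⟩
  have h1 : (∃ B : Set (Cfsg.IrrCharacter G), Cfsg.IsMaximalBrauerPair p M B Q e) ↔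
      ∃ b, CA.IsMaxBP p b Q (epsS M (Subgroup.centralizer (Q : Set G)) e) := by
    constructor
    · rintro ⟨B, hB⟩
      exact ⟨eps M B, (isMaximalBrauerPair_iff hB.1.2.1 hblk).mp hB⟩
    · rintro ⟨b, hb⟩
      obtain ⟨B, hB, rfl⟩ := exists_eps_eq hb.1.2.1
      exact ⟨B, (isMaximalBrauerPair_iff hB hblk).mpr hb⟩
  rw [h1, CA.exists_isMaxBP_iff hBP]
  have hDdef := isDefectGroup_subgroupOf_iff (p := p) hblk
    (inf_le_right : Q ⊓ Subgroup.centralizer (Q : Set G) ≤ Subgroup.centralizer (Q : Set G))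
  have hDc : (Q ⊓ Subgroup.centralizer (Q : Set G)).subgroupOf (Subgroup.centralizer (Q : Set G)) ≤
      Subgroup.center (Subgroup.centralizer (Q : Set G)) := by
    intro z hz
    rw [Subgroup.mem_center_iff]
    intro c
    apply Subtype.ext
    exact (Subgroup.mem_centralizer_iff.mp c.2 z (Subgroup.mem_subgroupOf.mp hz).1).symm
  have hDp : IsPGroup p ((Q ⊓ Subgroup.centralizer (Q : Set G)).subgroupOf
      (Subgroup.centralizer (Q : Set G))) :=
    (hQ.to_le inf_le_left).comap_subtype
  have hcard : Nat.card ((Q ⊓ Subgroup.centralizer (Q : Set G)).subgroupOf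
      (Subgroup.centralizer (Q : Set G))) = Nat.card ↥(Q ⊓ Subgroup.centralizer (Q : Set G)) :=
    Nat.card_congr (Subgroup.subgroupOfEquivOfLe inf_le_right).toEquiv
  have hfac : (Nat.card (Subgroup.centralizer (Q : Set G))).factorization p =
      (Nat.card ↥(Q ⊓ Subgroup.centralizer (Q : Set G))).factorization p +
      ((Q ⊓ Subgroup.centralizer (Q : Set G)).subgroupOf
        (Subgroup.centralizer (Q : Set G))).index.factorization p := by
    rw [← Subgroup.card_mul_index ((Q ⊓ Subgroup.centralizer (Q : Set G)).subgroupOf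
      (Subgroup.centralizer (Q : Set G))), Nat.factorization_mul Nat.card_pos.ne'
      Subgroup.index_ne_zero_of_finite, hcard]
    rfl
  have h3 : ¬ p ∣ (Q ⊔ Subgroup.centralizer (Q : Set G)).relIndex
      (CA.stab Q (epsS M (Subgroup.centralizer (Q : Set G)) e)) ↔
      (∀ g : G, g ∈ Subgroup.normalizer (Q : Set G) →
        Cfsg.StabilizesBlock (Subgroup.centralizer (Q : Set G)) e g →
        (∃ k : ℕ, orderOf g = p ^ k) → g ∈ Q ⊔ Subgroup.centralizer (Q : Set G)) := by
    rw [GrpAux.not_dvd_relIndex_iff_forall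
      (sup_le (CA.le_stab_self hBP.2.mem.1) (CA.centralizer_le_stab hBP.2.mem))
      ((CA.stab_le_normalizer _ _).trans (CA.normalizer_le_normalizer_sup Q))]
    constructor
    · intro h g hg hs hk
      exact h g ⟨hg, ((stabilizesBlock_iff hblk g).mp hs).2⟩ hk
    · intro h g hg hk
      exact h g hg.1 ((stabilizesBlock_iff hblk g).mpr
        ⟨CA.normalizer_le_normalizer_centralizer Q hg.1, hg.2⟩) hk
  constructor
  · rintro ⟨hd, hnd⟩
    have hd' := hDdef.mpr hd
    obtain ⟨θ, hθ, hθμ⟩ := Cfsg.Agent.H25.cd_exists hM hblk hd' hDc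
      ⟨fun z => (((1 : _ →* ℂˣ) z : ℂˣ) : ℂ), Cfsg.Agent.CharLib.isIrrCharacter_of_hom _⟩
    refine ⟨θ, hθ, ?_, ?_, h3.mp hnd⟩
    · intro z hz
      have := Cfsg.Agent.H25.apply_central θ hDc ⟨z, Subgroup.mem_subgroupOf.mpr ⟨hz, z.2⟩⟩
      rw [hθμ] at this
      simpa using this
    · rw [Cfsg.Agent.H25.cd_deg hM hblk hd' hDc hθ, hfac, add_comm]
  · rintro ⟨θ, hθ, -, hdeg, h⟩
    refine ⟨?_, h3.mpr h⟩
    rw [← hDdef]
    have := (Cfsg.Agent.S0969.result p M hM _ hDp hDc θ (by omega)).1
    rwa [← pb_eq_blockOf hblk hθ] at this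

end Cfsg.Agent.S4828
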