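import Cfsg.Statements.S4835
import Mathlib
import Cfsg.Agent.H25.Gagola

set_option autoImplicit false
open Cfsg

namespace Cfsg.Agent.S4835

/-- Let G be a finite group of order greater than 2 with an irreducible character χ that is nonzero on exactly two conjugacy classes. Then G has a unique minimal normal subgroup N; N is an elementary abelian p-group for some prime p; χ is nonzero exactly at the elements of N; and any two nonidentity elements of N are conjugate in G. -/
theorem result {G : Type*} [Group G] [Finite G] (hG : 2 < Nat.card G) (χ : Cfsg.IrrCharacter G) (hχ : Nat.card {C : ConjClasses G // ∃ g ∈ C.carrier, (χ : G → ℂ) g ≠ 0} = 2) :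
    ∃ N : Subgroup G, N.Normal ∧ N ≠ ⊥ ∧ (∀ K : Subgroup G, K.Normal → K ≠ ⊥ → N ≤ K) ∧
      (∃ p : ℕ, p.Prime ∧ Cfsg.IsElementaryAbelian p N) ∧
      (∀ g : G, (χ : G → ℂ) g ≠ 0 ↔ g ∈ N) ∧
      (∀ x ∈ N, ∀ y ∈ N, x ≠ 1 → y ≠ 1 → ∃ g : G, g * x * g⁻¹ = y) := by
  classical
  cases nonempty_fintype G
  obtain ⟨g, h⟩ := H25.exists_twoClass χ hχ
  have hn := h.support_normal hG
  have hgN : g ∈ h.support hG := h.ne_zero
  have hne : h.support hG ≠ ⊥ := by
    intro hb
    rw [hb] at hgN
    exact h.ne_one hgN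
  have htr : ∀ x ∈ h.support hG, ∀ y ∈ h.support hG, x ≠ 1 → y ≠ 1 → ∃ c : G, c * x * c⁻¹ = y := by
    intro x hx y hy hx1 hy1
    have h1 := (h.supp x hx).resolve_left hx1
    have h2 := (h.supp y hy).resolve_left hy1
    exact isConj_iff.1 (h1.symm.trans h2)
  refine ⟨h.support hG, hn, hne, ?_, ?_, fun x => Iff.rfl, htr⟩
  · intro K hK hK1
    have hgK : g ∈ K := by
      by_contra hgK
      have hz : ∀ x ∈ K, x ≠ 1 → (χ : G → ℂ) x = 0 := by
        intro x hx hx1
        by_contra h0
        obtain ⟨c, hc⟩ := isConj_iff.1 ((h.supp x h0).resolve_left hx1).symm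
        apply hgK
        rw [← hc]
        exact hK.conj_mem x hx c
      obtain ⟨⟨x, hx⟩, hx1'⟩ := Subgroup.ne_bot_iff_exists_ne_one.1 hK1
      have hx1 : x ≠ 1 := fun he => hx1' (Subtype.ext he)
      have h1 := H25.sum_coset_eq_zero K χ ⟨x, hx, by
        rw [hz x hx hx1]; exact (CharLib.irr_apply_one_ne_zero χ).symm⟩ 1
      rw [Finset.sum_eq_single 1] at h1
      · rw [if_pos K.one_mem, mul_one] at h1
        exact CharLib.irr_apply_one_ne_zero χ h1
      · intro y _ hy1
        split_ifs with hy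
        · rw [one_mul]; exact hz y hy hy1
        · rfl
      · intro h0; exact absurd (Finset.mem_univ _) h0
    intro x hx
    by_cases hx1 : x = 1
    · rw [hx1]; exact K.one_mem
    · obtain ⟨c, hc⟩ := isConj_iff.1 ((h.supp x hx).resolve_left hx1)
      rw [← hc]
      exact hK.conj_mem g hgK c
  · obtain ⟨p, hp, h1, h2⟩ := H25.elemAb_of_conj_transitive _ hn hne htr
    exact ⟨p, hp, h1, h2⟩

end Cfsg.Agent.S4835
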