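import Cfsg.Statements.S4836
import Mathlib
import Cfsg.Agent.H25.Gagola

set_option autoImplicit false
open Cfsg

namespace Cfsg.Agent.S4836

theorem faithful {G : Type*} [Group G] [Finite G] (hG : 2 < Nat.card G) (χ : Cfsg.IrrCharacter G)
    (hχ : Nat.card {C : ConjClasses G // ∃ g ∈ C.carrier, (χ : G → ℂ) g ≠ 0} = 2) :
    ∀ g : G, (χ : G → ℂ) g = (χ : G → ℂ) 1 → g = 1 := by
  classical
  cases nonempty_fintype G
  obtain ⟨g, h⟩ := H25.exists_twoClass χ hχ
  intro x hx
  by_contra hx1
  have h0 : (χ : G → ℂ) x ≠ 0 := by rw [hx]; exact CharLib.irr_apply_one_ne_zero χ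
  have hc := (h.supp x h0).resolve_left hx1
  have h1 := CharLib.isClassFunction_apply_of_isConj (CharLib.isClassFunction_of_irr χ.2) hc
  have h2 := h.rel_one hG
  rw [h1, hx] at h2
  have h3 : (χ : G → ℂ) 1 * (1 + ((Subgroup.centralizer {g}).index : ℂ)) = 0 := by
    linear_combination h2
  rcases mul_eq_zero.1 h3 with h4 | h4
  · exact CharLib.irr_apply_one_ne_zero χ h4
  · have : ((1 + (Subgroup.centralizer {g}).index : ℕ) : ℂ) = 0 := by push_cast; exact h4
    have h5 : 1 + (Subgroup.centralizer {g}).index = 0 := by exact_mod_cast this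
    omega

/-- Let G be a finite group of order greater than 2 with an irreducible character χ that is nonzero on exactly two conjugacy classes. Then χ is faithful (it takes the value χ(1) only at the identity), it is the only faithful irreducible character of G, and it is the only irreducible character of G that is nonzero on exactly two conjugacy classes. -/
theorem result {G : Type*} [Group G] [Finite G] (hG : 2 < Nat.card G) (χ : Cfsg.IrrCharacter G) (hχ : Nat.card {C : ConjClasses G // ∃ g ∈ C.carrier, (χ : G → ℂ) g ≠ 0} = 2) :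
    (∀ g : G, (χ : G → ℂ) g = (χ : G → ℂ) 1 → g = 1) ∧
      (∀ ψ : Cfsg.IrrCharacter G, (∀ g : G, (ψ : G → ℂ) g = (ψ : G → ℂ) 1 → g = 1) → ψ = χ) ∧
      (∀ ψ : Cfsg.IrrCharacter G, Nat.card {C : ConjClasses G // ∃ g ∈ C.carrier, (ψ : G → ℂ) g ≠ 0} = 2 → ψ = χ) := by
  classical
  cases nonempty_fintype G
  obtain ⟨g, h⟩ := H25.exists_twoClass χ hχ
  have huniq : ∀ ψ : Cfsg.IrrCharacter G,
      (∀ g : G, (ψ : G → ℂ) g = (ψ : G → ℂ) 1 → g = 1) → ψ = χ := by
    intro ψ hψ
    by_contra hne
    exact h.ne_one (hψ g (h.mem_ker hG hne))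
  exact ⟨faithful hG χ hχ, huniq, fun ψ hψ => huniq ψ (faithful hG ψ hψ)⟩

end Cfsg.Agent.S4836
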