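import Cfsg.Statements.S4837
import Mathlib
import Cfsg.Agent.H25.Gagola2

set_option autoImplicit false
open Cfsg

namespace Cfsg.Agent.S4837

open scoped ComplexConjugate in
theorem inertia {G : Type*} [Group G] [Fintype G] (hG : 2 < Nat.card G) (χ : Cfsg.IrrCharacter G)
    {g : G} (h : H25.TwoClass χ g) (p : ℕ) [Fact p.Prime] (N : Subgroup G) [hNn : N.Normal]
    (hN : ∀ g : G, g ∈ N ↔ (χ : G → ℂ) g ≠ 0) (hNp : IsPGroup p N) (hN1 : N ≠ ⊥)
    (μ : Cfsg.IrrCharacter N) (hμ : (μ : N → ℂ) ≠ (fun _ => (1 : ℂ))) :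
    ∃ P : Sylow p G, ∀ g : G, g ∈ (P : Subgroup G) ↔
      ∀ n n' : N, (n' : G) = g * n * g⁻¹ → (μ : N → ℂ) n' = (μ : N → ℂ) n := by
  classical
  -- the inertia subgroup
  let T : Subgroup G :=
    { carrier := {t | ∀ n : N, (μ : N → ℂ) ⟨t * n * t⁻¹, hNn.conj_mem n n.2 t⟩ = (μ : N → ℂ) n}
      one_mem' := by
        intro n
        refine congrArg (μ : N → ℂ) (Subtype.ext ?_)
        simp
      mul_mem' := by
        intro a b ha hb n
        have h1 := ha ⟨b * n * b⁻¹, hNn.conj_mem n n.2 b⟩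
        rw [hb n] at h1
        rw [← h1]
        refine congrArg (μ : N → ℂ) (Subtype.ext ?_)
        simp [mul_assoc]
      inv_mem' := by
        intro a ha n
        have h1 := ha ⟨a⁻¹ * n * a⁻¹⁻¹, hNn.conj_mem n n.2 a⁻¹⟩
        rw [← h1]
        refine congrArg (μ : N → ℂ) (Subtype.ext ?_)
        simp [mul_assoc] }
  have hTmem : ∀ t : G, t ∈ T ↔
      ∀ n : N, (μ : N → ℂ) ⟨t * n * t⁻¹, hNn.conj_mem n n.2 t⟩ = (μ : N → ℂ) n := fun t => Iff.rfl
  have hcl := CharLib.isClassFunction_of_irr χ.2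
  set c := (Subgroup.centralizer ({g} : Set G)).index with hc
  -- N is abelian
  have hab : IsMulCommutative N := by
    obtain ⟨q, -, hq, -⟩ := H25.elemAb_of_conj_transitive N hNn hN1 (by
      intro x hx y hy hx1 hy1
      have h1 := (h.supp x ((hN x).1 hx)).resolve_left hx1
      have h2 := (h.supp y ((hN y).1 hy)).resolve_left hy1
      obtain ⟨d, hd⟩ := isConj_iff.1 (h1.symm.trans h2)
      exact ⟨d, hd⟩)
    exact hq
  have hμ1 : (μ : N → ℂ) 1 = 1 := by
    obtain ⟨n, ρ, hρ, hρχ⟩ := μ.2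
    rw [← hρχ, Representation.char_one]
    have := hρ
    rw [Representation.IsIrreducible.finrank_eq_one_of_isMulCommutative ρ]
    simp
  set φ := indFun N (μ : N → ℂ) with hφ
  have hφcl : IsClassFunction G φ := CharLib.H2.isClassFunction_indFun N _
  have hφsupp : ∀ x, φ x ≠ 0 → x = 1 ∨ IsConj g x := by
    intro x hx
    apply h.supp
    rw [← hN]
    by_contra hxN
    apply hx
    rw [hφ, CharLib.H2.indFun_apply]
    rw [Finset.sum_eq_zero, mul_zero]
    intro y _
    apply CharLib.H2.extendByZero_of_not_mem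
    intro hy
    apply hxN
    have := hNn.conj_mem _ hy y
    simpa [mul_assoc] using this
  have hφ1 : φ 1 = (N.index : ℂ) := by
    rw [hφ, CharLib.H2.indFun_apply_one, hμ1, mul_one]
  -- first relation
  have r1 : φ 1 + (c : ℂ) * φ g = 0 := by
    rw [← H25.sum_two_class hφcl h.ne_one hφsupp]
    have h1 := CharLib.H2.frobenius_reciprocity N (μ : N → ℂ)
      (CharLib.isClassFunction_of_irr (CharLib.isIrrCharacter_one (G := G)))
    rw [CharLib.classInner_irr_ne μ.2 CharLib.isIrrCharacter_one hμ, CharLib.classInner_def] at h1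
    simp only [map_one, mul_one] at h1
    rcases mul_eq_zero.1 h1 with h2 | h2
    · exact absurd (inv_eq_zero.1 h2) CharLib.card_ne_zero_complex
    · exact h2
  have r2 : (Nat.card G : ℂ) * classInner φ φ = φ 1 * conj (φ 1) + (c : ℂ) * (φ g * conj (φ g)) := by
    have hF : IsClassFunction G (fun x => φ x * conj (φ x)) := by
      intro x y
      simp only [hφcl x y]
    rw [← H25.sum_two_class hF h.ne_one (fun x hx => hφsupp x (fun h0 => hx (by simp [h0])))]
    rw [CharLib.classInner_def, ← mul_assoc, mul_inv_cancel₀ CharLib.card_ne_zero_complex, one_mul]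
  have r3 := Cfsg.Agent.S0193.result N (μ : N → ℂ) μ.2
  have r4 : Nat.card {t : G // ∀ n : N,
      (μ : N → ℂ) ⟨t * n * t⁻¹, hNn.conj_mem n n.2 t⟩ = (μ : N → ℂ) n} = Nat.card T := rfl
  rw [r4] at r3
  have r5 : (Nat.card N : ℂ) = 1 + c := by
    have := h.card_support hN
    rw [this]; push_cast; rfl
  have r6 : (N.index : ℂ) * (Nat.card N : ℂ) = Nat.card G := by
    exact_mod_cast N.index_mul_card
  have hc0 : (c : ℂ) ≠ 0 := by
    exact_mod_cast (Subgroup.index_ne_zero_of_finite : c ≠ 0)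
  have r1' := congrArg conj r1
  rw [map_add, map_mul, map_natCast, map_zero] at r1'
  rw [hφ1] at r1 r2 r1'
  rw [map_natCast] at r2 r1'
  have hidx0 : (N.index : ℂ) ≠ 0 := by
    exact_mod_cast (Subgroup.index_ne_zero_of_finite : N.index ≠ 0)
  have key : (c : ℂ) * (Nat.card T : ℂ) = Nat.card G := by
    rw [← r3]
    have e1 : (c : ℂ) * φ g = -(N.index : ℂ) := by linear_combination r1
    have e2 : (c : ℂ) * conj (φ g) = -(N.index : ℂ) := by linear_combination r1'
    have e3 : (c : ℂ) * ((Nat.card G : ℂ) * classInner φ φ) = (N.index : ℂ) * Nat.card G := by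
      rw [r2, ← r6, r5]
      linear_combination (c : ℂ) * conj (φ g) * e1 - (N.index : ℂ) * e2
    have e4 : (c : ℂ) * classInner φ φ = (N.index : ℂ) := by
      have : (Nat.card G : ℂ) * ((c : ℂ) * classInner φ φ) = (Nat.card G : ℂ) * (N.index : ℂ) := by
        linear_combination e3
      exact mul_left_cancel₀ CharLib.card_ne_zero_complex this
    rw [← r6]
    linear_combination (Nat.card N : ℂ) * e4
  have key' : c * Nat.card T = Nat.card G := by exact_mod_cast key
  obtain ⟨P, hP⟩ := h.exists_sylow_eq hG hN p hNp T key'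
  refine ⟨P, fun t => ?_⟩
  rw [hP, hTmem]
  constructor
  · intro h1 n n' hn'
    rw [← h1 n]
    exact congrArg (μ : N → ℂ) (Subtype.ext hn')
  · intro h1 n
    exact h1 n _ rfl

/-- Let G be a finite group of order greater than 2 with an irreducible character χ nonzero on exactly two conjugacy classes, and let N be the set of elements where χ is nonzero, given as a nontrivial normal p-subgroup of G for the prime p. Then for every nonidentity x in N the centralizer C_G(x) is a Sylow p-subgroup of G, and for every irreducible character λ ≠ 1 of N the stabilizer of λ in G (its inertia group) is a Sylow p-subgroup of G. -/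
theorem result {G : Type*} [Group G] [Finite G] (hG : 2 < Nat.card G) (χ : Cfsg.IrrCharacter G) (hχ : Nat.card {C : ConjClasses G // ∃ g ∈ C.carrier, (χ : G → ℂ) g ≠ 0} = 2) (p : ℕ) [Fact p.Prime] (N : Subgroup G) [N.Normal] (hN : ∀ g : G, g ∈ N ↔ (χ : G → ℂ) g ≠ 0) (hNp : IsPGroup p N) (hN1 : N ≠ ⊥) :
    (∀ x ∈ N, x ≠ 1 → ∃ P : Sylow p G, Subgroup.centralizer ({x} : Set G) = P) ∧
      (∀ μ : Cfsg.IrrCharacter N, (μ : N → ℂ) ≠ (fun _ => (1 : ℂ)) → ∃ P : Sylow p G, ∀ g : G, g ∈ (P : Subgroup G) ↔ ∀ n n' : N, (n' : G) = g * n * g⁻¹ → (μ : N → ℂ) n' = (μ : N → ℂ) n) := by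
  classical
  cases nonempty_fintype G
  obtain ⟨g, h⟩ := H25.exists_twoClass χ hχ
  have hcl := CharLib.isClassFunction_of_irr χ.2
  constructor
  · intro x hx hx1
    have hx0 : (χ : G → ℂ) x ≠ 0 := (hN x).1 hx
    have hgx : IsConj g x := (h.supp x hx0).resolve_left hx1
    have h' : H25.TwoClass χ x := by
      refine ⟨hx1, hx0, fun y hy => ?_⟩
      rcases h.supp y hy with h1 | h1
      · exact Or.inl h1
      · exact Or.inr (hgx.symm.trans h1)
    obtain ⟨P, hP⟩ := h'.exists_sylow_eq hG hN p hNp (Subgroup.centralizer ({x} : Set G))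
      (Subgroup.index_mul_card _)
    exact ⟨P, hP.symm⟩
  · intro μ hμ
    exact inertia hG χ h p N hN hNp hN1 μ hμ

end Cfsg.Agent.S4837
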