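import Cfsg.Statements.S4838
import Mathlib
import Cfsg.Agent.H25.Gagola3

set_option autoImplicit false
open Cfsg

namespace Cfsg.Agent.S4838

/-- Let G be a finite group of order greater than 2 with an irreducible character χ nonzero on exactly two conjugacy classes, N the normal p-subgroup of elements where χ is nonzero, and P a Sylow p-subgroup of G. Then (a) for every x outside N the centralizer of x in G has the same order as the centralizer of xN in G/N; (b) the centre of P lies in N, and equals N exactly when P is normal in G; (c) N, viewed inside P, is a term of the upper central series of P. -/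
theorem result {G : Type*} [Group G] [Finite G] (hG : 2 < Nat.card G) (χ : Cfsg.IrrCharacter G) (hχ : Nat.card {C : ConjClasses G // ∃ g ∈ C.carrier, (χ : G → ℂ) g ≠ 0} = 2) (p : ℕ) [Fact p.Prime] (N : Subgroup G) [N.Normal] (hN : ∀ g : G, g ∈ N ↔ (χ : G → ℂ) g ≠ 0) (hNp : IsPGroup p N) (hN1 : N ≠ ⊥) (P : Sylow p G) :
    (∀ x : G, x ∉ N → Nat.card (Subgroup.centralizer ({x} : Set G)) = Nat.card (Subgroup.centralizer ({(x : G ⧸ N)} : Set (G ⧸ N)))) ∧
      ((Subgroup.center ↥(P : Subgroup G)).map (P : Subgroup G).subtype ≤ N ∧
        ((Subgroup.center ↥(P : Subgroup G)).map (P : Subgroup G).subtype = N ↔ (P : Subgroup G).Normal)) ∧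
      (∃ i : ℕ, Subgroup.upperCentralSeries ↥(P : Subgroup G) i = N.subgroupOf (P : Subgroup G)) := by
  classical
  cases nonempty_fintype G
  obtain ⟨g, h⟩ := H25.exists_twoClass χ hχ
  have hNP : N ≤ P := hNp.le_sylow_of_normal P
  have hNcard : 1 < Nat.card N := by
    rw [Finite.one_lt_card_iff_nontrivial]
    exact (Subgroup.nontrivial_iff_ne_bot N).2 hN1
  -- centralizers of nonidentity elements of N are Sylow
  have hsyl : ∀ x ∈ N, x ≠ 1 → ∃ Q : Sylow p G, (Q : Subgroup G) = Subgroup.centralizer ({x} : Set G) := by
    intro x hx hx1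
    have hx0 : (χ : G → ℂ) x ≠ 0 := (hN x).1 hx
    have hgx : IsConj g x := (h.supp x hx0).resolve_left hx1
    have h' : H25.TwoClass χ x := by
      refine ⟨hx1, hx0, fun y hy => ?_⟩
      rcases h.supp y hy with h1 | h1
      · exact Or.inl h1
      · exact Or.inr (hgx.symm.trans h1)
    exact h'.exists_sylow_eq hG hN p hNp (Subgroup.centralizer ({x} : Set G))
      (Subgroup.index_mul_card _)
  have hZN : (Subgroup.center ↥(P : Subgroup G)).map (P : Subgroup G).subtype ≤ N := by
    rintro _ ⟨z, hz, rfl⟩
    by_contra hzN
    have h1 : (P : Subgroup G) ≤ Subgroup.centralizer ({((P : Subgroup G).subtype z)} : Set G) := by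
      intro y hy
      rw [Subgroup.mem_centralizer_singleton_iff]
      have := Subgroup.mem_center_iff.1 hz ⟨y, hy⟩
      exact congrArg Subtype.val this
    have h2 := h.card_mul_dvd hG hN hzN p hNp P P P.2 h1
    have h3 := Nat.le_of_dvd Nat.card_pos h2
    have h4 : 0 < Nat.card (P : Subgroup G) := Nat.card_pos
    nlinarith
  refine ⟨fun x hx => h.card_centralizer_quot hG hN hx, ⟨hZN, ?_⟩, ?_⟩
  · constructor
    · intro hZ
      -- P = C_G(x) for all x in N#, so P = C_G(N)
      have h1 : ∀ x ∈ N, x ≠ 1 → (P : Subgroup G) = Subgroup.centralizer ({x} : Set G) := by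
        intro x hx hx1
        obtain ⟨Q, hQ⟩ := hsyl x hx hx1
        have h2 : (P : Subgroup G) ≤ Q := by
          rw [hQ]
          intro y hy
          rw [Subgroup.mem_centralizer_singleton_iff]
          rw [← hZ] at hx
          obtain ⟨z, hz, rfl⟩ := hx
          have := Subgroup.mem_center_iff.1 hz ⟨y, hy⟩
          exact congrArg Subtype.val this
        rw [← hQ]
        exact (P.3 Q.2 h2).symm
      have h2 : (P : Subgroup G) = Subgroup.centralizer (N : Set G) := by
        apply le_antisymm
        · intro y hy
          rw [Subgroup.mem_centralizer_iff]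
          intro x hx
          by_cases hx1 : x = 1
          · rw [hx1]; simp
          · rw [h1 x hx hx1, Subgroup.mem_centralizer_singleton_iff] at hy
            exact hy.symm
        · obtain ⟨⟨x, hx⟩, hx1'⟩ := Subgroup.ne_bot_iff_exists_ne_one.1 hN1
          have hx1 : x ≠ 1 := fun h0 => hx1' (Subtype.ext h0)
          rw [h1 x hx hx1]
          exact Subgroup.centralizer_le (by simpa using hx)
      rw [h2]
      infer_instance
    · intro hPn
      apply le_antisymm hZN
      intro x hx
      refine ⟨⟨x, hNP hx⟩, ?_, rfl⟩
      rw [SetLike.mem_coe, Subgroup.mem_center_iff]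
      intro y
      apply Subtype.ext
      show (y : G) * x = x * y
      by_cases hx1 : x = 1
      · rw [hx1]; simp
      obtain ⟨Q, hQ⟩ := hsyl x hx hx1
      have : Subsingleton (Sylow p G) := (Sylow.unique_of_normal P hPn).instSubsingleton
      have hQP : Q = P := Subsingleton.elim _ _
      have hy : (y : G) ∈ (Q : Subgroup G) := by rw [hQP]; exact y.2
      rw [hQ, Subgroup.mem_centralizer_singleton_iff] at hy
      exact hy
  · by_contra hno
    push Not at hno
    have hind : ∀ i, Subgroup.upperCentralSeries ↥(P : Subgroup G) i ≤ N.subgroupOf (P : Subgroup G) := by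
      intro i
      induction i with
      | zero => rw [Subgroup.upperCentralSeries_zero]; exact bot_le
      | succ i ih =>
        intro x hx
        by_contra hxN
        apply hno i
        have hxN' : (x : G) ∉ N := fun h0 => hxN (Subgroup.mem_subgroupOf.2 h0)
        rw [Subgroup.mem_upperCentralSeries_succ_iff] at hx
        set Z : Subgroup G := (Subgroup.upperCentralSeries ↥(P : Subgroup G) i).map
          (P : Subgroup G).subtype with hZ
        have hcomm : ∀ y ∈ (P : Subgroup G), y * (x : G) * y⁻¹ * (x : G)⁻¹ ∈ Z := by
          intro y hy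
          have h1 := hx ⟨y, hy⟩
          have h2 := Subgroup.inv_mem _ h1
          refine ⟨_, h2, ?_⟩
          simp [commutatorElement_def, mul_assoc]
        have h1 := H25.card_le_of_commutators (P : Subgroup G) Z (x : G) hcomm
        have h2 := h.card_mul_dvd hG hN hxN' p hNp P
          ((P : Subgroup G) ⊓ Subgroup.centralizer ({(x : G)} : Set G))
          (P.2.to_le inf_le_left) inf_le_right
        have h3 := Nat.le_of_dvd Nat.card_pos h2
        have h4 : 0 < Nat.card ((P : Subgroup G) ⊓ Subgroup.centralizer ({(x : G)} : Set G) : Subgroup G) :=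
          Nat.card_pos
        have h5 : Nat.card N ≤ Nat.card Z := by
          have := h3.trans h1
          exact Nat.le_of_mul_le_mul_left this h4
        have h6 : Nat.card Z = Nat.card (Subgroup.upperCentralSeries ↥(P : Subgroup G) i) :=
          Subgroup.card_map_of_injective (Subgroup.subtype_injective _)
        have h7 : Nat.card (N.subgroupOf (P : Subgroup G)) = Nat.card N :=
          Nat.card_congr (Subgroup.subgroupOfEquivOfLe hNP).toEquiv
        apply Subgroup.eq_of_le_of_card_ge ih
        rw [h7, ← h6]
        exact h5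
    have : Group.IsNilpotent ↥(P : Subgroup G) := P.2.isNilpotent
    obtain ⟨k, hk⟩ := Group.IsNilpotent.nilpotent ↥(P : Subgroup G)
    apply hno k
    apply le_antisymm (hind k)
    rw [hk]
    exact le_top

end Cfsg.Agent.S4838
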