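import Cfsg.Statements.S4856
import Mathlib
import Cfsg.Agent.H25.CommCount

set_option autoImplicit false
open Cfsg

namespace Cfsg.Agent.S4856

/-- For an element z of a finite group G, the number of pairs (x, y) of elements with x y x⁻¹ y⁻¹ = z equals the order of G times the sum over the irreducible characters χ of χ(z)/χ(1). -/
theorem result {G : Type*} [Group G] [Finite G] (z : G) : (Nat.card {xy : G × G // xy.1 * xy.2 * xy.1⁻¹ * xy.2⁻¹ = z} : ℂ) = (Nat.card G : ℂ) * ∑ᶠ χ : Cfsg.IrrCharacter G, (χ : G → ℂ) z / (χ : G → ℂ) 1 := by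
  classical
  cases nonempty_fintype G
  rw [finsum_eq_sum_of_fintype]
  have hcf : ∀ g z : G,
      Nat.card {i : G × G // i.1 * i.2 * i.1⁻¹ * i.2⁻¹ = g * z * g⁻¹} =
        Nat.card {i : G × G // i.1 * i.2 * i.1⁻¹ * i.2⁻¹ = z} := by
    intro g z
    apply Nat.card_congr
    refine ⟨fun i => ⟨(g⁻¹ * i.1.1 * g, g⁻¹ * i.1.2 * g), ?_⟩,
      fun i => ⟨(g * i.1.1 * g⁻¹, g * i.1.2 * g⁻¹), ?_⟩, ?_, ?_⟩
    · have := i.2
      calc g⁻¹ * i.1.1 * g * (g⁻¹ * i.1.2 * g) * (g⁻¹ * i.1.1 * g)⁻¹ * (g⁻¹ * i.1.2 * g)⁻¹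
          = g⁻¹ * (i.1.1 * i.1.2 * i.1.1⁻¹ * i.1.2⁻¹) * g := by group
        _ = z := by rw [this]; group
    · have := i.2
      calc g * i.1.1 * g⁻¹ * (g * i.1.2 * g⁻¹) * (g * i.1.1 * g⁻¹)⁻¹ * (g * i.1.2 * g⁻¹)⁻¹
          = g * (i.1.1 * i.1.2 * i.1.1⁻¹ * i.1.2⁻¹) * g⁻¹ := by group
        _ = g * z * g⁻¹ := by rw [this]
    · intro i
      apply Subtype.ext
      apply Prod.ext <;> simp [mul_assoc]
    · intro i
      apply Subtype.ext
      apply Prod.ext <;> simp [mul_assoc]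
  rw [H25.card_fiber_eq (fun i : G × G => i.1 * i.2 * i.1⁻¹ * i.2⁻¹) hcf z]
  have hG : (Nat.card G : ℂ) ≠ 0 := CharLib.card_ne_zero_complex
  rw [Finset.mul_sum, Finset.mul_sum]
  refine Finset.sum_congr rfl fun χ _ => ?_
  rw [H25.sum_commutator_char χ, map_div₀, map_pow, map_natCast, CharLib.conj_irr_apply_one]
  field_simp

end Cfsg.Agent.S4856
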