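import Cfsg.Statements.S4866
import Mathlib
import Cfsg.Agent.Lib.Helper10.OrbitCount
import Cfsg.Agent.Lib.Helper10.PResChar
import Cfsg.Agent.CharLib.PermLemma
-- import your own Cfsg.Agent.* helpers here

set_option autoImplicit false
open Cfsg Cfsg.Agent.CharLib Cfsg.Agent.CharLib.H2 Cfsg.Agent.Lib.Helper10
open scoped ComplexConjugate
set_option linter.style.haveILetI false

namespace Cfsg.Agent.S4866

/-- Let K be a normal subgroup of odd index in the finite group G. Then G has as many orbits on the real-valued irreducible complex characters of K (acting by conjugation) as it has orbits on the conjugacy classes of K that are real in K; equivalently, the number of G-orbits of real-valued irreducible characters of K equals the number of G-conjugacy classes of elements of K that are conjugate in K to their inverses. -/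
theorem result {G : Type*} [Group G] [Finite G] (K : Subgroup G) [K.Normal] (hodd : Odd K.index) : Nat.card (Quot (fun θ η : {θ : Cfsg.IrrCharacter ↥K // (∀ k : ↥K, ((θ : ↥K → ℂ) k).im = 0)} => ∃ g : G, ∀ k k' : ↥K, (k' : G) = g * (k : G) * g⁻¹ → (η.1 : ↥K → ℂ) k' = (θ.1 : ↥K → ℂ) k)) = Nat.card (Quot (fun x y : {x : ↥K // IsConj x x⁻¹} => ∃ g : G, (y.1 : G) = g * x.1 * g⁻¹)) := by
  classical
  cases nonempty_fintype G
  have hN : K.Normal := inferInstance
  letI a1 : MulAction G (IrrCharacter ↥K) := irrAction hN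
  letI a2 : MulAction G (ConjClasses ↥K) := classAct K
  have hsm : ∀ (g : G) (θ : IrrCharacter ↥K) (k : ↥K), ((g • θ : IrrCharacter ↥K) : ↥K → ℂ) k =
      (θ : ↥K → ℂ) ((MulAut.conjNormal g⁻¹ : ↥K ≃* ↥K) k) := by
    intro g θ k
    show H2.conjFun hN θ g⁻¹ k = _
    rw [H2.conjFun_apply]
    exact congrArg _ (Subtype.ext (by simp))
  have hsc : ∀ (g : G) (k : ↥K), (g • (ConjClasses.mk k) : ConjClasses ↥K) =
      ConjClasses.mk ((MulAut.conjNormal g : ↥K ≃* ↥K) k) := fun g k => rfl
  set σ₁ : IrrCharacter ↥K → IrrCharacter ↥K :=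
    fun θ => ⟨fun k => conj ((θ : ↥K → ℂ) k), isIrrCharacter_conj θ.2⟩ with hσ₁
  have hs1 : ∀ (θ : IrrCharacter ↥K) (k : ↥K), (σ₁ θ : ↥K → ℂ) k = conj ((θ : ↥K → ℂ) k) :=
    fun θ k => rfl
  have main := card_quot_fixed_eq (G := G) σ₁ (classInv (H := ↥K))
    (fun θ => Subtype.ext (funext fun k => by rw [hs1, hs1, Complex.conj_conj]))
    (fun C => by
      obtain ⟨k, rfl⟩ := ConjClasses.mk_surjective C
      rw [classInv_mk, classInv_mk, inv_inv])
    (fun g θ => Subtype.ext (funext fun k => by rw [hs1, hsm, hsm, hs1]))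
    (fun g C => by
      obtain ⟨k, rfl⟩ := ConjClasses.mk_surjective C
      rw [hsc, classInv_mk, classInv_mk, hsc, map_inv])
    hodd
    (fun g θ => Subtype.ext (by
      show H2.conjFun hN θ (g ^ K.index)⁻¹ = θ
      exact H2.conjFun_of_mem hN (isClassFunction_of_irr θ.2)
        (K.inv_mem (Subgroup.pow_index_mem K g))))
    (fun g C => by
      obtain ⟨k, rfl⟩ := ConjClasses.mk_surjective C
      rw [hsc]
      refine (ConjClasses.mk_eq_mk_iff_isConj.2 (isConj_iff.2
        ⟨⟨g ^ K.index, Subgroup.pow_index_mem K g⟩, Subtype.ext ?_⟩)).symm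
      rw [MulAut.conjNormal_apply]
      rfl)
    (fun g => by
      have key := card_fixed_irr_eq_card_fixed_classes (G := ↥K) (fun θ => σ₁ (g • θ))
        (fun k => ((MulAut.conjNormal g⁻¹ : ↥K ≃* ↥K) k)⁻¹) (fun θ k => by
          rw [hs1, hsm, isCharacter_inv (isCharacter_of_irr θ.2)])
      rw [key]
      refine Nat.card_congr (Equiv.subtypeEquivRight (fun C => ?_))
      obtain ⟨k, rfl⟩ := ConjClasses.mk_surjective C
      rw [hsc, classInv_mk]
      constructor
      · intro h
        exact ConjClasses.mk_eq_mk_iff_isConj.2 (h k rfl)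
      · intro h k' hk'
        have h1 := congrArg (fun C => classInv (g⁻¹ • C)) hk'
        simp only [hsc, classInv_mk] at h1
        rw [h, ← hk'] at h1
        exact ConjClasses.mk_eq_mk_iff_isConj.1 h1)
  have e1 : Nat.card (Quot (fun θ η : {θ : Cfsg.IrrCharacter ↥K // (∀ k : ↥K, ((θ : ↥K → ℂ) k).im = 0)} => ∃ g : G, ∀ k k' : ↥K, (k' : G) = g * (k : G) * g⁻¹ → (η.1 : ↥K → ℂ) k' = (θ.1 : ↥K → ℂ) k)) =
      Nat.card (Quot (fun x y : {z : IrrCharacter ↥K // σ₁ z = z} => ∃ g : G, g • x.1 = y.1)) := by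
    refine Nat.card_congr (Quot.congr (Equiv.subtypeEquivRight (fun θ => ?_)) ?_)
    · constructor
      · intro h
        exact Subtype.ext (funext fun k => by rw [hs1]; exact Complex.conj_eq_iff_im.2 (h k))
      · intro h k
        have := congrFun (congrArg Subtype.val h) k
        rw [hs1] at this
        exact Complex.conj_eq_iff_im.1 this
    · intro θ η
      show _ ↔ ∃ g : G, g • θ.1 = η.1
      constructor
      · rintro ⟨g, hg⟩
        refine ⟨g, Subtype.ext (funext fun k' => ?_)⟩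
        rw [hsm]
        refine (hg _ k' ?_).symm
        simp [mul_assoc]
      · rintro ⟨g, hg⟩
        refine ⟨g, fun k k' hk => ?_⟩
        rw [← hg, hsm]
        exact congrArg _ (Subtype.ext (by simp [hk, mul_assoc]))
  have e2 : Nat.card (Quot (fun x y : {x : ↥K // IsConj x x⁻¹} => ∃ g : G, (y.1 : G) = g * x.1 * g⁻¹)) =
      Nat.card (Quot (fun x y : {z : ConjClasses ↥K // classInv z = z} => ∃ g : G, g • x.1 = y.1)) := by
    refine card_quot_eq_of_surjective ⟨fun x => ⟨1, one_smul _ _⟩, ?_, ?_⟩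
      (fun x => ⟨ConjClasses.mk x.1, by
        rw [classInv_mk]; exact (ConjClasses.mk_eq_mk_iff_isConj.2 x.2).symm⟩) ?_ ?_
    · rintro x y ⟨g, hg⟩
      exact ⟨g⁻¹, by rw [← hg, inv_smul_smul]⟩
    · rintro x y z ⟨g, hg⟩ ⟨h, hh⟩
      exact ⟨h * g, by rw [mul_smul, hg, hh]⟩
    · rintro ⟨C, hC⟩
      obtain ⟨k, rfl⟩ := ConjClasses.mk_surjective C
      rw [classInv_mk] at hC
      exact ⟨⟨k, ConjClasses.mk_eq_mk_iff_isConj.1 hC.symm⟩, rfl⟩
    · intro x y
      show _ ↔ ∃ g : G, g • ConjClasses.mk x.1 = ConjClasses.mk y.1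
      constructor
      · rintro ⟨g, hg⟩
        refine ⟨g, ?_⟩
        rw [hsc]
        exact congrArg _ (Subtype.ext (by simp [hg]))
      · rintro ⟨g, hg⟩
        rw [hsc] at hg
        obtain ⟨c, hc⟩ := isConj_iff.1 (ConjClasses.mk_eq_mk_iff_isConj.1 hg)
        refine ⟨c * g, ?_⟩
        rw [← hc]
        simp [mul_assoc]
  rw [e1, e2, main]

end Cfsg.Agent.S4866
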