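import Cfsg.Statements.S4870
import Cfsg.Agent.Lib.Helper10.LinIrr
import Cfsg.Agent.Lib.Helper10.CliffCorr
import Cfsg.Agent.H6.Gallagher
import Cfsg.Agent.H25.Codeg
-- import your own Cfsg.Agent.* helpers here

set_option autoImplicit false
open Cfsg Cfsg.Agent.CharLib Cfsg.Agent.Lib.Helper10 Cfsg.Agent.Lib.Helper23
open scoped commutatorElement

namespace Cfsg.Agent.S4870

/-- Let G be a finite group with a non-abelian minimal normal subgroup N, and let φ be an irreducible complex character of N with stabilizer I in G (the elements g with φ(g n g⁻¹) = φ(n) for all n ∈ N) such that φ extends to an irreducible character of I. Put d = φ(1)·[G : I]. Then the number of linear characters of G is at most [G : I] times the number of irreducible characters of G of degree d. -/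
theorem result {G : Type*} [Group G] [Finite G] (N : Subgroup G) (hN : N.Normal) (hN1 : N ≠ ⊥) (hmin : ∀ M : Subgroup G, M.Normal → M ≤ N → M = ⊥ ∨ M = N) (hna : ¬ IsMulCommutative ↥N) (φ : Cfsg.IrrCharacter ↥N) (I : Subgroup G) (hI : ∀ g : G, g ∈ I ↔ ∀ n n' : ↥N, (n' : G) = g * (n : G) * g⁻¹ → (φ : ↥N → ℂ) n' = (φ : ↥N → ℂ) n) (hNI : N ≤ I) (hext : ∃ ψ : Cfsg.IrrCharacter ↥I, ∀ n : ↥N, (ψ : ↥I → ℂ) (Subgroup.inclusion hNI n) = (φ : ↥N → ℂ) n) : Nat.card {χ : Cfsg.IrrCharacter G // Cfsg.charDegree (χ : G → ℂ) = 1} ≤ I.index * Nat.card {χ : Cfsg.IrrCharacter G // Cfsg.charDegree (χ : G → ℂ) = Cfsg.charDegree (φ : ↥N → ℂ) * I.index} := by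
  classical
  cases nonempty_fintype G
  let _ : Fintype I := Fintype.ofFinite I
  let _ : Fintype N := Fintype.ofFinite N
  obtain ⟨ψ, hψ⟩ := hext
  have hcn : (⁅N, N⁆ : Subgroup G).Normal := inferInstance
  have hcle : ⁅N, N⁆ ≤ N := by
    rw [Subgroup.commutator_le]
    intro a ha b hb
    exact N.mul_mem (N.mul_mem (N.mul_mem ha hb) (N.inv_mem ha)) (N.inv_mem hb)
  have hperf : ⁅N, N⁆ = N := by
    rcases hmin ⁅N, N⁆ hcn hcle with h | h
    · exfalso
      apply hna
      rw [isMulCommutative_iff]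
      intro a b
      have h1 : ⁅(a : G), (b : G)⁆ ∈ ⁅N, N⁆ := Subgroup.commutator_mem_commutator a.2 b.2
      rw [h, Subgroup.mem_bot] at h1
      apply Subtype.ext
      exact commutatorElement_eq_one_iff_mul_comm.1 h1
    · exact h
  have htriv : ∀ (l : G →* ℂˣ), ∀ n ∈ N, l n = 1 := by
    intro l n hn
    apply hom_eq_one_of_mem_commutator
    rw [← hperf] at hn
    exact Subgroup.commutator_mono le_top le_top hn
  have hT : ∀ g : G, g ∈ I ↔ H2.conjFun hN (φ : N → ℂ) g = φ := by
    intro g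
    rw [hI]
    constructor
    · intro h; funext n; exact h n _ rfl
    · intro h n n' hn'
      have := congrFun h n
      rw [H2.conjFun_apply] at this
      rw [← this]
      have e : n' = ⟨g * n * g⁻¹, hN.conj_mem n n.2 g⟩ := Subtype.ext hn'
      rw [e]
  have hψN : (fun n : N.subgroupOf I => (ψ : I → ℂ) n) = resSub N I φ := by
    funext n
    exact hψ ⟨((n : I) : G), Subgroup.mem_subgroupOf.mp n.2⟩
  have hirrN : IsIrrCharacter (N.subgroupOf I) (fun n : N.subgroupOf I => (ψ : I → ℂ) n) := by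
    rw [hψN]; exact isIrrCharacter_resSub hNI φ.2
  have hgal := Cfsg.Agent.H6.gallagher (N.subgroupOf I) ψ.2 hirrN
  rw [hψN] at hgal
  let β : (G →* ℂˣ) → (I → ℂ) := fun l x => ((l x : ℂˣ) : ℂ)
  have hβ : ∀ l, β l ∈ {β : I → ℂ | IsIrrCharacter I β ∧
      classInner (indFun (N.subgroupOf I) (fun _ => (1 : ℂ))) β ≠ 0} := by
    intro l
    have h1 : IsIrrCharacter I (β l) := isIrrCharacter_of_hom (l.comp I.subtype)
    refine ⟨h1, ?_⟩
    rw [H2.frobenius_reciprocity _ _ (isClassFunction_of_irr h1)]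
    have h2 : (fun h : N.subgroupOf I => β l h) = fun _ => 1 := by
      funext h
      show ((l _ : ℂˣ) : ℂ) = 1
      rw [htriv l _ (Subgroup.mem_subgroupOf.mp h.2)]; rfl
    rw [h2, classInner_irr_self isIrrCharacter_one]; exact one_ne_zero
  have hcc := fun l l' => clifford_corr N I hN φ φ.2 hT hNI (β l * ψ) (β l' * ψ)
    (hgal.mapsTo (hβ l)).1 (hgal.mapsTo (hβ l')).1 (hgal.mapsTo (hβ l)).2 (hgal.mapsTo (hβ l')).2
  have hind : ∀ l, IsIrrCharacter G (indFun I (β l * ψ)) := fun l => (hcc l l).1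
  have hdeg : ∀ l, charDegree (indFun I (β l * ψ)) = charDegree (φ : N → ℂ) * I.index := by
    intro l
    apply Cfsg.Agent.H25.charDegree_of_apply_one
    rw [H2.indFun_apply_one]
    have h1 : (β l * ψ) 1 = (φ : N → ℂ) 1 := by
      show ((l _ : ℂˣ) : ℂ) * (ψ : I → ℂ) 1 = _
      have h2 := hψ 1
      rw [map_one] at h2
      rw [h2]
      simp
    rw [h1, ← charDegree_cast_irr φ]
    push_cast; ring
  have hinj : ∀ l l', indFun I (β l * ψ) = indFun I (β l' * ψ) → ∀ x ∈ I, l x = l' x := by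
    intro l l' h x hx
    have h1 : β l * ψ = β l' * ψ := by
      by_contra hne
      have h2 := (hcc l l').2 hne
      rw [← h, classInner_irr_self (hind l)] at h2
      exact one_ne_zero h2
    have h2 := hgal.injOn (hβ l) (hβ l') h1
    have h3 := congrFun h2 ⟨x, hx⟩
    exact Units.ext h3
  let F : {χ : Cfsg.IrrCharacter G // Cfsg.charDegree (χ : G → ℂ) = 1} →
      {χ : Cfsg.IrrCharacter G // Cfsg.charDegree (χ : G → ℂ)
        = Cfsg.charDegree (φ : ↥N → ℂ) * I.index} :=
    fun χ => ⟨⟨indFun I (β (homOfLin χ.1 (apply_one_of_charDegree_eq_one χ.1 χ.2)) * ψ), hind _⟩,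
      hdeg _⟩
  rw [Nat.card_eq_fintype_card, Nat.card_eq_fintype_card]
  calc Fintype.card {χ : Cfsg.IrrCharacter G // Cfsg.charDegree (χ : G → ℂ) = 1}
      = (Finset.univ : Finset {χ : Cfsg.IrrCharacter G //
          Cfsg.charDegree (χ : G → ℂ) = 1}).card := rfl
    _ ≤ I.index * (Finset.univ.image F).card := by
        apply Finset.card_le_mul_card_image
        intro a ha
        obtain ⟨χ₀, -, rfl⟩ := Finset.mem_image.1 ha
        refine le_trans ?_ (card_hom_agree_le I
          (homOfLin χ₀.1 (apply_one_of_charDegree_eq_one χ₀.1 χ₀.2)))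
        rw [← Fintype.card_subtype, ← Nat.card_eq_fintype_card]
        refine Nat.card_le_card_of_injective
          (fun χ : {χ : {χ : Cfsg.IrrCharacter G // Cfsg.charDegree (χ : G → ℂ) = 1} //
              F χ = F χ₀} =>
            (⟨homOfLin χ.1.1 (apply_one_of_charDegree_eq_one χ.1.1 χ.1.2),
              hinj _ _ (congrArg (fun z => (z.1 : G → ℂ)) χ.2)⟩ :
              {l : G →* ℂˣ // ∀ x ∈ I, l x =
                (homOfLin χ₀.1 (apply_one_of_charDegree_eq_one χ₀.1 χ₀.2)) x})) ?_
        intro a b hab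
        have h1 : homOfLin a.1.1 (apply_one_of_charDegree_eq_one a.1.1 a.1.2)
            = homOfLin b.1.1 (apply_one_of_charDegree_eq_one b.1.1 b.1.2) :=
          congrArg Subtype.val hab
        apply Subtype.ext
        apply Subtype.ext
        apply Subtype.ext
        funext g
        have h2 := congrArg (fun l : G →* ℂˣ => ((l g : ℂˣ) : ℂ)) h1
        exact h2
    _ ≤ I.index * Fintype.card {χ : Cfsg.IrrCharacter G // Cfsg.charDegree (χ : G → ℂ)
        = Cfsg.charDegree (φ : ↥N → ℂ) * I.index} :=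
        Nat.mul_le_mul_left _ (Finset.card_le_univ _)

end Cfsg.Agent.S4870
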