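import Cfsg.Statements.S4871
import Cfsg.Agent.H25.FSInvol
import Cfsg.Agent.CharLib.CliffordInd

set_option autoImplicit false
open Cfsg Cfsg.Agent.CharLib Cfsg.Agent.Lib.Helper10 Cfsg.Agent.Lib.Helper23 Cfsg.Agent.H25
open scoped ComplexConjugate

namespace Cfsg.Agent.S4871

/-- Let G be a finite group that is the semidirect product of a normal elementary abelian subgroup N of odd order by a non-trivial 2-subgroup P, with N the unique minimal normal subgroup of G. Consider the strongly real irreducible complex characters of G (Frobenius–Schur indicator +1) whose degree is 1 or even. Then their average degree is at least 4/3: four times their number is at most three times the sum of their degrees. -/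
theorem result {G : Type*} [Group G] [Finite G] (N P : Subgroup G) (hN : N.Normal) (q : ℕ) [Fact q.Prime] (hq : q ≠ 2) (hNel : Cfsg.IsElementaryAbelian q N) (hP : IsPGroup 2 ↥P) (hP1 : P ≠ ⊥) (hdisj : N ⊓ P = ⊥) (hprod : N ⊔ P = ⊤) (hmin : N ≠ ⊥ ∧ ∀ M : Subgroup G, M.Normal → M ≠ ⊥ → N ≤ M) : 4 * Nat.card {χ : Cfsg.IrrCharacter G // (Cfsg.charDegree (χ : G → ℂ) = 1 ∨ 2 ∣ Cfsg.charDegree (χ : G → ℂ)) ∧ (Nat.card G : ℂ)⁻¹ * ∑ᶠ g : G, (χ : G → ℂ) (g * g) = 1} ≤ 3 * (∑ᶠ χ : {χ : Cfsg.IrrCharacter G // (Cfsg.charDegree (χ : G → ℂ) = 1 ∨ 2 ∣ Cfsg.charDegree (χ : G → ℂ)) ∧ (Nat.card G : ℂ)⁻¹ * ∑ᶠ g : G, (χ : G → ℂ) (g * g) = 1}, Cfsg.charDegree (χ.1 : G → ℂ)) := by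
  classical
  cases nonempty_fintype G
  let _ : Fintype N := Fintype.ofFinite N
  have hcomm : ∀ a ∈ N, ∀ b ∈ N, a * b = b * a := by
    have h := hNel.1
    rw [isMulCommutative_iff] at h
    intro a ha b hb
    exact congrArg Subtype.val (h ⟨a, ha⟩ ⟨b, hb⟩)
  obtain ⟨z, hzP, hz1, hzz, hzc⟩ := InvAct.exists_central_invol P hP hP1
  have hzinv := InvAct.inverts N P hN hcomm hdisj hprod hmin hzP hz1 hzz hzc
  have hqodd : Odd q := (Fact.out : q.Prime).odd_of_ne_two hq
  have hodd : ∀ u : ℂˣ, u⁻¹ = u → u ^ q = 1 → u = 1 := by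
    intro u h1 h2
    obtain ⟨k, hk⟩ := hqodd
    have h3 : u * u = 1 := by
      calc u * u = u⁻¹ * u := by rw [h1]
        _ = 1 := inv_mul_cancel u
    rw [hk, pow_succ, pow_mul, pow_two, h3, one_pow, one_mul] at h2
    exact h2
  have htriv : ∀ (l : G →* ℂˣ), ∀ n ∈ N, l n = 1 := by
    intro l n hn
    have h1 : l (z * n * z⁻¹) = l n := by
      rw [map_mul, map_mul, map_inv, mul_comm (l z), mul_assoc, mul_inv_cancel, mul_one]
    rw [hzinv n hn, map_inv] at h1
    apply hodd _ h1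
    rw [← map_pow, hNel.2 n hn, map_one]
  obtain ⟨n₀, hn₀⟩ := (Subgroup.ne_bot_iff_exists_ne_one).1 hmin.1
  have hcomN : commutator N = ⊥ := by
    rw [commutator_def, Subgroup.commutator_eq_bot_iff_le_centralizer]
    intro a _
    rw [Subgroup.mem_centralizer_iff]
    intro b _
    exact Subtype.ext (hcomm b b.2 a a.2)
  obtain ⟨l₀, hl₀⟩ := exists_hom_ne_one_of_notMem_commutator (G := N) (g := n₀) (by
    rw [hcomN, Subgroup.mem_bot]; exact hn₀)
  set φ : IrrCharacter N := ⟨fun n => ((l₀ n : ℂˣ) : ℂ), isIrrCharacter_of_hom l₀⟩ with hφ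
  set I : Subgroup G := H2.inertia hN (φ : N → ℂ) with hI
  let _ : Fintype I := Fintype.ofFinite I
  have hT : ∀ g : G, g ∈ I ↔ H2.conjFun hN (φ : N → ℂ) g = φ := fun g => Iff.rfl
  have hNI : N ≤ I := H2.le_inertia hN (isClassFunction_of_irr φ.2)
  have hinvI : ∀ g ∈ I, ∀ n : N, l₀ ⟨g * n * g⁻¹, hN.conj_mem n n.2 g⟩ = l₀ n := by
    intro g hg n
    have := congrFun ((hT g).1 hg) n
    rw [H2.conjFun_apply] at this
    exact Units.ext this
  obtain ⟨ψ₀, hψN, hψP⟩ := InvAct.exists_extension N P I hN hdisj hprod hNI l₀ hinvI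
  set ψ : IrrCharacter I := ⟨fun x => ((ψ₀ x : ℂˣ) : ℂ), isIrrCharacter_of_hom ψ₀⟩ with hψ
  have hfs : ∀ l : G →* ℂˣ, (∀ g : G, l (g * g) = 1) →
      (Nat.card G : ℂ)⁻¹ * ∑ g : G,
        indFun I ((fun x : I => ((l x : ℂˣ) : ℂ)) * (ψ : I → ℂ)) (g * g) = 1 := by
    intro l hl
    have h := FSInd.fsInd_indFun_of_invol N P I hN hprod hNI l₀ hT hzz hzc hzinv
      ((l.comp I.subtype) * ψ₀) (by
        intro n
        rw [MonoidHom.mul_apply, hψN]
        have : (l.comp I.subtype) (Subgroup.inclusion hNI n) = 1 := htriv l _ n.2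
        rw [this, one_mul]) (by
        intro x hx
        rw [MonoidHom.mul_apply]
        have h1 : (l.comp I.subtype) (x * x) = 1 := hl x
        have h2 : ψ₀ (x * x) = 1 := by rw [map_mul, hψP x hx, one_mul]
        rw [h1, h2, one_mul])
    exact h
  have hcount := FSInd.card_lin_le N I hN φ hT hNI ψ (by
    intro n
    show ((ψ₀ _ : ℂˣ) : ℂ) = _
    rw [hψN]) htriv hfs
  have hdegφ : charDegree (φ : N → ℂ) = 1 := charDegree_hom l₀
  rw [hdegφ, one_mul] at hcount
  -- the index is even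
  have hzI : z ∉ I := by
    intro hz
    apply hl₀
    have h1 := hinvI z hz n₀
    have h2 : (⟨z * n₀ * z⁻¹, hN.conj_mem n₀ n₀.2 z⟩ : N) = n₀⁻¹ := Subtype.ext (hzinv n₀ n₀.2)
    rw [h2, map_inv] at h1
    apply hodd _ h1
    rw [← map_pow]
    have : n₀ ^ q = 1 := Subtype.ext (by simpa using hNel.2 n₀ n₀.2)
    rw [this, map_one]
  have hd2 : 2 ∣ I.index := by
    obtain ⟨-, -, -, -, hcard⟩ := InvAct.exists_retract N P hN hdisj hprod
    obtain ⟨a, ha⟩ := (IsPGroup.iff_card).1 hP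
    have h1 : I.index ∣ 2 ^ a := by
      rw [← ha, hcard]
      exact Subgroup.index_dvd_of_le hNI
    obtain ⟨k, -, hk⟩ := (Nat.dvd_prime_pow Nat.prime_two).1 h1
    rcases Nat.eq_zero_or_pos k with h0 | h0
    · exfalso
      rw [h0, pow_zero, Subgroup.index_eq_one] at hk
      apply hzI
      rw [hk]; trivial
    · rw [hk]
      exact dvd_pow_self 2 h0.ne'
  set d := I.index with hd
  have hdpos : 0 < d := Nat.pos_of_ne_zero Subgroup.index_ne_zero_of_finite
  have hd2' : 2 ≤ d := Nat.le_of_dvd hdpos hd2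
  set ν : IrrCharacter G → Prop := fun χ =>
    (Nat.card G : ℂ)⁻¹ * ∑ g : G, (χ : G → ℂ) (g * g) = 1 with hν
  set deg : IrrCharacter G → ℕ := fun χ => charDegree (χ : G → ℂ) with hdeg
  set T : Finset (IrrCharacter G) := Finset.univ.filter (fun χ => (deg χ = 1 ∨ 2 ∣ deg χ) ∧ ν χ)
    with hTdef
  have hcardS : Nat.card {χ : IrrCharacter G // (deg χ = 1 ∨ 2 ∣ deg χ) ∧ ν χ} = T.card := by
    rw [Nat.card_eq_fintype_card, Fintype.card_subtype]
  have hsumS : ∑ χ : {χ : IrrCharacter G // (deg χ = 1 ∨ 2 ∣ deg χ) ∧ ν χ}, deg χ.1 =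
      ∑ χ ∈ T, deg χ := by
    exact (Finset.sum_subtype T (p := fun χ => (deg χ = 1 ∨ 2 ∣ deg χ) ∧ ν χ)
      (by intro x; simp [hTdef]) (fun χ => deg χ)).symm
  have hcardA : Nat.card {χ : IrrCharacter G // deg χ = 1 ∧ ν χ} =
      (T.filter (fun χ => deg χ = 1)).card := by
    rw [Nat.card_eq_fintype_card, Fintype.card_subtype, hTdef, Finset.filter_filter]
    congr 1
    apply Finset.filter_congr
    intro χ _
    constructor
    · rintro ⟨h1, h2⟩; exact ⟨⟨Or.inl h1, h2⟩, h1⟩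
    · rintro ⟨⟨-, h2⟩, h1⟩; exact ⟨h1, h2⟩
  have hcardB : Nat.card {χ : IrrCharacter G // deg χ = d ∧ ν χ} =
      (T.filter (fun χ => deg χ = d)).card := by
    rw [Nat.card_eq_fintype_card, Fintype.card_subtype, hTdef, Finset.filter_filter]
    congr 1
    apply Finset.filter_congr
    intro χ _
    constructor
    · rintro ⟨h1, h2⟩; exact ⟨⟨Or.inr (h1 ▸ hd2), h2⟩, h1⟩
    · rintro ⟨⟨-, h2⟩, h1⟩; exact ⟨h1, h2⟩
  have hcount' : (T.filter (fun χ => deg χ = 1)).card ≤ d * (T.filter (fun χ => deg χ = d)).card := by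
    rw [← hcardA, ← hcardB]
    exact hcount
  have gen : ∀ p : IrrCharacter G → Prop, p = (fun χ => (deg χ = 1 ∨ 2 ∣ deg χ) ∧ ν χ) →
      4 * Nat.card (Subtype p) ≤ 3 * ∑ᶠ χ : Subtype p, charDegree (χ.1 : G → ℂ) := by
    intro p hp
    subst hp
    rw [finsum_eq_sum_of_fintype]
    show 4 * Nat.card {χ : IrrCharacter G // (deg χ = 1 ∨ 2 ∣ deg χ) ∧ ν χ} ≤
      3 * ∑ χ : {χ : IrrCharacter G // (deg χ = 1 ∨ 2 ∣ deg χ) ∧ ν χ}, deg χ.1
    rw [hcardS, hsumS]
    have hkey : ∀ χ ∈ T, (4 : ℤ) - (if deg χ = 1 then 1 else 0) + (d : ℤ) * (if deg χ = d then 1 else 0)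
        ≤ 3 * (deg χ : ℤ) := by
      intro χ hχ
      have hmem := (Finset.mem_filter.1 hχ).2.1
      have hpos : 0 < deg χ := charDegree_pos_irr χ
      by_cases h1 : deg χ = 1
      · have h2 : deg χ ≠ d := by omega
        rw [if_pos h1, if_neg h2, h1]
        norm_num
      · have h3 : 2 ≤ deg χ := by
          rcases hmem with h | h
          · exact absurd h h1
          · exact Nat.le_of_dvd hpos h
        rw [if_neg h1]
        by_cases h2 : deg χ = d
        · rw [if_pos h2, h2]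
          have : (2 : ℤ) ≤ d := by exact_mod_cast hd2'
          linarith
        · rw [if_neg h2]
          have : (2 : ℤ) ≤ deg χ := by exact_mod_cast h3
          linarith
    have hsum := Finset.sum_le_sum hkey
    rw [Finset.sum_add_distrib, Finset.sum_sub_distrib, ← Finset.mul_sum, ← Finset.mul_sum,
      Finset.sum_boole, Finset.sum_boole, Finset.sum_const, nsmul_eq_mul] at hsum
    have h5 : ((T.filter (fun χ => deg χ = 1)).card : ℤ) ≤
        (d : ℤ) * ((T.filter (fun χ => deg χ = d)).card : ℤ) := by exact_mod_cast hcount'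
    have h6 : (4 : ℤ) * (T.card : ℤ) ≤ 3 * ∑ χ ∈ T, (deg χ : ℤ) := by
      push_cast at hsum
      linarith
    exact_mod_cast h6
  apply gen
  funext χ
  rw [finsum_eq_sum_of_fintype]

end Cfsg.Agent.S4871
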