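import Cfsg.Statements.S4873
import Mathlib
import Cfsg.Agent.Lib.Helper2.OddIdx2

set_option autoImplicit false
open Cfsg

namespace Cfsg.Agent.S4873

/-- Let N be a normal subgroup of odd index in the finite group G. Then every irreducible complex character of N with Frobenius–Schur indicator +1 lies under exactly one irreducible character of G with Frobenius–Schur indicator +1. -/
theorem result {G : Type*} [Group G] [Finite G] (N : Subgroup G) [N.Normal] (hodd : Odd N.index) (φ : Cfsg.IrrCharacter ↥N) (hφ : (Nat.card ↥N : ℂ)⁻¹ * ∑ᶠ g : ↥N, (φ : ↥N → ℂ) (g * g) = 1) : ∃! χ : Cfsg.IrrCharacter G, (Nat.card G : ℂ)⁻¹ * ∑ᶠ g : G, (χ : G → ℂ) (g * g) = 1 ∧ (∑ᶠ n : ↥N, (χ : G → ℂ) n * (starRingEnd ℂ) ((φ : ↥N → ℂ) n)) ≠ 0 := by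
  classical
  cases nonempty_fintype G
  haveI : Fintype N := Fintype.ofFinite N
  simp only [finsum_eq_sum_of_fintype] at hφ ⊢
  have key := Cfsg.Agent.Lib.Helper2.fs_unique N hodd φ hφ
  have hiff : ∀ χ : Cfsg.IrrCharacter G,
      (Cfsg.classInner (fun n : N => (χ : G → ℂ) n) (φ : N → ℂ) ≠ 0 ↔
        (∑ n : ↥N, (χ : G → ℂ) n * (starRingEnd ℂ) ((φ : ↥N → ℂ) n)) ≠ 0) := by
    intro χ
    rw [Cfsg.classInner]
    have h0 : ((Nat.card N : ℂ))⁻¹ ≠ 0 := inv_ne_zero (by exact_mod_cast Nat.card_pos.ne')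
    constructor
    · intro h h1
      apply h
      rw [h1, mul_zero]
    · intro h
      exact mul_ne_zero h0 h
  obtain ⟨χ, ⟨h1, h2⟩, h3⟩ := key
  refine ⟨χ, ⟨h1, (hiff χ).mp h2⟩, ?_⟩
  rintro χ' ⟨h4, h5⟩
  exact h3 χ' ⟨h4, (hiff χ').mpr h5⟩

end Cfsg.Agent.S4873
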