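import Cfsg.Statements.S4888
import Cfsg.Agent.H25.BlockRes
import Cfsg.Agent.S0940
import Cfsg.Agent.S0939
import Cfsg.Agent.S0081
import Cfsg.Agent.Lib.Helper10.LinIrr
import Cfsg.Agent.H12.Cores
import Cfsg.Agent.H4.Frattini

set_option autoImplicit false
open Cfsg

namespace Cfsg.Agent.S4888

/-- Let G be a finite group, p a prime and M a maximal ideal of the algebraic integers containing p. Then all height-zero irreducible characters of the principal p-block of G (equivalently, all its characters of degree prime to p) have the same degree if and only if G has a normal p-complement. -/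
theorem result {G : Type*} [Group G] [Finite G] (p : ℕ) [Fact p.Prime] (M : Ideal Cfsg.AlgInt) (hM : Cfsg.IsPModular p M) : (∃ d : ℕ, ∀ χ : Cfsg.IrrCharacter G, χ ∈ (Cfsg.principalBlock M G) → Cfsg.blockHeight p (Cfsg.principalBlock M G) (χ : G → ℂ) = 0 → Cfsg.charDegree (χ : G → ℂ) = d) ↔ Cfsg.HasNormalPComplement p G := by
  classical
  cases nonempty_fintype G
  have hMp := BlockLib.isPrime_of_isPModular hM
  have htop := BlockLib.ne_top_of_isPModular hM
  have hp : p.Prime := Fact.out
  set B₀ := Cfsg.principalBlock M G with hB₀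
  have hB₀b : Cfsg.IsPBlock M B₀ := ⟨Lib.Helper23.trivIrr G, rfl⟩
  have htriv : Lib.Helper23.trivIrr G ∈ B₀ := BlockLib.SameBlock.refl' htop _
  have hinf : sInf ((fun ψ : Cfsg.IrrCharacter G => (Cfsg.charDegree (ψ : G → ℂ)).factorization p) '' B₀) = 0 := by
    apply Nat.eq_zero_of_le_zero
    apply Nat.sInf_le
    exact ⟨Lib.Helper23.trivIrr G, htriv, by
      show (Cfsg.charDegree (Lib.Helper23.trivIrr G : G → ℂ)).factorization p = 0
      rw [Lib.Helper23.charDegree_trivIrr]; simp⟩
  have hht : ∀ χ : Cfsg.IrrCharacter G, Cfsg.blockHeight p B₀ (χ : G → ℂ) = 0 ↔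
      ¬ p ∣ Cfsg.charDegree (χ : G → ℂ) := by
    intro χ
    unfold Cfsg.blockHeight
    rw [hinf, Nat.sub_zero, Nat.factorization_eq_zero_iff]
    have := (H25.charDegree_pos χ).ne'
    tauto
  constructor
  · rintro ⟨d, hd⟩
    have hd1 : d = 1 := by
      rw [← hd _ htriv ((hht _).mpr (by rw [Lib.Helper23.charDegree_trivIrr]; exact hp.one_lt.ne' ∘ Nat.dvd_one.mp)),
        Lib.Helper23.charDegree_trivIrr]
    subst hd1
    obtain ⟨P⟩ : Nonempty (Sylow p G) := inferInstance
    have : Fintype (P : Subgroup G) := Fintype.ofFinite _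
    have hfin : (B₀ : Set (Cfsg.IrrCharacter G)).Finite := Set.toFinite _
    -- the coefficient at the identity is a unit
    have ha1 : ¬ Cfsg.MemLocalIdeal M (Cfsg.blockCoeff B₀ 1) := by
      intro hcon
      have h1 := S0940.result p M hM (1 : G) (by rw [orderOf_one]; exact hp.one_lt.ne' ∘ Nat.dvd_one.mp)
      have hN : Nat.card {xy : G × G // (∃ k : ℕ, orderOf xy.1 = p ^ k) ∧ ¬ p ∣ orderOf xy.2 ∧ xy.1 * xy.2 = 1} = 1 := by
        rw [Nat.card_eq_one_iff_unique]
        refine ⟨⟨?_⟩, ⟨⟨(1, 1), ⟨0, by simp⟩, by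
          simp only [orderOf_one]; exact hp.one_lt.ne' ∘ Nat.dvd_one.mp, by simp⟩⟩⟩
        have key : ∀ a : {xy : G × G // (∃ k : ℕ, orderOf xy.1 = p ^ k) ∧ ¬ p ∣ orderOf xy.2 ∧ xy.1 * xy.2 = 1}, a.1 = (1, 1) := by
          rintro ⟨⟨x, y⟩, ⟨k, hk⟩, hy, hxy⟩
          simp only at hk hy hxy
          have hyx : y = x⁻¹ := (inv_eq_of_mul_eq_one_right hxy).symm
          rw [hyx, orderOf_inv, hk] at hy
          have hk0 : k = 0 := by
            by_contra h0
            exact hy (dvd_pow_self p h0)
          rw [hk0, pow_zero, orderOf_eq_one_iff] at hk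
          rw [hk, inv_one] at hyx
          exact Prod.ext hk hyx
        intro a b
        exact Subtype.ext ((key a).trans (key b).symm)
      rw [hN] at h1
      set R := Nat.card {y : G // ¬ p ∣ orderOf y} with hR
      have hR0 : (R : ℂ) ≠ 0 := by
        have : Nonempty {y : G // ¬ p ∣ orderOf y} :=
          ⟨⟨1, by rw [orderOf_one]; exact hp.one_lt.ne' ∘ Nat.dvd_one.mp⟩⟩
        exact_mod_cast (Nat.card_pos (α := {y : G // ¬ p ∣ orderOf y})).ne'
      have h2 := BlockLib.memLocalIdeal_sub hcon h1
      rw [sub_sub_cancel] at h2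
      have h3 := BlockLib.memLocalIdeal_mul_left (BlockLib.memLocalRing_natCast htop R) h2
      rw [Nat.cast_one, mul_one_div, div_self hR0] at h3
      exact BlockLib.not_memLocalIdeal_one h3
    -- every linear character of P extends
    have hext : ∀ μ : (P : Subgroup G) →* ℂˣ, ∃ l : G →* ℂˣ, ∀ u : (P : Subgroup G), l u = μ u := by
      intro μ
      have h1 := H25.BlockRes.sum_blockCoeff_mul (P : Subgroup G) B₀ hfin (fun u => ((μ u : ℂˣ) : ℂ))
      rw [H25.BlockRes.sum_blockCoeff_mul_pGroup hM (P : Subgroup G) P.2 B₀ hB₀b] at h1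
      simp only [map_one, Units.val_one, mul_one] at h1
      by_contra hcon
      push Not at hcon
      apply ha1
      have hterm : ∀ χ ∈ hfin.toFinset, Cfsg.MemLocalIdeal M ((χ : G → ℂ) 1 *
          (starRingEnd ℂ) (Cfsg.classInner (fun n : (P : Subgroup G) => (χ : G → ℂ) n)
            (fun u => ((μ u : ℂˣ) : ℂ)))) := by
        intro χ hχ
        have hχB : χ ∈ B₀ := hfin.mem_toFinset.mp hχ
        obtain ⟨n, hn⟩ := CharLib.classInner_char_nat
          (CharLib.isCharacter_restrict (CharLib.isCharacter_of_irr χ.2) (P : Subgroup G))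
          (CharLib.isCharacter_of_irr (CharLib.isIrrCharacter_of_hom μ))
        rw [hn, Complex.conj_natCast]
        by_cases hdv : p ∣ Cfsg.charDegree (χ : G → ℂ)
        · apply BlockLib.memLocalIdeal_mul_right _ (BlockLib.memLocalRing_natCast htop n)
          rw [H25.charDegree_irr χ, BlockLib.memLocalIdeal_natCast_iff hM]
          exact hdv
        · have hdeg := hd χ hχB ((hht χ).mpr hdv)
          have hχ1 := Lib.Helper10.apply_one_of_charDegree_eq_one χ hdeg
          obtain ⟨u, hu⟩ := hcon (Lib.Helper10.homOfLin χ hχ1)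
          have hne : (fun n : (P : Subgroup G) => (χ : G → ℂ) n) ≠ (fun u => ((μ u : ℂˣ) : ℂ)) := by
            intro he
            apply hu
            apply Units.ext
            rw [Lib.Helper10.homOfLin_apply]
            exact congrFun he u
          have hirr : Cfsg.IsIrrCharacter (P : Subgroup G) (fun n : (P : Subgroup G) => (χ : G → ℂ) n) :=
            CharLib.isIrrCharacter_of_hom ((Lib.Helper10.homOfLin χ hχ1).comp (P : Subgroup G).subtype)
          rw [CharLib.classInner_irr_ne hirr (CharLib.isIrrCharacter_of_hom μ) hne] at hn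
          rw [← hn, mul_zero]
          exact BlockLib.memLocalIdeal_zero htop
      have hsum := BlockLib.memLocalIdeal_sum hfin.toFinset _ hterm
      have hidx : (Nat.card G : ℂ) = (Nat.card (P : Subgroup G) : ℂ) * ((P : Subgroup G).index : ℂ) := by
        rw [← Nat.cast_mul, Subgroup.card_mul_index]
      have hP0 : (Nat.card (P : Subgroup G) : ℂ) ≠ 0 := by exact_mod_cast Nat.card_pos.ne'
      have hi0 : ((P : Subgroup G).index : ℂ) ≠ 0 := by
        exact_mod_cast (Subgroup.index_ne_zero_of_finite)
      rw [h1, hidx]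
      have e : ((Nat.card (P : Subgroup G) : ℂ) * ((P : Subgroup G).index : ℂ))⁻¹ *
          (Nat.card (P : Subgroup G) : ℂ) = (((P : Subgroup G).index : ℕ) : ℂ)⁻¹ := by
        field_simp
      rw [e]
      exact BlockLib.memLocalIdeal_mul_left (BlockLib.memLocalRing_natCast_inv hM P.not_dvd_index) hsum
    -- Tate
    rw [H12.hasNormalPComplement_iff]
    set R := Cfsg.pResidual p G with hR
    have hRP : R ⊓ (P : Subgroup G) ≤ (frattini (P : Subgroup G)).map (P : Subgroup G).subtype := by
      rintro x ⟨hxR, hxP⟩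
      have hnil : Group.IsNilpotent (P : Subgroup G) := P.2.isNilpotent
      refine ⟨⟨x, hxP⟩, H4.commutator_le_frattini_of_nilpotent ?_, rfl⟩
      by_contra hnot
      obtain ⟨μ, hμ⟩ := Lib.Helper10.exists_hom_ne_one_of_notMem_commutator hnot
      obtain ⟨l, hl⟩ := hext μ
      apply hμ
      rw [← hl]
      change l x = 1
      set m := (P : Subgroup G).index with hm
      have hle : R ≤ (l ^ m).ker := by
        rw [hR, Cfsg.pResidual, Subgroup.closure_le]
        intro g hg
        change (l ^ m) g = 1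
        rw [MonoidHom.pow_apply, ← map_pow]
        have h1 : orderOf g ∣ Nat.card (P : Subgroup G) * m := by
          rw [hm, Subgroup.card_mul_index]; exact orderOf_dvd_natCard g
        obtain ⟨k, hk⟩ := IsPGroup.iff_card.mp P.2
        have h2 : orderOf g ∣ m := by
          rw [hk] at h1
          exact (Nat.Coprime.dvd_mul_left (Nat.Coprime.pow_right k hg)).mp h1
        rw [orderOf_dvd_iff_pow_eq_one.mp h2, map_one]
      have h1 : (l x) ^ m = 1 := hle hxR
      obtain ⟨k, hk⟩ := P.2 ⟨x, hxP⟩
      have hk' : x ^ p ^ k = 1 := congrArg Subtype.val hk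
      have h2 : (l x) ^ p ^ k = 1 := by rw [← map_pow, hk', map_one]
      have hco : (p ^ k).Coprime m :=
        Nat.Coprime.pow_left k ((Nat.Prime.coprime_iff_not_dvd hp).mpr P.not_dvd_index)
      have := pow_gcd_eq_one.mpr ⟨h2, h1⟩
      rwa [hco.gcd_eq_one, pow_one] at this
    have hT := S0081.result P R hRP
    rw [H12.hasNormalPComplement_iff] at hT
    have htopR : Cfsg.pResidual p R = ⊤ := by
      rw [eq_top_iff]
      have h1 : R ≤ (Cfsg.pResidual p R).map R.subtype := by
        conv_lhs => rw [hR, Cfsg.pResidual]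
        rw [Subgroup.closure_le]
        intro g hg
        have hgR : g ∈ R := H12.mem_pResidual hg
        refine ⟨⟨g, hgR⟩, H12.mem_pResidual ?_, rfl⟩
        rw [Subgroup.orderOf_mk]
        exact hg
      intro x _
      obtain ⟨y, hy, hyx⟩ := h1 x.2
      have : y = x := Subtype.ext hyx
      rwa [← this]
    rw [htopR, Subgroup.card_top] at hT
    exact hT
  · intro hnc
    refine ⟨1, fun χ hχ hh => ?_⟩
    obtain ⟨P, N, hN, hc⟩ := hnc
    have hidx : N.index = Nat.card P := hc.symm.index_eq_card
    obtain ⟨b, hb⟩ := IsPGroup.iff_card.mp P.2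
    have hNc : (Nat.card N).Coprime p := by
      have h1 := hc.card_mul_card
      have h2 := (P : Subgroup G).card_mul_index
      have h3 : Nat.card N = (P : Subgroup G).index := by
        have hpos : 0 < Nat.card (P : Subgroup G) := Nat.card_pos
        have : Nat.card (P : Subgroup G) * Nat.card N = Nat.card (P : Subgroup G) * (P : Subgroup G).index := by
          rw [h2, mul_comm]; exact h1
        exact Nat.eq_of_mul_eq_mul_left hpos this
      rw [h3]
      exact ((Nat.Prime.coprime_iff_not_dvd hp).mpr P.not_dvd_index).symm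
    have hle : N ≤ Cfsg.pPrimeCore p G := H12.le_pPrimeCore hN hNc
    have hdv : (Cfsg.pPrimeCore p G).index ∣ p ^ b := by
      rw [← hb, ← hidx]; exact Subgroup.index_dvd_of_le hle
    obtain ⟨k, -, hk⟩ := (Nat.dvd_prime_pow hp).mp hdv
    have h1 := S0939.result p M hM ⟨k, hk⟩
    rw [← hB₀] at h1
    rw [h1] at hχ
    have hker : Cfsg.pPrimeCore p G ≤ H25.kerSub χ := fun x hx => hχ x hx
    have h2 : Cfsg.charDegree (χ : G → ℂ) ∣ p ^ k := by
      rw [← hk]
      exact (H25.charDegree_dvd_index_kerSub χ).trans (Subgroup.index_dvd_of_le hker)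
    obtain ⟨j, -, hj⟩ := (Nat.dvd_prime_pow hp).mp h2
    have h3 := (hht χ).mp hh
    rw [hj] at h3 ⊢
    rcases j with _ | j
    · rfl
    · exact absurd (dvd_pow_self p (Nat.succ_ne_zero j)) h3

end Cfsg.Agent.S4888
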