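import Cfsg.Statements.S4911
import Mathlib
import Cfsg.Agent.Lib.Helper2.GlauReal
import Cfsg.Agent.S0160

set_option autoImplicit false
open Cfsg

namespace Cfsg.Agent.S4911

/-- Let P and K be subgroups of a finite group with P a p-group normalizing K and K of order prime to p. Then the number of P-invariant real-valued irreducible complex characters of K equals the number of conjugacy classes of K that are real (closed under inversion) and P-invariant. Moreover, if every real-valued irreducible character of K is P-invariant, then every real element of K (one conjugate in K to its inverse) is conjugate in K to an element centralized by P. -/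
theorem result {G : Type*} [Group G] [Finite G] (p : ℕ) [Fact p.Prime] (P K : Subgroup G) (hP : IsPGroup p ↥P) (hK : ¬ p ∣ Nat.card ↥K) (hPK : P ≤ Subgroup.normalizer (K : Set G)) : Nat.card {θ : Cfsg.IrrCharacter ↥K // (∀ k : ↥K, ((θ : ↥K → ℂ) k).im = 0) ∧ (∀ x ∈ P, ∀ k k' : ↥K, (k' : G) = x * (k : G) * x⁻¹ → (θ : ↥K → ℂ) k' = (θ : ↥K → ℂ) k)} = Nat.card {c : ConjClasses ↥K // (∀ k : ↥K, ConjClasses.mk k = c → IsConj k k⁻¹) ∧ ∀ k : ↥K, ConjClasses.mk k = c → ∀ x ∈ P, ∀ k' : ↥K, (k' : G) = x * (k : G) * x⁻¹ → ConjClasses.mk k' = c} ∧ ((∀ θ : Cfsg.IrrCharacter ↥K, (∀ k : ↥K, ((θ : ↥K → ℂ) k).im = 0) → (∀ x ∈ P, ∀ k k' : ↥K, (k' : G) = x * (k : G) * x⁻¹ → (θ : ↥K → ℂ) k' = (θ : ↥K → ℂ) k)) → ∀ k : ↥K, IsConj k k⁻¹ → ∃ k' : ↥K, IsConj k k' ∧ ∀ x ∈ P, x * (k' : G) * x⁻¹ = (k' : G)) := by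
  classical
  open Cfsg.Agent.Lib.Helper2 Cfsg.Agent.CharLib in
  have hp : p.Prime := Fact.out
  have hnorm : Nrm K P := fun s hs g hg => (Subgroup.mem_normalizer_iff.mp (hPK hs) g).mp hg
  obtain ⟨M, hM⟩ := Cfsg.Agent.Lib.Helper23.exists_isPModular p hp
  have h : GP K P (K ⊓ Subgroup.centralizer (P : Set G)) p M :=
    ⟨hnorm, inferInstance, hP, hM, hK, rfl⟩
  have e1 : Nat.card {c : ConjClasses ↥K // (∀ k : ↥K, ConjClasses.mk k = c → IsConj k k⁻¹) ∧
      ∀ k : ↥K, ConjClasses.mk k = c → ∀ x ∈ P, ∀ k' : ↥K, (k' : G) = x * (k : G) * x⁻¹ →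
        ConjClasses.mk k' = c}
      = Nat.card {c : ConjClasses ↥K // (∀ k : ↥K, ConjClasses.mk k = c → IsConj k k⁻¹) ∧
        ClInv K P c} := by
    refine Nat.card_congr (Equiv.subtypeEquivRight fun c => and_congr_right fun _ => ?_)
    exact ⟨fun hh s hs g g' hg hgc => hh g hgc s hs g' hg,
      fun hh k hk x hx k' hk' => hh x hx k k' hk' hk⟩
  have main : Nat.card {θ : Cfsg.IrrCharacter ↥K // (∀ k : ↥K, ((θ : ↥K → ℂ) k).im = 0) ∧
      SInv K P (θ : K → ℂ)}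
      = Nat.card {c : ConjClasses ↥K // (∀ k : ↥K, ConjClasses.mk k = c → IsConj k k⁻¹) ∧
        ClInv K P c} := by
    rw [h.card_real_sInv, h.card_real_clInv]
    exact Cfsg.Agent.S0160.result
  refine ⟨main.trans e1.symm, ?_⟩
  intro hall k hk
  have e2 : Nat.card {θ : Cfsg.IrrCharacter ↥K // (∀ k : ↥K, ((θ : ↥K → ℂ) k).im = 0) ∧
      SInv K P (θ : K → ℂ)}
      = Nat.card {θ : Cfsg.IrrCharacter ↥K // ∀ k : ↥K, ((θ : ↥K → ℂ) k).im = 0} :=
    Nat.card_congr (Equiv.subtypeEquivRight fun θ => ⟨fun hh => hh.1, fun hh => ⟨hh, hall θ hh⟩⟩)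
  have e3 : Nat.card {c : ConjClasses ↥K // ∀ k : ↥K, ConjClasses.mk k = c → IsConj k k⁻¹}
      ≤ Nat.card {c : ConjClasses ↥K // (∀ k : ↥K, ConjClasses.mk k = c → IsConj k k⁻¹) ∧
        ClInv K P c} := by
    rw [← main, e2, Cfsg.Agent.S0160.result]
  let j : {c : ConjClasses ↥K // (∀ k : ↥K, ConjClasses.mk k = c → IsConj k k⁻¹) ∧ ClInv K P c} →
      {c : ConjClasses ↥K // ∀ k : ↥K, ConjClasses.mk k = c → IsConj k k⁻¹} :=
    fun c => ⟨c.1, c.2.1⟩
  have hj : Function.Injective j := fun c c' hh =>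
    Subtype.ext (congrArg (fun z : {c : ConjClasses ↥K // ∀ k : ↥K, ConjClasses.mk k = c → IsConj k k⁻¹} => z.1) hh)
  have hreal : ∀ g : K, ConjClasses.mk g = ConjClasses.mk k → IsConj g g⁻¹ := by
    intro g hg
    have h1 : IsConj g k := ConjClasses.mk_eq_mk_iff_isConj.mp hg
    have h3 : IsConj g⁻¹ k⁻¹ := by
      obtain ⟨x, hx⟩ := isConj_iff.mp h1
      exact isConj_iff.mpr ⟨x, by rw [← hx]; group⟩
    exact h1.trans (hk.trans h3.symm)
  obtain ⟨c, hc⟩ := (hj.bijective_of_nat_card_le e3).2 ⟨ConjClasses.mk k, hreal⟩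
  have hc1 : c.1 = ConjClasses.mk k := congrArg Subtype.val hc
  have hinv : ClInv K P (ConjClasses.mk k) := hc1 ▸ c.2.2
  obtain ⟨b, hb⟩ := h.exists_fixed_conj k hinv
  refine ⟨Subgroup.inclusion h.le b, hb, fun x hx => ?_⟩
  have h1 := Subgroup.mem_centralizer_iff.mp (Subgroup.mem_inf.mp b.2).2 x hx
  show x * (b : G) * x⁻¹ = b
  rw [h1]
  group

end Cfsg.Agent.S4911
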