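import Cfsg.Statements.S4914
import Mathlib
import Cfsg.Agent.Lib.Helper2.RelGlau4

set_option autoImplicit false
open Cfsg

namespace Cfsg.Agent.S4914

/-- Let P and K be subgroups of a finite group G with P a p-group normalizing K, and suppose K has a normal Sylow p-subgroup Q. Let C be the subgroup of those k ∈ K whose commutator with every element of P lies in Q (so that C/Q is the fixed-point subgroup of P on K/Q). Then there is a bijection f from the P-invariant irreducible complex characters of K onto the P-invariant irreducible complex characters of C such that, for every P-invariant irreducible character χ of K, the multiplicity of f(χ) in the restriction of χ to C is a natural number congruent to 1 or to −1 modulo p, every other P-invariant irreducible character of C occurs in that restriction with multiplicity divisible by p, and the degrees of χ and f(χ) are congruent modulo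 p up to sign. -/
theorem result {G : Type*} [Group G] [Finite G] (p : ℕ) [Fact p.Prime] (P K Q C : Subgroup G) (hP : IsPGroup p ↥P) (hPK : P ≤ Subgroup.normalizer (K : Set G)) (hQK : Q ≤ K) (hQn : ∀ k ∈ K, ∀ q ∈ Q, k * q * k⁻¹ ∈ Q) (hQp : ∃ a : ℕ, Nat.card ↥Q = p ^ a) (hQsyl : ¬ p ∣ Q.relIndex K) (hCK : C ≤ K) (hC : ∀ k : G, k ∈ C ↔ (k ∈ K ∧ ∀ x ∈ P, x * k * x⁻¹ * k⁻¹ ∈ Q)) : ∃ f : {χ : Cfsg.IrrCharacter ↥K // (∀ x ∈ P, ∀ k k' : ↥K, (k' : G) = x * (k : G) * x⁻¹ → (χ : ↥K → ℂ) k' = (χ : ↥K → ℂ) k)} → {ξ : Cfsg.IrrCharacter ↥C // (∀ x ∈ P, ∀ k k' : ↥C, (k' : G) = x * (k : G) * x⁻¹ → (ξ : ↥C → ℂ) k' = (ξ : ↥C → ℂ) k)}, Function.Bijective f ∧ ∀ χ, (∀ ξ : {ξ : Cfsg.IrrCharacter ↥C // (∀ x ∈ P, ∀ k k' : ↥C, (k' : G) = x * (k : G) * x⁻¹ → (ξ : ↥C → ℂ) k' = (ξ : ↥C → ℂ) k)}, ∃ m : ℕ, (Nat.card ↥C : ℂ)⁻¹ * ∑ᶠ c : ↥C, (χ.1 : ↥K → ℂ) (Subgroup.inclusion hCK c) * (starRingEnd ℂ) ((ξ.1 : ↥C → ℂ) c)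 = (m : ℂ) ∧ (ξ = f χ → ((m : ZMod p) = 1 ∨ (m : ZMod p) = -1)) ∧ (ξ ≠ f χ → p ∣ m)) ∧ ((Cfsg.charDegree ((f χ).1 : ↥C → ℂ) : ZMod p) = (Cfsg.charDegree (χ.1 : ↥K → ℂ) : ZMod p) ∨ (Cfsg.charDegree ((f χ).1 : ↥C → ℂ) : ZMod p) = -(Cfsg.charDegree (χ.1 : ↥K → ℂ) : ZMod p)) := by
  classical
  have hnK : Lib.Helper2.Nrm Q K := hQn
  have hTP : Lib.Helper2.Nrm K P :=
    fun x hx k hk => ((Subgroup.mem_normalizer_iff.mp (hPK hx)) k).mp hk
  obtain ⟨a, ha⟩ := hQp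
  have hQpg : IsPGroup p Q := IsPGroup.of_card ha
  have hnP : Lib.Helper2.Nrm Q P := by
    intro x hx q hq
    have hz : x * q * x⁻¹ ∈ K := hTP x hx q (hQK hq)
    rw [← Lib.Helper2.qh_eq_one_iff hnK ⟨_, hz⟩]
    have h1 : (Lib.Helper2.qh hnK ⟨x * q * x⁻¹, hz⟩) ^ (p ^ a) = 1 := by
      rw [← map_pow]
      have h2 : (⟨x * q * x⁻¹, hz⟩ : K) ^ (p ^ a) = 1 := by
        apply Subtype.ext
        have h3 : (⟨q, hq⟩ : Q) ^ (p ^ a) = 1 := by
          rw [← ha]; exact pow_card_eq_one'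
        have h4 : q ^ (p ^ a) = 1 := congrArg Subtype.val h3
        show (x * q * x⁻¹) ^ (p ^ a) = 1
        rw [conj_pow, h4]
        simp
      rw [h2, map_one]
    have h2 : (Lib.Helper2.qh hnK ⟨x * q * x⁻¹, hz⟩) ^ (Q.relIndex K) = 1 := by
      rw [← Lib.Helper2.card_range_qh hnK]
      have h3 := pow_card_eq_one' (G := (Lib.Helper2.qh hnK).range)
        (x := ⟨Lib.Helper2.qh hnK ⟨x * q * x⁻¹, hz⟩, ⟨_, rfl⟩⟩)
      exact congrArg Subtype.val h3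
    have hc : Nat.Coprime (p ^ a) (Q.relIndex K) :=
      Nat.Coprime.pow_left a ((Nat.Prime.coprime_iff_not_dvd (Fact.out : p.Prime)).mpr hQsyl)
    exact orderOf_eq_one_iff.mp (Nat.eq_one_of_dvd_coprimes hc (orderOf_dvd_of_pow_eq_one h1)
      (orderOf_dvd_of_pow_eq_one h2))
  have h : Lib.Helper2.RQ K C Q P p := ⟨hQK, hnK, hnP, hTP, hP, hQsyl, hC⟩
  letI : Fintype K := Fintype.ofFinite _
  letI : Fintype C := Fintype.ofFinite _
  letI : Fintype Q := Fintype.ofFinite _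
  have hconv : ∀ (χ : IrrCharacter K) (ξ : IrrCharacter C),
      (Nat.card ↥C : ℂ)⁻¹ * ∑ᶠ c : ↥C, (χ : ↥K → ℂ) (Subgroup.inclusion hCK c) *
        (starRingEnd ℂ) ((ξ : ↥C → ℂ) c) =
      classInner (Lib.Helper2.resTo h.hDT (χ : K → ℂ)) (ξ : C → ℂ) := by
    intro χ ξ
    rw [finsum_eq_sum_of_fintype, classInner]
    rfl
  have hpm : ∀ m : ℕ, ((m : ℤ) ≡ 1 [ZMOD p] ∨ (m : ℤ) ≡ -1 [ZMOD p]) →
      ((m : ZMod p) = 1 ∨ (m : ZMod p) = -1) := by
    intro m hm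
    rcases hm with hm | hm
    · left
      have := (ZMod.intCast_eq_intCast_iff _ _ p).mpr hm
      push_cast at this
      exact this
    · right
      have := (ZMod.intCast_eq_intCast_iff _ _ p).mpr hm
      push_cast at this
      exact this
  have hndvd : ∀ m : ℕ, ((m : ZMod p) = 1 ∨ (m : ZMod p) = -1) → ¬ p ∣ m := by
    intro m hm hd
    have h0 : (m : ZMod p) = 0 := (ZMod.natCast_eq_zero_iff m p).mpr hd
    rw [h0] at hm
    rcases hm with hm | hm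
    · exact zero_ne_one hm
    · exact zero_ne_one (neg_eq_zero.mp hm.symm).symm
  choose F hF1 hF2 hF3 using
    fun χ : {χ : IrrCharacter K // Lib.Helper2.SInv K P (χ : K → ℂ)} => h.glob1 hQpg χ.1 χ.2
  choose mF hmF1 hmF2 using hF2
  refine ⟨fun χ => ⟨F χ, hF1 χ⟩, ⟨?_, ?_⟩, fun χ => ⟨fun ξ => ?_, ?_⟩⟩
  · intro χ₁ χ₂ he
    have he' : F χ₁ = F χ₂ := congrArg Subtype.val he
    apply Subtype.ext
    refine h.glob3 hQpg (F χ₁) (hF1 χ₁) χ₁.1 χ₂.1 χ₁.2 χ₂.2 (mF χ₁) (mF χ₂) (hmF1 χ₁)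
      (hndvd _ (hpm _ (hmF2 χ₁))) ?_ (hndvd _ (hpm _ (hmF2 χ₂)))
    rw [he']
    exact hmF1 χ₂
  · intro ξ
    obtain ⟨χ, hχ, m, hm, hp⟩ := h.glob2 hQpg ξ.1 ξ.2
    refine ⟨⟨χ, hχ⟩, ?_⟩
    apply Subtype.ext
    by_contra hne
    exact hp (hF3 ⟨χ, hχ⟩ ξ.1 ξ.2 (fun e => hne e.symm) m hm)
  · obtain ⟨m, hm⟩ := Lib.Helper2.GP.exists_mult h.hDT χ.1 ξ.1
    refine ⟨m, by rw [hconv]; exact hm, ?_, ?_⟩
    · intro he
      have he' : ξ.1 = F χ := congrArg Subtype.val he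
      have : m = mF χ := by
        have h1 := hm.symm.trans ((congrArg (fun β : IrrCharacter C =>
          classInner (Lib.Helper2.resTo h.hDT (χ.1 : K → ℂ)) (β : C → ℂ)) he').trans (hmF1 χ))
        exact_mod_cast h1
      rw [this]
      exact hpm _ (hmF2 χ)
    · intro hne
      exact hF3 χ ξ.1 ξ.2 (fun e => hne (Subtype.ext e)) m hm
  · have hd := h.deg χ.1 χ.2 (F χ) (hF1 χ) (mF χ) (hmF1 χ) (hF3 χ)
    show (Cfsg.charDegree ((F χ : IrrCharacter C) : ↥C → ℂ) : ZMod p) = _ ∨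
      (Cfsg.charDegree ((F χ : IrrCharacter C) : ↥C → ℂ) : ZMod p) = _
    rw [hd]
    rcases hpm _ (hmF2 χ) with e | e
    · left; rw [e, one_mul]
    · right; rw [e]; ring

end Cfsg.Agent.S4914
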