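import Cfsg.Statements.S4969
import Mathlib
import Cfsg.Agent.CharLib.Orth

set_option autoImplicit false
open Cfsg

namespace Cfsg.Agent.S4969

/-- Let G be a finite group with k conjugacy classes, g ∈ G, and N > 0. Then the sum over the irreducible complex characters χ of G with χ(1) ≥ N of |χ(g)|/χ(1) is at most √(k · #C_G(g)) / N. -/
theorem result {G : Type*} [Group G] [Finite G] (g : G) (N : ℝ) (hN : 0 < N) :
    ∑ᶠ χ : Cfsg.IrrCharacter G, (if N ≤ ‖(χ : G → ℂ) 1‖ then ‖(χ : G → ℂ) g‖ / ‖(χ : G → ℂ) 1‖ else 0) ≤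
      Real.sqrt ((Nat.card (ConjClasses G) : ℝ) * (Nat.card ↥(Subgroup.centralizer ({g} : Set G)) : ℝ)) / N := by
  classical
  cases nonempty_fintype G
  rw [finsum_eq_sum_of_fintype]
  have hterm : ∀ χ : Cfsg.IrrCharacter G,
      (if N ≤ ‖(χ : G → ℂ) 1‖ then ‖(χ : G → ℂ) g‖ / ‖(χ : G → ℂ) 1‖ else 0) ≤
        ‖(χ : G → ℂ) g‖ / N := by
    intro χ
    split_ifs with h
    · exact div_le_div_of_nonneg_left (norm_nonneg _) hN h
    · exact div_nonneg (norm_nonneg _) hN.le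
  refine (Finset.sum_le_sum fun χ _ => hterm χ).trans ?_
  rw [← Finset.sum_div]
  apply div_le_div_of_nonneg_right _ hN.le
  -- Cauchy-Schwarz
  have hcs : (∑ χ : Cfsg.IrrCharacter G, ‖(χ : G → ℂ) g‖) ^ 2 ≤
      (Fintype.card (Cfsg.IrrCharacter G) : ℝ) * ∑ χ : Cfsg.IrrCharacter G, ‖(χ : G → ℂ) g‖ ^ 2 := by
    have := sq_sum_le_card_mul_sum_sq (s := (Finset.univ : Finset (Cfsg.IrrCharacter G)))
      (f := fun χ => ‖(χ : G → ℂ) g‖)
    simpa using this
  have hsq : ∑ χ : Cfsg.IrrCharacter G, ‖(χ : G → ℂ) g‖ ^ 2 =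
      (Nat.card ↥(Subgroup.centralizer ({g} : Set G)) : ℝ) := by
    have h1 := CharLib.sum_irr_mul_conj_self g
    have h2 : ∀ χ : Cfsg.IrrCharacter G, (χ : G → ℂ) g * (starRingEnd ℂ) ((χ : G → ℂ) g) =
        ((‖(χ : G → ℂ) g‖ ^ 2 : ℝ) : ℂ) := by
      intro χ
      rw [Complex.mul_conj, Complex.normSq_eq_norm_sq]
    simp only [h2] at h1
    rw [← Complex.ofReal_sum] at h1
    exact_mod_cast h1
  have hcard : (Fintype.card (Cfsg.IrrCharacter G) : ℝ) = (Nat.card (ConjClasses G) : ℝ) := by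
    rw [← CharLib.card_irrCharacter, Nat.card_eq_fintype_card]
  rw [hsq, hcard] at hcs
  exact Real.le_sqrt_of_sq_le hcs

end Cfsg.Agent.S4969
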