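import Cfsg.Statements.S4989
import Mathlib
import Cfsg.Agent.H25.Zeros

set_option autoImplicit false
open Cfsg

namespace Cfsg.Agent.S4989

/-- Let H be a subgroup of the finite group G and χ an irreducible complex character of G. Then the inner product of the restriction of χ to H with itself, (1/#H)·Σ_{h ∈ H} |χ(h)|², is at most 1 + #(Z ∖ H)/#H, where Z is the set of zeros of χ in G. -/
theorem result {G : Type*} [Group G] [Finite G] (H : Subgroup G) (χ : Cfsg.IrrCharacter G) : (Nat.card ↥H : ℝ)⁻¹ * ∑ᶠ h : ↥H, ‖(χ : G → ℂ) h‖ ^ 2 ≤ 1 + (Set.ncard ({x : G | (χ : G → ℂ) x = 0} \ (H : Set G)) : ℝ) / (Nat.card ↥H : ℝ) := by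
  classical
  cases nonempty_fintype G
  obtain ⟨n, ρ, hirr, hρ⟩ := χ.2
  set f : G → ℝ := fun g => Complex.normSq ((χ : G → ℂ) g) with hf
  have hHpos : (0 : ℝ) < Nat.card H := by exact_mod_cast Nat.card_pos
  -- total sum
  have hsG : ∑ g : G, f g = (Nat.card G : ℝ) := by
    have hnG : classInner (χ : G → ℂ) (χ : G → ℂ) = 1 := CharLib.classInner_irr_self χ.2
    have hG : (Nat.card G : ℂ) ≠ 0 := by exact_mod_cast Nat.card_pos.ne'
    have h1 : ∑ g : G, (χ : G → ℂ) g * (starRingEnd ℂ) ((χ : G → ℂ) g) = (Nat.card G : ℂ) := by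
      rw [classInner] at hnG
      field_simp at hnG
      exact hnG
    have h2 : ((∑ g : G, f g : ℝ) : ℂ) = ((Nat.card G : ℝ) : ℂ) := by
      push_cast
      rw [← h1]
      exact Finset.sum_congr rfl fun g _ => (Complex.mul_conj _).symm
    exact_mod_cast h2
  set A : Finset G := Finset.univ.filter (fun g => g ∈ H) with hA
  set Z : Finset G := Finset.univ.filter (fun g => g ∉ H ∧ (χ : G → ℂ) g = 0) with hZ
  set S : Finset G := Finset.univ.filter (fun g => g ∉ H ∧ (χ : G → ℂ) g ≠ 0) with hS
  have hcard : A.card + Z.card + S.card = Nat.card G := by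
    rw [Nat.card_eq_fintype_card, ← Finset.card_univ]
    rw [← Finset.card_union_of_disjoint, ← Finset.card_union_of_disjoint]
    · congr 1
      ext g
      simp only [hA, hZ, hS, Finset.mem_union, Finset.mem_filter, Finset.mem_univ, true_and]
      tauto
    · rw [Finset.disjoint_left]
      intro g hg
      simp only [hA, hZ, hS, Finset.mem_union, Finset.mem_filter, Finset.mem_univ, true_and] at hg ⊢
      tauto
    · rw [Finset.disjoint_left]
      intro g hg
      simp only [hA, hZ, Finset.mem_filter, Finset.mem_univ, true_and] at hg ⊢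
      tauto
  have hsum : ∑ g : G, f g = ∑ g ∈ A, f g + ∑ g ∈ S, f g := by
    rw [← Finset.sum_filter_add_sum_filter_not Finset.univ (fun g => g ∈ H) f]
    congr 1
    rw [← Finset.sum_filter_add_sum_filter_not (Finset.univ.filter (fun g => g ∉ H))
      (fun g => (χ : G → ℂ) g = 0) f, Finset.filter_filter, Finset.filter_filter]
    rw [Finset.sum_eq_zero, zero_add]
    intro g hg
    simp only [Finset.mem_filter, Finset.mem_univ, true_and] at hg
    simp [hf, hg.2]
  have hSle : (S.card : ℝ) ≤ ∑ g ∈ S, f g := by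
    have := H25.card_le_sum_normSq_of_closed ρ S (by
      intro m hm g hg
      simp only [hS, Finset.mem_filter, Finset.mem_univ, true_and] at hg ⊢
      refine ⟨fun h0 => hg.1 ((H25.pow_mem_iff_of_coprime H hm g).1 h0), ?_⟩
      rw [← hρ]
      exact H25.character_pow_ne_zero ρ (by rw [hρ]; exact hg.2) hm) (by
      intro g hg
      simp only [hS, Finset.mem_filter, Finset.mem_univ, true_and] at hg
      rw [hρ]; exact hg.2)
    rw [hρ] at this
    exact this
  have hAcard : A.card = Nat.card H := by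
    rw [Nat.card_eq_fintype_card, Fintype.card_subtype]
  have hZcard : Set.ncard ({x : G | (χ : G → ℂ) x = 0} \ (H : Set G)) = Z.card := by
    rw [← Set.ncard_coe_finset]
    congr 1
    ext g
    simp only [hZ, Set.mem_sdiff, Finset.coe_filter, Finset.mem_univ, true_and, SetLike.mem_coe]
    constructor
    · intro h; exact ⟨h.2, h.1⟩
    · intro h; exact ⟨h.2, h.1⟩
  have hAsum : ∑ᶠ h : ↥H, ‖(χ : G → ℂ) h‖ ^ 2 = ∑ g ∈ A, f g := by
    rw [finsum_eq_sum_of_fintype]
    rw [hA, Finset.sum_subtype (p := fun g => g ∈ H) (Finset.univ.filter (fun g => g ∈ H))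
      (by intro x; simp)]
    refine Finset.sum_congr rfl fun h _ => ?_
    exact (Complex.normSq_eq_norm_sq _).symm
  rw [hAsum, hZcard]
  have hcard' : (A.card : ℝ) + Z.card + S.card = Nat.card G := by exact_mod_cast hcard
  have key : ∑ g ∈ A, f g ≤ (Nat.card H : ℝ) + Z.card := by
    rw [← hAcard]
    linarith
  rw [inv_mul_le_iff₀ hHpos]
  have : (Nat.card H : ℝ) * (1 + (Z.card : ℝ) / (Nat.card H : ℝ)) = (Nat.card H : ℝ) + Z.card := by
    field_simp
  rw [this]
  exact key

end Cfsg.Agent.S4989
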