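import Cfsg.Statements.S5001
import Cfsg.Agent.H25.HeightZero

set_option autoImplicit false
open Cfsg

namespace Cfsg.Agent.S5001

open scoped ComplexConjugate in
theorem aux {G : Type*} [Group G] [Fintype G] {p : ℕ} {M : Ideal Cfsg.AlgInt}
    (hM : Cfsg.IsPModular p M) (χ : Cfsg.IrrCharacter G) (A : Subgroup G) (y : A)
    (hyc : y ∈ Subgroup.center A) (hχy : ¬ MemLocalIdeal M ((χ : G → ℂ) y)) (P : Subgroup A)
    (hP : IsPGroup p P) (Z : Subgroup G) (hZc : Z ≤ Subgroup.center G)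
    (hZD : Z ≤ P.map A.subtype) (lam : ↥Z →* ℂˣ)
    (hover : (∀ z : ↥Z, (χ : G → ℂ) z = (χ : G → ℂ) 1 * (lam z : ℂ))) :
    ∃ μ : ↥(P.map A.subtype) →* ℂˣ, ∀ z : ↥Z, μ ⟨(z : G), hZD z.2⟩ = lam z := by
  classical
  obtain ⟨μ, hμ, hμ1⟩ := Cfsg.Agent.H25.exists_linear_constituent hM
    (α := fun a : A => (χ : G → ℂ) a)
    (Cfsg.Agent.CharLib.isCharacter_restrict (Cfsg.Agent.CharLib.isCharacter_of_irr χ.2) A) hyc hχy
    P hP
  have hχ1 : (χ : G → ℂ) 1 ≠ 0 := by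
    rw [← Cfsg.Agent.Lib.Helper23.charDegree_cast_irr]
    exact_mod_cast (Cfsg.Agent.Lib.Helper23.charDegree_pos_irr χ).ne'
  have hmul : ∀ (z : Z) (g : G), (χ : G → ℂ) (z * g) = (lam z : ℂ) * (χ : G → ℂ) g := by
    intro z g
    have h1 := Cfsg.Agent.Lib.Helper23.MinMax.irr_central_mul χ.2 (hZc z.2) g
    have h2 := Cfsg.Agent.Lib.Helper23.MinMax.irr_central_mul χ.2 (hZc z.2) 1
    rw [mul_one, hover z] at h2
    have h3 : centralChar (χ : G → ℂ) z = (lam z : ℂ) := by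
      apply mul_right_cancel₀ hχ1
      rw [← h2, mul_comm]
    rw [h1, h3]
  have hμmul := Cfsg.Agent.CharLib.L.irr_mul_of_apply_one_eq_one μ hμ1
  let f : P →* ℂ :=
    { toFun := (μ : P → ℂ)
      map_one' := hμ1
      map_mul' := hμmul }
  let e := P.equivMapOfInjective A.subtype (Subgroup.subtype_injective _)
  refine ⟨f.toHomUnits.comp e.symm.toMonoidHom, fun z => ?_⟩
  obtain ⟨a, ha, haz⟩ := hZD z.2
  have he : e.symm ⟨(z : G), hZD z.2⟩ = ⟨a, ha⟩ := by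
    rw [MulEquiv.symm_apply_eq]
    apply Subtype.ext
    simp [e, haz]
  apply Units.ext
  simp only [MonoidHom.comp_apply, MulEquiv.coe_toMonoidHom, he, MonoidHom.coe_toHomUnits]
  change (μ : P → ℂ) ⟨a, ha⟩ = _
  have hS : (∑ u : P, (χ : G → ℂ) u * conj ((μ : P → ℂ) u)) ≠ 0 := by
    intro h0
    apply hμ
    rw [classInner, h0, mul_zero]
  have hS2 : (∑ u : P, (χ : G → ℂ) u * conj ((μ : P → ℂ) u)) =
      ((lam z : ℂ) * conj ((μ : P → ℂ) ⟨a, ha⟩)) *
        ∑ u : P, (χ : G → ℂ) u * conj ((μ : P → ℂ) u) := by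
    rw [Finset.mul_sum, ← Equiv.sum_comp (Equiv.mulLeft (⟨a, ha⟩ : P))]
    refine Finset.sum_congr rfl fun u _ => ?_
    have h1 : (((Equiv.mulLeft (⟨a, ha⟩ : P)) u : P) : G) = (z : G) * (u : G) := by
      simp [← haz]
    rw [h1, hmul, Equiv.coe_mulLeft, hμmul, map_mul]
    ring
  have h3 : (lam z : ℂ) * conj ((μ : P → ℂ) ⟨a, ha⟩) = 1 := by
    apply mul_right_cancel₀ hS
    rw [← hS2, one_mul]
  have h4 : conj ((μ : P → ℂ) ⟨a, ha⟩) = (μ : P → ℂ) (⟨a, ha⟩ : P)⁻¹ :=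
    (Cfsg.Agent.CharLib.isCharacter_inv (Cfsg.Agent.CharLib.isCharacter_of_irr μ.2) _).symm
  have h5 : (μ : P → ℂ) (⟨a, ha⟩ : P)⁻¹ * (μ : P → ℂ) ⟨a, ha⟩ = 1 := by
    rw [← hμmul, inv_mul_cancel, hμ1]
  rw [h4] at h3
  calc (μ : P → ℂ) ⟨a, ha⟩ = ((lam z : ℂ) * (μ : P → ℂ) (⟨a, ha⟩ : P)⁻¹) * (μ : P → ℂ) ⟨a, ha⟩ := by
        rw [h3, one_mul]
    _ = (lam z : ℂ) := by rw [mul_assoc, h5, mul_one]

/-- Let p be a prime, G a finite group and B a p-block of G (relative to a maximal ideal M of the algebraic integers containing p) with defect group D. Let Z be a central p-subgroup of G contained in D and λ a linear character of Z (a homomorphism to the nonzero complex numbers). Say an irreducible character χ of G lies over λ when χ(z) = χ(1)λ(z) for all z ∈ Z. If some irreducible character in B lying over λ has height zero, then λ extends to a linear character of D. -/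
theorem result {G : Type*} [Group G] [Finite G] (p : ℕ) [Fact p.Prime] (M : Ideal Cfsg.AlgInt) (hM : Cfsg.IsPModular p M) (B : Set (Cfsg.IrrCharacter G)) (hB : Cfsg.IsPBlock M B) (D : Subgroup G) (hD : Cfsg.IsDefectGroup p M B D) (Z : Subgroup G) (hZc : Z ≤ Subgroup.center G) (hZp : IsPGroup p ↥Z) (hZD : Z ≤ D) (lam : ↥Z →* ℂˣ) (χ : Cfsg.IrrCharacter G) (hχ : χ ∈ B) (hover : (∀ z : ↥Z, (χ : G → ℂ) z = (χ : G → ℂ) 1 * (lam z : ℂ))) (h0 : Cfsg.blockHeight p B (χ : G → ℂ) = 0) : (∃ μ : ↥D →* ℂˣ, ∀ z : ↥Z, μ ⟨(z : G), hZD z.2⟩ = lam z) := by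
  classical
  cases nonempty_fintype G
  obtain ⟨y, hy, P, rfl⟩ := hD
  have hχy := Cfsg.Agent.H25.not_memLocalIdeal_apply_of_height_zero hM hB hy hχ
    (Cfsg.Agent.H25.minExp_eq_of_height_zero hχ h0)
  have hyA : y ∈ Subgroup.centralizer ({y} : Set G) := Subgroup.mem_centralizer_iff.2 (by simp)
  have hyc : (⟨y, hyA⟩ : Subgroup.centralizer ({y} : Set G)) ∈
      Subgroup.center (Subgroup.centralizer ({y} : Set G)) := by
    rw [Subgroup.mem_center_iff]
    intro a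
    apply Subtype.ext
    have := Subgroup.mem_centralizer_iff.1 a.2 y (by simp)
    simpa using this.symm
  exact aux hM χ _ ⟨y, hyA⟩ hyc hχy P P.2 Z hZc hZD lam hover

end Cfsg.Agent.S5001
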