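import Cfsg.Statements.S5135
import Cfsg.Agent.Fus.Grp2

set_option autoImplicit false
open Cfsg

namespace Cfsg.Agent.S5135

/-- Let G be a finite group, S a Sylow p-subgroup and H a normal subgroup of G. Then the fusion system of G/H on the image SH/H of S is the factor system of the fusion system of G on S modulo S ∩ H, read through the quotient map restricted to S: for each subgroup P' of SH/H, the conjugation maps by elements of G/H defined on P' with values in SH/H are exactly the homomorphisms induced by the conjugation maps by elements of G defined on the full preimage of P' in S with values in S. -/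
theorem result {G : Type*} [Group G] [Finite G] (p : ℕ) [Fact p.Prime] (S : Sylow p G) (H : Subgroup G) [H.Normal] : (Cfsg.groupFusionSystem (S : Subgroup G)).IsFactorSystem ((S : Subgroup G) ⊓ H) ((QuotientGroup.mk' H).comp (S : Subgroup G).subtype) (Cfsg.groupFusionSystem ((S : Subgroup G).map (QuotientGroup.mk' H))) := by
  refine ⟨inf_le_left, fun s => ?_, ?_, fun P' φ' => ?_⟩
  · show (QuotientGroup.mk (s : G) : G ⧸ H) = 1 ↔ _
    rw [QuotientGroup.eq_one_iff]
    exact ⟨fun h => ⟨s.2, h⟩, fun h => h.2⟩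
  · rw [MonoidHom.range_comp, Subgroup.range_subtype]
  · constructor
    · rintro ⟨hP', hφ'S, γ, hγ⟩
      refine ⟨hP', ?_⟩
      obtain ⟨g, rfl⟩ := QuotientGroup.mk_surjective γ
      have hPS : Cfsg.FusionSystem.preimageAlong ((QuotientGroup.mk' H).comp (S : Subgroup G).subtype) P' ≤
          (S : Subgroup G) := by
        rintro _ ⟨s, -, rfl⟩
        exact s.2
      have hPP' : ∀ x ∈ Cfsg.FusionSystem.preimageAlong ((QuotientGroup.mk' H).comp (S : Subgroup G).subtype) P',
          (QuotientGroup.mk x : G ⧸ H) ∈ P' := by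
        rintro _ ⟨s, hs, rfl⟩
        exact hs
      have hK : (Cfsg.FusionSystem.preimageAlong ((QuotientGroup.mk' H).comp (S : Subgroup G).subtype) P').map
          (MulAut.conj g).toMonoidHom ≤ (S : Subgroup G) ⊔ H := by
        rintro _ ⟨x, hx, rfl⟩
        have h0 := hφ'S ⟨_, hPP' x hx⟩
        rw [hγ] at h0
        obtain ⟨s, hs, hsx⟩ := h0
        have h1 : (QuotientGroup.mk s : G ⧸ H) = QuotientGroup.mk (g * x * g⁻¹) := hsx
        have h2 : s⁻¹ * (g * x * g⁻¹) ∈ H := QuotientGroup.eq.1 h1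
        have h3 : (MulAut.conj g).toMonoidHom x = s * (s⁻¹ * (g * x * g⁻¹)) := by
          show g * x * g⁻¹ = _
          group
        rw [h3]
        exact Subgroup.mul_mem _ (Subgroup.mem_sup_left hs) (Subgroup.mem_sup_right h2)
      obtain ⟨n, hn, hnK⟩ := Cfsg.Agent.Fus.exists_conj_of_le_sup_normal S _ hK
        ((Cfsg.FusionSystem.isPGroup_of_le S.2 hPS).map _)
      have hmem : ∀ x ∈ Cfsg.FusionSystem.preimageAlong ((QuotientGroup.mk' H).comp (S : Subgroup G).subtype) P',
          n * g * x * (n * g)⁻¹ ∈ (S : Subgroup G) := by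
        intro x hx
        have h1 := hnK _ (Cfsg.Agent.Fus.conj_mem_map_conj (g := g) hx)
        have h2 : n * (g * x * g⁻¹) * n⁻¹ = n * g * x * (n * g)⁻¹ := by group
        rwa [h2] at h1
      refine ⟨Cfsg.conjHom _ (n * g), ⟨hPS, fun x => hmem x x.2, n * g, fun x => rfl⟩, hPS,
        fun x => hmem x x.2, fun x => hPP' x x.2, fun x => ?_⟩
      rw [hγ]
      show (QuotientGroup.mk g : G ⧸ H) * QuotientGroup.mk (x : G) * (QuotientGroup.mk g)⁻¹ =
        QuotientGroup.mk (n * g * x * (n * g)⁻¹)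
      have h1 : (QuotientGroup.mk n : G ⧸ H) = 1 := (QuotientGroup.eq_one_iff n).2 hn
      simp only [QuotientGroup.mk_mul, QuotientGroup.mk_inv, h1, one_mul]
    · rintro ⟨hP', φ, ⟨hP, hφS, g, hg⟩, hP₂, hφ₂, hP'₂, heq⟩
      have key : ∀ y : P', φ' y = (QuotientGroup.mk g : G ⧸ H) * (y : G ⧸ H) * (QuotientGroup.mk g)⁻¹ ∧
          φ' y ∈ (S : Subgroup G).map (QuotientGroup.mk' H) := by
        intro y
        obtain ⟨s, hs, hsy⟩ := hP' y.2
        have hsP : s ∈ Cfsg.FusionSystem.preimageAlong
            ((QuotientGroup.mk' H).comp (S : Subgroup G).subtype) P' := by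
          refine ⟨⟨s, hs⟩, ?_, rfl⟩
          show (QuotientGroup.mk' H) s ∈ P'
          rw [hsy]
          exact y.2
        have h1 := heq ⟨s, hsP⟩
        have h2 : (⟨((QuotientGroup.mk' H).comp (S : Subgroup G).subtype) ⟨s, hP₂ hsP⟩, hP'₂ ⟨s, hsP⟩⟩ : P') = y :=
          Subtype.ext hsy
        rw [h2] at h1
        rw [h1]
        refine ⟨?_, ⟨_, hφ₂ ⟨s, hsP⟩, rfl⟩⟩
        show (QuotientGroup.mk (φ ⟨s, hsP⟩) : G ⧸ H) = _
        rw [hg, ← hsy]
        rfl
      exact ⟨hP', fun y => (key y).2, QuotientGroup.mk g, fun y => (key y).1⟩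

end Cfsg.Agent.S5135
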