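import Cfsg.Statements.S5212
import Cfsg.Agent.H17.Meta7

set_option autoImplicit false
open Cfsg

namespace Cfsg.Agent.S5212

/-- Let S be a finite metacyclic 2-group that is not homocyclic abelian (a direct product of cyclic groups of one common order), not dihedral, not semidihedral and not generalized quaternion. Then every saturated fusion system over S is the inner fusion system of S. -/
theorem result {Ω : Type*} [Group Ω] {S : Subgroup Ω} [Finite S] (hS : IsPGroup 2 S) (F : Cfsg.FusionSystem S) (hF : F.IsSaturated 2) (hm : Cfsg.IsMetacyclic ↥S) (hh : ¬ ∃ n k : ℕ, Nonempty (↥S ≃* Multiplicative (Fin k → ZMod (2 ^ n)))) (hd : ¬ ∃ m : ℕ, Nonempty (↥S ≃* DihedralGroup m)) (hq : ¬ ∃ m : ℕ, Nonempty (↥S ≃* QuaternionGroup m)) (hsd : ¬ Cfsg.IsQuasiDihedral ↥S) : ∀ P : Subgroup Ω, F.Hom P = (Cfsg.innerFusionSystem S).Hom P := by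
  have hFE : F = Cfsg.innerFusionSystem S := by
    apply Cfsg.Agent.H17.Meta.inner_of_metacyclic hS F hF hm
    · rintro n ⟨e⟩
      exact hh ⟨n, 2, ⟨e.trans (Cfsg.Agent.H17.Meta.prodEquivFin n)⟩⟩
    · intro m a b hm2 hD
      rcases hD.classification hm2 with h | h | ⟨hm3, b', hb', hc⟩
      · exact hd ⟨_, h⟩
      · exact hq ⟨_, h⟩
      · exact hsd ⟨m, hm3, hD.card, a, b', hD.ord, hb', hc⟩
    · exact fun h => hq ⟨2, h⟩
  intro P
  rw [hFE]

end Cfsg.Agent.S5212
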