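import Cfsg.Statements.S5245
import Cfsg.Agent.Fus.Focal
import Cfsg.Agent.Fus.Quot
import Cfsg.Agent.Lib.Helper27.FusAutSys
import Cfsg.Agent.Lib.Helper27.FusInner
import Cfsg.Agent.Lib.Helper27.FusFrattini
import Cfsg.Agent.Lib.Helper27.CoprimeAut

set_option autoImplicit false
open Cfsg

namespace Cfsg.Agent.S5245

open Cfsg.FusionSystem Cfsg.Agent.Fus Cfsg.Agent.Lib.Helper27 Cfsg.Agent.Lib.Helper27.Fus

/-- A finite group is a `p`-group or has an element of prime order different from `p`. -/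
theorem isPGroup_or_exists_prime_order {X : Type*} [Group X] [Finite X] (p : ℕ) [Fact p.Prime] :
    IsPGroup p X ∨ ∃ q : ℕ, q.Prime ∧ q ≠ p ∧ ∃ x : X, orderOf x = q := by
  by_cases h : ∃ q : ℕ, q.Prime ∧ q ≠ p ∧ q ∣ Nat.card X
  · obtain ⟨q, hq, hqp, hdvd⟩ := h
    have : Fact q.Prime := ⟨hq⟩
    obtain ⟨x, hx⟩ := exists_prime_orderOf_dvd_card' q hdvd
    exact Or.inr ⟨q, hq, hqp, x, hx⟩
  · left
    push Not at h
    have h1 : Nat.card X = p ^ (Nat.card X).primeFactorsList.length :=
      Nat.eq_prime_pow_of_unique_prime_dvd Nat.card_pos.ne' (fun {d} hd hdvd => by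
        by_contra hne
        exact h d hd hne hdvd)
    exact IsPGroup.of_card h1

variable {Ω : Type*} [Group Ω] {S : Subgroup Ω}

theorem isSylowIn_inn_sup {T : Subgroup Ω} {p q : ℕ} [Fact p.Prime] (hT : IsPGroup p T) (hq : q.Prime) (hqp : q ≠ p)
    {β : MulAut T} (hβ : orderOf β = q) : IsSylowIn p (Inn T) (Inn T ⊔ Subgroup.zpowers β) := by
  have hp : p.Prime := Fact.out
  have hn : (Inn T).Normal := inferInstance
  have h1 : (Inn T).relIndex (Inn T ⊔ Subgroup.zpowers β) ∣ q := by
    rw [Subgroup.relIndex_sup_left, ← hβ, ← Nat.card_zpowers]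
    exact Subgroup.relIndex_dvd_card _ _
  have h2 : ¬ p ∣ ((Inn T).subgroupOf (Inn T ⊔ Subgroup.zpowers β)).index := by
    intro h
    exact hqp ((Nat.prime_dvd_prime_iff_eq hp hq).1 (h.trans h1)).symm
  have h3 : IsPGroup p ((Inn T).subgroupOf (Inn T ⊔ Subgroup.zpowers β)) := by
    have h4 : IsPGroup p (Inn T) := IsPGroup.of_surjective hT (MulAut.conj : T →* MulAut T).rangeRestrict
      (MonoidHom.rangeRestrict_surjective _)
    exact h4.of_equiv (Subgroup.subgroupOfEquivOfLe le_sup_left).symm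
  exact ⟨h3.toSylow h2, IsPGroup.toSylow_coe h3 h2⟩

theorem result {Ω : Type*} [Group Ω] {S : Subgroup Ω} [Finite S] (p : ℕ) [Fact p.Prime] (hS : IsPGroup p S) (F : Cfsg.FusionSystem S) (hF : F.IsSaturated p) (hxs : ¬ (∀ P : Subgroup Ω, F.Hom P = (Cfsg.innerFusionSystem S).Hom P) ∧ ∀ (T : Subgroup Ω) (E : Cfsg.FusionSystem T), E.IsSaturated p → E.IsSubsystemOf F → (T = S ∧ ∀ P : Subgroup Ω, E.Hom P = F.Hom P) ∨ (∀ P : Subgroup Ω, E.Hom P = (Cfsg.innerFusionSystem T).Hom P)) : F.IsNormal S ∧ F.focalSubgroup = S ∧ F.hyperfocalSubgroup p = S ∧ ∃ (q : ℕ) (β : MulAut ↥S), q.Prime ∧ q ≠ p ∧ β ∈ F.autGroup S ∧ orderOf β = q ∧ (F.autGroup S : Subgroup (MulAut ↥S)) = Cfsg.Inn ↥S ⊔ Subgroup.zpowers β := by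
  obtain ⟨hne, hsp⟩ := hxs
  have hp : p.Prime := Fact.out
  -- key lemma
  have key : ∀ (T : Subgroup Ω), T ≤ S → ∀ (q : ℕ) (β : MulAut T), q.Prime → q ≠ p → β ∈ F.autGroup T →
      orderOf β = q → T = S ∧ ∀ P : Subgroup Ω,
        (autSys T (Inn T ⊔ Subgroup.zpowers β) le_sup_left).Hom P = F.Hom P := by
    intro T hTS q β hq hqp hβ hβo
    have hfinT : Finite T := finite_of_le hTS
    have hTp : IsPGroup p T := isPGroup_of_le hS hTS
    have hsyl := isSylowIn_inn_sup hTp hq hqp hβo
    have hle : Inn T ⊔ Subgroup.zpowers β ≤ F.autGroup T := by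
      refine sup_le ((inn_le_autInducedBy hTS).trans (F.autInducedBy_le_autGroup hTS)) ?_
      rw [Subgroup.zpowers_le]; exact hβ
    rcases hsp T (autSys T (Inn T ⊔ Subgroup.zpowers β) le_sup_left) (autSys_isSaturated hsyl)
      (autSys_isSubsystemOf F hTS hle) with h | h
    · exact h
    · exfalso
      have h1 : β ∈ (autSys T (Inn T ⊔ Subgroup.zpowers β) le_sup_left).autGroup T := by
        rw [autSys_autGroup_self]
        exact Subgroup.mem_sup_right (Subgroup.mem_zpowers β)
      rw [mem_autGroup_iff _ le_rfl] at h1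
      have h2 : T.subtype.comp β.toMonoidHom ∈ (innerFusionSystem T).Hom T := by
        rw [← h T]; exact h1
      have h3 : β ∈ (innerFusionSystem T).autGroup T := (mem_autGroup_iff _ le_rfl β).2 h2
      rw [inner_autGroup le_rfl] at h3
      obtain ⟨k, hk⟩ := (isPGroup_autInducedBy hTp) ⟨β, h3⟩
      have h4 : β ^ p ^ k = 1 := congrArg Subtype.val hk
      have h5 : q ∣ p ^ k := hβo ▸ orderOf_dvd_of_pow_eq_one h4
      exact hqp ((Nat.prime_dvd_prime_iff_eq hq hp).1 (hq.dvd_of_dvd_pow h5))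
  -- no essential subgroups
  have hnorm : F.IsNormal S := by
    apply isNormal_self_of_no_essential F hS hF
    intro P hP
    have hPS : P ≤ S := hP.1.1
    have hfinP : Finite P := finite_of_le hPS
    rcases isPGroup_or_exists_prime_order (X := F.autGroup P) p with h | ⟨q, hq, hqp, β, hβ⟩
    · refine not_isEssential_of_normal_sylow F hS (topSylow h) ?_ hP
      show (⊤ : Subgroup (F.autGroup P)).Normal
      infer_instance
    · have h1 := (key P hPS q β hq hqp β.2 (by rw [Subgroup.orderOf_coe]; exact hβ)).1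
      subst h1
      exact not_isEssential_self F hS hF hP
  have hex : ∃ q : ℕ, q.Prime ∧ q ≠ p ∧ ∃ β : F.autGroup S, orderOf β = q := by
    rcases isPGroup_or_exists_prime_order (X := F.autGroup S) p with h | h
    · exfalso
      apply hne
      intro P
      apply Set.Subset.antisymm
      · intro φ hφ
        obtain ⟨hP, α, hα, rfl⟩ := (isNormal_self_iff' F).1 hnorm P φ hφ
        obtain ⟨R, hR⟩ := (hF.fullyNormalized F hS F.isFullyNormalized_self).2.1.2
        have h1 : (R : Subgroup (F.autGroup S)) = ⊤ := by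
          have := R.is_maximal' (Q := ⊤) (h.of_equiv Subgroup.topEquiv.symm) le_top
          exact this.symm
        have h2 : (⟨α, hα⟩ : F.autGroup S) ∈ (autInducedBy S S).subgroupOf (F.autGroup S) := by
          rw [← hR, h1]; trivial
        obtain ⟨g, hg, hgα⟩ := (mem_autInducedBy_iff α).1 (Subgroup.mem_subgroupOf.1 h2)
        exact mem_inner_hom.2 ⟨hP, g, hg, fun x => hgα _⟩
      · intro φ hφ
        obtain ⟨hP, g, hg, h⟩ := mem_inner_hom.1 hφ
        have : φ = conjHom P g := by ext x; exact h x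
        rw [this]
        exact F.conj_mem hP hg
    · exact h
  obtain ⟨q, hq, hqp, β, hβ⟩ := hex
  have hβo : orderOf (β : MulAut S) = q := by rw [Subgroup.orderOf_coe]; exact hβ
  have hkey := (key S le_rfl q β hq hqp β.2 hβo).2
  have haut : F.autGroup S = Inn S ⊔ Subgroup.zpowers (β : MulAut S) := by
    rw [← autSys_autGroup_self (T := S) (A := Inn S ⊔ Subgroup.zpowers (β : MulAut S)) (hA := le_sup_left)]
    ext α
    rw [mem_autGroup_iff _ le_rfl, mem_autGroup_iff _ le_rfl]
    unfold IsMor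
    rw [hkey]
  have hco : Nat.Coprime (orderOf (β : MulAut S)) p := by
    rw [hβo]; exact (Nat.coprime_primes hq hp).2 hqp
  have hhyp : F.hyperfocalSubgroup p = S := by
    have hH := F.hyperfocal_stronglyClosed hS hF
    have hHS : F.hyperfocalSubgroup p ≤ S := hH.1
    have hmem : (β : MulAut S) ∈ stabIn (F.autGroup S) (F.hyperfocalSubgroup p) :=
      ⟨β.2, fun x => (hH.map_mem_iff ((F.mem_autGroup_iff le_rfl _).1 β.2)).symm⟩
    obtain ⟨γ, hγdef⟩ : ∃ γ, γ = stabRes (F.autGroup S) hHS ⟨β, hmem⟩ := ⟨_, rfl⟩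
    have hγapp : ∀ x : F.hyperfocalSubgroup p, ((γ x : F.hyperfocalSubgroup p) : Ω)
        = (((β : MulAut S) ⟨x, hHS x.2⟩ : S) : Ω) := by
      intro x; rw [hγdef]; rfl
    have hγA : γ ∈ F.autGroup (F.hyperfocalSubgroup p) := by
      rw [F.mem_autGroup_iff hHS]
      have h1 := resAut_mem F hHS β.2
      have h2 : (F.hyperfocalSubgroup p).subtype.comp γ.toMonoidHom = resAut hHS (β : MulAut S) := by
        ext x; exact hγapp x
      unfold IsMor
      rw [h2]; exact h1
    have hγq : γ ^ q = 1 := by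
      rw [hγdef, ← map_pow]
      have : (⟨(β : MulAut S), hmem⟩ : stabIn (F.autGroup S) (F.hyperfocalSubgroup p)) ^ q = 1 := by
        apply Subtype.ext
        show (β : MulAut S) ^ q = 1
        rw [← hβo, pow_orderOf_eq_one]
      rw [this, map_one]
    by_cases hγ1 : γ = 1
    · exfalso
      have hβ1 : (β : MulAut S) = 1 := by
        ext x
        have hx : (x : Ω)⁻¹ * (((β : MulAut S) x : S) : Ω) ∈ F.hyperfocalSubgroup p := by
          refine F.mem_hyperfocal p le_rfl ?_ x
          rw [opOf_eq_closure]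
          exact Subgroup.subset_closure ⟨β.2, hco⟩
        have hfix : (β : MulAut S) (x⁻¹ * (β : MulAut S) x) = x⁻¹ * (β : MulAut S) x := by
          apply Subtype.ext
          have h1 := hγapp ⟨_, hx⟩
          rw [hγ1] at h1
          exact h1.symm
        have h3 := aut_pow_apply_of_fixed (β : MulAut S) x (x⁻¹ * (β : MulAut S) x) (by group) hfix
          (orderOf (β : MulAut S))
        rw [pow_orderOf_eq_one, MulAut.one_apply] at h3
        have h4 : (x⁻¹ * (β : MulAut S) x) ^ orderOf (β : MulAut S) = 1 := by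
          have := h3.symm
          rwa [mul_eq_left] at this
        obtain ⟨k, hk⟩ := hS (x⁻¹ * (β : MulAut S) x)
        have h5 := eq_one_of_pow_pow hco h4 hk
        rw [inv_mul_eq_one] at h5
        rw [← h5]
        rfl
      rw [hβ1, orderOf_one] at hβo
      exact hq.one_lt.ne hβo
    · have : Fact q.Prime := ⟨hq⟩
      have hγo : orderOf γ = q := orderOf_eq_prime hγq hγ1
      exact (key _ hHS q γ hq hqp hγA hγo).1
  refine ⟨hnorm, ?_, hhyp, q, β, hq, hqp, β.2, hβo, haut⟩
  rw [F.focal_eq hS hF, hhyp]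
  exact sup_eq_left.2 (Subgroup.commutator_le_self S)

end Cfsg.Agent.S5245
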