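import Cfsg.Statements.S5246
import Mathlib
import Cfsg.Agent.Fus.Grp
import Cfsg.Agent.H17.Basic

set_option autoImplicit false
open Cfsg

namespace Cfsg.Agent.S5246

section aux
open scoped commutatorElement
variable {Ω : Type*} [Group Ω]

theorem mem_pCore_iff {p : ℕ} {N A : Type*} [Group N] [Group A] (f : N →* A)
    (hf : Function.Surjective f) (x : N) :
    f x ∈ Cfsg.pCore p A ↔
      ∃ K : Subgroup N, K.Normal ∧ x ∈ K ∧ ∀ k ∈ K, ∃ m : ℕ, k ^ (p ^ m) ∈ f.ker := by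
  constructor
  · intro h
    refine ⟨(Cfsg.pCore p A).comap f, ?_, h, ?_⟩
    · haveI := Cfsg.Agent.H17.pCore_normal' p A
      infer_instance
    · intro k hk
      obtain ⟨m, hm⟩ := Cfsg.Agent.H17.pCore_isPGroup p A ⟨f k, hk⟩
      refine ⟨m, ?_⟩
      rw [MonoidHom.mem_ker, map_pow]
      exact congrArg Subtype.val hm
  · rintro ⟨K, hKn, hx, hK⟩
    have h1 : (K.map f).Normal := hKn.map f hf
    have h2 : IsPGroup p (K.map f) := by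
      rintro ⟨_, k, hk, rfl⟩
      obtain ⟨m, hm⟩ := hK k hk
      refine ⟨m, ?_⟩
      apply Subtype.ext
      show (f k) ^ (p ^ m) = 1
      rw [← map_pow]; exact hm
    exact Cfsg.Agent.H17.le_pCore h1 h2 ⟨x, hx, rfl⟩

def ff (Q₀ Q : Subgroup Ω) (h : Ω)
    (hN : ∀ n ∈ Subgroup.normalizer (Q₀ : Set Ω), h * n * h⁻¹ ∈ Subgroup.normalizer (Q : Set Ω)) :
    ↥(Subgroup.normalizer (Q₀ : Set Ω)) →* MulAut ↥Q where
  toFun n := Cfsg.FusionSystem.conjAut (h * n * h⁻¹) (hN n n.2)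
  map_one' := by
    ext x
    simp
  map_mul' a b := by
    ext x
    simp [mul_assoc]

theorem key {p : ℕ} (Q₀ Q : Subgroup Ω) (h : Ω) (hQ : Q = Q₀.map (MulAut.conj h).toMonoidHom)
    (A : Subgroup (MulAut ↥Q))
    (hA : ∀ α, α ∈ A ↔ ∃ g, ∃ hg : g ∈ Subgroup.normalizer (Q : Set Ω),
      α = Cfsg.FusionSystem.conjAut g hg)
    (g : Ω) (hg : g ∈ Subgroup.normalizer (Q₀ : Set Ω))
    (hg' : h * g * h⁻¹ ∈ Subgroup.normalizer (Q : Set Ω)) :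
    (QuotientGroup.mk (s := (Subgroup.centralizer (Q₀ : Set Ω)).subgroupOf (Subgroup.normalizer (Q₀ : Set Ω)))
      (⟨g, hg⟩ : ↥(Subgroup.normalizer (Q₀ : Set Ω)))) ∈
        Cfsg.pCore p (↥(Subgroup.normalizer (Q₀ : Set Ω)) ⧸
          (Subgroup.centralizer (Q₀ : Set Ω)).subgroupOf (Subgroup.normalizer (Q₀ : Set Ω)))
    ↔ Cfsg.FusionSystem.conjAut (h * g * h⁻¹) hg' ∈ (Cfsg.pCore p ↥A).map A.subtype := by
  have hNeq : (Subgroup.normalizer (Q₀ : Set Ω)).map (MulAut.conj h).toMonoidHom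
      = Subgroup.normalizer (Q : Set Ω) := by
    rw [hQ, Subgroup.map_equiv_normalizer_eq]
  have hN : ∀ n ∈ Subgroup.normalizer (Q₀ : Set Ω), h * n * h⁻¹ ∈ Subgroup.normalizer (Q : Set Ω) := by
    intro n hn
    rw [← hNeq]
    exact ⟨n, hn, rfl⟩
  let f' : ↥(Subgroup.normalizer (Q₀ : Set Ω)) →* ↥A :=
    (ff Q₀ Q h hN).codRestrict A (fun n => (hA _).2 ⟨_, hN n n.2, rfl⟩)
  have hsurj : Function.Surjective f' := by
    rintro ⟨α, hα⟩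
    obtain ⟨g₁, hg₁, rfl⟩ := (hA α).1 hα
    have h1 : g₁ ∈ (Subgroup.normalizer (Q₀ : Set Ω)).map (MulAut.conj h).toMonoidHom := by
      rw [hNeq]; exact hg₁
    obtain ⟨n, hn, hn2⟩ := h1
    refine ⟨⟨n, hn⟩, ?_⟩
    apply Subtype.ext
    show Cfsg.FusionSystem.conjAut (h * n * h⁻¹) (hN n hn) = _
    have hn3 : h * n * h⁻¹ = g₁ := hn2
    ext x
    simp [hn3]
  have hker : f'.ker = (Subgroup.centralizer (Q₀ : Set Ω)).subgroupOf (Subgroup.normalizer (Q₀ : Set Ω)) := by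
    ext n
    rw [MonoidHom.mem_ker, Subgroup.mem_subgroupOf, Subgroup.mem_centralizer_iff]
    constructor
    · intro hn y hy
      have h1 : (f' n : MulAut ↥Q) = 1 := congrArg Subtype.val hn
      have hyQ : h * y * h⁻¹ ∈ Q := by rw [hQ]; exact ⟨y, hy, rfl⟩
      have h2 : ((f' n : MulAut ↥Q) ⟨h * y * h⁻¹, hyQ⟩ : Ω) = h * y * h⁻¹ := by rw [h1]; rfl
      have h3 : (h * n * h⁻¹) * (h * y * h⁻¹) * (h * n * h⁻¹)⁻¹ = h * y * h⁻¹ := h2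
      have h4 : (n : Ω) * y * (n : Ω)⁻¹ = y := by
        have : h⁻¹ * ((h * n * h⁻¹) * (h * y * h⁻¹) * (h * n * h⁻¹)⁻¹) * h = h⁻¹ * (h * y * h⁻¹) * h := by
          rw [h3]
        simpa [mul_assoc] using this
      calc y * (n : Ω) = ((n : Ω) * y * (n : Ω)⁻¹) * n := by rw [h4]
        _ = n * y := by group
    · intro hn
      apply Subtype.ext
      show Cfsg.FusionSystem.conjAut (h * n * h⁻¹) (hN n n.2) = 1
      ext x
      have hx : (x : Ω) ∈ Q₀.map (MulAut.conj h).toMonoidHom := by rw [← hQ]; exact x.2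
      obtain ⟨y, hy, hyx⟩ := hx
      have hyx' : h * y * h⁻¹ = (x : Ω) := hyx
      have h1 := hn y hy
      show (h * n * h⁻¹) * (x : Ω) * (h * n * h⁻¹)⁻¹ = x
      rw [← hyx']
      calc h * ↑n * h⁻¹ * (h * y * h⁻¹) * (h * ↑n * h⁻¹)⁻¹ = h * ((n : Ω) * y) * (n : Ω)⁻¹ * h⁻¹ := by group
        _ = h * (y * (n : Ω)) * (n : Ω)⁻¹ * h⁻¹ := by rw [h1]
        _ = h * y * h⁻¹ := by group
  have e1 := mem_pCore_iff (p := p) (QuotientGroup.mk' ((Subgroup.centralizer (Q₀ : Set Ω)).subgroupOf (Subgroup.normalizer (Q₀ : Set Ω))))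
    (QuotientGroup.mk'_surjective _) ⟨g, hg⟩
  rw [QuotientGroup.ker_mk'] at e1
  have e2 := mem_pCore_iff (p := p) f' hsurj ⟨g, hg⟩
  rw [hker] at e2
  have e3 : Cfsg.FusionSystem.conjAut (h * g * h⁻¹) hg' ∈ (Cfsg.pCore p ↥A).map A.subtype
      ↔ f' ⟨g, hg⟩ ∈ Cfsg.pCore p ↥A := by
    constructor
    · rintro ⟨a, ha, hae⟩
      have : a = f' ⟨g, hg⟩ := Subtype.ext hae
      rwa [← this]
    · intro h1
      exact ⟨_, h1, rfl⟩
  rw [e3, e2]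
  exact e1

theorem quad_of_comm (Q₀ : Subgroup Ω) (g : Ω)
    (hq : ⁅⁅Q₀, Subgroup.zpowers g⁆, Subgroup.zpowers g⁆ = ⊥) (a : Ω) (ha : a ∈ Q₀) :
    (g * a⁻¹ * g⁻¹) * a * (g * a⁻¹ * g⁻¹) * (g * (g * a * g⁻¹) * g⁻¹) = 1 := by
  have h1 : ⁅a, g⁆ ∈ ⁅Q₀, Subgroup.zpowers g⁆ :=
    Subgroup.commutator_mem_commutator ha (Subgroup.mem_zpowers g)
  have h2 : ⁅⁅a, g⁆, g⁆ ∈ ⁅⁅Q₀, Subgroup.zpowers g⁆, Subgroup.zpowers g⁆ :=
    Subgroup.commutator_mem_commutator h1 (Subgroup.mem_zpowers g)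
  rw [hq, Subgroup.mem_bot, commutatorElement_def, commutatorElement_def] at h2
  have h3 : a * g * a⁻¹ * g⁻¹ = g * (a * g * a⁻¹ * g⁻¹) * g⁻¹ := by
    have : a * g * a⁻¹ * g⁻¹ * g * (a * g * a⁻¹ * g⁻¹)⁻¹ * g⁻¹ * (g * (a * g * a⁻¹ * g⁻¹) * g⁻¹)
        = g * (a * g * a⁻¹ * g⁻¹) * g⁻¹ := by rw [h2, one_mul]
    rw [← this]; group
  calc (g * a⁻¹ * g⁻¹) * a * (g * a⁻¹ * g⁻¹) * (g * (g * a * g⁻¹) * g⁻¹)
      = (g * a⁻¹ * g⁻¹) * (a * g * a⁻¹ * g⁻¹) * (g * (g * a * g⁻¹) * g⁻¹) := by group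
    _ = (g * a⁻¹ * g⁻¹) * (g * (a * g * a⁻¹ * g⁻¹) * g⁻¹) * (g * (g * a * g⁻¹) * g⁻¹) := by rw [← h3]
    _ = 1 := by group

theorem comm_of_quad (Q : Subgroup Ω) (g : Ω)
    (hq : ∀ a ∈ Q, (g * a⁻¹ * g⁻¹) * a * (g * a⁻¹ * g⁻¹) * (g * (g * a * g⁻¹) * g⁻¹) = 1) :
    ⁅⁅Q, Subgroup.zpowers g⁆, Subgroup.zpowers g⁆ = ⊥ := by
  have h0 : ∀ a ∈ Q, Commute g (a * g * a⁻¹ * g⁻¹) := by
    intro a ha
    have h1 := hq a ha
    show g * (a * g * a⁻¹ * g⁻¹) = (a * g * a⁻¹ * g⁻¹) * g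
    have h2 : a * g * a⁻¹ * g⁻¹ = (g * a⁻¹ * g⁻¹)⁻¹ * ((g * a⁻¹ * g⁻¹) * a * (g * a⁻¹ * g⁻¹) * (g * (g * a * g⁻¹) * g⁻¹)) * (g * (g * a * g⁻¹) * g⁻¹)⁻¹ := by group
    rw [h1] at h2
    have h3 : a * g * a⁻¹ * g⁻¹ = g * (a * g * a⁻¹ * g⁻¹) * g⁻¹ := by
      calc a * g * a⁻¹ * g⁻¹ = (g * a⁻¹ * g⁻¹)⁻¹ * 1 * (g * (g * a * g⁻¹) * g⁻¹)⁻¹ := h2
        _ = g * (a * g * a⁻¹ * g⁻¹) * g⁻¹ := by group
    calc g * (a * g * a⁻¹ * g⁻¹) = (g * (a * g * a⁻¹ * g⁻¹) * g⁻¹) * g := by group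
      _ = (a * g * a⁻¹ * g⁻¹) * g := by rw [← h3]
  rw [Subgroup.commutator_eq_bot_iff_le_centralizer, Subgroup.commutator_le]
  intro a ha y hy
  obtain ⟨i, rfl⟩ := hy
  have hc := h0 a ha
  have key2 : ∀ i : ℤ, Commute g ⁅a, g ^ i⁆ := by
    intro i
    induction i using Int.induction_on with
    | zero => simp
    | succ i ih =>
      have e : ⁅a, g ^ ((i : ℤ) + 1)⁆ = ⁅a, g ^ (i : ℤ)⁆ * (g ^ (i : ℤ) * (a * g * a⁻¹ * g⁻¹) * (g ^ (i : ℤ))⁻¹) := by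
        rw [commutatorElement_def, commutatorElement_def, zpow_add_one]; group
      rw [e]
      have h5 : Commute (g ^ (i : ℤ)) (a * g * a⁻¹ * g⁻¹) := hc.zpow_left _
      have h6 : g ^ (i : ℤ) * (a * g * a⁻¹ * g⁻¹) * (g ^ (i : ℤ))⁻¹ = a * g * a⁻¹ * g⁻¹ := by
        rw [h5.eq, mul_inv_cancel_right]
      rw [h6]
      exact ih.mul_right hc
    | pred i ih =>
      have e : ⁅a, g ^ (-(i : ℤ) - 1)⁆ = ⁅a, g ^ (-(i : ℤ))⁆ * (g ^ (-(i : ℤ) - 1) * (a * g * a⁻¹ * g⁻¹)⁻¹ * (g ^ (-(i : ℤ) - 1))⁻¹) := by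
        rw [commutatorElement_def, commutatorElement_def, zpow_sub_one]; group
      rw [e]
      have h5 : Commute (g ^ (-(i : ℤ) - 1)) (a * g * a⁻¹ * g⁻¹)⁻¹ := (hc.zpow_left _).inv_right
      have h6 : g ^ (-(i : ℤ) - 1) * (a * g * a⁻¹ * g⁻¹)⁻¹ * (g ^ (-(i : ℤ) - 1))⁻¹ = (a * g * a⁻¹ * g⁻¹)⁻¹ := by
        rw [h5.eq, mul_inv_cancel_right]
      rw [h6]
      exact ih.mul_right hc.inv_right
  rw [Subgroup.mem_centralizer_iff]
  rintro z ⟨j, rfl⟩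
  exact ((key2 i).zpow_left j).eq

end aux


/-- Let p be an odd prime, G a finite group and P a Sylow p-subgroup. Call a fusion system F p-stable when, for every fully normalized subgroup Q and every χ ∈ Aut_F(Q) acting quadratically on Q (that is, χ fixes a⁻¹χ(a) for every a ∈ Q; equivalently χ(a⁻¹)·a·χ(a⁻¹)·χ(χ(a)) = 1), χ lies in O_p(Aut_F(Q)). Then G is p-stable in the normalizer form (for every p-subgroup Q and x ∈ N_G(Q) with [Q, x, x] = 1, the image of x lies in O_p(N_G(Q)/C_G(Q))) if and only if the fusion system of G on P is p-stable. -/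
theorem result {Ω : Type*} [Group Ω] [Finite Ω] {p : ℕ} [Fact p.Prime] (hp : p ≠ 2) (P : Sylow p Ω) : Cfsg.IsNormalizerPStable p Ω ↔ (∀ Q : Subgroup Ω, (Cfsg.groupFusionSystem (P : Subgroup Ω)).IsFullyNormalized Q → ∀ χ : MulAut ↥Q, χ ∈ (Cfsg.groupFusionSystem (P : Subgroup Ω)).autGroup Q → (∀ a : ↥Q, (χ a⁻¹) * a * (χ a⁻¹) * (χ (χ a)) = 1) → χ ∈ ((Cfsg.pCore p ↥((Cfsg.groupFusionSystem (P : Subgroup Ω)).autGroup Q)).map ((Cfsg.groupFusionSystem (P : Subgroup Ω)).autGroup Q).subtype : Subgroup (MulAut ↥Q))) := by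
  classical
  have hFeq := Cfsg.FusionSystem.groupFusionSystem_eq (P : Subgroup Ω)
  have hA : ∀ Q : Subgroup Ω, Q ≤ (P : Subgroup Ω) → ∀ α : MulAut ↥Q,
      α ∈ (Cfsg.groupFusionSystem (P : Subgroup Ω)).autGroup Q ↔
        ∃ g, ∃ hg : g ∈ Subgroup.normalizer (Q : Set Ω), α = Cfsg.FusionSystem.conjAut g hg := by
    intro Q hQ α
    rw [hFeq, Cfsg.FusionSystem.autGroup_ofSubgroup le_top hQ, Cfsg.FusionSystem.mem_autInducedBy_iff']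
    constructor
    · rintro ⟨g, hg, -, h⟩; exact ⟨g, hg, h⟩
    · rintro ⟨g, hg, h⟩; exact ⟨g, hg, Subgroup.mem_top g, h⟩
  constructor
  · intro hst Q hfn χ hχ hquad
    have hQP : Q ≤ (P : Subgroup Ω) := hfn.1
    obtain ⟨g, hg, rfl⟩ := (hA Q hQP χ).1 hχ
    have hg' : 1 * g * 1⁻¹ ∈ Subgroup.normalizer (Q : Set Ω) := by simpa using hg
    have hQ1 : Q = Q.map (MulAut.conj (1 : Ω)).toMonoidHom := by
      ext x; simp [Cfsg.Agent.Fus.mem_map_conj]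
    have hk := key (p := p) Q Q 1 hQ1 _ (hA Q hQP) g hg hg'
    have e : Cfsg.FusionSystem.conjAut (1 * g * 1⁻¹) hg' = Cfsg.FusionSystem.conjAut g hg := by
      ext x; simp
    rw [e] at hk
    apply hk.1
    apply hst Q (P.2.to_le hQP) g hg
    apply comm_of_quad
    intro a ha
    have := hquad ⟨a, ha⟩
    exact congrArg Subtype.val this
  · intro hF Q₀ hQ₀ g hg hquad
    obtain ⟨x, -, hx⟩ := (Cfsg.Agent.Fus.isSylowIn_top P).exists_conj_le le_top hQ₀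
    have hP1 : Q₀.map (MulAut.conj x).toMonoidHom ≤ (P : Subgroup Ω) := by
      rintro _ ⟨y, hy, rfl⟩; exact hx y hy
    obtain ⟨g₂, -, hQT, hN⟩ := Cfsg.FusionSystem.exists_conj_sylow_normalizer le_top
      (Cfsg.Agent.Fus.isSylowIn_top P) hP1
    obtain ⟨Q, hQdef⟩ : ∃ Q, Q = (Q₀.map (MulAut.conj x).toMonoidHom).map (MulAut.conj g₂).toMonoidHom :=
      ⟨_, rfl⟩
    rw [← hQdef] at hQT hN
    have hfn : (Cfsg.groupFusionSystem (P : Subgroup Ω)).IsFullyNormalized Q := by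
      rw [hFeq]
      exact (Cfsg.FusionSystem.isFullyNormalized_ofSubgroup_iff le_top
        (Cfsg.Agent.Fus.isSylowIn_top P) hQT).2 hN
    obtain ⟨h, hh⟩ : ∃ h, h = g₂ * x := ⟨_, rfl⟩
    have hQ : Q = Q₀.map (MulAut.conj h).toMonoidHom := by
      rw [hQdef, Subgroup.map_map, hh]
      congr 1
      ext y; simp [mul_assoc]
    have hg' : h * g * h⁻¹ ∈ Subgroup.normalizer (Q : Set Ω) := by
      rw [hQ, ← Subgroup.map_equiv_normalizer_eq]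
      exact ⟨g, hg, rfl⟩
    apply (key (p := p) Q₀ Q h hQ _ (hA Q hQT) g hg hg').2
    apply hF Q hfn
    · exact (hA Q hQT _).2 ⟨_, hg', rfl⟩
    · intro a
      have ha : (a : Ω) ∈ Q₀.map (MulAut.conj h).toMonoidHom := by rw [← hQ]; exact a.2
      obtain ⟨a₀, ha₀, hae⟩ := ha
      have hae' : h * a₀ * h⁻¹ = (a : Ω) := hae
      have h1 := quad_of_comm Q₀ g hquad a₀ ha₀
      apply Subtype.ext
      show (h * g * h⁻¹) * (a : Ω)⁻¹ * (h * g * h⁻¹)⁻¹ * a * ((h * g * h⁻¹) * (a : Ω)⁻¹ * (h * g * h⁻¹)⁻¹)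
        * ((h * g * h⁻¹) * ((h * g * h⁻¹) * a * (h * g * h⁻¹)⁻¹) * (h * g * h⁻¹)⁻¹) = 1
      rw [← hae']
      calc _ = h * ((g * a₀⁻¹ * g⁻¹) * a₀ * (g * a₀⁻¹ * g⁻¹) * (g * (g * a₀ * g⁻¹) * g⁻¹)) * h⁻¹ := by group
        _ = 1 := by rw [h1]; group

end Cfsg.Agent.S5246
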