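import Cfsg.Statements.S5247
import Mathlib
import Cfsg.Agent.Fus.Model2
import Cfsg.Agent.S5096
import Cfsg.Agent.H17.Basic

set_option autoImplicit false
open Cfsg

namespace Cfsg.Agent.S5247

section aux

theorem mem_of_normal_pgroup {p : ℕ} {X : Type*} [Group X] (A K : Subgroup X) (hKA : K ≤ A)
    (hn : ∀ a ∈ A, ∀ k ∈ K, a * k * a⁻¹ ∈ K) (hp : IsPGroup p K) {x : X} (hx : x ∈ K) :
    x ∈ (Cfsg.pCore p ↥A).map A.subtype := by
  have h1 : (K.subgroupOf A).Normal := by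
    constructor
    intro k hk a
    exact hn a.1 a.2 k.1 hk
  have h2 : IsPGroup p (K.subgroupOf A) := by
    rintro ⟨⟨g, hgA⟩, hgK⟩
    obtain ⟨k, hk⟩ := hp ⟨g, hgK⟩
    refine ⟨k, ?_⟩
    apply Subtype.ext
    apply Subtype.ext
    have h3 : g ^ (p ^ k) = 1 := congrArg (fun z : ↥K => (z : X)) hk
    exact h3
  exact ⟨⟨x, hKA hx⟩, Cfsg.Agent.H17.le_pCore h1 h2 hx, rfl⟩

theorem OpOf_le {p : ℕ} {X : Type*} [Group X] (A : Subgroup X) :
    (Cfsg.pCore p ↥A).map A.subtype ≤ A := Subgroup.map_subtype_le _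

theorem OpOf_conj {p : ℕ} {X : Type*} [Group X] (A : Subgroup X) :
    ∀ a ∈ A, ∀ k ∈ (Cfsg.pCore p ↥A).map A.subtype, a * k * a⁻¹ ∈ (Cfsg.pCore p ↥A).map A.subtype := by
  rintro a ha _ ⟨k, hk, rfl⟩
  exact ⟨⟨a, ha⟩ * k * ⟨a, ha⟩⁻¹, (Cfsg.Agent.H17.pCore_normal' p ↥A).conj_mem k hk _, rfl⟩

theorem OpOf_pgroup {p : ℕ} {X : Type*} [Group X] (A : Subgroup X) :
    IsPGroup p ↥((Cfsg.pCore p ↥A).map A.subtype) := (Cfsg.Agent.H17.pCore_isPGroup p ↥A).map _

theorem OpOf_inf {p : ℕ} {X : Type*} [Group X] (A B : Subgroup X) (hBA : B ≤ A) {x : X}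
    (hx : x ∈ (Cfsg.pCore p ↥A).map A.subtype) (hxB : x ∈ B) :
    x ∈ (Cfsg.pCore p ↥B).map B.subtype := by
  apply mem_of_normal_pgroup B ((Cfsg.pCore p ↥A).map A.subtype ⊓ B) inf_le_right ?_ ?_ ⟨hx, hxB⟩
  · rintro b hb k ⟨hk1, hk2⟩
    exact ⟨OpOf_conj A b (hBA hb) k hk1, B.mul_mem (B.mul_mem hb hk2) (B.inv_mem hb)⟩
  · exact (OpOf_pgroup A).to_le inf_le_left

theorem transport {p : ℕ} {X X' : Type*} [Group X] [Group X'] (c : X ≃* X') (A : Subgroup X)
    (A' : Subgroup X') (hAA' : ∀ α, α ∈ A ↔ c α ∈ A') {x : X}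
    (hx : c x ∈ (Cfsg.pCore p ↥A').map A'.subtype) : x ∈ (Cfsg.pCore p ↥A).map A.subtype := by
  apply mem_of_normal_pgroup A (((Cfsg.pCore p ↥A').map A'.subtype).comap c.toMonoidHom) ?_ ?_ ?_ hx
  · intro y hy
    exact (hAA' y).2 (OpOf_le A' hy)
  · intro a ha k hk
    show c (a * k * a⁻¹) ∈ (Cfsg.pCore p ↥A').map A'.subtype
    rw [map_mul, map_mul, map_inv]
    exact OpOf_conj A' _ ((hAA' a).1 ha) _ hk
  · exact (OpOf_pgroup A').comap_of_injective c.toMonoidHom c.injective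

theorem quad_pow {Q : Type*} [Group Q] (χ : MulAut Q)
    (hq : ∀ a : Q, χ a⁻¹ * a * χ a⁻¹ * χ (χ a) = 1) (j : ℕ) (a : Q) :
    (χ ^ j) a = a * (a⁻¹ * χ a) ^ j := by
  have hδ : χ (a⁻¹ * χ a) = a⁻¹ * χ a := by
    have h1 := hq a
    rw [map_mul]
    have h2 : χ a⁻¹ * χ (χ a) = a⁻¹ * (χ a⁻¹)⁻¹ * (χ a⁻¹ * a * χ a⁻¹ * χ (χ a)) := by group
    rw [h2, h1, mul_one, map_inv, inv_inv]
  induction j with
  | zero => simp
  | succ j ih =>
    rw [pow_succ', MulAut.mul_apply, ih, map_mul, map_pow, hδ, pow_succ', ← mul_assoc, ← mul_assoc,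
      mul_inv_cancel, one_mul]

theorem quad_pow_card {Q : Type*} [Group Q] [Finite Q] (χ : MulAut Q)
    (hq : ∀ a : Q, χ a⁻¹ * a * χ a⁻¹ * χ (χ a) = 1) : χ ^ (Nat.card Q) = 1 := by
  ext a
  rw [quad_pow χ hq, pow_card_eq_one', mul_one]
  rfl

theorem cyclic_case {p : ℕ} {Q : Type*} [Group Q] [Finite Q] [IsCyclic Q] (hQ : IsPGroup p Q) [Fact p.Prime]
    (A : Subgroup (MulAut Q)) (χ : MulAut Q) (hχ : χ ∈ A)
    (hq : ∀ a : Q, χ a⁻¹ * a * χ a⁻¹ * χ (χ a) = 1) :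
    χ ∈ (Cfsg.pCore p ↥A).map A.subtype := by
  obtain ⟨k, hk⟩ := IsPGroup.iff_card.1 hQ
  have h1 := quad_pow_card χ hq
  rw [hk] at h1
  obtain ⟨m, hm⟩ := MonoidHom.map_cyclic χ.toMonoidHom
  have hm' : ∀ g, χ g = g ^ m := hm
  have hcomm : ∀ α : MulAut Q, α * χ * α⁻¹ = χ := by
    intro α
    ext g
    rw [MulAut.mul_apply, MulAut.mul_apply, hm', map_zpow, MulAut.apply_inv_self, hm']
  apply mem_of_normal_pgroup A (Subgroup.zpowers χ) (Subgroup.zpowers_le.2 hχ) ?_ ?_ (Subgroup.mem_zpowers χ)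
  · rintro a _ _ ⟨i, rfl⟩
    refine ⟨i, ?_⟩
    show χ ^ i = a * χ ^ i * a⁻¹
    rw [← conj_zpow, hcomm]
  · rintro ⟨_, i, rfl⟩
    refine ⟨k, Subtype.ext ?_⟩
    show (χ ^ i) ^ (p ^ k) = 1
    rw [← zpow_natCast, ← zpow_mul, mul_comm, zpow_mul, zpow_natCast, h1, one_zpow]

end aux


/-- Let p be an odd prime and F a saturated fusion system over a finite p-group S. Call a fusion system E (over any subgroup) p-stable when, for every fully E-normalized subgroup Q and every χ ∈ Aut_E(Q) with χ(a⁻¹)·a·χ(a⁻¹)·χ(χ(a)) = 1 for all a ∈ Q (χ acts quadratically), χ lies in O_p(Aut_E(Q)). Then F is p-stable if and only if every normalizer fusion system N_F(R) of every non-cyclic fully F-normalized subgroup R of S is p-stable. -/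
theorem result {Ω : Type*} [Group Ω] {S : Subgroup Ω} [Finite S] (p : ℕ) [Fact p.Prime] (hS : IsPGroup p S) (F : Cfsg.FusionSystem S) (hF : F.IsSaturated p) (hp : p ≠ 2) : (∀ Q : Subgroup Ω, F.IsFullyNormalized Q → ∀ χ : MulAut ↥Q, χ ∈ F.autGroup Q → (∀ a : ↥Q, (χ a⁻¹) * a * (χ a⁻¹) * (χ (χ a)) = 1) → χ ∈ ((Cfsg.pCore p ↥(F.autGroup Q)).map (F.autGroup Q).subtype : Subgroup (MulAut ↥Q))) ↔ ∀ R : Subgroup Ω, F.IsFullyNormalized R → ¬ IsCyclic ↥R → ∀ N : Cfsg.FusionSystem (Cfsg.FusionSystem.normalizerIn S R), F.IsNormalizerSystem R N → (∀ Q : Subgroup Ω, N.IsFullyNormalized Q → ∀ χ : MulAut ↥Q, χ ∈ N.autGroup Q → (∀ a : ↥Q, (χ a⁻¹) * a * (χ a⁻¹) * (χ (χ a)) = 1) → χ ∈ ((Cfsg.pCore p ↥(N.autGroup Q)).map (N.autGroup Q).subtype : Subgroup (MulAut ↥Q))) := by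
  classical
  constructor
  · intro hL R hR hnc N hN Q hQN χ hχ hquad
    have hQT : Q ≤ Cfsg.FusionSystem.normalizerIn S R := hQN.1
    have hQS : Q ≤ S := hQT.trans inf_le_left
    have hBA : N.autGroup Q ≤ F.autGroup Q := by
      intro α hα
      rw [N.mem_autGroup_iff hQT] at hα
      rw [F.mem_autGroup_iff hQS]
      have h1 : Q.subtype.comp α.toMonoidHom ∈ N.Hom Q := hα
      rw [hN Q] at h1
      exact h1.1
    have hχF := hBA hχ
    obtain ⟨Q', hconj, hQ'⟩ := F.exists_fullyNormalized_conj hQS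
    obtain ⟨e, he⟩ := (F.isConj_iff).1 hconj
    have hQ'S : Q' ≤ S := hQ'.1
    have hAA' : ∀ α : MulAut ↥Q, α ∈ F.autGroup Q ↔ MulAut.congr e α ∈ F.autGroup Q' := by
      intro α
      rw [F.mem_autGroup_iff hQS, F.mem_autGroup_iff hQ'S]
      constructor
      · intro h
        have h2 := he.comp F (h.comp F (he.symm F))
        have h3 : (MulAut.congr e α).toMonoidHom
            = e.toMonoidHom.comp (α.toMonoidHom.comp e.symm.toMonoidHom) := by
          ext x; rfl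
        rw [h3]; exact h2
      · intro h
        have h2 := (he.symm F).comp F (h.comp F he)
        have h3 : α.toMonoidHom
            = e.symm.toMonoidHom.comp ((MulAut.congr e α).toMonoidHom.comp e.toMonoidHom) := by
          ext x
          show ((α x : ↥Q) : Ω) = ((e.symm (e (α (e.symm (e x)))) : ↥Q) : Ω)
          rw [e.symm_apply_apply, e.symm_apply_apply]
        rw [h3]; exact h2
    have hχ'e : ∀ a, MulAut.congr e χ (e a) = e (χ a) := by
      intro a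
      show e (χ (e.symm (e a))) = _
      rw [e.symm_apply_apply]
    have hquad' : ∀ a' : ↥Q', (MulAut.congr e χ a'⁻¹) * a' * (MulAut.congr e χ a'⁻¹)
        * (MulAut.congr e χ (MulAut.congr e χ a')) = 1 := by
      intro a'
      obtain ⟨a, rfl⟩ := e.surjective a'
      rw [← map_inv, hχ'e, hχ'e, hχ'e, ← map_mul, ← map_mul, ← map_mul, hquad, map_one]
    have h1 := hL Q' hQ' (MulAut.congr e χ) ((hAA' χ).1 hχF) hquad'
    have h2 := transport (MulAut.congr e) (F.autGroup Q) (F.autGroup Q') hAA' h1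
    exact OpOf_inf _ _ hBA h2 hχ
  · intro hRHS Q hQ χ hχ hquad
    have hQS := hQ.1
    haveI : Finite ↥Q := Finite.of_injective (Subgroup.inclusion hQS) (Subgroup.inclusion_injective hQS)
    by_cases hcyc : IsCyclic ↥Q
    · exact cyclic_case (hS.to_le hQS) _ χ hχ hquad
    · obtain ⟨N, hN⟩ := Cfsg.Agent.S5096.result F Q hQS
      have hAeq := Cfsg.FusionSystem.IsNormalizerSystem.autGroup_eq hQS hN
      have hfn : N.IsFullyNormalized Q := by
        refine ⟨le_inf hQS Subgroup.le_normalizer, fun Q'' _ => ?_⟩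
        have hle : Cfsg.FusionSystem.normalizerIn (Cfsg.FusionSystem.normalizerIn S Q) Q ≤ S :=
          inf_le_left.trans inf_le_left
        haveI : Finite ↥(Cfsg.FusionSystem.normalizerIn (Cfsg.FusionSystem.normalizerIn S Q) Q) :=
          Finite.of_injective (Subgroup.inclusion hle) (Subgroup.inclusion_injective hle)
        apply Subgroup.card_le_of_le
        intro x hx
        exact ⟨hx.1, hx.1.2⟩
      have h1 := hRHS Q hQ hcyc N hN Q hfn χ (by rw [hAeq]; exact hχ) hquad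
      rw [hAeq] at h1
      exact h1

end Cfsg.Agent.S5247
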