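import Cfsg.Statements.S5251
import Cfsg.Agent.Fus.Chain
import Cfsg.Agent.Fus.Alperin
import Cfsg.Agent.Fus.Quot2
import Cfsg.Agent.Lib.Helper27.FusCentric
import Cfsg.Agent.Lib.Helper27.FusGrpNormal

set_option autoImplicit false
open Cfsg

namespace Cfsg.Agent.S5251

open Cfsg.FusionSystem Cfsg.Agent.Fus Cfsg.Agent.Lib.Helper27.Fus

variable {Ω : Type*} [Group Ω] {S : Subgroup Ω}

/-- An automorphism trivial on `R ∩ T` and on `R / R ∩ T` lies in `O_p(Aut_F(R))`. -/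
theorem mem_pCore_of_trivial_on (F : FusionSystem S) [Finite S] {p : ℕ} [Fact p.Prime] (hS : IsPGroup p S)
    {T : Subgroup Ω} (hT : F.StronglyClosed T) {R : Subgroup Ω} (hR : R ≤ S) {α : MulAut R}
    (hα : α ∈ F.autGroup R) (h1 : ∀ x : R, (x : Ω) ∈ T → α x = x)
    (h2 : ∀ x : R, (x : Ω)⁻¹ * ((α x : R) : Ω) ∈ T) :
    α ∈ (pCore p (F.autGroup R)).map (F.autGroup R).subtype := by
  have hfin : Finite R := finite_of_le hR
  refine mem_pCore_of_stabilizes (isPGroup_of_le hS hR) (F.autGroup R)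
    (fun j => match j with | 0 => ⊥ | 1 => T.subgroupOf R | _ => ⊤) 2 rfl ?_ ?_ hα ?_
  · intro β hβ j x hx
    match j with
    | 0 =>
      have hx' : x = 1 := hx
      rw [hx', map_one]
      exact Subgroup.one_mem _
    | 1 => exact Subgroup.mem_subgroupOf.2 (hT.aut_mem hR hβ (Subgroup.mem_subgroupOf.1 hx))
    | (k + 2) => exact Subgroup.mem_top _
  · intro β _
    refine ⟨0, fun x hx => ?_⟩
    have hx' : x = 1 := hx
    rw [hx', map_one]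
  · intro j x hx
    match j with
    | 0 =>
      have hx' : (x : Ω) ∈ T := Subgroup.mem_subgroupOf.1 hx
      show x⁻¹ * α x ∈ (⊥ : Subgroup R)
      rw [h1 x hx', inv_mul_cancel]
      exact Subgroup.one_mem _
    | 1 => exact Subgroup.mem_subgroupOf.2 (h2 x)
    | (k + 2) => exact Subgroup.mem_top _

theorem exists_elt (F : FusionSystem S) [Finite S] {p : ℕ} [Fact p.Prime] (hS : IsPGroup p S)
    {T : Subgroup Ω} (hT : F.StronglyClosed T) {R : Subgroup Ω} (hR : R ≤ S) {c : Ω} (hcT : c ∈ T)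
    (hcc : c ∈ Subgroup.centralizer ((R ⊓ T : Subgroup Ω) : Set Ω)) (hcR : c ∉ R) :
    ∃ x ∈ T, x ∈ Subgroup.normalizer (R : Set Ω) ∧ x ∉ R ∧
      x ∈ Subgroup.centralizer ((R ⊓ T : Subgroup Ω) : Set Ω) := by
  have hCS : T ⊓ Subgroup.centralizer ((R ⊓ T : Subgroup Ω) : Set Ω) ≤ S := inf_le_left.trans hT.1
  have hfinC : Finite ↥(T ⊓ Subgroup.centralizer ((R ⊓ T : Subgroup Ω) : Set Ω)) := finite_of_le hCS
  have hfinRT : Finite ↥(R ⊓ T) := finite_of_le (inf_le_left.trans hR)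
  have hn : R ≤ Subgroup.normalizer
      ((T ⊓ Subgroup.centralizer ((R ⊓ T : Subgroup Ω) : Set Ω) : Subgroup Ω) : Set Ω) := by
    intro u hu
    apply mem_normalizer_of_finite
    intro x hx
    refine ⟨hT.conj_mem (hR hu) hx.1, conj_mem_centralizer_of_normalizer ?_ hx.2⟩
    apply mem_normalizer_of_finite
    intro q hq
    exact ⟨R.mul_mem (R.mul_mem hu hq.1) (R.inv_mem hu), hT.conj_mem (hR hu) hq.2⟩
  have hMS : R ⊔ (T ⊓ Subgroup.centralizer ((R ⊓ T : Subgroup Ω) : Set Ω)) ≤ S := sup_le hR hCS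
  have hfinM : Finite ↥(R ⊔ (T ⊓ Subgroup.centralizer ((R ⊓ T : Subgroup Ω) : Set Ω))) := finite_of_le hMS
  have hlt : R < R ⊔ (T ⊓ Subgroup.centralizer ((R ⊓ T : Subgroup Ω) : Set Ω)) := by
    refine lt_of_le_of_ne le_sup_left (fun h => hcR ?_)
    rw [h]
    exact Subgroup.mem_sup_right ⟨hcT, hcc⟩
  obtain ⟨g, hgM, hgN, hgR⟩ := exists_normalizer_not_mem (isPGroup_of_le hS hMS) hlt
  have hset := Subgroup.coe_mul_of_left_le_normalizer_right _ _ hn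
  have hg' : g ∈ ((R ⊔ (T ⊓ Subgroup.centralizer ((R ⊓ T : Subgroup Ω) : Set Ω)) : Subgroup Ω) : Set Ω) := hgM
  rw [hset] at hg'
  obtain ⟨u, hu, x, hx, rfl⟩ := Set.mem_mul.1 hg'
  refine ⟨x, hx.1, ?_, ?_, hx.2⟩
  · have h1 := Subgroup.mul_mem _ (Subgroup.inv_mem _ (Subgroup.le_normalizer hu)) hgN
    rwa [inv_mul_cancel_left] at h1
  · intro hxR
    exact hgR (R.mul_mem hu hxR)

theorem result {Ω : Type*} [Group Ω] {S : Subgroup Ω} [Finite S] (p : ℕ) [Fact p.Prime] (hS : IsPGroup p S) (F : Cfsg.FusionSystem S) (hF : F.IsSaturated p) {T : Subgroup Ω} (E : Cfsg.FusionSystem T) (hE : E.IsNormalIn F p) (P : Subgroup Ω) (hP : F.IsCentric P) (hPT : ¬ E.IsCentric (P ⊓ T)) : (∃ φ ∈ F.Hom P, ∃ x ∈ S ⊓ Subgroup.normalizer (φ.range : Set Ω), x ∉ φ.range ∧ ∃ α ∈ ((Cfsg.pCore p ↥(F.autGroup φ.range)).map (F.autGroup φ.range).subtype : Subgroup (MulAut ↥φ.range)), ∀ y : ↥φ.range, ((α y : ↥φ.range)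 : Ω) = x * (y : Ω) * x⁻¹) ∧ ¬ F.IsRadical p P := by
  have hT : F.StronglyClosed T := hE.1.2.2.2.1
  have hsub : E.IsSubsystemOf F := hE.1.2.2.1
  have hPS : P ≤ S := hP.1
  have hP0S : P ⊓ T ≤ S := inf_le_left.trans hPS
  obtain ⟨Q, e, ρ, hQfn, he, hρ, hρe⟩ := hF.exists_fullyNormalized_map F hS hP0S
  have hQS : Q ≤ S := hQfn.1
  have hfinP0 : Finite ↥(P ⊓ T) := finite_of_le hP0S
  have hPN : P ≤ normalizerIn S (P ⊓ T) := by
    intro u hu
    refine mem_normalizerIn.2 ⟨hPS hu, mem_normalizer_of_finite ?_⟩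
    intro q hq
    exact ⟨P.mul_mem (P.mul_mem hu hq.1) (P.inv_mem hu), hT.conj_mem (hPS hu) hq.2⟩
  have hφ0 : F.IsMor (ρ.comp (Subgroup.inclusion hPN)) := hρ.restrict F hPN
  obtain ⟨φ, hφdef⟩ : ∃ φ : P →* Ω, φ = (normalizerIn S Q).subtype.comp (ρ.comp (Subgroup.inclusion hPN)) :=
    ⟨_, rfl⟩
  have hφ : φ ∈ F.Hom P := hφdef ▸ hφ0
  have hφapp : ∀ x : P, φ x = ρ (Subgroup.inclusion hPN x) := by
    intro x; rw [hφdef]; rfl
  have hRS : φ.range ≤ S := by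
    rintro _ ⟨x, rfl⟩
    exact (F.le_of_mem hφ).2 x
  have hRc : F.IsCentric φ.range := IsCentric.of_conj hP ⟨φ, hφ, rfl⟩
  -- `φ(P) ∩ T = Q`
  have hRT : φ.range ⊓ T = Q := by
    ext y
    constructor
    · rintro ⟨⟨x, rfl⟩, hy⟩
      have hx : (x : Ω) ∈ T := (hT.map_mem_iff hφ).1 hy
      rw [hφapp, hρe ⟨x, x.2, hx⟩ _ rfl]
      exact (e _).2
    · intro hy
      have h1 := hρe (e.symm ⟨y, hy⟩) (Subgroup.inclusion hPN ⟨_, (e.symm ⟨y, hy⟩).2.1⟩) rfl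
      rw [MulEquiv.apply_symm_apply, ← hφapp] at h1
      have h2 : y = φ ⟨_, (e.symm ⟨y, hy⟩).2.1⟩ := h1.symm
      rw [h2]
      exact ⟨⟨_, rfl⟩, hT.map_mem hφ (e.symm ⟨y, hy⟩).2.2⟩
  -- an element of `C_T(Q)` outside `Q`
  have hex : ∃ c ∈ T, c ∈ Subgroup.centralizer (Q : Set Ω) ∧ c ∉ Q := by
    have h1 : ∃ Q', E.IsConj (P ⊓ T) Q' ∧ ¬ centralizerIn T Q' ≤ Q' := by
      by_contra hcon
      push Not at hcon
      exact hPT ⟨inf_le_right, hcon⟩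
    obtain ⟨Q', ⟨χ, hχ, hχr⟩, hQ'⟩ := h1
    have hconj : F.IsConj (P ⊓ T) Q' := ⟨χ, hsub _ hχ, hχr⟩
    have hconj2 : F.IsConj Q' Q := (hconj.symm F).trans F (F.isConj_iff.2 ⟨e, he⟩)
    obtain ⟨e', he'⟩ := F.isConj_iff.1 hconj2
    have hQ'S : Q' ≤ S := hconj2.le_left F
    have hQrec : F.IsReceptive Q := (hF.fullyNormalized F hS hQfn).2.2
    have hle : Q' ⊔ centralizerIn S Q' ≤ extender S Q' (Q.subtype.comp e'.toMonoidHom) :=
      sup_le (le_extender _ hQ'S hQS) (centralizerIn_le_extender _)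
    obtain ⟨ψ, hψ, hψe⟩ := hQrec.exists_extension F e' he' hle
    obtain ⟨c0, hc0, hc0Q⟩ := SetLike.not_le_iff_exists.1 hQ'
    obtain ⟨hc0T, hc0c⟩ := mem_centralizerIn.1 hc0
    have hc0S : c0 ∈ centralizerIn S Q' := mem_centralizerIn.2 ⟨hT.1 hc0T, hc0c⟩
    refine ⟨ψ ⟨c0, Subgroup.mem_sup_right hc0S⟩, hT.map_mem hψ hc0T, ?_, ?_⟩
    · rw [Subgroup.mem_centralizer_iff]
      exact map_mem_centralizer ψ e' hψe le_sup_left hc0c
    · intro hmem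
      have h2 := hψe (e'.symm ⟨_, hmem⟩) ⟨_, Subgroup.mem_sup_left (e'.symm ⟨_, hmem⟩).2⟩ rfl
      rw [MulEquiv.apply_symm_apply] at h2
      have h3 := hψ.injective F (Subtype.ext h2)
      have h4 : ((e'.symm ⟨_, hmem⟩ : Q') : Ω) = c0 := congrArg Subtype.val h3
      exact hc0Q (h4 ▸ (e'.symm ⟨_, hmem⟩).2)
  obtain ⟨c, hcT, hcc, hcQ⟩ := hex
  have hcR : c ∉ φ.range := fun h => hcQ (hRT ▸ ⟨h, hcT⟩)
  obtain ⟨x, hxT, hxN, hxR, hxc⟩ := exists_elt F hS hT hRS hcT (hRT.symm ▸ hcc) hcR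
  have hxS : x ∈ S := hT.1 hxT
  have hαA : conjAut x hxN ∈ F.autGroup φ.range := F.autInducedBy_le_autGroup hRS (conjAut_mem hxN hxS)
  have hfix : ∀ y : φ.range, (y : Ω) ∈ T → conjAut x hxN y = y := by
    intro y hy
    apply Subtype.ext
    show x * y * x⁻¹ = y
    have h1 := (Subgroup.mem_centralizer_iff.1 hxc) y ⟨y.2, hy⟩
    rw [← h1]; group
  have hmod : ∀ y : φ.range, (y : Ω)⁻¹ * ((conjAut x hxN y : φ.range) : Ω) ∈ T := by
    intro y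
    show (y : Ω)⁻¹ * (x * y * x⁻¹) ∈ T
    have h1 := hT.conj_mem (S.inv_mem (hRS y.2)) hxT
    rw [inv_inv] at h1
    have h2 : (y : Ω)⁻¹ * (x * y * x⁻¹) = ((y : Ω)⁻¹ * x * y) * x⁻¹ := by group
    rw [h2]
    exact T.mul_mem h1 (T.inv_mem hxT)
  refine ⟨⟨φ, hφ, x, ⟨hxS, hxN⟩, hxR, conjAut x hxN,
    mem_pCore_of_trivial_on F hS hT hRS hαA hfix hmod, fun y => rfl⟩, ?_⟩
  intro hrad
  -- transport to `P`
  obtain ⟨eφ, heφdef⟩ : ∃ eφ, eφ = F.rangeEquiv hφ := ⟨_, rfl⟩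
  have heφ : F.IsMor eφ.toMonoidHom := heφdef ▸ F.isMor_rangeEquiv hφ
  have heφapp : ∀ x : P, ((eφ x : φ.range) : Ω) = φ x := by
    intro x; rw [heφdef]; rfl
  have hβA : MulAut.congr eφ.symm (conjAut x hxN) ∈ F.autGroup P :=
    F.congr_mem_autGroup (heφ.symm F) hαA
  have hβapp : ∀ y : P, eφ (MulAut.congr eφ.symm (conjAut x hxN) y) = conjAut x hxN (eφ y) := by
    intro y
    show eφ (eφ.symm (conjAut x hxN (eφ.symm.symm y))) = _
    rw [MulEquiv.apply_symm_apply]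
    rfl
  have hβ : MulAut.congr eφ.symm (conjAut x hxN) ∈ (pCore p (F.autGroup P)).map (F.autGroup P).subtype := by
    apply mem_pCore_of_trivial_on F hS hT hPS hβA
    · intro y hy
      apply eφ.injective
      rw [hβapp]
      apply hfix
      rw [heφapp]
      exact hT.map_mem hφ hy
    · intro y
      have h1 := hmod (eφ y)
      rw [← hβapp, heφapp, heφapp, ← map_inv, ← map_mul] at h1
      exact (hT.map_mem_iff hφ).1 h1
  rw [hrad.2] at hβ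
  obtain ⟨u, hu⟩ := hβ
  apply hxR
  apply mem_of_conjAut_mem_inn hRc hxS hxN
  refine ⟨eφ u, ?_⟩
  ext y
  obtain ⟨y, rfl⟩ := eφ.surjective y
  rw [← hβapp, ← hu]
  show ((eφ u * eφ y * (eφ u)⁻¹ : φ.range) : Ω) = ((eφ (u * y * u⁻¹) : φ.range) : Ω)
  rw [map_mul, map_mul, map_inv]

end Cfsg.Agent.S5251
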