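import Cfsg.Statements.S5254
import Cfsg.Agent.Fus.AbIdxEss

set_option autoImplicit false
open Cfsg

namespace Cfsg.Agent.S5254

/-- Let p be an odd prime, S a finite nonabelian p-group with a unique abelian subgroup A of index p, and F a saturated fusion system over S. Then every F-essential subgroup P is A, or Z(S)⟨x⟩ for some x ∈ S outside A, or (when the second centre Z₂(S) lies in A) Z₂(S)⟨x⟩ for some x ∈ S outside A; and P has index p in its normalizer in S. -/
theorem result {Ω : Type*} [Group Ω] {S : Subgroup Ω} [Finite S] (p : ℕ) [Fact p.Prime] (hS : IsPGroup p S) (F : Cfsg.FusionSystem S) (hF : F.IsSaturated p) (hp : p ≠ 2) (hna : ¬ IsMulCommutative ↥S) (A : Subgroup Ω) (hA : A ≤ S ∧ IsMulCommutative ↥A ∧ (A.subgroupOf S).index = p) (huniq : ∀ B : Subgroup Ω, B ≤ S → IsMulCommutative ↥B → (B.subgroupOf S).index = p → B = A) (P : Subgroup Ω) (hP : F.IsEssential p P) : (P = A ∨ (∃ x ∈ S, x ∉ A ∧ P = (S ⊓ Subgroup.centralizer (S : Set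 Ω)) ⊔ Subgroup.zpowers x) ∨ (((upperCentralSeries ↥S 2).map S.subtype) ≤ A ∧ ∃ x ∈ S, x ∉ A ∧ P = ((upperCentralSeries ↥S 2).map S.subtype) ⊔ Subgroup.zpowers x)) ∧ (P.subgroupOf (S ⊓ Subgroup.normalizer (P : Set Ω))).index = p := by
  have hpp : p.Prime := Fact.out
  obtain ⟨hAS, hAc, hAi⟩ := hA
  have hAab : ∀ a ∈ A, ∀ b ∈ A, a * b = b * a := fun a ha b hb =>
    congrArg Subtype.val (hAc.is_comm.comm (⟨a, ha⟩ : A) ⟨b, hb⟩)
  have hcard : Nat.card S = p * Nat.card A := by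
    rw [← Subgroup.card_mul_index (A.subgroupOf S), hAi, Cfsg.Agent.Fus.card_subgroupOf_of_le hAS, mul_comm]
  have hfA : Finite A := Cfsg.FusionSystem.finite_of_le hAS
  have hQn : (A.subgroupOf S).Normal := by
    apply Subgroup.normal_of_index_eq_minFac_card
    obtain ⟨n, hn⟩ := IsPGroup.iff_card.1 hS
    rw [hAi, hn]
    have hn0 : n ≠ 0 := by
      rintro rfl
      rw [pow_zero] at hn
      have h2 : 0 < Nat.card A := Nat.card_pos
      have h3 := hpp.one_lt
      rw [hcard] at hn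
      nlinarith
    exact (hpp.pow_minFac hn0).symm
  have hAn : ∀ s ∈ S, ∀ a ∈ A, s * a * s⁻¹ ∈ A := fun s hs a ha => by
    have := hQn.conj_mem ⟨a, hAS ha⟩ (Subgroup.mem_subgroupOf.2 ha) ⟨s, hs⟩
    exact Subgroup.mem_subgroupOf.1 this
  have hna' : ¬ ∀ a ∈ S, ∀ b ∈ S, a * b = b * a := fun h =>
    hna ⟨⟨fun a b => Subtype.ext (h a a.2 b b.2)⟩⟩
  by_cases hPA : P = A
  · refine ⟨Or.inl hPA, ?_⟩
    rw [hPA]
    have h1 : S ⊓ Subgroup.normalizer (A : Set Ω) = S :=
      inf_eq_left.2 (fun s hs => Cfsg.Agent.Fus.mem_normalizer_of_finite (fun x hx => hAn s hs x hx))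
    rw [h1]
    exact hAi
  · obtain ⟨h1, h2⟩ := Cfsg.FusionSystem.essential_struct_of_abelian_index hS F hF hAS hAab hAn hcard hna' hP hPA
    refine ⟨Or.inr h1, ?_⟩
    have hPS : P ≤ S := hP.1.1
    have hfP : Finite P := Cfsg.FusionSystem.finite_of_le hPS
    have h3 := Subgroup.card_mul_index (P.subgroupOf (Cfsg.FusionSystem.normalizerIn S P))
    rw [Cfsg.Agent.Fus.card_subgroupOf_of_le (Cfsg.FusionSystem.le_normalizerIn hPS), h2] at h3
    have h4 : 0 < Nat.card P := Nat.card_pos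
    have h5 : Nat.card P * (P.subgroupOf (S ⊓ Subgroup.normalizer (P : Set Ω))).index = Nat.card P * p := by
      rw [mul_comm (Nat.card P) p]; exact h3
    exact Nat.eq_of_mul_eq_mul_left h4 h5

end Cfsg.Agent.S5254
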