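import Cfsg.Statements.S5256
import Cfsg.Agent.Lib.Helper27.FusHyper

set_option autoImplicit false
open Cfsg

namespace Cfsg.Agent.S5256

open Cfsg.FusionSystem Cfsg.Agent.Fus Cfsg.Agent.Lib.Helper27.Fus

theorem result {Ω : Type*} [Group Ω] {S : Subgroup Ω} [Finite S] (p : ℕ) [Fact p.Prime] (hS : IsPGroup p S) (F : Cfsg.FusionSystem S) (hF : F.IsSaturated p) (T : Subgroup Ω) (hT : F.StronglyClosed T) {Ω' : Type*} [Group Ω'] {S' : Subgroup Ω'} (θ : ↥S →* Ω') (E : Cfsg.FusionSystem S') (hE : F.IsFactorSystem T θ E) : E.hyperfocalSubgroup p = ((F.hyperfocalSubgroup p).subgroupOf S).map θ := by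
  have h := hE.isQuotMap
  apply le_antisymm
  · rw [hyperfocal_le_iff_coprime]
    intro P' hP' α' hα' hco y
    obtain ⟨β, hβ, hβα⟩ := hE.exists_aut_of_induced hP' hα'
    have hfin : Finite (preimageAlong θ P') := finite_of_le preimageAlong_le
    obtain ⟨j, hj, hjα⟩ := exists_pow_coprime_lift p β α' hco
    have hpow : ∀ (n : ℕ) x, (α' ^ n) (proj θ P' x) = proj θ P' ((β ^ n) x) := by
      intro n
      induction n with
      | zero => intro x; simp
      | succ n ih =>
        intro x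
        rw [pow_succ, pow_succ, MulAut.mul_apply, MulAut.mul_apply, hβα, ih]
    obtain ⟨x, rfl⟩ := h.proj_surjective hP' y
    have h1 := hpow j x
    rw [hjα] at h1
    rw [h1]
    have hmem : (x : Ω)⁻¹ * (((β ^ j) x : preimageAlong θ P') : Ω) ∈ F.hyperfocalSubgroup p :=
      ((hyperfocal_le_iff_coprime F p _).1 le_rfl) _ preimageAlong_le (β ^ j)
        (Subgroup.pow_mem _ hβ j) hj x
    refine ⟨⟨_, F.hyperfocal_le p hmem⟩, Subgroup.mem_subgroupOf.2 hmem, ?_⟩
    rw [proj_coe, proj_coe, ← map_inv, ← map_mul]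
    rfl
  · have key : F.hyperfocalSubgroup p ≤ preimageAlong θ (E.hyperfocalSubgroup p) := by
      rw [hyperfocal_le_iff_coprime]
      intro P hP α hα hco x
      have hmor := (hE.isSurjectiveMorphism hS hF hT).1.2 P (P.subtype.comp α.toMonoidHom)
        ((F.mem_autGroup_iff hP α).1 hα)
      obtain ⟨φ', hφ', hind⟩ := hmor
      have hP'S : imageAlong θ P ≤ S' := (E.le_of_mem hφ').1
      have happ : ∀ z : P, ∀ hz : θ ⟨z, hP z.2⟩ ∈ imageAlong θ P,
          φ' ⟨θ ⟨z, hP z.2⟩, hz⟩ = θ ⟨(α z : P), hP (α z).2⟩ := by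
        intro z hz
        exact hind.apply z _ (hP z.2) (hP (α z).2) rfl
      have himg : ∀ z : P, θ ⟨z, hP z.2⟩ ∈ imageAlong θ P := fun z =>
        mem_imageAlong.2 ⟨z, hP z.2, z.2, rfl⟩
      have hmem : ∀ y, φ' y ∈ imageAlong θ P := by
        intro y
        obtain ⟨z, hzS, hzP, hzy⟩ := mem_imageAlong.1 y.2
        have : y = ⟨θ ⟨(⟨z, hzP⟩ : P), hP hzP⟩, himg ⟨z, hzP⟩⟩ := Subtype.ext hzy.symm
        rw [this, happ]
        exact himg _
      have hfinS' : Finite S' := by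
        rw [← h.range]
        exact Set.finite_range θ |>.to_subtype
      have hfin : Finite (imageAlong θ P) := finite_of_le hP'S
      have hmor' : E.IsMor (φ'.codRestrict _ hmem) := E.isMor_codRestrict hφ' hmem
      have hbij : Function.Bijective (φ'.codRestrict _ hmem) :=
        ⟨hmor'.injective E, Finite.surjective_of_injective (hmor'.injective E)⟩
      obtain ⟨α', hα'def⟩ : ∃ α' : MulAut (imageAlong θ P), α' = equivOfBijective _ hbij := ⟨_, rfl⟩
      have hα' : α' ∈ E.autGroup (imageAlong θ P) := by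
        rw [hα'def]
        exact (E.mem_autGroup_iff hP'S _).2 (E.isMor_equivOfBijective hmor' hbij)
      have hα'app : ∀ z : P, α' ⟨θ ⟨z, hP z.2⟩, himg z⟩ = ⟨θ ⟨(α z : P), hP (α z).2⟩, himg (α z)⟩ := by
        intro z
        rw [hα'def]
        exact Subtype.ext (happ z _)
      have hpow : ∀ (n : ℕ) (z : P), (α' ^ n) ⟨θ ⟨z, hP z.2⟩, himg z⟩
          = ⟨θ ⟨((α ^ n) z : P), hP ((α ^ n) z).2⟩, himg ((α ^ n) z)⟩ := by
        intro n
        induction n with
        | zero => intro z; simp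
        | succ n ih =>
          intro z
          rw [pow_succ, pow_succ, MulAut.mul_apply, MulAut.mul_apply, hα'app, ih]
      have hone : α' ^ orderOf α = 1 := by
        ext y
        obtain ⟨z, hzS, hzP, hzy⟩ := mem_imageAlong.1 y.2
        have : y = ⟨θ ⟨(⟨z, hzP⟩ : P), hP hzP⟩, himg ⟨z, hzP⟩⟩ := Subtype.ext hzy.symm
        rw [this, hpow, pow_orderOf_eq_one]
        rfl
      have hco' : Nat.Coprime (orderOf α') p :=
        Nat.Coprime.coprime_dvd_left (orderOf_dvd_of_pow_eq_one hone) hco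
      have hres := ((hyperfocal_le_iff_coprime E p _).1 le_rfl) _ hP'S α' hα' hco'
        ⟨θ ⟨x, hP x.2⟩, himg x⟩
      rw [hα'app] at hres
      refine mem_preimageAlong.2 ⟨S.mul_mem (S.inv_mem (hP x.2)) (hP (α x).2), ?_⟩
      have : θ ⟨(x : Ω)⁻¹ * ((α x : P) : Ω), S.mul_mem (S.inv_mem (hP x.2)) (hP (α x).2)⟩
          = (θ ⟨x, hP x.2⟩)⁻¹ * θ ⟨(α x : P), hP (α x).2⟩ := by
        rw [← map_inv, ← map_mul]
        rfl
      rw [this]
      exact hres
    rintro _ ⟨s, hs, rfl⟩
    exact (mem_preimageAlong.1 (key (Subgroup.mem_subgroupOf.1 hs))).2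

end Cfsg.Agent.S5256
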