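import Cfsg.Statements.S5257
import Cfsg.Agent.Fus.AbIdxEss2

set_option autoImplicit false
open Cfsg

namespace Cfsg.Agent.S5257

/-- Let p be an odd prime, S a finite nonabelian p-group with a unique abelian subgroup A of index p, and F a saturated fusion system over S having an F-essential subgroup other than A. Then the second centre Z₂(S) lies in A; Z(S) ∩ [S, S] has order p; Z(S)[S, S] has index p in A; Z(S) has index p in Z₂(S); and S/Z(S) has maximal nilpotency class (if S/Z(S) has order pᵐ with m ≥ 3 then the term of index m − 2 of the lower central series of S, counting S as index 0, is not contained in Z(S)). -/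
theorem result {Ω : Type*} [Group Ω] {S : Subgroup Ω} [Finite S] (p : ℕ) [Fact p.Prime] (hS : IsPGroup p S) (F : Cfsg.FusionSystem S) (hF : F.IsSaturated p) (hp : p ≠ 2) (hna : ¬ IsMulCommutative ↥S) (A : Subgroup Ω) (hA : A ≤ S ∧ IsMulCommutative ↥A ∧ (A.subgroupOf S).index = p) (huniq : ∀ B : Subgroup Ω, B ≤ S → IsMulCommutative ↥B → (B.subgroupOf S).index = p → B = A) (P : Subgroup Ω) (hP : F.IsEssential p P) (hPA : P ≠ A) : ((upperCentralSeries ↥S 2).map S.subtype) ≤ A ∧ Nat.card ↥((S ⊓ Subgroup.centralizer (S : Set Ω)) ⊓ ((commutator ↥S).map S.subtype)) = p ∧ (((S ⊓ Subgroup.centralizer (S : Set Ω)) ⊔ ((commutator ↥S).map S.subtype)).subgroupOf A).index = p ∧ (((S ⊓ Subgroup.centralizer (S : Set Ω))).subgroupOf ((upperCentralSeries ↥S 2).map S.subtype)).index = p ∧ ∀ m : ℕ, ((S ⊓ Subgroup.centralizer (S : Set Ω)).subgroupOf S).index = p ^ m → 3 ≤ m → ¬ Subgroup.lowerCentralSeries S (m - 2) ≤ (S ⊓ Subgroup.centralizer (S : Set Ω)) := by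
  have hpp : p.Prime := Fact.out
  obtain ⟨hAS, hAc, hAi⟩ := hA
  have hAab : ∀ a ∈ A, ∀ b ∈ A, a * b = b * a := fun a ha b hb =>
    congrArg Subtype.val (hAc.is_comm.comm (⟨a, ha⟩ : A) ⟨b, hb⟩)
  have hcard : Nat.card S = p * Nat.card A := by
    rw [← Subgroup.card_mul_index (A.subgroupOf S), hAi, Cfsg.Agent.Fus.card_subgroupOf_of_le hAS, mul_comm]
  have hfA : Finite A := Cfsg.FusionSystem.finite_of_le hAS
  have hQn : (A.subgroupOf S).Normal := by
    apply Subgroup.normal_of_index_eq_minFac_card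
    obtain ⟨n, hn⟩ := IsPGroup.iff_card.1 hS
    rw [hAi, hn]
    have hn0 : n ≠ 0 := by
      rintro rfl
      rw [pow_zero] at hn
      have h2 : 0 < Nat.card A := Nat.card_pos
      have h3 := hpp.one_lt
      rw [hcard] at hn
      nlinarith
    exact (hpp.pow_minFac hn0).symm
  have hAn : ∀ s ∈ S, ∀ a ∈ A, s * a * s⁻¹ ∈ A := fun s hs a ha => by
    have := hQn.conj_mem ⟨a, hAS ha⟩ (Subgroup.mem_subgroupOf.2 ha) ⟨s, hs⟩
    exact Subgroup.mem_subgroupOf.1 this
  have hna' : ¬ ∀ a ∈ S, ∀ b ∈ S, a * b = b * a := fun h =>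
    hna ⟨⟨fun a b => Subtype.ext (h a a.2 b b.2)⟩⟩
  have huniq' : ∀ B : Subgroup Ω, B ≤ S → (∀ a ∈ B, ∀ b ∈ B, a * b = b * a) →
      Nat.card S = p * Nat.card B → B = A := by
    intro B hBS hBab hBc
    refine huniq B hBS ⟨⟨fun a b => Subtype.ext (hBab a a.2 b b.2)⟩⟩ ?_
    have hfB : Finite B := Cfsg.FusionSystem.finite_of_le hBS
    have h3 := Subgroup.card_mul_index (B.subgroupOf S)
    rw [Cfsg.Agent.Fus.card_subgroupOf_of_le hBS, hBc] at h3
    have h4 : 0 < Nat.card B := Nat.card_pos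
    exact Nat.eq_of_mul_eq_mul_left h4 (by rw [h3, mul_comm])
  obtain ⟨x, hxS, hxA, hZA, hZ2A, t, ht2, htZ, htp, htd⟩ :=
    Cfsg.FusionSystem.essential_struct2 hS F hF hAS hAab hAn hcard hna' huniq' hP hPA
  obtain ⟨h2, h3, h4, h5⟩ :=
    Cfsg.FusionSystem.abIdx_numeric hAS hAab hAn hcard hxS hxA hZA hZ2A ht2 htZ htp htd
  exact ⟨hZ2A, h2, h3, h4, h5⟩

end Cfsg.Agent.S5257
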