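import Cfsg.Statements.S5291
import Cfsg.Agent.Lib.Helper27.FusTransport

set_option autoImplicit false
open Cfsg

namespace Cfsg.Agent.S5291

open Cfsg.FusionSystem Cfsg.Agent.Lib.Helper27.Fus

/-- Let F be a saturated fusion system over a finite p-group S and E a weakly normal subsystem of F over a subgroup T. Suppose a subgroup R of T is normal in E (E = N_E(R)), and let R* be the subgroup of T generated by the images of R under all maps of F with source R. Then R* is normal in F (F = N_F(R*)). -/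
theorem result {Ω : Type*} [Group Ω] {S : Subgroup Ω} [Finite S] (p : ℕ) [Fact p.Prime] (hS : IsPGroup p S)
    (F : Cfsg.FusionSystem S) (hF : F.IsSaturated p)
    {T : Subgroup Ω} (E : Cfsg.FusionSystem T) (hE : E.IsWeaklyNormalIn F p)
    (R : Subgroup Ω) (hR : E.IsNormal R) :
    F.IsNormal (Subgroup.closure {x : Ω | ∃ φ ∈ F.Hom R, ∃ r : R, x = φ r}) := by
  obtain ⟨hEsat, -, hinv⟩ := hE
  have hinv' := hinv
  obtain ⟨hsub, hTsc, -, hfrat⟩ := hinv'
  have hTS : T ≤ S := hTsc.1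
  have : Finite T := finite_of_le hTS
  have hTp : IsPGroup p T := isPGroup_of_le hS hTS
  have hRT : R ≤ T := hR.1
  set Rs := Subgroup.closure {x : Ω | ∃ φ ∈ F.Hom R, ∃ r : R, x = φ r} with hRs
  have hRsT : Rs ≤ T := by
    rw [hRs, Subgroup.closure_le]
    rintro _ ⟨φ, hφ, r, rfl⟩
    exact hTsc.2 R hRT φ hφ r
  -- `R*` is normal in `E`
  have hC := sSup_mem_of_sup_closed (S := T) (fun Q => E.IsNormal Q ∧ Q ≤ Rs) (fun Q h => h.1.1)
    ⟨E.isNormal_bot, bot_le⟩ (fun Q Q' h h' => ⟨h.1.sup h'.1, sup_le h.2 h'.2⟩)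
  have himg : ∀ α ∈ F.autGroup T, imgAut α R ≤ Rs := by
    intro α hα y hy
    obtain ⟨x, hx, rfl⟩ := mem_imgAut.1 hy
    apply Subgroup.subset_closure
    exact ⟨_, isMor_resEquiv F hTS hα hRT, ⟨x, hx⟩, rfl⟩
  have heq : Rs = sSup {Q | E.IsNormal Q ∧ Q ≤ Rs} := by
    apply le_antisymm _ hC.2
    conv_lhs => rw [hRs]
    rw [Subgroup.closure_le]
    rintro _ ⟨φ, hφ, r, rfl⟩
    obtain ⟨α, hα, φ₀, hφ₀, h⟩ := hfrat R hRT φ hφ
    have h1 : φ₀ r ∈ R := hR.stronglyClosed.2 R le_rfl φ₀ hφ₀ r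
    have h2 : imgAut α R ≤ sSup {Q | E.IsNormal Q ∧ Q ≤ Rs} :=
      le_sSup ⟨isNormal_imgAut hTp hEsat hinv hα hR, himg α hα⟩
    apply h2
    rw [h r (hRT h1)]
    exact apply_mem_imgAut α h1
  have hRsE : E.IsNormal Rs := by
    rw [heq]; exact hC.1
  -- `R*` is invariant under `Aut_F(T)`
  have hinvRs : ∀ α ∈ F.autGroup T, ∀ x : T, (x : Ω) ∈ Rs → ((α x : T) : Ω) ∈ Rs := by
    intro α hα
    have hαm := (F.mem_autGroup_iff hTS α).1 hα
    have h1 : Rs ≤ ((Rs.subgroupOf T).comap α.toMonoidHom).map T.subtype := by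
      conv_lhs => rw [hRs]
      rw [Subgroup.closure_le]
      rintro _ ⟨φ, hφ, r, rfl⟩
      have hφT : ∀ x : R, φ x ∈ T := hTsc.2 R hRT φ hφ
      refine ⟨⟨φ r, hφT r⟩, ?_, rfl⟩
      show ((α ⟨φ r, hφT r⟩ : T) : Ω) ∈ Rs
      apply Subgroup.subset_closure
      exact ⟨_, F.comp_mem hφ hαm hφT, r, rfl⟩
    intro x hx
    obtain ⟨y, hy, hyx⟩ := h1 hx
    have : y = x := Subtype.ext hyx
    rw [← this]
    exact hy
  have hRsS : Rs ≤ S := hRsT.trans hTS
  have : Finite Rs := finite_of_le hRsS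
  rw [F.isNormal_iff_extend hS hF Rs hRsS]
  intro P hP φ hφ
  obtain ⟨α, hα, φ₀, hφ₀, h⟩ := hfrat P (hP.trans hRsT) φ hφ
  obtain ⟨β₀, hβ₀, hβ₀x⟩ := hRsE.exists_aut_extend hP hφ₀
  have hαm := (F.mem_autGroup_iff hTS α).1 hα
  let a : Rs →* Rs := ((T.subtype.comp α.toMonoidHom).comp (Subgroup.inclusion hRsT)).codRestrict Rs
    (fun x => hinvRs α hα _ x.2)
  have ha : F.IsMor a := F.restrict_mem hαm hRsT
  have hbij : Function.Bijective a := Finite.injective_iff_bijective.1 (ha.injective F)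
  have hβ₀F : β₀ ∈ F.autGroup Rs := by
    rw [F.mem_autGroup_iff hRsS]
    exact hsub _ ((E.mem_autGroup_iff hRsT β₀).1 hβ₀)
  refine ⟨equivOfBijective a hbij * β₀, (F.autGroup Rs).mul_mem ?_ hβ₀F, ?_⟩
  · rw [F.mem_autGroup_iff hRsS]
    exact F.isMor_equivOfBijective ha hbij
  · intro x
    have hmem : φ₀ x ∈ T := (E.le_of_mem hφ₀).2 x
    rw [h x hmem, MulAut.mul_apply, equivOfBijective_apply]
    show ((α (Subgroup.inclusion hRsT (β₀ (Subgroup.inclusion hP x))) : T) : Ω) = _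
    congr 2
    apply Subtype.ext
    exact hβ₀x x

end Cfsg.Agent.S5291
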