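import Cfsg.Statements.S5294
import Cfsg.Agent.Lib.Helper27.FusCenter
import Cfsg.Agent.Lib.Helper27.AbelianTrace

set_option autoImplicit false
universe u
open Cfsg

namespace Cfsg.Agent.S5294

open Cfsg.FusionSystem Cfsg.Agent.Lib.Helper27.Fus Cfsg.Agent.Lib.Helper27 Cfsg.Agent.Fus

/-- `exists_complement_fixed` without a `CommGroup` instance. -/
theorem exists_complement_fixed' {V G : Type*} [Group V] [Finite V] [Group G]
    (hcomm : ∀ a b : V, a * b = b * a) (ρ : G →* MulAut V) (H : Subgroup G) [H.FiniteIndex]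
    (hcop : (Nat.card V).Coprime H.index) :
    ∃ K : Subgroup V, (∀ v ∈ K, ∀ h ∈ H, ρ h v = v) ∧ (∀ v ∈ K, (∀ g, ρ g v = v) → v = 1) ∧
      ∀ v, (∀ h ∈ H, ρ h v = v) → ∃ c k, (∀ g, ρ g c = c) ∧ k ∈ K ∧ v = c * k := by
  letI : CommGroup V := { ‹Group V› with mul_comm := hcomm }
  exact exists_complement_fixed ρ H hcop

/-- A subgroup normal in `F` is fully normalized. -/
theorem isFullyNormalized_of_isNormal {Ω : Type*} [Group Ω] {S : Subgroup Ω} [Finite S] {F : Cfsg.FusionSystem S}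
    {Q : Subgroup Ω} (hQ : F.IsNormal Q) : F.IsFullyNormalized Q := by
  refine ⟨hQ.1, fun Q' hQ' => ?_⟩
  have : Finite Q := finite_of_le hQ.1
  have hle : Q' ≤ Q := by
    obtain ⟨φ, hφ, rfl⟩ := hQ'
    rintro _ ⟨x, rfl⟩
    exact hQ.stronglyClosed.2 Q le_rfl φ hφ x
  have : Q' = Q := Subgroup.eq_of_le_of_card_ge hle (hQ'.card_eq F).le
  rw [this]

/-- Let F be a saturated fusion system over a finite p-group S whose centre Z(S) lies in the largest subgroup O_p(F) normal in F. Then the centre Z(F) of F is a direct factor of Z(S): there is a subgroup K of Z(S) with Z(F) ∩ K = 1 and Z(F)K = Z(S). -/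
theorem result {Ω : Type u} [Group Ω] {S : Subgroup Ω} [Finite S] (p : ℕ) [Fact p.Prime] (hS : IsPGroup p S)
    (F : Cfsg.FusionSystem S) (hF : F.IsSaturated p) (hZ : (S ⊓ Subgroup.centralizer (S : Set Ω)) ≤ F.core) :
    ∃ K : Subgroup Ω, K ≤ (S ⊓ Subgroup.centralizer (S : Set Ω)) ∧ F.center ⊓ K = ⊥ ∧ F.center ⊔ K = (S ⊓ Subgroup.centralizer (S : Set Ω)) := by
  have hp : p.Prime := Fact.out
  set Q := F.core with hQdef
  have hQ : F.IsNormal Q := F.isNormal_core
  have hQS : Q ≤ S := hQ.1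
  have : Finite Q := finite_of_le hQS
  obtain ⟨-, hfa, -⟩ := hF.fullyNormalized F hS (isFullyNormalized_of_isNormal hQ)
  obtain ⟨R, hR⟩ := hfa.2
  let ρ : F.autGroup Q →* MulAut (Subgroup.center Q) :=
    (MulAut.characteristic (Subgroup.center Q)).comp (F.autGroup Q).subtype
  have hρ : ∀ (g : F.autGroup Q) (v : Subgroup.center Q), ((ρ g v : Subgroup.center Q) : Q) = g.1 (v : Q) :=
    fun _ _ => rfl
  have hcop : (Nat.card (Subgroup.center Q)).Coprime (R : Subgroup (F.autGroup Q)).index := by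
    obtain ⟨n, hn⟩ := IsPGroup.iff_card.1 ((isPGroup_of_le hS hQS).to_subgroup (Subgroup.center Q))
    rw [hn]
    exact Nat.Coprime.pow_left n ((Nat.Prime.coprime_iff_not_dvd hp).2 R.not_dvd_index)
  obtain ⟨K', hK1, hK2, hK3⟩ := exists_complement_fixed'
    (fun a b : Subgroup.center Q => Subtype.ext (Subgroup.mem_center_iff.1 b.2 a))
    ρ (R : Subgroup (F.autGroup Q)) hcop
  have b1 : ∀ v : Subgroup.center Q, (∀ h ∈ (R : Subgroup (F.autGroup Q)), ρ h v = v) ↔
      ((v : Q) : Ω) ∈ S ⊓ Subgroup.centralizer (S : Set Ω) := by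
    intro v
    constructor
    · intro h
      refine Subgroup.mem_inf.mpr ⟨hQS (v : Q).2, ?_⟩
      rw [Subgroup.mem_centralizer_iff]
      intro g hg
      have hgN : g ∈ Subgroup.normalizer (Q : Set Ω) := hQ.stronglyClosed.le_normalizer hg
      have hmem : (⟨conjAut g hgN, F.autInducedBy_le_autGroup hQS (conjAut_mem hgN hg)⟩ : F.autGroup Q) ∈
          (R : Subgroup (F.autGroup Q)) := by
        rw [hR]; exact Subgroup.mem_subgroupOf.2 (conjAut_mem hgN hg)
      have h1 := h _ hmem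
      have h2 : g * ((v : Q) : Ω) * g⁻¹ = ((v : Q) : Ω) :=
        congrArg (fun z : Subgroup.center Q => ((z : Q) : Ω)) h1
      calc g * ((v : Q) : Ω) = g * ((v : Q) : Ω) * g⁻¹ * g := by group
        _ = ((v : Q) : Ω) * g := by rw [h2]
    · intro hv h hh
      rw [hR] at hh
      obtain ⟨g, hg, hgx⟩ := (mem_autInducedBy_iff _).1 (Subgroup.mem_subgroupOf.1 hh)
      apply Subtype.ext
      apply Subtype.ext
      rw [hρ, hgx]
      have h3 := (Subgroup.mem_centralizer_iff.1 (Subgroup.mem_inf.1 hv).2) g hg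
      rw [h3]
      group
  have b2 : ∀ v : Subgroup.center Q, (∀ g : F.autGroup Q, ρ g v = v) ↔ ((v : Q) : Ω) ∈ F.center := by
    intro v
    rw [mem_center_iff_of_normal F hS hF hQ (v : Q).2]
    constructor
    · intro h α hα
      exact congrArg Subtype.val (h ⟨α, hα⟩)
    · intro h g
      apply Subtype.ext
      exact h g.1 g.2
  have b3 : ∀ x ∈ S ⊓ Subgroup.centralizer (S : Set Ω), ∃ v : Subgroup.center Q, ((v : Q) : Ω) = x := by
    intro x hx
    refine ⟨⟨⟨x, hZ hx⟩, ?_⟩, rfl⟩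
    rw [Subgroup.mem_center_iff]
    intro g
    apply Subtype.ext
    exact (Subgroup.mem_centralizer_iff.1 (Subgroup.mem_inf.1 hx).2) g (hQS g.2)
  have hKle : (K'.map (Subgroup.center Q).subtype).map Q.subtype ≤ S ⊓ Subgroup.centralizer (S : Set Ω) := by
    rintro _ ⟨_, ⟨v, hv, rfl⟩, rfl⟩
    exact (b1 v).1 (hK1 v hv)
  refine ⟨(K'.map (Subgroup.center Q).subtype).map Q.subtype, hKle, ?_, ?_⟩
  · rw [eq_bot_iff]
    rintro _ ⟨hxc, ⟨_, ⟨v, hv, rfl⟩, rfl⟩⟩
    have := hK2 v hv ((b2 v).2 hxc)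
    rw [this]
    exact Subgroup.one_mem _
  · apply le_antisymm (sup_le (center_le_center F hS hF) hKle)
    intro x hx
    obtain ⟨v, rfl⟩ := b3 x hx
    obtain ⟨c, k, hc, hk, hv⟩ := hK3 v ((b1 v).2 hx)
    have : ((v : Q) : Ω) = ((c : Q) : Ω) * ((k : Q) : Ω) :=
      congrArg (fun z : Subgroup.center Q => ((z : Q) : Ω)) hv
    rw [this]
    exact Subgroup.mul_mem _ ((le_sup_left : F.center ≤ _) ((b2 c).1 hc))
      ((le_sup_right : (K'.map (Subgroup.center Q).subtype).map Q.subtype ≤ _) ⟨_, ⟨k, hk, rfl⟩, rfl⟩)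

end Cfsg.Agent.S5294
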