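import Cfsg.Statements.S5300
import Cfsg.Agent.Lib.Helper27.FusNormal
import Cfsg.Agent.Lib.Helper27.CoprimeAut2

set_option autoImplicit false
universe u
open Cfsg

namespace Cfsg.Agent.S5300

open Cfsg.FusionSystem Cfsg.Agent.Lib.Helper27.Fus Cfsg.Agent.Lib.Helper27 Cfsg.Agent.Fus

theorem zpow_eq_pow_of_pow_eq_one {X : Type*} [Group X] {x : X} {n : ℕ} (hn : 0 < n) (h : x ^ n = 1) (j : ℤ) :
    ∃ r : ℕ, r < n ∧ x ^ j = x ^ r := by
  have hn' : (0 : ℤ) < n := by exact_mod_cast hn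
  refine ⟨(j % n).toNat, ?_, ?_⟩
  · have h1 := Int.emod_lt_of_pos j hn'
    have h2 := Int.emod_nonneg j hn'.ne'
    omega
  · have h2 := Int.emod_nonneg j hn'.ne'
    rw [← zpow_natCast, Int.toNat_of_nonneg h2]
    conv_lhs => rw [← Int.emod_add_mul_ediv j n]
    rw [zpow_add, zpow_mul, zpow_natCast, h, one_zpow, mul_one]

theorem conj_pow_pow {X : Type*} [Group X] {s x : X} {j : ℕ} (h : s * x * s⁻¹ = x ^ j) (k : ℕ) :
    s ^ k * x * (s ^ k)⁻¹ = x ^ (j ^ k) := by
  induction k with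
  | zero => simp
  | succ k ih =>
    have : s ^ (k + 1) * x * (s ^ (k + 1))⁻¹ = s * (s ^ k * x * (s ^ k)⁻¹) * s⁻¹ := by
      rw [pow_succ']; group
    rw [this, ih, ← conj_pow, h, ← pow_mul, pow_succ']

/-- A `p`-element normalizing a cyclic group of order dividing `p` centralizes it. -/
theorem conj_eq_of_pow_prime {X : Type*} [Group X] {p m : ℕ} [Fact p.Prime] {s x : X} (hx : x ^ p = 1)
    (hs : s ^ p ^ m = 1) (h : s * x * s⁻¹ ∈ Subgroup.zpowers x) : s * x * s⁻¹ = x := by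
  have hp : p.Prime := Fact.out
  obtain ⟨j, hj⟩ := Subgroup.mem_zpowers_iff.1 h
  obtain ⟨r, -, hr⟩ := zpow_eq_pow_of_pow_eq_one hp.pos hx j
  rw [hr] at hj
  have h1 := conj_pow_pow hj.symm (p ^ m)
  rw [hs] at h1
  simp only [one_mul, inv_one, mul_one] at h1
  have h2 : (r ^ p ^ m) % p = r % p := by
    rw [← ZMod.natCast_eq_natCast_iff']
    push_cast
    exact ZMod.pow_card_pow _
  rw [← hj, pow_eq_pow_mod r hx, ← h2, ← pow_eq_pow_mod _ hx, ← h1]

/-- An element normalizing a cyclic group of order dividing `4` centralizes or inverts it. -/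
theorem conj_eq_or_inv_of_pow_four {X : Type*} [Group X] {s x : X} (hx : x ^ 4 = 1)
    (h : s * x * s⁻¹ ∈ Subgroup.zpowers x) : s * x * s⁻¹ = x ∨ s * x * s⁻¹ = x⁻¹ := by
  obtain ⟨j, hj⟩ := Subgroup.mem_zpowers_iff.1 h
  obtain ⟨r, hr4, hr⟩ := zpow_eq_pow_of_pow_eq_one (by norm_num : 0 < 4) hx j
  rw [hr] at hj
  have hone : s * x * s⁻¹ = 1 → s * x * s⁻¹ = x := by
    intro h1
    have : x = 1 := by
      have h2 : x = s⁻¹ * (s * x * s⁻¹) * s := by group
      rw [h2, h1]; group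
    rw [this]; group
  interval_cases r
  · left
    apply hone
    rw [← hj, pow_zero]
  · left
    rw [← hj, pow_one]
  · left
    apply hone
    have h2 : (s * x * s⁻¹) ^ 2 = 1 := by rw [← hj, ← pow_mul]; exact hx
    rw [conj_pow] at h2
    have h3 : x ^ 2 = 1 := by
      have h4 : x ^ 2 = s⁻¹ * (s * x ^ 2 * s⁻¹) * s := by group
      rw [h4, h2]; group
    rw [← hj, h3]
  · right
    rw [← hj]
    apply eq_inv_of_mul_eq_one_left
    rw [← pow_succ]
    exact hx

/-- Let F be a saturated fusion system over a finite p-group S. If every cyclic subgroup of the focal subgroup of F of order p (of order 2 or 4 when p = 2) is normal in S, then S is normal in F. -/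
theorem result {Ω : Type u} [Group Ω] {S : Subgroup Ω} [Finite S] (p : ℕ) [Fact p.Prime] (hS : IsPGroup p S)
    (F : Cfsg.FusionSystem S) (hF : F.IsSaturated p)
    (hnorm : ∀ x ∈ F.focalSubgroup, (x ^ p = 1 ∨ (p = 2 ∧ x ^ 4 = 1)) → ∀ s ∈ S, s * x * s⁻¹ ∈ Subgroup.zpowers x) :
    F.IsNormal S := by
  have hp : p.Prime := Fact.out
  apply isNormal_self_of_no_essential F hS hF
  intro P hP
  have hPle : P ≤ S := hP.1.1
  have : Finite P := finite_of_le hPle
  have hPp : IsPGroup p P := isPGroup_of_le hS hPle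
  obtain ⟨-, hfa, -⟩ := hF.fullyNormalized F hS hP.2.1
  obtain ⟨e, he⟩ : ∃ e : ℕ, (p ≠ 2 ∧ e = p) ∨ (p = 2 ∧ e = 4) := by
    by_cases h2 : p = 2
    · exact ⟨4, Or.inr ⟨h2, rfl⟩⟩
    · exact ⟨p, Or.inl ⟨h2, rfl⟩⟩
  have hsmall : ∀ x : Ω, x ^ e = 1 → (x ^ p = 1 ∨ (p = 2 ∧ x ^ 4 = 1)) := by
    intro x hx
    rcases he with ⟨-, he'⟩ | ⟨h2, he'⟩ <;> rw [he'] at hx
    · exact Or.inl hx
    · exact Or.inr ⟨h2, hx⟩
  -- the focal part of `P`
  have hquot : ∀ a ∈ F.autGroup P, ∀ x : P, (((x⁻¹ * a x : P)) : Ω) ∈ F.focalSubgroup := by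
    intro a ha x
    apply Subgroup.subset_closure
    exact ⟨P, _, x, (F.mem_autGroup_iff hPle a).1 ha, rfl⟩
  have hDinv : ∀ a ∈ F.autGroup P, ∀ x : P, (x : Ω) ∈ F.focalSubgroup → ((a x : P) : Ω) ∈ F.focalSubgroup := by
    intro a ha x hx
    have h1 := Subgroup.mul_mem _ hx (hquot a ha x)
    have h2 : (x : Ω) * ((x⁻¹ * a x : P) : Ω) = (a x : P) := by
      simp
    rwa [h2] at h1
  -- the subgroup `K₂`
  let K : Subgroup (MulAut P) :=
    { carrier := {b | b ∈ F.autGroup P ∧ ∀ x : P, (x : Ω) ∈ F.focalSubgroup → x ^ e = 1 →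
        (b x = x ∨ (p = 2 ∧ b x = x⁻¹))}
      one_mem' := ⟨Subgroup.one_mem _, fun x _ _ => Or.inl rfl⟩
      mul_mem' := by
        rintro b b' ⟨hb, hbx⟩ ⟨hb', hbx'⟩
        refine ⟨Subgroup.mul_mem _ hb hb', fun x hx hxe => ?_⟩
        rw [MulAut.mul_apply]
        rcases hbx' x hx hxe with h1 | ⟨h2, h1⟩
        · rw [h1]; exact hbx x hx hxe
        · rw [h1, map_inv]
          rcases hbx x hx hxe with h3 | ⟨-, h3⟩
          · rw [h3]; exact Or.inr ⟨h2, rfl⟩
          · rw [h3, inv_inv]; exact Or.inl rfl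
      inv_mem' := by
        rintro b ⟨hb, hbx⟩
        refine ⟨Subgroup.inv_mem _ hb, fun x hx hxe => ?_⟩
        rcases hbx x hx hxe with h1 | ⟨h2, h1⟩
        · left
          have := MulAut.inv_apply_self _ b x
          rwa [h1] at this
        · right
          refine ⟨h2, ?_⟩
          have h3 : b x⁻¹ = x := by rw [map_inv, h1, inv_inv]
          have := MulAut.inv_apply_self _ b x⁻¹
          rwa [h3] at this }
  have hKA : K ≤ F.autGroup P := fun b hb => hb.1
  -- `Aut_S(P) ≤ K`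
  have hUK : autInducedBy S P ≤ K := by
    intro u hu
    refine ⟨F.autInducedBy_le_autGroup hPle hu, fun x hx hxe => ?_⟩
    obtain ⟨s, hs, hsx⟩ := (mem_autInducedBy_iff u).1 hu
    have hxe' : (x : Ω) ^ e = 1 := by
      have := congrArg Subtype.val hxe
      simpa using this
    have h1 := hnorm x hx (hsmall _ hxe') s hs
    rcases he with ⟨-, he'⟩ | ⟨h2, he'⟩ <;> rw [he'] at hxe'
    · left
      obtain ⟨m, hm⟩ := hS ⟨s, hs⟩
      have hm' : s ^ p ^ m = 1 := congrArg Subtype.val hm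
      apply Subtype.ext
      rw [hsx]
      exact conj_eq_of_pow_prime hxe' hm' h1
    · rcases conj_eq_or_inv_of_pow_four hxe' h1 with h3 | h3
      · left
        apply Subtype.ext
        rw [hsx, h3]
      · right
        refine ⟨h2, ?_⟩
        apply Subtype.ext
        rw [hsx, h3]
        rfl
  -- `K` is a `p`-group
  have hKp : IsPGroup p K := by
    rintro ⟨b, hb⟩
    set N := (orderOf b).factorization p with hN
    refine ⟨N + 1, ?_⟩
    apply Subtype.ext
    show b ^ p ^ (N + 1) = 1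
    set d := b ^ p ^ (N + 1) with hd
    have hdA : d ∈ F.autGroup P := Subgroup.pow_mem _ hb.1 _
    have hbp : ∀ x : P, (x : Ω) ∈ F.focalSubgroup → x ^ e = 1 → (b ^ p) x = x := by
      intro x hx hxe
      rcases hb.2 x hx hxe with h1 | ⟨h2, h1⟩
      · have : ∀ n : ℕ, (b ^ n) x = x := by
          intro n
          induction n with
          | zero => simp
          | succ n ih => rw [pow_succ, MulAut.mul_apply, h1, ih]
        exact this p
      · rw [h2, pow_two, MulAut.mul_apply, h1, map_inv, h1, inv_inv]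
    have hdfix : ∀ x : P, (x : Ω) ∈ F.focalSubgroup → x ^ e = 1 → d x = x := by
      intro x hx hxe
      have h1 : d = (b ^ p) ^ p ^ N := by rw [hd, ← pow_mul, pow_succ']
      rw [h1]
      have : ∀ n : ℕ, ((b ^ p) ^ n) x = x := by
        intro n
        induction n with
        | zero => simp
        | succ n ih => rw [pow_succ, MulAut.mul_apply, hbp x hx hxe, ih]
      exact this _
    have hcop : Nat.Coprime (orderOf d) p := by
      have h0 : orderOf b ≠ 0 := (orderOf_pos b).ne'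
      have h1 : Nat.Coprime (orderOf (b ^ p ^ N)) p := by
        rw [orderOf_pow_of_dvd (pow_ne_zero _ hp.ne_zero) (Nat.ordProj_dvd _ _)]
        exact (Nat.coprime_ordCompl hp h0).symm
      have h2 : d = (b ^ p ^ N) ^ p := by rw [hd, ← pow_mul, pow_succ]
      rw [h2]
      exact Nat.Coprime.coprime_dvd_left (orderOf_pow_dvd p) h1
    have hD := fixes_of_fixes_small hcop he d ((F.focalSubgroup).subgroupOf P)
      (hPp.to_subgroup _) (fun x hx => Subgroup.mem_subgroupOf.2 (hDinv d hdA x (Subgroup.mem_subgroupOf.1 hx)))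
      (fun x _ => by rw [pow_orderOf_eq_one]; rfl)
      (fun x hx hxe => hdfix x (Subgroup.mem_subgroupOf.1 hx) hxe)
    ext x
    rw [MulAut.one_apply]
    obtain ⟨m, hm⟩ := hPp (x⁻¹ * d x)
    rw [fixed_of_quot_fixed hcop d x (by rw [pow_orderOf_eq_one]; rfl)
      (hD _ (Subgroup.mem_subgroupOf.2 (hquot d hdA x))) hm]
  have hUeq : autInducedBy S P = K := by
    have hfinK : Finite K := inferInstance
    exact Subgroup.eq_of_le_of_card_ge hUK (hfa.isSylowIn.card_le (F.autInducedBy_le_autGroup hPle) hKA hKp)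
  obtain ⟨R, hR⟩ := hfa.2
  apply not_isEssential_of_normal_sylow F hS R _ hP
  rw [hR, hUeq]
  constructor
  rintro ⟨b, hbA⟩ hb ⟨a, ha⟩
  rw [Subgroup.mem_subgroupOf] at hb ⊢
  refine ⟨Subgroup.mul_mem _ (Subgroup.mul_mem _ ha hbA) (Subgroup.inv_mem _ ha), fun x hx hxe => ?_⟩
  show a (b (a⁻¹ x)) = x ∨ (p = 2 ∧ a (b (a⁻¹ x)) = x⁻¹)
  have h1 := hDinv a⁻¹ (Subgroup.inv_mem _ ha) x hx
  have h2 : (a⁻¹ x) ^ e = 1 := by rw [← map_pow, hxe, map_one]
  rcases hb.2 (a⁻¹ x) h1 h2 with h3 | ⟨h4, h3⟩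
  · left
    rw [h3, MulAut.apply_inv_self]
  · right
    refine ⟨h4, ?_⟩
    rw [h3, map_inv, MulAut.apply_inv_self]

end Cfsg.Agent.S5300
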