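import Cfsg.Statements.S5301
import Cfsg.Agent.Lib.Helper27.FusNormal

set_option autoImplicit false
universe u
open Cfsg

namespace Cfsg.Agent.S5301

open Cfsg.Agent.Lib.Helper27.Fus

/-- Let F be a saturated fusion system over a finite p-group S. If for every subgroup P of S that is fully normalized, centric and radical in F the automorphism group that F induces on P has a normal Sylow p-subgroup, then S is normal in F. -/
theorem result {Ω : Type u} [Group Ω] {S : Subgroup Ω} [Finite S] (p : ℕ) [Fact p.Prime] (hS : IsPGroup p S)
    (F : Cfsg.FusionSystem S) (hF : F.IsSaturated p)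
    (hcl : ∀ P : Subgroup Ω, F.IsFullyNormalized P → F.IsCentric P → F.IsRadical p P →
      ∃ R : Sylow p ↥(F.autGroup P), (R : Subgroup ↥(F.autGroup P)).Normal) :
    F.IsNormal S := by
  apply isNormal_self_of_no_essential F hS hF
  intro P hP
  obtain ⟨R, hR⟩ := hcl P hP.2.1 hP.1 (hP.isRadical F hS)
  exact not_isEssential_of_normal_sylow F hS R hR hP

end Cfsg.Agent.S5301
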