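import Cfsg.Statements.S5315
import Cfsg.Agent.Lib.Helper27.FusCenter2

set_option autoImplicit false
open Cfsg

namespace Cfsg.Agent.S5315

open Cfsg.FusionSystem Cfsg.Agent.Fus Cfsg.Agent.Lib.Helper27 Cfsg.Agent.Lib.Helper27.Fus

theorem conj_algebra {G : Type*} [Group G] (w x y z1 z2 : G)
    (h1y : Commute z1 y) (h1w : Commute z1 w) (h2y : Commute z2 y) (h2w : Commute z2 w) (h12 : Commute z1 z2)
    (h : (w * z2)⁻¹ * ((y * z1)⁻¹ * (w * z2) * (y * z1)) = w⁻¹ * (x⁻¹ * w * x)) :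
    Commute w (y * x⁻¹) := by
  have e1 : (y * z1)⁻¹ * (w * z2) * (y * z1) = y⁻¹ * w * y * z2 := by
    have a1 : (w * z2) * (y * z1) = (y * z1) * (y⁻¹ * w * y * z2) := by
      calc (w * z2) * (y * z1) = w * (z2 * y) * z1 := by group
        _ = w * (y * z2) * z1 := by rw [h2y.eq]
        _ = w * y * (z2 * z1) := by group
        _ = w * y * (z1 * z2) := by rw [h12.eq]
        _ = w * (y * z1) * z2 := by group
        _ = w * (z1 * y) * z2 := by rw [h1y.eq]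
        _ = (w * z1) * y * z2 := by group
        _ = (z1 * w) * y * z2 := by rw [h1w.eq]
        _ = (z1 * y) * (y⁻¹ * w * y * z2) := by group
        _ = (y * z1) * (y⁻¹ * w * y * z2) := by rw [h1y.eq]
    rw [mul_assoc, a1]; group
  rw [e1] at h
  have e2 : (w * z2)⁻¹ * (y⁻¹ * w * y * z2) = w⁻¹ * (y⁻¹ * w * y) := by
    have a2 : y⁻¹ * w * y * z2 = (w * z2) * (w⁻¹ * (y⁻¹ * w * y)) := by
      calc y⁻¹ * w * y * z2 = y⁻¹ * w * (y * z2) := by group
        _ = y⁻¹ * w * (z2 * y) := by rw [h2y.eq]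
        _ = y⁻¹ * (w * z2) * y := by group
        _ = y⁻¹ * (z2 * w) * y := by rw [h2w.eq]
        _ = (y⁻¹ * z2) * w * y := by group
        _ = (z2 * y⁻¹) * w * y := by rw [(h2y.inv_right).eq]
        _ = (z2 * w) * (w⁻¹ * (y⁻¹ * w * y)) := by group
        _ = (w * z2) * (w⁻¹ * (y⁻¹ * w * y)) := by rw [h2w.eq]
    rw [a2]; group
  rw [e2] at h
  have e3 : y⁻¹ * w * y = x⁻¹ * w * x := mul_left_cancel h
  show w * (y * x⁻¹) = y * x⁻¹ * w
  calc w * (y * x⁻¹) = y * (y⁻¹ * w * y) * x⁻¹ := by group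
    _ = y * (x⁻¹ * w * x) * x⁻¹ := by rw [e3]
    _ = y * x⁻¹ * w := by group

theorem aux {Ω : Type*} [Group Ω] {S : Subgroup Ω} [Finite S] (p : ℕ) [Fact p.Prime] (hS : IsPGroup p S)
    (F : Cfsg.FusionSystem S) (hF : F.IsSaturated p) (hperf : F.hyperfocalSubgroup p = S)
    {Ω' : Type*} [Group Ω'] {S' : Subgroup Ω'} (θ : S →* Ω') (E : FusionSystem S')
    (hE : F.IsFactorSystem F.center θ E) : E.center = ⊥ := by
  have hT := center_stronglyClosed F hS hF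
  have h := hE.isQuotMap
  have hEsat := hE.isSaturated hT hS hF
  have hfinS' : Finite S' := by
    rw [← h.range]
    exact Set.finite_range θ |>.to_subtype
  have hS' : IsPGroup p S' := by
    intro y
    obtain ⟨s, hs⟩ : (y : Ω') ∈ θ.range := by rw [h.range]; exact y.2
    obtain ⟨k, hk⟩ := hS s
    refine ⟨k, Subtype.ext ?_⟩
    rw [Subgroup.coe_pow, ← hs, ← map_pow, hk, map_one]
    rfl
  have hZS : ∀ z ∈ F.center, ∀ s ∈ S, Commute z s := by
    intro z hz s hs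
    have h1 := (Subgroup.mem_inf.1 (center_le_center F hS hF hz)).2
    rw [Subgroup.mem_centralizer_iff] at h1
    exact (h1 s hs).symm
  have hA : ∀ {P : Subgroup Ω} {φ : P →* Ω} (_ : φ ∈ F.Hom P) (x : P) (hxS : (x : Ω) ∈ S) (hφS : φ x ∈ S),
      θ ⟨x, hxS⟩ ∈ E.center → θ ⟨φ x, hφS⟩ = θ ⟨x, hxS⟩ := by
    intro P φ hφ x hxS hφS hc
    obtain ⟨φ', hφ', hind⟩ := (hE.isSurjectiveMorphism hS hF hT).1.2 P φ hφ
    have himg : θ ⟨x, hxS⟩ ∈ imageAlong θ P := mem_imageAlong.2 ⟨x, hxS, x.2, rfl⟩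
    have h1 := hind.apply x ⟨_, himg⟩ hxS hφS rfl
    have h2 := map_center_eq E hS' hEsat hφ' ⟨_, himg⟩ hc
    rw [← h1, h2]
  have hB0 : ∀ w (hwS : w ∈ S), θ ⟨w, hwS⟩ ∈ E.center → ∀ {P : Subgroup Ω} {φ : P →* Ω} (_ : φ ∈ F.Hom P)
      (x : P), Commute w (φ x * (x : Ω)⁻¹) := by
    intro w hwS hwc P φ hφ x
    have hP : P ≤ S := (F.le_of_mem hφ).1
    have hφS := (F.le_of_mem hφ).2
    obtain ⟨φ', hφ', hind⟩ := (hE.isSurjectiveMorphism hS hF hT).1.2 P φ hφ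
    obtain ⟨ψ', hψ', hψ1, hψ2⟩ := E.isCentral_center.2 _ φ' hφ'
    obtain ⟨hle', ψ, hψ, hindψ⟩ := (hE.2.2.2 _ ψ').1 hψ'
    have hψS := (F.le_of_mem hψ).2
    have himg : θ ⟨x, hP x.2⟩ ∈ imageAlong θ P := mem_imageAlong.2 ⟨x, hP x.2, x.2, rfl⟩
    have hx' : (x : Ω) ∈ preimageAlong θ (imageAlong θ P ⊔ E.center) :=
      mem_preimageAlong.2 ⟨hP x.2, Subgroup.mem_sup_left himg⟩
    have hw' : w ∈ preimageAlong θ (imageAlong θ P ⊔ E.center) :=
      mem_preimageAlong.2 ⟨hwS, Subgroup.mem_sup_right hwc⟩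
    have e1 : θ ⟨φ x, hφS x⟩ = θ ⟨ψ ⟨x, hx'⟩, hψS _⟩ := by
      rw [← hindψ.apply ⟨x, hx'⟩ ⟨_, Subgroup.mem_sup_left himg⟩ (hP x.2) (hψS _) rfl,
        ← hind.apply x ⟨_, himg⟩ (hP x.2) (hφS x) rfl]
      exact (hψ1 ⟨_, himg⟩).symm
    have e2 : θ ⟨w, hwS⟩ = θ ⟨ψ ⟨w, hw'⟩, hψS _⟩ := by
      rw [← hindψ.apply ⟨w, hw'⟩ ⟨_, Subgroup.mem_sup_right hwc⟩ hwS (hψS _) rfl]
      exact (hψ2 ⟨_, hwc⟩).symm
    rw [h.eq_iff] at e1 e2
    have hxinv : (x : Ω)⁻¹ ∈ S := S.inv_mem (hP x.2)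
    have e3 := hA (F.conj_mem (le_refl S) hxinv) ⟨w, hwS⟩ hwS
      (S.mul_mem (S.mul_mem hxinv hwS) (S.inv_mem hxinv)) hwc
    rw [eq_comm, h.eq_iff] at e3
    have e3' : w⁻¹ * ((x : Ω)⁻¹ * w * x) ∈ F.center := by
      have : w⁻¹ * ((x : Ω)⁻¹ * w * x) = w⁻¹ * ((x : Ω)⁻¹ * w * ((x : Ω)⁻¹)⁻¹) := by rw [inv_inv]
      rw [this]
      exact e3
    have e4 := map_center_eq F hS hF hψ
      ((⟨w, hw'⟩ : preimageAlong θ (imageAlong θ P ⊔ E.center))⁻¹ * (⟨x, hx'⟩⁻¹ * ⟨w, hw'⟩ * ⟨x, hx'⟩)) e3'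
    rw [map_mul, map_mul, map_mul, map_inv, map_inv] at e4
    obtain ⟨z1, hz1⟩ : ∃ z1, z1 = (φ x)⁻¹ * ψ ⟨x, hx'⟩ := ⟨_, rfl⟩
    obtain ⟨z2, hz2⟩ : ∃ z2, z2 = w⁻¹ * ψ ⟨w, hw'⟩ := ⟨_, rfl⟩
    have hz1c : z1 ∈ F.center := hz1 ▸ e1
    have hz2c : z2 ∈ F.center := hz2 ▸ e2
    have hx1 : ψ ⟨x, hx'⟩ = φ x * z1 := by rw [hz1]; group
    have hw1 : ψ ⟨w, hw'⟩ = w * z2 := by rw [hz2]; group
    rw [hx1, hw1] at e4
    exact conj_algebra w x (φ x) z1 z2 (hZS z1 hz1c _ (hφS x)) (hZS z1 hz1c _ hwS) (hZS z2 hz2c _ (hφS x))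
      (hZS z2 hz2c _ hwS) (hZS z1 hz1c _ (F.isCentral_center.1 hz2c)) e4
  have hB : ∀ w (hwS : w ∈ S), θ ⟨w, hwS⟩ ∈ E.center → ∀ g ∈ S, w * g = g * w := by
    intro w hwS hwc
    have hle : F.focalSubgroup ≤ Subgroup.centralizer {w} := by
      unfold FusionSystem.focalSubgroup
      rw [Subgroup.closure_le]
      rintro _ ⟨P, φ, x, hφ, rfl⟩
      have h1 := hB0 w hwS hwc hφ x⁻¹
      rw [map_inv] at h1
      have h2 := h1.inv_right
      have h3 : ((φ x)⁻¹ * (((x⁻¹ : P) : Ω))⁻¹)⁻¹ = (x : Ω)⁻¹ * φ x := by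
        rw [Subgroup.coe_inv]; group
      rw [h3] at h2
      rw [SetLike.mem_coe, Subgroup.mem_centralizer_singleton_iff]
      exact h2.eq.symm
    intro g hg
    have h1 : g ∈ F.focalSubgroup := by
      rw [F.focal_eq hS hF, hperf]
      exact Subgroup.mem_sup_left hg
    have h2 := hle h1
    rw [Subgroup.mem_centralizer_singleton_iff] at h2
    exact h2.symm
  have hW : F.IsCentral (preimageAlong θ E.center) := by
    apply isCentral_of_aut_fix F hS hF _ preimageAlong_le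
    · intro g hg x hx
      obtain ⟨hxS, hxc⟩ := mem_preimageAlong.1 hx
      exact hB x hxS hxc g hg
    · intro P hP α hα x hx
      obtain ⟨hxS, hxc⟩ := mem_preimageAlong.1 hx
      have hfa := IsSaturated.fullyAutomized_of F hS hF hP
      have hPle : P ≤ S := hfa.1
      have hfinP : Finite P := finite_of_le hPle
      obtain ⟨b, hb, u, hu, -, rfl⟩ := IsSylowIn.exists_mul_opOf hfa.2 hα
      have hux : u x = x := by
        have hle : autInducedBy S P ≤ MulAction.stabilizer (MulAut P) x := by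
          unfold autInducedBy
          rw [Subgroup.closure_le]
          rintro a ⟨g, hg, hga⟩
          rw [SetLike.mem_coe, MulAction.mem_stabilizer_iff]
          apply Subtype.ext
          show ((a x : P) : Ω) = x
          rw [hga x, ← hB x hxS hxc g hg]
          group
        exact MulAction.mem_stabilizer_iff.1 (hle hu)
      have hbx : b x = x := by
        have hle : opOf p (F.autGroup P) ≤ MulAction.stabilizer (MulAut P) x := by
          rw [opOf_eq_closure, Subgroup.closure_le]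
          rintro a ⟨ha, hco⟩
          rw [SetLike.mem_coe, MulAction.mem_stabilizer_iff]
          show a x = x
          have ham := (F.mem_autGroup_iff hPle a).1 ha
          have h1 := hA ham x hxS (hPle (a x).2) hxc
          rw [eq_comm, h.eq_iff] at h1
          have h2 : a (x⁻¹ * a x) = x⁻¹ * a x := Subtype.ext (map_center_eq F hS hF ham (x⁻¹ * a x) h1)
          have h3 := aut_pow_apply_of_fixed a x (x⁻¹ * a x) (by group) h2 (orderOf a)
          rw [pow_orderOf_eq_one, MulAut.one_apply] at h3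
          have h4 : (x⁻¹ * a x) ^ orderOf a = 1 := by
            have := h3.symm
            rwa [mul_eq_left] at this
          obtain ⟨k, hk⟩ := (hS.to_le hPle) (x⁻¹ * a x)
          have h5 := eq_one_of_pow_pow hco h4 hk
          rw [inv_mul_eq_one] at h5
          exact h5.symm
        exact MulAction.mem_stabilizer_iff.1 (hle hb)
      rw [MulAut.mul_apply, hux, hbx]
  have hWle : preimageAlong θ E.center ≤ F.center := le_sSup hW
  rw [eq_bot_iff]
  intro z hz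
  have hzS' : z ∈ S' := E.isCentral_center.1 hz
  rw [← h.range] at hzS'
  obtain ⟨s, rfl⟩ := hzS'
  rw [Subgroup.mem_bot, h.ker]
  exact hWle (mem_preimageAlong.2 ⟨s.2, hz⟩)

theorem result {Ω : Type*} [Group Ω] {S : Subgroup Ω} [Finite S] (p : ℕ) [Fact p.Prime] (hS : IsPGroup p S) (F : Cfsg.FusionSystem S) (hF : F.IsSaturated p)
    (hperf : F.hyperfocalSubgroup p = S)
    (E : Cfsg.FusionSystem (⊤ : Subgroup (↥S ⧸ (F.center).subgroupOf S)))
    (hE : F.IsFactorSystem F.center (QuotientGroup.mk' ((F.center).subgroupOf S)) E) : E.center = ⊥ :=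
  aux p hS F hF hperf _ E hE

end Cfsg.Agent.S5315
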