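import Mathlib
import Cfsg.Statements.S5317
import Cfsg.Agent.H14.FusSimple
import Cfsg.Agent.H14.SL2Syl4

set_option autoImplicit false

namespace Cfsg.Agent.S5317

open Cfsg.Agent.H14

theorem result {F : Type*} [Field F] [Fintype F] (hodd : Fintype.card F % 2 = 1) (h16 : 16 ∣ Fintype.card F ^ 2 - 1)
    (S : Sylow 2 (Matrix.ProjectiveSpecialLinearGroup (Fin 2) F)) :
    (Cfsg.groupFusionSystem (S : Subgroup (Matrix.ProjectiveSpecialLinearGroup (Fin 2) F))).IsSimple 2 := by
  classical
  have hodd' : Odd (Fintype.card F) := Nat.odd_iff.mpr hodd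
  have h2 : (2 : F) ≠ 0 := odd_two_ne_zero hodd
  have h8 : Fintype.card F % 8 = 1 ∨ Fintype.card F % 8 = 7 := by
    have hpos : 1 ≤ Fintype.card F ^ 2 := Nat.one_le_pow _ _ Fintype.card_pos
    have h1 : Fintype.card F ^ 2 % 16 = 1 := by omega
    rw [Nat.pow_mod] at h1
    have h3 : Fintype.card F % 16 < 16 := Nat.mod_lt _ (by norm_num)
    have h4 : Fintype.card F % 8 = (Fintype.card F % 16) % 8 := by omega
    have h5 : (Fintype.card F % 16) % 2 = 1 := by omega
    rw [h4]
    generalize Fintype.card F % 16 = r at h1 h3 h5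
    interval_cases r <;> simp_all
  let π : Matrix.SpecialLinearGroup (Fin 2) F →* Matrix.ProjectiveSpecialLinearGroup (Fin 2) F :=
    QuotientGroup.mk' (Subgroup.center (Matrix.SpecialLinearGroup (Fin 2) F))
  have hπ : Function.Surjective π := QuotientGroup.mk'_surjective _
  have hker : ∀ x, π x = 1 ↔ x = 1 ∨ x = dg (-1) := by
    intro x
    rw [← mem_center_iff_eq]
    exact QuotientGroup.eq_one_iff x
  have hkerp : IsPGroup 2 π.ker := by
    rintro ⟨z, hz⟩
    refine ⟨1, ?_⟩
    apply Subtype.ext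
    rcases (hker z).mp hz with rfl | rfl
    · simp
    · simp [dg_pow, dg_one]
  have hSt1 : IsPGroup 2 ((S : Subgroup _).comap π) := S.isPGroup'.comap_of_ker_isPGroup π hkerp
  have hSt2 : ¬ 2 ∣ ((S : Subgroup _).comap π).index := by
    rw [Subgroup.index_comap_of_surjective _ hπ]
    exact S.not_dvd_index
  let St : Sylow 2 (Matrix.SpecialLinearGroup (Fin 2) F) := hSt1.toSylow hSt2
  have hmem : ∀ x, x ∈ St ↔ π x ∈ S := fun x => Iff.rfl
  have hNSt := normalizer_sylow2_of_eight hodd' St h8
  obtain ⟨y, a, w, ht, hle, haS, haT, hwS, hwT, hgen, hcard, h4, -, -⟩ := sylow2_structure hodd' St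
  have hns := not_isScal_of_trace_sq_ne y ht
  have hcenT : ∀ x, π x = 1 → x ∈ Subgroup.centralizer ({y} : Set (Matrix.SpecialLinearGroup (Fin 2) F)) := by
    intro x hx
    rw [hker, ← mem_center_iff_eq] at hx
    rw [Subgroup.mem_centralizer_singleton_iff]
    exact (Subgroup.mem_center_iff.mp hx y).symm
  -- elements of `St` outside the torus map to involutions
  have hinvol : ∀ s ∈ St, s ∉ Subgroup.centralizer ({y} : Set (Matrix.SpecialLinearGroup (Fin 2) F)) →
      π s ≠ 1 ∧ (π s) ^ 2 = 1 := by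
    intro s hs hsT
    refine ⟨fun h => hsT (hcenT s h), ?_⟩
    have hsy := ((mem_normalizer_centralizer_iff h2 y ht s).mp (hle hs)).resolve_left hsT
    have := sq_of_inverting h2 y s ht hsy
    rw [← map_pow, sq, this, hker]
    right; rfl
  apply groupFusion_isSimple_of S
  · intro hbot
    have h1 : π w ∈ (S : Subgroup _) := hwS
    rw [hbot, Subgroup.mem_bot] at h1
    exact hwT (hcenT w h1)
  · intro g hg
    obtain ⟨n, rfl⟩ := hπ g
    have hn : n ∈ Subgroup.normalizer ((St : Subgroup (Matrix.SpecialLinearGroup (Fin 2) F)) : Set (Matrix.SpecialLinearGroup (Fin 2) F)) := by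
      apply mem_normalizer_of_conj_mem
      intro s hs
      change π (n * s * n⁻¹) ∈ S
      rw [map_mul, map_mul, map_inv]
      exact hg _ hs
    rw [hNSt] at hn
    exact hn
  · intro t u ht1 ht2 hu1 hu2
    obtain ⟨x, rfl⟩ := hπ t
    obtain ⟨x', rfl⟩ := hπ u
    have key : ∀ z, π z ≠ 1 → (π z) ^ 2 = 1 → z.1.trace = 0 := by
      intro z hz1 hz2
      rw [← map_pow, hker] at hz2
      apply trace_zero_of_mul_self
      rcases hz2 with h | h
      · exfalso
        apply hz1
        rw [hker]
        exact (sq_eq_one_iff h2 z).mp h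
      · rw [← sq]; exact h
    have hx := key x ht1 ht2
    have hx' := key x' hu1 hu2
    have hc : IsConj x x' := by
      rw [isConj_iff_trace_eq x x' (by
        rw [hx]
        intro h
        have : (2 : F) * 2 = 0 := by linear_combination -h
        rcases mul_eq_zero.mp this with h | h <;> exact h2 h)]
      rw [hx, hx']
    obtain ⟨c, hc⟩ := isConj_iff.mp hc
    refine ⟨π c, ?_⟩
    rw [← map_inv, ← map_mul, ← map_mul, hc]
  · intro T hTS hT
    apply le_antisymm hTS
    intro sbar hs
    obtain ⟨s, rfl⟩ := hπ sbar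
    have hsSt : s ∈ St := hs
    by_cases hsT : s ∈ Subgroup.centralizer ({y} : Set (Matrix.SpecialLinearGroup (Fin 2) F))
    · have h1 : s * w⁻¹ ∈ St := mul_mem hsSt (inv_mem hwS)
      have h3 : s * w⁻¹ ∉ Subgroup.centralizer ({y} : Set (Matrix.SpecialLinearGroup (Fin 2) F)) := by
        intro h
        apply hwT
        have : w = (s * w⁻¹)⁻¹ * s := by group
        rw [this]
        exact mul_mem (inv_mem h) hsT
      have e : π s = π (s * w⁻¹) * π w := by rw [← map_mul]; congr 1; group
      rw [e]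
      exact mul_mem (hT _ h1 (hinvol _ h1 h3).1 (hinvol _ h1 h3).2) (hT _ hwS (hinvol _ hwS hwT).1 (hinvol _ hwS hwT).2)
    · exact hT _ hs (hinvol _ hsSt hsT).1 (hinvol _ hsSt hsT).2

end Cfsg.Agent.S5317
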