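import Cfsg.Statements.S5330
import Cfsg.Agent.Lib.Helper27.FusCenter
import Cfsg.Agent.Lib.Helper27.FusNormal
import Cfsg.Agent.Lib.Helper27.AbelianTrace

set_option autoImplicit false
open Cfsg

namespace Cfsg.Agent.S5330

open Cfsg.FusionSystem Cfsg.Agent.Lib.Helper27.Fus Cfsg.Agent.Lib.Helper27 Cfsg.Agent.Fus

/-- Over an abelian `S`, `Aut_F(S)` has order prime to `p`. -/
theorem coprime_card_autGroup {Ω : Type*} [Group Ω] {S : Subgroup Ω} [Finite S] (p : ℕ) [Fact p.Prime]
    (hS : IsPGroup p S) (F : Cfsg.FusionSystem S) (hF : F.IsSaturated p)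
    (hab : ∀ x ∈ S, ∀ y ∈ S, x * y = y * x) : (Nat.card S).Coprime (Nat.card (F.autGroup S)) := by
  have hp : p.Prime := Fact.out
  have hfa := (hF.fullyNormalized F hS F.isFullyNormalized_self).2.1
  have h1 := hfa.isSylowIn.card_eq (F.autInducedBy_le_autGroup le_rfl)
  have h2 : autInducedBy S S = ⊥ := by
    rw [eq_bot_iff]
    intro α hα
    obtain ⟨g, hg, h⟩ := (mem_autInducedBy_iff α).1 hα
    rw [Subgroup.mem_bot]
    ext x
    rw [h x, hab g hg x x.2]
    simp
  rw [h2, Subgroup.card_bot] at h1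
  have h3 : (Nat.card (F.autGroup S)).factorization p = 0 := by
    by_contra hne
    have : 1 < p ^ (Nat.card (F.autGroup S)).factorization p := Nat.one_lt_pow hne hp.one_lt
    omega
  have h4 : ¬ p ∣ Nat.card (F.autGroup S) := by
    intro hd
    have := (hp.factorization_pos_of_dvd Nat.card_pos.ne' hd)
    omega
  obtain ⟨n, hn⟩ := IsPGroup.iff_card.1 hS
  rw [hn]
  exact Nat.Coprime.pow_left n ((Nat.Prime.coprime_iff_not_dvd hp).2 h4)

/-- Let F be a saturated fusion system over a finite abelian p-group S. Then S is the internal direct product of the centre of the system and the focal subgroup: Z(F) ∩ foc(F) = 1 and Z(F)·foc(F) = S. -/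
theorem result {Ω : Type*} [Group Ω] {S : Subgroup Ω} [Finite S] (p : ℕ) [Fact p.Prime] (hS : IsPGroup p S) (F : Cfsg.FusionSystem S) (hF : F.IsSaturated p) (hab : ∀ x ∈ S, ∀ y ∈ S, x * y = y * x) : F.center ⊓ F.focalSubgroup = ⊥ ∧ F.center ⊔ F.focalSubgroup = S := by
  have hSab : IsMulCommutative S := ⟨⟨fun a b => Subtype.ext (hab a a.2 b b.2)⟩⟩
  have hN : F.IsNormal S := F.isNormal_of_abelian_stronglyClosed hS hF F.stronglyClosed_self hSab
  have hN' := (isNormal_self_iff' F).1 hN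
  obtain ⟨h1, h2⟩ := coprime_abelian_decomp (V := S) (G := F.autGroup S)
    (fun a b => Subtype.ext (hab a a.2 b b.2)) (F.autGroup S).subtype (coprime_card_autGroup p hS F hF hab)
  set B := Subgroup.closure {w : S | ∃ (u : S) (g : F.autGroup S), w = u⁻¹ * (F.autGroup S).subtype g u} with hB
  have hfoc : F.focalSubgroup = B.map S.subtype := by
    apply le_antisymm
    · unfold FusionSystem.focalSubgroup
      rw [Subgroup.closure_le]
      rintro _ ⟨P, φ, x, hφ, rfl⟩
      obtain ⟨hP, α, hα, rfl⟩ := hN' P φ hφ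
      exact ⟨_, Subgroup.subset_closure ⟨⟨x, hP x.2⟩, ⟨α, hα⟩, rfl⟩, rfl⟩
    · rw [Subgroup.map_le_iff_le_comap, hB, Subgroup.closure_le]
      rintro _ ⟨u, ⟨α, hα⟩, rfl⟩
      apply Subgroup.subset_closure
      exact ⟨S, _, u, (F.mem_autGroup_iff le_rfl α).1 hα, rfl⟩
  have hcen : ∀ v : S, (v : Ω) ∈ F.center ↔ ∀ g : F.autGroup S, (F.autGroup S).subtype g v = v := by
    intro v
    rw [mem_center_iff_of_normal F hS hF hN v.2]
    exact ⟨fun h g => h g.1 g.2, fun h α hα => h ⟨α, hα⟩⟩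
  constructor
  · rw [eq_bot_iff]
    rintro x ⟨hxc, hxf⟩
    rw [SetLike.mem_coe, hfoc] at hxf
    obtain ⟨v, hv, rfl⟩ := hxf
    have := h1 v hv ((hcen v).1 hxc)
    rw [this]
    exact Subgroup.one_mem _
  · apply le_antisymm
    · refine sup_le ((center_le_center F hS hF).trans inf_le_left) ?_
      rw [hfoc]
      rintro _ ⟨v, -, rfl⟩
      exact v.2
    · intro x hx
      obtain ⟨c, k, hc, hk, hv⟩ := h2 ⟨x, hx⟩
      have : x = (c : Ω) * k := congrArg Subtype.val hv
      rw [this]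
      refine Subgroup.mul_mem _ ((le_sup_left : F.center ≤ _) ((hcen c).2 hc)) ((le_sup_right : F.focalSubgroup ≤ _) ?_)
      rw [hfoc]
      exact ⟨k, hk, rfl⟩

end Cfsg.Agent.S5330
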