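import Cfsg.Statements.S5331
import Cfsg.Agent.Fus.DistinctInv
import Cfsg.Agent.Fus.EssSmall
import Cfsg.Agent.Fus.Normal3

set_option autoImplicit false
open Cfsg

namespace Cfsg.Agent.S5331

/-- Let S be a finite abelian 2-group that is a direct product of cyclic groups of pairwise distinct orders 2^{a_1} < 2^{a_2} < ⋯ < 2^{a_n} (all a_i ≥ 1). Then every saturated fusion system over S is the inner one: its maps are exactly the conjugations by elements of S. -/
theorem result {Ω : Type*} [Group Ω] {S : Subgroup Ω} [Finite S] (n : ℕ) (a : Fin n → ℕ) (ha : StrictMono a) (ha1 : ∀ i, 1 ≤ a i) (e : ↥S ≃* Multiplicative ((i : Fin n) → ZMod (2 ^ a i))) (F : Cfsg.FusionSystem S) (hF : F.IsSaturated 2) (P : Subgroup Ω) : F.Hom P = (Cfsg.innerFusionSystem S).Hom P := by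
  have : Fact (Nat.Prime 2) := ⟨Nat.prime_two⟩
  have hab : ∀ x y : S, x * y = y * x := by
    intro x y
    apply e.injective
    rw [map_mul, map_mul, mul_comm]
  have haut : ∀ α : MulAut S, ∃ k : ℕ, α ^ 2 ^ k = 1 := by
    intro α
    obtain ⟨k, hk⟩ := Cfsg.Agent.Fus.exists_pow_eq_one_of_distinct a ha.injective ha1 (MulAut.congr e α)
    refine ⟨k, ?_⟩
    apply (MulAut.congr e).injective
    rw [map_pow, hk, map_one]
  have hS : IsPGroup 2 S := by
    intro x
    refine ⟨∑ i, a i, ?_⟩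
    apply e.injective
    rw [map_pow, map_one]
    apply Multiplicative.toAdd.injective
    rw [toAdd_pow, toAdd_one]
    funext i
    have h1 : ((2 ^ ∑ i, a i : ℕ) : ZMod (2 ^ a i)) = 0 := by
      rw [ZMod.natCast_eq_zero_iff]
      exact pow_dvd_pow 2 (Finset.single_le_sum (fun _ _ => Nat.zero_le _) (Finset.mem_univ i))
    show (2 ^ ∑ i, a i) • (Multiplicative.toAdd (e x) i) = 0
    rw [nsmul_eq_mul, h1, zero_mul]
  have hn : F.IsNormal S :=
    F.isNormal_of_abelian_stronglyClosed hS hF F.stronglyClosed_self ⟨⟨hab⟩⟩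
  have hfa := (hF.fullyNormalized F hS F.isFullyNormalized_self).2.1
  have hA : F.autGroup S = ⊥ := by
    rw [F.autGroup_eq_of_isPGroup hfa (fun α => by
      obtain ⟨k, hk⟩ := haut α
      exact ⟨k, Subtype.ext hk⟩), Cfsg.FusionSystem.autInducedBy_self,
      Cfsg.FusionSystem.inn_eq_bot_of_comm hab]
  apply Set.Subset.antisymm _ (F.inner_le P)
  intro φ hφ
  have hP : P ≤ S := (F.le_of_mem hφ).1
  obtain ⟨α, hα, hx⟩ := hn.exists_aut_extend hP hφ
  rw [hA, Subgroup.mem_bot] at hα
  refine ⟨hP, 1, S.one_mem, fun x => ?_⟩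
  rw [← hx x, hα]
  simp

end Cfsg.Agent.S5331
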