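import Cfsg.Statements.S5342
import Cfsg.Agent.Fus.ConstrNormal

set_option autoImplicit false
open Cfsg

namespace Cfsg.Agent.S5342

/-- Let F be a constrained saturated fusion system over a finite p-group S. Then every subsystem of F that is subnormal in F (reached from F by a finite chain of successive normal subsystems) is constrained. -/
theorem result {Ω : Type*} [Group Ω] {S : Subgroup Ω} [Finite S] (p : ℕ) [Fact p.Prime] (hS : IsPGroup p S) (F : Cfsg.FusionSystem S) (hF : F.IsConstrained p) {T : Subgroup Ω} (E : Cfsg.FusionSystem T) (hE : E.IsSubnormalIn F p) : E.IsConstrained p := by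
  have key : ∀ {T S : Subgroup Ω} {E : Cfsg.FusionSystem T} {F : Cfsg.FusionSystem S} {p : ℕ},
      E.IsSubnormalIn F p → Fact p.Prime → Finite S → IsPGroup p S → F.IsConstrained p → E.IsConstrained p := by
    intro T S E F p h
    induction h with
    | refl F p => intro _ _ _ hF; exact hF
    | step hED hD ih =>
      intro hp hfin hS hF
      have hU := hD.1.2.2.2.1
      exact ih hp (Cfsg.FusionSystem.finite_of_le hU.1) (hS.to_le hU.1)
        (Cfsg.FusionSystem.IsConstrained.of_subsystem hS hF hD.1.1 hD.1.2.2.1 hU)
  exact key hE inferInstance inferInstance hS hF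

end Cfsg.Agent.S5342
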