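import Cfsg.Statements.S5521
import Cfsg.Agent.Lib.Helper28.M24Cls2

set_option autoImplicit false
open Cfsg

namespace Cfsg.Agent.S5521

/-- The Mathieu group M₂₄ in its natural action on the 24 coordinate positions of the binary Golay code has minimal base size exactly 7: every set of at most 6 positions is fixed pointwise by some non-identity element of M₂₄, while some set of 7 positions is fixed pointwise only by the identity. -/
theorem result :
    (∀ B : Finset Cfsg.GolayPt, B.card ≤ 6 → ∃ g ∈ Cfsg.M24, g ≠ 1 ∧ ∀ b ∈ B, g b = b) ∧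
    (∃ B : Finset Cfsg.GolayPt, B.card = 7 ∧ ∀ g ∈ Cfsg.M24, (∀ b ∈ B, g b = b) → g = 1) := by
  open Cfsg.Agent.Lib.Helper28 Cfsg.Agent.Lib.Helper3.M24T Cfsg.Agent.Lib.Helper3.M24Gen in
  refine ⟨?_, ?_⟩
  · intro B hB
    obtain ⟨B', hBB', hB'⟩ := Finset.exists_superset_card_eq hB
      (by rw [Finset.card_univ]; decide : 6 ≤ (Finset.univ : Finset GolayPt).card)
    have hl : B'.toList.length = 6 := by rw [Finset.length_toList]; exact hB'
    have hnd := B'.nodup_toList
    obtain ⟨a, b, c, d, e, q, hlist⟩ : ∃ a b c d e q, B'.toList = [a, b, c, d, e, q] := by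
      match h : B'.toList, hl with
      | [a, b, c, d, e, q], _ => exact ⟨a, b, c, d, e, q, rfl⟩
    rw [hlist] at hnd
    obtain ⟨k, hk, hmap⟩ := exists_M24_map_base [a, b, c, d, e] (by simp)
      (by
        have : ([a, b, c, d, e] : List GolayPt).Sublist [a, b, c, d, e, q] := by
          simp
        exact hnd.sublist this)
    simp only [List.map_cons, List.map_nil, List.length_cons, List.length_nil, List.take_succ_cons,
      List.take_zero, List.cons.injEq, and_true, zero_add, Nat.reduceAdd] at hmap
    obtain ⟨e1, e2, e3, e4, e5⟩ := hmap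
    have hchk : (List.range 24).all (fun j => list48.any fun s => inM24 s && s != idT &&
        s.getD j 0 == j && [23, 0, 1, 2, 3].all fun i => s.getD i 0 == i) = true := by
      decide +kernel
    have h1 := List.all_eq_true.1 hchk (idx (k q)) (List.mem_range.2 (idx_lt _))
    simp only [List.any_eq_true, Bool.and_eq_true, bne_iff_ne, ne_eq, beq_iff_eq,
      List.all_eq_true] at h1
    obtain ⟨s, _, ⟨⟨hs1, hs2⟩, hs3⟩, hs4⟩ := h1
    have hfix : ∀ i, i < 24 → s.getD i 0 = i → permOf s (ptOf i) = ptOf i := by
      intro i hi h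
      rw [permOf_ptOf hs1 hi, h]
    refine ⟨k⁻¹ * permOf s * k, M24.mul_mem (M24.mul_mem (M24.inv_mem hk) (permOf_mem_M24 hs1)) hk,
      ?_, ?_⟩
    · intro h
      apply permOf_ne_one hs1 hs2
      have : permOf s = k * (k⁻¹ * permOf s * k) * k⁻¹ := by group
      rw [this, h]; simp
    · intro x hx
      have hx' : x ∈ B'.toList := Finset.mem_toList.2 (hBB' hx)
      rw [hlist] at hx'
      have key : permOf s (k x) = k x := by
        simp only [List.mem_cons, List.not_mem_nil, or_false] at hx'
        rcases hx' with rfl | rfl | rfl | rfl | rfl | rfl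
        · rw [e1]; exact hfix 23 (by decide) (hs4 23 (by simp))
        · rw [e2]; exact hfix 0 (by decide) (hs4 0 (by simp))
        · rw [e3]; exact hfix 1 (by decide) (hs4 1 (by simp))
        · rw [e4]; exact hfix 2 (by decide) (hs4 2 (by simp))
        · rw [e5]; exact hfix 3 (by decide) (hs4 3 (by simp))
        · have := hfix _ (idx_lt (k x)) hs3
          rwa [ptOf_idx] at this
      simp only [Equiv.Perm.mul_apply, key]
      simp
  · refine ⟨(([23, 0, 1, 2, 3, 5, 4] : List ℕ).map ptOf).toFinset, by decide, ?_⟩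
    intro g hg h
    have : g ∈ stabL [23, 0, 1, 2, 3, 5, 4] := by
      rw [mem_stabL]
      refine ⟨hg, fun i hi => h _ ?_⟩
      rw [List.mem_toFinset]
      exact List.mem_map_of_mem hi
    rwa [stab7_eq_bot, Subgroup.mem_bot] at this

end Cfsg.Agent.S5521
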