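import Cfsg.Statements.S5562

set_option autoImplicit false
open Cfsg

namespace Cfsg.Agent.S5562

/-- Let G be a finite group, d an involution of G whose conjugates pairwise have products of odd order, and x any involution of G. Then the conjugacy class of d is the disjoint union, over the conjugates a of d commuting with x, of the sets of conjugates of d commuting with ax: every conjugate of d commutes with ax for exactly one conjugate a of d that commutes with x. -/
theorem result {G : Type*} [Group G] [Finite G] (d : G) (hd : orderOf d = 2)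
    (hodd : ∀ a ∈ conjugatesOf d, ∀ b ∈ conjugatesOf d, Odd (orderOf (a * b)))
    (x : G) (hx : orderOf x = 2) :
    ∀ e ∈ conjugatesOf d,
      ∃! a : G, a ∈ conjugatesOf d ∧ Commute a x ∧ Commute e (a * x) := by
  intro e he
  have hinv : ∀ b ∈ conjugatesOf d, b * b = 1 := by
    intro b hb
    have hb' : IsConj d b := hb
    rw [isConj_iff] at hb'
    obtain ⟨g, rfl⟩ := hb'
    have hd2 : d * d = 1 := by rw [← pow_two, ← hd]; exact pow_orderOf_eq_one d
    calc g * d * g⁻¹ * (g * d * g⁻¹) = g * (d * d) * g⁻¹ := by group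
      _ = 1 := by rw [hd2]; group
  have hx2 : x * x = 1 := by rw [← pow_two, ← hx]; exact pow_orderOf_eq_one x
  have hxi : x⁻¹ = x := inv_eq_of_mul_eq_one_left hx2
  have hee : e * e = 1 := hinv e he
  have hei : e⁻¹ = e := inv_eq_of_mul_eq_one_left hee
  have hconj : ∀ b ∈ conjugatesOf d, ∀ g : G, g * b * g⁻¹ ∈ conjugatesOf d := by
    intro b hb g
    have hb' : IsConj d b := hb
    exact hb'.trans (isConj_iff.2 ⟨g, rfl⟩)
  set f := x * e * x⁻¹ with hf
  have hfD : f ∈ conjugatesOf d := hconj e he x
  have hff : f * f = 1 := hinv f hfD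
  have hfi : f⁻¹ = f := inv_eq_of_mul_eq_one_left hff
  set m := e * f with hm
  obtain ⟨k, hk⟩ := hodd e he f hfD
  have hmk : m ^ (2 * k + 1) = 1 := by rw [← hk]; exact pow_orderOf_eq_one m
  have hmi : m⁻¹ = f * e := by rw [hm, mul_inv_rev, hei, hfi]
  have hem : e * m * e⁻¹ = m⁻¹ := by
    rw [hmi, hm, hei, ← mul_assoc, hee, one_mul]
  have hxf : x * f * x⁻¹ = e := by
    rw [hf, hxi]
    calc x * (x * e * x) * x = (x * x) * e * (x * x) := by group
      _ = e := by rw [hx2]; group
  have hxm : x * m * x⁻¹ = m⁻¹ := by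
    have h1 : x * m * x⁻¹ = f * (x * f * x⁻¹) := by rw [hm, hf]; group
    rw [h1, hxf, hmi]
  set o := m ^ (k + 1) with ho
  have hoo : o * o = m := by
    rw [ho, ← pow_add]
    have : k + 1 + (k + 1) = (2 * k + 1) + 1 := by ring
    rw [this, pow_succ, hmk, one_mul]
  have heo : e * o * e⁻¹ = o⁻¹ := by rw [ho, ← conj_pow, hem, inv_pow]
  have hxo : x * o * x⁻¹ = o⁻¹ := by rw [ho, ← conj_pow, hxm, inv_pow]
  have hoe : o * e = e * o⁻¹ := by
    have : e * o⁻¹ = e * (e * o * e⁻¹) := by rw [heo]
    rw [this, hei, ← mul_assoc, ← mul_assoc, hee, one_mul]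
  have hef : e * m = f := by rw [hm, ← mul_assoc, hee, one_mul]
  have hsq : ∀ y z : G, Odd (orderOf y) → Odd (orderOf z) → y * y = m → z * z = m → y = z := by
    intro y z hy hz hyy hzz
    have hpw : ∀ w : G, Odd (orderOf w) → w * w = m → ∃ j : ℕ, w = m ^ j := by
      intro w hw hww
      obtain ⟨j, hj⟩ := hw
      refine ⟨j + 1, ?_⟩
      rw [← hww, ← pow_two, ← pow_mul]
      have : 2 * (j + 1) = (2 * j + 1) + 1 := by ring
      rw [this, pow_succ, ← hj, pow_orderOf_eq_one, one_mul]
    obtain ⟨i, hi⟩ := hpw y hy hyy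
    obtain ⟨j, hj⟩ := hpw z hz hzz
    have hc : Commute y z⁻¹ := by
      rw [hi, hj]; exact ((Commute.refl m).pow_pow i j).inv_right
    have h1 : (y * z⁻¹) ^ 2 = 1 := by
      rw [hc.mul_pow, pow_two, pow_two, hyy, ← mul_inv_rev, hzz, mul_inv_cancel]
    have h2 : y * z⁻¹ ∈ Subgroup.zpowers m := by
      rw [hi, hj]
      exact Subgroup.mul_mem _ (Subgroup.pow_mem _ (Subgroup.mem_zpowers m) i)
        (Subgroup.inv_mem _ (Subgroup.pow_mem _ (Subgroup.mem_zpowers m) j))
    have h3 : orderOf (y * z⁻¹) = 1 := by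
      apply Nat.eq_one_of_dvd_coprimes (Nat.coprime_two_left.2 ⟨k, hk⟩)
        (orderOf_dvd_of_pow_eq_one h1) (orderOf_dvd_of_mem_zpowers h2)
    rw [orderOf_eq_one_iff] at h3
    exact mul_inv_eq_one.1 h3
  have haD : e * o ∈ conjugatesOf d := by
    have h1 : e * (o ^ (k + 1)) * e⁻¹ = (o ^ (k + 1))⁻¹ := by rw [← conj_pow, heo, inv_pow]
    have h2 : o ^ (k + 1) * o ^ (k + 1) = o := by
      rw [← pow_add]
      have : k + 1 + (k + 1) = 2 * (k + 1) := by ring
      rw [this, pow_mul, pow_two, hoo]
    have h3 : e * o = (o ^ (k + 1))⁻¹ * e * ((o ^ (k + 1))⁻¹)⁻¹ := by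
      rw [inv_inv]
      conv_rhs => rw [← h1, hei]
      calc e * o = e * (o ^ (k + 1) * o ^ (k + 1)) := by rw [h2]
        _ = e * o ^ (k + 1) * (e * e) * o ^ (k + 1) := by rw [hee]; group
        _ = e * o ^ (k + 1) * e * e * o ^ (k + 1) := by group
    rw [h3]
    exact hconj e he _
  refine ⟨e * o, ⟨haD, ?_, ?_⟩, ?_⟩
  · -- commutes with x
    show e * o * x = x * (e * o)
    have h1 : x * (e * o) * x⁻¹ = e * o := by
      calc x * (e * o) * x⁻¹ = (x * e * x⁻¹) * (x * o * x⁻¹) := by group
        _ = f * o⁻¹ := by rw [hxo]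
        _ = e * (o * o) * o⁻¹ := by rw [hoo, hef]
        _ = e * o := by group
    calc e * o * x = (x * (e * o) * x⁻¹) * x := by rw [h1]
      _ = x * (e * o) := by group
  · show e * (e * o * x) = e * o * x * e
    have h1 : x * e = f * x := by rw [hf]; group
    calc e * (e * o * x) = (e * e) * o * x := by group
      _ = o * x := by rw [hee, one_mul]
      _ = o⁻¹ * (o * o) * x := by group
      _ = (e * e) * o⁻¹ * m * x := by rw [hoo, hee, one_mul]
      _ = e * (e * o⁻¹) * (e * f) * x := by rw [hm]; group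
      _ = e * (o * e) * (e * f) * x := by rw [hoe]
      _ = e * o * (e * e) * (f * x) := by group
      _ = e * o * (x * e) := by rw [hee, h1]; group
      _ = e * o * x * e := by group
  · rintro a' ⟨ha'D, ha'x, ha'e⟩
    have ha2 : a' * a' = 1 := hinv a' ha'D
    have h1 : e * (a' * x) = a' * x * e := ha'e
    have h2 : x * e = f * x := by rw [hf]; group
    have h3 : e * a' = a' * f := by
      have : e * a' * x = a' * f * x := by
        calc e * a' * x = e * (a' * x) := by group
          _ = a' * x * e := h1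
          _ = a' * (x * e) := by group
          _ = a' * f * x := by rw [h2]; group
      exact mul_right_cancel this
    have h4 : (e * a') * (e * a') = m := by
      calc (e * a') * (e * a') = e * a' * (a' * f) := by rw [h3]
        _ = e * (a' * a') * f := by group
        _ = m := by rw [ha2, mul_one]
    have h6 : e * (e * o) = o := by rw [← mul_assoc, hee, one_mul]
    have h5 := hsq (e * a') (e * (e * o)) (hodd e he a' ha'D) (hodd e he _ haD) h4 (by
      rw [h6]; exact hoo)
    exact mul_left_cancel h5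

end Cfsg.Agent.S5562
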