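import Cfsg.Statements.S5596
import Cfsg.Agent.Lib.Helper22.LargeEx4
import Cfsg.Agent.H20.CharSub

set_option autoImplicit false
open Cfsg

namespace Cfsg.Agent.S5596

/-- Setting: `z` is an involution of the finite group `G`; for each element `x`, `Q x` is the largest normal 2-subgroup of the centralizer of `x`; `Q z` is extraspecial and contains its own centralizer in `G`. A subgroup `U` is singular when it is elementary abelian, every non-identity element of `U` is conjugate to `z`, and any two non-identity elements `u`, `v` of `U` are orthogonal (`v ∈ Q u`). Write `QU` for the intersection of the `Q u` and `LU` for the join of the `Q u` over the non-identity `u` in `U`. If `U` is singular of order `2 ^ n` with `n ≥ 2`, then `U ≤ QU ≤ LU`, `LU` normalizes `U`, and `LU` induces on `U` its full automorphism group (the general linear group of dimension `n` over the field with two elements): every automorphism of `U` is conjugation by some element of `LU`. -/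
theorem result {G : Type*} [Group G] [Finite G]
    (Q : G → Subgroup G)
    (hQ : ∀ x : G, Q x = (Cfsg.pCore 2 ↥(Subgroup.centralizer ({x} : Set G))).map (Subgroup.centralizer ({x} : Set G)).subtype)
    (z : G) (hz : orderOf z = 2) (hE : Cfsg.IsExtraspecial 2 ↥(Q z))
    (hC : Subgroup.centralizer ((Q z : Subgroup G) : Set G) ≤ Q z)
    (U : Subgroup G) (hU2 : ∀ u ∈ U, u * u = 1)
    (hS : ∀ u ∈ U, u ≠ 1 → ∃ g : G, g * z * g⁻¹ = u)
    (hO : ∀ u ∈ U, ∀ v ∈ U, u ≠ 1 → v ≠ 1 → v ∈ Q u)
    (QU LU : Subgroup G) (hQU : QU = ⨅ u ∈ ((U : Set G) \ {1}), Q u) (hLU : LU = ⨆ u ∈ ((U : Set G) \ {1}), Q u)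
    (n : ℕ) (hn : 2 ≤ n) (hcard : Nat.card ↥U = 2 ^ n) :
    U ≤ QU ∧ QU ≤ LU ∧ LU ≤ Subgroup.normalizer (U : Set G) ∧
      ∀ φ : ↥U ≃* ↥U, ∃ g ∈ LU, ∀ u : ↥U, g * (u : G) * g⁻¹ = ((φ u : ↥U) : G) := by
  classical
  have hQ' : Q = Cfsg.Agent.H22.oTwo := funext hQ
  subst hQ'
  have hEz := Cfsg.Agent.H22.exC_oTwo hz hE hC
  have hEx : ∀ u ∈ U, u ≠ 1 → Cfsg.Agent.H22.ExC (Cfsg.Agent.H22.oTwo u) u := by
    intro u hu hu1
    obtain ⟨g, rfl⟩ := hS u hu hu1
    rw [Cfsg.Agent.H22.oTwo_conj]
    exact hEz.conj g
  have hUQ : ∀ u ∈ U, u ≠ 1 → U ≤ Cfsg.Agent.H22.oTwo u := by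
    intro u hu hu1 v hv
    by_cases hv1 : v = 1
    · rw [hv1]; exact one_mem _
    · exact hO u hu v hv hu1 hv1
  have hQUu : ∀ u ∈ U, u ≠ 1 → QU ≤ Cfsg.Agent.H22.oTwo u := by
    intro u hu hu1
    rw [hQU]
    exact iInf₂_le u ⟨hu, hu1⟩
  have hUQU : U ≤ QU := by
    rw [hQU]
    exact le_iInf₂ fun u hu => hUQ u hu.1 hu.2
  have huLU : ∀ u ∈ U, u ≠ 1 → Cfsg.Agent.H22.oTwo u ≤ LU := by
    intro u hu hu1
    rw [hLU]
    exact le_iSup₂ (f := fun u (_ : u ∈ (U : Set G) \ {1}) => Cfsg.Agent.H22.oTwo u) u ⟨hu, hu1⟩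
  obtain ⟨u₀, hu₀, hu₀1⟩ : ∃ u ∈ U, u ≠ 1 := by
    by_contra hcon
    push Not at hcon
    have hb : U = ⊥ := (Subgroup.eq_bot_iff_forall U).2 hcon
    rw [hb, Subgroup.card_bot] at hcard
    have : 2 ^ n ≥ 2 ^ 2 := Nat.pow_le_pow_right (by norm_num) hn
    omega
  have hLN : LU ≤ Subgroup.normalizer (U : Set G) := by
    rw [hLU]
    refine iSup₂_le fun u hu => ?_
    intro g hg
    have hEu := hEx u hu.1 hu.2
    have aux : ∀ k ∈ Cfsg.Agent.H22.oTwo u, ∀ v ∈ U, k * v * k⁻¹ ∈ U := by
      intro k hk v hv
      rcases hEu.comm k hk v (hUQ u hu.1 hu.2 hv) with h | h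
      · rw [h]; exact hv
      · rw [h]; exact U.mul_mem hu.1 hv
    rw [Subgroup.mem_normalizer_iff]
    intro v
    constructor
    · exact aux g hg v
    · intro h
      have := aux g⁻¹ (inv_mem hg) _ h
      simpa [mul_assoc] using this
  refine ⟨hUQU, (hQUu u₀ hu₀ hu₀1).trans (huLU u₀ hu₀ hu₀1), hLN, ?_⟩
  haveI : Fintype ↥U := Fintype.ofFinite _
  have hsq : ∀ y : ↥U, y * y = 1 := fun y => Subtype.ext (hU2 y y.2)
  have hinv : ∀ y : ↥U, y⁻¹ = y := fun y => inv_eq_of_mul_eq_one_left (hsq y)
  have hcomm : ∀ a b : ↥U, a * b = b * a := by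
    intro a b
    calc a * b = a * b * ((a * b) * (b * a)) := by
            have : (a * b) * (b * a) = 1 := by
              calc (a * b) * (b * a) = a * (b * b) * a := by group
                _ = 1 := by rw [hsq b, mul_one, hsq a]
            rw [this, mul_one]
      _ = ((a * b) * (a * b)) * (b * a) := by group
      _ = b * a := by rw [hsq, one_mul]
  have main : ∀ (k : ℕ) (φ : ↥U ≃* ↥U),
      (Finset.univ.filter (fun y : ↥U => φ y ≠ y)).card ≤ k →
      ∃ g ∈ LU, ∀ u : ↥U, g * (u : G) * g⁻¹ = ((φ u : ↥U) : G) := by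
    intro k
    induction k with
    | zero =>
      intro φ hφ
      refine ⟨1, one_mem _, fun u => ?_⟩
      have : φ u = u := by
        by_contra h
        have h1 : u ∈ Finset.univ.filter (fun y : ↥U => φ y ≠ y) := by simp [h]
        have := Finset.card_pos.2 ⟨u, h1⟩
        omega
      rw [this]; simp
    | succ k ih =>
      intro φ hφ
      by_cases hall : ∀ y, φ y = y
      · exact ⟨1, one_mem _, fun u => by rw [hall u]; simp⟩
      push Not at hall
      obtain ⟨v, hv⟩ := hall
      set w := φ v with hw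
      have hvw1 : v * w ≠ 1 := by
        intro h
        apply hv
        calc w = (v * v) * w := by rw [hsq, one_mul]
          _ = v * (v * w) := by group
          _ = v := by rw [h, mul_one]
      have hu1 : ((v * w : ↥U) : G) ≠ 1 := fun h => hvw1 (Subtype.ext h)
      have huU : ((v * w : ↥U) : G) ∈ U := (v * w).2
      have hEu := hEx _ huU hu1
      set c : ↥U := φ (v * w) * (v * w) with hc
      have hcc : c * c = 1 := hsq c
      let W' : Subgroup ↥U :=
        { carrier := {y | φ y = y ∨ φ y = c * y}
          one_mem' := Or.inl (map_one φ)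
          mul_mem' := by
            rintro a b (ha | ha) (hb | hb)
            · left; rw [map_mul, ha, hb]
            · right; rw [map_mul, ha, hb, ← mul_assoc, hcomm a c, mul_assoc]
            · right; rw [map_mul, ha, hb, mul_assoc]
            · left
              rw [map_mul, ha, hb]
              calc c * a * (c * b) = c * (a * c) * b := by group
                _ = (c * c) * a * b := by rw [hcomm a c]; group
                _ = a * b := by rw [hcc, one_mul]
          inv_mem' := by
            intro a ha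
            rw [hinv a]; exact ha }
      have huW : ((v * w : ↥U) : G) ∈ W'.map U.subtype := by
        refine ⟨v * w, Or.inr ?_, rfl⟩
        rw [hc, mul_assoc, hsq, mul_one]
      have hwW : (w : G) ∉ W'.map U.subtype := by
        rintro ⟨y, hy, hyw⟩
        have hyw' : y = w := Subtype.ext hyw
        rw [hyw'] at hy
        rcases hy with h | h
        · exact hv (φ.injective h)
        · apply hvw1
          have e : c * w = φ w * (v * w) := by
            rw [hc, map_mul, ← hw]
            calc w * φ w * (v * w) * w = w * φ w * v * (w * w) := by group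
              _ = w * φ w * v := by rw [hsq, mul_one]
              _ = φ w * w * v := by rw [hcomm w (φ w)]
              _ = φ w * (w * v) := by group
              _ = φ w * (v * w) := by rw [hcomm w v]
          rw [e] at h
          exact (mul_eq_left.mp h.symm)
      obtain ⟨g, hg, hgW, hgw⟩ := hEu.exists_perp_subgroup (W'.map U.subtype)
        ((Subgroup.map_subtype_le _).trans (hUQ _ huU hu1)) huW (hUQ _ huU hu1 w.2) hwW
      have hgLU : g ∈ LU := huLU _ huU hu1 hg
      have hgw' : g * (w : G) * g⁻¹ = v := by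
        rw [hgw]
        have : (v * w) * w = v := by rw [mul_assoc, hsq, mul_one]
        exact congrArg Subtype.val this
      set τ := Cfsg.Agent.H20.conjEquiv U g (hLN hgLU) with hτ
      have hτa : ∀ y : ↥U, ((τ y : ↥U) : G) = g * y * g⁻¹ := fun _ => rfl
      have hlt : (Finset.univ.filter (fun y : ↥U => (φ.trans τ) y ≠ y)).card <
          (Finset.univ.filter (fun y : ↥U => φ y ≠ y)).card := by
        apply Finset.card_lt_card
        rw [Finset.ssubset_iff_of_subset]
        · refine ⟨v, by
            simp only [Finset.mem_filter, Finset.mem_univ, true_and]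
            exact hv, ?_⟩
          simp only [Finset.mem_filter, Finset.mem_univ, true_and, not_not]
          apply Subtype.ext
          show ((τ (φ v) : ↥U) : G) = v
          rw [hτa]; exact hgw'
        · intro y hy
          simp only [Finset.mem_filter, Finset.mem_univ, true_and] at hy ⊢
          intro hφy
          apply hy
          apply Subtype.ext
          show ((τ (φ y) : ↥U) : G) = y
          rw [hτa, hφy]
          have := hgW y ⟨y, Or.inl hφy, rfl⟩
          rw [this]; group
      obtain ⟨h, hh, hhy⟩ := ih (φ.trans τ) (by omega)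
      refine ⟨g⁻¹ * h, LU.mul_mem (LU.inv_mem hgLU) hh, fun y => ?_⟩
      have h1 := hhy y
      have h2 : (((φ.trans τ) y : ↥U) : G) = g * (φ y : ↥U) * g⁻¹ := rfl
      rw [h2] at h1
      calc g⁻¹ * h * (y : G) * (g⁻¹ * h)⁻¹ = g⁻¹ * (h * y * h⁻¹) * g := by group
        _ = g⁻¹ * (g * (φ y : ↥U) * g⁻¹) * g := by rw [h1]
        _ = (φ y : ↥U) := by group
  intro φ
  exact main _ φ le_rfl

end Cfsg.Agent.S5596
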