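import Cfsg.Statements.S5597
import Cfsg.Agent.Lib.Helper22.LargeEx4

set_option autoImplicit false
open Cfsg

namespace Cfsg.Agent.S5597

/-- Setting: `z` is an involution of the finite group `G`; for each element `x`, `Q x` is the largest normal 2-subgroup of the centralizer of `x`; `Q z` is extraspecial and contains its own centralizer in `G`. A subgroup `U` is singular when it is elementary abelian, every non-identity element of `U` is conjugate to `z`, and any two non-identity elements `u`, `v` of `U` are orthogonal (`v ∈ Q u`). Write `QU` for the intersection of the `Q u` and `LU` for the join of the `Q u` over the non-identity `u` in `U`. If `U` is a non-trivial singular subgroup, then `LU` acts trivially on `QU / U` (every commutator of an element of `LU` with an element of `QU` lies in `U`), and for every `x` in `QU` outside `U` the centralizer of `U` in `LU` permutes the coset `x U` transitively: each `x u` with `u ∈ U` is a conjugate of `x` by an element of `LU` centralizing `U`. -/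
theorem result {G : Type*} [Group G] [Finite G]
    (Q : G → Subgroup G)
    (hQ : ∀ x : G, Q x = (Cfsg.pCore 2 ↥(Subgroup.centralizer ({x} : Set G))).map (Subgroup.centralizer ({x} : Set G)).subtype)
    (z : G) (hz : orderOf z = 2) (hE : Cfsg.IsExtraspecial 2 ↥(Q z))
    (hC : Subgroup.centralizer ((Q z : Subgroup G) : Set G) ≤ Q z)
    (U : Subgroup G) (hU2 : ∀ u ∈ U, u * u = 1)
    (hS : ∀ u ∈ U, u ≠ 1 → ∃ g : G, g * z * g⁻¹ = u)
    (hO : ∀ u ∈ U, ∀ v ∈ U, u ≠ 1 → v ≠ 1 → v ∈ Q u)
    (QU LU : Subgroup G) (hQU : QU = ⨅ u ∈ ((U : Set G) \ {1}), Q u) (hLU : LU = ⨆ u ∈ ((U : Set G) \ {1}), Q u)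
    (hU : U ≠ ⊥) :
    (∀ g ∈ LU, ∀ x ∈ QU, g * x * g⁻¹ * x⁻¹ ∈ U) ∧
      ∀ x ∈ QU, x ∉ U → ∀ u ∈ U, ∃ g ∈ LU ⊓ Subgroup.centralizer (U : Set G), g * x * g⁻¹ = x * u := by
  classical
  have hQ' : Q = Cfsg.Agent.H22.oTwo := funext hQ
  subst hQ'
  have hEz := Cfsg.Agent.H22.exC_oTwo hz hE hC
  have hEx : ∀ u ∈ U, u ≠ 1 → Cfsg.Agent.H22.ExC (Cfsg.Agent.H22.oTwo u) u := by
    intro u hu hu1
    obtain ⟨g, rfl⟩ := hS u hu hu1
    rw [Cfsg.Agent.H22.oTwo_conj]
    exact hEz.conj g
  have hUQ : ∀ u ∈ U, u ≠ 1 → U ≤ Cfsg.Agent.H22.oTwo u := by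
    intro u hu hu1 v hv
    by_cases hv1 : v = 1
    · rw [hv1]; exact one_mem _
    · exact hO u hu v hv hu1 hv1
  have hQUu : ∀ u ∈ U, u ≠ 1 → QU ≤ Cfsg.Agent.H22.oTwo u := by
    intro u hu hu1
    rw [hQU]
    exact iInf₂_le u ⟨hu, hu1⟩
  have hUQU : U ≤ QU := by
    rw [hQU]
    exact le_iInf₂ fun u hu => hUQ u hu.1 hu.2
  have huLU : ∀ u ∈ U, u ≠ 1 → Cfsg.Agent.H22.oTwo u ≤ LU := by
    intro u hu hu1
    rw [hLU]
    exact le_iSup₂ (f := fun u (_ : u ∈ (U : Set G) \ {1}) => Cfsg.Agent.H22.oTwo u) u ⟨hu, hu1⟩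
  constructor
  · let K : Subgroup G :=
      { carrier := {g | (∀ x ∈ QU, g * x * g⁻¹ * x⁻¹ ∈ U) ∧ (∀ x ∈ QU, g⁻¹ * x * g * x⁻¹ ∈ U)}
        one_mem' := by constructor <;> intro x _ <;> simp [one_mem]
        mul_mem' := by
          rintro g h ⟨hg1, hg2⟩ ⟨hh1, hh2⟩
          constructor
          · intro x hx
            have h1 := hh1 x hx
            have hx' : h * x * h⁻¹ ∈ QU := by
              have := QU.mul_mem (hUQU h1) hx
              simpa using this
            have h2 := hg1 _ hx'
            have := U.mul_mem h2 h1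
            convert this using 1
            group
          · intro x hx
            have h1 := hg2 x hx
            have hx' : g⁻¹ * x * g ∈ QU := by
              have := QU.mul_mem (hUQU h1) hx
              simpa using this
            have h2 := hh2 _ hx'
            have := U.mul_mem h2 h1
            convert this using 1
            group
        inv_mem' := by
          rintro g ⟨hg1, hg2⟩
          exact ⟨fun x hx => by simpa using hg2 x hx, fun x hx => by simpa using hg1 x hx⟩ }
    have hLK : LU ≤ K := by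
      rw [hLU]
      refine iSup₂_le fun u hu => ?_
      intro g hg
      have hEu := hEx u hu.1 hu.2
      have aux : ∀ k ∈ Cfsg.Agent.H22.oTwo u, ∀ x ∈ QU, k * x * k⁻¹ * x⁻¹ ∈ U := by
        intro k hk x hx
        rcases hEu.comm k hk x (hQUu u hu.1 hu.2 hx) with h | h
        · rw [h]; simp [one_mem]
        · rw [h]; simpa using hu.1
      exact ⟨aux g hg, fun x hx => by simpa using aux g⁻¹ (inv_mem hg) x hx⟩
    intro g hg x hx
    exact (hLK hg).1 x hx
  · intro x hx hxU u hu
    by_cases hu1 : u = 1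
    · exact ⟨1, one_mem _, by simp [hu1]⟩
    · have hEu := hEx u hu hu1
      obtain ⟨g, hg, hgU, hgx⟩ :=
        hEu.exists_perp_subgroup U (hUQ u hu hu1) hu (hQUu u hu hu1 hx) hxU
      refine ⟨g, ⟨huLU u hu hu1 hg, ?_⟩, ?_⟩
      · apply Subgroup.mem_centralizer_iff.2
        intro v hv
        exact (hgU v hv).symm
      · rw [hgx]; exact (hEu.cen x (hQUu u hu hu1 hx)).symm

end Cfsg.Agent.S5597
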