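import Cfsg.Statements.S5598
import Cfsg.Agent.Lib.Helper22.LargeEx3

set_option autoImplicit false
open Cfsg

namespace Cfsg.Agent.S5598

/-- Setting: `z` is an involution of the finite group `G`; for each element `x`, `Q x` is the largest normal 2-subgroup of the centralizer of `x`; `Q z` is extraspecial and contains its own centralizer in `G`. A subgroup `U` is singular when it is elementary abelian, every non-identity element of `U` is conjugate to `z`, and any two non-identity elements `u`, `v` of `U` are orthogonal (`v ∈ Q u`). Write `QU` for the intersection of the `Q u` and `LU` for the join of the `Q u` over the non-identity `u` in `U`. If the singular subgroup `U` is generated by a set `T` of non-identity elements, then `QU` is already the intersection of the `Q t` over `t ∈ T`. -/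
theorem result {G : Type*} [Group G] [Finite G]
    (Q : G → Subgroup G)
    (hQ : ∀ x : G, Q x = (Cfsg.pCore 2 ↥(Subgroup.centralizer ({x} : Set G))).map (Subgroup.centralizer ({x} : Set G)).subtype)
    (z : G) (hz : orderOf z = 2) (hE : Cfsg.IsExtraspecial 2 ↥(Q z))
    (hC : Subgroup.centralizer ((Q z : Subgroup G) : Set G) ≤ Q z)
    (U : Subgroup G) (hU2 : ∀ u ∈ U, u * u = 1)
    (hS : ∀ u ∈ U, u ≠ 1 → ∃ g : G, g * z * g⁻¹ = u)
    (hO : ∀ u ∈ U, ∀ v ∈ U, u ≠ 1 → v ≠ 1 → v ∈ Q u)
    (QU LU : Subgroup G) (hQU : QU = ⨅ u ∈ ((U : Set G) \ {1}), Q u) (hLU : LU = ⨆ u ∈ ((U : Set G) \ {1}), Q u)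
    (T : Set G) (hT : Subgroup.closure T = U) (hT1 : (1 : G) ∉ T) :
    QU = ⨅ t ∈ T, Q t := by
  have hQ' : Q = Cfsg.Agent.H22.oTwo := funext hQ
  subst hQ'
  have hEz := Cfsg.Agent.H22.exC_oTwo hz hE hC
  have hEx : ∀ u ∈ U, u ≠ 1 → Cfsg.Agent.H22.ExC (Cfsg.Agent.H22.oTwo u) u := by
    intro u hu hu1
    obtain ⟨g, rfl⟩ := hS u hu hu1
    rw [Cfsg.Agent.H22.oTwo_conj]
    exact hEz.conj g
  have key : ∀ a ∈ U, ∀ b ∈ U, a ≠ 1 → b ≠ 1 → a * b ≠ 1 → ∀ y, y ∈ Cfsg.Agent.H22.oTwo a →
      y ∈ Cfsg.Agent.H22.oTwo b → y ∈ Cfsg.Agent.H22.oTwo (a * b) := by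
    intro a ha b hb ha1 hb1 hab y hya hyb
    have hEa := hEx a ha ha1
    have hba : b ≠ a := by
      intro h
      apply hab
      rw [h]; exact hU2 a ha
    obtain ⟨u, hu, hub⟩ := hEa.exists_u (hO a ha b hb ha1 hb1) hb1 hba
    rw [← hub, Cfsg.Agent.H22.oTwo_conj, Cfsg.Agent.H22.mem_map_conj_iff']
    rcases hEa.comm u⁻¹ (Subgroup.inv_mem _ hu) y hya with h | h
    · rw [inv_inv] at h
      rw [h]; exact hyb
    · rw [inv_inv] at h
      rw [h]; exact Subgroup.mul_mem _ (hO b hb a ha hb1 ha1) hyb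
  rw [hQU]
  apply le_antisymm
  · refine le_iInf₂ fun t ht => ?_
    have htU : t ∈ U := hT ▸ Subgroup.subset_closure ht
    exact iInf₂_le t ⟨htU, fun h => hT1 (h ▸ ht)⟩
  · intro y hy
    have hy' : ∀ t ∈ T, y ∈ Cfsg.Agent.H22.oTwo t := by
      intro t ht
      have := Subgroup.mem_iInf.1 hy t
      exact Subgroup.mem_iInf.1 this ht
    have main : ∀ u ∈ Subgroup.closure T, u = 1 ∨ y ∈ Cfsg.Agent.H22.oTwo u := by
      intro u hu
      induction hu using Subgroup.closure_induction with
      | mem t ht => exact Or.inr (hy' t ht)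
      | one => exact Or.inl rfl
      | mul a b ha hb iha ihb =>
        rw [hT] at ha hb
        rcases iha with rfl | iha
        · rw [one_mul]; exact ihb
        rcases ihb with rfl | ihb
        · rw [mul_one]; exact Or.inr iha
        by_cases hab : a * b = 1
        · exact Or.inl hab
        by_cases ha1 : a = 1
        · rw [ha1, one_mul]; exact Or.inr ihb
        by_cases hb1 : b = 1
        · rw [hb1, mul_one]; exact Or.inr iha
        exact Or.inr (key a ha b hb ha1 hb1 hab y iha ihb)
      | inv a ha iha =>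
        rw [hT] at ha
        have : a⁻¹ = a := inv_eq_of_mul_eq_one_left (hU2 a ha)
        rw [this]; exact iha
    rw [Subgroup.mem_iInf]; intro u
    rw [Subgroup.mem_iInf]; intro hu
    rcases main u (hT ▸ hu.1) with h | h
    · exact absurd h hu.2
    · exact h

end Cfsg.Agent.S5598
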