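import Cfsg.Statements.S5729

set_option autoImplicit false
open Cfsg

namespace Cfsg.Agent.S5729

open MulAction

/-- Burnside: the sum of the numbers of fixed points is `|G|` for a transitive action. -/
theorem sum_fix {G Ω : Type*} [Group G] [Fintype G] [MulAction G Ω] [Fintype Ω] [Nonempty Ω]
    (htr : IsPretransitive G Ω) : ∑ g : G, Nat.card (fixedBy Ω g) = Nat.card G := by
  classical
  have h := sum_card_fixedBy_eq_card_orbits_mul_card_group G Ω
  have h1 : Fintype.card (Quotient (orbitRel G Ω)) = 1 := by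
    rw [Fintype.card_eq_one_iff_nonempty_unique]
    have hs : Subsingleton (Quotient (orbitRel G Ω)) :=
      (pretransitive_iff_subsingleton_quotient G Ω).mp htr
    obtain ⟨ω⟩ := ‹Nonempty Ω›
    exact ⟨⟨⟨Quotient.mk _ ω⟩, fun a => Subsingleton.elim _ _⟩⟩
  rw [h1, one_mul] at h
  rw [Nat.card_eq_fintype_card, ← h]
  exact Finset.sum_congr rfl (fun g _ => Nat.card_eq_fintype_card)

/-- Burnside on pairs: the sum of the squares of the numbers of fixed points is at least `2 |G|`. -/
theorem sum_fix_sq {G Ω : Type*} [Group G] [Fintype G] [MulAction G Ω] [Fintype Ω]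
    (hn : 2 ≤ Fintype.card Ω) :
    2 * Nat.card G ≤ ∑ g : G, Nat.card (fixedBy Ω g) ^ 2 := by
  classical
  have h := sum_card_fixedBy_eq_card_orbits_mul_card_group G (Ω × Ω)
  have h1 : 2 ≤ Fintype.card (Quotient (orbitRel G (Ω × Ω))) := by
    obtain ⟨a, b, hab⟩ := Fintype.one_lt_card_iff.mp (show 1 < Fintype.card Ω by omega)
    apply Fintype.one_lt_card_iff.mpr
    refine ⟨Quotient.mk _ (a, a), Quotient.mk _ (a, b), ?_⟩
    intro heq
    have h2 := Quotient.exact heq
    change (orbitRel G (Ω × Ω)) (a, a) (a, b) at h2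
    rw [orbitRel_apply] at h2
    obtain ⟨g, hg⟩ := h2
    have e1 : g • a = a := congrArg Prod.fst hg
    have e2 : g • b = a := congrArg Prod.snd hg
    exact hab (smul_left_cancel g (e1.trans e2.symm))
  have h3 : ∀ g : G, Fintype.card (fixedBy (Ω × Ω) g) = Nat.card (fixedBy Ω g) ^ 2 := by
    intro g
    rw [← Nat.card_eq_fintype_card, sq, ← Nat.card_prod]
    apply Nat.card_congr
    exact
      { toFun := fun x => (⟨x.1.1, congrArg Prod.fst x.2⟩, ⟨x.1.2, congrArg Prod.snd x.2⟩)
        invFun := fun y => ⟨(y.1.1, y.2.1), Prod.ext y.1.2 y.2.2⟩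
        left_inv := fun x => rfl
        right_inv := fun y => rfl }
  rw [Finset.sum_congr rfl (fun g _ => h3 g)] at h
  rw [h, Nat.card_eq_fintype_card]
  exact Nat.mul_le_mul_right _ h1

/-- Let a finite group G act faithfully and transitively on a set with n ≥ 3 points. Then either G is a Frobenius permutation group (Frobenius as a permutation group: transitive, some non-identity element fixes a point, and no non-identity element fixes two points) of order n(n − 1) and exactly |G|/n of its elements are derangements (fix no point), or the number of derangements is greater than |G|/n. -/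
theorem result {G Ω : Type*} [Group G] [Finite G] [MulAction G Ω] [FaithfulSMul G Ω] [Fintype Ω] (htr : MulAction.IsPretransitive G Ω) (hn : 3 ≤ Fintype.card Ω) :
    ((MulAction.IsPretransitive G Ω ∧ (∃ g : G, g ≠ 1 ∧ ∃ ω : Ω, g • ω = ω) ∧ ∀ g : G, g ≠ 1 → Nat.card (MulAction.fixedBy Ω g) ≤ 1) ∧ Nat.card G = Fintype.card Ω * (Fintype.card Ω - 1) ∧ Fintype.card Ω * Nat.card {g : G // ∀ ω : Ω, g • ω ≠ ω} = Nat.card G) ∨
    Nat.card G < Fintype.card Ω * Nat.card {g : G // ∀ ω : Ω, g • ω ≠ ω} := by
  classical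
  have : Fintype G := Fintype.ofFinite G
  have : Nonempty Ω := Fintype.card_pos_iff.mp (by omega)
  set n := Fintype.card Ω with hndef
  set f : G → ℕ := fun g => Nat.card (fixedBy Ω g) with hf
  have hS1 : ∑ g : G, f g = Nat.card G := sum_fix htr
  have hS2 : 2 * Nat.card G ≤ ∑ g : G, f g ^ 2 := sum_fix_sq (by omega)
  have hfle : ∀ g, f g ≤ n := by
    intro g
    rw [hf, hndef, ← Nat.card_eq_fintype_card]
    exact Nat.card_le_card_of_injective _ Subtype.val_injective
  have hder : ∀ g : G, (∀ ω : Ω, g • ω ≠ ω) ↔ f g = 0 := by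
    intro g
    rw [hf]
    rw [Finite.card_eq_zero_iff]
    constructor
    · intro h
      exact ⟨fun x => h x.1 x.2⟩
    · intro h ω hω
      exact h.false ⟨ω, hω⟩
  have hcardder : Nat.card {g : G // ∀ ω : Ω, g • ω ≠ ω} = (Finset.univ.filter (fun g : G => f g = 0)).card := by
    rw [Nat.card_eq_fintype_card, Fintype.card_subtype]
    congr 1
    ext g
    simp [hder]
  set d := (Finset.univ.filter (fun g : G => f g = 0)).card with hd
  rw [hcardder]
  have hcG : (∑ _g : G, (1 : ℤ)) = Nat.card G := by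
    simp [Nat.card_eq_fintype_card]
  -- the key sum
  have hkey : ∑ g : G, ((f g : ℤ) - 1) * ((f g : ℤ) - n) =
      (∑ g : G, (f g : ℤ) ^ 2) - (n + 1) * Nat.card G + n * Nat.card G := by
    have : ∀ g : G, ((f g : ℤ) - 1) * ((f g : ℤ) - n) = (f g : ℤ) ^ 2 - (n + 1) * (f g : ℤ) + n * 1 := by
      intro g; ring
    rw [Finset.sum_congr rfl (fun g _ => this g), Finset.sum_add_distrib, Finset.sum_sub_distrib,
      ← Finset.mul_sum, ← Finset.mul_sum, hcG]
    congr 2
    rw [← hS1]; push_cast; rfl
  have hsplit : ∑ g : G, ((f g : ℤ) - 1) * ((f g : ℤ) - n) =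
      n * d + ∑ g ∈ Finset.univ.filter (fun g : G => ¬ f g = 0), ((f g : ℤ) - 1) * ((f g : ℤ) - n) := by
    rw [← Finset.sum_filter_add_sum_filter_not Finset.univ (fun g : G => f g = 0)]
    congr 1
    rw [Finset.sum_congr rfl (g := fun _ => (n : ℤ))]
    · simp [hd, mul_comm]
    · intro g hg
      rw [(Finset.mem_filter.mp hg).2]; simp
  have hnonpos : ∀ g ∈ Finset.univ.filter (fun g : G => ¬ f g = 0),
      ((f g : ℤ) - 1) * ((f g : ℤ) - n) ≤ 0 := by
    intro g hg
    have h1 : 1 ≤ f g := Nat.one_le_iff_ne_zero.mpr (Finset.mem_filter.mp hg).2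
    have h2 := hfle g
    apply mul_nonpos_of_nonneg_of_nonpos
    · have : (1 : ℤ) ≤ f g := by exact_mod_cast h1
      linarith
    · have : (f g : ℤ) ≤ n := by exact_mod_cast h2
      linarith
  have hS2' : (2 : ℤ) * Nat.card G ≤ ∑ g : G, (f g : ℤ) ^ 2 := by exact_mod_cast hS2
  by_cases hlt : Nat.card G < n * d
  · exact Or.inr hlt
  left
  push Not at hlt
  have hlt' : (n : ℤ) * d ≤ Nat.card G := by exact_mod_cast hlt
  have hsum0 : ∑ g ∈ Finset.univ.filter (fun g : G => ¬ f g = 0),
      ((f g : ℤ) - 1) * ((f g : ℤ) - n) = 0 := by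
    apply le_antisymm (Finset.sum_nonpos hnonpos)
    nlinarith [hkey, hsplit]
  have hnd : (n : ℤ) * d = Nat.card G := by
    apply le_antisymm hlt'
    nlinarith [hkey, hsplit]
  have hterm := (Finset.sum_eq_zero_iff_of_nonpos hnonpos).mp hsum0
  have hfix1 : ∀ g : G, g ≠ 1 → f g ≤ 1 := by
    intro g hg
    by_cases h0 : f g = 0
    · omega
    have h1 := hterm g (Finset.mem_filter.mpr ⟨Finset.mem_univ g, h0⟩)
    rcases mul_eq_zero.mp h1 with h2 | h2
    · have : (f g : ℤ) = 1 := by linarith
      have : f g = 1 := by exact_mod_cast this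
      omega
    · exfalso
      have h3 : (f g : ℤ) = n := by linarith
      have h4 : f g = n := by exact_mod_cast h3
      apply hg
      apply FaithfulSMul.eq_of_smul_eq_smul (α := Ω)
      intro ω
      rw [one_smul]
      have h5 : (fixedBy Ω g) = Set.univ := by
        apply Set.eq_of_subset_of_ncard_le (Set.subset_univ _) _ Set.finite_univ
        rw [Set.ncard_univ, ← Nat.card_coe_set_eq, Nat.card_eq_fintype_card (α := Ω)]
        exact h4.ge
      have : ω ∈ fixedBy Ω g := by rw [h5]; trivial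
      exact this
  have hf1 : f 1 = n := by
    have hu : fixedBy Ω (1 : G) = Set.univ := by ext ω; simp
    rw [hf, hndef, ← Nat.card_eq_fintype_card (α := Ω), ← Set.ncard_univ, ← Nat.card_coe_set_eq]
    simp only [hu]
  have hpt : ∀ g : G, (f g : ℤ) - 1 =
      (if g = 1 then (n : ℤ) - 1 else 0) - (if f g = 0 then 1 else 0) := by
    intro g
    by_cases hg : g = 1
    · subst hg
      rw [if_pos rfl, hf1, if_neg (by omega)]; ring
    · rw [if_neg hg]
      have := hfix1 g hg
      by_cases h0 : f g = 0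
      · rw [if_pos h0, h0]; simp
      · rw [if_neg h0]
        have : f g = 1 := by omega
        rw [this]; simp
  have hsum : ∑ g : G, ((f g : ℤ) - 1) = 0 := by
    rw [Finset.sum_sub_distrib, hcG, ← hS1]; push_cast; ring
  rw [Finset.sum_congr rfl (fun g _ => hpt g), Finset.sum_sub_distrib, Finset.sum_ite_eq',
    if_pos (Finset.mem_univ _), Finset.sum_boole] at hsum
  have hdn : (d : ℤ) = n - 1 := by rw [hd]; linarith
  have hdn' : d = n - 1 := by omega
  have hG : Nat.card G = n * (n - 1) := by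
    rw [← hdn']; exact_mod_cast hnd.symm
  refine ⟨⟨htr, ?_, hfix1⟩, hG, by exact_mod_cast hnd⟩
  obtain ⟨ω⟩ := ‹Nonempty Ω›
  have hidx : (stabilizer G ω).index = n := by
    rw [index_stabilizer_of_transitive, Nat.card_eq_fintype_card]
  have hcs := (stabilizer G ω).card_mul_index
  rw [hidx, hG, mul_comm] at hcs
  have hcs' : Nat.card (stabilizer G ω) = n - 1 := Nat.eq_of_mul_eq_mul_left (by omega) hcs
  have hne : stabilizer G ω ≠ ⊥ := by
    intro h
    rw [h, Subgroup.card_bot] at hcs'
    omega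
  obtain ⟨g, hg1⟩ := (Subgroup.ne_bot_iff_exists_ne_one).mp hne
  exact ⟨g.1, fun h => hg1 (Subtype.ext h), ω, g.2⟩

end Cfsg.Agent.S5729
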