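import Cfsg.Statements.S5738

set_option autoImplicit false
open Cfsg

namespace Cfsg.Agent.S5738

variable {F K : Type*} [Field F] [Field K] [Algebra F K]

/-- A field automorphism over `F` as a unit of the endomorphism ring. -/
def sig (σ : K ≃ₐ[F] K) : (Module.End F K)ˣ :=
  ⟨σ.toLinearMap, σ.symm.toLinearMap, by ext x; simp, by ext x; simp⟩

theorem sig_apply (σ : K ≃ₐ[F] K) (x : K) : ((sig σ : (Module.End F K)ˣ) : Module.End F K) x = σ x := rfl

theorem sig_inv (σ : K ≃ₐ[F] K) : (sig σ)⁻¹ = sig σ.symm := rfl

/-- Multiplication maps. -/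
abbrev lam : Kˣ →* (Module.End F K)ˣ :=
  Units.map ((Algebra.lmul F K : K →ₐ[F] Module.End F K) : K →* Module.End F K)

theorem lam_apply (u : Kˣ) (x : K) :
    ((lam (F := F) u : (Module.End F K)ˣ) : Module.End F K) x = (u : K) * x := rfl

theorem sig_conj (σ : K ≃ₐ[F] K) (a : Kˣ) :
    sig σ * lam (F := F) a * (sig σ)⁻¹ = lam (F := F) (Units.map (σ : K →* K) a) := by
  apply Units.ext
  ext x
  rw [sig_inv]
  simp only [Units.val_mul, Module.End.mul_apply, sig_apply, lam_apply, map_mul]
  simp

theorem sig_mem_normalizer (σ : K ≃ₐ[F] K) :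
    sig σ ∈ Subgroup.normalizer (((lam (F := F) (K := K)).range : Subgroup (Module.End F K)ˣ) :
      Set (Module.End F K)ˣ) := by
  rw [Subgroup.mem_normalizer_iff]
  intro h
  constructor
  · rintro ⟨a, rfl⟩
    exact ⟨_, (sig_conj σ a).symm⟩
  · rintro ⟨b, hb⟩
    refine ⟨Units.map (σ.symm : K →* K) b, ?_⟩
    rw [← sig_conj σ.symm b, hb, ← sig_inv σ]
    group

/-- Let F ⊆ K be finite fields with |F| = q and [K : F] = n ≥ 2, so |K| = q^n. Regard K as an n-dimensional F-vector space; the multiplications by non-zero elements of K form a cyclic subgroup of GL_F(K) of order q^n − 1 acting regularly on the non-zero vectors (a Singer group). Its normaliser in GL_F(K) has order n·(q^n − 1). -/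
theorem result {F K : Type*} [Field F] [Fintype F] [Field K] [Fintype K] [Algebra F K] (n : ℕ) (hn : 2 ≤ n) (hdim : Module.finrank F K = n) :
    Nat.card (Subgroup.normalizer (((Units.map ((Algebra.lmul F K : K →ₐ[F] Module.End F K) : K →* Module.End F K)).range : Subgroup (Module.End F K)ˣ) : Set (Module.End F K)ˣ)) = n * (Fintype.card K - 1) := by
  classical
  have : FiniteDimensional F K := Module.Finite.of_finite
  change Nat.card (Subgroup.normalizer (((lam (F := F) (K := K)).range : Subgroup (Module.End F K)ˣ) :
      Set (Module.End F K)ˣ)) = _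
  set N := Subgroup.normalizer (((lam (F := F) (K := K)).range : Subgroup (Module.End F K)ˣ) :
      Set (Module.End F K)ˣ) with hN
  let Ψ : Kˣ × (K ≃ₐ[F] K) → N := fun p =>
    ⟨lam (F := F) p.1 * sig p.2, N.mul_mem (Subgroup.le_normalizer ⟨p.1, rfl⟩) (sig_mem_normalizer p.2)⟩
  have hinj : Function.Injective Ψ := by
    rintro ⟨u, σ⟩ ⟨u', σ'⟩ h
    have h1 : lam (F := F) u * sig σ = lam (F := F) u' * sig σ' := congrArg Subtype.val h
    have h2 : ∀ x : K, (u : K) * σ x = (u' : K) * σ' x := by
      intro x
      have := congrArg (fun e : (Module.End F K)ˣ => (e : Module.End F K) x) h1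
      simpa [Units.val_mul, Module.End.mul_apply, sig_apply, lam_apply] using this
    have hu : u = u' := by
      apply Units.ext
      simpa using h2 1
    subst hu
    have hσ : σ = σ' := by
      ext x
      exact mul_left_cancel₀ u.ne_zero (h2 x)
    rw [hσ]
  have hsurj : Function.Surjective Ψ := by
    rintro ⟨g, hg⟩
    have hginj : Function.Injective (g : Module.End F K) := by
      intro x y hxy
      have := congrArg ((g⁻¹ : (Module.End F K)ˣ) : Module.End F K) hxy
      rw [← Module.End.mul_apply, ← Module.End.mul_apply, ← Units.val_mul, inv_mul_cancel] at this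
      simpa using this
    have hu0 : (g : Module.End F K) 1 ≠ 0 := by
      intro h
      have := hginj (h.trans (map_zero _).symm)
      exact one_ne_zero this
    set u : Kˣ := Units.mk0 _ hu0 with hu
    set h : (Module.End F K)ˣ := (lam (F := F) u)⁻¹ * g with hh
    have hhN : h ∈ N := N.mul_mem (N.inv_mem (Subgroup.le_normalizer ⟨u, rfl⟩)) hg
    have hhx : ∀ x : K, (h : Module.End F K) x = (u : K)⁻¹ * (g : Module.End F K) x := by
      intro x
      rw [hh, ← map_inv, Units.val_mul, Module.End.mul_apply, lam_apply]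
      simp
    have hh1 : (h : Module.End F K) 1 = 1 := by
      rw [hhx, hu]; simp [hu0]
    have hmulu : ∀ (a : Kˣ) (x : K), (h : Module.End F K) ((a : K) * x) =
        (h : Module.End F K) (a : K) * (h : Module.End F K) x := by
      intro a x
      obtain ⟨a', ha'⟩ := (Subgroup.mem_normalizer_iff.mp hhN (lam (F := F) a)).mp ⟨a, rfl⟩
      have h3 : lam (F := F) a' * h = h * lam (F := F) a := by
        rw [ha']; group
      have h4 : ∀ y : K, (a' : K) * (h : Module.End F K) y = (h : Module.End F K) ((a : K) * y) := by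
        intro y
        have := congrArg (fun e : (Module.End F K)ˣ => (e : Module.End F K) y) h3
        simpa [Units.val_mul, Module.End.mul_apply, lam_apply] using this
      have h5 := h4 1
      rw [hh1, mul_one, mul_one] at h5
      rw [← h4 x, h5]
    have hmul : ∀ a x : K, (h : Module.End F K) (a * x) =
        (h : Module.End F K) a * (h : Module.End F K) x := by
      intro a x
      by_cases ha : a = 0
      · subst ha; simp
      · exact hmulu (Units.mk0 a ha) x
    let σ : K ≃ₐ[F] K := AlgEquiv.ofLinearEquiv (LinearMap.GeneralLinearGroup.toLinearEquiv h) hh1 hmul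
    refine ⟨(u, σ), ?_⟩
    apply Subtype.ext
    apply Units.ext
    ext x
    change (u : K) * (h : Module.End F K) x = (g : Module.End F K) x
    rw [hhx, ← mul_assoc, mul_inv_cancel₀ u.ne_zero, one_mul]
  rw [← Nat.card_congr (Equiv.ofBijective Ψ ⟨hinj, hsurj⟩), Nat.card_prod, Nat.card_units,
    IsGalois.card_aut_eq_finrank, hdim, Nat.card_eq_fintype_card, mul_comm]

end Cfsg.Agent.S5738
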