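import Cfsg.Statements.S5739

set_option autoImplicit false
open Cfsg

namespace Cfsg.Agent.S5739

variable {F K : Type*} [Field F] [Field K] [Algebra F K]

/-- The elements `a` of `K` whose multiplication map is `g`-conjugate to a multiplication map. -/
def LL (g : (Module.End F K)ˣ) : Subalgebra F K where
  carrier := {a | ∃ b : K, Algebra.lmul F K a =
    (g : Module.End F K) * Algebra.lmul F K b * ((g⁻¹ : (Module.End F K)ˣ) : Module.End F K)}
  mul_mem' := by
    rintro a a' ⟨b, hb⟩ ⟨b', hb'⟩
    refine ⟨b * b', ?_⟩
    rw [map_mul, map_mul, hb, hb']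
    have : ((g⁻¹ : (Module.End F K)ˣ) : Module.End F K) * (g : Module.End F K) = 1 := by simp
    calc (g : Module.End F K) * Algebra.lmul F K b * ((g⁻¹ : (Module.End F K)ˣ) : Module.End F K) *
          ((g : Module.End F K) * Algebra.lmul F K b' * ((g⁻¹ : (Module.End F K)ˣ) : Module.End F K))
        = (g : Module.End F K) * Algebra.lmul F K b *
          (((g⁻¹ : (Module.End F K)ˣ) : Module.End F K) * (g : Module.End F K)) * Algebra.lmul F K b' *
            ((g⁻¹ : (Module.End F K)ˣ) : Module.End F K) := by simp only [mul_assoc]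
      _ = _ := by rw [this, mul_one]; simp only [mul_assoc]
  add_mem' := by
    rintro a a' ⟨b, hb⟩ ⟨b', hb'⟩
    refine ⟨b + b', ?_⟩
    rw [map_add, map_add, hb, hb', mul_add, add_mul]
  algebraMap_mem' := by
    intro r
    refine ⟨algebraMap F K r, ?_⟩
    rw [AlgHom.commutes, ← Algebra.commutes, mul_assoc]
    simp

/-- Let F ⊆ K be finite fields with |F| = q and [K : F] = n ≥ 2, and let M ≤ GL_F(K) be the Singer group of multiplications by non-zero elements of K. If g ∈ GL_F(K) does not normalise M, then the order of M ∩ gMg⁻¹ divides q^r − 1 for some proper divisor r of n. In particular, when n is prime, that order divides q − 1. -/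
theorem result {F K : Type*} [Field F] [Fintype F] [Field K] [Fintype K] [Algebra F K] (n : ℕ) (hn : 2 ≤ n) (hdim : Module.finrank F K = n)
    (g : (Module.End F K)ˣ) (hg : ((Units.map ((Algebra.lmul F K : K →ₐ[F] Module.End F K) : K →* Module.End F K)).range).map (MulAut.conj g).toMonoidHom ≠ (Units.map ((Algebra.lmul F K : K →ₐ[F] Module.End F K) : K →* Module.End F K)).range) :
    ∃ r : ℕ, 1 ≤ r ∧ r ∣ n ∧ r < n ∧ Nat.card ↥(((Units.map ((Algebra.lmul F K : K →ₐ[F] Module.End F K) : K →* Module.End F K)).range).map (MulAut.conj g).toMonoidHom ⊓ (Units.map ((Algebra.lmul F K : K →ₐ[F] Module.End F K) : K →* Module.End F K)).range) ∣ Fintype.card F ^ r - 1 := by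
  classical
  set lam : Kˣ →* (Module.End F K)ˣ :=
    Units.map ((Algebra.lmul F K : K →ₐ[F] Module.End F K) : K →* Module.End F K) with hlam
  have hlamval : ∀ u : Kˣ, ((lam u : (Module.End F K)ˣ) : Module.End F K) = Algebra.lmul F K (u : K) :=
    fun u => rfl
  have : FiniteDimensional F K := Module.Finite.of_finite
  have : Algebra.IsAlgebraic F K := Algebra.IsAlgebraic.of_finite F K
  set L : IntermediateField F K := (LL g).toIntermediateField' (LL g).isField_of_algebraic with hL
  have hmemL : ∀ a : K, a ∈ L ↔ ∃ b : K, Algebra.lmul F K a =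
    (g : Module.End F K) * Algebra.lmul F K b * ((g⁻¹ : (Module.End F K)ˣ) : Module.End F K) :=
    fun a => Iff.rfl
  have hmul := Module.finrank_mul_finrank F L K
  rw [hdim] at hmul
  have hr1 : 1 ≤ Module.finrank F L := Module.finrank_pos
  have hdvd : Module.finrank F L ∣ n := Dvd.intro _ hmul
  have hle : Module.finrank F L ≤ n := Nat.le_of_dvd (by omega) hdvd
  refine ⟨Module.finrank F L, hr1, hdvd, lt_of_le_of_ne hle ?_, ?_⟩
  · intro hrn
    have htop : L = ⊤ := by
      apply IntermediateField.eq_of_le_of_finrank_eq le_top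
      rw [hrn, IntermediateField.finrank_top', hdim]
    apply hg
    symm
    have hfin1 : Finite lam.range := Finite.of_surjective lam.rangeRestrict lam.rangeRestrict_surjective
    have hfin : Finite ↥(lam.range.map (MulAut.conj g).toMonoidHom) := by
      have : Nat.card ↥(lam.range.map (MulAut.conj g).toMonoidHom) ≠ 0 := by
        rw [Subgroup.card_map_of_injective (MulAut.conj g).injective]
        exact Nat.card_pos.ne'
      exact (Nat.card_ne_zero.mp this).2
    apply Subgroup.eq_of_le_of_card_ge
    · rintro _ ⟨u, rfl⟩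
      have hu : (u : K) ∈ L := by rw [htop]; trivial
      obtain ⟨b, hb⟩ := (hmemL _).mp hu
      have hb0 : b ≠ 0 := by
        rintro rfl
        rw [map_zero, mul_zero, zero_mul] at hb
        have := Algebra.lmul_injective (R := F) (A := K) (hb.trans (map_zero _).symm)
        exact u.ne_zero this
      refine ⟨lam (Units.mk0 b hb0), ⟨_, rfl⟩, ?_⟩
      apply Units.ext
      simp only [MulEquiv.coe_toMonoidHom, MulAut.conj_apply, Units.val_mul]
      rw [hlamval, hlamval, hb]
      rfl
    · rw [Subgroup.card_map_of_injective (MulAut.conj g).injective]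
  · have : Fintype L := Fintype.ofFinite L
    have hcardL : Fintype.card L = Fintype.card F ^ Module.finrank F L := Module.card_eq_pow_finrank
    have hcyc1 : IsCyclic lam.range := isCyclic_of_surjective lam.rangeRestrict lam.rangeRestrict_surjective
    have hcyc : IsCyclic ↥(lam.range.map (MulAut.conj g).toMonoidHom ⊓ lam.range) :=
      isCyclic_of_injective (Subgroup.inclusion inf_le_right) (Subgroup.inclusion_injective _)
    rw [← IsCyclic.exponent_eq_card]
    apply Monoid.exponent_dvd_of_forall_pow_eq_one
    rintro ⟨x, ⟨y, ⟨u', rfl⟩, hy⟩, ⟨u, rfl⟩⟩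
    apply Subtype.ext
    have huL : (u : K) ∈ L := by
      rw [hmemL]
      refine ⟨(u' : K), ?_⟩
      have := congrArg Units.val hy
      simp only [MulEquiv.coe_toMonoidHom, MulAut.conj_apply, Units.val_mul] at this
      rw [hlamval, hlamval] at this
      exact this.symm
    have hpow := FiniteField.pow_card_sub_one_eq_one (⟨(u : K), huL⟩ : L)
      (fun h => u.ne_zero (congrArg Subtype.val h))
    rw [hcardL] at hpow
    have hpow' : u ^ (Fintype.card F ^ Module.finrank F L - 1) = 1 := by
      apply Units.ext
      have := congrArg Subtype.val hpow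
      simpa using this
    simp only [Subgroup.coe_pow, Subgroup.coe_one]
    rw [← map_pow, hpow', map_one]

end Cfsg.Agent.S5739
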