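import Cfsg.Statements.S5747
-- import your own Cfsg.Agent.* helpers here

set_option autoImplicit false
open Cfsg

namespace Cfsg.Agent.S5747

section lists

variable {G Ω : Type*} [Group G] [MulAction G Ω]

/-- `g` fixes every member of the list. -/
def Fixes (g : G) (l : List Ω) : Prop := ∀ x ∈ l, g • x = x

variable (G) in
/-- the pointwise stabiliser of the list is trivial -/
def Base (l : List Ω) : Prop := ∀ g : G, Fixes g l → g = 1

variable (G) in
/-- irredundance -/
def Irr (l : List Ω) : Prop :=
  ∀ i (hi : i < l.length), ∃ g : G, (∀ j (hj : j < i), g • l[j] = l[j]) ∧ g • l[i] ≠ l[i]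

theorem fixes_iff_getElem (g : G) (l : List Ω) :
    Fixes g l ↔ ∀ j (hj : j < l.length), g • l[j] = l[j] := by
  constructor
  · intro h j hj
    exact h _ (List.getElem_mem hj)
  · intro h x hx
    obtain ⟨j, hj, rfl⟩ := List.mem_iff_getElem.1 hx
    exact h j hj

theorem irr_snoc (l : List Ω) (x : Ω) :
    Irr G (l ++ [x]) ↔ Irr G l ∧ ∃ g : G, Fixes g l ∧ g • x ≠ x := by
  constructor
  · intro h
    refine ⟨?_, ?_⟩
    · intro i hi
      obtain ⟨g, hg1, hg2⟩ := h i (by simp; omega)
      refine ⟨g, ?_, ?_⟩
      · intro j hj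
        have := hg1 j hj
        rwa [List.getElem_append_left (by omega)] at this
      · rwa [List.getElem_append_left hi] at hg2
    · obtain ⟨g, hg1, hg2⟩ := h l.length (by simp)
      refine ⟨g, ?_, ?_⟩
      · rw [fixes_iff_getElem]
        intro j hj
        have := hg1 j hj
        rwa [List.getElem_append_left hj] at this
      · simpa using hg2
  · rintro ⟨h1, g, hg1, hg2⟩ i hi
    by_cases hil : i < l.length
    · obtain ⟨g', hg1', hg2'⟩ := h1 i hil
      refine ⟨g', ?_, ?_⟩
      · intro j hj
        rw [List.getElem_append_left (by omega)]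
        exact hg1' j hj
      · rwa [List.getElem_append_left hil]
    · have hil' : i = l.length := by simp at hi; omega
      subst hil'
      refine ⟨g, ?_, ?_⟩
      · intro j hj
        rw [List.getElem_append_left hj]
        exact (fixes_iff_getElem g l).1 hg1 j hj
      · simpa using hg2

theorem irr_prefix (l1 l2 : List Ω) (h : Irr G (l1 ++ l2)) : Irr G l1 := by
  induction l2 using List.reverseRecOn with
  | nil => simpa using h
  | append_singleton l2 x ih =>
    rw [← List.append_assoc] at h
    exact ih ((irr_snoc _ _).1 h).1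

theorem Fixes.mono {g : G} {l l' : List Ω} (h : Fixes g l) (hs : ∀ x ∈ l', x ∈ l) : Fixes g l' :=
  fun x hx => h x (hs x hx)

theorem Base.mono {l l' : List Ω} (h : Base G l) (hs : ∀ x ∈ l, x ∈ l') : Base G l' :=
  fun g hg => h g (hg.mono hs)

theorem prune (p b : List Ω) (hp : Irr G p) :
    ∃ b' : List Ω, b'.Sublist b ∧ Irr G (p ++ b') ∧ ∀ g : G, Fixes g (p ++ b') → Fixes g (p ++ b) := by
  induction b using List.reverseRecOn with
  | nil => exact ⟨[], List.Sublist.refl _, by simpa using hp, fun g hg => hg⟩
  | append_singleton b x ih =>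
    obtain ⟨b', hb1, hb2, hb3⟩ := ih
    by_cases hx : ∃ g : G, Fixes g (p ++ b') ∧ g • x ≠ x
    · refine ⟨b' ++ [x], List.Sublist.append_right hb1 [x], ?_, ?_⟩
      · rw [← List.append_assoc, irr_snoc]
        exact ⟨hb2, hx⟩
      · intro g hg y hy
        have hg' : Fixes g (p ++ b') := hg.mono (by
          intro z hz; simp only [List.mem_append] at hz ⊢; tauto)
        simp only [List.mem_append, List.mem_singleton] at hy
        rcases hy with hy | hy | hy
        · exact hb3 g hg' y (by simp [hy])
        · exact hb3 g hg' y (by simp [hy])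
        · subst hy; exact hg y (by simp)
    · refine ⟨b', hb1.trans (List.sublist_append_left b [x]), hb2, ?_⟩
      intro g hg y hy
      simp only [List.mem_append, List.mem_singleton] at hy
      rcases hy with hy | hy | hy
      · exact hb3 g hg y (by simp [hy])
      · exact hb3 g hg y (by simp [hy])
      · subst hy
        by_contra hne
        exact hx ⟨g, hg, hne⟩

variable (G Ω) in
/-- all irredundant bases have the same length -/
def AL : Prop := ∀ l l' : List Ω, Base G l → Irr G l → Base G l' → Irr G l' → l.length = l'.length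

variable (G Ω) in
/-- irredundant bases are closed under reordering -/
def BL : Prop := ∀ l l' : List Ω, l.Perm l' → Base G l → Irr G l → Irr G l'

theorem Base.perm {l l' : List Ω} (h : Base G l) (hp : l.Perm l') : Base G l' :=
  h.mono (fun _ hx => hp.subset hx)

theorem AL_imp_BL (h : AL G Ω) : BL G Ω := by
  intro l l' hp hb hi
  obtain ⟨l'', h1, h2, h3⟩ := prune (G := G) [] l' (by intro i hi; simp at hi)
  simp only [List.nil_append] at h2 h3
  have hb' : Base G l' := hb.perm hp
  have hb'' : Base G l'' := fun g hg => hb' g (h3 g hg)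
  have hlen := h l l'' hb hi hb'' h2
  have : l'' = l' := h1.eq_of_length (by rw [← hlen, hp.length_eq])
  rw [← this]; exact h2

theorem BL_imp_aux (h : BL G Ω) : ∀ (a p b : List Ω), Base G (p ++ a) → Irr G (p ++ a) →
    Base G (p ++ b) → Irr G (p ++ b) → a.length = b.length := by
  intro a
  induction a with
  | nil =>
    intro p b hb1 _ _ hi2
    cases b with
    | nil => rfl
    | cons y b' =>
      exfalso
      have h1 : Irr G (p ++ [y]) := irr_prefix (p ++ [y]) b' (by simpa using hi2)
      obtain ⟨g, hg1, hg2⟩ := ((irr_snoc _ _).1 h1).2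
      have : g = 1 := hb1 g (by simpa using hg1)
      subst this
      exact hg2 (one_smul _ _)
  | cons x a' ih =>
    intro p b hb1 hi1 hb2 hi2
    have hpx : Irr G (p ++ [x]) := irr_prefix (p ++ [x]) a' (by simpa using hi1)
    obtain ⟨b', hs, hb'i, hb'f⟩ := prune (G := G) (p ++ [x]) b hpx
    have hb'b : Base G ((p ++ [x]) ++ b') := by
      intro g hg
      apply hb2 g
      exact (hb'f g hg).mono (by intro z hz; simp only [List.mem_append] at hz ⊢; tauto)
    have hlen := ih (p ++ [x]) b' (by simpa using hb1) (by simpa using hi1) hb'b hb'i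
    obtain ⟨c, hc⟩ := hs.exists_perm_append
    have hlenb : b.length = b'.length + c.length := by rw [hc.length_eq, List.length_append]
    -- reorderings
    have hP1 : (p ++ b).Perm ((p ++ b') ++ c) := by
      rw [List.append_assoc]; exact hc.append_left p
    have hi3 : Irr G ((p ++ b') ++ c) := h _ _ hP1 hb2 hi2
    have hb3 : Base G ((p ++ b') ++ c) := hb2.perm hP1
    have hP2 : ((p ++ [x]) ++ b').Perm ((p ++ b') ++ [x]) := by
      rw [List.append_assoc, List.append_assoc]
      exact List.perm_append_comm.append_left p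
    have hi4 : Irr G ((p ++ b') ++ [x]) := h _ _ hP2 hb'b hb'i
    have hb4 : Base G ((p ++ b') ++ [x]) := hb'b.perm hP2
    obtain ⟨g0, hg0, hg0x⟩ := ((irr_snoc _ _).1 hi4).2
    have hc1 : c.length = 1 := by
      match c, hi3, hb3 with
      | [], _, hb3 =>
        exfalso
        have : g0 = 1 := hb3 g0 (by simpa using hg0)
        subst this
        exact hg0x (one_smul _ _)
      | [y], _, _ => rfl
      | y :: z :: c'', hi3, _ =>
        exfalso
        have h5 : Irr G (((p ++ b') ++ [y]) ++ [z]) :=
          irr_prefix _ c'' (by simpa using hi3)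
        obtain ⟨h6, g1, hg1, hg1z⟩ := (irr_snoc _ _).1 h5
        have hq : Irr G (((p ++ b') ++ [y]) ++ [x]) := by
          rw [irr_snoc]
          refine ⟨h6, g1, hg1, ?_⟩
          intro hx
          have : g1 = 1 := by
            apply hb4 g1
            intro w hw
            simp only [List.mem_append, List.mem_singleton] at hw
            rcases hw with hw | hw
            · exact hg1 w (by simp only [List.mem_append, List.mem_singleton]; tauto)
            · subst hw; exact hx
          subst this
          exact hg1z (one_smul _ _)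
        have hqb : Base G (((p ++ b') ++ [y]) ++ [x]) :=
          hb4.mono (by intro w hw; simp only [List.mem_append, List.mem_singleton] at hw ⊢; tauto)
        have hP3 : (((p ++ b') ++ [y]) ++ [x]).Perm (((p ++ b') ++ [x]) ++ [y]) := by
          rw [List.append_assoc (p ++ b'), List.append_assoc (p ++ b')]
          exact List.perm_append_comm.append_left (p ++ b')
        have h7 := h _ _ hP3 hqb hq
        obtain ⟨g2, hg2, hg2y⟩ := ((irr_snoc _ _).1 h7).2
        have : g2 = 1 := hb4 g2 hg2
        subst this
        exact hg2y (one_smul _ _)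
    simp only [List.length_cons]
    omega

theorem BL_imp_AL (h : BL G Ω) : AL G Ω := by
  intro l l' hb hi hb' hi'
  exact BL_imp_aux h l [] l' (by simpa using hb) (by simpa using hi) (by simpa using hb')
    (by simpa using hi')

/-- The predicate of the statement. -/
def IBF (G : Type*) {Ω : Type*} [Group G] [MulAction G Ω] (t : ℕ) (f : Fin t → Ω) : Prop :=
  (∀ g : G, (∀ i : Fin t, g • f i = f i) → g = 1) ∧
    ∀ i : Fin t, ∃ g : G, (∀ j : Fin t, j < i → g • f j = f j) ∧ g • f i ≠ f i

theorem IBF_iff (t : ℕ) (f : Fin t → Ω) : IBF G t f ↔ Base G (List.ofFn f) ∧ Irr G (List.ofFn f) := by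
  unfold IBF
  refine and_congr ?_ ?_
  · unfold Base Fixes
    simp only [List.forall_mem_ofFn_iff]
  · unfold Irr
    constructor
    · intro h i hi
      have hi' : i < t := by simpa using hi
      obtain ⟨g, hg1, hg2⟩ := h ⟨i, hi'⟩
      refine ⟨g, ?_, ?_⟩
      · intro j hj
        simp only [List.getElem_ofFn]
        exact hg1 ⟨j, by omega⟩ hj
      · simpa only [List.getElem_ofFn] using hg2
    · intro h i
      obtain ⟨g, hg1, hg2⟩ := h i.1 (by simp)
      refine ⟨g, ?_, ?_⟩
      · intro j hj
        have := hg1 j.1 hj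
        simpa only [List.getElem_ofFn] using this
      · simpa only [List.getElem_ofFn] using hg2

theorem IBF_get (l : List Ω) : IBF G l.length l.get ↔ Base G l ∧ Irr G l := by
  rw [IBF_iff, List.ofFn_get]

end lists

/-- Let a finite group G act on a finite set Ω. An irredundant base is a sequence of points ω₁, …, ω_t whose pointwise stabiliser is trivial and in which each ω_i is moved by some element fixing ω₁, …, ω_{i−1}. Then all irredundant bases have the same length if and only if every reordering of an irredundant base is again an irredundant base. -/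
theorem result {G Ω : Type*} [Group G] [Finite G] [MulAction G Ω] [Fintype Ω] :
    (∀ (t t' : ℕ) (f : Fin t → Ω) (f' : Fin t' → Ω), ((∀ g : G, (∀ i : Fin t, g • f i = f i) → g = 1) ∧ ∀ i : Fin t, ∃ g : G, (∀ j : Fin t, j < i → g • f j = f j) ∧ g • f i ≠ f i) → ((∀ g : G, (∀ i : Fin t', g • f' i = f' i) → g = 1) ∧ ∀ i : Fin t', ∃ g : G, (∀ j : Fin t', j < i → g • f' j = f' j) ∧ g • f' i ≠ f' i) → t = t') ↔
    (∀ (t : ℕ) (f : Fin t → Ω) (σ : Equiv.Perm (Fin t)), ((∀ g : G, (∀ i : Fin t, g • f i = f i) → g = 1) ∧ ∀ i : Fin t, ∃ g : G, (∀ j : Fin t, j < i → g • f j = f j) ∧ g • f i ≠ f i) → ((∀ g : G, (∀ i : Fin t, g • (f ∘ σ) i = (f ∘ σ) i) → g = 1) ∧ ∀ i : Fin t, ∃ g : G, (∀ j : Fin t, j < i → g • (f ∘ σ) j = (f ∘ σ) j) ∧ g • (f ∘ σ) i ≠ (f ∘ σ) i)) := by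
  classical
  change (∀ (t t' : ℕ) (f : Fin t → Ω) (f' : Fin t' → Ω), IBF G t f → IBF G t' f' → t = t') ↔
    (∀ (t : ℕ) (f : Fin t → Ω) (σ : Equiv.Perm (Fin t)), IBF G t f → IBF G t (f ∘ σ))
  constructor
  · intro hA t f σ hf
    have hAL : AL G Ω := by
      intro l l' hb hi hb' hi'
      exact hA _ _ l.get l'.get ((IBF_get l).2 ⟨hb, hi⟩) ((IBF_get l').2 ⟨hb', hi'⟩)
    have hBL := AL_imp_BL hAL
    rw [IBF_iff] at hf ⊢
    have hp : (List.ofFn f).Perm (List.ofFn (f ∘ σ)) := (σ.ofFn_comp_perm f).symm
    exact ⟨hf.1.perm hp, hBL _ _ hp hf.1 hf.2⟩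
  · intro hB
    have hBL : BL G Ω := by
      intro l l' hp hb hi
      have hf := (IBF_get l).2 ⟨hb, hi⟩
      -- the index bijection
      have hlen : l.length = l'.length := hp.length_eq
      let b : Fin l'.length → Fin l.length := hp.symm.idxBij
      have hbij : Function.Bijective b := ⟨hp.symm.idxBij_injective, hp.symm.idxBij_surjective⟩
      let σ : Equiv.Perm (Fin l.length) :=
        (finCongr hlen).trans (Equiv.ofBijective b hbij)
      have h1 := hB _ l.get σ hf
      rw [IBF_iff] at h1
      have h2 : List.ofFn (l.get ∘ σ) = l' := by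
        apply List.ext_getElem
        · simp [hlen]
        · intro i h1 h2
          simp only [List.getElem_ofFn, Function.comp_apply, List.get_eq_getElem]
          exact hp.symm.getElem_idxBij_eq_getElem ⟨i, h2⟩
      rw [h2] at h1
      exact h1.2
    have hAL := BL_imp_AL hBL
    intro t t' f f' hf hf'
    rw [IBF_iff] at hf hf'
    have := hAL _ _ hf.1 hf.2 hf'.1 hf'.2
    simpa using this

end Cfsg.Agent.S5747
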