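import Cfsg.Statements.S5754
-- import your own Cfsg.Agent.* helpers here

set_option autoImplicit false
open Cfsg

namespace Cfsg.Agent.S5754

/-- The reflection in a non-singular vector `d`, as an isometry. -/
theorem exists_reflection {F V : Type*} [Field F] [AddCommGroup V] [Module F V]
    (Q : QuadraticForm F V) (d : V) (hd : Q d ≠ 0) :
    ∃ ρ : Q.IsometryEquiv Q, ∀ x, ρ x = x - (QuadraticMap.polar Q x d / Q d) • d := by
  let f : Module.Dual F V := (Q d)⁻¹ • (QuadraticMap.polarBilin Q).flip d
  have hf : ∀ x, f x = QuadraticMap.polar Q x d / Q d := by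
    intro x
    simp [f, div_eq_inv_mul]
  have h2 : f d = 2 := by
    rw [hf, QuadraticMap.polar_self, nsmul_eq_mul]
    field_simp
    norm_num
  refine ⟨{ Module.reflection h2 with map_app' := ?_ }, ?_⟩
  · intro x
    change Q (Module.reflection h2 x) = Q x
    rw [Module.reflection_apply, hf, sub_eq_add_neg, ← neg_smul, QuadraticMap.map_add (⇑Q),
      QuadraticMap.map_smul, QuadraticMap.polar_smul_right]
    simp only [smul_eq_mul]
    field_simp
    ring
  · intro x
    change Module.reflection h2 x = _
    rw [Module.reflection_apply, hf]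

theorem aux {F V : Type*} [Field F] [AddCommGroup V] [Module F V]
    (Q : QuadraticForm F V) (hQ : Q.Anisotropic) (n : ℕ) : ∀ (u u' : Fin n → V),
    (∀ i j : Fin n, Q (u i - u j) = Q (u' i - u' j)) →
    ∃ (φ : Q.IsometryEquiv Q) (c : V), ∀ i, φ (u i) + c = u' i := by
  induction n with
  | zero => intro u u' _; exact ⟨QuadraticMap.IsometryEquiv.refl Q, 0, fun i => i.elim0⟩
  | succ n ih =>
    intro u u' h
    obtain ⟨φ, c, hφ⟩ := ih (fun i => u i.castSucc) (fun i => u' i.castSucc)
      (fun i j => h i.castSucc j.castSucc)
    set w := φ (u (Fin.last n)) + c with hw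
    set w' := u' (Fin.last n) with hw'
    by_cases hww : w = w'
    · refine ⟨φ, c, fun i => ?_⟩
      refine Fin.lastCases ?_ (fun i => ?_) i
      · exact hww
      · exact hφ i
    · set d := w - w' with hd
      have hd0 : d ≠ 0 := sub_ne_zero.2 hww
      have hQd : Q d ≠ 0 := fun h0 => hd0 (hQ d h0)
      obtain ⟨ρ, hρ⟩ := exists_reflection Q d hQd
      refine ⟨φ.trans ρ, ρ c + (QuadraticMap.polar Q w' d / Q d + 1) • d, fun i => ?_⟩
      have key : ∀ x, (φ.trans ρ) x + (ρ c + (QuadraticMap.polar Q w' d / Q d + 1) • d)
          = (φ x + c) - (QuadraticMap.polar Q (φ x + c - w') d / Q d - 1) • d := by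
        intro x
        have : (φ.trans ρ) x = ρ (φ x) := rfl
        rw [this, ← add_assoc, ← map_add, hρ, QuadraticMap.polar_sub_left]
        rw [sub_div, sub_smul, sub_smul, add_smul]
        abel
      rw [key]
      refine Fin.lastCases ?_ (fun i => ?_) i
      · rw [← hw, ← hd, QuadraticMap.polar_self, nsmul_eq_mul]
        rw [mul_div_assoc, div_self hQd]
        have : (((2 : ℕ) : F) * 1 - 1) = 1 := by push_cast; ring
        rw [this, one_smul, hd]
        abel
      · rw [hφ i]
        -- polar (u'_i - w') d = Q d
        have h1 : Q (u' i.castSucc - w) = Q (u' i.castSucc - w') := by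
          rw [← h i.castSucc (Fin.last n), ← hφ i, hw]
          have : φ (u i.castSucc) + c - (φ (u (Fin.last n)) + c) = φ (u i.castSucc - u (Fin.last n)) := by
            rw [map_sub]; abel
          rw [this, QuadraticMap.IsometryEquiv.map_app]
        have h2 : u' i.castSucc - w = (u' i.castSucc - w') + (-d) := by rw [hd]; abel
        rw [h2, QuadraticMap.map_add (⇑Q), QuadraticMap.map_neg, QuadraticMap.polar_neg_right] at h1
        have h3 : QuadraticMap.polar Q (u' i.castSucc - w') d = Q d := by
          have := h1
          linear_combination -this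
        rw [h3, div_self hQd, sub_self, zero_smul, sub_zero]

/-- Let V be a finite-dimensional vector space over a finite field F carrying an anisotropic quadratic form Q (Q(v) = 0 only for v = 0). Then the group of all maps v ↦ φ(v) + c, with φ an isometry of Q and c ∈ V, acts on V as a binary permutation group: given n ≥ 2 and two n-tuples u, u' of vectors such that every pair of corresponding entries of u is carried to that of u' by such a map, one such map carries u to u'. -/
theorem result {F V : Type*} [Field F] [Finite F] [AddCommGroup V] [Module F V] [Module.Finite F V]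
    (Q : QuadraticForm F V) (hQ : Q.Anisotropic) (n : ℕ) (hn : 2 ≤ n) (u u' : Fin n → V)
    (h2 : ∀ i j : Fin n, i ≠ j → ∃ (φ : Q.IsometryEquiv Q) (c : V), φ (u i) + c = u' i ∧ φ (u j) + c = u' j) :
    ∃ (φ : Q.IsometryEquiv Q) (c : V), ∀ i, φ (u i) + c = u' i := by
  apply aux Q hQ n u u'
  intro i j
  by_cases hij : i = j
  · subst hij; simp
  · obtain ⟨φ, c, h1, h2'⟩ := h2 i j hij
    rw [← h1, ← h2']
    have : φ (u i) + c - (φ (u j) + c) = φ (u i - u j) := by rw [map_sub]; abel
    rw [this, QuadraticMap.IsometryEquiv.map_app]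

end Cfsg.Agent.S5754
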