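import Cfsg.Statements.S5763
-- import your own Cfsg.Agent.* helpers here

set_option autoImplicit false
open Cfsg

namespace Cfsg.Agent.S5763

/-- the standard matching -/
def m0 : Fin 8 → Fin 8 := ![1, 0, 3, 2, 5, 4, 7, 6]

/-- `r` commutes with the matching `m` and induces the identity or a fixed-point-free involution
on its four edges. -/
def InRf (m r : Fin 8 → Fin 8) : Prop :=
  (∀ x, r (m x) = m (r x)) ∧ ((∀ x, r x = x ∨ r x = m x) ∨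
    (∀ x, r x ≠ x ∧ r x ≠ m x ∧ (r (r x) = x ∨ r (r x) = m x)))

instance decInRf (m r : Fin 8 → Fin 8) : Decidable (InRf m r) := by unfold InRf; infer_instance

/-- transposition as a function -/
def swapf (a b : Fin 8) : Fin 8 → Fin 8 := fun x => if x = a then b else if x = b then a else x

/-- candidates for a common element -/
def cands (n : Fin 8 → Fin 8) : List (Fin 8 → Fin 8) :=
  (fun x => m0 (n x)) :: (fun x => m0 (n (m0 (n x)))) :: (List.finRange 8).map (fun a => swapf a (m0 a))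

/-- there is a common non-trivial involution -/
def Goodf (n : Fin 8 → Fin 8) : Prop :=
  ∃ r ∈ cands n, (∀ x, r (r x) = x) ∧ (∃ x, r x ≠ x) ∧ InRf m0 r ∧ InRf n r

instance decGoodf (n : Fin 8 → Fin 8) : Decidable (Goodf n) := by unfold Goodf; infer_instance

/-- level 7 of the pruned search -/
def L7 (a0 a1 a2 a3 a4 a5 a6 : Fin 8) : Prop := ∀ a7 : Fin 8, (a7 ≠ 7 ∧ a7 ≠ a0 ∧ a7 ≠ a1 ∧ a7 ≠ a2 ∧ a7 ≠ a3 ∧ a7 ≠ a4 ∧ a7 ≠ a5 ∧ a7 ≠ a6 ∧ (a0 = 7 ↔ a7 = 0) ∧ (a1 = 7 ↔ a7 = 1) ∧ (a2 = 7 ↔ a7 = 2) ∧ (a3 = 7 ↔ a7 = 3) ∧ (a4 = 7 ↔ a7 = 4) ∧ (a5 = 7 ↔ a7 = 5) ∧ (a6 = 7 ↔ a7 = 6)) → Goodf ![a0, a1, a2, a3, a4, a5, a6, a7]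

instance decL7 (a0 a1 a2 a3 a4 a5 a6 : Fin 8) : Decidable (L7 a0 a1 a2 a3 a4 a5 a6) := by unfold L7; infer_instance

/-- level 6 of the pruned search -/
def L6 (a0 a1 a2 a3 a4 a5 : Fin 8) : Prop := ∀ a6 : Fin 8, (a6 ≠ 6 ∧ a6 ≠ a0 ∧ a6 ≠ a1 ∧ a6 ≠ a2 ∧ a6 ≠ a3 ∧ a6 ≠ a4 ∧ a6 ≠ a5 ∧ (a0 = 6 ↔ a6 = 0) ∧ (a1 = 6 ↔ a6 = 1) ∧ (a2 = 6 ↔ a6 = 2) ∧ (a3 = 6 ↔ a6 = 3) ∧ (a4 = 6 ↔ a6 = 4) ∧ (a5 = 6 ↔ a6 = 5)) → L7 a0 a1 a2 a3 a4 a5 a6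

instance decL6 (a0 a1 a2 a3 a4 a5 : Fin 8) : Decidable (L6 a0 a1 a2 a3 a4 a5) := by unfold L6; infer_instance

/-- level 5 of the pruned search -/
def L5 (a0 a1 a2 a3 a4 : Fin 8) : Prop := ∀ a5 : Fin 8, (a5 ≠ 5 ∧ a5 ≠ a0 ∧ a5 ≠ a1 ∧ a5 ≠ a2 ∧ a5 ≠ a3 ∧ a5 ≠ a4 ∧ (a0 = 5 ↔ a5 = 0) ∧ (a1 = 5 ↔ a5 = 1) ∧ (a2 = 5 ↔ a5 = 2) ∧ (a3 = 5 ↔ a5 = 3) ∧ (a4 = 5 ↔ a5 = 4)) → L6 a0 a1 a2 a3 a4 a5

instance decL5 (a0 a1 a2 a3 a4 : Fin 8) : Decidable (L5 a0 a1 a2 a3 a4) := by unfold L5; infer_instance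

/-- level 4 of the pruned search -/
def L4 (a0 a1 a2 a3 : Fin 8) : Prop := ∀ a4 : Fin 8, (a4 ≠ 4 ∧ a4 ≠ a0 ∧ a4 ≠ a1 ∧ a4 ≠ a2 ∧ a4 ≠ a3 ∧ (a0 = 4 ↔ a4 = 0) ∧ (a1 = 4 ↔ a4 = 1) ∧ (a2 = 4 ↔ a4 = 2) ∧ (a3 = 4 ↔ a4 = 3)) → L5 a0 a1 a2 a3 a4

instance decL4 (a0 a1 a2 a3 : Fin 8) : Decidable (L4 a0 a1 a2 a3) := by unfold L4; infer_instance

/-- level 3 of the pruned search -/
def L3 (a0 a1 a2 : Fin 8) : Prop := ∀ a3 : Fin 8, (a3 ≠ 3 ∧ a3 ≠ a0 ∧ a3 ≠ a1 ∧ a3 ≠ a2 ∧ (a0 = 3 ↔ a3 = 0) ∧ (a1 = 3 ↔ a3 = 1) ∧ (a2 = 3 ↔ a3 = 2)) → L4 a0 a1 a2 a3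

instance decL3 (a0 a1 a2 : Fin 8) : Decidable (L3 a0 a1 a2) := by unfold L3; infer_instance

/-- level 2 of the pruned search -/
def L2 (a0 a1 : Fin 8) : Prop := ∀ a2 : Fin 8, (a2 ≠ 2 ∧ a2 ≠ a0 ∧ a2 ≠ a1 ∧ (a0 = 2 ↔ a2 = 0) ∧ (a1 = 2 ↔ a2 = 1)) → L3 a0 a1 a2

instance decL2 (a0 a1 : Fin 8) : Decidable (L2 a0 a1) := by unfold L2; infer_instance

/-- level 1 of the pruned search -/
def L1 (a0 : Fin 8) : Prop := ∀ a1 : Fin 8, (a1 ≠ 1 ∧ a1 ≠ a0 ∧ (a0 = 1 ↔ a1 = 0)) → L2 a0 a1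

instance decL1 (a0 : Fin 8) : Decidable (L1 a0) := by unfold L1; infer_instance

/-- level 0 of the pruned search -/
def L0  : Prop := ∀ a0 : Fin 8, (a0 ≠ 0) → L1 a0

instance decL0  : Decidable (L0 ) := by unfold L0; infer_instance

set_option maxRecDepth 100000 in
theorem brute : L0 := by decide +kernel

/-- second search: members of the intrinsic set are xor-translations on edges -/
def B2 : Prop := ∀ b0 b2 b4 b6 : Fin 8,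
  InRf m0 ![b0, m0 b0, b2, m0 b2, b4, m0 b4, b6, m0 b6] →
    ∀ x : Fin 8, ((![b0, m0 b0, b2, m0 b2, b4, m0 b4, b6, m0 b6] : Fin 8 → Fin 8) x).val / 2
      = (x.val / 2) ^^^ (b0.val / 2)

instance decB2 : Decidable B2 := by unfold B2; infer_instance

set_option maxRecDepth 100000 in
theorem brute2 : B2 := by decide +kernel

/-- The 2-group of permutations acting on the four edges `{2k, 2k+1}` by an xor-translation. -/
def R0 : Subgroup (Equiv.Perm (Fin 8)) where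
  carrier := {g | ∃ v : ℕ, ∀ x : Fin 8, (g x).val / 2 = (x.val / 2) ^^^ v}
  mul_mem' := by
    rintro g h ⟨v, hv⟩ ⟨w, hw⟩
    exact ⟨w ^^^ v, fun x => by rw [Equiv.Perm.mul_apply, hv, hw, Nat.xor_assoc]⟩
  one_mem' := ⟨0, fun x => by simp⟩
  inv_mem' := by
    rintro g ⟨v, hv⟩
    refine ⟨v, fun x => ?_⟩
    have := hv (g⁻¹ x)
    rw [show g (g⁻¹ x) = x by simp] at this
    rw [this, Nat.xor_assoc, Nat.xor_self, Nat.xor_zero]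

theorem R0_pgroup : IsPGroup 2 R0 := by
  rintro ⟨g, v, hv⟩
  refine ⟨2, Subtype.ext ?_⟩
  change g ^ (2 ^ 2) = 1
  have h2 : ∀ x : Fin 8, ((g * g) x).val / 2 = x.val / 2 := by
    intro x; rw [Equiv.Perm.mul_apply, hv, hv, Nat.xor_assoc, Nat.xor_self, Nat.xor_zero]
  have h4 : ∀ x, (g * g) ((g * g) x) = x := by
    intro x
    have ha := h2 x
    have hb := h2 ((g * g) x)
    by_cases hx : (g * g) x = x
    · rw [hx, hx]
    · have hne : (g * g) ((g * g) x) ≠ (g * g) x := fun h => hx ((g * g).injective h)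
      apply Fin.ext
      have h1 : ((g * g) x).val ≠ x.val := fun h => hx (Fin.ext h)
      have h3 : ((g * g) ((g * g) x)).val ≠ ((g * g) x).val := fun h => hne (Fin.ext h)
      omega
  have h5 : g ^ (2 ^ 2) = (g * g) * (g * g) := by
    norm_num [pow_succ, mul_assoc]
  rw [h5]
  ext x
  rw [Equiv.Perm.mul_apply, h4]
  rfl

theorem InRf_conj (μ g y : Equiv.Perm (Fin 8)) (h : InRf μ g) :
    InRf ⇑(y * μ * y⁻¹) ⇑(y * g * y⁻¹) := by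
  have e1 : ∀ (k : Equiv.Perm (Fin 8)) z, (y * k * y⁻¹) (y z) = y (k z) := by
    intro k z; simp
  obtain ⟨h1, h2⟩ := h
  refine ⟨fun x => ?_, ?_⟩
  · obtain ⟨z, rfl⟩ := y.surjective x
    rw [e1, e1, e1, e1, h1]
  · rcases h2 with h2 | h2
    · left; intro x
      obtain ⟨z, rfl⟩ := y.surjective x
      rw [e1, e1]
      rcases h2 z with h | h
      · left; rw [h]
      · right; rw [h]
    · right; intro x
      obtain ⟨z, rfl⟩ := y.surjective x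
      rw [e1, e1, e1]
      obtain ⟨ha, hb, hc⟩ := h2 z
      refine ⟨fun h => ha (y.injective h), fun h => hb (y.injective h), ?_⟩
      rcases hc with h | h
      · left; rw [h]
      · right; rw [h]

theorem mem_R0_of_InRf (g : Equiv.Perm (Fin 8)) (h : InRf m0 g) : g ∈ R0 := by
  have hg : (![g 0, m0 (g 0), g 2, m0 (g 2), g 4, m0 (g 4), g 6, m0 (g 6)] : Fin 8 → Fin 8) = ⇑g := by
    funext x
    fin_cases x
    · rfl
    · exact (h.1 0).symm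
    · rfl
    · exact (h.1 2).symm
    · rfl
    · exact (h.1 4).symm
    · rfl
    · exact (h.1 6).symm
  have := brute2 (g 0) (g 2) (g 4) (g 6)
  rw [hg] at this
  exact ⟨_, this h⟩

theorem exists_common (ν : Equiv.Perm (Fin 8)) (hinv : ∀ x, ν (ν x) = x) (hfpf : ∀ x, ν x ≠ x) :
    ∃ r : Equiv.Perm (Fin 8), r ≠ 1 ∧ InRf m0 r ∧ InRf ν r := by
  have hsymm : ∀ j k, ν j = k ↔ ν k = j :=
    fun j k => ⟨fun h => by rw [← h, hinv], fun h => by rw [← h, hinv]⟩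
  have hinj : ∀ j k, j ≠ k → ν j ≠ ν k := fun j k h e => h (ν.injective e)
  have hG : Goodf ![ν 0, ν 1, ν 2, ν 3, ν 4, ν 5, ν 6, ν 7] :=
    brute (ν 0) (hfpf 0) (ν 1) ⟨hfpf 1, hinj 1 0 (by decide), hsymm 0 1⟩ (ν 2) ⟨hfpf 2, hinj 2 0 (by decide), hinj 2 1 (by decide), hsymm 0 2, hsymm 1 2⟩ (ν 3) ⟨hfpf 3, hinj 3 0 (by decide), hinj 3 1 (by decide), hinj 3 2 (by decide), hsymm 0 3, hsymm 1 3, hsymm 2 3⟩ (ν 4) ⟨hfpf 4, hinj 4 0 (by decide), hinj 4 1 (by decide), hinj 4 2 (by decide), hinj 4 3 (by decide), hsymm 0 4, hsymm 1 4, hsymm 2 4, hsymm 3 4⟩ (ν 5) ⟨hfpf 5, hinj 5 0 (by decide), hinj 5 1 (by decide), hinj 5 2 (by decide), hinj 5 3 (by decide), hinj 5 4 (by decide), hsymm 0 5, hsymm 1 5, hsymm 2 5, hsymm 3 5, hsymm 4 5⟩ (ν 6) ⟨hfpf 6, hinj 6 0 (by decide), hinj 6 1 (by decide), hinj 6 2 (by decide), hinj 6 3 (by decide), hinj 6 4 (by decide),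 hinj 6 5 (by decide), hsymm 0 6, hsymm 1 6, hsymm 2 6, hsymm 3 6, hsymm 4 6, hsymm 5 6⟩ (ν 7) ⟨hfpf 7, hinj 7 0 (by decide), hinj 7 1 (by decide), hinj 7 2 (by decide), hinj 7 3 (by decide), hinj 7 4 (by decide), hinj 7 5 (by decide), hinj 7 6 (by decide), hsymm 0 7, hsymm 1 7, hsymm 2 7, hsymm 3 7, hsymm 4 7, hsymm 5 7, hsymm 6 7⟩
  have hν : (![ν 0, ν 1, ν 2, ν 3, ν 4, ν 5, ν 6, ν 7] : Fin 8 → Fin 8) = ⇑ν := by
    funext x; fin_cases x <;> rfl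
  rw [hν] at hG
  obtain ⟨r, _, hr1, ⟨x, hx⟩, hr3, hr4⟩ := hG
  refine ⟨Function.Involutive.toPerm r hr1, ?_, hr3, hr4⟩
  intro h
  apply hx
  have := congrArg (fun k : Equiv.Perm (Fin 8) => k x) h
  exact this

theorem m0_invol : ∀ x, m0 (m0 x) = x := by decide

/-- the standard matching as a permutation -/
def mu0 : Equiv.Perm (Fin 8) := Function.Involutive.toPerm m0 m0_invol

/-- In the symmetric group on 8 letters any two Sylow 2-subgroups have non-trivial intersection: for a Sylow 2-subgroup H and every element x, H ∩ xHx⁻¹ ≠ 1. -/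
theorem result (H : Sylow 2 (Equiv.Perm (Fin 8))) (x : Equiv.Perm (Fin 8)) :
    (H : Subgroup (Equiv.Perm (Fin 8))) ⊓ (H : Subgroup (Equiv.Perm (Fin 8))).map (MulAut.conj x).toMonoidHom ≠ ⊥ := by
  obtain ⟨Q, hQ⟩ := R0_pgroup.exists_le_sylow
  obtain ⟨g, hg⟩ := MulAction.exists_smul_eq (Equiv.Perm (Fin 8)) Q H
  have hH : ∀ z, z ∈ Q → g * z * g⁻¹ ∈ (H : Subgroup (Equiv.Perm (Fin 8))) := by
    intro z hz
    rw [← hg, Sylow.coe_subgroup_smul]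
    exact Subgroup.smul_mem_pointwise_smul z (MulAut.conj g) _ hz
  set y := g⁻¹ * x * g with hy
  have hν1 : ∀ z, (y * mu0 * y⁻¹) ((y * mu0 * y⁻¹) z) = z := by
    intro z
    have h1 : (y * mu0 * y⁻¹) * (y * mu0 * y⁻¹) = 1 := by
      have h2 : mu0 * mu0 = 1 := by decide
      calc (y * mu0 * y⁻¹) * (y * mu0 * y⁻¹) = y * (mu0 * mu0) * y⁻¹ := by group
        _ = 1 := by rw [h2]; group
    have := congrArg (fun k : Equiv.Perm (Fin 8) => k z) h1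
    exact this
  have hν2 : ∀ z, (y * mu0 * y⁻¹) z ≠ z := by
    intro z
    obtain ⟨w, rfl⟩ := y.surjective z
    have e1 : (y * mu0 * y⁻¹) (y w) = y (mu0 w) := by simp
    rw [e1]
    intro h
    have h3 : ∀ w : Fin 8, mu0 w ≠ w := by decide
    exact h3 w (y.injective h)
  obtain ⟨r, hr1, hr2, hr3⟩ := exists_common (y * mu0 * y⁻¹) hν1 hν2
  have hrQ : r ∈ Q := hQ (mem_R0_of_InRf r hr2)
  have hr4 := InRf_conj _ _ y⁻¹ hr3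
  have h5 : y⁻¹ * (y * mu0 * y⁻¹) * y⁻¹⁻¹ = mu0 := by group
  rw [h5] at hr4
  have hrQ' : y⁻¹ * r * y⁻¹⁻¹ ∈ Q := hQ (mem_R0_of_InRf _ hr4)
  intro hbot
  have hmem : g * r * g⁻¹ ∈ (H : Subgroup (Equiv.Perm (Fin 8))) ⊓
      (H : Subgroup (Equiv.Perm (Fin 8))).map (MulAut.conj x).toMonoidHom := by
    refine ⟨hH r hrQ, ⟨g * (y⁻¹ * r * y⁻¹⁻¹) * g⁻¹, hH _ hrQ', ?_⟩⟩
    change x * (g * (y⁻¹ * r * y⁻¹⁻¹) * g⁻¹) * x⁻¹ = g * r * g⁻¹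
    rw [hy]; group
  rw [hbot, Subgroup.mem_bot] at hmem
  apply hr1
  have : r = g⁻¹ * (g * r * g⁻¹) * g := by group
  rw [this, hmem]; group

end Cfsg.Agent.S5763
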