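import Mathlib
import Cfsg.Statements.S5887
import Cfsg.Agent.Lib.Helper19.Jordan
-- import your own Cfsg.Agent.* helpers here

set_option autoImplicit false
open Cfsg

namespace Cfsg.Agent.S5887

section aux

theorem absField {F : Type*} [Field F] [Fintype F] (L : Type*) [Field L] [Algebra F L] (r s : ℕ)
    (hfin : Module.finrank F L = r) (hs1 : 1 < s) (hsr : s < r) (hdvd : s ∣ r) :
    (∃ x : L, x ^ (Fintype.card F ^ s) ≠ x) ∧
    (∃ x : L, x ^ (Fintype.card F ^ s) = x ∧ x ^ (Fintype.card F) ≠ x) := by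
  classical
  have hfd : Module.Finite F L := Module.finite_of_finrank_pos (by omega)
  have hfinL : Finite L := Module.finite_of_finite F
  have := Fintype.ofFinite L
  obtain ⟨q, hq⟩ : ∃ q, q = Fintype.card F := ⟨_, rfl⟩
  have hq2 : 2 ≤ q := by rw [hq]; exact Fintype.one_lt_card
  have hcard : Fintype.card L = q ^ r := by rw [hq, ← hfin]; exact Module.card_eq_pow_finrank
  obtain ⟨ζ, hζ⟩ := IsCyclic.exists_generator (α := Lˣ)
  have hord : orderOf ζ = q ^ r - 1 := by
    rw [orderOf_eq_card_of_forall_mem_zpowers hζ, Nat.card_eq_fintype_card, Fintype.card_units, hcard]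
  rw [← hq]
  have hlt1 : q ^ s < q ^ r := Nat.pow_lt_pow_right (by omega) hsr
  have hlt2 : q ^ 1 < q ^ s := Nat.pow_lt_pow_right (by omega) hs1
  rw [pow_one] at hlt2
  -- generic: `x^(Q) = x ↔ x^(Q-1) = 1` for units
  have hunit : ∀ (u : Lˣ) (Q : ℕ), 1 ≤ Q → ((u : L) ^ Q = u ↔ u ^ (Q - 1) = 1) := by
    intro u Q hQ
    obtain ⟨k, rfl⟩ : ∃ k, Q = k + 1 := ⟨Q - 1, by omega⟩
    rw [Nat.add_sub_cancel, pow_succ, ← Units.val_inj, Units.val_pow_eq_pow_val, Units.val_one]
    constructor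
    · intro h
      exact mul_right_cancel₀ u.ne_zero (by rw [h, one_mul])
    · intro h
      rw [h, one_mul]
  constructor
  · refine ⟨ζ, fun h => ?_⟩
    rw [hunit ζ _ (by omega)] at h
    have h1 := orderOf_dvd_of_pow_eq_one h
    rw [hord] at h1
    have h2 := Nat.le_of_dvd (by omega) h1
    omega
  · have hd : q ^ s - 1 ∣ q ^ r - 1 := by
      obtain ⟨c, rfl⟩ := hdvd
      rw [pow_mul]
      exact Nat.sub_one_dvd_pow_sub_one (q ^ s) c
    obtain ⟨m, hm⟩ := hd
    refine ⟨((ζ ^ m : Lˣ) : L), ?_, ?_⟩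
    · rw [hunit _ _ (by omega), ← pow_mul, mul_comm, ← hm, ← hord, pow_orderOf_eq_one]
    · intro h
      rw [hunit _ _ (by omega), ← pow_mul] at h
      have h1 := orderOf_dvd_of_pow_eq_one h
      rw [hord, hm] at h1
      have hm0 : 0 < m := by
        rcases Nat.eq_zero_or_pos m with h0 | h0
        · rw [h0, mul_zero] at hm
          omega
        · exact h0
      have h2 := Nat.le_of_dvd (Nat.mul_pos hm0 (by omega)) h1
      rw [mul_comm] at h2
      have h3 := Nat.le_of_mul_le_mul_left h2 hm0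
      omega
theorem absE {F : Type*} [Field F] (L : Type*) [Field L] [Algebra F L] (V : Type*) [AddCommGroup V]
    [Module F V] [Module L V] [IsScalarTower F L V] [Module.Finite F V]
    (hlt : Module.finrank F L < Module.finrank F V) (φ : L →ₐ[F] L) :
    ∃ (E : V →ₗ[F] V) (v₁ v₂ : V), v₂ ≠ 0 ∧ (∀ v, E (E v) = 0) ∧ (∀ (c : L) (v : V), E (c • v) = φ c • E v) ∧
      (∀ c : L, E (c • v₂) = 0) ∧ E v₁ = v₂ := by
  classical
  have hfL : Module.Finite L V := Module.Finite.of_restrictScalars_finite F L V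
  have hmul := Module.finrank_mul_finrank F L V
  have hd : 2 ≤ Module.finrank L V := by
    by_contra hcon
    have h1 : Module.finrank L V = 0 ∨ Module.finrank L V = 1 := by omega
    rcases h1 with h1 | h1
    · rw [h1, mul_zero] at hmul
      omega
    · rw [h1, mul_one] at hmul
      omega
  let b := Module.finBasis L V
  let j₁ : Fin (Module.finrank L V) := ⟨0, by omega⟩
  let j₂ : Fin (Module.finrank L V) := ⟨1, by omega⟩
  have hj : j₁ ≠ j₂ := by
    intro h
    have := congrArg Fin.val h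
    simp [j₁, j₂] at this
  let E : V →ₗ[F] V := ((LinearMap.toSpanSingleton L V (b j₂)).restrictScalars F) ∘ₗ φ.toLinearMap ∘ₗ
    ((b.coord j₁).restrictScalars F)
  have hE : ∀ v, E v = φ (b.coord j₁ v) • b j₂ := fun v => rfl
  have hz : ∀ c : L, E (c • b j₂) = 0 := by
    intro c
    rw [hE, map_smul, Module.Basis.coord_apply, Module.Basis.repr_self, Finsupp.single_eq_of_ne hj,
      smul_zero, map_zero, zero_smul]
  refine ⟨E, b j₁, b j₂, b.ne_zero j₂, ?_, ?_, hz, ?_⟩
  · intro v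
    rw [hE v, hz]
  · intro c v
    rw [hE, hE, map_smul, smul_eq_mul, map_mul, mul_smul]
  · rw [hE, Module.Basis.coord_apply, Module.Basis.repr_self, Finsupp.single_eq_same, map_one, one_smul]

open Matrix
variable {F : Type*} [Field F] {n : ℕ}

/-- the unipotent element attached to a square-zero matrix -/
def uE (E : Matrix (Fin n) (Fin n) F) (hE : E * E = 0) : GL (Fin n) F :=
  ⟨1 + E, 1 - E,
    by
      have : (1 + E) * (1 - E) = 1 - E * E := by noncomm_ring
      rw [this, hE, sub_zero],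
    by
      have : (1 - E) * (1 + E) = 1 - E * E := by noncomm_ring
      rw [this, hE, sub_zero]⟩

theorem uE_mem_SL [Fintype F] (E : Matrix (Fin n) (Fin n) F) (hE : E * E = 0) :
    uE E hE ∈ Cfsg.Geo.specialLinear (Fin n) F := by
  obtain ⟨p, hp⟩ := CharP.exists F
  haveI : Fact p.Prime := ⟨CharP.char_is_prime F p⟩
  have hp2 : 2 ≤ p := (Fact.out : p.Prime).two_le
  have h1 : (1 + E) ^ p ^ 1 = 1 := by
    rw [Cfsg.Agent.Lib.Helper19.Jordan.pow_char_iff p, add_sub_cancel_left]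
    apply pow_eq_zero_of_le (m := 2) (by rw [pow_one]; exact hp2)
    rw [pow_two, hE]
  rw [pow_one] at h1
  have h2 := congrArg Matrix.det h1
  rw [Matrix.det_pow, Matrix.det_one] at h2
  have h3 : (1 + E).det = 1 := by
    apply frobenius_inj F p
    rw [frobenius_def, frobenius_def, h2, one_pow]
  show Matrix.GeneralLinearGroup.det (uE E hE) = 1
  apply Units.ext
  exact h3

theorem comm_of_norm (K' : Subalgebra F (Matrix (Fin n) (Fin n) F))
    (hinj : ∀ x ∈ K', ∀ v : Fin n → F, v ≠ 0 → x *ᵥ v = 0 → x = 0)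
    (E : Matrix (Fin n) (Fin n) F) (hE : E * E = 0)
    (hmem : uE E hE ∈ Cfsg.Geo.subalgebraNormalizer K') (x : Matrix (Fin n) (Fin n) F) (hx : x ∈ K')
    (v : Fin n → F) (hv : v ≠ 0) (h1 : E *ᵥ v = 0) (h2 : E *ᵥ (x *ᵥ v) = 0) : E * x = x * E := by
  have h3 : (1 + E) * x * (1 - E) ∈ K' := (hmem x).1 hx
  have h4 : (1 + E) * x * (1 - E) - x = 0 := by
    apply hinj _ (K'.sub_mem h3 hx) v hv
    rw [Matrix.sub_mulVec, ← Matrix.mulVec_mulVec, ← Matrix.mulVec_mulVec, Matrix.sub_mulVec,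
      Matrix.one_mulVec, h1, sub_zero, Matrix.add_mulVec, Matrix.one_mulVec, h2, add_zero, sub_self]
  have h5 : (1 + E) * x * (1 - E) * (1 + E) = x * (1 + E) := by rw [sub_eq_zero.1 h4]
  have h6 : (1 - E) * (1 + E) = 1 := by
    have : (1 - E) * (1 + E) = 1 - E * E := by noncomm_ring
    rw [this, hE, sub_zero]
  rw [mul_assoc, h6, mul_one, add_mul, mul_add, one_mul, mul_one] at h5
  exact add_left_cancel h5

theorem norm_of_comm (K' : Subalgebra F (Matrix (Fin n) (Fin n) F))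
    (E : Matrix (Fin n) (Fin n) F) (hE : E * E = 0) (hc : ∀ x ∈ K', E * x = x * E) :
    uE E hE ∈ Cfsg.Geo.subalgebraNormalizer K' := by
  have h6 : (1 + E) * (1 - E) = 1 := by
    have : (1 + E) * (1 - E) = 1 - E * E := by noncomm_ring
    rw [this, hE, sub_zero]
  have h7 : (1 - E) * (1 + E) = 1 := by
    have : (1 - E) * (1 + E) = 1 - E * E := by noncomm_ring
    rw [this, hE, sub_zero]
  have key : ∀ x ∈ K', (1 + E) * x * (1 - E) = x := by
    intro x hx
    rw [add_mul, one_mul, hc x hx, ← mul_one_add, mul_assoc, h6, mul_one]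
  intro k
  show k ∈ K' ↔ (1 + E) * k * (1 - E) ∈ K'
  constructor
  · intro hk
    rw [key k hk]
    exact hk
  · intro hk
    have h8 := key _ hk
    have h9 : (1 + E) * k * (1 - E) = k := by
      have e1 : (1 - E) * ((1 + E) * ((1 + E) * k * (1 - E)) * (1 - E)) * (1 + E) =
          (1 - E) * ((1 + E) * k * (1 - E)) * (1 + E) := by rw [h8]
      have e2 : (1 - E) * ((1 + E) * ((1 + E) * k * (1 - E)) * (1 - E)) * (1 + E) =
          ((1 - E) * (1 + E)) * ((1 + E) * k * (1 - E)) * ((1 - E) * (1 + E)) := by noncomm_ring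
      have e3 : (1 - E) * ((1 + E) * k * (1 - E)) * (1 + E) =
          ((1 - E) * (1 + E)) * k * ((1 - E) * (1 + E)) := by noncomm_ring
      rw [e2, e3, h7, one_mul, mul_one, one_mul, mul_one] at e1
      exact e1
    rw [← h9]
    exact hk

theorem abstract [Fintype F] (L : Type*) [Field L] [Algebra F L] (r : ℕ) (hr1 : 1 < r)
    (hrp : ¬ r.Prime) (hlt : r < n) (ρ : L →ₐ[F] Matrix (Fin n) (Fin n) F)
    (hfin : Module.finrank F L = r) :
    ¬ IsCoatom (Cfsg.Geo.subalgebraNormalizer ρ.range) ∧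
      ¬ Cfsg.Geo.IsMaximalIn (Cfsg.Geo.specialLinear (Fin n) F)
        (Cfsg.Geo.subalgebraNormalizer ρ.range ⊓ Cfsg.Geo.specialLinear (Fin n) F) := by
  classical
  have hn0 : 0 < n := by omega
  haveI : Nonempty (Fin n) := ⟨⟨0, hn0⟩⟩
  have hρinj : Function.Injective ρ := ρ.toRingHom.injective
  obtain ⟨s, hs1, hsr, hdvd⟩ : ∃ s, 1 < s ∧ s < r ∧ s ∣ r :=
    ⟨r.minFac, (Nat.minFac_prime (by omega)).one_lt, (Nat.not_prime_iff_minFac_lt (by omega)).1 hrp,
      Nat.minFac_dvd r⟩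
  obtain ⟨⟨y₁, hy₁⟩, ⟨y₂, hy₂, hy₂'⟩⟩ := absField (F := F) L r s hfin hs1 hsr hdvd
  obtain ⟨Q, hQ⟩ : ∃ Q, Q = Fintype.card F ^ s := ⟨_, rfl⟩
  rw [← hQ] at hy₁ hy₂
  let φ : L →ₐ[F] L := (FiniteField.frobeniusAlgHom F L) ^ s
  have hφ : ∀ x, φ x = x ^ Q := by
    intro x
    show ((FiniteField.frobeniusAlgHom F L) ^ s) x = _
    rw [AlgHom.coe_pow, FiniteField.coe_frobeniusAlgHom, pow_iterate, hQ]
  -- field property
  have hinj' : ∀ (y : L) (v : Fin n → F), v ≠ 0 → ρ y *ᵥ v = 0 → y = 0 := by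
    intro y v hv h
    by_contra hy
    apply hv
    have h1 : ρ y⁻¹ * ρ y = 1 := by rw [← map_mul, inv_mul_cancel₀ hy, map_one]
    calc v = (ρ y⁻¹ * ρ y) *ᵥ v := by rw [h1, Matrix.one_mulVec]
      _ = 0 := by rw [← Matrix.mulVec_mulVec, h, Matrix.mulVec_zero]
  have hinj : ∀ x ∈ ρ.range, ∀ v : Fin n → F, v ≠ 0 → x *ᵥ v = 0 → x = 0 := by
    intro x hx v hv h
    obtain ⟨y, rfl⟩ := (AlgHom.mem_range ρ).1 hx
    rw [hinj' y v hv h, map_zero]
  -- the intermediate field
  let K₀ : Subalgebra F (Matrix (Fin n) (Fin n) F) := (AlgHom.equalizer φ (AlgHom.id F L)).map ρ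
  have hK₀ : ∀ x, x ∈ K₀ ↔ x ∈ ρ.range ∧ x ^ Q = x := by
    intro x
    constructor
    · intro hx
      obtain ⟨y, hy, rfl⟩ := Subalgebra.mem_map.1 hx
      have hy' : φ y = y := hy
      refine ⟨(AlgHom.mem_range ρ).2 ⟨y, rfl⟩, ?_⟩
      rw [← map_pow, ← hφ, hy']
    · rintro ⟨hx, h⟩
      obtain ⟨y, rfl⟩ := (AlgHom.mem_range ρ).1 hx
      refine Subalgebra.mem_map.2 ⟨y, ?_, rfl⟩
      show φ y = y
      apply hρinj
      rw [hφ, map_pow]
      exact h
  have hK₀le : ∀ x ∈ K₀, x ∈ ρ.range := fun x hx => ((hK₀ x).1 hx).1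
  have hle : Cfsg.Geo.subalgebraNormalizer ρ.range ≤ Cfsg.Geo.subalgebraNormalizer K₀ := by
    intro g hg k
    rw [hK₀, hK₀, ← hg k, Units.conj_pow]
    constructor
    · rintro ⟨h1, h2⟩
      exact ⟨h1, by rw [h2]⟩
    · rintro ⟨h1, h2⟩
      refine ⟨h1, ?_⟩
      have h3 : ((g⁻¹ : GL (Fin n) F) : Matrix (Fin n) (Fin n) F) *
          ((g : Matrix (Fin n) (Fin n) F) * k ^ Q * ((g⁻¹ : GL (Fin n) F) : Matrix (Fin n) (Fin n) F)) *
          (g : Matrix (Fin n) (Fin n) F) =
          ((g⁻¹ : GL (Fin n) F) : Matrix (Fin n) (Fin n) F) *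
          ((g : Matrix (Fin n) (Fin n) F) * k * ((g⁻¹ : GL (Fin n) F) : Matrix (Fin n) (Fin n) F)) *
          (g : Matrix (Fin n) (Fin n) F) := by rw [h2]
      simpa [mul_assoc] using h3
  -- witness (b): a transvection outside `N(K₀)`
  let i₀ : Fin n := ⟨0, by omega⟩
  let j₀ : Fin n := ⟨1, by omega⟩
  have hij : i₀ ≠ j₀ := by
    intro h
    have := congrArg Fin.val h
    simp [i₀, j₀] at this
  have hE₁ : Matrix.single i₀ j₀ (1 : F) * Matrix.single i₀ j₀ (1 : F) = 0 :=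
    Matrix.single_mul_single_of_ne _ _ _ _ hij.symm _
  have hb : uE _ hE₁ ∉ Cfsg.Geo.subalgebraNormalizer K₀ := by
    intro hmem
    have hx : ρ y₂ ∈ K₀ := (hK₀ _).2 ⟨(AlgHom.mem_range ρ).2 ⟨y₂, rfl⟩, by rw [← map_pow, hy₂]⟩
    -- a vector killed by two functionals
    let f : (Fin n → F) →ₗ[F] F × F :=
      LinearMap.prod (LinearMap.proj j₀) ((LinearMap.proj j₀).comp (Matrix.toLin' (ρ y₂)))
    have hker : LinearMap.ker f ≠ ⊥ := by
      apply LinearMap.ker_ne_bot_of_finrank_lt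
      rw [Module.finrank_prod, Module.finrank_self, Module.finrank_fin_fun]
      omega
    obtain ⟨v, hvk, hv⟩ := Submodule.exists_mem_ne_zero_of_ne_bot hker
    have hfv : f v = 0 := hvk
    have hv1 : v j₀ = 0 := congrArg Prod.fst hfv
    have hv2 : (ρ y₂ *ᵥ v) j₀ = 0 := congrArg Prod.snd hfv
    have hcomm := comm_of_norm K₀ (fun x hx => hinj x (hK₀le x hx)) _ hE₁ hmem _ hx v hv
      (by rw [Matrix.single_mulVec_eq, hv1, mul_zero, zero_smul])
      (by rw [Matrix.single_mulVec_eq, hv2, mul_zero, zero_smul])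
    have h1 := congrArg (fun M => M *ᵥ (Pi.single j₀ (1 : F))) hcomm
    simp only [← Matrix.mulVec_mulVec] at h1
    rw [Matrix.single_mulVec_eq, Matrix.single_mulVec_eq, Pi.single_eq_same, mul_one, one_smul,
      one_mul] at h1
    obtain ⟨c, hc⟩ : ∃ c : F, c = (ρ y₂ *ᵥ Pi.single j₀ 1) j₀ := ⟨_, rfl⟩
    rw [← hc] at h1
    have h3 : y₂ = algebraMap F L c := by
      apply sub_eq_zero.1
      apply hinj' _ (Pi.single i₀ (1 : F))
      · intro h0
        have := congrFun h0 i₀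
        simp at this
      · rw [map_sub, AlgHom.commutes, Matrix.sub_mulVec, ← h1, Algebra.algebraMap_eq_smul_one,
          Matrix.smul_mulVec, Matrix.one_mulVec, sub_self]
    apply hy₂'
    rw [h3, ← map_pow, FiniteField.pow_card]
  -- witness (a)
  letI : Module L (Fin n → F) := Module.compHom (Fin n → F)
    (((Matrix.toLinAlgEquiv' : Matrix (Fin n) (Fin n) F ≃ₐ[F] _).toAlgHom.comp ρ).toRingHom)
  have hsmul : ∀ (c : L) (v : Fin n → F), c • v = ρ c *ᵥ v := fun _ _ => rfl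
  haveI : IsScalarTower F L (Fin n → F) := ⟨by
    intro a c v
    rw [hsmul, hsmul, map_smul, Matrix.smul_mulVec]⟩
  obtain ⟨E, v₁, v₂, hv₂, hEE, hEφ, hEz, hEv⟩ := absE (F := F) L (Fin n → F)
    (by rw [hfin, Module.finrank_fin_fun]; exact hlt) φ
  have hEm : ∀ v, LinearMap.toMatrix' E *ᵥ v = E v := fun v => LinearMap.toMatrix'_mulVec E v
  have hE₂ : LinearMap.toMatrix' E * LinearMap.toMatrix' E = 0 := by
    rw [← LinearMap.toMatrix'_comp]
    have : E ∘ₗ E = 0 := LinearMap.ext hEE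
    rw [this, map_zero]
  have hmatext : ∀ M M' : Matrix (Fin n) (Fin n) F, (∀ v, M *ᵥ v = M' *ᵥ v) → M = M' := by
    intro M M' h
    apply Matrix.toLin'.injective
    apply LinearMap.ext
    intro v
    rw [Matrix.toLin'_apply, Matrix.toLin'_apply, h]
  have ha1 : uE _ hE₂ ∈ Cfsg.Geo.subalgebraNormalizer K₀ := by
    apply norm_of_comm
    intro x hx
    obtain ⟨y, hy, rfl⟩ := Subalgebra.mem_map.1 hx
    have hy' : φ y = y := hy
    apply hmatext
    intro v
    rw [← Matrix.mulVec_mulVec, ← Matrix.mulVec_mulVec, hEm, hEm, ← hsmul, ← hsmul, hEφ, hy']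
  have ha2 : uE _ hE₂ ∉ Cfsg.Geo.subalgebraNormalizer ρ.range := by
    intro hmem
    have hcomm := comm_of_norm ρ.range hinj _ hE₂ hmem (ρ y₁) ((AlgHom.mem_range ρ).2 ⟨y₁, rfl⟩) v₂ hv₂
      (by
        have := hEz 1
        rw [one_smul] at this
        rw [hEm, this])
      (by rw [hEm, ← hsmul, hEz])
    have h1 := congrArg (fun M => M *ᵥ v₁) hcomm
    simp only [← Matrix.mulVec_mulVec] at h1
    rw [hEm, hEm, ← hsmul, ← hsmul, hEφ, hEv] at h1
    have h3 : φ y₁ - y₁ = 0 := by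
      apply hinj' _ v₂ hv₂
      rw [map_sub, Matrix.sub_mulVec, ← hsmul, ← hsmul, h1, sub_self]
    apply hy₁
    rw [← hφ]
    exact sub_eq_zero.1 h3
  constructor
  · intro hco
    have h1 := hco.2 (Cfsg.Geo.subalgebraNormalizer K₀) (lt_of_le_of_ne hle (by
      intro h
      apply ha2
      rw [h]
      exact ha1))
    apply hb
    rw [h1]
    exact Subgroup.mem_top _
  · rintro ⟨-, hmax⟩
    rcases hmax (Cfsg.Geo.subalgebraNormalizer K₀ ⊓ Cfsg.Geo.specialLinear (Fin n) F)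
      (inf_le_inf_right _ hle) inf_le_right with h1 | h1
    · apply ha2
      have h2 : uE _ hE₂ ∈ Cfsg.Geo.subalgebraNormalizer K₀ ⊓ Cfsg.Geo.specialLinear (Fin n) F :=
        ⟨ha1, uE_mem_SL _ hE₂⟩
      rw [h1] at h2
      exact h2.1
    · apply hb
      have h2 : uE _ hE₁ ∈ Cfsg.Geo.specialLinear (Fin n) F := uE_mem_SL _ hE₁
      rw [← h1] at h2
      exact h2.1


end aux

/-- Let F be a finite field, n a positive integer and r a composite number (r > 1, not prime) that divides n with r < n. Let K be a subalgebra of the algebra of n × n matrices over F which is a field of degree r over F (commutative, every non-zero element invertible, of dimension r over F). Then the normaliser N of K in GL_n(F) (a group of type ΓL_{n/r}(F_{q^r})) is not a maximal subgroup of GL_n(F), and N ∩ SL_n(F) is not a maximal subgroup of SL_n(F): both lie properly inside the normaliser of an intermediate subfield of prime degree over F. -/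
theorem result {F : Type*} [Field F]
    [Fintype F] (n r : ℕ) (hr1 : 1 < r) (hrp : ¬ r.Prime) (hrn : r ∣ n) (hlt : r < n)
    (K : Subalgebra F (Matrix (Fin n) (Fin n) F)) (hK : Cfsg.Geo.IsFieldSubalgebra r K) :
    ¬ IsCoatom (Cfsg.Geo.subalgebraNormalizer K) ∧
      ¬ Cfsg.Geo.IsMaximalIn (Cfsg.Geo.specialLinear (Fin n) F)
        (Cfsg.Geo.subalgebraNormalizer K ⊓ Cfsg.Geo.specialLinear (Fin n) F) := by
  classical
  have hn0 : 0 < n := by omega
  haveI : Nonempty (Fin n) := ⟨⟨0, hn0⟩⟩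
  have hfield : IsField K :=
    { exists_pair_ne := ⟨0, 1, zero_ne_one⟩
      mul_comm := fun x y => Subtype.ext (hK.comm x.1 x.2 y.1 y.2)
      mul_inv_cancel := by
        intro a ha
        obtain ⟨y, hy, hxy⟩ := hK.inv a.1 a.2 (fun h => ha (Subtype.ext h))
        exact ⟨⟨y, hy⟩, Subtype.ext hxy⟩ }
  letI : Field K := hfield.toField
  have h := abstract (F := F) (n := n) K r hr1 hrp hlt K.val hK.finrank_eq
  rwa [Subalgebra.range_val] at h

end Cfsg.Agent.S5887
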