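import Cfsg.Statements.S5895
import Cfsg.Agent.Lib.Helper29.Cov

set_option autoImplicit false
open Cfsg

namespace Cfsg.Agent.S5895

open Cfsg.Agent.Lib.Helper29

theorem sup_covBy_sup {G : Type*} [Group G] {V H L : Subgroup G} [V.Normal]
    (hVL : V ⊓ L = ⊥) (hHL : H ⋖ L) : V ⊔ H ⋖ V ⊔ L := by
  have key : ∀ X : Subgroup G, V ≤ X → X ≤ V ⊔ L → X = V ⊔ (X ⊓ L) := by
    intro X hVX hX
    apply le_antisymm
    · intro x hx
      obtain ⟨v, hv, l, hl, rfl⟩ := Subgroup.mem_sup_of_normal_left.1 (hX hx)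
      have : l ∈ X := by
        have := X.mul_mem (X.inv_mem (hVX hv)) hx
        simpa using this
      exact Subgroup.mul_mem_sup hv ⟨this, hl⟩
    · exact sup_le hVX inf_le_left
  have key2 : ∀ Y : Subgroup G, Y ≤ L → (V ⊔ Y) ⊓ L = Y := by
    intro Y hY
    apply le_antisymm
    · rintro x ⟨hx, hxL⟩
      obtain ⟨v, hv, y, hy, rfl⟩ := Subgroup.mem_sup_of_normal_left.1 hx
      have hvL : v ∈ L := by
        have := L.mul_mem hxL (L.inv_mem (hY hy))
        simpa using this
      have : v ∈ V ⊓ L := ⟨hv, hvL⟩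
      rw [hVL, Subgroup.mem_bot] at this
      rw [this, one_mul]; exact hy
    · exact le_inf le_sup_right hY
  constructor
  · refine lt_of_le_of_ne (sup_le_sup_left hHL.le V) ?_
    intro h
    have h1 := key2 H hHL.le
    rw [h, key2 L le_rfl] at h1
    exact hHL.lt.ne h1.symm
  · intro X h1 h2
    have hX := key X (le_sup_left.trans h1.le) h2.le
    have hle1 : H ≤ X ⊓ L := le_inf (le_sup_right.trans h1.le) hHL.le
    rcases hHL.eq_or_eq hle1 inf_le_right with h | h
    · rw [h] at hX; exact h1.ne hX.symm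
    · rw [h] at hX; exact h2.ne hX

theorem abstract_example {G0 : Type*} [Group G0] [Finite G0] (V L0 : Subgroup G0)
    (hVL : V ⊓ L0 = ⊥) (hmax : L0 ⋖ V ⊔ L0) (hV : ¬ (⊥ : Subgroup G0) ⋖ V) :
    ∃ L H : Subgroup G0, V ⊓ L = ⊥ ∧ L ⋖ V ⊔ L ∧ H ⋖ L ∧ ¬ H ⋖ V ⊔ H := by
  obtain ⟨L, hLL0, hL⟩ :=
    exists_minimal_le_of_wellFoundedLT (fun L : Subgroup G0 => L ⋖ V ⊔ L) L0 hmax
  have hLbot : L ≠ ⊥ := by
    rintro rfl
    apply hV
    simpa using hL.prop
  obtain ⟨H, hH⟩ : ∃ H, H ⋖ L := exists_covBy_of_wellFoundedGT (by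
    rw [not_isMin_iff]; exact ⟨⊥, bot_lt_iff_ne_bot.2 hLbot⟩)
  refine ⟨L, H, ?_, hL.prop, hH, ?_⟩
  · rw [eq_bot_iff, ← hVL]; exact inf_le_inf_left V hLL0
  · intro h
    exact hH.lt.not_ge (hL.le_of_le h hH.le)

theorem final {G0 : Type} [Group G0] [Finite G0] (V L H : Subgroup G0) [V.Normal] (n : ℕ)
    (hcard : Nat.card V = n) (hVL : V ⊓ L = ⊥) (h1 : L ⋖ V ⊔ L) (h2 : H ⋖ L) (h3 : ¬ H ⋖ V ⊔ H) :
    ∃ (G : Type) (_ : Group G) (_ : Finite G) (M H K : Subgroup G), IsCoatom M ∧ M.index = n ∧ H ≤ M ∧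
      IsCoatom (H.subgroupOf M) ∧ IsCoatom K ∧ H ≤ K ∧ ¬ IsCoatom (H.subgroupOf K) := by
  have hLT : L ≤ V ⊔ L := le_sup_right
  have hHT : H ≤ V ⊔ L := h2.le.trans hLT
  have hKT : V ⊔ H ≤ V ⊔ L := sup_le_sup_left h2.le V
  have hle1 : H.subgroupOf (V ⊔ L) ≤ L.subgroupOf (V ⊔ L) := Subgroup.comap_mono h2.le
  have hle2 : H.subgroupOf (V ⊔ L) ≤ (V ⊔ H).subgroupOf (V ⊔ L) := Subgroup.comap_mono le_sup_right
  refine ⟨↥(V ⊔ L), inferInstance, inferInstance, L.subgroupOf (V ⊔ L), H.subgroupOf (V ⊔ L),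
    (V ⊔ H).subgroupOf (V ⊔ L), ?_, ?_, hle1, ?_, ?_, hle2, ?_⟩
  · exact (isCoatom_subgroupOf_iff hLT).2 h1
  · have hc : Subgroup.IsComplement' (V.subgroupOf (V ⊔ L)) (L.subgroupOf (V ⊔ L)) := by
      apply Subgroup.isComplement'_of_disjoint_and_mul_eq_univ
      · rw [disjoint_iff]
        have : V.subgroupOf (V ⊔ L) ⊓ L.subgroupOf (V ⊔ L) = (V ⊓ L).subgroupOf (V ⊔ L) :=
          (Subgroup.comap_inf _ _ _).symm
        rw [this, hVL, Subgroup.bot_subgroupOf]
      · rw [Set.eq_univ_iff_forall]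
        rintro ⟨x, hx⟩
        obtain ⟨v, hv, l, hl, rfl⟩ := Subgroup.mem_sup_of_normal_left.1 hx
        exact ⟨⟨v, (le_sup_left : V ≤ V ⊔ L) hv⟩, hv, ⟨l, hLT hl⟩, hl, rfl⟩
    rw [hc.index_eq_card, ← hcard]
    exact Nat.card_congr (Subgroup.subgroupOfEquivOfLe le_sup_left).toEquiv
  · exact (isCoatom_subgroupOf_iff hle1).2 ((subgroupOf_covBy_subgroupOf_iff hHT hLT).2 h2)
  · exact (isCoatom_subgroupOf_iff hKT).2 (sup_covBy_sup hVL h2)
  · rw [isCoatom_subgroupOf_iff hle2, subgroupOf_covBy_subgroupOf_iff hHT hKT]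
    exact h3

section field
variable (𝔽 : Type) [Field 𝔽]

/-- The action of the units on the additive group. -/
def phi : 𝔽ˣ →* MulAut (Multiplicative 𝔽) where
  toFun u :=
    { toFun := fun n => Multiplicative.ofAdd ((u : 𝔽) * Multiplicative.toAdd n)
      invFun := fun n => Multiplicative.ofAdd (((u⁻¹ : 𝔽ˣ) : 𝔽) * Multiplicative.toAdd n)
      left_inv := fun n => by simp
      right_inv := fun n => by simp
      map_mul' := fun m n => by simp [mul_add] }
  map_one' := by ext n; simp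
  map_mul' := fun u v => by ext n; simp [mul_assoc]

/-- The one-dimensional affine group. -/
abbrev AG := Multiplicative 𝔽 ⋊[phi 𝔽] 𝔽ˣ

/-- translations -/
def VV : Subgroup (AG 𝔽) := (SemidirectProduct.rightHom : AG 𝔽 →* 𝔽ˣ).ker

/-- multiplications -/
def LL : Subgroup (AG 𝔽) := (SemidirectProduct.inr : 𝔽ˣ →* AG 𝔽).range

instance VV_normal : (VV 𝔽).Normal := by unfold VV; infer_instance

theorem VV_inf_LL : VV 𝔽 ⊓ LL 𝔽 = ⊥ := by
  rw [eq_bot_iff]
  rintro x ⟨hx, ⟨g, rfl⟩⟩
  have : SemidirectProduct.rightHom (SemidirectProduct.inr g : AG 𝔽) = 1 := hx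
  rw [SemidirectProduct.rightHom_inr] at this
  rw [this, map_one]
  exact Subgroup.one_mem _

theorem inl_mem_VV (n : Multiplicative 𝔽) : (SemidirectProduct.inl n : AG 𝔽) ∈ VV 𝔽 := by
  change SemidirectProduct.rightHom (SemidirectProduct.inl n : AG 𝔽) = 1
  exact SemidirectProduct.rightHom_inl n

theorem card_VV : Nat.card (VV 𝔽) = Nat.card 𝔽 := by
  have h : VV 𝔽 = (SemidirectProduct.inl : Multiplicative 𝔽 →* AG 𝔽).range :=
    SemidirectProduct.range_inl_eq_ker_rightHom.symm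
  rw [h]
  exact (Nat.card_congr (MonoidHom.ofInjective
    (SemidirectProduct.inl_injective (φ := phi 𝔽))).toEquiv).symm

theorem LL_covBy : LL 𝔽 ⋖ VV 𝔽 ⊔ LL 𝔽 := by
  constructor
  · refine lt_of_le_of_ne le_sup_right ?_
    intro h
    have h1 : (SemidirectProduct.inl (Multiplicative.ofAdd (1 : 𝔽)) : AG 𝔽) ∈ VV 𝔽 ⊓ LL 𝔽 := by
      refine ⟨inl_mem_VV 𝔽 _, ?_⟩
      rw [h]
      exact (le_sup_left : VV 𝔽 ≤ _) (inl_mem_VV 𝔽 _)
    rw [VV_inf_LL, Subgroup.mem_bot] at h1
    have h2 := SemidirectProduct.inl_injective (h1.trans (map_one _).symm)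
    have h3 : (1 : 𝔽) = 0 := congrArg Multiplicative.toAdd h2
    exact one_ne_zero h3
  · intro X h1 h2
    apply h2.not_ge
    obtain ⟨x, hxX, hxL⟩ := SetLike.exists_of_lt h1
    have hx := SemidirectProduct.inl_left_mul_inr_right x
    have hrX : (SemidirectProduct.inr x.right : AG 𝔽) ∈ X := h1.le ⟨x.right, rfl⟩
    have hlX : (SemidirectProduct.inl x.left : AG 𝔽) ∈ X := by
      have := X.mul_mem hxX (X.inv_mem hrX)
      rw [← hx, SemidirectProduct.mul_right, SemidirectProduct.right_inl,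
        SemidirectProduct.right_inr, one_mul, mul_inv_cancel_right] at this
      simpa using this
    have hn : Multiplicative.toAdd x.left ≠ 0 := by
      intro h0
      apply hxL
      have : x.left = 1 := h0
      rw [← hx, this, map_one, one_mul]
      exact ⟨x.right, rfl⟩
    refine sup_le ?_ h1.le
    intro y hy
    have hy1 : y.right = 1 := hy
    have hy2 := SemidirectProduct.inl_left_mul_inr_right y
    rw [hy1, map_one, mul_one] at hy2
    rw [← hy2]
    by_cases hm : Multiplicative.toAdd y.left = 0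
    · have : y.left = 1 := hm
      rw [this, map_one]; exact X.one_mem
    · let u : 𝔽ˣ := Units.mk0 (Multiplicative.toAdd y.left / Multiplicative.toAdd x.left)
        (div_ne_zero hm hn)
      have hu : phi 𝔽 u x.left = y.left := by
        change Multiplicative.ofAdd ((u : 𝔽) * Multiplicative.toAdd x.left) = y.left
        simp only [u, Units.val_mk0]
        rw [div_mul_cancel₀ _ hn]
        rfl
      rw [← hu, SemidirectProduct.inl_aut]
      exact X.mul_mem (X.mul_mem (h1.le ⟨u, rfl⟩) hlX) (h1.le ⟨u⁻¹, rfl⟩)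

end field

/-- For every prime p and every d ≥ 2 there is a finite group G with a maximal subgroup M of index p^d and a maximal subgroup H of M that is not second maximal in G: some maximal subgroup K of G contains H without H being maximal in K. (One may take G the affine group V ⋊ GL(V) of V = 𝔽_p^d, M = GL(V), H the stabiliser in M of a line W of V, and K = V ⋊ H, with H < W ⋊ H < K.) So the prime-index hypothesis in the second-maximality criterion cannot be relaxed to prime-power index. -/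
theorem result (p d : ℕ) (hp : p.Prime)
    (hd : 2 ≤ d) :
    ∃ (G : Type) (_ : Group G) (_ : Finite G) (M H K : Subgroup G), IsCoatom M ∧ M.index = p ^ d ∧ H ≤ M ∧
      IsCoatom (H.subgroupOf M) ∧ IsCoatom K ∧ H ≤ K ∧ ¬ IsCoatom (H.subgroupOf K) := by
  have : Fact p.Prime := ⟨hp⟩
  have hcard : Nat.card (VV (GaloisField p d)) = p ^ d := by
    rw [card_VV, GaloisField.card p d (by omega)]
  have : Finite (AG (GaloisField p d)) := Finite.of_equiv _ SemidirectProduct.equivProd.symm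
  have hV : ¬ (⊥ : Subgroup (AG (GaloisField p d))) ⋖ VV (GaloisField p d) := by
    intro h
    obtain ⟨K, hK⟩ := Sylow.exists_subgroup_card_pow_prime (G := VV (GaloisField p d)) p (n := 1)
      (by rw [hcard]; exact pow_dvd_pow p (by omega))
    have hK' : Nat.card (K.map (VV (GaloisField p d)).subtype) = p := by
      rw [Subgroup.card_map_of_injective (Subgroup.subtype_injective _), hK, pow_one]
    rcases h.eq_or_eq bot_le (Subgroup.map_subtype_le K) with h1 | h1
    · rw [h1, Subgroup.card_bot] at hK'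
      exact hp.one_lt.ne hK'
    · rw [h1, hcard] at hK'
      have : p ^ 1 < p ^ d := Nat.pow_lt_pow_right hp.one_lt (by omega)
      rw [pow_one] at this
      omega
  obtain ⟨L, H, h1, h2, h3, h4⟩ := abstract_example (VV (GaloisField p d)) (LL (GaloisField p d))
    (VV_inf_LL _) (LL_covBy _) hV
  exact final (VV (GaloisField p d)) L H (p ^ d) hcard h1 h2 h3 h4

end Cfsg.Agent.S5895
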