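import Cfsg.Statements.S5902
import Cfsg.Agent.S5901

set_option autoImplicit false
open Cfsg

namespace Cfsg.Agent.S5902

/-- Let G be a finite group, X a subgroup whose own subgroup lattice is complemented, and suppose X lies in exactly one maximal subgroup M of G. Then every subgroup H of G not contained in the normal core of M has a complement in the subgroup lattice of G (some C with H ⊔ C = G and H ⊓ C = 1); in particular the subgroup lattice of G modulo the normal core of M is complemented. -/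
theorem result {G : Type*} [Group G] [Finite G] (X M : Subgroup G)
    (hK : ComplementedLattice (Subgroup X))
    (hM : IsCoatom M) (hXM : X ≤ M) (huniq : ∀ M' : Subgroup G, IsCoatom M' → X ≤ M' → M' = M) :
    (∀ H : Subgroup G, ¬ H ≤ M.normalCore → ∃ C : Subgroup G, H ⊔ C = ⊤ ∧ H ⊓ C = ⊥) ∧
    ComplementedLattice (Subgroup (G ⧸ M.normalCore)) := by
  have hX : X ≠ ⊤ := fun h => hM.1 (top_le_iff.1 (h ▸ hXM))
  have hint : ∀ Y : Subgroup G, ⊥ ≤ Y → Y ≤ X →
      ∃ C : Subgroup G, ⊥ ≤ C ∧ C ≤ X ∧ Y ⊔ C = X ∧ Y ⊓ C = ⊥ := by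
    intro Y _ hY
    obtain ⟨C', hC'⟩ := hK.exists_isCompl (Y.subgroupOf X)
    refine ⟨C'.map X.subtype, bot_le, Subgroup.map_subtype_le C', ?_, ?_⟩
    · have h1 := congrArg (Subgroup.map X.subtype) hC'.sup_eq_top
      rw [Subgroup.map_sup, Subgroup.map_subgroupOf_eq_of_le hY, ← MonoidHom.range_eq_map,
        Subgroup.range_subtype] at h1
      exact h1
    · have h1 := congrArg (Subgroup.map X.subtype) hC'.inf_eq_bot
      rw [Subgroup.map_inf _ _ _ X.subtype_injective, Subgroup.map_subgroupOf_eq_of_le hY,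
        Subgroup.map_bot] at h1
      exact h1
  have part1 : ∀ H : Subgroup G, ¬ H ≤ M.normalCore → ∃ C : Subgroup G, H ⊔ C = ⊤ ∧ H ⊓ C = ⊥ := by
    intro H hH
    obtain ⟨h, hhH, hh⟩ := SetLike.not_le_iff_exists.1 hH
    have h2 : ¬ ∀ b : G, b * h * b⁻¹ ∈ M := hh
    push Not at h2
    obtain ⟨b, hb⟩ := h2
    let e : G ≃* G := MulAut.conj b
    have hH' : ¬ H.map e.toMonoidHom ≤ M := fun hle => hb (hle ⟨h, hhH, rfl⟩)
    obtain ⟨C', h3, h4⟩ := Cfsg.Agent.S5901.result ⊥ X M bot_le hX hint hM hXM huniq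
      (H.map e.toMonoidHom) hH' (inf_bot_eq _)
    have hcm : (H.map e.toMonoidHom).comap e.toMonoidHom = H :=
      Subgroup.comap_map_eq_self_of_injective e.injective H
    refine ⟨C'.comap e.toMonoidHom, ?_, ?_⟩
    · have := congrArg (Subgroup.comap e.toMonoidHom) h3
      rw [← Subgroup.comap_sup_eq _ _ _ e.surjective, hcm, Subgroup.comap_top] at this
      exact this
    · have := congrArg (Subgroup.comap e.toMonoidHom) h4
      rw [Subgroup.comap_inf, hcm] at this
      rw [this, eq_bot_iff]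
      intro x hx
      have hx' : e x = 1 := hx
      rw [Subgroup.mem_bot]
      exact e.injective (hx'.trans (map_one e).symm)
  refine ⟨part1, ⟨fun Hb => ?_⟩⟩
  by_cases hHb : Hb = ⊥
  · subst hHb; exact ⟨⊤, isCompl_bot_top⟩
  have hsurj := QuotientGroup.mk'_surjective M.normalCore
  have hH : ¬ Hb.comap (QuotientGroup.mk' M.normalCore) ≤ M.normalCore := by
    intro hle
    apply hHb
    rw [eq_bot_iff]
    intro y hy
    obtain ⟨x, rfl⟩ := hsurj y
    have : x ∈ M.normalCore := hle hy
    rw [Subgroup.mem_bot]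
    exact (QuotientGroup.eq_one_iff x).2 this
  obtain ⟨C, h1, h2⟩ := part1 _ hH
  refine ⟨C.map (QuotientGroup.mk' M.normalCore), ?_⟩
  rw [isCompl_iff, disjoint_iff, codisjoint_iff]
  constructor
  · rw [eq_bot_iff]
    rintro y ⟨hy1, ⟨c, hc, rfl⟩⟩
    have : c ∈ Hb.comap (QuotientGroup.mk' M.normalCore) ⊓ C := ⟨hy1, hc⟩
    rw [h2, Subgroup.mem_bot] at this
    rw [this, map_one]
    exact Subgroup.one_mem _
  · have := congrArg (Subgroup.map (QuotientGroup.mk' M.normalCore)) h1
    rw [Subgroup.map_sup, Subgroup.map_comap_eq_self_of_surjective hsurj,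
      Subgroup.map_top_of_surjective _ hsurj] at this
    exact this

end Cfsg.Agent.S5902
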