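import Cfsg.Statements.S5903
import Cfsg.Agent.S5901

set_option autoImplicit false
open Cfsg

namespace Cfsg.Agent.S5903

/-- Let G be a finite simple group, X a subgroup lying in exactly one maximal subgroup M of G, and N a subgroup of prime order with N ≤ X that is central in M. If the subgroup lattice of X/N is complemented, then the subgroup lattice of G is complemented. -/
theorem result {G : Type*} [Group G] [Finite G] [IsSimpleGroup G] (X M N : Subgroup G)
    (hM : IsCoatom M) (hXM : X ≤ M) (huniq : ∀ M' : Subgroup G, IsCoatom M' → X ≤ M' → M' = M)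
    (hNX : N ≤ X) (hN : (Nat.card N).Prime) (hcen : ∀ n ∈ N, ∀ m ∈ M, m * n = n * m)
    [(N.subgroupOf X).Normal] (hK : ComplementedLattice (Subgroup (X ⧸ N.subgroupOf X))) :
    ComplementedLattice (Subgroup G) := by
  have hX : X ≠ ⊤ := fun h => hM.1 (top_le_iff.1 (h ▸ hXM))
  have hNbot : N ≠ ⊥ := by
    rintro rfl
    rw [Subgroup.card_bot] at hN
    exact Nat.not_prime_one hN
  -- the interval [N, X] is complemented
  have hint : ∀ Y : Subgroup G, N ≤ Y → Y ≤ X →
      ∃ C : Subgroup G, N ≤ C ∧ C ≤ X ∧ Y ⊔ C = X ∧ Y ⊓ C = N := by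
    intro Y hNY hY
    set π := QuotientGroup.mk' (N.subgroupOf X) with hπ
    have hsurj : Function.Surjective π := QuotientGroup.mk'_surjective _
    have hker : π.ker = N.subgroupOf X := QuotientGroup.ker_mk' _
    obtain ⟨Cb, hCb⟩ := hK.exists_isCompl ((Y.subgroupOf X).map π)
    have hY' : ((Y.subgroupOf X).map π).comap π = Y.subgroupOf X := by
      apply Subgroup.comap_map_eq_self
      rw [hker]
      exact Subgroup.comap_mono hNY
    refine ⟨(Cb.comap π).map X.subtype, ?_, Subgroup.map_subtype_le _, ?_, ?_⟩
    · have h0 : (N.subgroupOf X).map X.subtype ≤ (Cb.comap π).map X.subtype := by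
        apply Subgroup.map_mono
        exact hker.symm.le.trans (Subgroup.ker_le_comap π Cb)
      rwa [Subgroup.map_subgroupOf_eq_of_le hNX] at h0
    · have h1 := congrArg (Subgroup.comap π) hCb.sup_eq_top
      rw [← Subgroup.comap_sup_eq _ _ _ hsurj, hY', Subgroup.comap_top] at h1
      have h2 := congrArg (Subgroup.map X.subtype) h1
      rw [Subgroup.map_sup, Subgroup.map_subgroupOf_eq_of_le hY, ← MonoidHom.range_eq_map,
        Subgroup.range_subtype] at h2
      exact h2
    · have h1 := congrArg (Subgroup.comap π) hCb.inf_eq_bot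
      rw [Subgroup.comap_inf, hY', MonoidHom.comap_bot, hker] at h1
      have h2 := congrArg (Subgroup.map X.subtype) h1
      rw [Subgroup.map_inf _ _ _ X.subtype_injective, Subgroup.map_subgroupOf_eq_of_le hY,
        Subgroup.map_subgroupOf_eq_of_le hNX] at h2
      exact h2
  refine ⟨fun H => ?_⟩
  by_cases hHbot : H = ⊥
  · subst hHbot; exact ⟨⊤, isCompl_bot_top⟩
  by_cases hHtop : H = ⊤
  · subst hHtop; exact ⟨⊥, isCompl_top_bot⟩
  -- find a good conjugate
  have hex : ∃ c : G, ¬ H.map (MulAut.conj c⁻¹).toMonoidHom ≤ M ∧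
      H.map (MulAut.conj c⁻¹).toMonoidHom ⊓ N = ⊥ := by
    by_contra hcon
    push Not at hcon
    have hnorm : Subgroup.normalClosure (N : Set G) ≤ Subgroup.normalizer (H : Set G) := by
      rw [Subgroup.normalClosure, Subgroup.closure_le]
      intro x hx
      obtain ⟨n, hn, hnx⟩ := Group.mem_conjugatesOfSet_iff.1 hx
      obtain ⟨c, rfl⟩ := isConj_iff.1 hnx
      by_cases hle : H.map (MulAut.conj c⁻¹).toMonoidHom ≤ M
      · -- centralizes
        rw [SetLike.mem_coe, Subgroup.mem_normalizer_iff]
        intro h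
        have key : ∀ h ∈ H, c * n * c⁻¹ * h * (c * n * c⁻¹)⁻¹ = h := by
          intro h hh
          have h1 : c⁻¹ * h * c ∈ M := hle ⟨h, hh, by simp⟩
          have h2 := hcen n hn _ h1
          calc c * n * c⁻¹ * h * (c * n * c⁻¹)⁻¹ = c * (n * (c⁻¹ * h * c)) * n⁻¹ * c⁻¹ := by group
            _ = c * ((c⁻¹ * h * c) * n) * n⁻¹ * c⁻¹ := by rw [h2]
            _ = h := by group
        constructor
        · intro hh; rw [key h hh]; exact hh
        · intro hh
          -- apply key to the conjugate with inverse: use injectivity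
          have h3 := key _ hh
          have h4 : c * n * c⁻¹ * h * (c * n * c⁻¹)⁻¹ = h := by
            have : c * n * c⁻¹ * (c * n * c⁻¹ * h * (c * n * c⁻¹)⁻¹) * (c * n * c⁻¹)⁻¹
                = c * n * c⁻¹ * h * (c * n * c⁻¹)⁻¹ := h3
            have h5 := mul_right_cancel this
            exact mul_left_cancel h5
          rw [← h4]; exact hh
      · have hne := hcon c hle
        have hle2 : H.map (MulAut.conj c⁻¹).toMonoidHom ⊓ N ≤ N := inf_le_right
        have hd := Subgroup.card_dvd_of_le hle2
        rcases (Nat.dvd_prime hN).1 hd with h1 | h1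
        · exact absurd (Subgroup.eq_bot_of_card_eq _ h1) hne
        · have h2 := Subgroup.eq_of_le_of_card_ge hle2 h1.ge
          have h3 : n ∈ H.map (MulAut.conj c⁻¹).toMonoidHom := by
            have : n ∈ H.map (MulAut.conj c⁻¹).toMonoidHom ⊓ N := by rw [h2]; exact hn
            exact this.1
          obtain ⟨h, hh, hhn⟩ := h3
          apply Subgroup.le_normalizer
          have : c * n * c⁻¹ = h := by
            rw [← hhn]; simp; group
          rw [this]; exact hh
    have htop : Subgroup.normalClosure (N : Set G) = ⊤ := by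
      rcases (Subgroup.normalClosure_normal (s := (N : Set G))).eq_bot_or_eq_top with h | h
      · exact absurd (le_bot_iff.1 (h ▸ Subgroup.le_normalClosure)) hNbot
      · exact h
    rw [htop, top_le_iff, Subgroup.normalizer_eq_top_iff] at hnorm
    rcases hnorm.eq_bot_or_eq_top with h | h
    · exact hHbot h
    · exact hHtop h
  obtain ⟨c, hc1, hc2⟩ := hex
  let e : G ≃* G := MulAut.conj c⁻¹
  obtain ⟨C', h3, h4⟩ := Cfsg.Agent.S5901.result N X M hNX hX hint hM hXM huniq
    (H.map e.toMonoidHom) hc1 hc2
  have hcm : (H.map e.toMonoidHom).comap e.toMonoidHom = H :=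
    Subgroup.comap_map_eq_self_of_injective e.injective H
  refine ⟨C'.comap e.toMonoidHom, ?_⟩
  rw [isCompl_iff, disjoint_iff, codisjoint_iff]
  constructor
  · have := congrArg (Subgroup.comap e.toMonoidHom) h4
    rw [Subgroup.comap_inf, hcm] at this
    rw [this, eq_bot_iff]
    intro x hx
    have hx' : e x = 1 := hx
    rw [Subgroup.mem_bot]
    exact e.injective (hx'.trans (map_one e).symm)
  · have := congrArg (Subgroup.comap e.toMonoidHom) h3
    rw [← Subgroup.comap_sup_eq _ _ _ e.surjective, hcm, Subgroup.comap_top] at this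
    exact this

end Cfsg.Agent.S5903
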