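import Cfsg.Statements.S5905
-- import your own Cfsg.Agent.* helpers here

set_option autoImplicit false
open Cfsg

namespace Cfsg.Agent.S5905

/-- The stabilizer of the partition into fibres of `f`. -/
def partStab {Ω : Type*} {b : ℕ} (f : Ω → Fin b) : Subgroup (Equiv.Perm Ω) where
  carrier := {g | ∀ x y : Ω, f x = f y ↔ f (g x) = f (g y)}
  mul_mem' := fun {g h} hg hh x y => by
    rw [hh x y, hg (h x) (h y)]; rfl
  one_mem' := fun _ _ => Iff.rfl
  inv_mem' := fun {g} hg x y => by
    have := hg (g⁻¹ x) (g⁻¹ y)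
    simp only [Equiv.Perm.coe_inv, Equiv.apply_symm_apply] at this
    exact this.symm

theorem exists_fibre_swap {Ω : Type*} [Finite Ω] {b : ℕ} (f : Ω → Fin b) (a : ℕ)
    (hf : ∀ i : Fin b, Nat.card {x : Ω // f x = i} = a) (j k : Fin b) (hjk : j ≠ k) :
    ∃ σ : Equiv.Perm Ω, (∀ x, f (σ x) = Equiv.swap j k (f x)) ∧ (∀ x, f x ≠ j → f x ≠ k → σ x = x) := by
  classical
  obtain ⟨e⟩ : Nonempty ({x // f x = j} ≃ {x // f x = k}) := Finite.card_eq.1 (by rw [hf, hf])
  let g : Ω → Ω := fun x => if h : f x = j then (e ⟨x, h⟩ : Ω) else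
    if h' : f x = k then (e.symm ⟨x, h'⟩ : Ω) else x
  have hg1 : ∀ x (h : f x = j), g x = e ⟨x, h⟩ := fun x h => by simp only [g, dif_pos h]
  have hg2 : ∀ x (h : f x = k), g x = e.symm ⟨x, h⟩ := fun x h => by
    have h0 : ¬ f x = j := by rw [h]; exact hjk.symm
    simp only [g, dif_neg h0, dif_pos h]
  have hg3 : ∀ x, f x ≠ j → f x ≠ k → g x = x := fun x h h' => by
    simp only [g, dif_neg h, dif_neg h']
  have hinv : Function.Involutive g := by
    intro x
    by_cases h : f x = j
    · rw [hg1 x h, hg2 _ (e ⟨x, h⟩).2]; simp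
    · by_cases h' : f x = k
      · rw [hg2 x h', hg1 _ (e.symm ⟨x, h'⟩).2]; simp
      · rw [hg3 x h h', hg3 x h h']
  refine ⟨hinv.toPerm, ?_, ?_⟩
  · intro x
    change f (g x) = _
    by_cases h : f x = j
    · rw [hg1 x h, h, Equiv.swap_apply_left]; exact (e ⟨x, h⟩).2
    · by_cases h' : f x = k
      · rw [hg2 x h', h', Equiv.swap_apply_right]; exact (e.symm ⟨x, h'⟩).2
      · rw [hg3 x h h', Equiv.swap_apply_of_ne_of_ne h h']
  · intro x h h'
    exact hg3 x h h'

theorem swap_mem_partStab {Ω : Type*} [DecidableEq Ω] {b : ℕ} (f : Ω → Fin b) (x y : Ω)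
    (hxy : f x = f y) : Equiv.swap x y ∈ partStab f := by
  intro u v
  have key : ∀ u, f (Equiv.swap x y u) = f u := by
    intro u
    by_cases hux : u = x
    · subst hux; rw [Equiv.swap_apply_left]; exact hxy.symm
    · by_cases huy : u = y
      · subst huy; rw [Equiv.swap_apply_right]; exact hxy
      · rw [Equiv.swap_apply_of_ne_of_ne hux huy]
  rw [key, key]

/-- Let Ω be a finite set and f : Ω → Fin b a map onto b ≥ 2 labels whose fibres all have the same size a ≥ 2 (a partition of Ω into b blocks of size a, so |Ω| = ab). Then the stabilizer of this partition in the symmetric group on Ω — the permutations g such that x and y lie in the same block exactly when g x and g y do, a group isomorphic to the imprimitive wreath product S_a ≀ S_b — is a maximal subgroup of the symmetric group. -/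
theorem result {Ω : Type*} [Fintype Ω] [DecidableEq Ω] (a b : ℕ) (ha : 2 ≤ a) (hb : 2 ≤ b)
    (f : Ω → Fin b) (hf : ∀ i : Fin b, Nat.card {x : Ω // f x = i} = a) :
    IsCoatom (Subgroup.closure {g : Equiv.Perm Ω | ∀ x y : Ω, f x = f y ↔ f (g x) = f (g y)}) := by
  have hcl : Subgroup.closure {g : Equiv.Perm Ω | ∀ x y : Ω, f x = f y ↔ f (g x) = f (g y)}
      = partStab f := Subgroup.closure_eq (partStab f)
  rw [hcl]
  have hfib : ∀ i : Fin b, ∃ x y : Ω, x ≠ y ∧ f x = i ∧ f y = i := by
    intro i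
    have h1 : 1 < Nat.card {x : Ω // f x = i} := by rw [hf]; omega
    obtain ⟨⟨x, hx⟩, ⟨y, hy⟩, hxy⟩ := (Finite.one_lt_card_iff_nontrivial.1 h1).exists_pair_ne
    exact ⟨x, y, fun h => hxy (Subtype.ext h), hx, hy⟩
  constructor
  · intro htop
    obtain ⟨x, y, hxy, hx, hy⟩ := hfib ⟨0, by omega⟩
    obtain ⟨z, _, _, hz, _⟩ := hfib ⟨1, by omega⟩
    have hmem : Equiv.swap y z ∈ partStab f := by rw [htop]; trivial
    have h1 := (hmem x y).1 (hx.trans hy.symm)
    have hxz : x ≠ z := by
      intro h; rw [h, hz] at hx; simp [Fin.ext_iff] at hx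
    rw [Equiv.swap_apply_left, Equiv.swap_apply_of_ne_of_ne hxy hxz, hx, hz] at h1
    simp [Fin.ext_iff] at h1
  · intro L hL
    obtain ⟨g, hgL, hgW⟩ := SetLike.exists_of_lt hL
    have hWL : partStab f ≤ L := hL.le
    have hpq : ∃ p q, f p ≠ f q ∧ Equiv.swap p q ∈ L := by
      have h1 : ¬ ∀ x y : Ω, f x = f y ↔ f (g x) = f (g y) := hgW
      push Not at h1
      obtain ⟨x, y, h | h⟩ := h1
      · refine ⟨g x, g y, h.2, ?_⟩
        rw [Equiv.swap_apply_apply]
        exact L.mul_mem (L.mul_mem hgL (hWL (swap_mem_partStab f x y h.1))) (L.inv_mem hgL)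
      · refine ⟨x, y, h.1, ?_⟩
        have h2 : Equiv.swap x y = g⁻¹ * Equiv.swap (g x) (g y) * g := by
          rw [Equiv.swap_apply_apply]; group
        rw [h2]
        exact L.mul_mem (L.mul_mem (L.inv_mem hgL) (hWL (swap_mem_partStab f _ _ h.2))) hgL
    obtain ⟨p, q, hpq, hswap⟩ := hpq
    have hp : ∀ x, Equiv.swap p x ∈ L := by
      intro x
      by_cases hx : f p = f x
      · exact hWL (swap_mem_partStab f p x hx)
      · have hq' : ∃ q', f q' = f x ∧ Equiv.swap p q' ∈ L := by
          by_cases hqx : f q = f x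
          · exact ⟨q, hqx, hswap⟩
          · obtain ⟨σ, hσ1, hσ2⟩ := exists_fibre_swap f a hf (f q) (f x) hqx
            have hσW : σ ∈ partStab f := by
              intro u v
              rw [hσ1, hσ1, (Equiv.swap (f q) (f x)).apply_eq_iff_eq]
            refine ⟨σ q, by rw [hσ1, Equiv.swap_apply_left], ?_⟩
            have h3 : σ p = p := hσ2 p hpq hx
            have h4 : Equiv.swap p (σ q) = σ * Equiv.swap p q * σ⁻¹ := by
              rw [← Equiv.swap_apply_apply, h3]
            rw [h4]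
            exact L.mul_mem (L.mul_mem (hWL hσW) hswap) (L.inv_mem (hWL hσW))
        obtain ⟨q', hq'x, hq'L⟩ := hq'
        exact SubmonoidClass.swap_mem_trans L hq'L (hWL (swap_mem_partStab f q' x hq'x))
    rw [eq_top_iff, ← Equiv.Perm.closure_isSwap, Subgroup.closure_le]
    rintro _ ⟨x, y, _, rfl⟩
    refine SubmonoidClass.swap_mem_trans L ?_ (hp y)
    rw [Equiv.swap_comm]
    exact hp x

end Cfsg.Agent.S5905
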