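import Mathlib
import Cfsg.Statements.S5908
import Cfsg.Agent.H14.PSU32

set_option autoImplicit false
open Cfsg

namespace Cfsg.Agent.S5908

theorem quat_aux : ∀ y : QuaternionGroup 2, y ≠ 1 →
    y = QuaternionGroup.a 2 ∨ y ^ 2 = QuaternionGroup.a 2 := by
  decide

/-- The subgroup lattice of PSU₃(2) (the solvable group of order 72, realised over the field with 4 elements) is not complemented: some subgroup H has no subgroup X with H ⊔ X = ⊤ and H ⊓ X = ⊥. -/
theorem result {F : Type*} [Field F] [Fintype F] (hF : Fintype.card F = 4) :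
    ¬ ComplementedLattice (Subgroup (Cfsg.PSU 3 F 2)) := by
  intro hcl
  obtain ⟨N, hN, hN9, hN3, ⟨e⟩⟩ := Cfsg.Agent.H14.psu32_structure hF
  let φ : Cfsg.PSU 3 F 2 →* QuaternionGroup 2 := e.toMonoidHom.comp (QuotientGroup.mk' N)
  have hφs : Function.Surjective φ := e.surjective.comp (QuotientGroup.mk'_surjective N)
  let H : Subgroup (Cfsg.PSU 3 F 2) :=
    (Subgroup.zpowers (QuaternionGroup.a 2 : QuaternionGroup 2)).comap φ
  obtain ⟨X, hX⟩ := hcl.exists_isCompl H
  have hdisj : ∀ x, x ∈ H → x ∈ X → x = 1 := by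
    intro x hxH hxX
    have : x ∈ H ⊓ X := ⟨hxH, hxX⟩
    rw [hX.inf_eq_bot] at this
    exact this
  have hXbot : X = ⊥ := by
    rw [eq_bot_iff]
    intro x hx
    rw [Subgroup.mem_bot]
    by_cases h1 : φ x = 1
    · apply hdisj x _ hx
      show φ x ∈ Subgroup.zpowers (QuaternionGroup.a 2 : QuaternionGroup 2)
      rw [h1]; exact one_mem _
    · rcases quat_aux (φ x) h1 with h | h
      · apply hdisj x _ hx
        show φ x ∈ Subgroup.zpowers (QuaternionGroup.a 2 : QuaternionGroup 2)
        rw [h]; exact Subgroup.mem_zpowers _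
      · exfalso
        have h2 : x ^ 2 = 1 := by
          apply hdisj _ _ (pow_mem hx 2)
          show φ (x ^ 2) ∈ Subgroup.zpowers (QuaternionGroup.a 2 : QuaternionGroup 2)
          rw [map_pow, h]; exact Subgroup.mem_zpowers _
        have h3 : φ x ^ 2 = 1 := by rw [← map_pow, h2, map_one]
        rw [h] at h3
        revert h3
        decide
  have hHtop : H = ⊤ := by
    have := hX.sup_eq_top
    rwa [hXbot, sup_bot_eq] at this
  obtain ⟨y, hy⟩ := hφs (QuaternionGroup.xa 0)
  have hyH : y ∈ H := by rw [hHtop]; trivial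
  have h4 : φ y ∈ Subgroup.zpowers (QuaternionGroup.a 2 : QuaternionGroup 2) := hyH
  rw [hy] at h4
  obtain ⟨k, hk⟩ := h4
  have h5 : ∀ k : ℤ, (QuaternionGroup.a 2 : QuaternionGroup 2) ^ k = 1 ∨
      (QuaternionGroup.a 2 : QuaternionGroup 2) ^ k = QuaternionGroup.a 2 := by
    intro k
    have hsq : (QuaternionGroup.a 2 : QuaternionGroup 2) ^ (2 : ℤ) = 1 := by decide
    rcases Int.even_or_odd' k with ⟨j, rfl | rfl⟩
    · left; rw [zpow_mul, hsq, one_zpow]
    · right; rw [zpow_add, zpow_mul, hsq, one_zpow, one_mul, zpow_one]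
  rcases h5 k with h | h
  · simp only at hk
    rw [h] at hk
    revert hk; decide
  · simp only at hk
    rw [h] at hk
    revert hk; decide

end Cfsg.Agent.S5908
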