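import Mathlib
import Cfsg.Statements.S5910
-- import your own Cfsg.Agent.* helpers here

set_option autoImplicit false
open Cfsg

namespace Cfsg.Agent.S5910

/-- the map of `Fin 8` commuting with `x ↦ x xor 1` determined by its values at `0, 2, 4, 6` -/
def G8 (a b c d : Fin 8) : Fin 8 → Fin 8 := ![a, a ^^^ 1, b, b ^^^ 1, c, c ^^^ 1, d, d ^^^ 1]

set_option maxRecDepth 100000 in
set_option synthInstance.maxSize 100000 in
set_option synthInstance.maxHeartbeats 0 in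
theorem D8 : ∀ a b c d : Fin 8, (a / 2 ≠ b / 2 ∧ a / 2 ≠ c / 2 ∧ a / 2 ≠ d / 2 ∧ b / 2 ≠ c / 2 ∧ b / 2 ≠ d / 2 ∧
    c / 2 ≠ d / 2) → (∏ j : Fin 8, ∏ i ∈ Finset.Iio j, (if G8 a b c d i < G8 a b c d j then (1 : ℤˣ) else -1)) = 1 →
    ∀ x y z : Fin 8, G8 a b c d (x ^^^ y ^^^ z) = G8 a b c d x ^^^ G8 a b c d y ^^^ G8 a b c d z := by
  decide +kernel

/-- affine permutations of `Fin 8 = F₂³` -/
def Aff8 : Subgroup (Equiv.Perm (Fin 8)) where
  carrier := {g | ∀ x y z : Fin 8, g (x ^^^ y ^^^ z) = g x ^^^ g y ^^^ g z}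
  mul_mem' := fun {g h} hg hh x y z => by
    show g (h (x ^^^ y ^^^ z)) = g (h x) ^^^ g (h y) ^^^ g (h z)
    rw [hh, hg]
  one_mem' := fun _ _ _ => rfl
  inv_mem' := fun {g} hg x y z => by
    apply g.injective
    rw [hg]
    simp

theorem key8 (g : Equiv.Perm (Fin 8)) (hg : ∀ x y : Fin 8, x / 2 = y / 2 ↔ g x / 2 = g y / 2)
    (hs : Equiv.Perm.sign g = 1) : g ∈ Aff8 := by
  have hx1 : ∀ x : Fin 8, g (x ^^^ 1) = g x ^^^ 1 := by
    intro x
    have h1 : (x ^^^ 1) / 2 = x / 2 := by revert x; decide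
    have h2 := (hg (x ^^^ 1) x).1 h1
    have h3 : g (x ^^^ 1) ≠ g x :=
      fun h => (by decide : ∀ x : Fin 8, x ^^^ 1 ≠ x) x (g.injective h)
    exact (by decide : ∀ u v : Fin 8, u / 2 = v / 2 → u ≠ v → u = v ^^^ 1) _ _ h2 h3
  obtain ⟨a, ha⟩ : ∃ a, a = g 0 := ⟨_, rfl⟩
  obtain ⟨b, hb⟩ : ∃ b, b = g 2 := ⟨_, rfl⟩
  obtain ⟨c, hc⟩ : ∃ c, c = g 4 := ⟨_, rfl⟩
  obtain ⟨d, hd⟩ : ∃ d, d = g 6 := ⟨_, rfl⟩
  have hG : ∀ x, g x = G8 a b c d x := by
    intro x
    fin_cases x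
    · exact ha.symm
    · rw [ha]; exact hx1 0
    · exact hb.symm
    · rw [hb]; exact hx1 2
    · exact hc.symm
    · rw [hc]; exact hx1 4
    · exact hd.symm
    · rw [hd]; exact hx1 6
  have hne : ∀ x y : Fin 8, x / 2 ≠ y / 2 → g x / 2 ≠ g y / 2 := fun x y h h' => h ((hg x y).2 h')
  rw [Equiv.Perm.sign_eq_prod_prod_Iio] at hs
  simp only [hG] at hs
  intro x y z
  rw [hG, hG, hG, hG]
  refine D8 a b c d ⟨?_, ?_, ?_, ?_, ?_, ?_⟩ hs x y z
  · rw [ha, hb]; exact hne _ _ (by decide)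
  · rw [ha, hc]; exact hne _ _ (by decide)
  · rw [ha, hd]; exact hne _ _ (by decide)
  · rw [hb, hc]; exact hne _ _ (by decide)
  · rw [hb, hd]; exact hne _ _ (by decide)
  · rw [hc, hd]; exact hne _ _ (by decide)

/-- Let Ω be a set with 8 elements and f : Ω → Fin 4 a labelling whose four fibres all have size 2 (a partition of the 8 points into 4 pairs). Then the group of even permutations preserving this partition, (S₂ ≀ S₄) ∩ A₈, is not a maximal subgroup of the alternating group A₈ (it lies in a subgroup isomorphic to the affine group AGL₃(2)). -/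
theorem result {Ω : Type*} [Fintype Ω] [DecidableEq Ω] (h8 : Fintype.card Ω = 8)
    (f : Ω → Fin 4) (hf : ∀ i : Fin 4, Nat.card {x : Ω // f x = i} = 2) :
    ¬ IsCoatom ((Subgroup.closure {g : Equiv.Perm Ω | ∀ x y : Ω, f x = f y ↔ f (g x) = f (g y)} ⊓ alternatingGroup Ω).subgroupOf (alternatingGroup Ω)) := by
  classical
  let e : Ω ≃ Fin 8 := (Equiv.sigmaFiberEquiv f).symm.trans
    ((Equiv.sigmaCongrRight (fun i => Finite.equivFinOfCardEq (hf i))).trans
      ((Equiv.sigmaEquivProd (Fin 4) (Fin 2)).trans finProdFinEquiv))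
  have hev : ∀ x, (e x).val / 2 = (f x).val := by
    intro x
    show ((Finite.equivFinOfCardEq (hf (f x)) ⟨x, rfl⟩ : Fin 2).val + 2 * (f x).val) / 2 = _
    omega
  have hef : ∀ x y, f x = f y ↔ e x / 2 = e y / 2 := by
    intro x y
    rw [Fin.ext_iff, Fin.ext_iff, ← hev, ← hev]
    rfl
  let φ : Equiv.Perm Ω ≃* Equiv.Perm (Fin 8) := e.permCongrHom
  have hφ : ∀ (g : Equiv.Perm Ω) (x : Ω), φ g (e x) = e (g x) := by
    intro g x
    show e (g (e.symm (e x))) = _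
    rw [Equiv.symm_apply_apply]
  have hφs : ∀ g : Equiv.Perm Ω, Equiv.Perm.sign (φ g) = Equiv.Perm.sign g :=
    fun g => Equiv.Perm.sign_permCongr e g
  let St : Subgroup (Equiv.Perm Ω) :=
    { carrier := {g | ∀ x y : Ω, f x = f y ↔ f (g x) = f (g y)}
      mul_mem' := fun {g h} hg hh x y => by
        rw [hh x y, hg (h x) (h y)]; rfl
      one_mem' := fun _ _ => Iff.rfl
      inv_mem' := fun {g} hg x y => by
        have := hg (g⁻¹ x) (g⁻¹ y)
        simp only [Equiv.Perm.coe_inv, Equiv.apply_symm_apply] at this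
        exact this.symm }
  have hcl : Subgroup.closure {g : Equiv.Perm Ω | ∀ x y : Ω, f x = f y ↔ f (g x) = f (g y)} = St :=
    Subgroup.closure_eq St
  rw [hcl]
  let KK : Subgroup (Equiv.Perm Ω) := Aff8.comap φ.toMonoidHom
  have hle : St ⊓ alternatingGroup Ω ≤ KK := by
    rintro g ⟨hg, hga⟩
    show φ g ∈ Aff8
    apply key8
    · intro x y
      obtain ⟨x', rfl⟩ := e.surjective x
      obtain ⟨y', rfl⟩ := e.surjective y
      rw [hφ, hφ, ← hef, ← hef]
      exact hg x' y'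
    · rw [hφs]
      exact Equiv.Perm.mem_alternatingGroup.1 hga
  intro hco
  have hlt : (St ⊓ alternatingGroup Ω).subgroupOf (alternatingGroup Ω) <
      KK.subgroupOf (alternatingGroup Ω) := by
    rw [SetLike.lt_iff_le_and_exists]
    refine ⟨fun g hg => hle hg, ?_⟩
    let t₈ : Equiv.Perm (Fin 8) := Equiv.swap 1 2 * Equiv.swap 5 6
    have ht1 : t₈ ∈ Aff8 := by
      show ∀ x y z : Fin 8, t₈ (x ^^^ y ^^^ z) = t₈ x ^^^ t₈ y ^^^ t₈ z
      decide
    have ht2 : Equiv.Perm.sign t₈ = 1 := by decide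
    have hta : φ.symm t₈ ∈ alternatingGroup Ω := by
      rw [Equiv.Perm.mem_alternatingGroup, ← hφs, MulEquiv.apply_symm_apply, ht2]
    refine ⟨⟨φ.symm t₈, hta⟩, ?_, ?_⟩
    · show φ (φ.symm t₈) ∈ Aff8
      rw [MulEquiv.apply_symm_apply]
      exact ht1
    · intro hmem
      have h1 : φ.symm t₈ ∈ St := hmem.1
      have h2 := h1 (e.symm 0) (e.symm 1)
      rw [hef, hef, ← hφ, ← hφ, MulEquiv.apply_symm_apply, Equiv.apply_symm_apply,
        Equiv.apply_symm_apply] at h2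
      revert h2
      decide
  have htop := hco.2 _ hlt
  let c₈ : Equiv.Perm (Fin 8) := Equiv.swap 0 1 * Equiv.swap 1 2
  have hc1 : ¬ c₈ ∈ Aff8 := by
    show ¬ ∀ x y z : Fin 8, c₈ (x ^^^ y ^^^ z) = c₈ x ^^^ c₈ y ^^^ c₈ z
    decide
  have hc2 : Equiv.Perm.sign c₈ = 1 := by decide
  have hca : φ.symm c₈ ∈ alternatingGroup Ω := by
    rw [Equiv.Perm.mem_alternatingGroup, ← hφs, MulEquiv.apply_symm_apply, hc2]
  have h3 : (⟨φ.symm c₈, hca⟩ : alternatingGroup Ω) ∈ KK.subgroupOf (alternatingGroup Ω) := by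
    rw [htop]; exact Subgroup.mem_top _
  apply hc1
  have h4 : φ (φ.symm c₈) ∈ Aff8 := h3
  rwa [MulEquiv.apply_symm_apply] at h4

end Cfsg.Agent.S5910
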