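import Cfsg.Statements.S5913
-- import your own Cfsg.Agent.* helpers here

set_option autoImplicit false
open Cfsg

namespace Cfsg.Agent.S5913

/-- Let S be a non-abelian simple group and n a natural number. Every normal subgroup N of the direct power S^n (functions Fin n → S) is a subproduct: there is a set T of coordinates such that N consists exactly of the elements whose coordinates outside T are trivial. In particular the minimal normal subgroups of S^n are its n factors. -/
theorem result {S : Type*} [Group S] [IsSimpleGroup S] (hS : ¬ IsMulCommutative S) (n : ℕ)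
    (N : Subgroup (Fin n → S)) [N.Normal] :
    ∃ T : Finset (Fin n), ∀ x : Fin n → S, x ∈ N ↔ ∀ i, i ∉ T → x i = 1 := by
  classical
  -- the centre of S is trivial
  have hcen : ∀ t : S, t ≠ 1 → ∃ s : S, t * s * t⁻¹ * s⁻¹ ≠ 1 := by
    intro t ht
    by_contra hcon
    push Not at hcon
    have htc : t ∈ Subgroup.center S := by
      rw [Subgroup.mem_center_iff]
      intro s
      have := hcon s
      have h2 : t * s = s * t := by
        have h3 : t * s * t⁻¹ * s⁻¹ * (s * t) = 1 * (s * t) := by rw [this]
        rw [one_mul] at h3
        rw [← h3]; group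
      exact h2.symm
    rcases (inferInstance : (Subgroup.center S).Normal).eq_bot_or_eq_top with h | h
    · rw [h, Subgroup.mem_bot] at htc; exact ht htc
    · apply hS
      rw [isMulCommutative_iff]
      intro a b
      have : a ∈ Subgroup.center S := by rw [h]; trivial
      rw [Subgroup.mem_center_iff] at this
      exact (this b).symm
  let T : Finset (Fin n) := Finset.univ.filter (fun i => ∃ x ∈ N, x i ≠ 1)
  have hT : ∀ i, i ∈ T ↔ ∃ x ∈ N, x i ≠ 1 := by
    intro i; simp [T]
  have hsingle : ∀ i ∈ T, ∀ s : S, Pi.mulSingle i s ∈ N := by
    intro i hi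
    obtain ⟨x, hx, hxi⟩ := (hT i).1 hi
    obtain ⟨s, hs⟩ := hcen (x i) hxi
    have hnorm : (N.comap (MonoidHom.mulSingle (fun _ : Fin n => S) i)).Normal := inferInstance
    have hmem : x i * s * (x i)⁻¹ * s⁻¹ ∈ N.comap (MonoidHom.mulSingle (fun _ : Fin n => S) i) := by
      change Pi.mulSingle i (x i * s * (x i)⁻¹ * s⁻¹) ∈ N
      have h1 : (Pi.mulSingle i (x i * s * (x i)⁻¹ * s⁻¹) : Fin n → S)
          = x * (Pi.mulSingle i s * x⁻¹ * (Pi.mulSingle i s)⁻¹) := by
        funext j
        by_cases hj : j = i
        · subst hj; simp [mul_assoc]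
        · simp [Pi.mulSingle_eq_of_ne hj]
      rw [h1]
      exact N.mul_mem hx (‹N.Normal›.conj_mem _ (N.inv_mem hx) _)
    rcases hnorm.eq_bot_or_eq_top with h | h
    · rw [h, Subgroup.mem_bot] at hmem; exact absurd hmem hs
    · intro s'
      have : s' ∈ N.comap (MonoidHom.mulSingle (fun _ : Fin n => S) i) := by rw [h]; trivial
      exact this
  refine ⟨T, fun x => ⟨fun hx i hi => ?_, fun hx => ?_⟩⟩
  · by_contra hne
    exact hi ((hT i).2 ⟨x, hx, hne⟩)
  · have key : ∀ U : Finset (Fin n), U ⊆ T → ∀ x : Fin n → S, (∀ i, i ∉ U → x i = 1) → x ∈ N := by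
      intro U
      induction U using Finset.induction_on with
      | empty =>
        intro _ x hx
        have : x = 1 := funext fun i => hx i (by simp)
        rw [this]; exact N.one_mem
      | insert a U ha ih =>
        intro hU x hx
        have h1 : x = Pi.mulSingle a (x a) * Function.update x a 1 := by
          funext j
          by_cases hj : j = a
          · subst hj; simp
          · simp [Pi.mulSingle_eq_of_ne hj, Function.update_of_ne hj]
        rw [h1]
        refine N.mul_mem (hsingle a (hU (Finset.mem_insert_self a U)) _) ?_
        apply ih (fun i hi => hU (Finset.mem_insert_of_mem hi))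
        intro i hi
        by_cases hia : i = a
        · subst hia; simp
        · rw [Function.update_of_ne hia]
          exact hx i (by simp [hia, hi])
    exact key T (Finset.Subset.refl T) x hx

end Cfsg.Agent.S5913
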