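import Mathlib
import Cfsg.Statements.S5914
import Cfsg.Agent.S0721
-- import your own Cfsg.Agent.* helpers here

set_option autoImplicit false
open Cfsg

namespace Cfsg.Agent.S5914


section pw
variable {S : Type*} [Group S] {n : ℕ}

/-- coordinate permutation automorphism -/
def permAut (π : Equiv.Perm (Fin n)) : (Fin n → S) ≃* (Fin n → S) where
  toFun z := fun k => z (π k)
  invFun z := fun k => z (π.symm k)
  left_inv z := by ext k; simp
  right_inv z := by ext k; simp
  map_mul' a b := by ext k; simp

/-- transvection automorphism (commutative case) -/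
def transAut (hc : ∀ a b : S, a * b = b * a) (i j : Fin n) (hij : j ≠ i) :
    (Fin n → S) ≃* (Fin n → S) where
  toFun z := fun k => if k = j then z j * z i else z k
  invFun z := fun k => if k = j then z j * (z i)⁻¹ else z k
  left_inv z := by
    ext k
    by_cases hk : k = j
    · subst hk
      simp [hij.symm]
    · simp [hk]
  right_inv z := by
    ext k
    by_cases hk : k = j
    · subst hk
      simp [hij.symm]
    · simp [hk]
  map_mul' a b := by
    ext k
    by_cases hk : k = j
    · subst hk
      simp only [Pi.mul_apply, if_true]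
      rw [mul_assoc, mul_assoc, ← mul_assoc (b k), hc (b k) (a i), mul_assoc]
    · simp [hk]

theorem charSimple_pow [IsSimpleGroup S] (K : Subgroup (Fin n → S)) (hK : K.Characteristic) :
    K = ⊥ ∨ K = ⊤ := by
  classical
  by_cases hbot : K = ⊥
  · exact Or.inl hbot
  right
  haveI hKn : K.Normal := Subgroup.normal_of_characteristic K
  have hchar : ∀ φ : (Fin n → S) ≃* (Fin n → S), ∀ z ∈ K, φ z ∈ K := by
    intro φ z hz
    have := (Subgroup.characteristic_iff_le_comap.1 hK) φ hz
    exact this
  obtain ⟨x, hxK, hx1⟩ : ∃ x ∈ K, x ≠ 1 := by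
    by_contra hcon
    push Not at hcon
    exact hbot ((Subgroup.eq_bot_iff_forall K).2 hcon)
  obtain ⟨i, hi⟩ : ∃ i, x i ≠ 1 := by
    by_contra hcon
    push Not at hcon
    exact hx1 (funext hcon)
  -- Step 1
  obtain ⟨j, s, hs1, hsK⟩ : ∃ (j : Fin n) (s : S), s ≠ 1 ∧ Pi.mulSingle j s ∈ K := by
    by_cases hc : ∀ a b : S, a * b = b * a
    · by_cases hj : ∃ j, j ≠ i
      · obtain ⟨j, hj⟩ := hj
        refine ⟨j, x i, hi, ?_⟩
        have h1 : transAut hc i j hj x * x⁻¹ ∈ K := K.mul_mem (hchar _ _ hxK) (K.inv_mem hxK)
        have h2 : transAut hc i j hj x * x⁻¹ = Pi.mulSingle j (x i) := by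
          ext k
          by_cases hk : k = j
          · subst hk
            simp only [transAut, MulEquiv.coe_mk, Equiv.coe_fn_mk, Pi.mul_apply, if_true,
              Pi.inv_apply, Pi.mulSingle_eq_same]
            rw [hc (x k) (x i), mul_assoc, mul_inv_cancel, mul_one]
          · simp [transAut, hk, Pi.mulSingle_eq_of_ne hk]
        rwa [h2] at h1
      · push Not at hj
        refine ⟨i, x i, hi, ?_⟩
        have : Pi.mulSingle i (x i) = x := by
          ext k
          rw [hj k]; simp
        rwa [this]
    · have hcen : Subgroup.center S = ⊥ := by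
        rcases IsSimpleGroup.eq_bot_or_eq_top_of_normal (Subgroup.center S) inferInstance with h | h
        · exact h
        · exfalso
          apply hc
          intro a b
          have hb : b ∈ Subgroup.center S := by rw [h]; trivial
          exact (Subgroup.mem_center_iff.1 hb a)
      have hxi : x i ∉ Subgroup.center S := by
        rw [hcen, Subgroup.mem_bot]; exact hi
      rw [Subgroup.mem_center_iff] at hxi
      push Not at hxi
      obtain ⟨t, ht⟩ := hxi
      refine ⟨i, x i * t * (x i)⁻¹ * t⁻¹, ?_, ?_⟩
      · intro h
        apply ht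
        have : x i * t = t * x i := by
          have h2 := congrArg (fun u => u * t * x i) h
          simpa [mul_assoc] using h2
        exact this.symm
      · have h1 : x * (Pi.mulSingle i t * x⁻¹ * (Pi.mulSingle i t)⁻¹) ∈ K :=
          K.mul_mem hxK (hKn.conj_mem _ (K.inv_mem hxK) _)
        have h2 : x * (Pi.mulSingle i t * x⁻¹ * (Pi.mulSingle i t)⁻¹) =
            Pi.mulSingle i (x i * t * (x i)⁻¹ * t⁻¹) := by
          ext k
          by_cases hk : k = i
          · subst hk
            simp [mul_assoc]
          · simp [Pi.mulSingle_eq_of_ne hk]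
        rwa [h2] at h1
  -- Step 2
  have h2 : ∀ t : S, Pi.mulSingle j t ∈ K := by
    have hn : (K.comap (MonoidHom.mulSingle (fun _ : Fin n => S) j)).Normal := inferInstance
    rcases IsSimpleGroup.eq_bot_or_eq_top_of_normal _ hn with h | h
    · exfalso
      apply hs1
      have : s ∈ K.comap (MonoidHom.mulSingle (fun _ : Fin n => S) j) := hsK
      rwa [h, Subgroup.mem_bot] at this
    · intro t
      have : t ∈ K.comap (MonoidHom.mulSingle (fun _ : Fin n => S) j) := by rw [h]; trivial
      exact this
  -- Step 3
  have h3 : ∀ (k : Fin n) (t : S), Pi.mulSingle k t ∈ K := by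
    intro k t
    have h := hchar (permAut (Equiv.swap j k)) _ (h2 t)
    have he : permAut (Equiv.swap j k) (Pi.mulSingle j t) = Pi.mulSingle k t := by
      ext l
      show (Pi.mulSingle j t : Fin n → S) (Equiv.swap j k l) = _
      by_cases hl : l = k
      · subst hl; simp
      · rw [Pi.mulSingle_eq_of_ne hl, Pi.mulSingle_eq_of_ne]
        intro h'
        apply hl
        have := congrArg (Equiv.swap j k) h'
        simpa using this
    rwa [he] at h
  -- Step 4
  rw [eq_top_iff, ← Subgroup.pi_top (Set.univ : Set (Fin n)) (f := fun _ => S), Subgroup.pi_le_iff]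
  rintro k _ ⟨t, -, rfl⟩
  exact h3 k t

end pw

/-- A non-trivial finite group G is characteristically simple (its only characteristic subgroups are 1 and G) if and only if G is isomorphic to a direct power S^n (n ≥ 1) of some simple group S (possibly cyclic of prime order). -/
theorem result {G : Type*} [Group G] [Finite G] [Nontrivial G] :
    (∀ H : Subgroup G, H.Characteristic → H = ⊥ ∨ H = ⊤) ↔
    ∃ (S : Type) (_ : Group S) (_ : IsSimpleGroup S) (n : ℕ), 1 ≤ n ∧ Nonempty (G ≃* (Fin n → S)) := by
  constructor
  · intro hG
    haveI : Finite (MulAut G) :=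
      Finite.of_injective (fun φ : MulAut G => (φ : G → G)) DFunLike.coe_injective
    let Hol := SemidirectProduct G (MulAut G) (MonoidHom.id _)
    haveI : Finite Hol := Finite.of_equiv _ SemidirectProduct.equivProd.symm
    let inl : G →* Hol := SemidirectProduct.inl
    have hinj : Function.Injective inl := SemidirectProduct.inl_injective
    haveI hN : (inl.range).Normal := by
      have : inl.range = (SemidirectProduct.rightHom : Hol →* MulAut G).ker :=
        SemidirectProduct.range_inl_eq_ker_rightHom
      rw [this]; infer_instance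
    have hne : inl.range ≠ ⊥ := by
      intro h
      obtain ⟨g, hg⟩ := exists_ne (1 : G)
      have h1 : inl g ∈ inl.range := ⟨g, rfl⟩
      rw [h, Subgroup.mem_bot] at h1
      exact hg (hinj (h1.trans (map_one inl).symm))
    have hmin : ∀ M : Subgroup Hol, M.Normal → M ≤ inl.range → M = ⊥ ∨ M = inl.range := by
      intro M hM hle
      have hch : (M.comap inl).Characteristic := by
        rw [Subgroup.characteristic_iff_le_comap]
        intro φ x hx
        show inl (φ x) ∈ M
        have h1 : inl (φ x) = SemidirectProduct.inr φ * inl x * (SemidirectProduct.inr φ)⁻¹ := by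
          have := SemidirectProduct.inl_aut (φ := MonoidHom.id (MulAut G)) φ x
          rw [map_inv] at this
          exact this
        rw [h1]
        exact hM.conj_mem _ hx _
      have hmap : (M.comap inl).map inl = M := Subgroup.map_comap_eq_self hle
      rcases hG _ hch with h | h
      · left; rw [← hmap, h, Subgroup.map_bot]
      · right; rw [← hmap, h, MonoidHom.range_eq_map]
    obtain ⟨T, iT, m, hT, hm, ⟨e⟩⟩ := Cfsg.Agent.S0721.result inl.range hne hmin
    exact ⟨T, iT, hT, m, hm, ⟨(MonoidHom.ofInjective hinj).trans e⟩⟩
  · rintro ⟨S, iS, hS, n, hn, ⟨e⟩⟩ H hH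
    have hK : (H.map e.toMonoidHom).Characteristic := by
      rw [Subgroup.characteristic_iff_le_comap]
      rintro ψ _ ⟨x, hx, rfl⟩
      show ψ (e x) ∈ H.map e.toMonoidHom
      refine ⟨e.symm (ψ (e x)), ?_, by simp⟩
      have := (Subgroup.characteristic_iff_le_comap.1 hH) ((e.trans ψ).trans e.symm) hx
      exact this
    rcases charSimple_pow _ hK with h | h
    · left
      rw [eq_bot_iff]
      intro x hx
      have : e x ∈ H.map e.toMonoidHom := ⟨x, hx, rfl⟩
      rw [h, Subgroup.mem_bot] at this
      rw [Subgroup.mem_bot]
      exact e.injective (this.trans (map_one e).symm)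
    · right
      rw [eq_top_iff]
      intro x _
      have : e x ∈ H.map e.toMonoidHom := by rw [h]; trivial
      obtain ⟨y, hy, hyx⟩ := this
      have : y = x := e.injective hyx
      rwa [← this]

end Cfsg.Agent.S5914
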